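import Cfsg.Statements.S3362
import Cfsg.Agent.Spor.PermKitExtra

set_option autoImplicit false
open Cfsg

namespace Cfsg.Agent.S3362

open Cfsg.Lib.Spor.PK

def c12 : List Cfsg.Lib.Spor.PK.Cert :=
  [⟨2, [71, 6, 197, 320, 577, 256, 705, 386, 451, 644, 516], [[7, 6, 1, 6, 7, 7, 3, 7], [7, 6, 5, 0, 3, 6, 4, 0,
    5, 6, 7, 7, 6, 5, 0, 2, 7, 4, 1, 5, 6, 7]]⟩,
   ⟨1, [1, 193, 640, 320, 385, 448, 576, 257, 705, 513], [[1, 1, 0, 1, 0, 1, 0, 0, 1], [1, 1, 0, 1, 0, 0, 1, 0,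
    1]]⟩,
   ⟨0, [640, 385, 512, 705, 320, 257, 576, 449, 192], [[0, 1, 0, 1, 0], [1, 1, 0]]⟩,
   ⟨3, [448, 385, 576, 513, 257, 705, 640, 320], [[0, 1, 1, 0, 0], [1, 1, 0, 1]]⟩,
   ⟨4, [384, 513, 320, 449, 704, 576, 641], []⟩]

def c11 : List Cfsg.Lib.Spor.PK.Cert :=
  [⟨1, [6, 197, 320, 577, 256, 705, 386, 451, 644, 516], [[2, 5], [6, 5, 0, 2, 5, 1, 0, 5, 6, 6, 5, 1, 5, 4, 1,
    5, 6]]⟩,
   ⟨0, [192, 705, 640, 257, 576, 449, 513, 320, 385], [[0, 1, 0, 0, 0, 1, 0, 0, 1, 0], [0, 1, 1, 1, 0, 0, 1, 1,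
    0]]⟩,
   ⟨3, [576, 256, 641, 448, 705, 385, 321, 512], [[0, 0, 0, 1, 0, 0], [0, 1, 1, 0, 0, 0, 1, 1, 0]]⟩,
   ⟨4, [384, 641, 320, 705, 448, 576, 513], []⟩]

theorem ctx : Ctx (Equiv.Perm (Fin 12)) 8 12 (Fin.ofNat 12) :=
  ctx_fin 8 12 (by norm_num) (by norm_num) (by norm_num)

theorem sharp {G α : Type*} [Group G] [MulAction G α] [Finite α] {k : ℕ} (y0 : Fin k ↪ α)
    (h : ∀ g : G, (∀ i, g • y0 i = y0 i) → g = 1) (hc : Nat.card G = (Nat.card α).descFactorial k) :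
    MulAction.IsMultiplyPretransitive G α k ∧ ∀ (y : Fin k ↪ α) (g : G), (∀ i, g • y i = y i) → g = 1 := by
  classical
  have := Fintype.ofFinite α
  have hy0 : MulAction.stabilizer G y0 = ⊥ := by
    rw [eq_bot_iff]
    exact fun g hg => h g fun i => DFunLike.congr_fun hg i
  have horb : MulAction.orbit G y0 = Set.univ := by
    apply Set.eq_of_subset_of_ncard_le (Set.subset_univ _)
    have h1 := MulAction.index_stabilizer G y0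
    rw [hy0, Subgroup.index_bot, hc] at h1
    rw [← h1, Set.ncard_univ, Nat.card_eq_fintype_card, Fintype.card_embedding_eq]
    simp
  have hex : ∀ y : Fin k ↪ α, ∃ g : G, g • y0 = y := fun y =>
    (horb ▸ Set.mem_univ y : y ∈ MulAction.orbit G y0)
  refine ⟨⟨fun y z => ?_⟩, fun y g hg => ?_⟩
  · obtain ⟨g, rfl⟩ := hex y
    obtain ⟨k, rfl⟩ := hex z
    exact ⟨k * g⁻¹, by rw [mul_smul, inv_smul_smul]⟩
  · obtain ⟨a, rfl⟩ := hex y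
    have := h (a⁻¹ * g * a) fun i => by
      have := hg i
      rw [Function.Embedding.smul_apply] at this
      rw [mul_smul, mul_smul, this, inv_smul_smul]
    exact (show g = a * (a⁻¹ * g * a) * a⁻¹ by group).trans (by rw [this]; group)


/-- An explicit construction of the Mathieu groups of degrees 11 and 12. On the points 0, …, 11 let s = (3 4 5)(6 7 8)(9 10 11), t = (3 6 9)(4 7 10)(5 8 11), u = (4 6 5 9)(7 8 11 10), v = (4 7 5 11)(6 10 9 8), w = (4 10 5 8)(6 11 9 7), x₁ = (0 3)(6 7)(8 10)(9 11), x₂ = (0 1)(6 9)(7 10)(8 11), x₃ = (1 2)(6 11)(7 9)(8 10) (each written as a product of transpositions). Then the group M₁₂ generated by all eight permutations is sharply 5-transitive on the 12 points and has order 95040, and the group M₁₁ generated by the first seven has order 7920 and is the stabilizer of the point 2 in M₁₂. -/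
theorem result
    (s t u v w x₁ x₂ x₃ : Equiv.Perm (Fin 12))
    (hs : s = Equiv.swap (3 : Fin 12) 5 * Equiv.swap (3 : Fin 12) 4 * Equiv.swap (6 : Fin 12) 8 * Equiv.swap (6 : Fin 12) 7 * Equiv.swap (9 : Fin 12) 11 * Equiv.swap (9 : Fin 12) 10) (ht : t = Equiv.swap (3 : Fin 12) 9 * Equiv.swap (3 : Fin 12) 6 * Equiv.swap (4 : Fin 12) 10 * Equiv.swap (4 : Fin 12) 7 * Equiv.swap (5 : Fin 12) 11 * Equiv.swap (5 : Fin 12) 8)
    (hu : u = Equiv.swap (4 : Fin 12) 9 * Equiv.swap (4 : Fin 12) 5 * Equiv.swap (4 : Fin 12) 6 * Equiv.swap (7 : Fin 12) 10 * Equiv.swap (7 : Fin 12) 11 * Equiv.swap (7 : Fin 12) 8) (hv : v = Equiv.swap (4 : Fin 12) 11 * Equiv.swap (4 : Fin 12) 5 * Equiv.swap (4 : Fin 12) 7 * Equiv.swap (6 : Fin 12) 8 * Equiv.swap (6 : Fin 12) 9 * Equiv.swap (6 : Fin 12) 10) (hw : w = Equiv.swap (4 : Fin 12) 8 * Equiv.swap (4 : Fin 12) 5 * Equiv.swap (4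 : Fin 12) 10 * Equiv.swap (6 : Fin 12) 7 * Equiv.swap (6 : Fin 12) 9 * Equiv.swap (6 : Fin 12) 11)
    (hx₁ : x₁ = Equiv.swap (0 : Fin 12) 3 * Equiv.swap (6 : Fin 12) 7 * Equiv.swap (8 : Fin 12) 10 * Equiv.swap (9 : Fin 12) 11) (hx₂ : x₂ = Equiv.swap (0 : Fin 12) 1 * Equiv.swap (6 : Fin 12) 9 * Equiv.swap (7 : Fin 12) 10 * Equiv.swap (8 : Fin 12) 11)
    (hx₃ : x₃ = Equiv.swap (1 : Fin 12) 2 * Equiv.swap (6 : Fin 12) 11 * Equiv.swap (7 : Fin 12) 9 * Equiv.swap (8 : Fin 12) 10)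
    (M₁₂ M₁₁ : Subgroup (Equiv.Perm (Fin 12))) (hM₁₂ : M₁₂ = Subgroup.closure {s, t, u, v, w, x₁, x₂, x₃})
    (hM₁₁ : M₁₁ = Subgroup.closure {s, t, u, v, w, x₁, x₂}) :
    MulAction.IsMultiplyPretransitive M₁₂ (Fin 12) 5 ∧ (∀ y : Fin 5 ↪ Fin 12, MulAction.stabilizer M₁₂ y = ⊥) ∧
    Nat.card M₁₂ = 95040 ∧ Nat.card M₁₁ = 7920 ∧
    M₁₁ = M₁₂ ⊓ MulAction.stabilizer (Equiv.Perm (Fin 12)) (2 : Fin 12) := by
  have d12 : Dens 8 12 (Fin.ofNat 12) [encL 8 [0, 1, 2, 4, 5, 3, 7, 8, 6, 10, 11, 9], encL 8 [0, 1, 2, 6, 7, 8, 9, 10, 11, 3, 4, 5], encL 8 [0, 1, 2, 3, 6, 9, 5, 8, 11, 4, 7, 10], encL 8 [0, 1, 2, 3, 7, 11, 10, 5, 6, 8, 9, 4], encL 8 [0, 1, 2, 3, 10, 8, 11, 6, 4, 7, 5, 9], encL 8 [3, 1, 2, 0, 4, 5, 7, 6, 10, 11, 8, 9], encL 8 [1, 0, 2, 3, 4, 5, 9, 10, 11, 6, 7, 8], encL 8 [0, 2, 1, 3, 4, 5, 11, 9, 10, 7, 8, 6]] [s, t, u, v, w, x₁, x₂, x₃] := by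
    subst hs ht hu hv hw hx₁ hx₂ hx₃
    exact (List.Forall₂.cons (den_encL ctx rfl (by decide +kernel))
      (List.Forall₂.cons (den_encL ctx rfl (by decide +kernel))
      (List.Forall₂.cons (den_encL ctx rfl (by decide +kernel))
      (List.Forall₂.cons (den_encL ctx rfl (by decide +kernel))
      (List.Forall₂.cons (den_encL ctx rfl (by decide +kernel))
      (List.Forall₂.cons (den_encL ctx rfl (by decide +kernel))
      (List.Forall₂.cons (den_encL ctx rfl (by decide +kernel))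
      (List.Forall₂.cons (den_encL ctx rfl (by decide +kernel))
      List.Forall₂.nil))))))))
  have d11 : Dens 8 12 (Fin.ofNat 12) [encL 8 [0, 1, 2, 4, 5, 3, 7, 8, 6, 10, 11, 9], encL 8 [0, 1, 2, 6, 7, 8, 9, 10, 11, 3, 4, 5], encL 8 [0, 1, 2, 3, 6, 9, 5, 8, 11, 4, 7, 10], encL 8 [0, 1, 2, 3, 7, 11, 10, 5, 6, 8, 9, 4], encL 8 [0, 1, 2, 3, 10, 8, 11, 6, 4, 7, 5, 9], encL 8 [3, 1, 2, 0, 4, 5, 7, 6, 10, 11, 8, 9], encL 8 [1, 0, 2, 3, 4, 5, 9, 10, 11, 6, 7, 8]] [s, t, u, v, w, x₁, x₂] := by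
    subst hs ht hu hv hw hx₁ hx₂
    exact (List.Forall₂.cons (den_encL ctx rfl (by decide +kernel))
      (List.Forall₂.cons (den_encL ctx rfl (by decide +kernel))
      (List.Forall₂.cons (den_encL ctx rfl (by decide +kernel))
      (List.Forall₂.cons (den_encL ctx rfl (by decide +kernel))
      (List.Forall₂.cons (den_encL ctx rfl (by decide +kernel))
      (List.Forall₂.cons (den_encL ctx rfl (by decide +kernel))
      (List.Forall₂.cons (den_encL ctx rfl (by decide +kernel))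
      List.Forall₂.nil)))))))
  have e12 : M₁₂ = gen [s, t, u, v, w, x₁, x₂, x₃] := by
    rw [hM₁₂]; congr 1; ext g; simp
  have e11 : M₁₁ = gen [s, t, u, v, w, x₁, x₂] := by
    rw [hM₁₁]; congr 1; ext g; simp
  have k12 : chk 8 12 c12 [encL 8 [0, 1, 2, 4, 5, 3, 7, 8, 6, 10, 11, 9], encL 8 [0, 1, 2, 6, 7, 8, 9, 10, 11, 3, 4, 5], encL 8 [0, 1, 2, 3, 6, 9, 5, 8, 11, 4, 7, 10], encL 8 [0, 1, 2, 3, 7, 11, 10, 5, 6, 8, 9, 4], encL 8 [0, 1, 2, 3, 10, 8, 11, 6, 4, 7, 5, 9], encL 8 [3, 1, 2, 0, 4, 5, 7, 6, 10, 11, 8, 9], encL 8 [1, 0, 2, 3, 4, 5, 9, 10, 11, 6, 7, 8], encL 8 [0, 2, 1, 3, 4, 5, 11, 9, 10, 7, 8, 6]] = true := by decide +kernel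
  have h12 : Nat.card M₁₂ = 95040 := e12 ▸ card_gen_of_chk ctx d12 k12
  have h11 : Nat.card M₁₁ = 7920 := e11 ▸ card_gen_of_chk (cert := c11) ctx d11 (by decide +kernel)
  obtain ⟨a1, a2⟩ := chk_all ctx d12 k12
  have b0 := a2 0 (by decide)
  have b1 := a2 1 (by decide)
  have b2 := a2 2 (by decide)
  have b3 := a2 3 (by decide)
  have b4 := a2 4 (by decide)
  have c5 := (a1 5 (by decide)).card ctx
  have c1 := (a1 1 (by decide)).card ctx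
  have o5 : order ((lvls 8 12 c12 [encL 8 [0, 1, 2, 4, 5, 3, 7, 8, 6, 10, 11, 9], encL 8 [0, 1, 2, 6, 7, 8, 9, 10, 11, 3, 4, 5], encL 8 [0, 1, 2, 3, 6, 9, 5, 8, 11, 4, 7, 10], encL 8 [0, 1, 2, 3, 7, 11, 10, 5, 6, 8, 9, 4], encL 8 [0, 1, 2, 3, 10, 8, 11, 6, 4, 7, 5, 9], encL 8 [3, 1, 2, 0, 4, 5, 7, 6, 10, 11, 8, 9], encL 8 [1, 0, 2, 3, 4, 5, 9, 10, 11, 6, 7, 8], encL 8 [0, 2, 1, 3, 4, 5, 11, 9, 10, 7, 8, 6]]).drop 5) = 1 := by decide +kernel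
  have o1 : order ((lvls 8 12 c12 [encL 8 [0, 1, 2, 4, 5, 3, 7, 8, 6, 10, 11, 9], encL 8 [0, 1, 2, 6, 7, 8, 9, 10, 11, 3, 4, 5], encL 8 [0, 1, 2, 3, 6, 9, 5, 8, 11, 4, 7, 10], encL 8 [0, 1, 2, 3, 7, 11, 10, 5, 6, 8, 9, 4], encL 8 [0, 1, 2, 3, 10, 8, 11, 6, 4, 7, 5, 9], encL 8 [3, 1, 2, 0, 4, 5, 7, 6, 10, 11, 8, 9], encL 8 [1, 0, 2, 3, 4, 5, 9, 10, 11, 6, 7, 8], encL 8 [0, 2, 1, 3, 4, 5, 11, 9, 10, 7, 8, 6]]).drop 1) = 7920 := by decide +kernel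
  rw [o5, Subgroup.card_eq_one, b4, b3, b2, b1, b0] at c5
  rw [o1, b0] at c1
  change gen [s, t, u, v, w, x₁, x₂, x₃] ⊓ MulAction.stabilizer _ (2 : Fin 12) ⊓
    MulAction.stabilizer _ (1 : Fin 12) ⊓ MulAction.stabilizer _ (0 : Fin 12) ⊓
    MulAction.stabilizer _ (3 : Fin 12) ⊓ MulAction.stabilizer _ (4 : Fin 12) = ⊥ at c5
  change Nat.card ↥(gen [s, t, u, v, w, x₁, x₂, x₃] ⊓ MulAction.stabilizer _ (2 : Fin 12)) = _ at c1
  rw [← e12] at c5 c1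
  let y0 : Fin 5 ↪ Fin 12 := ⟨![2, 1, 0, 3, 4], by decide⟩
  obtain ⟨r1, r2⟩ := sharp (G := M₁₂) y0 (fun g hg' => by
    have : (g : Equiv.Perm (Fin 12)) ∈ (⊥ : Subgroup (Equiv.Perm (Fin 12))) :=
      c5 ▸ ⟨⟨⟨⟨⟨g.2, hg' 0⟩, hg' 1⟩, hg' 2⟩, hg' 3⟩, hg' 4⟩
    exact Subtype.ext this) (by rw [h12]; simp [Nat.descFactorial])
  refine ⟨r1, fun y => ?_, h12, h11, ?_⟩
  · rw [eq_bot_iff]
    exact fun g hg => r2 y g fun i => DFunLike.congr_fun hg i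
  · refine Subgroup.eq_of_le_of_card_ge (le_inf ?_ ?_) (by rw [c1, h11])
    · rw [hM₁₁, hM₁₂]
      refine Subgroup.closure_mono fun g hg => ?_
      simp only [Set.mem_insert_iff, Set.mem_singleton_iff] at hg ⊢
      rcases hg with h | h | h | h | h | h | h <;> simp only [h, true_or, or_true]
    · rw [hM₁₁, Subgroup.closure_le]
      subst hs ht hu hv hw hx₁ hx₂
      intro g hg
      simp only [Set.mem_insert_iff, Set.mem_singleton_iff] at hg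
      rcases hg with rfl | rfl | rfl | rfl | rfl | rfl | rfl <;>
        exact MulAction.mem_stabilizer_iff.2 (by decide +kernel)

end Cfsg.Agent.S3362
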