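import Cfsg.Statements.S2143
import Cfsg.Agent.Class.MinDegO7

set_option autoImplicit false
open Cfsg

namespace Cfsg.Agent.S2143

open Cfsg.Lib.Class

/-- Minimal index of a proper subgroup of the odd-dimensional orthogonal groups: for m ≥ 3 and a field F with q elements, q odd and q ≥ 5, every proper subgroup of PΩ_(2m+1)(F) (for the form x₀² + Σ xᵢyᵢ) has index at least (q^(2m) − 1)/(q − 1), and that index is attained. -/
theorem result {F : Type*} [Field F] [Fintype F] {q : ℕ} (hF : Fintype.card F = q) (hodd : Odd q) (h5 : 5 ≤ q) (m : ℕ) (hm : 3 ≤ m) : (∀ H : Subgroup (Cfsg.POmega F (Cfsg.quadFormOdd m F)), H ≠ ⊤ → (q ^ (2 * m) - 1) / (q - 1) ≤ H.index) ∧ (∃ H : Subgroup (Cfsg.POmega F (Cfsg.quadFormOdd m F)), H.index = (q ^ (2 * m) - 1) / (q - 1)) := by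
  subst hF
  obtain ⟨k, rfl⟩ : ∃ k, m = k + 1 := ⟨m - 1, by omega⟩
  have h2 : (2 : F) ≠ 0 := two_ne_zero_of_odd_card hodd
  have hQ := quadOdd_nondegenerate h2 (k + 1)
  have hn : Module.finrank F (Unit ⊕ (Fin (k + 1) ⊕ Fin (k + 1)) → F) = 2 * (k + 1) + 1 := by
    simp; omega
  have h1 : 1 ≤ Fintype.card F ^ (2 * (k + 1)) := Nat.one_le_pow _ _ Fintype.card_pos
  have hb := Nat.div_mul_cancel (Nat.sub_one_dvd_pow_sub_one (Fintype.card F) (2 * (k + 1)))
  obtain ⟨v, hv0, hv⟩ := Lib.Known.exists_isotropic_of_three_le (quadOdd (k + 1) F) (by omega)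
  rw [← coe_quadOdd]
  refine MD.pomega_min hQ (by omega) (fun Ω _ _ _ _ => MD.le_card_orth hQ (by omega)
    (fun x h3 h4 => MD.num_quadOdd h2 (by omega) (Or.inl ⟨h5, ?_⟩) h3 h4)
    fun x _ ω _ h => by omega) hv0 ?_
  · rw [hb, Nat.sub_add_cancel h1]; ring
  · rw [hv, MD.ncard_ne_zero_field, MD.ncard_ne_zero_sing, hb, Orth.sing_odd hQ hn,
      Nat.card_eq_fintype_card]
end Cfsg.Agent.S2143
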