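import Cfsg.Statements.S2144
import Cfsg.Agent.Class.MinDegO7

set_option autoImplicit false
open Cfsg

namespace Cfsg.Agent.S2144

open Cfsg.Lib.Class

/-- Minimal index of a proper subgroup of the odd-dimensional orthogonal groups over the field with 3 elements: for m ≥ 3, every proper subgroup of PΩ_(2m+1)(3) (for the form x₀² + Σ xᵢyᵢ) has index at least 3^m(3^m − 1)/2, and that index is attained. -/
theorem result {F : Type*} [Field F] [Fintype F] (hF : Fintype.card F = 3) (m : ℕ) (hm : 3 ≤ m) : (∀ H : Subgroup (Cfsg.POmega F (Cfsg.quadFormOdd m F)), H ≠ ⊤ → 3 ^ m * (3 ^ m - 1) / 2 ≤ H.index) ∧ (∃ H : Subgroup (Cfsg.POmega F (Cfsg.quadFormOdd m F)), H.index = 3 ^ m * (3 ^ m - 1) / 2) := by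
  obtain ⟨k, rfl⟩ : ∃ k, m = k + 1 := ⟨m - 1, by omega⟩
  have h2 : (2 : F) ≠ 0 := two_ne_zero_of_odd_card (by rw [hF]; decide)
  have hQ := quadOdd_nondegenerate h2 (k + 1)
  have hn : Module.finrank F (Unit ⊕ (Fin (k + 1) ⊕ Fin (k + 1)) → F) = 2 * (k + 1) + 1 := by
    simp; omega
  have h1 : 1 ≤ 3 ^ (k + 1) := Nat.one_le_pow _ _ (by omega)
  have hb := Nat.div_mul_cancel (Dvd.dvd.mul_left (Nat.sub_one_dvd_pow_sub_one 3 (k + 1))
    (3 ^ (k + 1)))
  have hsq : ∀ μ : F, μ ≠ 0 → μ ^ 2 = 1 := fun μ hμ => by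
    have := FiniteField.pow_card_sub_one_eq_one μ hμ
    rwa [hF] at this
  obtain ⟨v, hv⟩ := Lib.Known.exists_quad_eq hQ (by omega) (-1)
  have hv0 : v ≠ 0 := fun h => by
    rw [h, map_zero] at hv
    exact one_ne_zero (neg_eq_zero.1 hv.symm)
  rw [← coe_quadOdd]
  refine MD.pomega_min hQ (by omega) (fun Ω _ _ _ _ => MD.le_card_orth hQ (by omega)
    (fun x h3 h4 => MD.num_quadOdd h2 (by omega) (Or.inr ⟨hF, ?_⟩) h3 h4)
    fun x _ ω _ h => by omega) hv0 ?_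
  · rw [show 3 - 1 = 2 from rfl] at hb
    rw [hb]
    zify [h1]
    ring
  · have h3 : {μ : F | μ ≠ 0 ∧ μ ^ 2 * (-1) = -1} = {μ : F | μ ≠ 0 ∧ μ ^ 2 * 0 = 0} := by
      ext μ
      exact ⟨fun h => ⟨h.1, mul_zero _⟩, fun h => ⟨h.1, by rw [hsq μ h.1, one_mul]⟩⟩
    have h4 : IsEmpty {z : F // z ^ 2 - -1 = 0} := ⟨fun ⟨z, hz⟩ => by
      by_cases h : z = 0
      · simp [h] at hz
      · exact h2 (by linear_combination hz - hsq z h)⟩
    rw [hv, h3, MD.ncard_ne_zero_field, MD.ncard_ne_zero_eq (by simp), MD.cntQ_quadOdd, hF, hb,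
      Nat.card_of_isEmpty]
    ring
end Cfsg.Agent.S2144
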