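import Cfsg.Statements.S2147
import Cfsg.Agent.Class.MinDegO7

set_option autoImplicit false
open Cfsg

namespace Cfsg.Agent.S2147

open Cfsg.Lib.Class

/-- Minimal index of a proper subgroup of the even-dimensional orthogonal groups of minus type: for m ≥ 4 and a field F with q elements, every proper subgroup of PΩ⁻_2m(F) (for the form Σ_{i<m−1} xᵢyᵢ + z₁² + a z₁z₂ + b z₂² with anisotropic binary part) has index at least (q^m + 1)(q^(m−1) − 1)/(q − 1), and that index is attained. -/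
theorem result {F : Type*} [Field F] [Fintype F] {q : ℕ} (hF : Fintype.card F = q) (m : ℕ) (hm : 4 ≤ m) (a b : F) (hab : ∀ z₁ z₂ : F, z₁ ^ 2 + a * z₁ * z₂ + b * z₂ ^ 2 = 0 → z₁ = 0 ∧ z₂ = 0) : (∀ H : Subgroup (Cfsg.POmega F (Cfsg.quadFormMinus (m - 1) F a b)), H ≠ ⊤ → (q ^ m + 1) * (q ^ (m - 1) - 1) / (q - 1) ≤ H.index) ∧ (∃ H : Subgroup (Cfsg.POmega F (Cfsg.quadFormMinus (m - 1) F a b)), H.index = (q ^ m + 1) * (q ^ (m - 1) - 1) / (q - 1)) := by
  subst hF
  obtain ⟨k, rfl⟩ : ∃ k, m = k + 2 := ⟨m - 2, by omega⟩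
  change (∀ H : Subgroup (Cfsg.POmega F (Cfsg.quadFormMinus (k + 1) F a b)), H ≠ ⊤ →
    (Fintype.card F ^ (k + 2) + 1) * (Fintype.card F ^ (k + 1) - 1) / (Fintype.card F - 1) ≤
      H.index) ∧ (∃ H : Subgroup (Cfsg.POmega F (Cfsg.quadFormMinus (k + 1) F a b)), H.index =
    (Fintype.card F ^ (k + 2) + 1) * (Fintype.card F ^ (k + 1) - 1) / (Fintype.card F - 1))
  have hQ := quadMinus_nondegenerate (k + 1) hab
  have hn : Module.finrank F ((Fin (k + 1) ⊕ Fin (k + 1)) ⊕ Fin 2 → F) = 2 * k + 4 := by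
    simp; omega
  have h1 : 1 ≤ Fintype.card F ^ (k + 1) := Nat.one_le_pow _ _ Fintype.card_pos
  have hb := Nat.div_mul_cancel (Dvd.dvd.mul_left
    (Nat.sub_one_dvd_pow_sub_one (Fintype.card F) (k + 1)) (Fintype.card F ^ (k + 2) + 1))
  obtain ⟨v, hv0, hv⟩ := Lib.Known.exists_isotropic_of_three_le (quadMinus (k + 1) F a b)
    (by omega)
  rw [← coe_quadMinus]
  refine MD.pomega_min hQ (by omega) (fun Ω _ _ _ _ => MD.le_card_orth hQ (by omega)
    (fun x h3 h4 => MD.num_quadMinus (by omega) hab hb h3 h4)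
    fun x _ ω h3 h4 => absurd ⟨_, MD.ts_span h3, h4⟩
      (Lib.Known.not_isPlus_quadMinus (k + 1) hab)) hv0 ?_
  rw [hv, MD.ncard_ne_zero_field, MD.ncard_ne_zero_sing, hb]
  have h3 := Orth.sing_quadMinus (k + 1) hab
  have h4 := Orth.one_le_sing (Q := quadMinus (k + 1) F a b)
  rw [Nat.card_eq_fintype_card] at h3
  zify [h1, h4]
  rw [h3]
  ring
end Cfsg.Agent.S2147
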