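import Cfsg.Statements.S2150
import Cfsg.Agent.Class.MinDegQ4
import Cfsg.Agent.S0303

set_option autoImplicit false
open Cfsg

namespace Cfsg.Agent.S2150

open Cfsg.Lib.Class

/-- Minimal index of a proper subgroup of the four-dimensional unitary groups: for a field F with q² elements, every proper subgroup of PSU₄(q) has index at least (q + 1)(q³ + 1), and that index is attained. -/
theorem result {F : Type*} [Field F] [Fintype F] (q : ℕ) (hF : Fintype.card F = q ^ 2) (hq : 2 ≤ q) : (∀ H : Subgroup (Cfsg.PSU 4 F q), H ≠ ⊤ → (q + 1) * (q ^ 3 + 1) ≤ H.index) ∧ (∃ H : Subgroup (Cfsg.PSU 4 F q), H.index = (q + 1) * (q ^ 3 + 1)) := by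
  obtain ⟨p, hp⟩ := CharP.exists F
  obtain ⟨n, hpp, hn⟩ := FiniteField.card F p
  obtain ⟨k, -, rfl⟩ := (Nat.dvd_prime_pow hpp).1 (show q ∣ p ^ (n : ℕ) from
    ⟨q, by rw [← hn, hF, pow_two]⟩)
  have := Fact.mk hpp
  have hk : k ≠ 0 := by rintro rfl; simp at hq
  have := Fintype.ofFinite (GaloisField p k)
  have hK : Fintype.card (GaloisField p k) = p ^ k := by
    rw [← Nat.card_eq_fintype_card, GaloisField.card p k hk]
  obtain ⟨b, hb⟩ := Lib.Known.exists_aniso (GaloisField p k)
  obtain ⟨e⟩ := S0303.result hK hF 1 b hb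
  obtain ⟨h1, H, h2⟩ := MD.Six.pomega_six hb (n := (p ^ k + 1) * ((p ^ k) ^ 3 + 1)) (by rw [hK])
  refine ⟨fun H hH => ?_, H.comap e.symm.toMonoidHom, ?_⟩
  · rw [← Subgroup.index_comap_of_surjective (f := e.toMonoidHom) _ e.surjective]
    exact h1 _ fun h => hH (Subgroup.comap_injective e.surjective (h.trans (Subgroup.comap_top _).symm))
  · rw [Subgroup.index_comap_of_surjective (f := e.symm.toMonoidHom) _ e.symm.surjective, h2]

end Cfsg.Agent.S2150
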