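import Cfsg.Statements.S3639
import Cfsg.Agent.Perm.SpecMat

set_option autoImplicit false
open Cfsg

namespace Cfsg.Agent.S3639

open Cfsg.Lie Matrix

section
variable {F : Type*} [Field F]

/-- The Gram matrix of `altForm4`. -/
def J4 (F : Type*) [Field F] : Matrix (Fin 4) (Fin 4) F := !![0,0,0,1;0,0,1,0;0,1,0,0;1,0,0,0]

theorem col_rel {g : GL (Fin 4) F} (hg : g ∈ Sp4 F) :
    (g : Matrix (Fin 4) (Fin 4) F)ᵀ * J4 F * g = J4 F := by
  ext i j
  have := hg (Pi.single i 1) (Pi.single j 1)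
  simp only [Units.coeHom_apply, Matrix.mulVec_single_one, altForm4, Matrix.col_apply] at this
  simp only [Matrix.mul_apply, Fin.sum_univ_four, J4, Matrix.transpose_apply]
  simp
  fin_cases i <;> fin_cases j <;> simp at this ⊢ <;> linear_combination this

theorem J4_sq : J4 F * J4 F = 1 := by
  ext i j; fin_cases i <;> fin_cases j <;> simp [J4, Matrix.mul_apply, Fin.sum_univ_four]

theorem mul_J4 {g : Matrix (Fin 4) (Fin 4) F} (hg : gᵀ * J4 F * g = J4 F) :
    g * (J4 F * gᵀ * J4 F) = 1 := by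
  have h1 : (J4 F * gᵀ * J4 F) * g = 1 := by
    rw [mul_assoc, mul_assoc, ← mul_assoc gᵀ, hg, J4_sq]
  exact mul_eq_one_comm.1 h1

theorem row_rel {g : Matrix (Fin 4) (Fin 4) F} (hg : gᵀ * J4 F * g = J4 F) :
    g * J4 F * gᵀ = J4 F := by
  calc g * J4 F * gᵀ = (g * (J4 F * gᵀ * J4 F)) * J4 F := by
        simp only [mul_assoc, J4_sq, mul_one]
    _ = J4 F := by rw [mul_J4 hg, one_mul]

theorem row_entries {g : Matrix (Fin 4) (Fin 4) F} (hg : g * J4 F * gᵀ = J4 F) (k l : Fin 4) :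
    g k 0 * g l 3 + g k 1 * g l 2 + g k 2 * g l 1 + g k 3 * g l 0 = J4 F k l := by
  rw [← congrFun (congrFun hg k) l]
  simp [Matrix.mul_apply, Fin.sum_univ_four, J4]
  ring

theorem col_entries {h : Matrix (Fin 4) (Fin 4) F} (hh : hᵀ * J4 F * h = J4 F) (k l : Fin 4) :
    h 0 k * h 3 l + h 1 k * h 2 l + h 2 k * h 1 l + h 3 k * h 0 l = J4 F k l := by
  rw [← congrFun (congrFun hh k) l]
  simp [Matrix.mul_apply, Fin.sum_univ_four, J4]
  ring

theorem star4_mul [CharP F 2] {g h : Matrix (Fin 4) (Fin 4) F} (hg : g * J4 F * gᵀ = J4 F)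
    (hh : hᵀ * J4 F * h = J4 F) : star4 (g * h) = star4 g * star4 h := by
  have h2 : (2 : F) = 0 := CharTwo.two_eq_zero
  ext p r
  have hp : J4 F (pairOf p).1 (pairOf p).2 = 0 := by fin_cases p <;> simp [J4, pairOf]
  have hq : J4 F (pairOf r).1 (pairOf r).2 = 0 := by fin_cases r <;> simp [J4, pairOf]
  have e1 := row_entries hg (pairOf p).1 (pairOf p).2
  have e2 := col_entries hh (pairOf r).1 (pairOf r).2
  rw [hp] at e1
  rw [hq] at e2
  simp only [star4, Matrix.mul_apply, Fin.sum_univ_four, Matrix.of_apply]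
  generalize (pairOf p).1 = k at *
  generalize (pairOf p).2 = l at *
  generalize (pairOf r).1 = i at *
  generalize (pairOf r).2 = j at *
  simp only [pairOf, Matrix.cons_val_zero, Matrix.cons_val_one, Matrix.cons_val]
  linear_combination (g k 0 * g l 3 - g l 0 * g k 3) * e2 + (h 1 i * h 2 j - h 2 i * h 1 j) * e1 +
    (-(g k 0 * g l 3 - g l 0 * g k 3) * (h 3 i * h 0 j + h 1 i * h 2 j) -
      (h 1 i * h 2 j - h 2 i * h 1 j) * (g k 2 * g l 1 + g k 3 * g l 0)) * h2

theorem star4_one : star4 (1 : Matrix (Fin 4) (Fin 4) F) = 1 := by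
  ext p r
  fin_cases p <;> fin_cases r <;> simp [star4, pairOf, Matrix.one_apply]

theorem mem_Sz [CharP F 2] {n : ℕ} {g : GL (Fin 4) F} (hg : g ∈ Cfsg.Lie.Sz F (2 ^ n)) :
    g ∈ Sp4 F ∧ star4 (g : Matrix (Fin 4) (Fin 4) F) =
      (g : Matrix (Fin 4) (Fin 4) F).map (iterateFrobenius F 2 n) := by
  induction hg using Subgroup.closure_induction with
  | mem x hx => exact ⟨hx.1, hx.2⟩
  | one => exact ⟨one_mem _, by simp [star4_one]⟩
  | mul x y _ _ hx hy =>
    refine ⟨mul_mem hx.1 hy.1, ?_⟩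
    rw [Units.val_mul, star4_mul (row_rel (col_rel hx.1)) (col_rel hy.1), hx.2, hy.2,
      Matrix.map_mul]
  | inv x _ hx =>
    refine ⟨inv_mem hx.1, ?_⟩
    have h1 := star4_mul (row_rel (col_rel hx.1)) (col_rel (inv_mem hx.1))
    rw [← Units.val_mul, mul_inv_cancel, Units.val_one, star4_one, hx.2] at h1
    have h2 : ((x⁻¹ : GL (Fin 4) F) : Matrix (Fin 4) (Fin 4) F).map (iterateFrobenius F 2 n) *
        (x : Matrix (Fin 4) (Fin 4) F).map (iterateFrobenius F 2 n) = 1 := by
      rw [← Matrix.map_mul, ← Units.val_mul, inv_mul_cancel]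
      simp
    calc _ = (((x⁻¹ : GL (Fin 4) F) : Matrix (Fin 4) (Fin 4) F).map (iterateFrobenius F 2 n) *
        (x : Matrix (Fin 4) (Fin 4) F).map (iterateFrobenius F 2 n)) *
          star4 ((x⁻¹ : GL (Fin 4) F) : Matrix (Fin 4) (Fin 4) F) := by rw [h2, one_mul]
      _ = _ := by rw [mul_assoc, ← h1, mul_one]

/-- Sum of the principal `2 × 2` minors. -/
def e2 (g : Matrix (Fin 4) (Fin 4) F) : F :=
  (g 0 0 * g 1 1 - g 1 0 * g 0 1) + (g 0 0 * g 2 2 - g 2 0 * g 0 2) +
  (g 0 0 * g 3 3 - g 3 0 * g 0 3) + (g 1 1 * g 2 2 - g 2 1 * g 1 2) +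
  (g 1 1 * g 3 3 - g 3 1 * g 1 3) + (g 2 2 * g 3 3 - g 3 2 * g 2 3)

theorem cayley4 (g : Matrix (Fin 4) (Fin 4) F) :
    g * g * g * g - g.trace • (g * g * g) + e2 g • (g * g) - g.adjugate.trace • g +
      g.det • (1 : Matrix (Fin 4) (Fin 4) F) = 0 := by
  have hd : g.det = g 0 0 * (g.submatrix (0 : Fin 4).succAbove (0 : Fin 4).succAbove).det
      - g 0 1 * (g.submatrix (0 : Fin 4).succAbove (1 : Fin 4).succAbove).det
      + g 0 2 * (g.submatrix (0 : Fin 4).succAbove (2 : Fin 4).succAbove).det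
      - g 0 3 * (g.submatrix (0 : Fin 4).succAbove (3 : Fin 4).succAbove).det := by
    rw [Matrix.det_succ_row_zero, Fin.sum_univ_four]
    simp
    ring
  have ha : g.adjugate.trace =
      (g.submatrix (0 : Fin 4).succAbove (0 : Fin 4).succAbove).det +
      (g.submatrix (1 : Fin 4).succAbove (1 : Fin 4).succAbove).det +
      (g.submatrix (2 : Fin 4).succAbove (2 : Fin 4).succAbove).det +
      (g.submatrix (3 : Fin 4).succAbove (3 : Fin 4).succAbove).det := by
    rw [Matrix.trace, Fin.sum_univ_four]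
    simp only [Matrix.diag_apply, Matrix.adjugate_fin_succ_eq_det_submatrix]
    simp [← two_mul, pow_mul]
    ring
  have s0 : (0 : Fin 4).succAbove = ![1, 2, 3] := by decide
  have s1 : (1 : Fin 4).succAbove = ![0, 2, 3] := by decide
  have s2 : (2 : Fin 4).succAbove = ![0, 1, 3] := by decide
  have s3 : (3 : Fin 4).succAbove = ![0, 1, 2] := by decide
  rw [hd, ha, s0, s1, s2, s3]
  simp only [Matrix.det_fin_three, Matrix.submatrix_apply, Matrix.cons_val_zero,
    Matrix.cons_val_one, Matrix.cons_val, Matrix.trace, Fin.sum_univ_four, Matrix.diag_apply, e2]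
  ext i j
  fin_cases i <;> fin_cases j <;>
    simp [Matrix.mul_apply, Fin.sum_univ_four, Matrix.one_apply] <;> ring

theorem pow_four_eq_one_of_fixed [CharP F 2] {g : Matrix (Fin 4) (Fin 4) F}
    (hg : gᵀ * J4 F * g = J4 F) (θ : F →+* F) (hs : star4 g = g.map θ) {v : Fin 4 → F}
    (hv : v ≠ 0) (hgv : g *ᵥ v = v) : g ^ 4 = 1 := by
  have h2 : (2 : F) = 0 := CharTwo.two_eq_zero
  have hdet : g.det = 1 := by
    have h1 := congrArg Matrix.det hg
    have hJ : (J4 F).det * (J4 F).det = 1 := by rw [← Matrix.det_mul, J4_sq, Matrix.det_one]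
    rw [Matrix.det_mul, Matrix.det_mul, Matrix.det_transpose] at h1
    have h3 : (g.det - 1) ^ 2 = 0 := by
      linear_combination (J4 F).det * h1 - (g.det ^ 2 - 1) * hJ + (1 - g.det) * h2
    exact sub_eq_zero.1 (pow_eq_zero_iff (two_ne_zero) |>.1 h3)
  have hadj : g.adjugate = J4 F * gᵀ * J4 F := by
    have h1 := Matrix.adjugate_mul g
    rw [hdet, one_smul] at h1
    calc g.adjugate = g.adjugate * (g * (J4 F * gᵀ * J4 F)) := by rw [mul_J4 hg, mul_one]
      _ = _ := by rw [← mul_assoc, h1, one_mul]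
  have htr : g.adjugate.trace = g.trace := by
    rw [hadj, Matrix.trace_mul_cycle, J4_sq, one_mul, Matrix.trace_transpose]
  have he2 : e2 g = θ g.trace := by
    have h1 := congrArg Matrix.trace hs
    have c1 := col_entries hg 0 3
    have c2 := row_entries (row_rel hg) 1 2
    simp only [Matrix.trace, Fin.sum_univ_four, Matrix.diag_apply, star4, pairOf, Matrix.of_apply,
      Matrix.map_apply, Matrix.cons_val_zero, Matrix.cons_val_one, Matrix.cons_val, map_add] at h1 ⊢
    simp only [J4, Matrix.of_apply, Matrix.cons_val', Matrix.cons_val_zero, Matrix.cons_val_one,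
      Matrix.cons_val, Matrix.cons_val_fin_one] at c1 c2
    rw [← h1, e2]
    linear_combination c1 + c2 + (1 - g 3 0 * g 0 3 - g 1 0 * g 2 3 - g 2 0 * g 1 3
      - g 1 2 * g 2 1) * h2
  have hch := cayley4 g
  rw [hdet, htr] at hch
  have hv' := congrArg (fun M => M *ᵥ v) hch
  simp only [Matrix.add_mulVec, Matrix.sub_mulVec, Matrix.smul_mulVec, ← Matrix.mulVec_mulVec, hgv,
    Matrix.one_mulVec, Matrix.zero_mulVec] at hv'
  have hb : e2 g = 0 := by
    obtain ⟨i, hi⟩ := Function.ne_iff.1 hv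
    have := congrFun hv' i
    simp only [Pi.add_apply, Pi.sub_apply, Pi.smul_apply, smul_eq_mul, Pi.zero_apply] at this hi
    apply (mul_eq_zero.1 _).resolve_right hi
    linear_combination this + (g.trace - 1) * v i * h2
  have ha : g.trace = 0 := by
    rw [hb] at he2
    exact (map_eq_zero θ).1 he2.symm
  rw [hb, ha] at hch
  simp only [zero_smul, sub_zero, add_zero, one_smul] at hch
  have h3 : (1 : Matrix (Fin 4) (Fin 4) F) + 1 = 0 := by
    rw [← two_smul F, h2, zero_smul]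
  calc g ^ 4 = (g * g * g * g + 1) + 1 := by
        rw [add_assoc, h3, add_zero, pow_succ, pow_succ, pow_two]
    _ = 1 := by rw [hch, zero_add]

/-- The involution `J` lies in the Suzuki group. -/
def invJ (F : Type*) [Field F] : GL (Fin 4) F := ⟨J4 F, J4 F, J4_sq, J4_sq⟩

theorem invJ_mem [CharP F 2] (n : ℕ) : invJ F ∈ Cfsg.Lie.Sz F (2 ^ n) := by
  apply Subgroup.subset_closure
  refine ⟨?_, ?_⟩
  · intro u v
    simp [invJ, J4, altForm4, Matrix.mulVec, dotProduct, Fin.sum_univ_four]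
    ring
  · ext p r
    fin_cases p <;> fin_cases r <;> simp [star4, pairOf, invJ, J4, CharTwo.neg_eq]

end

/-- Let S be the Suzuki group over the field with q = 2^(2m+1) ≥ 8 elements. Then there are finite groups of arbitrarily large order with the same prime graph as S. -/
theorem result {F : Type*} [Field F] [Fintype F] {m : ℕ} (hm : 1 ≤ m) (hF : Fintype.card F = 2 ^ (2 * m + 1)) (N : ℕ) :
    ∃ (H : Type) (_ : Group H) (_ : Fintype H), N < Fintype.card H ∧ ((∀ r : ℕ, r.Prime → (r ∣ Nat.card ↥(Cfsg.Lie.Sz F (2 ^ (m + 1))) ↔ r ∣ Nat.card H)) ∧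
      (∀ r s : ℕ, r.Prime → s.Prime → r ≠ s → ((∃ x : ↥(Cfsg.Lie.Sz F (2 ^ (m + 1))), orderOf x = r * s) ↔ (∃ y : H, orderOf y = r * s)))) := by
  classical
  have hchar : CharP F 2 := by
    obtain ⟨p, hp, n, hpp, hn⟩ := FiniteField.card' F
    have h2 : p = 2 := by
      have : p ∣ 2 ^ (2 * m + 1) := by
        rw [← hF, hn]; exact dvd_pow_self p n.ne_zero
      exact (Nat.prime_dvd_prime_iff_eq hpp Nat.prime_two).1 (hpp.dvd_of_dvd_pow this)
    exact h2 ▸ hp
  let S := Cfsg.Lie.Sz F (2 ^ (m + 1))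
  let f : S →* Matrix (Fin 4) (Fin 4) F := (Units.coeHom _).comp S.subtype
  have hf : Function.Injective f := Units.val_injective.comp S.subtype_injective
  have h2 : 2 ∣ Nat.card S := by
    have ho : orderOf (⟨invJ F, invJ_mem (m + 1)⟩ : S) = 2 := by
      apply orderOf_eq_prime
      · apply hf
        rw [map_pow, map_one, pow_two]
        exact J4_sq
      · intro h
        have := congrFun (congrFun (congrArg f h) 0) 0
        simp [f, invJ, J4] at this
    exact ho ▸ orderOf_dvd_natCard _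
  obtain ⟨H, _, _, hN, hH⟩ := Cfsg.Lib.Perm.exists_large_samePrimeGraph_of_rep
    (Cfsg.Lib.Perm.matRep f) Nat.prime_two (Cfsg.Lib.Perm.nsmul_fun_eq_zero_of_charP 2) h2
    (fun g v hp hp2 hv hgv => by
      exfalso
      obtain ⟨h1, h3⟩ := mem_Sz g.2
      have h4 := pow_four_eq_one_of_fixed (col_rel h1) _ h3 hv hgv
      have h5 : g ^ 4 = 1 := by
        apply hf
        rw [map_pow, map_one]
        exact h4
      have h6 : orderOf g ∣ 2 ^ 2 := orderOf_dvd_of_pow_eq_one h5
      exact hp2 ((Nat.prime_dvd_prime_iff_eq hp Nat.prime_two).1 (hp.dvd_of_dvd_pow h6))) N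
  exact ⟨H, inferInstance, inferInstance, hN, hH⟩

end Cfsg.Agent.S3639
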