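import Cfsg.Statements.S3857
import Cfsg.Agent.Solv.TwoFrob

set_option autoImplicit false
open Cfsg

namespace Cfsg.Agent.S3857

open Cfsg.Lib.Solv Cfsg.Lib.Solv.TwoFrob Subgroup

theorem aux {G : Type*} [Group G] [Finite G] [Group.IsSolvable G] {π : Set ℕ} (h : PSep π G)
    (h0 : piCore π G ≠ ⊥) (h1 : ¬ IsPiNum π (Nat.card G)) :
    (∃ C : Subgroup G, Cfsg.IsFrobeniusComplement C) ∨
    (∃ (H K : Subgroup G) (_ : H.Normal), K.Normal ∧ H < K ∧
      (∃ C : Subgroup ↥K, Cfsg.IsFrobeniusComplement C ∧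
        Cfsg.frobeniusKernel C = (H.subgroupOf K : Set ↥K)) ∧
      (∃ C : Subgroup (G ⧸ H), Cfsg.IsFrobeniusComplement C ∧
        Cfsg.frobeniusKernel C = (K.map (QuotientGroup.mk' H) : Set (G ⧸ H)))) := by
  obtain ⟨C, hC, -, fH, ht | ⟨D, hD, -⟩⟩ := h.structure h0 h1
  · exact Or.inl ⟨C, (Fpf.frobenius_of_fpf ht h0 hC fH).1⟩
  · exact Or.inr ⟨_, _, inferInstance, hD.normalK, hD.twoFrobenius⟩

/-- A finite solvable group whose prime graph (prime divisors of the order, two distinct primes joined when there is an element of order their product) is disconnected is a Frobenius group or a 2-Frobenius group (it has normal subgroups H < K with K a Frobenius group with kernel H and G/H a Frobenius group with kernel K/H). -/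
theorem result {G : Type*} [Group G] [Finite G] (hsol : Group.IsSolvable G)
    (hdisc : (∃ A : Set ℕ, (∃ a ∈ A, a.Prime ∧ a ∣ Nat.card G) ∧ (∃ b ∉ A, b.Prime ∧ b ∣ Nat.card G) ∧
      ∀ a ∈ A, ∀ b ∉ A, a.Prime → b.Prime → a ∣ Nat.card G → b ∣ Nat.card G → ¬ ∃ g : G, orderOf g = a * b)) :
    (∃ C : Subgroup G, Cfsg.IsFrobeniusComplement C) ∨
    (∃ (H K : Subgroup G) (_ : H.Normal), K.Normal ∧ H < K ∧
      (∃ C : Subgroup ↥K, Cfsg.IsFrobeniusComplement C ∧ Cfsg.frobeniusKernel C = (H.subgroupOf K : Set ↥K)) ∧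
      (∃ C : Subgroup (G ⧸ H), Cfsg.IsFrobeniusComplement C ∧ Cfsg.frobeniusKernel C = (K.map (QuotientGroup.mk' H) : Set (G ⧸ H)))) := by
  obtain ⟨A, ⟨a, haA, ha, haG⟩, ⟨b, hbA, hb, hbG⟩, h⟩ := hdisc
  have hs : PSep A G := fun a ha b hb hap hbp ⟨g, hg⟩ =>
    h a ha b hb hap hbp ((hg ▸ Dvd.intro b rfl : a ∣ orderOf g).trans (orderOf_dvd_natCard g))
      ((hg ▸ Dvd.intro_left a rfl : b ∣ orderOf g).trans (orderOf_dvd_natCard g)) ⟨g, hg⟩
  have : Nontrivial G := Finite.one_lt_card_iff_nontrivial.1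
    (ha.one_lt.trans_le (Nat.le_of_dvd Nat.card_pos haG))
  rcases exists_piCore_ne_bot (G := G) A with h0 | h0
  · exact aux hs h0 fun h1 => hbA (h1 b hb hbG)
  · exact aux hs.compl h0 fun h1 => h1 a ha haG haA

end Cfsg.Agent.S3857
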