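import Cfsg.Statements.S4127
import Cfsg.Agent.Solv.SylowDirect
import Cfsg.Agent.Trans.NormalComplement
import Cfsg.Agent.S0028

set_option autoImplicit false
open Cfsg Cfsg.Lib.Solv

namespace Cfsg.Agent.S4127

/-- Let G be a finite group, p a prime and p^a the largest power of p dividing the size of any conjugacy class of G. If some element of p-power order has a conjugacy class of size exactly p^a, then G has a normal p-complement. -/
theorem result {G : Type*} [Group G] [Finite G] (p : ℕ) [Fact p.Prime]
    (a : ℕ) (hmax : ∀ y : G, ¬ p ^ (a + 1) ∣ (Subgroup.centralizer ({y} : Set G)).index)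
    (hx : ∃ x : G, (∃ k : ℕ, orderOf x = p ^ k) ∧ (Subgroup.centralizer ({x} : Set G)).index = p ^ a) :
    Cfsg.HasNormalPComplement p G := by
  have hp : p.Prime := Fact.out
  obtain ⟨x, ⟨k, hk⟩, hxa⟩ := hx
  set C := Subgroup.centralizer ({x} : Set G) with hC
  have hA : ∀ y ∈ C, (orderOf y).Coprime p →
      ¬ p ∣ (Subgroup.centralizer ({y} : Set G)).relIndex C := by
    intro y hy hyp hd
    apply hmax (x * y)
    rw [ClassSize.cent_mul_of_coprime (ClassSize.mem_cent_iff_commute.1 hy).symm
      (by rw [hk]; exact (hyp.symm.pow_left k)), ← hC,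
      ← Subgroup.relIndex_mul_index (inf_le_left : C ⊓ _ ≤ C), Subgroup.inf_relIndex_left, hxa,
      pow_succ']
    exact mul_dvd_mul_right hd _
  have hxO : x ∈ pCore p G := ClassSize.mem_pCore_of_index_dvd (j := k) (k := a)
    (by rw [← hk, pow_orderOf_eq_one]) (by rw [hxa])
  set K := Subgroup.centralizer (pCore p G : Set G) with hK
  have hKC : K ≤ C := Subgroup.centralizer_le (Set.singleton_subset_iff.2 hxO)
  have hB : ∀ y ∈ C, (orderOf y).Coprime p → y ∈ K := by
    intro y hy hyp
    have h1 := Cfsg.Agent.S0028.result p (Subgroup.zpowers x) (Subgroup.zpowers y) (pCore p G)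
      (IsPGroup.of_card (n := k) (by rw [Nat.card_zpowers, hk])) (by rwa [Nat.card_zpowers])
      (pCore_isPGroup p G)
      (by rw [ClassSize.centralizer_zpowers, Subgroup.zpowers_le]
          exact ClassSize.mem_cent_comm.1 hy)
      Subgroup.le_normalizer_of_normal Subgroup.le_normalizer_of_normal (by
        rw [ClassSize.centralizer_zpowers, ClassSize.centralizer_zpowers, ← hC]
        obtain ⟨n, hn⟩ := ((pCore_isPGroup p G).comap_subtype (K := C)).exists_card_eq
        have h2 : (pCore p G).subgroupOf C ≤ (Subgroup.centralizer ({y} : Set G)).subgroupOf C := by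
          apply le_of_normal_of_coprime_card_index
          have hn' : Nat.card ((pCore p G).subgroupOf C) = p ^ n := hn
          rw [hn']
          exact (hp.coprime_iff_not_dvd.2 (hA y hy hyp)).pow_left n
        intro u hu
        exact h2 (show (⟨u, hu.2⟩ : C) ∈ (pCore p G).subgroupOf C from hu.1))
    exact h1 (Subgroup.mem_zpowers y)
  obtain ⟨m, hm⟩ : ∃ m, K.index = p ^ m := by
    apply exists_index_eq_pow_of_forall_mem
    intro q hq hqp y j hy
    have := Fact.mk hq
    obtain ⟨Q, hQ⟩ := ClassSize.exists_sylow_le_of_not_dvd_index (p := q) (C := C) (by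
      rw [hxa]
      exact fun h => hqp ((Nat.prime_dvd_prime_iff_eq hq hp).1 (hq.dvd_of_dvd_pow h)))
    obtain ⟨R, hR⟩ := ClassSize.exists_sylow_mem_of_pow_eq_one (p := q) (k := j) (x := y)
      (by rw [← hy, pow_orderOf_eq_one])
    obtain ⟨g, rfl⟩ := MulAction.exists_smul_eq G Q R
    obtain ⟨z, hz, rfl⟩ := hR
    have hz' : orderOf z = q ^ j := by
      rw [← hy]
      exact (orderOf_injective (MulAut.conj g).toMonoidHom (MulAut.conj g).injective z).symm
    exact (inferInstance : K.Normal).conj_mem z (hB z (hQ hz) (by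
      rw [hz']
      exact ((Nat.coprime_primes hq hp).2 hqp).pow_left j)) g
  refine Cfsg.Lib.Trans.hasNormalPComplement_of_pResidual_le
    (Cfsg.Lib.Trans.pResidual_le_of_index_eq_pow K hm) ?_
  obtain ⟨P⟩ : Nonempty (Sylow p K) := inferInstance
  obtain ⟨-, L, hL, hLP, -⟩ := sylow_direct_of_not_dvd_index P (fun y hy hd => by
    rw [ClassSize.index_cent_subtype] at hd
    refine hA y (hKC y.2) (by simpa using hy) (hd.trans ?_)
    rw [← Subgroup.relIndex_subgroupOf hKC]
    exact ClassSize.relIndex_dvd_index_of_normal_right _ _)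
  exact ⟨P, L, hL, hLP⟩

end Cfsg.Agent.S4127
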