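import Cfsg.Statements.S3816
-- import your own Cfsg.Agent.* helpers here
import Cfsg.Agent.Solv.FlavFixB

set_option autoImplicit false
open Cfsg

namespace Cfsg.Agent.S3816

open Subgroup SemidirectProduct Cfsg.Lib.Solv Cfsg.Lib.Solv.FlavFix
open scoped commutatorElement

/-- Let p be an odd prime, H a finite solvable group of order prime to p, and x an automorphism of H of order p (so P = ⟨x⟩ has prime order p > 2 and acts coprimely on H). For h ∈ H let [h, P] be the subgroup generated by the commutators h⁻¹·xⁱ(h), and let [H, P] be the subgroup generated by all of these. Then the fixed points of x in [H, P] are generated by the fixed points of x in the subgroups [h, P], h ∈ H. -/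
theorem result {H : Type*} [Group H] [Finite H]
    [Group.IsSolvable H] {p : ℕ} [Fact p.Prime] (hp : p ≠ 2) (hcop : (Nat.card H).Coprime p)
    (x : MulAut H) (hx : orderOf x = p) :
    Subgroup.closure {c : H | ∃ h : H, ∃ i : ℕ, c = h⁻¹ * (x ^ i) h} ⊓ (x : H →* H).eqLocus (MonoidHom.id H) =
      ⨆ h : H, Subgroup.closure {c : H | ∃ i : ℕ, c = h⁻¹ * (x ^ i) h} ⊓ (x : H →* H).eqLocus (MonoidHom.id H) := by
  refine le_antisymm (fun c hc => ?_) (iSup_le fun h =>
    inf_le_inf_right _ (closure_mono fun c ⟨i, hi⟩ => ⟨h, i, hi⟩))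
  have : Finite (MulAut H) := Finite.of_injective _ (DFunLike.coe_injective (F := MulAut H))
  let φ : zpowers x →* MulAut H := (zpowers x).subtype
  have : Finite (H ⋊[φ] zpowers x) := Finite.of_equiv _ equivProd.symm
  let ξ : H ⋊[φ] zpowers x := inr ⟨x, mem_zpowers x⟩
  have hξ : ∀ i : ℕ, ξ ^ i = inr ⟨x ^ i, pow_mem (mem_zpowers x) i⟩ := fun i => by
    rw [← map_pow]; rfl
  have hinv : ∀ S : Subgroup H, (∀ s ∈ S, x s ∈ S) → ∀ a : zpowers x, ∀ s ∈ S, φ a s ∈ S := by
    intro S hS a s hs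
    obtain ⟨n, hn⟩ := (mem_powers_iff_mem_zpowers.2 a.2 : (a : MulAut H) ∈ Submonoid.powers x)
    change (a : MulAut H) s ∈ S
    rw [← hn]
    clear hn
    induction n with
    | zero => exact hs
    | succ n ih => change (x ^ (n + 1)) s ∈ S; rw [pow_succ']; exact hS _ ih
  let hat : ∀ S : Subgroup H, (∀ s ∈ S, x s ∈ S) → Subgroup (H ⋊[φ] zpowers x) := fun S hS =>
    { carrier := {g | g.left ∈ S}
      one_mem' := S.one_mem
      mul_mem' := fun {a b} ha hb => S.mul_mem ha (hinv S hS _ _ hb)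
      inv_mem' := fun {a} ha => hinv S hS _ _ (S.inv_mem ha) }
  have hCX : ∀ g : H ⋊[φ] zpowers x, g ∈ CX ξ ↔ x g.left = g.left := fun g => by
    rw [mem_CX, SemidirectProduct.ext_iff]
    simp only [ξ, mul_left, mul_right, left_inr, right_inr, map_one, one_mul, mul_one]
    exact and_iff_left (mul_comm' _ _)
  have hm := main (Fact.out : p.Prime) hp (H ⋊[φ] zpowers x) (inl (φ := φ)).range ξ
    (by rw [hξ]; exact (congrArg inr (Subtype.ext (hx ▸ pow_orderOf_eq_one x))).trans (map_one _))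
    (by rw [range_inl_eq_ker_rightHom]; exact le_normalizer_of_normal)
    (Group.isSolvable_of_surjective (inl (φ := φ)).rangeRestrict_surjective)
    (by rwa [← Nat.card_congr (MonoidHom.ofInjective inl_injective).toEquiv])
  set D := ⨆ h : H, Subgroup.closure {c : H | ∃ i : ℕ, c = h⁻¹ * (x ^ i) h} ⊓
    (x : H →* H).eqLocus (MonoidHom.id H) with hD
  have hD' : ∀ s ∈ D, x s ∈ D := fun s hs => by
    have h1 : x s = s := (iSup_le fun _ => inf_le_right : D ≤ _) hs
    rwa [h1]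
  have h1 : EX ξ ≤ hat D hD' := iSup_le fun g => by
    let K := Subgroup.closure {c : H | ∃ i : ℕ, c = g.left⁻¹⁻¹ * (x ^ i) g.left⁻¹}
    have hK1 : ∀ i : ℕ, g.left⁻¹⁻¹ * (x ^ i) g.left⁻¹ ∈ K := fun i => subset_closure ⟨i, rfl⟩
    have hK : K ≤ K.comap (x : H →* H) := (closure_le _).2 (by
      rintro _ ⟨i, rfl⟩
      change x _ ∈ K
      have h2 := K.mul_mem (K.inv_mem (hK1 1)) (hK1 (i + 1))
      rw [pow_succ' x i, MulAut.mul_apply] at h2
      simpa using h2)
    have h2 : BX ξ g ≤ hat K hK := by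
      refine sup_le (zpowers_le.2 K.one_mem) (zpowers_le.2 ?_)
      change (g * ξ * g⁻¹).left ∈ K
      have h3 : (g * ξ * g⁻¹).left = g.left * φ (g.right * ⟨x, mem_zpowers x⟩ * g.right⁻¹)
          g.left⁻¹ := by simp [ξ]
      rw [h3, mul_comm' g.right, mul_inv_cancel_right]
      have h4 := hK1 1
      rwa [inv_inv, pow_one] at h4
    intro a ha
    exact mem_iSup_of_mem g.left⁻¹ ⟨h2 ha.1, (hCX a).1 ha.2⟩
  refine h1 (hm (mem_inf.2 ⟨?_, (hCX (inl c)).2 hc.2⟩))
  refine ((closure_le (K := ⁅(inl (φ := φ)).range, zpowers ξ⁆.comap inl)).2 ?_) hc.1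
  rintro _ ⟨h, i, rfl⟩
  have h2 : (inl (h⁻¹ * (x ^ i) h) : H ⋊[φ] zpowers x) =
      ⁅(inl h⁻¹ : H ⋊[φ] zpowers x), ξ ^ i⁆ := by
    rw [hξ, commutatorElement_def, ← map_inv, ← map_inv, inv_inv, map_mul, mul_assoc, mul_assoc,
      ← mul_assoc (inr _), ← inl_aut]
    rfl
  change (inl (h⁻¹ * (x ^ i) h) : H ⋊[φ] zpowers x) ∈ ⁅(inl (φ := φ)).range, zpowers ξ⁆
  rw [h2]
  exact commutator_mem_commutator ⟨_, rfl⟩ (pow_mem (mem_zpowers ξ) i)

end Cfsg.Agent.S3816
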