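import Cfsg.Statements.S1329
import Cfsg.Agent.Trans.SigGen
import Cfsg.Agent.FT.Final

set_option autoImplicit false
open Cfsg

namespace Cfsg.Agent.S1329

open Pointwise Cfsg.Lib.Solv Cfsg.Lib.FT Cfsg.Lib.Trans Cfsg.Lib.Trans.Sig
open scoped commutatorElement


/-- Let A be an abelian 2-subgroup of the finite group G, B ≤ A, and Y a subgroup of odd order normalized by A with ⁅Y, A⁆ = Y. Then Y ∩ C_G(B) is generated by the subgroups Y ∩ C_G(B) ∩ ⁅Y ∩ C_G(B₀), A⁆, B₀ ranging over the subgroups of B with B / B₀ cyclic. -/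
theorem result {G : Type*} [Group G] [Finite G] (A B Y : Subgroup G) (hA2 : IsPGroup 2 ↥A) (hAc : IsMulCommutative ↥A) (hB : B ≤ A) (hYodd : Odd (Nat.card ↥Y)) (hAY : A ≤ Subgroup.normalizer (Y : Set G)) (hYA : ⁅Y, A⁆ = Y) : Y ⊓ Subgroup.centralizer (B : Set G) = ⨆ B₀ : {B₀ : Subgroup G // B₀ ≤ B ∧ ∀ [(B₀.subgroupOf B).Normal], IsCyclic (↥B ⧸ B₀.subgroupOf B)}, Y ⊓ Subgroup.centralizer (B : Set G) ⊓ ⁅Y ⊓ Subgroup.centralizer ((B₀ : Subgroup G) : Set G), A⁆ := by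
  refine le_antisymm ?_ (iSup_le fun _ => inf_le_left)
  have : Fact (Nat.Prime 2) := ⟨Nat.prime_two⟩
  have hc : (Nat.card Y).Coprime (Nat.card A) :=
    (cop_of_not_dvd hA2 (Odd.not_two_dvd_nat hYodd)).symm
  have hn : A ≤ 𝐍 (Y ⊓ 𝐂 B) := norms_subcent hAY (sub_abelian_norm hAc hB)
  have key : ∀ B₀ ≤ B, (∃ b ∈ B, B₀ ⊔ Subgroup.zpowers b = B) →
      Y ⊓ 𝐂 B ⊓ ⁅Y ⊓ 𝐂 B₀, A⁆ ≤ ⨆ B₀ : {B₀ : Subgroup G // B₀ ≤ B ∧
        ∀ [(B₀.subgroupOf B).Normal], IsCyclic (↥B ⧸ B₀.subgroupOf B)},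
        Y ⊓ 𝐂 B ⊓ ⁅Y ⊓ 𝐂 (B₀ : Subgroup G), A⁆ := by
    rintro B₀ h1 ⟨b, hb, h2⟩
    refine le_iSup (fun B₀ : {B₀ : Subgroup G // B₀ ≤ B ∧
        ∀ [(B₀.subgroupOf B).Normal], IsCyclic (↥B ⧸ B₀.subgroupOf B)} =>
        Y ⊓ 𝐂 B ⊓ ⁅Y ⊓ 𝐂 (B₀ : Subgroup G), A⁆) ⟨B₀, h1, ?_⟩
    intro _
    have h3 := (cyclic_img_iff (f := qmk B B₀) le_rfl).2
      ⟨b, hb, by rw [ker_qmk h1, sup_comm, h2]⟩
    rw [img_qmk_self] at h3
    exact isCyclic_of_surjective _ Subgroup.topEquiv.surjective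
  conv_lhs => rw [← coprime_cent_prod hn (coprimeSg inf_le_left hc) (Or.inl (abelian_sol hAc))]
  refine sup_le (le_trans (le_inf (commg_subl.2 hn) le_rfl) (key B le_rfl ⟨1, B.one_mem, by simp⟩)) ?_
  refine le_trans (inf_le_inf_right _ (inf_le_left.trans hYA.ge))
    (graded_coc hAc hAY hc (odd_order_solvable hYodd) ?_)
  rintro A₀ ⟨h1, a, ha, h2⟩
  have := normal_subgroupOf (sub_abelian_norm hAc h1)
  have h3 := cyclicS (img_mono (qmk A A₀) hB) ((cyclic_img_iff (f := qmk A A₀) le_rfl).2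
    ⟨a, ha, by rw [ker_qmk h1, sup_comm, h2]⟩)
  obtain ⟨b, hb, h4⟩ := (cyclic_img_iff hB).1 h3
  rw [ker_qmk h1] at h4
  have hb' : Subgroup.zpowers b ≤ B := Subgroup.zpowers_le.2 hb
  refine le_trans (le_inf (inf_le_inf ?_ (centS hB)) (inf_le_left.trans ?_))
    (key (A₀ ⊓ B) inf_le_right ⟨b, hb, ?_⟩)
  · exact (commgSS inf_le_left le_rfl).trans hYA.le
  · exact commgSS (inf_le_inf_left _ (centS inf_le_left)) le_rfl
  · rw [← sup_inf_assoc_of_le_normalizer' ((hb'.trans hB).trans (sub_abelian_norm hAc h1)) hb',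
      inf_eq_right, sup_comm]
    exact h4

end Cfsg.Agent.S1329
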