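import Cfsg.Statements.S3996
import Cfsg.Agent.Solv.FrobCount
import Cfsg.Agent.Cor.OddSol
import Cfsg.Agent.Char.Burnside

set_option autoImplicit false
open Cfsg

namespace Cfsg.Agent.S3996

open Cfsg.Lib.Solv.Count Subgroup

theorem totient_dvd {G : Type*} [Group G] [Finite G] (m : ℕ) :
    m.totient ∣ cnt (fun g : G => orderOf g = m) := by
  classical
  refine Lib.Solv.Frob.dvd_cnt_of_rel _ (fun x y => zpowers x = zpowers y)
    ⟨fun _ => rfl, Eq.symm, Eq.trans⟩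
    (fun x y hx h => by rw [← Nat.card_zpowers, ← h, Nat.card_zpowers, hx]) fun x hx => ?_
  have := Fintype.ofFinite (zpowers x)
  have hc : Fintype.card (zpowers x) = m := by rw [← Nat.card_eq_fintype_card, Nat.card_zpowers, hx]
  rw [← IsCyclic.card_orderOf_eq_totient (α := zpowers x) hc.symm.dvd, ← cnt_eq_card_filter]
  refine dvd_of_eq (cnt_congr_inj Subtype.val Subtype.val_injective (fun y => ⟨fun h => ?_,
    fun h => ?_⟩) fun y hy => ⟨⟨y, hy ▸ mem_zpowers y⟩, rfl⟩)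
  · refine (eq_of_le_of_card_ge (zpowers_le.2 y.2) ?_).symm
    rw [Nat.card_zpowers, Nat.card_zpowers, orderOf_coe, h, hx]
  · rw [← orderOf_coe, ← Nat.card_zpowers, ← h, Nat.card_zpowers, hx]

theorem prime_dvd {G : Type*} [Group G] [Finite G] {p d : ℕ} (hp : p.Prime) (hG : p ∣ Nat.card G)
    (hd : ¬ p ∣ d) :
    p ∣ cnt (fun g : G => orderOf g = d) + cnt (fun g : G => orderOf g = p * d) := by
  have h := Lib.Solv.Frob.gcd_dvd_cnt_pow (⊤ : Subgroup G) p (fun y => orderOf y = d)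
    fun x g _ hx => ((MulAut.conj g).orderOf_eq x).trans hx
  rw [card_top, Nat.gcd_eq_left hG, cnt_add _ fun x => ¬ p ∣ orderOf x] at h
  convert h using 2 <;> refine cnt_congr fun x => ?_
  · rw [orderOf_pow' _ hp.ne_zero]
    refine ⟨fun h => ⟨?_, h ▸ hd⟩, fun h => ?_⟩
    · rw [h, (hp.coprime_iff_not_dvd.2 hd).symm.gcd_eq_one, Nat.div_one]
    · rw [← h.1, (hp.coprime_iff_not_dvd.2 h.2).symm.gcd_eq_one, Nat.div_one]
  · rw [not_not]
    refine ⟨fun h => ⟨?_, h ▸ dvd_mul_right _ _⟩, fun h => ?_⟩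
    · rw [orderOf_pow_of_dvd hp.ne_zero (h ▸ dvd_mul_right _ _), h, Nat.mul_div_cancel_left _ hp.pos]
    · rw [← h.1, orderOf_pow_of_dvd hp.ne_zero h.2, Nat.mul_div_cancel' h.2]


/-- A finite group in which the numbers of elements of each order that occurs (the numbers #{g : o(g) = m}, m ranging over the element orders) take exactly three different values is solvable. -/
theorem result {G : Type*} [Group G] [Finite G] (h : (((fun m : ℕ => Nat.card {g : G // orderOf g = m}) '' Set.range (orderOf : G → ℕ))).ncard = 3) : Group.IsSolvable G := by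
  classical
  by_contra hs
  obtain ⟨s, hsd⟩ : ∃ s : ℕ → ℕ, s = fun m => cnt (fun g : G => orderOf g = m) := ⟨_, rfl⟩
  change ((fun m => cnt (fun g : G => orderOf g = m)) '' _).ncard = 3 at h
  rw [← hsd] at h
  have hT : ∀ m, m.totient ∣ s m := fun m => hsd ▸ totient_dvd m
  have hP : ∀ p d, p.Prime → p ∣ Nat.card G → ¬ p ∣ d → p ∣ s d + s (p * d) :=
    fun p d hp h1 h2 => hsd ▸ prime_dvd hp h1 h2
  have h1 : s 1 = 1 := hsd ▸ cnt_eq_one orderOf_one fun x hx => orderOf_eq_one_iff.1 hx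
  have hV : ∀ m, s m ≠ 0 → s m ∈ s '' Set.range (orderOf : G → ℕ) := fun m hm =>
    ⟨m, exists_of_cnt_ne_zero (by rwa [hsd] at hm), rfl⟩
  have h3 : ∀ a b c d, s a ≠ 0 → s b ≠ 0 → s c ≠ 0 → s d ≠ 0 → s a ≠ s b → s a ≠ s c →
      s b ≠ s c → s d = s a ∨ s d = s b ∨ s d = s c := by
    intro a b c d ha hb hc hd hab hac hbc
    have := Set.eq_of_subset_of_ncard_le (s := {s a, s b, s c})
      (by rintro _ (rfl | rfl | rfl); exacts [hV _ ha, hV _ hb, hV _ hc])
      (h.trans (Set.ncard_eq_three.2 ⟨_, _, _, hab, hac, hbc, rfl⟩).symm).le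
      ((Set.finite_range _).image _)
    have h4 := hV d hd
    rw [← this] at h4
    exact h4
  have h2G := Lib.Cor.even_card_of_not_isSolvable hs
  have h2 := hP 2 1 Nat.prime_two h2G (by norm_num)
  obtain ⟨p, hp, hpG, hp2⟩ : ∃ p, p.Prime ∧ p ∣ Nat.card G ∧ p ≠ 2 := by
    by_contra hn
    push Not at hn
    exact hs (Lib.Char.isSolvable_of_prime_dvd_card Nat.prime_two Nat.prime_two G
      fun r hr hrG => Or.inl (hn r hr hrG))
  obtain ⟨q, hq, hqG, hq2, hqp⟩ : ∃ q, q.Prime ∧ q ∣ Nat.card G ∧ q ≠ 2 ∧ q ≠ p := by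
    by_contra hn
    push Not at hn
    exact hs (Lib.Char.isSolvable_of_prime_dvd_card Nat.prime_two hp G
      fun r hr hrG => (em _).imp_right (hn r hr hrG))
  have hA : ∀ p, p.Prime → p ∣ Nat.card G → p ≠ 2 → 2 ∣ p.totient ∧ 2 ∣ s p ∧ s p ≠ 0 ∧
      p ∣ 1 + s p ∧ ¬ p ∣ 1 ∧ ¬ p ∣ 2 ∧ ¬ p ∣ 4 ∧ Nat.Coprime 4 p := fun p hp hpG hp2 => by
    have e1 := (Nat.totient_even (lt_of_le_of_ne hp.two_le hp2.symm)).two_dvd
    have e2 := hP p 1 hp hpG hp.not_dvd_one
    have e3 : ¬ p ∣ 2 := fun h => hp2 ((Nat.prime_dvd_prime_iff_eq hp Nat.prime_two).1 h)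
    have e4 : ¬ p ∣ 4 := fun h => e3 (hp.dvd_of_dvd_pow (n := 2) h)
    rw [mul_one, h1] at e2
    exact ⟨e1, e1.trans (hT p), fun h => hp.not_dvd_one (by simpa [h] using e2), e2,
      hp.not_dvd_one, e3, e4, (hp.coprime_iff_not_dvd.2 e4).symm⟩
  obtain ⟨a1, a2, a3, a4, a5, a6, a7, a8⟩ := hA p hp hpG hp2
  obtain ⟨b1, b2, b3, b4, b5, b6, b7, b8⟩ := hA q hq hqG hq2
  have hpq : ¬ p ∣ q := fun h => hqp ((Nat.prime_dvd_prime_iff_eq hp hq).1 h).symm
  have hqp' : ¬ q ∣ p := fun h => hqp ((Nat.prime_dvd_prime_iff_eq hq hp).1 h)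
  have c1 := hP p q hp hpG hpq
  have c2 := hP q p hq hqG hqp'
  have c3 : 4 ∣ s (p * q) := ((Nat.totient_mul (hp.coprime_iff_not_dvd.2 hpq)) ▸
    mul_dvd_mul a1 b1).trans (hT _)
  rw [mul_comm] at c2
  rw [h1, mul_one] at h2
  by_cases hs2 : s 2 = 1
  swap
  · have k := fun d hd => h3 1 2 p d (by omega) (by omega) a3 hd (by omega) (by omega) (by omega)
    have k1 : s q = s p := by have := k q b3; omega
    have k2 : s (p * q) = 0 ∨ s (p * q) = s p := by have := k (p * q); omega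
    rw [k1] at c1
    rcases k2 with k2 | k2 <;> rw [k2] at c1
    · exact a5 ((Nat.dvd_add_iff_left c1).2 a4)
    · exact a6 ((Nat.dvd_add_iff_left c1).2 (by rw [show 2 + (s p + s p) = 1 + s p + (1 + s p) by ring]; exact a4.add a4))
  have h4G : 4 ∣ Nat.card G := by
    obtain ⟨T⟩ : Nonempty (Sylow 2 G) := inferInstance
    by_contra h4
    refine hs (Lib.Cor.isSolvable_of_isCyclic_sylow_two T ?_)
    obtain ⟨k, hk⟩ := T.isPGroup'.exists_card_eq
    rcases k with _ | _ | k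
    · exact haveI := (Nat.card_eq_one_iff_unique.1 hk).1; isCyclic_of_subsingleton
    · exact isCyclic_of_prime_card (p := 2) hk
    · exact absurd ((Dvd.intro_left (2 ^ k) (by rw [hk]; ring)).trans
        (Subgroup.card_subgroup_dvd_card _)) h4
  have h4 : 4 ∣ s 1 + (s 2 + s 4) := by
    have := Fintype.ofFinite G
    have e := Lib.Solv.Frob.dvd_card_pow_eq_one h4G
    have e' := sum_card_orderOf_eq_card_pow_eq_one (G := G) (n := 4) (by norm_num)
    rw [show Nat.divisors 4 = {1, 2, 4} by decide] at e'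
    rw [← cnt_def, cnt_eq_card_filter] at e
    have e2 : 4 ∣ ∑ m ∈ ({1, 2, 4} : Finset ℕ), s m := by
      simp only [hsd, cnt_eq_card_filter]
      exact e.trans (dvd_of_eq (by convert e'.symm))
    simpa using e2
  have hB : ∀ m n, s m ≠ 0 → s n ≠ 0 → 2 ∣ s m → 2 ∣ s n → s m ≠ s 4 → s n ≠ s 4 → s m = s n :=
    fun m n hm hn _ _ _ _ => by
      have := h3 1 4 m n (by omega) (by omega) hm hn (by omega) (by omega) (by omega); omega
  have hC : ∀ p, p.Prime → p ∣ Nat.card G → p ≠ 2 → s p = s 4 →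
      s (p * 4) ≠ 0 ∧ 4 ∣ s (p * 4) ∧ ∀ n, 4 ∣ s n → ¬ p ∣ s (p * 4) + s n := by
    intro p hp hpG hp2 he
    obtain ⟨a1, a2, a3, a4, a5, a6, a7, a8⟩ := hA p hp hpG hp2
    have e1 := hP p 4 hp hpG a7
    have e2 : 4 ∣ s (p * 4) := ((Nat.totient_mul a8.symm) ▸
      mul_dvd_mul a1 (dvd_refl 2)).trans (hT _)
    rw [← he] at e1
    have e3 : ¬ p ∣ s (p * 4) := fun h =>
      a5 ((Nat.dvd_add_iff_left ((Nat.dvd_add_iff_left h).2 e1)).2 a4)
    refine ⟨fun h => e3 (by simp [h]), e2, fun n hn h => ?_⟩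
    by_cases h0 : s n = 0
    · exact e3 (by simpa [h0] using h)
    rw [hB n (p * 4) h0 (fun h => e3 (by simp [h])) (by omega) (by omega) (by omega) (by omega)] at h
    exact e3 ((hp.dvd_mul.1 (by rwa [two_mul])).resolve_left a6)
  by_cases e1 : s p = s 4
  · obtain ⟨f1, f2, f3⟩ := hC p hp hpG hp2 e1
    by_cases e2 : s q = s 4
    · obtain ⟨g1, g2, -⟩ := hC q hq hqG hq2 e2
      refine f3 (p * (q * 4)) ?_ ?_
      · refine Dvd.dvd.trans ?_ (hT _)
        rw [mul_left_comm, mul_comm, Nat.totient_mul (Nat.Coprime.mul_left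
          (hp.coprime_iff_not_dvd.2 hpq) (hq.coprime_iff_not_dvd.2 b7).symm),
          Nat.totient_mul a8.symm]
        exact (mul_dvd_mul a1 (dvd_refl 2)).mul_right _
      · rw [hB (p * 4) (q * 4) f1 g1 (by omega) (by omega) (by omega) (by omega)]
        exact hP p _ hp hpG fun h => (hp.dvd_mul.1 h).elim hpq a7
    · exact f3 _ c3 (hB q (p * 4) b3 f1 b2 (by omega) e2 (by omega) ▸ c1)
  by_cases e2 : s q = s 4
  · obtain ⟨f1, f2, f3⟩ := hC q hq hqG hq2 e2
    exact f3 _ c3 (hB p (q * 4) a3 f1 a2 (by omega) e1 (by omega) ▸ c2)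
  rw [hB q p b3 a3 b2 a2 e2 e1] at c1
  by_cases h0 : s (p * q) = 0
  · rw [h0] at c1
    exact a5 ((Nat.dvd_add_iff_left c1).2 a4)
  · rw [hB (p * q) p h0 a3 (by omega) a2 (by omega) e1] at c1
    exact a6 ((Nat.dvd_add_iff_left c1).2 (by rw [show 2 + (s p + s p) = 1 + s p + (1 + s p) by ring]; exact a4.add a4))

end Cfsg.Agent.S3996
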