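import Cfsg.Statements.S4221
import Cfsg.Agent.Perm.Hall4

set_option autoImplicit false
open Cfsg

namespace Cfsg.Agent.S4221

open MulAction Equiv Cfsg.Lib.Perm Cfsg.Lib.Trans

theorem eq_alt {α : Type*} [Fintype α] [DecidableEq α] (G : Subgroup (Perm α)) (h : 6 ≤ Fintype.card α)
    (hodd : KOdd G α 4) (hle : alternatingGroup α ≤ G) : G = alternatingGroup α := by
  have : Nontrivial α := Fintype.one_lt_card_iff_nontrivial.1 (by omega)
  have h1 : G.index ∣ 2 := alternatingGroup.index_eq_two (α := α) ▸ Subgroup.index_dvd_of_le hle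
  rcases (Nat.dvd_prime Nat.prime_two).1 h1 with h2 | h2
  · exfalso
    rw [Subgroup.index_eq_one] at h2
    obtain ⟨a, b, hab⟩ := exists_pair_ne α
    obtain ⟨s, hs, hs4⟩ := Finset.exists_subset_card_eq (s := ({a, b} : Finset α)ᶜ) (n := 4)
      (by rw [Finset.card_compl, Finset.card_pair hab]; omega)
    have := hodd ⟨swap a b, h2 ▸ Subgroup.mem_top _⟩ s hs4 (fun x hx => by
      have := hs hx
      simp only [Finset.mem_compl, Finset.mem_insert, Finset.mem_singleton, not_or] at this
      exact swap_apply_of_ne_of_ne this.1 this.2)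
    rw [← Subgroup.orderOf_coe, Perm.IsSwap.orderOf ⟨a, b, hab, rfl⟩] at this
    exact absurd this (by decide)
  · exact Perm.eq_alternatingGroup_of_index_eq_two h2

/-- Let `G` be a `4`-fold transitive permutation group on a finite set of `n` points in which the pointwise stabilizer of some four distinct points has odd order. Then `n = 4` or `n = 5` with `G` the full symmetric group, or `n = 6` or `n = 7` with `G` the alternating group, or `n = 11` and `G` has order `7920`. -/
theorem result {α : Type*} [Fintype α] [DecidableEq α] (G : Subgroup (Equiv.Perm α)) (hG : MulAction.IsMultiplyPretransitive G α 4) (x : Fin 4 ↪ α) (hodd : Odd (Nat.card (MulAction.stabilizer G x))) : ((Fintype.card α = 4 ∨ Fintype.card α = 5) ∧ G = ⊤) ∨ ((Fintype.card α = 6 ∨ Fintype.card α = 7) ∧ G = alternatingGroup α) ∨ (Fintype.card α = 11 ∧ Nat.card G = 7920) := by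
  have hn : 4 ≤ Fintype.card α := by simpa using Fintype.card_le_of_embedding x
  have hn' : 4 ≤ Nat.card α := by rwa [Nat.card_eq_fintype_card]
  have hx : stabilizer G x = fixF G (Finset.univ.map x) := by
    ext g
    simp only [mem_stabilizer_iff, mem_fixF, Finset.mem_map, Finset.mem_univ, true_and,
      forall_exists_index, forall_apply_eq_imp_iff]
    exact Function.Embedding.ext_iff
  have hcard : ∀ s : Finset α, s.card = 4 → Nat.card (fixF G s) = Nat.card (stabilizer G x) := by
    intro s hs
    obtain ⟨g, hg⟩ := exists_cj_fixF hG hn' (s := Finset.univ.map x) (by simp) hs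
    rw [← hg, card_cj, hx]
  have hK : KOdd G α 4 := fun g s hs hg =>
    (hcard s hs ▸ hodd).of_dvd_nat (Subgroup.orderOf_dvd_natCard _ (mem_fixF.2 hg))
  have hind : (stabilizer G x).index = (Fintype.card α).descFactorial 4 := by
    rw [@index_stabilizer_of_transitive G (Fin 4 ↪ α) _ _ x hG, Nat.card_eq_fintype_card, Fintype.card_embedding_eq,
      Fintype.card_fin]
  have hG1 := (stabilizer G x).card_mul_index
  have hG2 := G.card_mul_index
  rw [hind] at hG1
  rw [Nat.card_perm, Nat.card_eq_fintype_card (α := α)] at hG2
  rcases Nat.even_or_odd (Fintype.card α) with ⟨k, hk⟩ | hpar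
  · have := he_bound le_rfl _ α G rfl hG hK hn (by unfold Nat.ModEq; omega)
    rcases (by omega : Fintype.card α = 4 ∨ Fintype.card α = 6) with h | h
    · refine Or.inl ⟨Or.inl h, Perm.eq_top_of_isMultiplyPretransitive ?_⟩
      rw [Nat.card_eq_fintype_card, h]
      exact isMultiplyPretransitive_of_le (n := 4) (by norm_num) hn'
    · refine Or.inr (Or.inl ⟨Or.inl h, eq_alt G h.ge hK (IsMultiplyPretransitive.alternatingGroup_le _ G ?_)⟩)
      rwa [Nat.card_eq_fintype_card, h]
  · have hpar' := hpar
    obtain ⟨k, hk⟩ := hpar'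
    rcases (by omega : Fintype.card α = 5 ∨ Fintype.card α = 7 ∨ 9 ≤ Fintype.card α) with h | h | h
    · refine Or.inl ⟨Or.inr h, Perm.eq_top_of_isMultiplyPretransitive ?_⟩
      rwa [Nat.card_eq_fintype_card, h]
    · refine Or.inr (Or.inl ⟨Or.inr h, eq_alt G (by omega) hK ?_⟩)
      rw [h] at hG1 hG2
      have h1 : G.index ≤ 6 := by
        rw [← hG1] at hG2
        have : 0 < Nat.card (stabilizer G x) := Nat.card_pos
        simp only [Nat.descFactorial, Nat.factorial] at hG2
        nlinarith
      have h2 : G.normalCore.index ≤ G.index.factorial := by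
        rw [Subgroup.normalCore_eq_ker, Subgroup.index_ker, Subgroup.index_eq_card, ← Nat.card_perm]
        exact Subgroup.card_le_card_group _
      refine (Perm.alternatingGroup_le_of_normal (N := G.normalCore) (by
        rw [Nat.card_eq_fintype_card]; omega) ?_).trans G.normalCore_le
      rw [Subgroup.nontrivial_iff_ne_bot]
      intro h3
      rw [h3, Subgroup.index_bot, Nat.card_perm, Nat.card_eq_fintype_card, h] at h2
      have := h2.trans (Nat.factorial_le h1)
      exact absurd this (by decide)
    · obtain ⟨h1, s, hs, l, hl⟩ := Hall4.main hG hK h hpar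
      refine Or.inr (Or.inr ⟨h1, ?_⟩)
      rw [hcard s hs] at hl
      rw [h1, hl] at hG1
      rw [h1, ← hG1] at hG2
      rw [hl] at hodd
      have h2 : l ^ 3 ∣ 5040 := ⟨G.index, by
        simp only [Nat.descFactorial, Nat.factorial] at hG2
        nlinarith⟩
      have h3 : l = 1 := by
        have : l ≤ 18 := by
          by_contra h4
          have := Nat.pow_le_pow_left (show 18 ≤ l by omega) 3
          have := Nat.le_of_dvd (by norm_num) h2
          omega
        interval_cases l <;> simp_all (config := { decide := true })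
      rw [← hG1, h3]; rfl

end Cfsg.Agent.S4221
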