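import Cfsg.Statements.S4220
import Cfsg.Agent.Perm.Miller
import Cfsg.Agent.S0713
import Cfsg.Agent.S0415

set_option autoImplicit false
open Cfsg

namespace Cfsg.Agent.S4220

open MulAction Cfsg.Lib.Perm Cfsg.Lib.Perm.Miller Cfsg.Lib.Block Equiv

/-- Let `n = kp + r` with `p` prime, `1 ≤ k < p` and `r > k`, excluding the case `k = 1, r = 2`. Then a permutation group of degree `n` that is `(r + 1)`-fold transitive contains the alternating group. -/
theorem result {α : Type*} [Fintype α] [DecidableEq α] (G : Subgroup (Equiv.Perm α)) {k p r : ℕ} (hp : p.Prime) (hn : Fintype.card α = k * p + r) (hk : 1 ≤ k) (hpk : k < p) (hrk : k < r) (hex : ¬ (k = 1 ∧ r = 2)) (hG : MulAction.IsMultiplyPretransitive G α (r + 1)) : alternatingGroup α ≤ G := by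
  classical
  have := Fact.mk hp
  by_contra hA
  have hp2' := hp.two_le
  have hkp2 : 2 ≤ k * p := by nlinarith
  have hr : 3 ≤ r := by omega
  have hsmall : k * p ≤ 3 → False := by
    intro h3
    apply hA
    have : IsMultiplyPretransitive G α (Nat.card α - 2) :=
      isMultiplyPretransitive_of_le (n := r + 1) (by rw [Nat.card_eq_fintype_card]; omega)
        (by rw [Nat.card_eq_fintype_card]; omega)
    exact IsMultiplyPretransitive.alternatingGroup_le α G this
  have hmin : ∀ g ∈ G, g.support.card ≤ r + 1 → g = 1 := by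
    intro g hg hs
    by_contra h1
    exact hA (alt_le_of_small_support G (m := r + 1) (by omega) (by omega) hG hg h1 hs (by omega))
  have h2 : IsMultiplyPretransitive G α 2 :=
    isMultiplyPretransitive_of_le (n := r + 1) (by omega) (by rw [Nat.card_eq_fintype_card]; omega)
  have hprim : IsPreprimitive G α := isPreprimitive_of_is_two_pretransitive h2
  have hjor : ∀ g ∈ G, ∀ q : ℕ, q.Prime → orderOf g = q → g.support.card < 2 * q →
      q + 3 ≤ Fintype.card α → False := by
    intro g hg q hq ho hs hn3
    obtain ⟨j, h1, -, h3⟩ := support_of_prime_order hq ho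
    have hj : j = 0 := by
      by_contra hj
      have : q * 2 ≤ q * (j + 1) := Nat.mul_le_mul_left _ (by omega)
      omega
    subst hj
    exact hA (Cfsg.Agent.S0713.result G hprim hq (by omega) hn3 (h3 rfl) (by simpa using h1) hg)
  have hp2 : p ≠ 2 := by
    rintro rfl
    exact hsmall (by omega)
  have hp3 : r = 3 → p ≠ 3 := by
    rintro rfl rfl
    have hk2 : k = 2 := by
      by_contra hc
      exact hsmall (by omega)
    subst hk2
    have := Cfsg.Agent.S0415.result G (by omega) (fun x => by
      rw [Subgroup.eq_bot_iff_forall]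
      intro g hg
      by_contra hne
      obtain ⟨q, m, hq, -, hm⟩ := exists_prime_order_pow hne
      have hfix : (g ^ m) • x = x := (stabilizer G x).pow_mem hg m
      have hm' : orderOf ((g ^ m : G) : Perm α) = q := by rw [Subgroup.orderOf_coe, hm]
      have hsub : ((g ^ m : G) : Perm α).support ⊆ (Finset.univ.map x)ᶜ := by
        intro a ha
        rw [Finset.mem_compl, Finset.mem_map]
        rintro ⟨i, -, rfl⟩
        exact Perm.mem_support.mp ha (congrArg (fun z : Fin 4 ↪ α => z i) hfix)
      have h5 := Finset.card_le_card hsub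
      rw [Finset.card_compl, Finset.card_map, Finset.card_univ, Fintype.card_fin] at h5
      by_cases h4 : ((g ^ m : G) : Perm α).support.card ≤ 4
      · rw [hmin _ (g ^ m).2 h4, orderOf_one] at hm'
        exact hq.one_lt.ne hm'
      · obtain ⟨j, h1, -, -⟩ := support_of_prime_order hq hm'
        have h6 : q ∣ 5 := ⟨j + 1, by omega⟩
        have h7 : q = 5 := (Nat.prime_dvd_prime_iff_eq hq Nat.prime_five).mp h6
        exact hjor _ (g ^ m).2 q hq hm' (by omega) (by omega))
    omega
  obtain ⟨Δ, -, hΔ⟩ := Finset.exists_subset_card_eq (s := (Finset.univ : Finset α)) (n := r)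
    (by rw [Finset.card_univ]; omega)
  let H : Subgroup G := fixingSubgroup G (Δ : Set α)
  have hH : ∀ g : G, g ∈ H ↔ ∀ a ∈ Δ, g • a = a := fun g => by
    simp [H, mem_fixingSubgroup_iff]
  obtain ⟨P, hP⟩ := exists_isSylowIn p H
  have hcompl : ((Δᶜ : Finset α) : Set α).ncard = k * p := by
    rw [Set.ncard_coe_finset, Finset.card_compl]; omega
  have hHout : ∀ g ∈ H, ∀ a ∉ Δ, g • a ∉ Δ := by
    intro g hg a ha hc
    have := (hH g).mp hg _ hc
    exact ha (smul_left_cancel g this ▸ hc)
  have hS : Setting p Δ P := by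
    refine ⟨hp, hP.isPGroup, fun u hu => (hH u).mp (hP.le hu), fun a ha => ?_, fun g hg => ?_⟩
    · obtain ⟨j, hj⟩ := hP.isPGroup.index (stabilizer P a)
      rw [index_stabilizer] at hj
      have hle : (orbit P a).ncard ≤ k * p := by
        rw [← hcompl]
        apply Set.ncard_le_ncard _ (Set.toFinite _)
        rintro _ ⟨u, rfl⟩
        exact Finset.mem_coe.mpr (Finset.mem_compl.mpr (hHout u (hP.le u.2) a ha))
      have hj0 : j ≠ 0 := by
        rintro rfl
        rw [pow_zero, Set.ncard_eq_one] at hj
        obtain ⟨b, hb⟩ := hj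
        have hfix : P ≤ H ⊓ stabilizer G a := by
          refine le_inf hP.le fun u hu => ?_
          have h1 : (⟨u, hu⟩ : P) • a ∈ orbit P a := mem_orbit _ _
          have h2 : a ∈ orbit P a := mem_orbit_self _
          rw [hb] at h1 h2
          exact h1.trans h2.symm
        have hc := card_eq_ncard_mul_card_inf_stabilizer H a ((Δᶜ : Finset α) : Set α) (fun x => by
          constructor
          · intro hx
            obtain ⟨g, hg, hga⟩ := exists_fix_smul_eq hG
              (by rw [Nat.card_eq_fintype_card]; omega) Δ (by omega) ha (by simpa using hx)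
            exact ⟨g, (hH g).mpr hg, hga⟩
          · rintro ⟨g, hg, rfl⟩
            simpa using hHout g hg a ha)
        apply hP.not_dvd_relIndex
        rw [← Subgroup.relIndex_mul_relIndex P _ H hfix inf_le_left]
        apply Dvd.dvd.mul_left
        have h3 := ((H ⊓ stabilizer G a).subgroupOf H).index_mul_card
        rw [Nat.card_congr (Subgroup.subgroupOfEquivOfLe inf_le_left).toEquiv, hc, hcompl] at h3
        have h4 : (H ⊓ stabilizer G a).relIndex H = k * p :=
          Nat.eq_of_mul_eq_mul_right Nat.card_pos h3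
        rw [h4]
        exact Dvd.intro_left k rfl
      have hj2 : j < 2 := by
        by_contra hc
        have h1 : p ^ 2 ≤ p ^ j := Nat.pow_le_pow_right hp.pos (by omega)
        have h2 : k * p < p * p := Nat.mul_lt_mul_of_pos_right hpk hp.pos
        rw [sq] at h1
        omega
      rw [hj, show j = 1 by omega, pow_one]
    · apply Subtype.ext
      apply hmin _ g.2
      have : (g : Perm α).support ⊆ Δ := by
        intro a ha
        by_contra hc
        exact Perm.mem_support.mp ha (hg a hc)
      have := Finset.card_le_card this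
      omega
  refine hS.false_of (k := k) (by omega) hk (by omega) (by omega) hp2 (by rw [hΔ]; exact hp3) ?_ ?_
  · intro σ
    obtain ⟨g, hg⟩ := exists_smul_eq_on_finset' hG (by rw [Nat.card_eq_fintype_card]; omega) Δ
      (by omega) (Perm.ofSubtype σ) (Equiv.injective _).injOn
    have hg' : ∀ a : Δ, g • (a : α) = σ a := fun a => by
      rw [hg a a.2, Perm.ofSubtype_apply_coe]
    have hle : P.map (MulAut.conj g).toMonoidHom ≤ H := by
      rintro _ ⟨t, ht, rfl⟩
      refine (hH _).mpr fun a ha => ?_
      change (g * t * g⁻¹) • a = a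
      have e := hg' (σ⁻¹ ⟨a, ha⟩)
      rw [Perm.coe_inv, Equiv.apply_symm_apply] at e
      have e' : g • ((σ⁻¹ ⟨a, ha⟩ : Δ) : α) = a := e
      conv_lhs => rw [← e']
      rw [mul_smul, inv_smul_smul, mul_smul, (hH t).mp (hP.le ht) _ (σ⁻¹ ⟨a, ha⟩).2, e']
    obtain ⟨x, hx, hxle⟩ := hP.exists_conj_le (hP.isPGroup.map _) hle
    refine ⟨x * g, ?_, fun a => ?_⟩
    · rw [map_conj_map_conj] at hxle
      rw [← map_conj_eq_self_iff]
      exact Subgroup.eq_of_le_of_card_ge hxle (card_map_conj _ _).ge
    · rw [mul_smul, hg', (hH x).mp hx _ (σ a).2]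
  · intro u hu a ha hb
    by_contra hne
    have ho : orderOf (u : Perm α) = p := by
      rw [Subgroup.orderOf_coe]
      exact orderOf_eq_prime (hS.pow_eq_one hu) hne
    refine hjor u u.2 p hp ho ?_ (by nlinarith)
    have : ((u : Perm α).support : Set α) ⊆ orbit P a := by
      intro b hb'
      by_contra hc
      exact Perm.mem_support.mp hb' (hb b hc)
    have h1 := Set.ncard_le_ncard this (Set.toFinite _)
    rw [Set.ncard_coe_finset, hS.orb a ha] at h1
    omega


end Cfsg.Agent.S4220
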