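import Cfsg.Statements.S4565
import Cfsg.Agent.Char.Special
import Cfsg.Agent.Char.Ramified

set_option autoImplicit false
open Cfsg

namespace Cfsg.Agent.S4565

open Cfsg.Lib.Char

/-- Let χ be an irreducible character of the finite group H that is fully ramified over the normal subgroup Z: the restriction of χ to Z is e times an irreducible character of Z with e ^ 2 equal to the index of Z. If Z ≠ H, then H/Z has no cyclic subgroup that is its own centralizer. -/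
theorem result {H : Type*} [Group H] [Finite H] (Z : Subgroup H) [Z.Normal] (χ : Cfsg.IrrCharacter H) (hfr : ∃ (θ : Cfsg.IrrCharacter ↥Z) (e : ℕ), e ^ 2 = Z.index ∧ ∀ z : ↥Z, (χ : H → ℂ) z = (e : ℂ) * (θ : ↥Z → ℂ) z) (hZ : Z ≠ ⊤) (C : Subgroup (H ⧸ Z)) (hC : IsCyclic C) : Subgroup.centralizer (C : Set (H ⧸ Z)) ≠ C := by
  intro hcent
  obtain ⟨θ, e, he, hres⟩ := hfr
  have := Fintype.ofFinite H
  have := Fintype.ofFinite Z
  have he0 : (e : ℂ) ≠ 0 := fun h0 => χ.2.apply_one_ne_zero (by simpa [h0] using hres 1)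
  have hres' : (fun n : Z => (χ : H → ℂ) n) = (e : ℂ) • (θ : Z → ℂ) := funext hres
  obtain ⟨d, hd⟩ := θ.2.isCharacter.exists_nat_degree
  obtain ⟨Q, _, _, A, lam, T, hrel, hA, hlam, -⟩ :=
    exists_cTriple Z θ.2 (invariant_of_res_eq_smul χ.2.isClassFunction he0 hres') hd
  have hAn : A.Normal := hrel.normal_iff.mp inferInstance
  obtain ⟨⟨c, hc⟩, hgen⟩ := hC.exists_generator
  obtain ⟨c, rfl⟩ := QuotientGroup.mk_surjective c
  obtain ⟨γ, rfl⟩ := T.π_surj c
  have hsp : IsSpecialMod A (T.q γ) := by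
    intro x hx
    obtain ⟨δ, rfl⟩ := T.q_surj x
    have h1 : T.π (δ * γ * δ⁻¹ * γ⁻¹) ∈ Z := (hrel _).2 (by simpa using hx)
    have h2 : (T.π δ : H ⧸ Z) ∈ C := by
      rw [← hcent, Subgroup.mem_centralizer_iff]
      intro y hy
      obtain ⟨k, hk⟩ := hgen ⟨y, hy⟩
      obtain rfl : y = (T.π γ : H ⧸ Z) ^ k := by simpa using (congrArg Subtype.val hk).symm
      refine (Commute.zpow_left (Commute.symm ?_) k).eq
      rw [← QuotientGroup.eq_one_iff] at h1
      simpa [mul_inv_eq_iff_eq_mul, commute_iff_eq] using h1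
    obtain ⟨k, hk⟩ := hgen ⟨_, h2⟩
    have h3 : T.π ((γ ^ k)⁻¹ * δ) ∈ Z := by
      rw [map_mul, map_inv, ← QuotientGroup.eq, map_zpow, QuotientGroup.mk_zpow]
      simpa using congrArg Subtype.val hk
    have h4 := Subgroup.mem_center_iff.mp (hA ((hrel _).1 h3)) (T.q γ)
    rw [map_mul, map_inv, map_zpow, ← mul_assoc, mul_assoc _ (T.q δ),
      ((Commute.refl (T.q γ)).zpow_right k).inv_right.eq, mul_assoc] at h4
    exact (mul_left_cancel h4).symm
  obtain ⟨β, hβ, hβl, hβ0⟩ := hsp.exists_apply_ne_zero hA hlam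
  obtain ⟨χ', hc'⟩ := T.exists_corr_of_liesOver hβl
  have hχ' := hc'.isIrrCharacter_iff.mpr hβ
  have h1 : χ' = χ := eq_of_fullyRamified χ.2 θ.2 hres' he hχ' (hc'.lies_over hχ')
  obtain ⟨δ, hδ, hΘ⟩ := T.galData.exists_apply_ne_zero (T.q γ)
  have h2 : T.π δ ∈ Z := by
    by_contra h
    have h3 := (vanish_iff_sq_eq_index χ.2 θ.2 hres').2 he _ h
    rw [← h1, hc', hδ] at h3
    exact mul_ne_zero hΘ hβ0 h3
  have h3 : (T.π γ : H ⧸ Z) = 1 :=
    (QuotientGroup.eq_one_iff _).2 ((hrel _).2 (hδ ▸ (hrel _).1 h2))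
  have hC1 : ∀ y ∈ C, y = 1 := fun y hy => by
    obtain ⟨k, hk⟩ := hgen ⟨y, hy⟩
    simpa [h3] using (congrArg Subtype.val hk).symm
  refine hZ (eq_top_iff.mpr fun x _ => (QuotientGroup.eq_one_iff x).1 (hC1 _ ?_))
  rw [← hcent, Subgroup.mem_centralizer_iff]
  intro y hy
  simp [hC1 y hy]

end Cfsg.Agent.S4565
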