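import Cfsg.Statements.S2374
import Cfsg.Agent.Chev.CoreAll
import Cfsg.Agent.Chev.TorMain
import Cfsg.Agent.Chev.WeylTypes
import Cfsg.Agent.Chev.RepE7

set_option autoImplicit false
open Cfsg

namespace Cfsg.Agent.S2374

open Cfsg.Lib Cfsg.Lib.Chev Cfsg.Lib.Chev.Core Cfsg.Lie

set_option maxHeartbeats 400000
set_option maxRecDepth 100000

def cT : List (List ℤ) := [[2, 0, -1, 0, 0, 0, 0], [0, 2, 0, -1, 0, 0, 0], [-1, 0, 2, -1, 0, 0, 0], [0, -1, -1, 2, -1, 0, 0], [0, 0, 0, -1, 2, -1, 0], [0, 0, 0, 0, -1, 2, -1], [0, 0, 0, 0, 0, -1, 2]]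
def om : List (Fin 7) := [2, 0, 4, 3, 4, 1, 5, 6, 4, 5, 3]
def lam : List (List ℤ) := [[0, 0, 0, 0, 0, 0, 1], [0, 0, 0, 0, 1, -1, 0], [0, -1, 1, 0, 0, 0, 0], [-1, 0, 1, 0, 0, 0, -1], [0, 0, 1, -1, 0, 1, -1], [-1, 1, 1, -1, 0, 0, 0], [0, 0, 0, -1, 1, 0, 0], [0, 0, 0, 0, 0, -1, 1]]
def bT : List (List ℤ) := [[0, 1, 1, 2, 2, 2, 1], [1, 1, 1, 1, 1, 0, 0], [0, -1, 0, -1, -1, -1, 0], [-1, 0, 0, 1, 1, 1, 0], [1, 1, 1, 1, 1, 1, 0], [0, 0, 0, -1, -1, -1, 0], [-1, -1, -1, -1, 0, 0, 0]]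
def eT : List (List ℤ) := [[-1, 0, 0, 0, 0, 1, 0], [1, 1, 0, -1, 1, -1, 0], [0, -1, 1, 0, 0, -1, 1], [-2, -1, 0, 1, 0, 1, -1], [1, 1, 0, -1, 0, 1, -1], [0, 1, 1, -1, 0, -1, 1], [-1, -1, 0, 0, 1, 0, 0]]
def be : List (List ℤ) := [[-1, 0, 0, 1, 0, 1, -1], [-1, 0, 0, 0, 0, 0, 0], [0, 0, 1, 0, 0, -1, 0], [1, 0, -1, 0, 0, 0, 0], [0, 1, 0, -1, 0, 0, 0], [0, -1, 0, 0, 0, 0, 0], [0, 1, 0, 0, -1, 0, 0]]
def chi : List ℤ := [1, 0, -1, 1, 1, -1, 0, 1]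
def orb0 : List (List ℤ) := ([262144, 32768, 294912, 4096, 36864, 299008, 512, 4608, 37376, 299520, 64, 576, 4672, 37440, 299584, 8, 520, 4616, 37384, 299528, 584, 4680, 37448, 299592, 5192, 37960, 300104, 42056, 304200, 336968, 1, 65, 577, 4673, 37441, 299585, 585, 4681, 37449, 299593, 5193, 37961, 300105, 42057, 304201, 336969, 5257, 38025, 300169, 42121, 304265, 337033, 42633, 304777, 337545, 341641, 42641, 304785, 337553, 341649, 342161, 342225, 342226] : List ℕ).flatMap fun n =>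
  [(List.range 7).map fun j => Int.ofNat (n / 8 ^ j % 8), (List.range 7).map fun j => -Int.ofNat (n / 8 ^ j % 8)]
def orbs : List (List (List ℤ) × List (List ℤ)) := [(orb0, [[0, -1, 0, 0, 0, 0, 0], [0, 0, 0, 0, 0, -1, 0], [0, -1, 0, -1, 0, 0, 0], [0, 0, 0, 0, -1, -1, 0], [0, 0, 0, 0, 0, -1, -1], [0, -1, -1, -1, 0, 0, 0], [-1, 0, -1, -1, -1, -1, 0]])]

theorem cT_eq_1' : type_of% @cT.eq_1 := @cT.eq_1
theorem om_eq_1' : type_of% @om.eq_1 := @om.eq_1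
theorem lam_eq_1' : type_of% @lam.eq_1 := @lam.eq_1
theorem bT_eq_1' : type_of% @bT.eq_1 := @bT.eq_1
theorem eT_eq_1' : type_of% @eT.eq_1 := @eT.eq_1
theorem be_eq_1' : type_of% @be.eq_1 := @be.eq_1
theorem chi_eq_1' : type_of% @chi.eq_1 := @chi.eq_1
theorem orbs_eq_1' : type_of% @orbs.eq_1 := @orbs.eq_1
theorem orb0_eq_1' : type_of% @orb0.eq_1 := @orb0.eq_1

theorem hT : HasCT chevE7 cT := by
  show ∀ i : Fin 7, cT.getD i [] = List.ofFn (fun j : Fin 7 => chevE7.cartan j (chevE7.simple i))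
  decide +kernel

theorem h1 : cycChk 7 ((List.finRange 7).map fun j => actL cT om.reverse (omegaL j)) lam bT chi = true := by
  decide +kernel

theorem h2 : ∀ j : Fin 7, (eT.map fun row => row.getD j 0) = bT.map fun row => dotL row (cT.getD j []) := by
  decide +kernel

theorem h3 : regChk 7 cartanE7 eT chi 3 2 orbs be 1 = true := by
  decide +kernel


/-- The group E₇(q) (the simple Chevalley group of type E₇) contains a cyclic subgroup of order (q⁴ − q² + 1)(q³ + 1)/gcd(2, q − 1) which is its own centralizer. -/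
theorem result {F : Type*} [Field F] [Fintype F] (q : ℕ) (hF : Fintype.card F = q) :
    ∃ H : Subgroup ↥(Cfsg.Lie.chevE7.group F), IsCyclic ↥H ∧ Nat.card ↥H = (q ^ 4 - q ^ 2 + 1) * (q ^ 3 + 1) / Nat.gcd 2 (q - 1) ∧
      Subgroup.centralizer (H : Set ↥(Cfsg.Lie.chevE7.group F)) = H := by
  subst hF
  obtain ⟨H, h4, h5, h6⟩ := certE7.exists_cyclic_torus rootE7 F (snf_of_mem (by simp))
    (hHom_stGen_injective_E7 _)
    (hasC_E7 rootE7) hT (by decide) h1 h2 h3 Fintype.one_lt_card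
  refine ⟨H, h4, ?_, h6⟩
  rw [card_ker_cartanHom_E7] at h5
  generalize hq' : Fintype.card F = q at h5 ⊢
  have h7 : 1 < q := hq' ▸ Fintype.one_lt_card
  have h8 : q ^ 2 ≤ q ^ 4 := Nat.pow_le_pow_right h7.le (by norm_num)
  have h9 : evalZ chi q = (((q ^ 4 - q ^ 2 + 1) * (q ^ 3 + 1) : ℕ) : ℤ) := by
    simp only [chi, evalZ, List.foldr]
    push_cast [h8]
    ring
  rw [h9, Int.natAbs_natCast, Nat.card_units, Nat.card_eq_fintype_card, hq'] at h5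
  rw [← h5, Nat.mul_div_cancel_left _ (Nat.gcd_pos_of_pos_left _ (by norm_num))]

end Cfsg.Agent.S2374
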