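import Cfsg.Statements.S2378
import Cfsg.Agent.Chev.SylTor
import Cfsg.Agent.Chev.WeylTypes
import Cfsg.Agent.Chev.CoreAll

set_option autoImplicit false
open Cfsg

namespace Cfsg.Agent.S2378

open Cfsg.Lib Cfsg.Lib.Chev Cfsg.Lib.Chev.Core Cfsg.Lie

set_option maxHeartbeats 400000


/-- Sylow subgroups for primes away from the characteristic and the Weyl group. Let `G` be the Chevalley group of type G₂, B₂, D₄, F₄, E₆, E₇ or E₈ over a field with `q` elements, with the degrees of its Weyl group listed beside the type (their product is the order of the Weyl group), and let `r` be a prime dividing the order of `G`, not dividing `q` and not dividing the order of the Weyl group. Let `d` be the multiplicative order of `q` modulo `r`, `a` the number of degrees divisible by `d`, and `m` the `r`-part of the value at `q` of the `d`-th cyclotomic polynomial. Then every Sylow `r`-subgroup of `G` is homocyclic: a direct product of `a` cyclic groups of order `m` (in particular abelian).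 -/
theorem result {F : Type*} [Field F] [Fintype F] {q : ℕ} (hq : Fintype.card F = q)
    (c : Cfsg.Lie.ChevalleyDatum × List ℕ)
    (hc : c ∈ [(Cfsg.Lie.chevG2, [2, 6]), (Cfsg.Lie.chevB2, [2, 4]), (Cfsg.Lie.chevD4, [2, 4, 4, 6]), (Cfsg.Lie.chevF4, [2, 6, 8, 12]),
      (Cfsg.Lie.chevE6, [2, 5, 6, 8, 9, 12]), (Cfsg.Lie.chevE7, [2, 6, 8, 10, 12, 14, 18]), (Cfsg.Lie.chevE8, [2, 8, 12, 14, 18, 20, 24, 30])])
    (r : ℕ) [Fact r.Prime] (hrq : ¬ r ∣ q) (hrW : ¬ r ∣ c.2.prod) (hrG : r ∣ Nat.card ↥(c.1.group F)) (P : Sylow r ↥(c.1.group F)) :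
    Nonempty (↥(P : Subgroup ↥(c.1.group F)) ≃*
      (Fin (c.2.filter (fun e => orderOf (q : ZMod r) ∣ e)).length →
        Multiplicative (ZMod (r ^ padicValNat r ((Polynomial.cyclotomic (orderOf (q : ZMod r)) ℤ).eval (q : ℤ)).natAbs)))) := by
  subst hq
  have h2 : r ≠ 2 := by
    rintro rfl
    simp only [List.mem_cons, List.not_mem_nil, or_false] at hc
    rcases hc with rfl | rfl | rfl | rfl | rfl | rfl | rfl <;> exact hrW (by decide)
  have h0 : 0 < Fintype.card F := Fintype.card_pos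
  have hd : ∀ {a b n : ℕ}, a ∣ n → ¬ r ∣ n → ¬ r ∣ Nat.gcd a b := fun h h1 h2 =>
    h1 (h2.trans ((Nat.gcd_dvd_left _ _).trans h))
  have h1 : ¬ r ∣ 1 := (Fact.out : r.Prime).not_dvd_one
  simp only [List.mem_cons, List.not_mem_nil, or_false] at hc
  rcases hc with rfl | rfl | rfl | rfl | rfl | rfl | rfl
  · obtain ⟨C, R⟩ := cert_root_of_mem (D := chevG2) (by simp)
    exact C.sylow_homocyclic R (snf_of_mem (by simp)) (L := [2, 6]) (card_W_G2 (hasC_G2 R))
      ((@poincare_G2 _ _ _ (hasC_G2 R) _ h0 (WeylData.instFintypeW _)).trans (by simp [mul_assoc]))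
      h2 hrq hrW
      (by rw [card_ker_cartanHom_G2]; exact h1) hrG P
  · obtain ⟨C, R⟩ := cert_root_of_mem (D := chevB2) (by simp)
    exact C.sylow_homocyclic R (snf_of_mem (by simp)) (L := [2, 4]) (card_W_B2 (hasC_B2 R))
      ((@poincare_B2 _ _ _ (hasC_B2 R) _ h0 (WeylData.instFintypeW _)).trans (by simp [mul_assoc]))
      h2 hrq hrW
      (by rw [card_ker_cartanHom_B2]; exact hd (by decide) hrW) hrG P
  · obtain ⟨C, R⟩ := cert_root_of_mem (D := chevD4) (by simp)
    exact C.sylow_homocyclic R (snf_of_mem (by simp)) (L := [2, 4, 4, 6]) (card_W_D4 (hasC_D4 R))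
      ((@poincare_D4 _ _ _ (hasC_D4 R) _ h0 (WeylData.instFintypeW _)).trans (by simp [mul_assoc]))
      h2 hrq hrW
      (by rw [card_ker_cartanHom_D4]; exact fun h => hd (by decide) hrW ((Fact.out : r.Prime).dvd_of_dvd_pow h)) hrG P
  · obtain ⟨C, R⟩ := cert_root_of_mem (D := chevF4) (by simp)
    exact C.sylow_homocyclic R (snf_of_mem (by simp)) (L := [2, 6, 8, 12]) (card_W_F4 (hasC_F4 R))
      ((@poincare_F4 _ _ _ (hasC_F4 R) _ h0 (WeylData.instFintypeW _)).trans (by simp [mul_assoc]))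
      h2 hrq hrW
      (by rw [card_ker_cartanHom_F4]; exact h1) hrG P
  · obtain ⟨C, R⟩ := cert_root_of_mem (D := chevE6) (by simp)
    exact C.sylow_homocyclic R (snf_of_mem (by simp)) (L := [2, 5, 6, 8, 9, 12]) (card_W_E6 (hasC_E6 R))
      ((@poincare_E6 _ _ _ (hasC_E6 R) _ h0 (WeylData.instFintypeW _)).trans (by simp [mul_assoc]))
      h2 hrq hrW
      (by rw [card_ker_cartanHom_E6]; exact hd (by decide) hrW) hrG P
  · obtain ⟨C, R⟩ := cert_root_of_mem (D := chevE7) (by simp)
    exact C.sylow_homocyclic R (snf_of_mem (by simp)) (L := [2, 6, 8, 10, 12, 14, 18]) (card_W_E7 (hasC_E7 R))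
      ((@poincare_E7 _ _ _ (hasC_E7 R) _ h0 (WeylData.instFintypeW _)).trans (by simp [mul_assoc]))
      h2 hrq hrW
      (by rw [card_ker_cartanHom_E7]; exact hd (by decide) hrW) hrG P
  · obtain ⟨C, R⟩ := cert_root_of_mem (D := chevE8) (by simp)
    exact C.sylow_homocyclic R (snf_of_mem (by simp)) (L := [2, 8, 12, 14, 18, 20, 24, 30]) (card_W_E8 (hasC_E8 R))
      ((@poincare_E8 _ _ _ (hasC_E8 R) _ h0 (WeylData.instFintypeW _)).trans (by simp [mul_assoc]))
      h2 hrq hrW
      (by rw [card_ker_cartanHom_E8]; exact h1) hrG P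

end Cfsg.Agent.S2378
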