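import Cfsg.Statements.S4002
import Cfsg.Agent.S3633

set_option autoImplicit false
open Cfsg

namespace Cfsg.Agent.S4002

theorem exists_primes {n : ℕ} (hn : 7 ≤ n) : ∃ a b c : ℕ, a.Prime ∧ b.Prime ∧ c.Prime ∧ a < b ∧
    b < c ∧ c ≤ n ∧ n < a * b := by
  by_cases h1 : n < 15
  · exact ⟨3, 5, 7, by norm_num, by norm_num, by norm_num, by omega, by omega, hn, h1⟩
  by_cases h2 : n < 35
  · exact ⟨5, 7, 11, by norm_num, by norm_num, by norm_num, by omega, by omega, by omega, h2⟩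
  by_cases h3 : n < 77
  · exact ⟨7, 11, 13, by norm_num, by norm_num, by norm_num, by omega, by omega, by omega, h3⟩
  have hs : 8 ≤ n.sqrt := Nat.le_sqrt.2 (by omega)
  have h4 := Nat.sqrt_le n
  have h5 := Nat.lt_succ_sqrt n
  obtain ⟨a, ha, ha1, ha2⟩ := Nat.exists_prime_lt_and_le_two_mul n.sqrt (by omega)
  obtain ⟨b, hb, hb1, hb2⟩ := Nat.exists_prime_lt_and_le_two_mul (2 * n.sqrt) (by omega)
  obtain ⟨c, hc, hc1, hc2⟩ := Nat.exists_prime_lt_and_le_two_mul (4 * n.sqrt) (by omega)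
  refine ⟨a, b, c, ha, hb, hc, by omega, by omega, by nlinarith, h5.trans_le ?_⟩
  exact Nat.mul_le_mul ha1 (by omega)

/-- If the set of element orders of a finite group G is {1, 2, …, n} with n ≥ 7, then G is not solvable. -/
theorem result {G : Type*} [Group G] [Finite G] (n : ℕ) (hn : 7 ≤ n) (h : Set.range (orderOf : G → ℕ) = {k : ℕ | 1 ≤ k ∧ k ≤ n}) : ¬ Group.IsSolvable G := by
  obtain ⟨a, b, c, ha, hb, hc, hab, hbc, hcn, hn'⟩ := exists_primes hn
  have key : ∀ r : ℕ, r.Prime → r ≤ c → r.Prime ∧ r ∣ Nat.card G := fun r hr hrc => by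
    obtain ⟨g, hg⟩ : r ∈ Set.range (orderOf : G → ℕ) := h ▸ ⟨hr.one_le, hrc.trans hcn⟩
    exact ⟨hr, hg ▸ orderOf_dvd_natCard g⟩
  have key2 : ∀ m : ℕ, a * b ≤ m → ¬ ∃ x : G, orderOf x = m := fun m hm hx => by
    have : m ∈ {k : ℕ | 1 ≤ k ∧ k ≤ n} := h ▸ hx
    exact absurd this.2 (by omega)
  refine (Cfsg.Agent.S3633.result {a, b, c} ?_ ⟨?_, ?_⟩ ⊥ inferInstance).2
  · rw [Finset.card_eq_three.2 ⟨a, b, c, by omega, by omega, by omega, rfl⟩]
  · simp only [Finset.mem_insert, Finset.mem_singleton]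
    rintro r (rfl | rfl | rfl)
    · exact key _ ha (by omega)
    · exact key _ hb (by omega)
    · exact key _ hc le_rfl
  · simp only [Finset.mem_insert, Finset.mem_singleton]
    rintro r (rfl | rfl | rfl) s (rfl | rfl | rfl) hrs <;>
      first | exact absurd rfl hrs | exact key2 _ (by nlinarith)

end Cfsg.Agent.S4002
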