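import Cfsg.Statements.S3573
import Cfsg.Agent.Perm.MultiBasic

set_option autoImplicit false
open Cfsg

namespace Cfsg.Agent.S3573

open Equiv Equiv.Perm Finset Cfsg.Lib.Perm

theorem exists_invariant {α : Type*} [Fintype α] [DecidableEq α] {σ : Perm α} {r c : ℕ}
    (hσ : σ.cycleType = Multiset.replicate c r) {i j : ℕ} (hi : i ≤ c)
    (hj : j + c * r ≤ Fintype.card α) : ∃ s : Finset α, s.card = i * r + j ∧ s.image σ = s := by
  have hc : σ.cycleFactorsFinset.card = c := by
    have := congrArg Multiset.card hσ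
    rwa [cycleType_def, Multiset.card_map, Multiset.card_replicate] at this
  have hr : ∀ τ ∈ σ.cycleFactorsFinset, τ.support.card = r := fun τ hτ =>
    Multiset.eq_of_mem_replicate (hσ ▸ mem_cycleType_iff.mpr
      ⟨τ, σ * τ⁻¹, by simp [← mul_assoc, (self_mem_cycle_factors_commute hτ).eq],
        (disjoint_mul_inv_of_mem_cycleFactorsFinset hτ).symm,
        (mem_cycleFactorsFinset_iff.mp hτ).1, rfl⟩)
  obtain ⟨T, hT, hTc⟩ := exists_subset_card_eq (hc ▸ hi : i ≤ σ.cycleFactorsFinset.card)
  have hsupp : σ.support.card = c * r := by simp [← sum_cycleType, hσ]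
  obtain ⟨F, hF, hFc⟩ := exists_subset_card_eq (n := j) (s := σ.supportᶜ)
    (by rw [card_compl, hsupp]; omega)
  refine ⟨T.biUnion support ∪ F, ?_, ?_⟩
  · rw [card_union_of_disjoint, card_biUnion, hFc, sum_congr rfl fun τ hτ => hr τ (hT hτ)]
    · simp [hTc]
    · intro τ hτ τ' hτ' h
      exact (cycleFactorsFinset_pairwise_disjoint σ (hT hτ) (hT hτ') h).disjoint_support
    · rw [Finset.disjoint_left]
      intro x hx hxF
      obtain ⟨τ, hτ, hx⟩ := mem_biUnion.mp hx
      exact mem_compl.mp (hF hxF) (mem_cycleFactorsFinset_support_le (hT hτ) hx)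
  · refine eq_of_subset_of_card_le ?_ (card_image_of_injective _ σ.injective).ge
    intro y hy
    obtain ⟨x, hx, rfl⟩ := mem_image.mp hy
    rcases mem_union.mp hx with hx | hx
    · obtain ⟨τ, hτ, hx⟩ := mem_biUnion.mp hx
      refine mem_union_left _ (mem_biUnion.mpr ⟨τ, hτ, ?_⟩)
      rw [← (mem_cycleFactorsFinset_iff.mp (hT hτ)).2 x hx]
      exact apply_mem_support.mpr hx
    · rw [notMem_support.mp (mem_compl.mp (hF hx))]
      exact mem_union_right _ hx

theorem key {n k r : ℕ} (hkn : k ≤ n) (hr : r.Prime) (hrn : r ≤ n) :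
    (∀ σ : Perm (Fin n), orderOf σ = r → ∃ s : Finset (Fin n), s.card = k ∧ s.image σ = s) ↔
      k % r ≤ n % r := by
  have hr0 := hr.pos
  constructor
  · intro h
    have hc : 0 < n / r := Nat.div_pos hrn hr0
    obtain ⟨σ, hσ⟩ := (exists_with_cycleType_iff (Fin n)
      (m := Multiset.replicate (n / r) r)).mpr ⟨by simp [Nat.div_mul_le_self], fun a ha => by
        rw [Multiset.eq_of_mem_replicate ha]; exact hr.two_le⟩
    have ho : orderOf σ = r := by
      rw [← lcm_cycleType, hσ]
      refine Nat.dvd_antisymm (Multiset.lcm_dvd.mpr fun b hb => ?_)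
        (Multiset.dvd_lcm (Multiset.mem_replicate.mpr ⟨hc.ne', rfl⟩))
      rw [Multiset.eq_of_mem_replicate hb]
    obtain ⟨s, hs, hs'⟩ := h σ ho
    have := Fact.mk hr
    have h1 := ncard_modEq_ncard_fixed hr (Subgroup.zpowers σ)
      (IsPGroup.of_card (n := 1) (by rw [Nat.card_zpowers, ho, pow_one])) (s : Set (Fin n))
      (Set.toFinite _) fun g hg x hx => by
        obtain ⟨j, rfl⟩ := (mem_powers_iff_mem_zpowers.mpr hg : g ∈ Submonoid.powers σ)
        induction j with
        | zero => simpa using hx
        | succ j ih =>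
          simp only [pow_succ']
          rw [← hs', coe_image]
          exact Set.mem_image_of_mem _ (ih (Subgroup.npow_mem_zpowers _ _))
    rw [Set.ncard_coe_finset, hs] at h1
    have h2 : {x ∈ (s : Set (Fin n)) | ∀ g ∈ Subgroup.zpowers σ, g • x = x}.ncard ≤ n % r := by
      have h3 : (σ.supportᶜ).card = n % r := by
        rw [card_compl, ← sum_cycleType, hσ]
        simp only [Fintype.card_fin, Multiset.sum_replicate, smul_eq_mul]
        have := Nat.div_add_mod' n r
        omega
      rw [← h3, ← Set.ncard_coe_finset]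
      refine Set.ncard_le_ncard fun x hx => ?_
      simpa using hx.2 σ (Subgroup.mem_zpowers σ)
    rw [h1]
    exact (Nat.mod_le _ _).trans h2
  · intro h σ hσ
    obtain ⟨c, hc⟩ := cycleType_prime_order (σ := σ) (hσ ▸ hr)
    rw [hσ] at hc
    have h1 := sum_cycleType_le σ
    simp only [hc, Multiset.sum_replicate, smul_eq_mul, Fintype.card_fin] at h1
    rcases le_total (k / r) (c + 1) with h2 | h2
    · rw [← Nat.div_add_mod' k r]
      refine exists_invariant hc h2 ?_
      have h3 : (c + 1) * r ≤ n / r * r :=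
        Nat.mul_le_mul_right _ ((Nat.le_div_iff_mul_le hr0).mpr h1)
      have := Nat.div_add_mod' n r
      simp only [Fintype.card_fin]
      omega
    · have h3 := (Nat.le_div_iff_mul_le hr0).mp h2
      rw [← Nat.add_sub_cancel' h3]
      refine exists_invariant hc le_rfl ?_
      simp only [Fintype.card_fin]
      omega


/-- Let 1 ≤ k with 2k < n and consider the symmetric group of degree n acting on the k-subsets of an n-set. Let r be a prime dividing the number C(n,k) of k-subsets. If r is odd, then every permutation of order r fixes some k-subset if and only if r ≤ k and the remainder of k modulo r is at most the remainder of n modulo r. If r = 2, then every involution fixes some k-subset if and only if k is even or n is odd. -/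
theorem result (n k : ℕ) (hk : 1 ≤ k) (hkn : 2 * k < n) (r : ℕ) (hr : r.Prime) (hrd : r ∣ Nat.choose n k) :
    (r ≠ 2 → ((∀ σ : Equiv.Perm (Fin n), orderOf σ = r → ∃ s : Finset (Fin n), s.card = k ∧ s.image σ = s) ↔
      (r ≤ k ∧ k % r ≤ n % r))) ∧
    (r = 2 → ((∀ σ : Equiv.Perm (Fin n), orderOf σ = 2 → ∃ s : Finset (Fin n), s.card = k ∧ s.image σ = s) ↔
      (Even k ∨ Odd n))) := by
  have hkn' : k ≤ n := by omega
  have hrn : r ≤ n := by
    rw [← hr.dvd_factorial, ← Nat.choose_mul_factorial_mul_factorial hkn']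
    exact (hrd.mul_right _).mul_right _
  refine ⟨fun _ => ?_, ?_⟩
  · rw [key hkn' hr hrn, iff_and_self]
    intro h
    by_contra! h1
    have := Fact.mk hr
    have h2 := Choose.choose_modEq_choose_mod_mul_choose_div_nat (n := n) (k := k) (p := r)
    rw [Nat.div_eq_of_lt h1, Nat.choose_zero_right, mul_one] at h2
    have h3 := (h2.dvd_iff dvd_rfl).mp hrd
    have h4 : r ∣ (n % r).factorial := by
      rw [← Nat.choose_mul_factorial_mul_factorial h]
      exact (h3.mul_right _).mul_right _
    exact (Nat.mod_lt n hr.pos).not_ge (hr.dvd_factorial.mp h4)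
  · rintro rfl
    rw [key hkn' hr hrn, Nat.even_iff, Nat.odd_iff]
    omega

end Cfsg.Agent.S3573
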