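import Cfsg.Statements.S1224
import Cfsg.Agent.Local.StronglyEmbTwo

set_option autoImplicit false
open Cfsg

namespace Cfsg.Agent.S1224

open Cfsg.Lib.Local

/-- Let H be a strongly embedded subgroup of the finite group G and x ≠ y two cosets in G/H. Then the number of involutions i of G with i • x = y equals the number of involutions lying in H. -/
theorem result {G : Type*} [Group G] [Finite G] (H : Subgroup G) (hH : Cfsg.IsStronglyEmbedded H) (x y : G ⧸ H) (hxy : x ≠ y) : Nat.card {i : G // orderOf i = 2 ∧ i • x = y} = Nat.card {t : G // orderOf t = 2 ∧ t ∈ H} := by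
  rw [isStronglyEmbedded_iff_se] at hH
  induction x using QuotientGroup.induction_on with | H a => ?_
  induction y using QuotientGroup.induction_on with | H b => ?_
  have hab : a⁻¹ * b ∉ H := fun h => hxy (QuotientGroup.eq.mpr h)
  have hba : b⁻¹ * a ∉ H := fun h => hab (by simpa using H.inv_mem h)
  obtain ⟨t, htH, ht⟩ := hH.exists_involution_mem
  have key : ∀ i : G, i • (QuotientGroup.mk a : G ⧸ H) = QuotientGroup.mk b ↔ b⁻¹ * i * a ∈ H := by
    intro i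
    rw [MulAction.Quotient.smul_mk, eq_comm, QuotientGroup.eq, smul_eq_mul, mul_assoc]
  let f : {i : G // orderOf i = 2 ∧ i • (QuotientGroup.mk a : G ⧸ H) = QuotientGroup.mk b} →
      {t : G // orderOf t = 2 ∧ t ∈ H} := fun i =>
    ⟨(b⁻¹ * i * a) * t * (b⁻¹ * i * a)⁻¹, by rw [orderOf_conj, ht],
      H.mul_mem (H.mul_mem ((key i).mp i.2.2) htH) (H.inv_mem ((key i).mp i.2.2))⟩
  apply Nat.card_eq_of_bijective f
  constructor
  · rintro ⟨i, hi, hia⟩ ⟨j, hj, hja⟩ hij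
    have h1 : (b⁻¹ * i * a) * t * (b⁻¹ * i * a)⁻¹ = (b⁻¹ * j * a) * t * (b⁻¹ * j * a)⁻¹ :=
      congrArg Subtype.val hij
    rw [key] at hia hja
    apply Subtype.ext
    show i = j
    have hu : a⁻¹ * i * a ∉ H := by
      intro hm
      apply hba
      have : b⁻¹ * a = (b⁻¹ * i * a) * (a⁻¹ * i * a)⁻¹ := by group
      rw [this]
      exact H.mul_mem hia (H.inv_mem hm)
    have hi2 := SE.inv_eq_of_orderOf_two hi
    have hj2 := SE.inv_eq_of_orderOf_two hj
    have h2 : a⁻¹ * (j⁻¹ * i) * a = 1 := by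
      apply hH.eq_one_of_inverted_of_commute (u := a⁻¹ * i * a) (by rw [orderOf_conj', hi]) hu ht htH
      · calc a⁻¹ * i * a * (a⁻¹ * (j⁻¹ * i) * a) * (a⁻¹ * i * a)⁻¹ = a⁻¹ * (i * j⁻¹) * a := by group
          _ = a⁻¹ * (i⁻¹ * j) * a := by rw [hi2, hj2]
          _ = (a⁻¹ * (j⁻¹ * i) * a)⁻¹ := by group
      · calc a⁻¹ * (j⁻¹ * i) * a * t
            = (b⁻¹ * j * a)⁻¹ * ((b⁻¹ * i * a) * t * (b⁻¹ * i * a)⁻¹) * (b⁻¹ * i * a) := by group
          _ = t * (a⁻¹ * (j⁻¹ * i) * a) := by rw [h1]; group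
    calc i = j * (a * (a⁻¹ * (j⁻¹ * i) * a) * a⁻¹) := by group
      _ = j := by rw [h2]; group
  · rintro ⟨s, hs, hsH⟩
    have hs' : (a⁻¹ * b) * s * (a⁻¹ * b)⁻¹ ∉ H := fun hm => hab (hH.mem_of_conj s hsH hs _ hm)
    obtain ⟨v, -, hv, hvt⟩ := hH.exists_involution_conj ht htH (by rw [orderOf_conj, hs]) hs'
    have e : (b⁻¹ * (a * v * a⁻¹) * a) * t * (b⁻¹ * (a * v * a⁻¹) * a)⁻¹ = s := by
      calc (b⁻¹ * (a * v * a⁻¹) * a) * t * (b⁻¹ * (a * v * a⁻¹) * a)⁻¹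
          = (a⁻¹ * b)⁻¹ * (v * t * v⁻¹) * (a⁻¹ * b) := by group
        _ = s := by rw [hvt]; group
    refine ⟨⟨a * v * a⁻¹, by rw [orderOf_conj, hv], ?_⟩, Subtype.ext e⟩
    rw [key]
    exact hH.mem_of_conj t htH ht _ (e ▸ hsH)

end Cfsg.Agent.S1224
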