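import Cfsg.Statements.S0043

set_option autoImplicit false
open Cfsg

namespace Cfsg.Agent.S0043

/-- A minimal normal subgroup of a finite solvable group is abelian, and for some prime p all of its elements have order dividing p. -/
theorem result {G : Type*} [Group G] [Finite G] [Group.IsSolvable G]
    (N : Subgroup G) [N.Normal] (hN : N ≠ ⊥) (hmin : ∀ M : Subgroup G, M.Normal → M ≤ N → M = ⊥ ∨ M = N) :
    IsMulCommutative N ∧ ∃ p : ℕ, p.Prime ∧ ∀ x ∈ N, x ^ p = 1 := by
  have hcomm : ⁅N, N⁆ = ⊥ := by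
    rcases hmin ⁅N, N⁆ inferInstance (Subgroup.commutator_le_left N N) with h | h
    · exact h
    · exact absurd h (Group.IsSolvable.commutator_lt_of_ne_bot hN).ne
  have hc : IsMulCommutative N := Subgroup.commutator_self_eq_bot_iff.mp hcomm
  refine ⟨hc, ?_⟩
  have hnt : Nontrivial N := (Subgroup.nontrivial_iff_ne_bot N).mpr hN
  have hcard : Nat.card N ≠ 1 := Finite.one_lt_card.ne'
  obtain ⟨p, hp, hpd⟩ := Nat.exists_prime_and_dvd hcard
  haveI := Fact.mk hp
  obtain ⟨x, hx⟩ := exists_prime_orderOf_dvd_card' p hpd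
  refine ⟨p, hp, ?_⟩
  let M : Subgroup G :=
    { carrier := {y | y ∈ N ∧ y ^ p = 1}
      one_mem' := ⟨N.one_mem, one_pow _⟩
      mul_mem' := by
        rintro a b ⟨ha, ha'⟩ ⟨hb, hb'⟩
        refine ⟨N.mul_mem ha hb, ?_⟩
        have : Commute a b := Subgroup.mul_comm_of_mem_isMulCommutative N ha hb
        rw [this.mul_pow, ha', hb', one_mul]
      inv_mem' := by
        rintro a ⟨ha, ha'⟩
        exact ⟨N.inv_mem ha, by rw [inv_pow, ha', inv_one]⟩ }
  have hMn : M.Normal := ⟨by
    rintro a ⟨ha, ha'⟩ g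
    exact ⟨Subgroup.Normal.conj_mem inferInstance a ha g, by rw [conj_pow, ha']; simp⟩⟩
  rcases hmin M hMn (fun a ha => ha.1) with h | h
  · exfalso
    have hxM : (x : G) ∈ M := ⟨x.2, by
      rw [← hx, ← Subgroup.orderOf_coe]; exact pow_orderOf_eq_one _⟩
    rw [h, Subgroup.mem_bot] at hxM
    have : x = 1 := Subtype.ext hxM
    rw [this, orderOf_one] at hx
    exact hp.one_lt.ne hx
  · intro y hy
    rw [← h] at hy
    exact hy.2

end Cfsg.Agent.S0043
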