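import Cfsg.Statements.S0047
import Mathlib.Tactic.Group
import Mathlib.GroupTheory.Subgroup.Centralizer

set_option autoImplicit false
open Cfsg

namespace Cfsg.Agent.S0047

open scoped commutatorElement in
theorem ito {G : Type*} [Group G] (A B : Subgroup G) [IsMulCommutative A] [IsMulCommutative B] (hAB : ∀ g : G, ∃ a ∈ A, ∃ b ∈ B, g = a * b) : derivedSeries G 2 = ⊥ := by
  have hA : ∀ x ∈ A, ∀ y ∈ A, x * y = y * x := fun x hx y hy =>
    setLike_mul_comm hx hy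
  have hB : ∀ x ∈ B, ∀ y ∈ B, x * y = y * x := fun x hx y hy =>
    setLike_mul_comm hx hy
  have hBA : ∀ g : G, ∃ b ∈ B, ∃ a ∈ A, g = b * a := by
    intro g
    obtain ⟨a, ha, b, hb, h⟩ := hAB g⁻¹
    refine ⟨b⁻¹, B.inv_mem hb, a⁻¹, A.inv_mem ha, ?_⟩
    rw [← mul_inv_rev, ← h, inv_inv]
  -- key: commutators `⁅a, b⁆` commute with one another
  have key : ∀ a ∈ A, ∀ b ∈ B, ∀ a1 ∈ A, ∀ b1 ∈ B,
      b1 * a1 * ⁅a, b⁆ * (b1 * a1)⁻¹ = a1 * b1 * ⁅a, b⁆ * (a1 * b1)⁻¹ := by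
    intro a ha b hb a1 ha1 b1 hb1
    obtain ⟨b2, hb2, a2, ha2, h2⟩ := hBA (a1 * b * a1⁻¹)
    obtain ⟨a3, ha3, b3, hb3, h3⟩ := hAB (b1 * a * b1⁻¹)
    have e1 : ∀ x ∈ A, ∀ y : G, a1 * ⁅x, y⁆ * a1⁻¹ = ⁅x, a1 * y * a1⁻¹⁆ := by
      intro x hx y
      have := hA a1 ha1 x hx
      simp only [commutatorElement_def]
      calc a1 * (x * y * x⁻¹ * y⁻¹) * a1⁻¹ = (a1 * x) * y * x⁻¹ * y⁻¹ * a1⁻¹ := by group
        _ = (x * a1) * y * (a1⁻¹ * (a1 * x⁻¹)) * y⁻¹ * a1⁻¹ := by rw [this]; group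
        _ = (x * a1) * y * (a1⁻¹ * (x⁻¹ * a1)) * y⁻¹ * a1⁻¹ := by
            rw [hA a1 ha1 x⁻¹ (A.inv_mem hx)]
        _ = _ := by group
    have e2 : ∀ y ∈ B, ∀ x : G, b1 * ⁅x, y⁆ * b1⁻¹ = ⁅b1 * x * b1⁻¹, y⁆ := by
      intro y hy x
      simp only [commutatorElement_def]
      calc b1 * (x * y * x⁻¹ * y⁻¹) * b1⁻¹
          = b1 * x * b1⁻¹ * (b1 * y) * x⁻¹ * (b1 * y)⁻¹ := by group
        _ = b1 * x * b1⁻¹ * (y * b1) * x⁻¹ * (y * b1)⁻¹ := by rw [hB b1 hb1 y hy]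
        _ = _ := by group
    have e3 : ∀ x ∈ A, ⁅x, b2 * a2⁆ = ⁅x, b2⁆ := by
      intro x hx
      simp only [commutatorElement_def]
      calc x * (b2 * a2) * x⁻¹ * (b2 * a2)⁻¹ = x * b2 * (a2 * x⁻¹) * a2⁻¹ * b2⁻¹ := by group
        _ = x * b2 * (x⁻¹ * a2) * a2⁻¹ * b2⁻¹ := by rw [hA a2 ha2 x⁻¹ (A.inv_mem hx)]
        _ = _ := by group
    have e4 : ∀ y ∈ B, ⁅a3 * b3, y⁆ = ⁅a3, y⁆ := by
      intro y hy
      simp only [commutatorElement_def]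
      calc a3 * b3 * y * (a3 * b3)⁻¹ * y⁻¹ = a3 * (b3 * y) * b3⁻¹ * a3⁻¹ * y⁻¹ := by group
        _ = a3 * (y * b3) * b3⁻¹ * a3⁻¹ * y⁻¹ := by rw [hB b3 hb3 y hy]
        _ = _ := by group
    calc b1 * a1 * ⁅a, b⁆ * (b1 * a1)⁻¹ = b1 * (a1 * ⁅a, b⁆ * a1⁻¹) * b1⁻¹ := by group
      _ = ⁅a3, b2⁆ := by rw [e1 a ha, h2, e3 a ha, e2 b2 hb2, h3, e4 b2 hb2]
      _ = a1 * (b1 * ⁅a, b⁆ * b1⁻¹) * a1⁻¹ := by
          rw [e2 b hb, h3, e4 b hb, e1 a3 ha3, h2, e3 a3 ha3]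
      _ = _ := by group
  have key2 : ∀ a ∈ A, ∀ b ∈ B, ∀ a1 ∈ A, ∀ b1 ∈ B,
      ⁅a1, b1⁆ * ⁅a, b⁆ = ⁅a, b⁆ * ⁅a1, b1⁆ := by
    intro a ha b hb a1 ha1 b1 hb1
    have h := key a ha b hb a1⁻¹ (A.inv_mem ha1) b1⁻¹ (B.inv_mem hb1)
    generalize ⁅a, b⁆ = c at h ⊢
    simp only [commutatorElement_def]
    calc a1 * b1 * a1⁻¹ * b1⁻¹ * c
        = a1 * b1 * (a1⁻¹ * b1⁻¹ * c * (a1⁻¹ * b1⁻¹)⁻¹) * (a1⁻¹ * b1⁻¹) := by group
      _ = a1 * b1 * (b1⁻¹ * a1⁻¹ * c * (b1⁻¹ * a1⁻¹)⁻¹) * (a1⁻¹ * b1⁻¹) := by rw [h]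
      _ = _ := by group
  -- the commutator subgroup of `G` lies in `⁅A, B⁆`
  have hconjA : ∀ a1 ∈ A, ∀ x ∈ ⁅A, B⁆, a1 * x * a1⁻¹ ∈ ⁅A, B⁆ := by
    intro a1 ha1 x hx
    rw [Subgroup.commutator_def] at hx
    induction hx using Subgroup.closure_induction with
    | mem x hx =>
      obtain ⟨a, ha, b, hb, rfl⟩ := hx
      have : a1 * ⁅a, b⁆ * a1⁻¹ = ⁅a1 * a, b⁆ * ⁅a1, b⁆⁻¹ := by
        simp only [commutatorElement_def]; group
      rw [this]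
      exact mul_mem (Subgroup.commutator_mem_commutator (A.mul_mem ha1 ha) hb)
        (inv_mem (Subgroup.commutator_mem_commutator ha1 hb))
    | one => simp
    | mul x y _ _ hx hy =>
      have : a1 * (x * y) * a1⁻¹ = (a1 * x * a1⁻¹) * (a1 * y * a1⁻¹) := by group
      rw [this]; exact mul_mem hx hy
    | inv x _ hx =>
      have : a1 * x⁻¹ * a1⁻¹ = (a1 * x * a1⁻¹)⁻¹ := by group
      rw [this]; exact inv_mem hx
  have hconjB : ∀ b1 ∈ B, ∀ x ∈ ⁅A, B⁆, b1 * x * b1⁻¹ ∈ ⁅A, B⁆ := by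
    intro b1 hb1 x hx
    rw [Subgroup.commutator_def] at hx
    induction hx using Subgroup.closure_induction with
    | mem x hx =>
      obtain ⟨a, ha, b, hb, rfl⟩ := hx
      have : b1 * ⁅a, b⁆ * b1⁻¹ = ⁅a, b1⁆⁻¹ * ⁅a, b1 * b⁆ := by
        simp only [commutatorElement_def]; group
      rw [this]
      exact mul_mem (inv_mem (Subgroup.commutator_mem_commutator ha hb1))
        (Subgroup.commutator_mem_commutator ha (B.mul_mem hb1 hb))
    | one => simp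
    | mul x y _ _ hx hy =>
      have : b1 * (x * y) * b1⁻¹ = (b1 * x * b1⁻¹) * (b1 * y * b1⁻¹) := by group
      rw [this]; exact mul_mem hx hy
    | inv x _ hx =>
      have : b1 * x⁻¹ * b1⁻¹ = (b1 * x * b1⁻¹)⁻¹ := by group
      rw [this]; exact inv_mem hx
  have hN : (⁅A, B⁆ : Subgroup G).Normal := by
    constructor
    intro x hx g
    obtain ⟨a, ha, b, hb, rfl⟩ := hAB g
    have : a * b * x * (a * b)⁻¹ = a * (b * x * b⁻¹) * a⁻¹ := by group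
    rw [this]
    exact hconjA a ha _ (hconjB b hb x hx)
  have hcomm : commutator G ≤ ⁅A, B⁆ := by
    rw [commutator_def, Subgroup.commutator_le]
    intro x _ y _
    rw [← QuotientGroup.eq_one_iff]
    obtain ⟨a, ha, b, hb, rfl⟩ := hAB x
    obtain ⟨a', ha', b', hb', rfl⟩ := hAB y
    have hc : ∀ u ∈ A, ∀ v ∈ B, Commute (u : G ⧸ ⁅A, B⁆) (v : G ⧸ ⁅A, B⁆) := by
      intro u hu v hv
      rw [← commutatorElement_eq_one_iff_commute]
      have := (QuotientGroup.eq_one_iff _).mpr (Subgroup.commutator_mem_commutator hu hv)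
      simpa [commutatorElement_def] using this
    have c1 : Commute (a : G ⧸ ⁅A, B⁆) a' := by
      show (a : G ⧸ ⁅A, B⁆) * a' = a' * a
      rw [← QuotientGroup.mk_mul, hA a ha a' ha', QuotientGroup.mk_mul]
    have c2 : Commute (b : G ⧸ ⁅A, B⁆) b' := by
      show (b : G ⧸ ⁅A, B⁆) * b' = b' * b
      rw [← QuotientGroup.mk_mul, hB b hb b' hb', QuotientGroup.mk_mul]
    have c3 : Commute ((a * b : G) : G ⧸ ⁅A, B⁆) ((a' * b' : G) : G ⧸ ⁅A, B⁆) := by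
      rw [QuotientGroup.mk_mul, QuotientGroup.mk_mul]
      exact (c1.mul_right (hc a ha b' hb')).mul_left ((hc a' ha' b hb).symm.mul_right c2)
    rw [← commutatorElement_eq_one_iff_commute] at c3
    simpa [commutatorElement_def] using c3
  have hab : (⁅(⁅A, B⁆ : Subgroup G), (⁅A, B⁆ : Subgroup G)⁆ : Subgroup G) = ⊥ := by
    rw [Subgroup.commutator_eq_bot_iff_le_centralizer]
    conv_lhs => rw [Subgroup.commutator_def]
    rw [Subgroup.closure_le]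
    rintro x ⟨a, ha, b, hb, rfl⟩
    rw [SetLike.mem_coe, Subgroup.mem_centralizer_iff]
    intro y hy
    rw [SetLike.mem_coe, Subgroup.commutator_def] at hy
    induction hy using Subgroup.closure_induction with
    | mem x hx =>
      obtain ⟨a1, ha1, b1, hb1, rfl⟩ := hx
      exact key2 a ha b hb a1 ha1 b1 hb1
    | one => simp
    | mul x y _ _ hx hy => rw [mul_assoc, hy, ← mul_assoc, hx, mul_assoc]
    | inv x _ hx => exact (Commute.inv_left hx : Commute x⁻¹ _)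
  rw [derivedSeries_succ, derivedSeries_one, eq_bot_iff, ← hab]
  exact Subgroup.commutator_mono hcomm hcomm


/-- A finite group which is the product AB of two abelian subgroups A and B is solvable. -/
theorem result {G : Type*} [Group G] [Finite G] (A B : Subgroup G)
    [IsMulCommutative A] [IsMulCommutative B] (hAB : ∀ g : G, ∃ a ∈ A, ∃ b ∈ B, g = a * b) :
    Group.IsSolvable G := by
  exact ⟨⟨2, ito A B hAB⟩⟩

end Cfsg.Agent.S0047
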