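import Cfsg.Statements.S0060

set_option autoImplicit false
open Pointwise
open Cfsg

namespace Cfsg.Agent.S0060

theorem mem_smul_sylow {G : Type*} [Group G] {p : ℕ} (g x : G) (P : Sylow p G) :
    x ∈ ((g • P : Sylow p G) : Subgroup G) ↔ g⁻¹ * x * g ∈ (P : Subgroup G) := by
  rw [Sylow.coe_subgroup_smul, Subgroup.mem_pointwise_smul_iff_inv_smul_mem]
  simp

/-- If `S' ⊓ T` is minimal among the intersections of `T` with Sylow subgroups, every subgroup of
`S' ⊓ T` normalised by `S'` and `T` lies in every Sylow subgroup. -/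
theorem le_sylow_of_minimal {G : Type*} [Group G] [Finite G] (p : ℕ) [Fact p.Prime]
    (S T : Sylow p G)
    (hmin : ∀ P : Sylow p G, (P : Subgroup G) ⊓ T ≤ (S : Subgroup G) ⊓ T →
      (P : Subgroup G) ⊓ T = (S : Subgroup G) ⊓ T)
    (K : Subgroup G) (hK : K ≤ (S : Subgroup G) ⊓ T)
    (hS : (S : Subgroup G) ≤ Subgroup.normalizer (K : Set G))
    (hT : (T : Subgroup G) ≤ Subgroup.normalizer (K : Set G)) (P : Sylow p G) :
    K ≤ P := by
  set N := Subgroup.normalizer (K : Set G) with hN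
  have hPN : IsPGroup p ((P : Subgroup G).subgroupOf N) := P.isPGroup'.comap_subtype
  obtain ⟨Q, hQ⟩ := hPN.exists_le_sylow
  obtain ⟨x, hx⟩ := MulAction.exists_smul_eq N (S.subtype hS) Q
  have h1 : ((((x : G)⁻¹ • P : Sylow p G) : Subgroup G)) ⊓ T ≤ (S : Subgroup G) ⊓ T := by
    rintro y ⟨hy1, hy2⟩
    refine ⟨?_, hy2⟩
    have hy1' := (mem_smul_sylow _ _ _).1 hy1
    rw [inv_inv] at hy1'
    have hyN : y ∈ N := hT hy2
    have h2 : x * ⟨y, hyN⟩ * x⁻¹ ∈ (Q : Subgroup N) := hQ (by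
      rw [Subgroup.mem_subgroupOf]; exact hy1')
    rw [← hx, mem_smul_sylow] at h2
    have h3 : x⁻¹ * (x * ⟨y, hyN⟩ * x⁻¹) * x = ⟨y, hyN⟩ := by group
    rw [h3] at h2
    exact h2
  have h2 := hmin _ h1
  intro d hd
  have hxK : (x : G)⁻¹ * d * x ∈ K := by
    have := (Subgroup.mem_normalizer_iff.1 (N.inv_mem x.2) d).1 hd
    simpa using this
  have h3 := hK hxK
  rw [← h2] at h3
  have h4 := (mem_smul_sylow _ _ _).1 h3.1
  have h5 : (x : G)⁻¹⁻¹ * ((x : G)⁻¹ * d * x) * (x : G)⁻¹ = d := by group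
  rwa [h5] at h4

/-- Brodkey's Theorem: in a finite group with abelian Sylow p-subgroups and no nontrivial normal p-subgroup, some conjugate of a Sylow p-subgroup meets it trivially. -/
theorem result {G : Type*} [Group G] [Finite G] (p : ℕ) [Fact p.Prime]
    (S : Sylow p G) (hS : IsMulCommutative S) (hOp : Cfsg.pCore p G = ⊥) :
    ∃ g : G, (S : Subgroup G) ⊓ MulAut.conj g • (S : Subgroup G) = ⊥ := by
  obtain ⟨D, ⟨P₀, rfl⟩, hmin⟩ := WellFounded.has_min (wellFounded_lt (α := Subgroup G))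
    (Set.range fun P : Sylow p G => (P : Subgroup G) ⊓ S) ⟨_, S, rfl⟩
  obtain ⟨g, rfl⟩ := MulAction.exists_smul_eq G S P₀
  refine ⟨g, ?_⟩
  have hcomm : ∀ a ∈ (S : Subgroup G), ∀ b ∈ (S : Subgroup G), a * b = b * a := fun a ha b hb =>
    congrArg Subtype.val (hS.is_comm.comm (⟨a, ha⟩ : S) ⟨b, hb⟩)
  set D : Subgroup G := ((g • S : Sylow p G) : Subgroup G) ⊓ S with hD
  have hnorm : ∀ H : Subgroup G, (∀ a ∈ H, ∀ d ∈ D, a * d = d * a) →
      H ≤ Subgroup.normalizer (D : Set G) := by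
    intro H hH
    refine le_trans ?_ (Subgroup.centralizer_le_normalizer (D : Set G))
    intro a ha
    rw [Subgroup.mem_centralizer_iff]
    intro d hd
    exact (hH a ha d hd).symm
  have hall : ∀ P : Sylow p G, D ≤ P := by
    refine le_sylow_of_minimal p (g • S) S ?_ D le_rfl (hnorm _ ?_) (hnorm _ ?_)
    · intro P hP
      by_contra hne
      exact hmin _ ⟨P, rfl⟩ (lt_of_le_of_ne hP hne)
    · intro a ha d hd
      have h1 := hcomm _ ((mem_smul_sylow _ _ _).1 ha) _ ((mem_smul_sylow _ _ _).1 hd.1)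
      have h2 : a * d = g * (g⁻¹ * a * g * (g⁻¹ * d * g)) * g⁻¹ := by group
      rw [h2, h1]; group
    · intro a ha d hd
      exact hcomm a ha d hd.2
  have hcore : D ≤ (S : Subgroup G).normalCore := by
    intro d hd b
    have := (mem_smul_sylow _ _ _).1 (hall (b⁻¹ • S) hd)
    simpa using this
  have hle : (S : Subgroup G).normalCore ≤ Cfsg.pCore p G :=
    le_sSup ⟨inferInstance, S.isPGroup'.to_le (Subgroup.normalCore_le _)⟩
  rw [hOp] at hle
  have := le_bot_iff.1 (hcore.trans hle)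
  rw [inf_comm]
  exact this

end Cfsg.Agent.S0060
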