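import Cfsg.Statements.S0437
import Cfsg.Agent.Spor.TQGroup

set_option autoImplicit false
open Cfsg

namespace Cfsg.Agent.S0437

/-- For three distinct, pairwise commuting members a, b, c of a set of 3-transpositions E, a member e of E centralises a * b * c if and only if it centralises each of a, b and c. -/
theorem result {G : Type*} [Group G] {E : Set G} (hE : Cfsg.IsThreeTranspositionSet E) {a b c e : G} (ha : a ∈ E) (hb : b ∈ E) (hc : c ∈ E) (he : e ∈ E) (hab : a ≠ b) (hac : a ≠ c) (hbc : b ≠ c) (h₁ : Commute a b) (h₂ : Commute a c) (h₃ : Commute b c) : Commute e (a * b * c) ↔ (Commute e a ∧ Commute e b ∧ Commute e c) := by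
  open Cfsg.Lib.Spor in
  refine ⟨fun h => ?_, fun h => (h.1.mul_right h.2.1).mul_right h.2.2⟩
  by_cases hc' : Commute e c
  · have h2 := h.mul_right hc'.inv_right
    rw [mul_inv_cancel_right] at h2
    have := tt_commute_mul_iff hE ha hb he hab h2 h₁
    exact ⟨this.1, this.2, hc'⟩
  by_cases ha' : Commute e a
  · have h2 := ha'.inv_right.mul_right h
    rw [mul_assoc, inv_mul_cancel_left] at h2
    have := tt_commute_mul_iff hE hb hc he hbc h2 h₃
    exact ⟨ha', this.1, this.2⟩
  by_cases hb' : Commute e b
  · have h2 := hb'.inv_right.mul_right h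
    rw [h₁.eq, mul_assoc, inv_mul_cancel_left] at h2
    have := tt_commute_mul_iff hE ha hc he hac h2 h₂
    exact absurd this.1 ha'
  exfalso
  have e1 := tt_braid hE he ha ha'
  have e2 := tt_braid hE he hb hb'
  have e3 := tt_braid hE he hc hc'
  have ee := tt_mul_self hE he
  have h4 : (e * a * e) * (e * b * e) * (e * c * e) = a * b * c := by
    calc (e * a * e) * (e * b * e) * (e * c * e) = e * a * (e * e) * b * (e * e) * c * e := by
          simp only [mul_assoc]
      _ = e * (a * b * c) * e := by rw [ee]; simp only [mul_assoc, one_mul]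
      _ = a * b * c * (e * e) := by rw [h.eq]; simp only [mul_assoc]
      _ = a * b * c := by rw [ee, mul_one]
  rw [e1, e2, e3] at h4
  have h5 : e * (a * b * e * b * c) * e = b := by
    have : a * (e * (a * b * e * b * c) * e) * c = a * b * c := by
      refine Eq.trans ?_ h4
      simp only [mul_assoc]
    exact mul_left_cancel (mul_right_cancel this)
  have h6 : a * b * e * b * c = e * b * e := by
    calc a * b * e * b * c = (e * e) * (a * b * e * b * c) * (e * e) := by rw [ee]; simp
      _ = e * (e * (a * b * e * b * c) * e) * e := by simp only [mul_assoc]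
      _ = e * b * e := by rw [h5]
  have h7 : a * e * c = e := by
    have : b * (a * e * c) * b = b * e * b := by
      rw [← e2, ← h6, h₁.eq, mul_assoc (b * a * e) b c, h₃.eq]; simp only [mul_assoc]
    exact mul_left_cancel (mul_right_cancel this)
  have h8 : a * e * a = c := by
    have cc := tt_mul_self hE hc
    calc a * e * a = e * a * e := e1.symm
      _ = e * (a * e * c) * c := by
        rw [mul_assoc, mul_assoc, mul_assoc (a * e), cc, mul_one]
      _ = c := by rw [h7, ee, one_mul]
  apply hc'
  have h9 : e = c := by
    have aa := tt_mul_self hE ha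
    calc e = (a * a) * e * (a * a) := by rw [aa]; simp
      _ = a * (a * e * a) * a := by simp only [mul_assoc]
      _ = c := by rw [h8, h₂.eq, mul_assoc, aa, mul_one]
  rw [h9]

end Cfsg.Agent.S0437
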