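import Cfsg.Statements.S0438
import Cfsg.Agent.Spor.TQGroup

set_option autoImplicit false
open Cfsg

namespace Cfsg.Agent.S0438

/-- Let E be a set of 3-transpositions closed under conjugation, and x an involutory automorphism of the group mapping E to itself. If some a in E fails to commute with its image x a, then x fixes an element of E. -/
theorem result {G : Type*} [Group G] {E : Set G} (hE : Cfsg.IsThreeTranspositionSet E) (hconj : ∀ g : G, ∀ d ∈ E, g * d * g⁻¹ ∈ E) (x : G ≃* G) (hx : ∀ g : G, x (x g) = g) (hxE : ∀ d ∈ E, x d ∈ E) {a : G} (ha : a ∈ E) (h : ¬ Commute a (x a)) : ∃ d ∈ E, x d = d := by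
  open Cfsg.Lib.Spor in
  have hxa := hxE a ha
  refine ⟨a * x a * a⁻¹, hconj a _ hxa, ?_⟩
  rw [map_mul, map_mul, map_inv, hx, tt_inv hE ha, tt_inv hE hxa]
  exact (tt_braid hE ha hxa h).symm

end Cfsg.Agent.S0438
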