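import Cfsg.Statements.S0447
import Cfsg.Agent.DC.Invol
import Cfsg.Agent.Known.AltCover

set_option autoImplicit false
open Cfsg

namespace Cfsg.Agent.S0447

open Equiv Subgroup Cfsg.Lib.AltCover Cfsg.Lib.DC

theorem exists_z {H : Type*} [Group H] (h : Nat.card (center H) = 2) :
    ∃ ζ : H, orderOf ζ = 2 ∧ ∀ x, Commute x ζ := by
  have : Finite (center H) := Nat.finite_of_card_ne_zero (by omega)
  obtain ⟨z, hz⟩ := exists_prime_orderOf_dvd_card' (G := center H) 2 (by rw [h])
  exact ⟨z, by rw [orderOf_coe, hz], fun x => mem_center_iff.1 z.2 x⟩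

theorem center_spin {Ω : Type} [Fintype Ω] [DecidableEq Ω] (h : 4 ≤ Nat.card Ω) :
    center (Spin Ω) = (ps Ω).ker := by
  apply le_antisymm
  · intro x hx
    rw [MonoidHom.mem_ker, ← Subgroup.mem_bot, ← alternatingGroup.center_eq_bot h, mem_center_iff]
    intro g
    obtain ⟨y, rfl⟩ := ps_surjective g
    rw [← map_mul, ← map_mul, mem_center_iff.1 hx y]
  · rw [ker_ps, zpowers_le]; exact zs_mem_center

theorem nonsplit : IsNonsplitDoubleCover (Spin (Fin 8)) (alternatingGroup (Fin 8)) := by
  have hc := center_spin (Ω := Fin 8) (by simp)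
  refine ⟨?_, ⟨(QuotientGroup.quotientMulEquivOfEq hc).trans
    (QuotientGroup.quotientKerEquivOfSurjective _ ps_surjective)⟩, fun L hL => ?_⟩
  · rw [hc, ker_ps, Nat.card_zpowers, orderOf_zs]
  · obtain ⟨p, hp⟩ := ps_surjective (Ω := Fin 8) ⟨swap 0 1 * swap 2 3, Perm.mem_alternatingGroup.2 (by decide)⟩
    have h1 : p * p = zs (Fin 8) := Subtype.ext
      (sq_eq_zz (a := 0) (b := 1) (c := 2) (d := 3) (by decide) (by decide) (by decide) (by decide)
        (by decide) (by decide) (congrArg Subtype.val hp))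
    obtain ⟨⟨z, l⟩, e⟩ := hL.2 p
    have hz : (z : Spin (Fin 8)) * z = 1 := by
      have h2 : (z : Spin (Fin 8)) ∈ zpowers (zs (Fin 8)) := by rw [← ker_ps, ← hc]; exact z.2
      rw [← pow_two, ← orderOf_dvd_iff_pow_eq_one, ← orderOf_zs (Ω := Fin 8)]
      exact orderOf_dvd_of_mem_zpowers h2
    have h3 : zs (Fin 8) = (l : Spin (Fin 8)) * l := by
      rw [← h1, ← e]
      show (z : Spin (Fin 8)) * l * (z * l) = _
      rw [mul_assoc, ← mul_assoc (l : Spin (Fin 8)), mem_center_iff.1 z.2 l, ← mul_assoc, ← mul_assoc,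
        hz, one_mul]
    have h4 : zs (Fin 8) ∈ center (Spin (Fin 8)) ⊓ L := ⟨zs_mem_center, h3 ▸ mul_mem l.2 l.2⟩
    rw [hL.disjoint.eq_bot, Subgroup.mem_bot] at h4
    have := orderOf_zs (Ω := Fin 8)
    rw [h4, orderOf_one] at this
    omega

/-- Involutions in double covers of alternating groups: for n ≤ 7, a finite non-split double cover of the alternating group of degree n has exactly one element of order 2 (the central one); for degree 8 there is a non-split double cover with two distinct involutions. -/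
theorem result : (∀ (n : ℕ) (H : Type) (_ : Group H) (_ : Finite H), n ≤ 7 → Cfsg.IsNonsplitDoubleCover H (alternatingGroup (Fin n)) → ∀ x y : H, orderOf x = 2 → orderOf y = 2 → x = y) ∧ ∃ (H : Type) (_ : Group H) (_ : Finite H), Cfsg.IsNonsplitDoubleCover H (alternatingGroup (Fin 8)) ∧ ∃ x y : H, x ≠ y ∧ orderOf x = 2 ∧ orderOf y = 2 := by
  constructor
  · intro n H _ _ hn h x y hx hy
    obtain ⟨ζ, h1, h2⟩ := exists_z h.1
    obtain ⟨π, hc⟩ := exists_cov h h1 h2
    have key : ∀ x : H, orderOf x = 2 → x = ζ := by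
      intro x hx
      have hx2 : x * x = 1 := by rw [← pow_two, ← hx, pow_orderOf_eq_one]
      by_cases hπ : π x = 1
      · rcases (hc.ker x).1 hπ with rfl | e
        · rw [orderOf_one] at hx; omega
        · exact e
      · have := (hc.eight_le hx2 hπ).trans (Finset.card_le_univ _)
        rw [Fintype.card_fin] at this
        omega
    rw [key x hx, key y hy]
  · refine ⟨Spin (Fin 8), inferInstance, inferInstance, nonsplit, ?_⟩
    obtain ⟨ζ, h1, h2⟩ := exists_z nonsplit.1
    obtain ⟨π, hc⟩ := exists_cov nonsplit h1 h2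
    obtain ⟨t, ht⟩ := hc.exists_lift (σ := swap (0 : Fin 8) 1 * swap 2 3 * swap 4 5 * swap 6 7) (by decide)
    have h3 : t * t = 1 := hc.mul_self_eq_one (by rw [ht]; decide) (by rw [ht]; decide)
    have h4 : π t ≠ 1 := by rw [ht]; decide
    refine ⟨t, ζ, fun e => h4 (by rw [e]; exact hc.map_z), ?_, h1⟩
    exact orderOf_eq_prime (by rw [pow_two, h3]) (fun e => h4 (by rw [e, map_one]))

end Cfsg.Agent.S0447
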