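import Cfsg.Statements.S0454
import Cfsg.Agent.Spor.LyCent

set_option autoImplicit false
open Cfsg

namespace Cfsg.Agent.S0454

/-- Existence of the Lyons group: there is a transitive permutation group of degree 8835156, simple of order 51765179004000000, whose point stabiliser is simple of the order of a group of type G2, and which has an involution whose centraliser is a non-split double cover of the alternating group of degree 11. -/
theorem result : ∃ H : Subgroup (Equiv.Perm (Fin 8835156)), Cfsg.IsLy H ∧ MulAction.IsPretransitive H (Fin 8835156) ∧ Cfsg.IsG2 (MulAction.stabilizer H (0 : Fin 8835156)) ∧ ∃ t : H, orderOf t = 2 ∧ Cfsg.IsNonsplitDoubleCover (Subgroup.centralizer ({t} : Set H)) (alternatingGroup (Fin 11)) := by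
  open Cfsg.Lib.Spor Cfsg.Lib.Spor.LyB Cfsg.Lib.Spor.LyC in
  obtain ⟨σ, h⟩ := LyU.exists_sig LyP.sat
  obtain ⟨K, e, k1, k2⟩ := MG.exists_perm_rep _ 8835156 (by decide) (index_range h)
  let f := ((rangeEquiv h).trans (e.subgroupMap _)).trans (MulEquiv.subgroupCongr k2)
  have h1 : (Subgroup.centralizer {tt}).map e.toMonoidHom = Subgroup.centralizer {e tt} := by
    ext y
    obtain ⟨y, rfl⟩ := e.surjective y
    simp only [Subgroup.mem_map, Subgroup.mem_centralizer_singleton_iff, MulEquiv.coe_toMonoidHom,
      EmbeddingLike.apply_eq_iff_eq, exists_eq_right, ← map_mul]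
  exact ⟨K, ⟨e.symm.isSimpleGroup, (Nat.card_congr e.toEquiv).symm.trans card_Ly⟩, k1,
    ⟨f.symm.isSimpleGroup, 5, Nat.prime_five.isPrimePow, by norm_num,
      (Nat.card_congr f.toEquiv).symm.trans (LyU.card_HH.trans (by norm_num))⟩,
    e tt, (e.orderOf_eq tt).trans orderOf_t,
    Bulk.IsNonsplitDoubleCover.congr nonsplit_t ((e.subgroupMap _).trans (MulEquiv.subgroupCongr h1))⟩

end Cfsg.Agent.S0454
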