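import Cfsg.Statements.S0473
import Cfsg.Agent.Known.Fi24He

set_option autoImplicit false
open Cfsg

namespace Cfsg.Agent.S0473

open Cfsg.Lib.Known Cfsg.Lib.Spor Cfsg.Lib.Spor.Bulk Fi24P

/-- The largest Fischer 3-transposition group: a group of order 2 · 1255205709190661721292800 generated by a conjugacy class of 306936 3-transpositions, in which a transposition centraliser has order 2 · 4089470473293004800 and contains a simple subgroup of order 4089470473293004800; its subgroup of index 2 is simple and contains simple subgroups of orders 4089470473293004800 and 4030387200. -/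
theorem result : ∃ (G : Type) (_ : Group G) (_ : Finite G), Nat.card G = 2 * 1255205709190661721292800 ∧ ∃ D : Set G, Cfsg.IsThreeTranspositionClass D ∧ Nat.card D = 306936 ∧ (∀ d ∈ D, Nat.card (Subgroup.centralizer ({d} : Set G)) = 2 * 4089470473293004800 ∧ ∃ K : Subgroup G, K ≤ Subgroup.centralizer ({d} : Set G) ∧ Cfsg.IsFi23 K) ∧ ∃ H : Subgroup G, H.index = 2 ∧ Cfsg.IsFi24' H ∧ (∃ K : Subgroup H, Cfsg.IsFi23 K) ∧ (∃ K : Subgroup H, Cfsg.IsHe K) := by
  have s23 := Fi23P.simple
  have sHe := HeP.simple
  have k : ∀ {X : Type} [Group X] (f : X →* Spor.Fi24), Function.Injective f →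
      f.range ≤ commutator _ → Nonempty (f.range.subgroupOf (commutator _) ≃* X) :=
    fun f h1 h2 => ⟨(Subgroup.subgroupOfEquivOfLe h2).trans (MonoidHom.ofInjective h1).symm⟩
  refine ⟨Spor.Fi24, inferInstance, finite, card, _, f24_tt, ?_, fun d hd => ?_, _, index_commutator,
    ⟨simple, card_commutator⟩, ?_, ?_⟩
  · rw [card_conjugatesOf, f24_cent, ← K_eq, model.index]
  · obtain ⟨e⟩ := centralizer_equiv_of_isConj hd
    let f := (Subgroup.subtype _).comp (e.toMonoidHom.comp
      ((Fi23P.hom f2324_sat).codRestrict _ fun x => f24_cent.ge (f2324_le ⟨x, rfl⟩)))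
    have hf : Function.Injective f := Subtype.val_injective.comp (e.injective.comp fun a b h =>
      f2324_hom.1 (congrArg Subtype.val h))
    refine ⟨by rw [← Nat.card_congr e.toEquiv, f24_cent, card_K], f.range, ?_,
      (MonoidHom.ofInjective hf).symm.isSimpleGroup,
      (Nat.card_congr (MonoidHom.ofInjective hf).toEquiv).symm.trans Fi23P.card⟩
    rintro _ ⟨x, rfl⟩
    exact Subtype.prop _
  · obtain ⟨e⟩ := k _ f2324_hom.1 f2324_hom.2
    exact ⟨_, e.isSimpleGroup, (Nat.card_congr e.toEquiv).trans Fi23P.card⟩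
  · obtain ⟨e⟩ := k _ he24_hom.1 he24_hom.2
    exact ⟨_, e.isSimpleGroup, (Nat.card_congr e.toEquiv).trans HeP.card⟩

end Cfsg.Agent.S0473
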