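import Cfsg.Statements.S0547
import Cfsg.Agent.Solv.CoreFree

set_option autoImplicit false
open Cfsg

namespace Cfsg.Agent.S0547

open Lib.Solv Lib.Solv.CoreFree

/-- Let a finite solvable group G act faithfully and primitively on a set, and let M be a minimal normal subgroup of G. Then M is transitive with trivial point stabilizers, and the number of points equals the order of M, which is a prime power p ^ d with d ≥ 1. -/
theorem result {G : Type*} [Group G] [Finite G] [Group.IsSolvable G] {Ω : Type*} [Nonempty Ω] [MulAction G Ω] [FaithfulSMul G Ω] (hprim : MulAction.IsPreprimitive G Ω) (M : Subgroup G) [M.Normal] (hM : M ≠ ⊥) (hmin : ∀ K : Subgroup G, K.Normal → K ≤ M → K = ⊥ ∨ K = M) : MulAction.IsPretransitive M Ω ∧ (∀ ω : Ω, MulAction.stabilizer M ω = ⊥) ∧ ∃ p d : ℕ, p.Prime ∧ 0 < d ∧ Nat.card Ω = p ^ d ∧ Nat.card M = p ^ d := by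
  have mM : IsMinNormal M := ⟨inferInstance, hM, hmin⟩
  have := mM.isMulCommutative
  have : Nontrivial Ω := nontrivial_of_faithful hM
  have hc : ∀ ω : Ω, Subgroup.IsComplement' M (MulAction.stabilizer G ω) := fun ω =>
    isComplement'_of_comm (MulAction.IsPreprimitive.isCoatom_stabilizer_of_isPreprimitive G ω)
      (normalCore_stabilizer_eq_bot ω) hM
  refine ⟨⟨fun x y => ?_⟩, fun ω => ?_, ?_⟩
  · obtain ⟨g, rfl⟩ := MulAction.exists_smul_eq G x y
    obtain ⟨⟨m, s⟩, rfl⟩ := (hc x).2 g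
    refine ⟨m, ?_⟩
    rw [mul_smul, show (s : G) • x = x from s.2]
    rfl
  · rw [eq_bot_iff]
    intro m hm
    rw [Subgroup.mem_bot]
    exact Subtype.ext (Subgroup.disjoint_def.mp (hc ω).disjoint m.2 hm)
  · obtain ⟨p, k, hp, hk, hcard⟩ := mM.card_eq_prime_pow
    obtain ⟨ω⟩ := ‹Nonempty Ω›
    refine ⟨p, k, hp, hk, ?_, hcard⟩
    rw [← hcard, ← (hc ω).index_eq_card, MulAction.index_stabilizer_of_transitive]

end Cfsg.Agent.S0547
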