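import Cfsg.Statements.S0609
import Cfsg.Agent.Trans.ThompsonFact

set_option autoImplicit false
open Cfsg

namespace Cfsg.Agent.S0609

open Cfsg.Lib.Trans.TJ

/-- Thompson factorizability passes to and from the quotient by the largest normal subgroup of order prime to p. -/
theorem result {G : Type*} [Group G] [Finite G] {p : ℕ} [Fact p.Prime] : Cfsg.IsThompsonFactorizable p G ↔ Cfsg.IsThompsonFactorizable p (G ⧸ Cfsg.pPrimeCore p G) := by
  refine isThompsonFactorizable_iff_of_ker (QuotientGroup.mk'_surjective _) ?_
  rw [QuotientGroup.ker_mk']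
  exact Cfsg.Lib.Solv.coprime_card_pPrimeCore p G

end Cfsg.Agent.S0609
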