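import Cfsg.Statements.S3680
import Cfsg.Agent.Perm.MinNormal
import Cfsg.Agent.Perm.DirectPower
import Cfsg.Agent.S0721

set_option autoImplicit false
open Cfsg

namespace Cfsg.Agent.S3680

open Subgroup Cfsg.Lib.Perm MulAction

section
variable {G α : Type*} [Group G] [MulAction G α] [FaithfulSMul G α]

theorem stab_bot (M N : Subgroup G) (hM : IsPretransitive M α)
    (hc : ∀ m ∈ M, ∀ n ∈ N, Commute m n) (a : α) : stabilizer N a = ⊥ := by
  rw [eq_bot_iff]
  intro n hn
  rw [Subgroup.mem_bot]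
  refine Subtype.ext (FaithfulSMul.eq_of_smul_eq_smul (α := α) fun x => ?_)
  rw [smul_eq_of_commute_of_fix M hM (fun m hm => hc m hm n n.2) hn x]
  simp

theorem iso (a : α) (M N : Subgroup G) (hMt : IsPretransitive M α) (hNt : IsPretransitive N α)
    (hc : ∀ m ∈ M, ∀ n ∈ N, Commute m n) : Nonempty (M ≃* N) := by
  have hMr := stab_bot N M hNt fun n hn m hm => (hc m hm n hn).symm
  have hNr := stab_bot M N hMt hc
  have uM : ∀ m m' : M, m • a = m' • a → m = m' := by
    intro m m' h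
    have : m'⁻¹ * m ∈ MulAction.stabilizer M a := by
      rw [MulAction.mem_stabilizer_iff, mul_smul, h, inv_smul_smul]
    rw [hMr a, Subgroup.mem_bot, inv_mul_eq_one] at this
    exact this.symm
  have uN : ∀ m m' : N, m • a = m' • a → m = m' := by
    intro m m' h
    have : m'⁻¹ * m ∈ MulAction.stabilizer N a := by
      rw [MulAction.mem_stabilizer_iff, mul_smul, h, inv_smul_smul]
    rw [hNr a, Subgroup.mem_bot, inv_mul_eq_one] at this
    exact this.symm
  have hsw : ∀ (m : M) (n : N) (x : α), m • n • x = n • m • x := by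
    intro m n x
    change (m : G) • (n : G) • x = (n : G) • (m : G) • x
    rw [← mul_smul, (hc m m.2 n n.2).eq, mul_smul]
  choose f hf using fun m : M => MulAction.exists_smul_eq N a (m⁻¹ • a)
  let φ : M →* N := MonoidHom.mk' f (fun m m' => uN _ _ (by
    rw [hf, mul_smul, hf, ← hsw, hf, mul_inv_rev, mul_smul]))
  refine ⟨MulEquiv.ofBijective φ ⟨fun m m' h => ?_, fun n => ?_⟩⟩
  · have h1 : f m = f m' := h
    have := hf m
    rw [h1, hf] at this
    exact (inv_injective (uM _ _ this)).symm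
  · obtain ⟨m, hm⟩ := MulAction.exists_smul_eq M a (n • a)
    exact ⟨m⁻¹, uN _ _ (by change f m⁻¹ • a = _; rw [hf, inv_inv, hm])⟩

theorem trans_of (hprim : IsPreprimitive G α) (V : Subgroup G) [V.Normal] (hV : V ≠ ⊥) :
    IsPretransitive V α := by
  refine (IsPreprimitive.isQuasiPreprimitive (M := G) (α := α)).isPretransitive_of_normal fun h => hV ?_
  rw [eq_bot_iff]
  intro v hv
  refine FaithfulSMul.eq_of_smul_eq_smul (α := α) fun x => ?_
  have : x ∈ fixedPoints V α := h ▸ Set.mem_univ x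
  rw [one_smul]
  exact this ⟨v, hv⟩

end


/-- The socle of a finite primitive permutation group. Let a finite group G act faithfully and primitively on a set Ω, and let N be the subgroup generated by the minimal normal subgroups of G. Then either N is an elementary abelian p-group for some prime p and acts regularly on Ω (transitively with trivial point stabilizers), or N is isomorphic to a direct product of m ≥ 1 copies of a non-abelian simple group. -/
theorem result {G Ω : Type*} [Group G] [Finite G] [MulAction G Ω] [FaithfulSMul G Ω] [Finite Ω]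
    (hprim : MulAction.IsPreprimitive G Ω) (N : Subgroup G)
    (hN : N = sSup {V : Subgroup G | V.Normal ∧ V ≠ ⊥ ∧ ∀ M : Subgroup G, M.Normal → M ≤ V → M = ⊥ ∨ M = V}) :
    (∃ p : ℕ, p.Prime ∧ IsMulCommutative N ∧ (∀ x : N, x ^ p = 1) ∧
      MulAction.IsPretransitive N Ω ∧ ∀ ω : Ω, MulAction.stabilizer N ω = ⊥) ∨
    (∃ (T : Type) (_ : Group T) (m : ℕ), 1 ≤ m ∧ IsSimpleGroup T ∧ ¬ IsMulCommutative T ∧ Nonempty (N ≃* (Fin m → T))) := by
  set S := {V : Subgroup G | V.Normal ∧ V ≠ ⊥ ∧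
    ∀ M : Subgroup G, M.Normal → M ≤ V → M = ⊥ ∨ M = V} with hS
  by_cases hG : (⊤ : Subgroup G) = ⊥
  · have hs : ∀ x : G, x = 1 := fun x => mem_bot.1 (hG ▸ mem_top x)
    refine Or.inl ⟨2, Nat.prime_two, ⟨⟨fun x y => Subtype.ext ((hs _).trans (hs _).symm)⟩⟩,
      fun x => Subtype.ext (hs _), ⟨fun x y => ?_⟩, fun ω => eq_bot_iff.2 fun x _ =>
      mem_bot.2 (Subtype.ext (hs _))⟩
    obtain ⟨g, rfl⟩ := exists_smul_eq G x y
    exact ⟨1, by rw [hs g, one_smul, one_smul]⟩
  by_cases hab : ∃ M ∈ S, IsMulCommutative M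
  · obtain ⟨M, ⟨hM1, hM2, hM3⟩, hM⟩ := hab
    have hcomm : ∀ a ∈ M, ∀ b ∈ M, Commute a b := fun a ha b hb =>
      congrArg Subtype.val (hM.is_comm.comm (⟨a, ha⟩ : M) ⟨b, hb⟩)
    have ht := trans_of hprim M hM2
    have : N = M := by
      rw [hN]
      refine le_antisymm (sSup_le fun V ⟨hV1, hV2, hV3⟩ => ?_) (le_sSup ⟨hM1, hM2, hM3⟩)
      by_contra hn
      have hc : ∀ m ∈ M, ∀ v ∈ V, Commute m v := fun m hm v hv =>
        commute_of_minNormal_ne hV2 hM3 hV3 hM2 (fun e => hn e.ge) hm hv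
      refine hn fun v hv => ?_
      rcases isEmpty_or_nonempty Ω with h0 | ⟨⟨a⟩⟩
      · rw [FaithfulSMul.eq_of_smul_eq_smul (α := Ω) (m₁ := v) (m₂ := 1) fun x => h0.elim x]
        exact one_mem _
      obtain ⟨m, hm⟩ := exists_smul_eq M a (v • a)
      have : (m : G)⁻¹ * v = 1 := FaithfulSMul.eq_of_smul_eq_smul (α := Ω) fun x => by
        rw [one_smul]
        refine smul_eq_of_commute_of_fix M ht (a := a) (fun y hy => (hcomm y hy _ (inv_mem m.2)).mul_right
          (hc y hy v hv)) ?_ x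
        rw [mul_smul, ← hm]
        exact inv_smul_smul (m : G) a
      rw [← inv_mul_eq_one.1 this]
      exact m.2
    subst this
    obtain ⟨p, hp, h⟩ := exists_prime_pow_eq_one_of_minNormal N hM2 hM3 hM
    exact Or.inl ⟨p, hp, hM, fun x => Subtype.ext (h x x.2), ht, stab_bot N N ht hcomm⟩
  right
  push Not at hab
  obtain ⟨n, V, hV, hind, hsup⟩ := exists_iSupIndep_of_minNormal S fun V hV => ⟨hV.1, hV.2.2⟩
  obtain ⟨M, ⟨hM1, hM2⟩, hM3⟩ := (Set.toFinite {V : Subgroup G | V.Normal ∧ V ≠ ⊥}).exists_minimal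
    ⟨⊤, inferInstance, hG⟩
  have hMS : M ∈ S := ⟨hM1, hM2, fun L h1 h2 => or_iff_not_imp_left.2 fun h3 =>
    le_antisymm h2 (hM3 ⟨h1, h3⟩ h2)⟩
  have hn : n ≠ 0 := by
    rintro rfl
    exact hM2 (le_bot_iff.1 ((le_sSup hMS).trans (hsup.ge.trans (by simp))))
  have a : Ω := by
    refine Classical.choice (not_isEmpty_iff.1 fun h0 => hG (eq_bot_iff.2 fun v _ => ?_))
    exact FaithfulSMul.eq_of_smul_eq_smul (α := Ω) fun x => h0.elim x
  have hiso : ∀ i, Nonempty (V i ≃* M) := fun i => by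
    by_cases e : V i = M
    · exact ⟨MulEquiv.subgroupCongr e⟩
    · have := (hV i).1
      exact iso a _ _ (trans_of hprim _ (hV i).2.1) (trans_of hprim _ hM2) fun x hx y hy =>
        commute_of_minNormal_ne hM2 (hV i).2.2 hMS.2.2 (hV i).2.1 e hx hy
  obtain ⟨T, _, m, hT, hm, ⟨f⟩⟩ := Cfsg.Agent.S0721.result M hM2 hMS.2.2
  refine ⟨T, inferInstance, n * m, Nat.mul_pos (Nat.pos_of_ne_zero hn) hm, hT, fun hc => hab M hMS
    ⟨⟨fun x y => f.injective (by
      rw [map_mul, map_mul]; exact funext fun j => hc.is_comm.comm _ _)⟩⟩, ?_⟩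
  have e1 := MonoidHom.ofInjective (injective_noncommPiCoprod_of_iSupIndep
    (hcomm := commute_of_iSupIndep_normal (fun i => (hV i).1) hind) hind)
  rw [noncommPiCoprod_range, hsup, ← hN] at e1
  have e2 : (∀ i, V i) ≃* (Fin n → Fin m → T) :=
    MulEquiv.piCongrRight fun i => (hiso i).some.trans f
  have e3 : (Fin n → Fin m → T) ≃* (Fin n × Fin m → T) :=
    { (Equiv.curry _ _ _).symm with map_mul' := fun _ _ => rfl }
  exact ⟨e1.symm.trans (e2.trans (e3.trans (MulEquiv.arrowCongr finProdFinEquiv (MulEquiv.refl T))))⟩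

end Cfsg.Agent.S3680
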