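import Cfsg.Statements.S0737
import Cfsg.Agent.S0205
import Cfsg.Agent.S0735
import Cfsg.Agent.S3680
import Cfsg.Agent.FT.BG3.T34
import Cfsg.Agent.Perm.FieldOfEnd
import Cfsg.Agent.Class.Zsigmondy
import Cfsg.Agent.Local.PCoreOf
import Cfsg.Agent.Solv.FittingOf
import Cfsg.Agent.Solv.CardModEq

set_option autoImplicit false
open Cfsg

namespace Cfsg.Agent.S0737

open Subgroup MulAction Cfsg.Lib.Perm Cfsg.Lib.Solv Cfsg.Lib.Local
open scoped IsMulCommutative

section
variable {G : Type*} [Group G] [Finite G] {N H : Subgroup G} {p f r : ℕ}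

theorem dvd_of_pow_modEq (hr : r.Prime) (ho : orderOf (p : ZMod r) = f) {k : ℕ}
    (h : p ^ k ≡ 1 [MOD r]) : f ∣ k := by
  rw [← ho, orderOf_dvd_iff_pow_eq_one]
  simpa using (ZMod.natCast_eq_natCast_iff _ _ _).2 h

theorem card_modEq (hr : r.Prime) {y : G} (hy : orderOf y = r) {B : Subgroup G}
    (hB : y ∈ normalizer (B : Set G)) :
    Nat.card B ≡ Nat.card (B ⊓ centralizer {y} : Subgroup G) [MOD r] := by
  have := Fact.mk hr
  have h1 : IsPGroup r (zpowers y) := IsPGroup.of_card (n := 1) (by rw [Nat.card_zpowers, hy, pow_one])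
  have := card_modEq_card_inf_centralizer h1 (zpowers_le.2 hB)
  rwa [zpowers_eq_closure, centralizer_closure] at this

theorem irred [N.Normal] (hp : p.Prime) (hr : r.Prime) (hN : Nat.card N = p ^ f)
    (ho : orderOf (p : ZMod r) = f) (hf : f ≠ 0) {y : G} (hy : orderOf y = r)
    (hc : ¬ N ≤ centralizer {y}) : N ⊓ centralizer {y} = ⊥ ∧
    ∀ B ≤ N, y ∈ normalizer (B : Set G) → B = ⊥ ∨ B = N := by
  have key : ∀ B ≤ N, Nat.card B ≡ 1 [MOD r] → B = ⊥ ∨ B = N := by
    intro B hB h
    obtain ⟨k, hk, e⟩ := (Nat.dvd_prime_pow hp).1 (hN ▸ card_dvd_of_le hB)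
    have h1 := dvd_of_pow_modEq hr ho (e ▸ h)
    rcases k.eq_zero_or_pos with rfl | h2
    · exact Or.inl (card_eq_one.1 e)
    · exact Or.inr (eq_of_le_of_card_ge hB (by rw [e, hN, le_antisymm hk (Nat.le_of_dvd h2 h1)]))
  have h1 : Nat.card N ≡ 1 [MOD r] := by
    rw [hN, ← ZMod.natCast_eq_natCast_iff, ← ho]
    simp
  have h2 : N ⊓ centralizer {y} = ⊥ :=
    (key _ inf_le_left ((card_modEq hr hy (le_normalizer_of_normal (mem_top y))).symm.trans
      h1)).resolve_right fun e => hc (e ▸ inf_le_right)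
  refine ⟨h2, fun B hB hn => key B hB ?_⟩
  have h3 := card_modEq hr hy hn
  rwa [le_bot_iff.1 ((inf_le_inf_right _ hB).trans h2.le), card_bot] at h3

theorem exists_abelian [Group.IsSolvable G] (hodd : Odd (Nat.card G)) [N.Normal] (hp : p.Prime)
    (hr : r.Prime) (hN : Nat.card N = p ^ f) (ho : orderOf (p : ZMod r) = f) (hf : f ≠ 0)
    (hH : H ⊓ centralizer (N : Set G) = ⊥) (hrH : r ∣ Nat.card H) :
    ∃ A ≤ H, H ≤ normalizer (A : Set G) ∧ A ≤ centralizer (A : Set G) ∧
      ∀ B ≤ N, A ≤ normalizer (B : Set G) → B = ⊥ ∨ B = N := by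
  have := Fact.mk hp
  have := Fact.mk hr
  have nc : ∀ y ∈ H, orderOf y = r → ¬ N ≤ centralizer {y} := fun y hy e h => by
    have : y ∈ H ⊓ centralizer (N : Set G) := ⟨hy, fun n hn => (h hn y rfl).symm⟩
    rw [hH, mem_bot] at this
    rw [this, orderOf_one] at e
    exact hr.one_lt.ne e
  have hrp : r ≠ p := by
    rintro rfl
    rw [ZMod.natCast_self, orderOf_zero] at ho
    exact hf ho.symm
  have hNp : IsPGroup p N := IsPGroup.of_card hN
  obtain ⟨⟨x, hx⟩, hxr⟩ := exists_prime_orderOf_dvd_card' r hrH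
  rw [orderOf_mk] at hxr
  obtain ⟨h1, h2⟩ := irred hp hr hN ho hf hxr (nc x hx hxr)
  have hR : Nat.card (zpowers x) = r := by rw [Nat.card_zpowers, hxr]
  have hRp : IsPGroup r (zpowers x) := IsPGroup.of_card (n := 1) (by rw [hR, pow_one])
  have hO : pCoreOf r H ≠ ⊥ := by
    intro h0
    have h3 : fittingOf H ≤ centralizer (zpowers x : Set G) := by
      refine fittingOf_le_of_forall_pCore_le fun s hs => ?_
      change pCoreOf s H ≤ _
      by_cases e : s = r
      · rw [e, h0]; exact bot_le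
      have hK := MSS.isPGroup_pCoreOf (p := s) H
      have hxK : zpowers x ≤ normalizer (pCoreOf s H : Set G) :=
        zpowers_le.2 (MSS.self_le_normalizer_pCoreOf H hx)
      by_cases e' : s = p
      · subst e'
        have h4 := MSS.inf_centralizer_ne_bot_of_resOf_le (V := N) (R := pCoreOf s H) hNp
          le_normalizer_of_normal (MSS.resOf_le_of_isPGroup hK _)
          (by rw [← one_lt_card_iff_ne_bot, hN]; exact Nat.one_lt_pow hf hp.one_lt)
        have h5 := (h2 _ inf_le_left (le_normalizer_inf_centralizer le_normalizer_of_normal hxK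
          (mem_zpowers x))).resolve_left h4
        exact (le_inf (MSS.pCoreOf_le H) (le_centralizer_iff.1 (h5.ge.trans inf_le_right))).trans
          (hH.le.trans bot_le)
      have odd : ∀ K : Subgroup G, Odd (Nat.card K) := fun K => hodd.of_dvd_nat K.card_subgroup_dvd_card
      have h4 := Cfsg.Lib.FT.odd_prime_sdprod_cent1 (K := pCoreOf s H) (R := zpowers x) (M := N)
        inferInstance (odd _) (odd _) hxK (IsPGroup.coprime_card_of_ne s r e _ _ hK hRp) (hR ▸ hr)
        inferInstance le_normalizer_of_normal le_normalizer_of_normal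
        (IsPGroup.coprime_card_of_ne p s (Ne.symm e') _ _ hNp hK)
        (IsPGroup.coprime_card_of_ne p r hrp.symm _ _ hNp hRp)
        (by rwa [zpowers_eq_closure, centralizer_closure])
      rw [← commutator_eq_bot_iff_le_centralizer, commutator_comm, ← le_bot_iff, ← hH]
      exact le_inf ((commutator_mono (zpowers_le.2 hx) (MSS.pCoreOf_le H)).trans
        (commutator_le_self H)) h4
    have h4 := le_map_pCore_of_le_fittingOf hRp ((le_inf (zpowers_le.2 hx)
      (le_centralizer_iff.1 h3)).trans (inf_centralizer_fittingOf_le H))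
    have h5 : x = 1 := mem_bot.1 (h0 ▸ h4 (mem_zpowers x))
    rw [h5, orderOf_one] at hxr
    exact hr.one_lt.ne hxr
  have hK := MSS.isPGroup_pCoreOf (p := r) H
  have h6 := MSS.inf_centralizer_ne_bot_of_resOf_le (V := pCoreOf r H) (R := pCoreOf r H) hK
    le_normalizer (MSS.resOf_le_of_isPGroup hK _) hO
  refine ⟨pCoreOf r H ⊓ centralizer (pCoreOf r H : Set G), inf_le_left.trans (MSS.pCoreOf_le H),
    le_normalizer_inf_centralizer (MSS.self_le_normalizer_pCoreOf H)
      (MSS.self_le_normalizer_pCoreOf H),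
    inf_le_right.trans (centralizer_le (SetLike.coe_subset_coe.2 inf_le_left)), fun B hB hn => ?_⟩
  obtain ⟨⟨y, hy⟩, hyr⟩ := exists_prime_orderOf_dvd_card' r
    ((hK.to_le inf_le_left).card_eq_or_dvd.resolve_left (card_eq_one.not.2 h6))
  rw [orderOf_mk] at hyr
  exact (irred hp hr hN ho hf hyr (nc y (MSS.pCoreOf_le H hy.1) hyr)).2 B hB (hn hy)

theorem exists_field [N.Normal] [IsMulCommutative N] (h0 : N ≠ ⊥) {A : Subgroup G}
    (hn : H ≤ normalizer (A : Set G)) (hc : A ≤ centralizer (A : Set G))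
    (hirr : ∀ B ≤ N, A ≤ normalizer (B : Set G) → B = ⊥ ∨ B = N) :
    ∃ (K : Type) (_ : Field K) (_ : Fintype K) (ε : K ≃ N), (∀ x y, ε (x + y) = ε x * ε y) ∧
      ∀ h ∈ H, ∃ (c : Kˣ) (θ : K ≃+* K), ∀ x, h * ε x * h⁻¹ = ε (c * θ x) := by
  let T : G → AddMonoid.End (Additive N) := fun g =>
    MonoidHom.toAdditive (MulAut.conjNormal g : MulAut N).toMonoidHom
  have hT : ∀ g (x : Additive N), ((T g x).toMul : G) = g * x.toMul * g⁻¹ := fun _ _ => rfl
  obtain ⟨v, hv⟩ := ne_bot_iff_exists_ne_one.1 h0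
  obtain ⟨K, _, _, ε, -, h1, h2⟩ := exists_field_of_irreducible (T '' A) (by
    rintro _ ⟨a, ha, rfl⟩ _ ⟨b, hb, rfl⟩
    ext x
    change a * (b * x.toMul * b⁻¹) * a⁻¹ = b * (a * x.toMul * a⁻¹) * b⁻¹
    have : a * b = b * a := hc hb a ha
    calc _ = (a * b) * x.toMul * (a * b)⁻¹ := by group
      _ = _ := by rw [this]; group) (fun W hW => by
    rcases hirr (W.toSubgroup'.map N.subtype) (map_subtype_le _) (fun a ha =>
      mem_normalizer_of_conj_mem (by
        rintro _ ⟨x, hx, rfl⟩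
        exact ⟨_, hW _ ⟨a, ha, rfl⟩ (Additive.ofMul x) hx, rfl⟩)) with h | h
    · left
      rw [map_eq_bot_iff_of_injective _ N.subtype_injective] at h
      exact eq_bot_iff.2 fun x hx => h.le hx
    · right
      refine eq_top_iff.2 fun x _ => ?_
      obtain ⟨y, hy, e⟩ := h.ge x.toMul.2
      rwa [show x = Additive.ofMul y from congrArg Additive.ofMul (Subtype.ext e).symm])
    (v := Additive.ofMul v) hv
  refine ⟨K, inferInstance, inferInstance, ε.toEquiv.trans Additive.toMul,
    fun x y => congrArg Additive.toMul (map_add ε x y), fun h hh => ?_⟩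
  let g : K →+ K := ε.symm.toAddMonoidHom.comp ((T h).comp ε.toAddMonoidHom)
  have hg : ∀ x, ε (g x) = T h (ε x) := fun x => ε.apply_symm_apply _
  have g1 : g 1 ≠ 0 := fun e => by
    have := hg 1
    rw [e, map_zero] at this
    have h3 : h * (ε 1).toMul * h⁻¹ = 1 := (congrArg (fun z : Additive N => (z.toMul : G)) this).symm
    rw [conj_eq_one_iff] at h3
    exact one_ne_zero (ε.injective ((congrArg Additive.ofMul (Subtype.ext h3)).trans (map_zero ε).symm))
  obtain ⟨θ, hθ⟩ := exists_ringHom_of_normalizes h2 g g1 (by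
    rintro c ⟨_, ⟨a, ha, rfl⟩, hc⟩
    obtain ⟨c', hc'⟩ := h1 _ ⟨_, conj_mem_of_mem_normalizer (hn hh) ha, rfl⟩
    refine ⟨c', fun x => ε.injective ?_⟩
    rw [← hc', hg, hg, ← hc]
    refine Additive.toMul.injective (Subtype.ext ?_)
    simp only [hT]; group)
  refine ⟨Units.mk0 _ g1, RingEquiv.ofBijective θ (Finite.injective_iff_bijective.1 θ.injective),
    fun x => ?_⟩
  exact (congrArg (fun z : Additive N => (z.toMul : G)) ((hg x).symm.trans (congrArg ε (hθ x))))

end


/-- A non-trivial 2-homogeneous permutation group that is not doubly transitive has odd order and degree `p^f ≡ 3 (mod 4)`, and is permutation-isomorphic to a group of semi-affine transformations `x ↦ a φ(x) + b` of the field with `p^f` elements containing all translations. -/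
theorem result {α : Type*} [Fintype α] [DecidableEq α] (G : Subgroup (Equiv.Perm α)) (hne : G ≠ ⊥) (h2 : MulAction.IsPretransitive G (Set.powersetCard α 2)) (hn2 : ¬ MulAction.IsMultiplyPretransitive G α 2) : Odd (Nat.card G) ∧ ∃ (p f : ℕ) (_ : Fact p.Prime), p ≠ 2 ∧ Fintype.card α = p ^ f ∧ p ^ f % 4 = 3 ∧ ∃ e : α ≃ GaloisField p f, (∀ g : G, e.symm.trans (((g : Equiv.Perm α)).trans e) ∈ Cfsg.semiaffineGroup (GaloisField p f)) ∧ ∀ b : GaloisField p f, ∃ g : G, ∀ x : α, e ((g : Equiv.Perm α) x) = e x + b := by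
  have hα : 3 ≤ Fintype.card α := by
    by_contra h
    have := (nontrivial_iff_ne_bot G).2 hne
    rw [Equiv.Perm.subgroup_eq_top_of_nontrivial (by rw [Nat.card_eq_fintype_card]; omega) this] at hn2
    exact hn2 (isMultiplyPretransitive_iff.2 fun x y => by
      obtain ⟨g, e⟩ := isMultiplyPretransitive_iff.1 (Equiv.Perm.isMultiplyPretransitive α 2) x y
      exact ⟨⟨g, trivial⟩, e⟩)
  obtain ⟨h3, h4⟩ := Cfsg.Agent.S0735.result G h2 hα
  have hodd : Odd (Nat.card G) := Nat.not_even_iff_odd.1 fun h => hn2 (h3 h)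
  have hprim := h4 hne
  have := Cfsg.Agent.S0205.result hodd
  have := (nontrivial_iff_ne_bot G).2 hne
  obtain ⟨p, N, hp, hN, hab, -, hP⟩ := exists_isMinNormal_elementary G
  have := hN.normal
  have := Fact.mk hp
  have htr := Cfsg.Agent.S3680.trans_of hprim N hN.ne_bot
  have hcomm : ∀ a ∈ N, ∀ b ∈ N, Commute a b := fun a ha b hb =>
    congrArg Subtype.val (hab.is_comm.comm (⟨a, ha⟩ : N) ⟨b, hb⟩)
  obtain ⟨a⟩ : Nonempty α := Fintype.card_pos_iff.1 (by omega)
  have hβ : Function.Bijective fun n : N => n • a := ⟨fun m n e => by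
    have : n⁻¹ * m ∈ stabilizer N a := by
      rw [mem_stabilizer_iff, mul_smul, inv_smul_eq_iff]; exact e
    rw [Cfsg.Agent.S3680.stab_bot N N htr hcomm, mem_bot] at this
    exact (inv_mul_eq_one.1 this).symm, surjective_smul N a⟩
  obtain ⟨f, hf⟩ := IsPGroup.iff_card.1 hP
  have hn : Fintype.card α = p ^ f := by
    rw [← hf, ← Nat.card_eq_fintype_card, Nat.card_eq_of_bijective _ hβ]
  have hdvd : (p ^ f).choose 2 ∣ Nat.card G := by
    obtain ⟨s⟩ : Nonempty (Set.powersetCard α 2) := by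
      obtain ⟨s, -, hs⟩ := Finset.exists_subset_card_eq (s := Finset.univ (α := α)) (n := 2)
        (by rw [Finset.card_univ]; omega)
      exact ⟨⟨s, hs⟩⟩
    rw [← hn, ← Nat.card_eq_fintype_card, ← Set.powersetCard.card, ← index_stabilizer_of_transitive G s]
    exact index_dvd_card _
  have hq : Odd (p ^ f) := hodd.of_dvd_nat (hf ▸ N.card_subgroup_dvd_card)
  obtain ⟨m, hm⟩ := hq
  have hch : (p ^ f).choose 2 = p ^ f * m := by
    rw [Nat.choose_two_right, hm, Nat.add_sub_cancel, Nat.mul_left_comm, Nat.mul_div_cancel_left _ two_pos]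
  have hmo : Odd m := (Nat.odd_mul.1 (hch ▸ hodd.of_dvd_nat hdvd)).2
  have h43 : p ^ f % 4 = 3 := by obtain ⟨k, hk⟩ := hmo; omega
  have hf0 : f ≠ 0 := by rintro rfl; simp at h43
  have hp2 : p ≠ 2 := by
    rintro rfl
    exact absurd (dvd_pow_self 2 hf0) (by omega)
  set H := stabilizer G a with hH
  have hcH : m ∣ Nat.card H := by
    have := H.card_mul_index
    rw [index_stabilizer_of_transitive, Nat.card_eq_fintype_card (α := α), hn] at this
    rw [hch, ← this, mul_comm] at hdvd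
    exact Nat.dvd_of_mul_dvd_mul_right (pow_pos hp.pos f) hdvd
  have hHC : H ⊓ centralizer (N : Set G) = ⊥ := eq_bot_iff.2 fun x hx => by
    ext z
    exact smul_eq_of_commute_of_fix N htr (fun n hn => hx.2 n hn) hx.1 z
  obtain ⟨A, -, h5, h6, h7⟩ : ∃ A ≤ H, H ≤ normalizer (A : Set G) ∧ A ≤ centralizer (A : Set G) ∧
      ∀ B ≤ N, A ≤ normalizer (B : Set G) → B = ⊥ ∨ B = N := by
    by_cases h1 : f = 1
    · refine ⟨⊥, bot_le, le_normalizer_of_normal, bot_le, fun B hB _ => ?_⟩
      rw [h1, pow_one] at hf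
      exact ((Nat.dvd_prime hp).1 (hf ▸ card_dvd_of_le hB)).imp card_eq_one.1
        fun e => eq_of_le_of_card_ge hB (by rw [e, hf])
    obtain ⟨r, hr, ho⟩ := Cfsg.Lib.Class.zsigmondy (a := p) (n := f) hp.one_lt (by omega)
      (fun h => hp2 h.1) (fun h => by
        rw [h.1, pow_two, Nat.mul_mod] at h43
        have : p % 4 < 4 := Nat.mod_lt _ (by norm_num)
        interval_cases p % 4 <;> simp at h43)
    refine exists_abelian hodd hp hr hf ho hf0 hHC (dvd_trans ?_ hcH)
    have h8 : r ∣ 2 * m := by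
      rw [← ZMod.natCast_eq_zero_iff, ← add_left_inj 1, ← Nat.cast_succ, Nat.succ_eq_add_one, ← hm,
        ← ho]
      simp
    refine (hr.dvd_mul.1 h8).resolve_left fun h => h1 ?_
    obtain rfl := (Nat.prime_dvd_prime_iff_eq hr Nat.prime_two).1 h
    rw [← ho, (ZMod.natCast_eq_one_iff_odd).2 (hp.odd_of_ne_two hp2), orderOf_one]
  obtain ⟨K, _, _, ε, hε, h8⟩ := exists_field hN.ne_bot h5 h6 h7
  have := Fintype.ofFinite (GaloisField p f)
  have ι : K ≃+* GaloisField p f := FiniteField.ringEquivOfCardEq (by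
    rw [← Nat.card_eq_fintype_card, ← Nat.card_eq_fintype_card, GaloisField.card p f hf0,
      Nat.card_congr ε, hf])
  let e : α ≃ GaloisField p f := (Equiv.ofBijective _ hβ).symm.trans (ε.symm.trans ι.toEquiv)
  have he : ∀ y : K, e (ε y • a) = ι y := fun y => by
    change ι (ε.symm ((Equiv.ofBijective _ hβ).symm (Equiv.ofBijective _ hβ (ε y)))) = _
    simp
  have hs : ∀ x : α, ∃ y : K, ε y • a = x := fun x => by
    obtain ⟨n, rfl⟩ := hβ.2 x
    exact ⟨ε.symm n, by simp⟩
  refine ⟨hodd, p, f, inferInstance, hp2, hn, h43, e, fun g => ?_, fun b => ⟨ε (ι.symm b), fun x => ?_⟩⟩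
  · obtain ⟨b, hb⟩ := hs (g • a)
    obtain ⟨c, θ, hc⟩ := h8 ((ε b : G)⁻¹ * g) (by
      rw [mem_stabilizer_iff, mul_smul, inv_smul_eq_iff]; exact hb.symm)
    refine ⟨Units.map (ι : K →* GaloisField p f) c, ι b, ι.symm.trans (θ.trans ι), fun x => ?_⟩
    obtain ⟨x, rfl⟩ := e.surjective x
    obtain ⟨y, rfl⟩ := hs x
    have h9 : g • ε y • a = ε (c * θ y + b) • a := by
      rw [add_comm, hε, mul_smul]
      change _ = (ε b : G) • (ε (c * θ y) : G) • a
      rw [← hc, mul_smul, mul_smul, mul_inv_rev, inv_inv, mul_smul, mul_smul, smul_inv_smul]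
      change _ = g • (ε y : G) • g⁻¹ • ε b • a
      rw [hb, inv_smul_smul]; rfl
    rw [Equiv.trans_apply, Equiv.symm_apply_apply, Equiv.trans_apply]
    change e (g • ε y • a) = _
    rw [h9, he, he]
    simp
  · obtain ⟨y, rfl⟩ := hs x
    change e (ε (ι.symm b) • ε y • a) = _
    rw [← mul_smul, ← hε, he, he, map_add, add_comm, RingEquiv.apply_symm_apply]

end Cfsg.Agent.S0737
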