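import Cfsg.Statements.S0804
import Cfsg.Agent.Class.PGL2Poly

set_option autoImplicit false
open Cfsg

namespace Cfsg.Agent.S0804

open Cfsg.Lib.Class

/-- PSL_2(q) has a subgroup isomorphic to A_5 iff 5 ∣ q(q² − 1). -/
theorem result {F : Type*} [Field F] [Fintype F] {q : ℕ} (hF : Fintype.card F = q) : (∃ H : Subgroup (Matrix.ProjectiveSpecialLinearGroup (Fin 2) F), Nonempty (H ≃* alternatingGroup (Fin 5))) ↔ 5 ∣ q * (q ^ 2 - 1) := by
  have hq : Nat.card F = q := by rw [Nat.card_eq_fintype_card, hF]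
  have key : q * (q ^ 2 - 1) = q * (q - 1) * (q + 1) := by
    rw [mul_assoc, mul_comm (q - 1), ← Nat.sq_sub_sq, one_pow]
  rw [key, ← hq]
  constructor
  · rintro ⟨H, e⟩
    exact five_dvd_of_A5 (e.map fun e => (mapPslιEquiv H).symm.trans e)
  · intro h
    obtain ⟨H, e⟩ := exists_A5 h
    exact exists_subgroup_psl_mulEquiv (le_psl2_of_A5 e) e

end Cfsg.Agent.S0804
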