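import Cfsg.Statements.S0827
import Cfsg.Agent.Phan.TwoA
import Cfsg.Agent.Solv.Quaternion
import Cfsg.Agent.Known.LocBalCl

set_option autoImplicit false
open Cfsg

namespace Cfsg.Agent.S0827

open Subgroup Cfsg.Lib.Solv.PG in
theorem aux {G : Type*} [Group G] [Finite G] (hG : Nat.card G = 72) {x y r s : G} (x3 : x ^ 3 = 1)
    (y3 : y ^ 3 = 1) (hc : Commute x y) (x1 : x ≠ 1) (hy : y ∉ zpowers x) (h1 : s * s = r ^ 2)
    (h2 : s * r * s⁻¹ = r⁻¹) (h3 : r ^ (2 * 2) = 1) (h4 : r ^ 2 ≠ 1)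
    (h5 : ∀ g ∈ ({r, s} : Set G), ∀ h ∈ ({x, y} : Set G), g * h * g⁻¹ ∈ closure {x, y}) :
    ∃ (N : Subgroup G) (_ : N.Normal), Nat.card N = 9 ∧ (∀ x ∈ N, x ^ 3 = 1) ∧
      Nonempty (G ⧸ N ≃* QuaternionGroup 2) := by
  have := Fact.mk Nat.prime_three
  have := Fact.mk Nat.prime_two
  have c := isMulCommutative_closure (k := {x, y}) (by simp [hc.eq])
  have e : ∀ g ∈ closure {x, y}, g ^ 3 = 1 := fun g hg => by
    induction hg using closure_induction with
    | mem g hg => rcases hg with rfl | rfl <;> assumption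
    | one => simp
    | mul a b ha hb h h' => rw [Commute.mul_pow (setLike_mul_comm ha hb), h, h', one_mul]
    | inv a _ h => rw [inv_pow, h, inv_one]
  have c9 : Nat.card (closure {x, y} : Subgroup G) = 9 := by
    obtain ⟨k, hk⟩ := IsPGroup.exists_card_eq (p := 3) (G := closure {x, y})
      fun g => ⟨1, Subtype.ext (e _ g.2)⟩
    have d := card_subgroup_dvd_card (closure {x, y})
    have l := lt_of_not_ge fun k => hy ((eq_of_le_of_card_ge (zpowers_le.2 (subset_closure (by simp)) :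
      zpowers x ≤ closure {x, y}) k).ge (subset_closure (by simp)))
    rw [Nat.card_zpowers, orderOf_eq_prime x3 x1] at l
    rw [hk, hG] at *
    have : k < 3 := by_contra fun h => absurd ((pow_dvd_pow 3 (not_lt.1 h)).trans d) (by decide)
    interval_cases k <;> simp_all
  have i := quaternionHom_injective h1 h2 h3 (orderOf_eq_prime_pow (p := 2) (n := 1) h4 h3)
    fun ⟨k, hk⟩ => h4 (by
      rw [← hk, ← (Commute.refl r).zpow_right k, mul_inv_cancel_right] at h2
      rw [sq, mul_eq_one_iff_eq_inv, ← h2])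
  have c8 : Nat.card (quaternionHom h1 h2 h3).range = 8 := by
    rw [← Nat.card_congr (MonoidHom.ofInjective i).toEquiv, Nat.card_eq_fintype_card]; rfl
  have k := isComplement'_of_coprime (H := (quaternionHom h1 h2 h3).range) (K := closure {x, y})
    (by rw [c8, c9, hG]) (by rw [c8, c9]; decide)
  have n : ∀ g ∈ ({r, s} : Set G), zpowers g ≤ normalizer (closure {x, y} : Subgroup G) :=
    fun g hg => zpowers_le.2 (mem_normalizer_fintype ((closure_le (comap (MulAut.conj g).toMonoidHom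
      (closure {x, y}))).2 (h5 g hg)))
  have : (closure {x, y} : Subgroup G).Normal := normalizer_eq_top_iff.1 (eq_top_iff.2 (k.sup_eq_top.ge.trans
    (sup_le ((quaternionHom_range ..).le.trans (sup_le (n _ (by simp)) (n _ (by simp)))) le_normalizer)))
  exact ⟨_, this, c9, e, ⟨k.QuotientMulEquiv.trans (MonoidHom.ofInjective i).symm⟩⟩


open Matrix Lib.Phan in
theorem mats {F : Type*} [Field F] [Fintype F] [Fact (Fintype.card F = 2 ^ 2)] :
    ∃ x y r s : SU 3 F 2, (x * x * x = 1 ∧ y * y * y = 1 ∧ s * s = r * r ∧ r * s * r = s ∧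
      r * x = y * r ∧ r * y = x * x * r ∧ s * x = x * y * y * x * s ∧ s * y = x * y * x * s ∧
      ∃ c : F, mat (x * y) = c • mat (y * x)) ∧ x * y ≠ y * x ∧ r * r * x ≠ x * (r * r) ∧
      r ^ 4 = 1 := by
  obtain ⟨ω, h⟩ := exists_omega F
  have h2 := two_eq_zero (F := F)
  have h3 : bar 2 ω = ω * ω := by rw [bar_apply, pow_two]
  refine ⟨mkSU !![0, 0, 1; 1, 0, 0; 0, 1, 0] (by simp [det_fin_three]) fun u v => ?_,
    mkSU !![1, 0, 0; 0, ω, 0; 0, 0, ω * ω] (by simp [det_fin_three]; grind) fun u v => ?_, fou h,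
    mkSU !![1, ω * ω, ω * ω; ω, ω, ω * ω; ω, ω * ω, ω] (by simp [det_fin_three]; grind)
      fun u v => ?_, ?_, fun e => ?_, fun e => ?_, fou_four h⟩
  iterate 3 simp [H_eq, Fin.sum_univ_three, dotProduct, h3]; grind
  · have e : ∀ g h : SU 3 F 2, g = h ↔ mat g = mat h := fun g h => ⟨congrArg mat, mat_ext⟩
    simp only [e, mat_mul, mat_one, mat_fou, mat_mkSU, mul_fin_three, one_fin_three]
    have := charP_two (F := F)
    refine ⟨?_, ?_, ?_, ?_, ?_, ?_, ?_, ?_, ω * ω, ?_⟩ <;> simp <;> grind only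
  all_goals
    have := congrFun (congrFun (congrArg mat e) 1) 0
    simp [mat_mul, mat_fou, mul_apply, Fin.sum_univ_three] at this
    grind

/-- U_3(2) ≅ 3².Q_8: PSU_3(2) (form over the field with 4 elements) has a normal subgroup N which is elementary abelian of order 9 such that the quotient by N is isomorphic to the quaternion group of order 8. -/
theorem result {F : Type*} [Field F] [Fintype F] (hF : Fintype.card F = 4) : ∃ (N : Subgroup (Cfsg.PSU 3 F 2)) (_ : N.Normal), Nat.card N = 9 ∧ (∀ x ∈ N, x ^ 3 = 1) ∧ Nonempty (Cfsg.PSU 3 F 2 ⧸ N ≃* QuaternionGroup 2) := by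
  open Lib.Phan Subgroup in
  have : Fact (Fintype.card F = 2 ^ 2) := ⟨hF⟩
  obtain ⟨x, y, r, s, ⟨k1, k2, k3, k4, k5, k6, k7, k8, c, k9⟩, k', k'', r4⟩ := mats (F := F)
  let m := QuotientGroup.mk' (center (SU 3 F 2))
  have z : ∀ g, m g = 1 ↔ ∀ a, a * g = g * a := fun g =>
    (QuotientGroup.eq_one_iff g).trans mem_center_iff
  have x3 : m x * m x * m x = 1 := by rw [← map_mul, ← map_mul, k1, map_one]
  have y3 : m y * m y * m y = 1 := by rw [← map_mul, ← map_mul, k2, map_one]
  have hx : m x ∈ closure {m x, m y} := subset_closure (by simp)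
  have hy : m y ∈ closure {m x, m y} := subset_closure (by simp)
  refine aux (Lib.Known.Tw.card_PSU_three_two hF) (x := m x) (y := m y) (r := m r) (s := m s)
    (by simpa [pow_succ] using x3) (by simpa [pow_succ] using y3) ?_ (fun e => k' ((z _).1 e _).symm)
    (fun ⟨n, e⟩ => k' ?_) (by rw [sq, ← map_mul, k3, map_mul]) ?_
    (by rw [← map_pow, r4, map_one]) (fun e => k'' ((z _).1 (by rw [map_mul, ← sq, e]) _).symm) ?_
  · rw [Commute, SemiconjBy, ← map_mul, ← map_mul, ← mul_inv_eq_one, ← map_inv, ← map_mul, z]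
    refine fun a => mat_ext ?_
    rw [mat_mul, mat_mul _ a, mat_mul _ _⁻¹, k9, Matrix.smul_mul, ← mat_mul, mul_inv_cancel]
    simp [mat_one]
  · have := (z (x ^ n * y⁻¹)).1 (by rw [map_mul, map_zpow, map_inv, mul_inv_eq_one, ← e]) x
    rw [← mul_assoc, (Commute.refl x).zpow_right n, mul_assoc, mul_assoc, mul_right_inj] at this
    exact (Commute.inv_right_iff.1 this).eq
  · rw [← map_inv, ← map_inv, ← map_mul, ← map_mul, mul_inv_eq_iff_eq_mul.2]
    rw [eq_inv_mul_iff_mul_eq, ← mul_assoc, k4]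
  · rintro _ (rfl | rfl) _ (rfl | rfl) <;> rw [← map_mul] <;> simp only [*, map_mul, mul_inv_cancel_right] <;>
      apply_rules [mul_mem]

end Cfsg.Agent.S0827
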