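import Cfsg.Statements.S4604
import Cfsg.Agent.S0876

set_option autoImplicit false
open Cfsg

namespace Cfsg.Agent.S4604

open Cfsg.Lib.Char Cfsg.Lib.Block

theorem sum_pow_sub {R : Type*} [CommRing R] {p : ℕ} (hp : p.Prime) (n : ℕ) {ι : Type*}
    (s : Finset ι) (f : ι → R) :
    ∃ r : R, (∑ i ∈ s, f i) ^ p ^ n = ∑ i ∈ s, f i ^ p ^ n + p * r := by
  classical
  induction s using Finset.induction_on with
  | empty => exact ⟨0, by simp [hp.ne_zero]⟩
  | insert a s ha ih =>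
    obtain ⟨r, hr⟩ := ih
    obtain ⟨t, ht⟩ := exists_add_pow_prime_pow_eq hp (f a) (∑ i ∈ s, f i) n
    refine ⟨r + f a * (∑ i ∈ s, f i) * t, ?_⟩
    rw [Finset.sum_insert ha, Finset.sum_insert ha, ht, hr]
    ring

theorem char_pow_sub {G : Type*} [Group G] [Finite G] {p : ℕ} (hp : p.Prime) (n : ℕ) {χ : G → ℂ}
    (hχ : IsCharacter G χ) (x : G) :
    ∃ r : AlgInt, χ x ^ p ^ n = χ (x ^ p ^ n) + p * r := by
  obtain ⟨d, ε, -, hε, h1, h2, -⟩ := IsCharacter_exists_sum hχ x (orderOf_ne_zero' x)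
    (pow_orderOf_eq_one x)
  let e : Fin d → AlgInt := fun i => ⟨ε i, isIntegral_of_pow_eq_one (orderOf_ne_zero' x) (hε i)⟩
  obtain ⟨r, hr⟩ := sum_pow_sub hp n Finset.univ e
  refine ⟨r, ?_⟩
  have := congrArg (Subtype.val : AlgInt → ℂ) hr
  rw [h1, h2]
  simpa [e] using this

theorem exists_modular {p : ℕ} (hp : p.Prime) : ∃ M : Ideal AlgInt, IsPModular p M := by
  have hne : Ideal.span {(p : AlgInt)} ≠ ⊤ := by
    rw [Ne, Ideal.span_singleton_eq_top]
    intro hu
    obtain ⟨b, hb⟩ := hu.exists_right_inv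
    have h1 : (p : ℂ) * (b : ℂ) = 1 := by simpa using congrArg (Subtype.val : AlgInt → ℂ) hb
    have h2 : IsIntegral ℤ (((1 : ℕ) : ℂ) / (p : ℂ)) := by
      have : ((1 : ℕ) : ℂ) / (p : ℂ) = b := by
        rw [Nat.cast_one, div_eq_iff (Nat.cast_ne_zero.2 hp.ne_zero), mul_comm, h1]
      rw [this]; exact b.2
    exact hp.one_lt.ne' (Nat.dvd_one.1 (dvd_of_isIntegral_div hp.ne_zero h2))
  obtain ⟨M, hM, hle⟩ := Ideal.exists_le_maximal _ hne
  exact ⟨M, hp, hM, hle (Ideal.mem_span_singleton_self _)⟩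

/-- Let G be a finite group, p a prime and p^a the p-part of the order of G. Let x, y ∈ G and let x′, y′ be their p-regular parts: x′ has order prime to p, commutes with x·x′⁻¹, and x·x′⁻¹ has p-power order (likewise for y). Then x′ and y′ are conjugate in G if and only if for every irreducible character χ of G the algebraic integer χ(x)^(p^a) − χ(y)^(p^a) is p times an algebraic integer. -/
theorem result {G : Type*} [Group G] [Finite G] (p : ℕ) [Fact p.Prime] (x y x' y' : G)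
    (hx : (∃ k : ℕ, orderOf (x * x'⁻¹) = p ^ k) ∧ Commute (x * x'⁻¹) x' ∧ ¬ p ∣ orderOf x')
    (hy : (∃ k : ℕ, orderOf (y * y'⁻¹) = p ^ k) ∧ Commute (y * y'⁻¹) y' ∧ ¬ p ∣ orderOf y') :
    IsConj x' y' ↔ ∀ χ : Cfsg.IrrCharacter G, ∃ γ : Cfsg.AlgInt,
      (χ : G → ℂ) x ^ (p ^ (Nat.card G).factorization p) - (χ : G → ℂ) y ^ (p ^ (Nat.card G).factorization p) = (p : ℂ) * (γ : ℂ) := by
  have hp : p.Prime := Fact.out
  have key : ∀ z z' : G, (∃ k : ℕ, orderOf (z * z'⁻¹) = p ^ k) → Commute (z * z'⁻¹) z' →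
      z ^ p ^ (Nat.card G).factorization p = z' ^ p ^ (Nat.card G).factorization p := by
    rintro z z' ⟨k, hk⟩ hc
    have h1 : (z * z'⁻¹) ^ p ^ (Nat.card G).factorization p = 1 := by
      rw [← orderOf_dvd_iff_pow_eq_one, hk]
      refine pow_dvd_pow p ?_
      rw [← hp.pow_dvd_iff_le_factorization Nat.card_pos.ne', ← hk]
      exact orderOf_dvd_natCard _
    conv_lhs => rw [← inv_mul_cancel_right z z']
    rw [hc.mul_pow, h1, one_mul]
  constructor
  · intro h χ
    obtain ⟨r, hr⟩ := char_pow_sub hp ((Nat.card G).factorization p) χ.2.isCharacter x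
    obtain ⟨s, hs⟩ := char_pow_sub hp ((Nat.card G).factorization p) χ.2.isCharacter y
    refine ⟨r - s, ?_⟩
    rw [hr, hs, key x x' hx.1 hx.2.1, key y y' hy.1 hy.2.1,
      χ.2.isClassFunction.eq_of_isConj (h.pow _)]
    push_cast
    ring
  · intro h
    obtain ⟨M, hM⟩ := exists_modular hp
    have h1 := (Cfsg.Agent.S0876.result p M hM x y (x * x'⁻¹) (y * y'⁻¹)
      ⟨x', inv_mul_cancel_right x x', hx.2.1, hx.1, hx.2.2⟩
      ⟨y', inv_mul_cancel_right y y', hy.2.1, hy.1, hy.2.2⟩).2 (fun χ => ?_)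
    · simpa using h1
    obtain ⟨γ, hγ⟩ := h χ
    let a : AlgInt := ⟨(χ : G → ℂ) x, IsCharacter_isIntegral χ.2.isCharacter x⟩
    let b : AlgInt := ⟨(χ : G → ℂ) y, IsCharacter_isIntegral χ.2.isCharacter y⟩
    have hab : a ^ p ^ (Nat.card G).factorization p - b ^ p ^ (Nat.card G).factorization p =
        p * γ := Subtype.ext (by simpa [a, b] using hγ)
    have := hM.2.1
    have hchar : CharP (AlgInt ⧸ M) p :=
      (CharP.charP_iff_prime_eq_zero hp).mpr (by
        rw [← map_natCast (Ideal.Quotient.mk M), Ideal.Quotient.eq_zero_iff_mem]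
        exact hM.2.2)
    have h2 : (Ideal.Quotient.mk M (a - b)) ^ p ^ (Nat.card G).factorization p = 0 := by
      rw [map_sub, sub_pow_char_pow, ← map_pow, ← map_pow, ← map_sub, hab, map_mul, map_natCast,
        CharP.cast_eq_zero, zero_mul]
    exact (Loc.ideal_coe_iff hM (a - b)).mpr (Ideal.Quotient.eq_zero_iff_mem.mp
      (pow_eq_zero_iff (pow_ne_zero _ hp.ne_zero) |>.mp h2))

end Cfsg.Agent.S4604
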