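import Cfsg.Statements.S0861
import Cfsg.Agent.S4604
import Cfsg.Agent.Char.DegBasic
import Cfsg.Agent.Char.Cyclo

set_option autoImplicit false
open Cfsg

namespace Cfsg.Agent.S0861

/-- Let P be a normal abelian Sylow p-subgroup of the finite group G and suppose some element g of P has centralizer exactly P. Then the number of irreducible characters of G is at most the order of P, and if equality holds then G / P is abelian (the commutator subgroup lies in P). -/
theorem result {G : Type*} [Group G] [Finite G] (p : ℕ) [Fact p.Prime] (P : Sylow p G) [(P : Subgroup G).Normal] (hab : ∀ a ∈ P, ∀ b ∈ P, a * b = b * a) (g : G) (hg : g ∈ P) (hC : Subgroup.centralizer ({g} : Set G) = P) : Nat.card (Cfsg.IrrCharacter G) ≤ Nat.card P ∧ (Nat.card (Cfsg.IrrCharacter G) = Nat.card P → commutator G ≤ P) := by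
  classical
  let := Fintype.ofFinite G
  have hp : p.Prime := Fact.out
  let S : Finset G := Finset.univ.filter fun h => ∃ m : ℕ, m.Coprime (Nat.card G) ∧ h = g ^ m
  have hgS : g ∈ S := by
    simp only [S, Finset.mem_filter, Finset.mem_univ, true_and]
    exact ⟨1, Nat.coprime_one_left _, (pow_one g).symm⟩
  have hS : ∀ m : ℕ, m.Coprime (Nat.card G) → ∀ h ∈ S, h ^ m ∈ S := by
    intro m hm h hh
    simp only [S, Finset.mem_filter, Finset.mem_univ, true_and] at hh ⊢
    obtain ⟨k, hk, rfl⟩ := hh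
    exact ⟨k * m, Nat.Coprime.mul_left hk hm, (pow_mul g k m).symm⟩
  have hSP : ∀ h ∈ S, h ∈ (P : Subgroup G) := by
    intro h hh
    simp only [S, Finset.mem_filter, Finset.mem_univ, true_and] at hh
    obtain ⟨k, -, rfl⟩ := hh
    exact Subgroup.pow_mem _ hg k
  have hSC : ∀ h ∈ S, Subgroup.centralizer ({h} : Set G) = P := by
    intro h hh
    have hhP := hSP h hh
    simp only [S, Finset.mem_filter, Finset.mem_univ, true_and] at hh
    obtain ⟨k, hk, rfl⟩ := hh
    apply le_antisymm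
    · intro x hx
      rw [← hC]
      rw [Subgroup.mem_centralizer_singleton_iff] at hx ⊢
      obtain ⟨j, hj⟩ := exists_pow_eq_self_of_coprime
        (hk.coprime_dvd_right (orderOf_dvd_natCard g))
      rw [← hj]
      exact (Commute.pow_right (hx : Commute x (g ^ k)) j)
    · intro x hx
      rw [Subgroup.mem_centralizer_singleton_iff]
      exact hab x hx _ hhP
  have hne : ∀ χ : Cfsg.IrrCharacter G, ∀ h ∈ S, (χ : G → ℂ) h ≠ 0 := by
    intro χ h hh h0
    obtain ⟨k, hk⟩ := P.isPGroup' ⟨h, hSP h hh⟩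
    have hk' : h ^ p ^ k = 1 := congrArg Subtype.val hk
    obtain ⟨r, hr⟩ := Cfsg.Agent.S4604.char_pow_sub hp k χ.2.isCharacter h
    rw [h0, zero_pow (pow_ne_zero k hp.ne_zero), hk',
      Cfsg.Lib.Char.Deg.apply_one_eq χ.2.isCharacter] at hr
    have h1 : p ∣ Cfsg.charDegree (χ : G → ℂ) := by
      apply Cfsg.Lib.Char.dvd_of_isIntegral_div hp.ne_zero
      have : (Cfsg.charDegree (χ : G → ℂ) : ℂ) / (p : ℂ) = -(r : ℂ) := by
        rw [div_eq_iff (Nat.cast_ne_zero.2 hp.ne_zero)]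
        linear_combination -hr
      rw [this]
      exact r.2.neg
    exact P.not_dvd_index (h1.trans (Cfsg.Lib.Char.Deg.ito χ.2 (P : Subgroup G) hab))
  have hle : ∀ χ ∈ (Finset.univ : Finset (Cfsg.IrrCharacter G)),
      (S.card : ℝ) ≤ ∑ h ∈ S, ‖(χ : G → ℂ) h‖ ^ 2 := fun χ _ =>
    Cfsg.Lib.Char.card_le_sum_norm_sq_char χ.2.isCharacter S hS (hne χ)
  have hsum : ∑ χ : Cfsg.IrrCharacter G, ∑ h ∈ S, ‖(χ : G → ℂ) h‖ ^ 2 =
      (S.card : ℝ) * Nat.card P := by
    rw [Finset.sum_comm, Finset.sum_congr rfl (fun h hh => by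
      rw [Cfsg.Lib.Char.sum_irr_normSq h, hSC h hh]), Finset.sum_const, nsmul_eq_mul]
  have hSpos : (0 : ℝ) < S.card := Nat.cast_pos.2 (Finset.card_pos.2 ⟨g, hgS⟩)
  have hsum2 : ∑ χ : Cfsg.IrrCharacter G, (S.card : ℝ) =
      (S.card : ℝ) * Nat.card (Cfsg.IrrCharacter G) := by
    rw [Finset.sum_const, nsmul_eq_mul, Finset.card_univ, Nat.card_eq_fintype_card, mul_comm]
  refine ⟨?_, fun heq => ?_⟩
  · have := Finset.sum_le_sum hle
    rw [hsum, hsum2] at this
    exact_mod_cast le_of_mul_le_mul_left this hSpos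
  · have h1 := (Finset.sum_eq_sum_iff_of_le hle).1 (by rw [hsum, hsum2, heq])
    intro x hx
    rw [Cfsg.Lib.Char.mem_normal_iff_forall_irr]
    intro χ hχ hker
    refine (Cfsg.Lib.Char.Deg.commutator_le_charKer_iff hχ).2 ?_ hx
    have h2 := h1 ⟨χ, hχ⟩ (Finset.mem_univ _)
    rw [Finset.sum_congr rfl (fun h hh => by
      rw [show ((⟨χ, hχ⟩ : Cfsg.IrrCharacter G) : G → ℂ) h = χ 1 from
        hχ.mem_charKer_iff.1 (hker (hSP h hh)),
        Cfsg.Lib.Char.Deg.norm_apply_one hχ.isCharacter]), Finset.sum_const, nsmul_eq_mul] at h2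
    have h3 : (Cfsg.charDegree χ : ℝ) ^ 2 = 1 := by
      apply mul_left_cancel₀ hSpos.ne'
      rw [← h2, mul_one]
    have h4 : Cfsg.charDegree χ ^ 2 = 1 := by exact_mod_cast h3
    exact (Nat.pow_eq_one.1 h4).resolve_right two_ne_zero

end Cfsg.Agent.S0861
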