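import Cfsg.Statements.S0910
import Cfsg.Agent.Block.OmegaFun
import Cfsg.Agent.Char.Burnside

set_option autoImplicit false
open Cfsg

namespace Cfsg.Agent.S0910

open Cfsg.Lib.Char Cfsg.Lib.Block.Loc Cfsg.Lib.Block.Ht

/-- Let G be a non-abelian finite simple group and p a prime. If an irreducible character χ lies in the principal block (relative to a maximal ideal of the algebraic integers containing p) and χ 1 is a power of p, then χ is the principal character. -/
theorem result {G : Type*} [Group G] [Finite G] (p : ℕ) [Fact p.Prime] (M : Ideal Cfsg.AlgInt) (hM : Cfsg.IsPModular p M) [IsSimpleGroup G] (hna : ∃ a b : G, a * b ≠ b * a) (χ : Cfsg.IrrCharacter G) (hχ : χ ∈ Cfsg.principalBlock M G) (k : ℕ) (hdeg : (χ : G → ℂ) 1 = (p : ℂ) ^ k) : (χ : G → ℂ) = fun _ => 1 := by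
  by_contra hne
  obtain ⟨a, b, hab⟩ := hna
  apply hab
  have hd : (χ : G → ℂ) 1 = ((p ^ k : ℕ) : ℂ) := by rw [hdeg]; push_cast; rfl
  by_cases hp : p ∣ Nat.card G
  · obtain ⟨P⟩ : Nonempty (Sylow p G) := inferInstance
    have hP : Nontrivial (P : Subgroup G) := by
      rw [Subgroup.nontrivial_iff_ne_bot]
      exact P.ne_bot_of_dvd_card hp
    have hZ := P.isPGroup'.center_nontrivial
    obtain ⟨z, hz⟩ := exists_ne (1 : Subgroup.center (P : Subgroup G))
    have hz1 : ((z : (P : Subgroup G)) : G) ≠ 1 := by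
      intro h
      exact hz (Subtype.ext (Subtype.ext h))
    set g : G := ((z : (P : Subgroup G)) : G) with hg
    have hle : (P : Subgroup G) ≤ Subgroup.centralizer ({g} : Set G) := by
      intro x hx
      rw [Subgroup.mem_centralizer_singleton_iff]
      exact congrArg Subtype.val (Subgroup.mem_center_iff.1 z.2 ⟨x, hx⟩)
    have hnd : ¬ p ∣ (Subgroup.centralizer ({g} : Set G)).index := fun h =>
      P.not_dvd_index (h.trans (Subgroup.index_dvd_of_le hle))
    have h0 : (χ : G → ℂ) g ≠ 0 := by
      intro h0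
      have h1 : MemLocalIdeal M (centralChar (fun _ : G => (1 : ℂ)) g - centralChar (χ : G → ℂ) g) :=
        hχ g
      simp only [centralChar, h0, mul_zero, zero_div, sub_zero, mul_one, div_one] at h1
      exact hnd ((ideal_natCast_iff hM _).1 h1)
    have h1 := (irr_eq_zero_or_norm_eq_of_coprime χ.2 hd g
      ((hM.1.coprime_iff_not_dvd.2 hnd).pow_left k)).resolve_left h0
    refine comm_of_simple_of_norm_eq χ.2 hne hz1 ?_ a b
    rw [h1, hd, Complex.norm_natCast]
  · have hk : k = 0 := by
      by_contra hk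
      exact hp ((dvd_pow_self p hk).trans (irr_degree_dvd_card χ.2 hd))
    subst hk
    have h1 : (χ : G → ℂ) 1 = 1 := by simpa using hdeg
    have hab1 : a ≠ 1 := by
      rintro rfl
      exact hab (by simp)
    obtain ⟨lam, hlam⟩ := χ.2.isCharacter.exists_monoidHom_of_apply_one h1
    refine comm_of_simple_of_norm_eq χ.2 hne hab1 ?_ a b
    rw [h1, hlam, norm_one]
    refine norm_eq_one_of_pow_eq_one' (orderOf_ne_zero' a) ?_
    rw [← Units.val_pow_eq_pow_val, ← map_pow, pow_orderOf_eq_one, map_one, Units.val_one]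

end Cfsg.Agent.S0910
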