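import Cfsg.Statements.S0914
import Cfsg.Agent.Block.Height

set_option autoImplicit false
open Cfsg

namespace Cfsg.Agent.S0914

open Cfsg.Lib.Char Cfsg.Lib.Block.Loc Cfsg.Lib.Block.Ht

/-- Let χ be an irreducible character of the finite group G, p a prime and M a maximal ideal of the algebraic integers containing p. Then p does not divide the integer (Nat.card G) / χ(1) if and only if the block of χ relative to M consists of χ alone. -/
theorem result {G : Type*} [Group G] [Finite G] (p : ℕ) [Fact p.Prime] (M : Ideal Cfsg.AlgInt) (hM : Cfsg.IsPModular p M) (χ : Cfsg.IrrCharacter G) : ¬ p ∣ Nat.card G / Cfsg.charDegree (χ : G → ℂ) ↔ Cfsg.blockOf M (χ : G → ℂ) = {χ} := by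
  classical
  have := Fintype.ofFinite G
  obtain ⟨m, hm⟩ := charDegree_dvd_card χ.2
  have hd := charDegree_ne_zero χ.2
  have hm0 : m ≠ 0 := by
    rintro rfl
    exact Nat.card_pos.ne' (hm.trans (mul_zero _))
  rw [hm, Nat.mul_div_cancel_left _ (Nat.pos_of_ne_zero hd)]
  constructor
  · intro hp
    refine Set.eq_singleton_iff_unique_mem.2 ⟨mem_blockOf_self hM χ, fun ψ hψ => ?_⟩
    have hr : ∀ g, MemLocalRing M (blockCoeff ({χ} : Set (IrrCharacter G)) g) := by
      intro g
      have h1 : ((charDegree (χ : G → ℂ) : ℕ) : ℂ) ≠ 0 := by exact_mod_cast hd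
      have : blockCoeff ({χ} : Set (IrrCharacter G)) g = (m : ℂ)⁻¹ * (χ : G → ℂ) g⁻¹ := by
        rw [blockCoeff, finsum_mem_singleton, hm, χ.2.isCharacter.apply_inv, ← cast_charDegree_irr]
        push_cast
        field_simp
      rw [this]
      exact ring_mul hM (ring_inv_natCast hM hp) (ring_char hM χ.2.isCharacter _)
    have h1 := ideal_om_sub_om hM χ.2.isClassFunction ψ.2.isClassFunction hψ
      (isClassFunction_blockCoeff {χ}) hr
    by_contra hne
    rw [om_blockCoeff_of_mem (Set.mem_singleton χ), om_blockCoeff_of_notMem (B := {χ}) hne, sub_zero] at h1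
    exact not_ideal_one hM h1
  · intro hB
    have hB' := isPBlock_blockOf (M := M) χ
    have hχ := mem_blockOf_self hM χ
    obtain ⟨ψ, hψ, h1⟩ := exists_not_ideal_cc hM hB' hχ
    rw [hB, Set.mem_singleton_iff] at hψ
    subst hψ
    have h2 := congrFun (blockPart_reg_irr_of_mem hM hB' hχ) 1
    have h3 : blockPart {ψ} (pRegularPart p (ψ : G → ℂ)) 1 =
        classInner (pRegularPart p (ψ : G → ℂ)) (ψ : G → ℂ) * (ψ : G → ℂ) 1 := by
      rw [blockPart_apply, Finset.sum_eq_single ψ]
      · rw [if_pos (Set.mem_singleton ψ)]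
      · intro ξ _ hξ
        exact if_neg hξ
      · simp
    rw [hB, h3, reg_of_not_dvd _
        (by rw [orderOf_one]; exact (Fact.out : p.Prime).not_dvd_one),
      mul_eq_right₀ ψ.2.apply_one_ne_zero] at h2
    rw [cc_eq p _ ψ.2.isCharacter.apply_inv, h2, mul_one, ← cast_charDegree_irr, ← Nat.cast_pow,
      ideal_natCast_div_iff hM (pow_ne_zero _ hM.1.ne_zero) hd, Nat.factorization_pow_self hM.1,
      hm, Nat.factorization_mul hd hm0, Finsupp.add_apply] at h1
    intro hp
    have := (hM.1.dvd_iff_one_le_factorization hm0).1 hp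
    omega

end Cfsg.Agent.S0914
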