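import Cfsg.Statements.S4487
import Cfsg.Agent.Block.Cover
import Cfsg.Agent.Block.Defect

set_option autoImplicit false
open Cfsg Cfsg.Lib.Char Cfsg.Lib.Block

namespace Cfsg.Agent.S4487

/-- Let G be a finite group and p a prime such that G has no non-trivial normal subgroup of order prime to p and C_G(O_p(G)) ≤ O_p(G). Then G has a single p-block: any two irreducible characters lie in the same block relative to every maximal ideal M of the algebraic integers containing p. -/
theorem result {G : Type*} [Group G] [Finite G] (p : ℕ) [Fact p.Prime] (M : Ideal Cfsg.AlgInt) (hM : Cfsg.IsPModular p M) (hcore : Cfsg.pPrimeCore p G = ⊥) (hconstr : Subgroup.centralizer ((Cfsg.pCore p G) : Set G) ≤ Cfsg.pCore p G) (χ ψ : Cfsg.IrrCharacter G) : Cfsg.SameBlock M (χ : G → ℂ) (ψ : G → ℂ) := by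
  have hp : p.Prime := Fact.out
  have hB := isPBlock_blockOf' (M := M) χ
  have hB' := isPBlock_blockOf' (M := M) ψ
  have hs : ∀ g, (eB M (blockOf M (χ : G → ℂ))).coeff g ≠ 0 → g = 1 := fun g hg => by
    have h1 := hconstr (mem_centralizer_of_coeff_eB hM hB (Cfsg.Agent.S0905.pCore_normal p G)
      (Cfsg.Agent.S0905.pCore_isPGroup p G) hg)
    have h2 := coeff_eB_support_regular hM hB hg
    obtain ⟨k, hk⟩ := Cfsg.Agent.S0905.pCore_isPGroup p G ⟨g, h1⟩
    have h3 : orderOf g ∣ p ^ k := orderOf_dvd_of_pow_eq_one (congrArg Subtype.val hk)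
    obtain ⟨j, -, hj⟩ := (Nat.dvd_prime_pow hp).1 h3
    rcases j with _ | j
    · simpa using hj
    · exact absurd (hj ▸ dvd_pow_self p (Nat.succ_ne_zero j)) h2
  have he : eB M (blockOf M (χ : G → ℂ)) =
      algebraMap (kM M) (MonoidAlgebra (kM M) G) ((eB M (blockOf M (χ : G → ℂ))).coeff 1) := by
    ext g
    by_cases hg : g = 1
    · subst hg
      simp [MonoidAlgebra.coe_algebraMap]
    · rw [not_not.1 (mt (hs g) hg)]
      simp [MonoidAlgebra.coe_algebraMap, Finsupp.single_apply, Ne.symm hg]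
  have h1 := lamB_eB_self hM hB
  rw [he, (isCentralHom_lamB hM hB).map_algebraMap] at h1
  have h2 : blockOf M (ψ : G → ℂ) = blockOf M (χ : G → ℂ) := by
    refine block_eq_of_lamB_eB_ne_zero hM hB' hB ?_
    rw [he, (isCentralHom_lamB hM hB').map_algebraMap, h1]
    exact one_ne_zero
  exact isPBlock_sameBlock hM hB (mem_blockOf_self' hM χ) (h2 ▸ mem_blockOf_self' hM ψ)

end Cfsg.Agent.S4487
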