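import Cfsg.Statements.S0969
import Cfsg.Agent.Block.Reynolds
import Cfsg.Agent.Char.CharCenter

set_option autoImplicit false
open Cfsg Cfsg.Lib.Char Cfsg.Lib.Block

namespace Cfsg.Agent.S0969

/-- Let D be a central p-subgroup of the finite group G and χ an irreducible character with the exponent of p in χ(1) equal to the exponent of p in the index of D; fix a maximal ideal M of the algebraic integers containing p. Then D is a defect group of the block of χ, and χ g = 0 whenever the p-part of g does not lie in D. -/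
theorem result {G : Type*} [Group G] [Finite G] (p : ℕ) [Fact p.Prime] (M : Ideal Cfsg.AlgInt) (hM : Cfsg.IsPModular p M) (D : Subgroup G) (hD : IsPGroup p D) (hDZ : D ≤ Subgroup.center G) (χ : Cfsg.IrrCharacter G) (hdeg : (Cfsg.charDegree (χ : G → ℂ)).factorization p = D.index.factorization p) : Cfsg.IsDefectGroup p M (Cfsg.blockOf M (χ : G → ℂ)) D ∧ ∀ g x : G, Cfsg.IsPPart p g x → x ∉ D → (χ : G → ℂ) g = 0 := by
  classical
  have hp : p.Prime := Fact.out
  have := Fintype.ofFinite G
  have := Fintype.ofFinite D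
  have hN : D.Normal := ⟨fun n hn g => by
    rw [Subgroup.mem_center_iff.1 (hDZ hn) g, mul_inv_cancel_right]; exact hn⟩
  have hB := isPBlock_blockOf (M := M) χ
  have hχ := mem_blockOf_self hM χ
  set B := blockOf M (χ : G → ℂ)
  obtain ⟨e, he⟩ := IsPGroup.iff_card.1 hD
  have h2 := Ht.factorization_charDegree_eq (p := p) hχ
  have h3 := Ht.blockDefect_add_minVal p (block_nonempty hM hB)
  rw [← D.card_mul_index, Nat.factorization_mul Nat.card_pos.ne'
    Subgroup.index_ne_zero_of_finite, Finsupp.add_apply, he, hp.factorization_pow,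
    Finsupp.single_eq_same] at h3
  have hd : blockDefect p B = e + blockHeight p B (χ : G → ℂ) := by omega
  have hle : (Nat.card D : ℝ) * ∑ x : G with ¬ p ∣ orderOf x, ‖(χ : G → ℂ) x‖ ^ 2 ≤
      Nat.card G := by
    have h4 := sum_eq_sum_mul_regular hD (fun x _ => Subgroup.mem_centralizer_iff.2 fun y hy =>
      (Subgroup.mem_center_iff.1 (hDZ hy) x).symm)
      (fun z => if ∀ y, IsPPart p z y → y ∉ D then 0 else ‖(χ : G → ℂ) z‖ ^ 2)
      fun z hz => if_pos hz
    obtain ⟨lam, -, hlam, -⟩ := χ.2.exists_monoidHom_of_le_center hDZ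
    rw [Finset.sum_congr rfl (g := fun _ => ∑ x : G with ¬ p ∣ orderOf x, ‖(χ : G → ℂ) x‖ ^ 2)
      fun y _ => Finset.sum_congr rfl fun x hx => by
        rw [if_neg fun h => h y (isPPart_mul (Subgroup.mem_center_iff.1 (hDZ y.2) x).symm
          (exists_orderOf_eq_pow hD y.2) (Finset.mem_filter.1 hx).2) y.2, hlam, norm_mul,
          Complex.norm_eq_one_of_pow_eq_one (n := orderOf y)
            (by rw [← Units.val_pow_eq_pow_val, ← map_pow, pow_orderOf_eq_one, map_one,
              Units.val_one]) (orderOf_pos y).ne', one_mul]] at h4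
    rw [Finset.sum_const, Finset.card_univ, nsmul_eq_mul, ← Nat.card_eq_fintype_card] at h4
    have h5 := index_mul_classInner_self_re ⊤ (χ : G → ℂ)
    rw [χ.2.classInner_self, Subgroup.index_top, Subgroup.card_top, eq_comm, Nat.cast_one,
      Complex.one_re, one_mul, inv_mul_eq_one₀ (Nat.cast_ne_zero.2 Nat.card_pos.ne')] at h5
    rw [← h4, h5]
    refine Finset.sum_le_sum fun z _ => ?_
    split_ifs
    · positivity
    · rfl
  have hca : ca p B χ χ ≤ (p : ℤ) ^ blockHeight p B (χ : G → ℂ) := by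
    have h5 := ca_cast hp χ hχ
    have h6 : ∑ x : G, pRegularPart p (χ : G → ℂ) x * (starRingEnd ℂ) ((χ : G → ℂ) x) =
        ((∑ x : G with ¬ p ∣ orderOf x, ‖(χ : G → ℂ) x‖ ^ 2 : ℝ) : ℂ) := by
      rw [Finset.sum_filter, Complex.ofReal_sum]
      refine Finset.sum_congr rfl fun x _ => ?_
      rw [Ht.reg_apply]
      split_ifs <;> simp [Complex.mul_conj, Complex.normSq_eq_norm_sq]
    rw [classInner, h6, hd] at h5
    have h7 : (ca p B χ χ : ℝ) = (p : ℝ) ^ (e + blockHeight p B (χ : G → ℂ)) *
        ((Nat.card G : ℝ)⁻¹ * ∑ x : G with ¬ p ∣ orderOf x, ‖(χ : G → ℂ) x‖ ^ 2) := by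
      apply Complex.ofReal_injective
      push_cast at h5 ⊢
      exact h5
    have hG : (0 : ℝ) < Nat.card G := Nat.cast_pos.2 Nat.card_pos
    rw [he, Nat.cast_pow, ← div_le_one hG] at hle
    have h8 : (ca p B χ χ : ℝ) ≤ (p : ℝ) ^ blockHeight p B (χ : G → ℂ) := by
      rw [h7, pow_add]
      refine le_trans (le_of_eq ?_) (mul_le_of_le_one_right (by positivity) hle)
      ring
    exact_mod_cast h8
  have h0 : blockHeight p B (χ : G → ℂ) = 0 := by
    by_contra h0
    have h9 := (Int.le_of_dvd (ca_self_pos hM hB hχ) (pow_height_succ_dvd_ca hM hB hχ hχ h0)).trans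
      hca
    exact absurd h9 (not_le.2 (pow_lt_pow_right₀ (by exact_mod_cast hp.one_lt) (by omega)))
  obtain ⟨E, hE⟩ := exists_isDefectGroup hM hB
  have hDE : D = E := Subgroup.eq_of_le_of_card_ge (le_defect_of_normal hM hB hN hD hE)
    (by rw [card_defect hM hB hE, he, hd, h0, add_zero])
  subst hDE
  refine ⟨hE, fun g x hx hxD => apply_eq_zero_of_normal_defect hM hB hN hE hχ g fun y hy => ?_⟩
  rwa [IsPPart_unique hp hy hx]

end Cfsg.Agent.S0969
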