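import Cfsg.Statements.S1001
import Cfsg.Agent.PrimeOne.SelfCent

set_option autoImplicit false
open Cfsg

namespace Cfsg.Agent.S1001

/-- In a finite simple group whose order has the form p * 3^a * 2^b with p prime, the centralizer of any element of order p is the cyclic group it generates. -/
theorem result {G : Type*} [Group G] [Finite G] [IsSimpleGroup G] (p a b : ℕ) (hp : p.Prime) (hG : Nat.card G = p * 3 ^ a * 2 ^ b) (x : G) (hx : orderOf x = p) : Subgroup.centralizer ({x} : Set G) = Subgroup.zpowers x := by
  by_cases h : p = 2 ∨ p = 3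
  · have hsol : Group.IsSolvable G := by
      refine Cfsg.Lib.Char.isSolvable_of_prime_dvd_card Nat.prime_two Nat.prime_three G ?_
      intro r hr hd
      rw [hG] at hd
      rcases (Nat.Prime.dvd_mul hr).1 hd with hd | hd
      · rcases (Nat.Prime.dvd_mul hr).1 hd with hd | hd
        · obtain rfl := (Nat.prime_dvd_prime_iff_eq hr hp).1 hd
          exact h
        · exact Or.inr ((Nat.prime_dvd_prime_iff_eq hr Nat.prime_three).1 (hr.dvd_of_dvd_pow hd))
      · exact Or.inl ((Nat.prime_dvd_prime_iff_eq hr Nat.prime_two).1 (hr.dvd_of_dvd_pow hd))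
    have hc : ∀ a b : G, a * b = b * a := IsSimpleGroup.comm_iff_isSolvable.2 hsol
    have hx1 : x ≠ 1 := by
      rintro rfl
      rw [orderOf_one] at hx
      exact hp.one_lt.ne hx
    haveI := Fact.mk (Cfsg.Lib.Char.prime_card_of_simple_of_comm hc)
    rw [zpowers_eq_top_of_prime_card rfl hx1, eq_top_iff]
    intro g _
    rw [Subgroup.mem_centralizer_singleton_iff]
    exact hc _ _
  · rw [not_or] at h
    exact Cfsg.Lib.PrimeOne.centralizer_eq_zpowers_of_card Nat.prime_three Nat.prime_two hp
      (Ne.symm h.2) (Ne.symm h.1) (a := a) (b := b) (by rw [hG]; ring) hx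

end Cfsg.Agent.S1001
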