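import Cfsg.Statements.S1026
import Cfsg.Agent.Chev.CoreAll
import Cfsg.Agent.Chev.StructMat

set_option autoImplicit false
open Cfsg Cfsg.Lib.Chev Cfsg.Lib.Chev.Core

namespace Cfsg.Agent.S1026

/-- Every element of `U` has a unique expression `∏_{r ∈ Φ⁺} x_r(t_r)`, the product over the positive roots in increasing index order (the coefficient family `t`, supported on the positive roots, exists and is unique); and conversely every such ordered product is the matrix of an element of `U`. -/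
theorem result {F : Type*} [Field F] (D : Cfsg.Lie.ChevalleyDatum) (hD : D ∈ [Cfsg.Lie.chevG2, Cfsg.Lie.chevB2, Cfsg.Lie.chevD4, Cfsg.Lie.chevF4, Cfsg.Lie.chevE6, Cfsg.Lie.chevE7, Cfsg.Lie.chevE8]) :
    (∀ g : GL D.Idx F, g ∈ D.posUnipotent F →
      ∃! t : ℕ → F, (∀ r, ¬ D.IsPosRoot r → t r = 0) ∧
        (g : Matrix D.Idx D.Idx F) = D.wordMat F (D.posRoots.map fun r => (r, t r))) ∧
    (∀ t : ℕ → F, ∃ g : GL D.Idx F, g ∈ D.posUnipotent F ∧
      (g : Matrix D.Idx D.Idx F) = D.wordMat F (D.posRoots.map fun r => (r, t r))) := by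
  obtain ⟨C, R⟩ := cert_root_of_mem hD
  have hS : ∀ r ∈ {r | R.weyl.Pos r}, r < D.nroots := fun r hr => R.weyl_mem.1 hr.1
  have hpos : ∀ r ∈ {r | R.weyl.Pos r}, 0 < R.weyl.stHt ∅ (R.rc r) :=
    fun r hr => (R.weyl.stHt_empty_pos_iff hr.1).2 hr
  have hL : ∀ r, r ∈ D.posRoots ↔ r ∈ {r | R.weyl.Pos r} := fun r => by
    rw [RootData.mem_posRoots, Set.mem_ofPred_eq, R.weyl_pos]
  rw [C.posUnipotent_eq_Y R]
  refine ⟨fun g hg => ?_, fun t => ?_⟩
  · obtain ⟨t, h1, h2⟩ := (C.stRelN F R).exists_word R hS R.weyl.stClosed_pos _ hpos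
      (RootData.nodup_posRoots D) hL hg
    refine ⟨t, ⟨fun r hr => h1 r (by rwa [Set.mem_ofPred_eq, R.weyl_pos]), (C.eq_word_iff R).2 h2⟩,
      fun t' ⟨h3, h4⟩ => funext fun r => ?_⟩
    by_cases hr : D.IsPosRoot r
    · have e := ((C.eq_word_iff R).1 h4).symm.trans h2
      simp only [word, List.map_map] at e
      exact C.xGL_injective R hr.1 ((C.faithful F R).prod_unique (fun r hr => hr.1)
        R.weyl.stClosed_pos _ hpos (RootData.nodup_posRoots D) (fun r hr => (hL r).1 hr)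
        (fun r _ => x_mem_xSub _ r (t' r)) (fun r _ => x_mem_xSub _ r (t r)) e r
        ((RootData.mem_posRoots D).2 hr))
    · rw [h3 r hr, h1 r (by rwa [Set.mem_ofPred_eq, R.weyl_pos])]
  · refine ⟨_, word_mem _ fun p hp => ?_, C.coe_word R _⟩
    obtain ⟨r, hr, rfl⟩ := List.mem_map.1 hp
    exact (C.Y F R).X_le_U ((hL r).1 hr) (x_mem_xSub _ r (t r))

end Cfsg.Agent.S1026
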