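import Cfsg.Statements.S1045
import Cfsg.Agent.Chev.CoreAll
import Cfsg.Agent.Chev.StructMat

set_option autoImplicit false
open Cfsg Cfsg.Lib.Chev Cfsg.Lib.Chev.Core

namespace Cfsg.Agent.S1045

/-- For a fundamental root `p`, the subgroup `U_p` generated by the `X_s`, `s` positive and `s ≠ p`, is normalised by `X_p` and `X_{-p}`, and `U = U_p ⊔ X_p`. -/
theorem result {F : Type*} [Field F] (D : Cfsg.Lie.ChevalleyDatum) (hD : D ∈ [Cfsg.Lie.chevG2, Cfsg.Lie.chevB2, Cfsg.Lie.chevD4, Cfsg.Lie.chevF4, Cfsg.Lie.chevE6, Cfsg.Lie.chevE7, Cfsg.Lie.chevE8]) (i : ℕ) (hi : i < D.rank) :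
    D.rootSubgroup F (D.simple i) ⊔ D.rootSubgroup F (D.neg (D.simple i)) ≤
        Subgroup.normalizer (Subgroup.closure {g : GL D.Idx F | ∃ (s : ℕ) (t : F), D.IsPosRoot s ∧ s ≠ D.simple i ∧
          (g : Matrix D.Idx D.Idx F) = D.x F s t} : Set (GL D.Idx F)) ∧
      Subgroup.closure {g : GL D.Idx F | ∃ (s : ℕ) (t : F), D.IsPosRoot s ∧ s ≠ D.simple i ∧
          (g : Matrix D.Idx D.Idx F) = D.x F s t} ⊔ D.rootSubgroup F (D.simple i) = D.posUnipotent F := by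
  obtain ⟨C, R⟩ := cert_root_of_mem hD
  have h1 : spanX (xSub (xGL D F)) {r | D.IsPosRoot r ∧ r ≠ D.simple i} =
      (C.Y F R).UJ {⟨i, hi⟩} := by
    rw [RGD.UJ_singleton]; simp only [R.weyl_pos]; rfl
  rw [C.closure_x_eq₂ R, C.rootSubgroup_eq_Y R, C.rootSubgroup_eq_Y R, C.posUnipotent_eq_Y R, h1]
  have h2 : R.weyl.InJ {⟨i, hi⟩} (D.simple i) := (R.weyl.inJ_simple_iff (i := ⟨i, hi⟩)).2 rfl
  refine ⟨le_trans (sup_le ((C.Y F R).X_le_P (Or.inr h2))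
    ((C.Y F R).X_le_P (Or.inr (R.weyl.inJ_neg h2)))) ((C.Y F R).P_le_normalizer_UJ _), ?_⟩
  rw [RGD.UJ_singleton, sup_comm, ← spanX_insert, RGD.U]
  congr 1
  ext r
  by_cases e : r = D.simple i
  · simpa [e] using R.weyl.pos_simple ⟨i, hi⟩
  · simp [e]

end Cfsg.Agent.S1045
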