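import Cfsg.Statements.S1138
import Cfsg.Agent.Suz.Higman

set_option autoImplicit false
open Cfsg

namespace Cfsg.Agent.S1138

/-- Let `P` be a Suzuki 2-group with `|Z(P)| = q`. Then every square lies in `Z(P)` and `P/Z(P)` is abelian (so elementary abelian), `|P| = q²` or `|P| = q³`, and `P` has exponent 4. -/
theorem result {P : Type*} [Group P] (hP : Cfsg.IsSuzukiTwoGroup P) :
    (∀ x : P, x * x ∈ Subgroup.center P) ∧ (∀ x y : P, x⁻¹ * y⁻¹ * x * y ∈ Subgroup.center P) ∧
      (Nat.card P = Nat.card (Subgroup.center P) ^ 2 ∨ Nat.card P = Nat.card (Subgroup.center P) ^ 3) ∧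
      Monoid.exponent P = 4 := by
  have := hP.1
  obtain ⟨ξ, h, hn⟩ := Cfsg.Lib.Suz.exists_HS_center hP
  obtain ⟨F, _, _, _, hF⟩ := h.exists_field
  have hsq := h.sq_mem hF hn
  refine ⟨fun x => hsq x trivial, fun x y => ?_, by simpa using h.card_eq hF hn, ?_⟩
  · simpa [Cfsg.Lib.Suz.cm, mul_assoc] using Cfsg.Lib.Suz.cm_mem_of_sq hsq (x := x) (y := y) trivial trivial
  · have h4 : Monoid.exponent P ∣ 2 ^ 2 := Monoid.exponent_dvd_of_forall_pow_eq_one fun x => by
      rw [show 2 ^ 2 = 2 * 2 from rfl, pow_mul, pow_two, pow_two]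
      exact h.Z_sq (hsq x trivial)
    obtain ⟨i, hi, e⟩ := (Nat.dvd_prime_pow Nat.prime_two).1 h4
    by_contra hne
    have h2 : Monoid.exponent P ∣ 2 := by
      rw [e]
      rcases (by omega : i = 0 ∨ i = 1 ∨ i = 2) with rfl | rfl | rfl
      · norm_num
      · norm_num
      · exact absurd e hne
    refine hn fun u _ v _ => h.central u ((h.mem_Z u).2 ⟨trivial, ?_⟩) v trivial
    rw [← pow_two]
    exact Monoid.exponent_dvd_iff_forall_pow_eq_one.1 h2 u

end Cfsg.Agent.S1138
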