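import Cfsg.Statements.S1142
import Cfsg.Agent.Chev.BNHecke
import Cfsg.Agent.Chev.FeitHigmanNum

set_option autoImplicit false
open Cfsg

namespace Cfsg.Agent.S1142

open Cfsg.Lib.Chev Cfsg.Lib.Chev.BN

theorem bw_eq {I R : Type*} [Ring R] (f : I → R) (i j : I) (k : ℕ) :
    FH.bw (f i) (f j) k = ((altWord j i k).map f).prod := by
  induction k with
  | zero => rfl
  | succ k ih => rw [FH.bw_succ, prod_map_altWord_succ, ih]

theorem prod_altWord_two_mul {I : Type*} (f : I → ℕ) (i j : I) (k : ℕ) :
    ((altWord i j (2 * k)).map f).prod = (f i * f j) ^ k := by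
  induction k with
  | zero => rfl
  | succ k ih =>
    rw [Nat.mul_succ, altWord_succ, altWord_succ, List.map_cons, List.map_cons, List.prod_cons,
      List.prod_cons, ih]; ring


/-- Feit–Higman: if a finite group has a (B,N)-pair of rank 2, its Weyl group `N/(B ⊓ N)` has order 4, 6, 8, 12 or 16. -/
theorem result {G : Type*} [Group G] [Finite G] (P : Cfsg.BNPair G)
    (h2 : P.rank = 2) :
    ((P.B ⊓ P.N).subgroupOf P.N).index ∈ ({4, 6, 8, 12, 16} : Set ℕ) := by
  classical
  have := Fintype.ofFinite (G ⧸ P.B)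
  obtain ⟨i, j, hij, huniv⟩ := Nat.card_eq_two_iff.1 h2
  have hall : ∀ k : P.S, k = i ∨ k = j := fun k => by
    have : k ∈ ({i, j} : Set P.S) := huniv ▸ Set.mem_univ k
    simpa using this
  have hcard := (preCox P).card_eq_of_two hall
  have hpos : 0 < orderOf ((preCox P).s i * (preCox P).s j) := orderOf_pos _
  have hne1 : orderOf ((preCox P).s i * (preCox P).s j) ≠ 1 :=
    (preCox P).coxeterMatrix.off_diagonal i j hij
  obtain ⟨N, hN⟩ : ∃ N, orderOf ((preCox P).s i * (preCox P).s j) = N + 1 :=
    ⟨_, (Nat.succ_pred_eq_of_pos hpos).symm⟩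
  have hN' : orderOf ((preCox P).s j * (preCox P).s i) = N + 1 := by
    rw [← hN, (preCox P).orderOf_s_mul_s_comm]
  have red1 : ∀ k ≤ N + 1, (preCox P).Red (altWord i j k) := fun k hk =>
    (preCox P).red_altWord_of_le (by omega)
  have red2 : ∀ k ≤ N + 1, (preCox P).Red (altWord j i k) := fun k hk =>
    (preCox P).red_altWord_of_le (by omega)
  have hbr : (preCox P).wp (altWord i j (N + 1)) = (preCox P).wp (altWord j i (N + 1)) := by
    rw [PreCox.wp_altWord_eq_iff, ← hN, pow_orderOf_eq_one]
  have ne1 : ∀ {ω : List P.S}, (preCox P).Red ω → 0 < ω.length → (preCox P).wp ω ≠ 1 := by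
    intro ω hω h0 h
    unfold PreCox.Red at hω
    rw [h, PreCox.len_one] at hω
    omega
  let T : P.S → Matrix (G ⧸ P.B) (G ⧸ P.B) ℂ := fun k => heckeT P ℂ (sg P k)
  have e1 : ∀ k, T i * FH.bw (T i) (T j) k = ((altWord i j (k + 1)).map T).prod := by
    intro k; rw [bw_eq, altWord_succ, List.map_cons, List.prod_cons]
  let D : FH.Data (G ⧸ P.B) (param P i) (param P j) N :=
    { A := T i
      B := T j
      hA := heckeT_sq P ℂ i
      hB := heckeT_sq P ℂ j
      braid := by
        rw [e1, bw_eq, ← heckeT_wp P ℂ (red1 _ le_rfl), ← heckeT_wp P ℂ (red2 _ le_rfl), hbr]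
      hst := by
        rintro ⟨d, hd⟩
        have := prod_param_eq P (red1 _ le_rfl) (red2 _ le_rfl) hbr
        rw [hd, ← two_mul, altWord_succ, altWord_succ, List.map_cons, List.map_cons,
          List.prod_cons, List.prod_cons, prod_altWord_two_mul, prod_altWord_two_mul,
          mul_comm (param P j) (param P i)] at this
        have hi := two_le_param P i
        have hj := two_le_param P j
        exact Nat.eq_of_mul_eq_mul_right (by positivity) this
      tr1 := fun k h0 hk => by
        rw [bw_eq, ← heckeT_wp P ℂ (red2 k (by omega))]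
        exact trace_heckeT P ℂ (ne1 (red2 k (by omega)) (by simpa using h0))
      tr2 := fun k hk => by
        rw [e1, ← heckeT_wp P ℂ (red1 (k + 1) (by omega))]
        exact trace_heckeT P ℂ (ne1 (red1 (k + 1) (by omega)) (by simp)) }
  have := D.feit_higman (two_le_param P i) (two_le_param P j) (by omega)
  change Nat.card (W P) ∈ _
  rw [hcard, hN]
  simp only [Set.mem_insert_iff, Set.mem_singleton_iff]
  omega

end Cfsg.Agent.S1142
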