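import Cfsg.Statements.S1187
import Cfsg.Agent.Block.ZStar
import Cfsg.Agent.Solv.CoprimeSylow
import Cfsg.Agent.Solv.Cores

set_option autoImplicit false
open Cfsg

namespace Cfsg.Agent.S1187

/-- Let z be an isolated involution of the finite group G and p a prime. If Q is a p-subgroup normalized by z that is maximal among p-subgroups normalized by z, then Q is a Sylow p-subgroup of G. -/
theorem result {G : Type*} [Group G] [Finite G] (z : G) (hz : Cfsg.IsIsolatedInvolution z) {p : ℕ} [Fact p.Prime] (Q : Subgroup G) (hQ : IsPGroup p Q) (hzQ : z ∈ Subgroup.normalizer (Q : Set G)) (hmax : ∀ R : Subgroup G, IsPGroup p R → z ∈ Subgroup.normalizer (R : Set G) → Q ≤ R → R = Q) : ∃ P : Sylow p G, (P : Subgroup G) = Q := by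
  obtain ⟨P, hP⟩ := hQ.exists_le_sylow
  refine ⟨P, ?_⟩
  have hz2 : Nat.card (Subgroup.zpowers z) = 2 := by rw [Nat.card_zpowers, hz.1]
  have hp : p.Prime := Fact.out
  by_cases h2 : p = 2
  · subst h2
    have h3 := hmax _ (hQ.to_sup_of_normal_left' (IsPGroup.of_card (n := 1) hz2)
      (Subgroup.zpowers_le.2 hzQ)) (Subgroup.le_normalizer
        (Subgroup.mem_sup_right (Subgroup.mem_zpowers z))) le_sup_left
    exact hmax P P.2 (Subgroup.le_normalizer
      (hP (h3.le (Subgroup.mem_sup_right (Subgroup.mem_zpowers z))))) hP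
  have h3 : Nat.Coprime (Nat.card (oddCore G ⊔ P : Subgroup G)) 2 := by
    rw [← Lib.Solv.isPiNum_compl_singleton_iff Nat.prime_two]
    exact ((Lib.Solv.isPiNum_compl_singleton_iff Nat.prime_two).2
      (Lib.Solv.coprime_card_pPrimeCore 2 G)).card_sup
      (Lib.Solv.isPiNum_card_of_isPGroup (by simpa using h2) P.2) Subgroup.le_normalizer_of_normal
  obtain ⟨R, h4, h5, h6, h7, h8⟩ := Lib.Solv.Coprime.exists_le_invariant_sylow' (p := p)
    (A := Subgroup.zpowers z) (K := oddCore G ⊔ P) (Subgroup.zpowers_le.2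
      (Subgroup.mem_normalizer_fintype fun n hn => by
        simpa using mul_mem (Subgroup.mem_sup_left (Lib.Block.Princ.zstar hz n)) hn))
    (hz2 ▸ h3.symm) (Or.inl inferInstance) (hP.trans le_sup_right) hQ (Subgroup.zpowers_le.2 hzQ)
  rw [hmax R h6 (h8 (Subgroup.mem_zpowers z)) h4,
    ← Subgroup.relIndex_mul_relIndex _ _ _ hP le_sup_right] at h7
  obtain ⟨k, hk⟩ := P.2.index (Q.subgroupOf P)
  refine le_antisymm (Subgroup.relIndex_eq_one.1 ?_) hP
  rcases k with _ | k
  · exact hk
  · exact (h7 (Dvd.dvd.mul_right ((dvd_pow_self p k.succ_ne_zero).trans hk.symm.dvd) _)).elim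

end Cfsg.Agent.S1187
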