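import Cfsg.Statements.S1236
import Cfsg.Agent.Trans.QuasiDihedral
import Cfsg.Agent.Solv.Omega

set_option autoImplicit false
open Cfsg

namespace Cfsg.Agent.S1236

open Subgroup Cfsg.Lib.Solv.PG Cfsg.Lib.Trans DihedralGroup

theorem dihedral_centralizer_le {m : ℕ} [NeZero m] {T : Subgroup (DihedralGroup m)}
    (h4 : Nat.card T = 4) (h2 : ∀ x ∈ T, x ^ 2 = 1) : centralizer (T : Set (DihedralGroup m)) ≤ T := by
  have hr : ∀ k : ZMod m, (r k : DihedralGroup m) ∈ zpowers (r 1) := fun k => ⟨k.val, by simp⟩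
  obtain ⟨i, hi⟩ : ∃ i, sr i ∈ T := by
    by_contra hc
    push Not at hc
    refine not_isCyclic_of_card_eq_sq Nat.prime_two h4 h2 (isCyclic_of_le (H' := zpowers (r 1)) ?_)
    rintro (k | k) hk
    exacts [hr k, absurd hk (hc k)]
  obtain ⟨j, hj0, hj⟩ : ∃ j, j ≠ 0 ∧ r j ∈ T := by
    by_contra hc
    push Not at hc
    refine not_isCyclic_of_card_eq_sq Nat.prime_two h4 h2 (isCyclic_of_le (H' := zpowers (sr i)) ?_)
    rintro (k | k) hk
    · rw [not_imp_not.mp (hc k) hk, ← one_def]; exact one_mem _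
    · have := not_imp_not.mp (hc (k - i)) (by simpa using T.mul_mem hi hk)
      rw [sub_eq_zero.mp this]; exact mem_zpowers _
  have key : ∀ k : ZMod m, k + k = 0 → r k ∈ T := fun k hk =>
    zpowers_le.mpr hj (mem_of_pow_card_eq_one (zpowers_le.mpr (hr j)) (hr k) (by
      rw [Nat.card_zpowers, orderOf_eq_prime (h2 _ hj) fun h => hj0 (r.inj h), sq, r_mul_r, hk,
        one_def]))
  intro x hx
  have h1 := hx _ hi
  rcases x with k | k
  · rw [r_mul_sr, sr_mul_r] at h1
    exact key k (by linear_combination sr.inj h1)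
  · rw [sr_mul_sr, sr_mul_sr] at h1
    simpa using T.mul_mem hi (key (k - i) (by linear_combination r.inj h1))

/-- Let R be a finite group, t a central involution of R such that R ⧸ ⟨t⟩ is dihedral (of order ≥ 4) or quasi-dihedral, and A ≤ R an elementary abelian subgroup of order 8 containing t. Then C_R(A) = A. -/
theorem result {R : Type*} [Group R] [Finite R] (t : R) (ht : orderOf t = 2) (htz : t ∈ Subgroup.center R) [(Subgroup.zpowers t).Normal] (hq : (∃ m : ℕ, 2 ≤ m ∧ Nonempty (R ⧸ Subgroup.zpowers t ≃* DihedralGroup m)) ∨ Cfsg.IsQuasiDihedral (R ⧸ Subgroup.zpowers t)) (A : Subgroup R) (hA : Cfsg.IsElementaryAbelian 2 A) (hA8 : Nat.card A = 8) (htA : t ∈ A) : Subgroup.centralizer (A : Set R) = A := by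
  have hk : (QuotientGroup.mk' (zpowers t)).ker ≤ A := by simpa using htA
  have h4 : Nat.card (A.map (QuotientGroup.mk' (zpowers t))) = 4 := by
    have h1 := QuotientGroup.card_preimage_mk (zpowers t)
      (A.map (QuotientGroup.mk' (zpowers t)) : Set (R ⧸ zpowers t))
    have h2 : Nat.card ((A.map (QuotientGroup.mk' (zpowers t))).comap
      (QuotientGroup.mk' (zpowers t))) = 8 := by rw [comap_map_eq_self hk, hA8]
    rw [Nat.card_zpowers, ht] at h1
    have h3 := h2.symm.trans h1
    change 8 = 2 * Nat.card (A.map (QuotientGroup.mk' (zpowers t))) at h3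
    omega
  have h2 : ∀ x ∈ A.map (QuotientGroup.mk' (zpowers t)), x ^ 2 = 1 := by
    rintro _ ⟨a, ha, rfl⟩
    rw [← map_pow, hA.2 a ha, map_one]
  have hC : centralizer (A.map (QuotientGroup.mk' (zpowers t)) : Set (R ⧸ zpowers t)) ≤
      A.map (QuotientGroup.mk' (zpowers t)) := by
    generalize A.map (QuotientGroup.mk' (zpowers t)) = T at h4 h2
    rcases hq with ⟨m, hm, ⟨e⟩⟩ | hq
    · have : NeZero m := ⟨by omega⟩
      intro x hx
      obtain ⟨y, hy, hyx⟩ := dihedral_centralizer_le (T := T.map (e : _ →* DihedralGroup m))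
        (by rw [card_map_of_injective e.injective, h4])
        (by rintro _ ⟨a, ha, rfl⟩; rw [← map_pow, h2 a ha, map_one]) (x := e x)
        (by rintro _ ⟨a, ha, rfl⟩; exact (map_mul e a x).symm.trans
              ((congrArg e (hx a ha)).trans (map_mul e x a)))
      exact e.injective hyx ▸ hy
    · obtain ⟨m, -, ⟨F⟩⟩ := exists_qdFrame hq
      obtain ⟨v, rfl⟩ := (QD.isKleinFour_iff F).mp (isKleinFour_of_sq_eq_one h4 h2)
      exact (QD.centralizer_sub_zero F _).le
  have := hA.1
  refine le_antisymm (fun x hx => ?_) (le_centralizer A)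
  rw [← comap_map_eq_self hk]
  refine hC ?_
  rintro _ ⟨a, ha, rfl⟩
  rw [← map_mul, ← map_mul, hx a ha]

end Cfsg.Agent.S1236
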