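import Cfsg.Statements.S1235
import Cfsg.Agent.Solv.SecRank
import Cfsg.Agent.S1236

set_option autoImplicit false
open Cfsg

namespace Cfsg.Agent.S1235

open Subgroup Cfsg.Lib.Solv Cfsg.Lib.Solv.PG Cfsg.Lib.Trans
open scoped commutatorElement Pointwise

section

variable {S : Type*} [Group S] [Finite S]

theorem secRank_of_e16 (hS : IsPGroup 2 S) {T : Subgroup S} (hT : Nat.card T = 16)
    (hT2 : ∀ t ∈ T, t ^ 2 = 1)
    (hX : ∀ X ≤ T, 4 < Nat.card X → ∃ b ∈ X, centralizer ({b} : Set S) = T) :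
    SectionalPRankLE 2 4 S := by
  have : Fact (Nat.Prime 2) := ⟨Nat.prime_two⟩
  have hc : ∀ {X : Subgroup S}, (∀ t ∈ X, t ^ 2 = 1) → ∀ a ∈ X, ∀ b ∈ X, a * b = b * a :=
    fun h a ha b hb => by
      have h1 := h _ (mul_mem ha hb)
      rw [sq] at h1
      rw [eq_inv_of_mul_eq_one_left h1, mul_inv_rev, inv_eq_of_mul_eq_one_right ((sq a).symm.trans
        (h a ha)), inv_eq_of_mul_eq_one_right ((sq b).symm.trans (h b hb))]
  have hX' : ∀ (g : S), ∀ X ≤ MulAut.conj g • T, 4 < Nat.card X →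
      ∃ b ∈ X, centralizer ({b} : Set S) = MulAut.conj g • T := fun g X h1 h2 => by
    obtain ⟨b, hb, h3⟩ := hX (MulAut.conj g⁻¹ • X) (by
      rwa [conj_smul_le_iff_le_conj_inv_smul, inv_inv]) (by rwa [card_conj_smul])
    exact ⟨g * b * g⁻¹, by simpa using mem_conj_smul.mp hb,
      by rw [← conj_smul_centralizer_singleton, h3]⟩
  have hT2' : ∀ (g : S), ∀ t ∈ MulAut.conj g • T, t ^ 2 = 1 := fun g t ht => by
    obtain ⟨u, hu, rfl⟩ := mem_conj_smul_iff_exists.mp ht
    rw [conj_pow, hT2 u hu, mul_one, mul_inv_cancel]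
  set N := normalizer (T : Set S) with hN
  have hTN : T ≤ N := le_normalizer
  have h1 : ∀ f, f ∉ T → Nat.card (T ⊓ centralizer ({f} : Set S) : Subgroup S) ≤ 4 :=
    fun f hf => not_lt.mp fun h => by
      obtain ⟨b, hb, h2⟩ := hX _ inf_le_left h
      exact hf (h2 ▸ mem_centralizer_singleton_iff.mpr (mem_centralizer_singleton_iff.mp hb.2).symm)
  have h2 : T.relIndex N ≤ 4 := by
    obtain ⟨M, -, hMT, hNM, -, hM⟩ := exists_invariant_step_down (hS.to_subgroup N)
      (hS.to_subgroup T) (M := ⊥) le_normalizer_of_normal le_rfl (bot_lt_iff_ne_bot.mpr (by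
        rintro rfl; simp at hT))
    obtain ⟨b, hb, h3⟩ := hX M hMT.le (by omega)
    have h4 := prime_mul_card_le_of_lt (hS.to_subgroup M) (commutator_lt (hS.to_subgroup N)
      (hS.to_subgroup M) hNM (by rintro rfl; rw [card_bot] at hM; omega))
    have h5 := Lib.FT.BG4.relIndex_centralizer_le_card (S := ⁅N, M⁆)
      fun y (hy : y ∈ N) => commutator_mem_commutator hy hb
    rw [h3, commutator_comm] at h5
    omega
  have h3 : N.index ≤ 2 ∧ ∃ g : S, ∀ X ≤ N, (∀ x ∈ X, x ^ 2 = 1) →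
      X ≤ T ∨ X ≤ MulAut.conj g • T ∨ N = ⊤ := by
    by_cases hNt : N = ⊤
    · exact ⟨by rw [hNt, index_top]; norm_num, 1, fun _ _ _ => Or.inr (Or.inr hNt)⟩
    obtain ⟨g, hg1, hg2⟩ := SetLike.exists_of_lt
      (lt_inf_normalizer (isPGroup_top hS) (lt_top_iff_ne_top.mpr hNt))
    set F := MulAut.conj g • T with hF
    have hconj : ∀ h ∈ normalizer (N : Set S), MulAut.conj h • T ≤ N := fun h hh =>
      (conj_smul_mono h hTN).trans (conj_smul_eq_of_mem_normalizer hh).le
    have hFN : F ≤ N := hconj g hg1.2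
    have hF16 : Nat.card F = 16 := (card_conj_smul g T).trans hT
    have h4 : ¬ F ≤ T := fun h =>
      hg2 (mem_normalizer_iff_conj_smul_eq.mpr (eq_of_le_of_card_eq h (hF16.trans hT.symm)))
    have h5 : ∀ f ∈ F, T ⊓ F ≤ T ⊓ centralizer ({f} : Set S) := fun f hf x hx =>
      ⟨hx.1, mem_centralizer_singleton_iff.mpr (hc (hT2' g) x hx.2 f hf)⟩
    have h6 := card_sup_mul_card_inf hFN
    have h7 := card_le_of_le (sup_le hTN hFN)
    have h8 := relIndex_mul_card hTN
    obtain ⟨f₀, hf₀, hf₀'⟩ := SetLike.not_le_iff_exists.mp h4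
    have h9 := (card_le_of_le (h5 f₀ hf₀)).trans (h1 f₀ hf₀')
    rw [hT, hF16] at h6
    rw [hT] at h8
    have h10 : T ⊔ F = N := eq_of_le_of_card_eq (sup_le hTN hFN) (by nlinarith)
    have h11 : Nat.card (T ⊓ F : Subgroup S) = 4 := by nlinarith
    have h12 : ∀ X ≤ N, (∀ x ∈ X, x ^ 2 = 1) → X ≤ T ∨ X ≤ F := fun X hXN hX2 =>
      SubgroupClass.subset_union.mp fun x hx => by
        obtain ⟨t, ht, f, hf, rfl⟩ := (mem_sup_iff_of_le_normalizer hFN).mp (h10 ▸ hXN hx)
        by_cases hfT : f ∈ T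
        · exact Or.inl (T.mul_mem ht hfT)
        refine Or.inr (F.mul_mem (((eq_of_le_of_card_eq (h5 f hf) (le_antisymm
          (card_le_of_le (h5 f hf)) (h11 ▸ h1 f hfT))).ge 
          ⟨ht, mem_centralizer_singleton_iff.mpr ?_⟩).2) hf)
        have h13 := hX2 _ hx
        rw [sq] at h13
        rw [eq_inv_of_mul_eq_one_left h13, mul_inv_rev, inv_eq_of_mul_eq_one_right ((sq t).symm.trans (hT2 t ht)),
          inv_eq_of_mul_eq_one_right ((sq f).symm.trans (hT2' g f hf))]
    have h13 : ∀ h : S, 4 < Nat.card (MulAut.conj h • T ⊓ N : Subgroup S) → h ∈ N ∨ g⁻¹ * h ∈ N :=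
      fun h hh => by
      have h14 : ∀ u : S, MulAut.conj h • T ⊓ N ≤ MulAut.conj u • T → u⁻¹ * h ∈ N := fun u hu => by
        obtain ⟨b, hb, h15⟩ := hX' u _ hu hh
        rw [mem_normalizer_iff_conj_smul_eq, conj_mul_smul, conj_smul_eq_iff, inv_inv]
        exact eq_of_le_of_card_eq (fun x hx => h15 ▸ mem_centralizer_singleton_iff.mpr
          (hc (hT2' h) x hx b hb.1)) (by rw [card_conj_smul, card_conj_smul])
      exact (h12 _ inf_le_right fun x hx => hT2' h x hx.1).imp
        (fun h15 => by simpa using h14 1 (by rwa [conj_one_smul])) (h14 g)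
    have h14 : N.relIndex (normalizer (N : Set S)) = 2 :=
      relIndex_eq_two_iff_exists_notMem_and'.mpr ⟨g⁻¹, inv_mem hg1.2, fun h => hg2 (inv_mem_iff.mp h),
        fun h hh => (h13 h (by rw [inf_eq_left.mpr (hconj h hh), card_conj_smul]; omega)).symm⟩
    have h15 : normalizer (N : Set S) = ⊤ := by
      by_contra h16
      obtain ⟨h, hh1, hh2⟩ := SetLike.exists_of_lt
        (lt_inf_normalizer (isPGroup_top hS) (lt_top_iff_ne_top.mpr h16))
      have h17 : MulAut.conj h • T ≤ normalizer (N : Set S) :=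
        (conj_smul_mono h (hTN.trans le_normalizer)).trans (conj_smul_eq_of_mem_normalizer hh1.2).le
      have h18 := relIndex_le_of_le_right h17 (h14 ▸ two_ne_zero : N.relIndex _ ≠ 0)
      have h19 := relIndex_mul_card_inf N (MulAut.conj h • T)
      rw [card_conj_smul, hT, inf_comm] at h19
      refine hh2 ((h13 h (by nlinarith)).elim (fun h20 => le_normalizer h20) fun h20 => ?_)
      simpa using mul_mem hg1.2 (le_normalizer h20)
    rw [h15, relIndex_top_right] at h14
    exact ⟨h14.le, g, fun X h16 h17 => (h12 X h16 h17).imp_right Or.inl⟩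
  obtain ⟨h3, g, h4⟩ := h3
  refine secRank_of_le fun H K hKH h5 h6 => not_lt.mp fun h7 => ?_
  have h8 : ∀ (u : S), ∀ X ≤ H ⊓ MulAut.conj u • T, Nat.card X ≤ 4 := fun u X h9 =>
    not_lt.mp fun h10 => by
      obtain ⟨b, hb, h11⟩ := hX' u X (h9.trans inf_le_right) h10
      have h12 := (relIndex_le_card_centralizer hKH h5 (h9 hb).1).trans (card_le_of_le inf_le_left)
      rw [h11, card_conj_smul] at h12
      omega
  have h9 := h8 1 (T ⊓ H) (by rw [conj_one_smul, inf_comm])
  have h10 := relIndex_mul_card_inf T H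
  have h11 := relIndex_mul_card hKH
  have h12 := relIndex_mul_index hTN
  have h13 : T.relIndex H ≤ T.index :=
    relIndex_top_right T ▸ relIndex_le_of_le_right le_top (by
      rw [relIndex_top_right]; exact index_ne_zero_of_finite)
  have h14 : N.relIndex H ≤ N.index :=
    relIndex_top_right N ▸ relIndex_le_of_le_right le_top (by
      rw [relIndex_top_right]; exact index_ne_zero_of_finite)
  have h15 := relIndex_mul_card_inf N H
  have hK : 0 < Nat.card K := Nat.card_pos
  have h16 : T.index ≤ 8 := by nlinarith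
  have h17 : K = ⊥ := card_eq_one.mp (by nlinarith)
  rw [h17, relIndex_bot_left] at h7
  rcases h4 (N ⊓ H) inf_le_left (fun x hx => mem_bot.mp (h17 ▸ h6 x hx.2)) with h | h | h
  · have := h8 1 _ (le_inf inf_le_right (by rwa [conj_one_smul]))
    nlinarith
  · have := h8 g _ (le_inf inf_le_right h)
    nlinarith
  · rw [← h12, show N.index = 1 by rw [h, index_top]] at h13
    nlinarith

theorem secRank_of_prod (hS : IsPGroup 2 S) {T D B : Subgroup S}
    (hprod : IsInternalDirectProduct D B T) (hD : SectionalPRankLE 2 2 D)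
    (hD' : ∀ V ≤ D, Nat.card V = 4 → (∀ v ∈ V, v ^ 2 = 1) → D ⊓ centralizer (V : Set S) ≤ V)
    (hB : Nat.card B = 4) (hB2 : ∀ b ∈ B, b ^ 2 = 1)
    (hC : ∀ b ∈ B, b ≠ 1 → centralizer ({b} : Set S) = T) : SectionalPRankLE 2 4 S := by
  have : Fact (Nat.Prime 2) := ⟨Nat.prime_two⟩
  obtain ⟨hDT, hBT, hDB, hi, hs⟩ := hprod
  have hBD : B ≤ normalizer (D : Set S) := fun b hb => centralizer_le_normalizer _ fun d hd =>
    hDB d hd b hb
  have h1 : D.relIndex T ≤ 4 := by
    rw [← hs, relIndex_sup_of_le_normalizer hBD, ← hB]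
    exact Nat.le_of_dvd Nat.card_pos (relIndex_dvd_card D B)
  by_cases hT : T = ⊤
  · have : D.Normal := normal_of_top_le_normalizer (hT ▸ hs ▸ sup_le le_normalizer hBD)
    exact secRank_of_index_le D hD (b := 2) (by rwa [hT, relIndex_top_right] at h1)
  obtain ⟨g, -, hg1, hg2, hg3, -⟩ := exists_step_elt (P := ⊥) (hS.to_subgroup _) (isPGroup_top hS)
    bot_le bot_le (lt_top_iff_ne_top.mpr hT)
  let Z : Subgroup S :=
    { carrier := {w | w ∈ T ⊓ centralizer (T : Set S) ∧ w ^ 2 = 1}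
      mul_mem' := fun {a b} ha hb => ⟨mul_mem ha.1 hb.1, by
        rw [(show Commute a b from hb.1.2 a ha.1.1).mul_pow, ha.2, hb.2, one_mul]⟩
      one_mem' := ⟨one_mem _, one_pow 2⟩
      inv_mem' := fun {a} ha => ⟨inv_mem ha.1, by rw [inv_pow, ha.2, inv_one]⟩ }
  have hBZ : B ≤ Z := fun b hb => ⟨⟨hBT hb, fun t ht => by
    by_cases h : b = 1
    · simp [h]
    · exact mem_centralizer_singleton_iff.mp (hC b hb h ▸ ht)⟩, hB2 b hb⟩
  have hgZ : ∀ z ∈ Z, g * z * g⁻¹ ∈ Z := fun z hz => ⟨conj_mem_of_mem_normalizer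
    (PG.le_normalizer_inf le_rfl (PG.le_normalizer_centralizer le_rfl) hg2) hz.1, by
      rw [conj_pow, hz.2, mul_one, mul_inv_cancel]⟩
  have hZc : ∀ a ∈ Z, ∀ b ∈ Z, a * b = b * a := fun a ha b hb => hb.1.2 a ha.1.1
  set C := Z ⊓ centralizer ({g} : Set S)
  have h2 : C ⊓ B = ⊥ := eq_bot_iff.mpr fun b hb => by_contra fun h => hg1 (hC b hb.2 h ▸
    mem_centralizer_singleton_iff.mpr (mem_centralizer_singleton_iff.mp hb.1.2).symm)
  have h3 : 4 ≤ Nat.card C := by
    rw [← hB]
    refine Nat.card_le_card_of_injective (fun b : B => (⟨b * (g * b * g⁻¹),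
      mul_mem (hBZ b.2) (hgZ _ (hBZ b.2)), mem_centralizer_singleton_iff.mpr ?_⟩ : C)) ?_
    · have h4 : g ^ 2 * b = b * g ^ 2 := (hBZ b.2).1.2 _ hg3
      rw [hZc _ (hBZ b.2) _ (hgZ _ (hBZ b.2))]
      calc g * b * g⁻¹ * b * g = g * b * (g⁻¹ * (b * g ^ 2) * g⁻¹) := by group
        _ = g * (b * (g * b * g⁻¹)) := by rw [← h4]; group
        _ = _ := by rw [hZc _ (hBZ b.2) _ (hgZ _ (hBZ b.2))]
    · rintro ⟨b, hb⟩ ⟨b', hb'⟩ h
      have h4 : b * (g * b * g⁻¹) = b' * (g * b' * g⁻¹) := congrArg Subtype.val h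
      have h5 : b'⁻¹ * b ∈ C ⊓ B := ⟨⟨Z.mul_mem (Z.inv_mem (hBZ hb')) (hBZ hb),
        mem_centralizer_singleton_iff.mpr (by
          have h6 : b' * b⁻¹ = b'⁻¹ * b := by
            rw [inv_eq_of_mul_eq_one_right ((sq _).symm.trans (hB2 _ hb)),
              inv_eq_of_mul_eq_one_right ((sq _).symm.trans (hB2 _ hb'))]
          calc b'⁻¹ * b * g = b'⁻¹ * (b * (g * b * g⁻¹)) * g * b⁻¹ := by group
            _ = g * (b' * b⁻¹) := by rw [h4]; group
            _ = _ := by rw [h6])⟩, B.mul_mem (B.inv_mem hb') hb⟩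
      exact Subtype.ext (inv_mul_eq_one.mp (mem_bot.mp (h2 ▸ h5))).symm
  have h4 := card_sup_mul_card_inf (K := C) (H := B) fun b hb =>
    centralizer_le_normalizer _ fun c hc => hZc c hc.1 b (hBZ hb)
  have h5 := card_le_of_le (sup_le inf_le_left hBZ : C ⊔ B ≤ Z)
  have h6 := relIndex_mul_card_inf D Z
  have h7 := relIndex_le_of_le_right (H := D) (fun z hz => hz.1.1 : Z ≤ T) index_ne_zero_of_finite
  rw [h2, card_bot, hB] at h4
  obtain ⟨V, hV1, hV2⟩ := Sylow.exists_subgroup_le_card_pow_prime_of_le_card Nat.prime_two hS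
    (H := D ⊓ Z) (n := 2) (by nlinarith)
  have h8 : D ≤ V := fun d hd => hD' V (hV1.trans inf_le_left) hV2 (fun v hv => (hV1 hv).2.2)
    ⟨hd, fun v hv => ((hV1 hv).2.1.2 d (hDT hd)).symm⟩
  have h9 := card_le_of_le h8
  have h10 := relIndex_mul_card hDT
  have h11 : Z = T := eq_of_le_of_card_eq (fun z hz => hz.1.1)
    (le_antisymm (card_le_of_le fun z hz => hz.1.1) (by nlinarith))
  have h12 : Nat.card T = 16 := by rw [h11] at h5; nlinarith
  refine secRank_of_e16 hS h12 (fun t ht => (h11.ge ht).2) fun X hX hX4 => ?_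
  have h13 := card_sup_mul_card_inf (K := X) (H := B) fun b hb =>
    centralizer_le_normalizer _ fun c hc => hZc c (h11.ge (hX hc)) b (hBZ hb)
  have h14 := card_le_of_le (sup_le hX hBT)
  obtain ⟨b, hb, hb1⟩ := (bot_or_exists_ne_one (X ⊓ B)).resolve_left fun h => by
    rw [h, card_bot, hB] at h13; omega
  exact ⟨b, hb.1, hC b hb.2 hb1⟩

end


/-- Let G be a finite group, x an involution and T ≤ G a Sylow 2-subgroup of C_G(x) (T ≤ C_G(x) with |C_G(x) : T| odd) which is the internal direct product of a subgroup D that is dihedral (of order ≥ 4) or quasi-dihedral and a Klein four-subgroup B. Suppose that for every involution b ∈ B, T ≤ C_G(b) with |C_G(b) : T| odd. Then every section of G has 2-rank at most 4. -/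
theorem result {G : Type*} [Group G] [Finite G] (x : G) (hx : orderOf x = 2) (T D B : Subgroup G) (hT : IsPGroup 2 T) (hTx : T ≤ Subgroup.centralizer ({x} : Set G)) (hTxi : Odd (T.relIndex (Subgroup.centralizer ({x} : Set G)))) (hprod : Cfsg.IsInternalDirectProduct D B T) (hD : (∃ m : ℕ, 2 ≤ m ∧ Nonempty (D ≃* DihedralGroup m)) ∨ Cfsg.IsQuasiDihedral D) (hB : IsKleinFour B) (hTb : ∀ b ∈ B, orderOf b = 2 → T ≤ Subgroup.centralizer ({b} : Set G) ∧ Odd (T.relIndex (Subgroup.centralizer ({b} : Set G)))) : Cfsg.SectionalPRankLE 2 4 G := by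
  have : Fact (Nat.Prime 2) := ⟨Nat.prime_two⟩
  have hD1 : SectionalPRankLE 2 2 D ∧
      ∀ V : Subgroup D, Nat.card V = 4 → (∀ v ∈ V, v ^ 2 = 1) → centralizer (V : Set D) ≤ V := by
    rcases hD with ⟨m, hm, ⟨e⟩⟩ | hq
    · have : NeZero m := ⟨by omega⟩
      refine ⟨secRank_of_mulEquiv e ?_, fun V h4 h2 x hx => ?_⟩
      · have h1 : (zpowers (DihedralGroup.r 1 : DihedralGroup m)).index = 2 :=
          index_eq_of_card_eq_mul (by
            rw [DihedralGroup.nat_card, Nat.card_zpowers, DihedralGroup.orderOf_r_one])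
        have := normal_of_index_eq_two h1
        exact secRank_of_index_le (a := 1) (b := 1) _ (secRank_of_isCyclic two_pos) h1.le
      · obtain ⟨y, hy, hyx⟩ := S1236.dihedral_centralizer_le (T := V.map (e : _ →* DihedralGroup m))
          (by rw [card_map_of_injective e.injective, h4])
          (by rintro _ ⟨a, ha, rfl⟩; rw [← map_pow, h2 a ha, map_one]) (x := e x)
          (by rintro _ ⟨a, ha, rfl⟩; exact (map_mul e a x).symm.trans
                ((congrArg e (hx a ha)).trans (map_mul e x a)))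
        exact e.injective hyx ▸ hy
    · obtain ⟨m, hm, ⟨F⟩⟩ := exists_qdFrame hq
      refine ⟨?_, fun V h4 h2 => ?_⟩
      · have h1 : (F.rSub ⊤).index = 2 := index_eq_of_card_eq_mul (by
          rw [F.card_rSub, F.card_eq, AddSubgroup.card_top])
        have := normal_of_index_eq_two h1
        have := QD.isCyclic_rSub F ⊤
        exact secRank_of_index_le (a := 1) (b := 1) _ (secRank_of_isCyclic two_pos) h1.le
      · obtain ⟨v, rfl⟩ := (QD.isKleinFour_iff F).mp (isKleinFour_of_sq_eq_one h4 h2)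
        exact (QD.centralizer_sub_zero F _).le
  obtain ⟨P, hP⟩ := hT.exists_le_sylow
  obtain ⟨hDT, hBT, hDB, hi, hs⟩ := hprod
  have hB2 : ∀ b ∈ B, b ^ 2 = 1 := fun b hb =>
    congrArg Subtype.val (hB.exponent_two ▸ Monoid.pow_exponent_eq_one (⟨b, hb⟩ : B))
  refine secRank_of_sylow P (secRank_of_prod P.isPGroup' (T := T.subgroupOf P)
    (D := D.subgroupOf P) (B := B.subgroupOf P) ⟨subgroupOf_mono _ hDT, subgroupOf_mono _ hBT,
      fun a ha b hb => Subtype.ext (hDB a ha b hb), by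
        rw [subgroupOf, subgroupOf, ← comap_inf, hi, ← subgroupOf, bot_subgroupOf], by
        rw [← subgroupOf_sup (hDT.trans hP) (hBT.trans hP), hs]⟩
    (secRank_of_mulEquiv (subgroupOfEquivOfLe (hDT.trans hP)) hD1.1) (fun V hV h4 h2 x hx => ?_)
    ((card_subgroupOf_of_le (hBT.trans hP)).trans hB.card_four)
    (fun b hb => Subtype.ext (hB2 b hb)) fun b hb hb1 => ?_)
  · have h3 : V.map (P : Subgroup G).subtype ≤ D := map_le_iff_le_comap.mpr hV
    obtain ⟨y, hy, hyx⟩ := hD1.2 ((V.map (P : Subgroup G).subtype).subgroupOf D)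
      (by rw [card_subgroupOf_of_le h3, card_map_subtype, h4])
      (fun v ⟨w, hw, hwv⟩ => Subtype.ext ((congrArg (· ^ 2) hwv).symm.trans
        (congrArg Subtype.val (h2 w hw)))) (x := ⟨x, hx.1⟩) fun v ⟨w, hw, hwv⟩ =>
      Subtype.ext (by
        have h5 : (w : G) = v := hwv
        rw [coe_mul, coe_mul, ← h5]
        exact congrArg Subtype.val (hx.2 w hw))
    exact (Subtype.ext hyx : y = x) ▸ hy
  · obtain ⟨h1, h2⟩ := hTb b hb (orderOf_eq_prime (hB2 b hb) fun h => hb1 (Subtype.ext h))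
    have h3 : T ≤ (P : Subgroup G) ⊓ centralizer ({(b : G)} : Set G) := le_inf hP h1
    obtain ⟨n, hn⟩ := IsPGroup.exists_card_eq (P.isPGroup'.to_inf_left
      (K := centralizer ({(b : G)} : Set G)))
    have h4 := relIndex_eq_one.mp (Nat.eq_one_of_dvd_coprimes
      (Nat.Coprime.pow_left n (Nat.coprime_two_left.mpr h2)) (hn ▸ relIndex_dvd_card T _)
      (Dvd.intro _ (relIndex_mul_relIndex _ _ _ h3 inf_le_right)))
    ext y
    rw [mem_subgroupOf, mem_centralizer_singleton_iff]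
    exact ⟨fun h => h4 ⟨y.2, mem_centralizer_singleton_iff.mpr (congrArg Subtype.val h)⟩,
      fun h => Subtype.ext (mem_centralizer_singleton_iff.mp (h1 h))⟩

end Cfsg.Agent.S1235
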