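import Cfsg.Statements.S1313
import Cfsg.Agent.Trans.GenFitting

set_option autoImplicit false
open Cfsg

namespace Cfsg.Agent.S1313

open Cfsg.Lib Cfsg.Lib.Trans

open Subgroup
theorem card_mul_card_mulAut_le (F : Type*) [Group F] [Finite F] :
    Nat.card F * Nat.card (MulAut F) ≤ (Nat.card F).factorial := by
  rw [← Nat.card_prod, ← Nat.card_perm]
  refine Nat.card_le_card_of_injective
    (fun x : F × MulAut F => Equiv.mulLeft x.1 * (x.2 : Equiv.Perm F)) ?_
  rintro ⟨a, φ⟩ ⟨b, ψ⟩ h
  have h1 : a = b := by simpa using DFunLike.congr_fun h 1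
  subst h1
  have h2 := mul_left_cancel h
  refine Prod.ext rfl ?_
  ext x
  exact DFunLike.congr_fun h2 x

/-- For a finite group H, |H| ≤ |F*(H)|!. -/
theorem result {H : Type*} [Group H] [Finite H] : Nat.card H ≤ Nat.factorial (Nat.card ↥(Cfsg.generalizedFittingSubgroup H)) := by
  refine le_trans ?_ (card_mul_card_mulAut_le _)
  let φ := MulAut.conjNormal (H := generalizedFittingSubgroup H)
  rw [← φ.ker.card_mul_index, index_ker]
  refine Nat.mul_le_mul (card_le_of_le ?_) (Nat.card_le_card_of_injective _ Subtype.val_injective)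
  refine le_trans ?_ (centralizer_genFitting_le H)
  intro g hg k hk
  have h1 := congrArg Subtype.val (DFunLike.congr_fun (MonoidHom.mem_ker.1 hg) ⟨k, hk⟩)
  exact (mul_inv_eq_iff_eq_mul.1 h1).symm

end Cfsg.Agent.S1313
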