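import Cfsg.Statements.S1349
import Cfsg.Agent.Solv.ThompsonDihedral
import Cfsg.Agent.FT.BG1.Chief
import Cfsg.Agent.Local.Dihedral

set_option autoImplicit false
open Cfsg

namespace Cfsg.Agent.S1349

/-- Let G be finite, L ≤ G solvable of odd order, and A an elementary abelian 2-subgroup of order 2^d (d ≥ 1) normalizing L with C_A(L) = 1. Then there are subgroups A_1, …, A_d of A of order 2 generating A and subgroups L_1, …, L_d of L such that each A_i ⊔ L_i is dihedral of order 2 n_i with n_i odd and at least 3, and A_i ⊔ L_i commutes elementwise with A_j ⊔ L_j for i ≠ j. -/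
theorem result {G : Type*} [Group G] [Finite G] (L A : Subgroup G) (hLs : Group.IsSolvable ↥L) (hLodd : Odd (Nat.card ↥L)) (hA : Cfsg.IsElementaryAbelian 2 A) (d : ℕ) (hd : 1 ≤ d) (hAd : Nat.card ↥A = 2 ^ d) (hAL : A ≤ Subgroup.normalizer (L : Set G)) (hfaith : A ⊓ Subgroup.centralizer (L : Set G) = ⊥) : ∃ (Ai : Fin d → Subgroup G) (Li : Fin d → Subgroup G) (n : Fin d → ℕ), (∀ i, Ai i ≤ A ∧ Nat.card ↥(Ai i) = 2 ∧ Li i ≤ L ∧ Odd (n i) ∧ 3 ≤ n i ∧ Nonempty (↥(Ai i ⊔ Li i) ≃* DihedralGroup (n i))) ∧ (⨆ i, Ai i) = A ∧ ∀ i j, i ≠ j → ∀ x ∈ Ai i ⊔ Li i, ∀ y ∈ Ai j ⊔ Li j, x * y = y * x := by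
  open Subgroup Cfsg.Lib.Solv in
  have := hA.1
  have hcop : (Nat.card L).Coprime (Nat.card A) :=
    hAd ▸ Nat.Coprime.pow_right _ (Nat.coprime_two_right.mpr hLodd)
  obtain ⟨x, b, h1, h2, h3, h4, -, -, -⟩ := Coprime.exists_dihedral_family hA.2 d
    (K := Cfsg.fittingOf L) inferInstance (hLodd.of_dvd_nat (card_dvd_of_le (fittingOf_le L)))
    (hAL.trans (normalizer_le_normalizer_fittingOf L)) le_rfl hAd
    (Cfsg.Lib.FT.coprime_trivg_cent_Fitting hAL hcop hLs hfaith)
  have hodd : ∀ i, Odd (orderOf (x i)) := fun i =>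
    hLodd.of_dvd_nat (L.orderOf_dvd_natCard (fittingOf_le L (h1 i).1))
  have h3le : ∀ i, 3 ≤ orderOf (x i) := fun i => by
    have := (h1 i).2.1.two_le
    obtain ⟨k, hk⟩ := hodd i
    omega
  have hne : ∀ i, (x i)⁻¹ ≠ x i := fun i h => by
    have h1 : x i ^ 2 = 1 := by rw [sq]; nth_rw 1 [← h]; exact inv_mul_cancel _
    have := Nat.le_of_dvd two_pos (orderOf_dvd_of_pow_eq_one h1)
    have := h3le i
    omega
  have hb : ∀ i, orderOf (b i) = 2 := fun i => by
    refine orderOf_eq_prime (hA.2 _ (h1 i).2.2.1) fun h => hne i ?_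
    rw [← (h1 i).2.2.2.2, h]
    simp
  have hbb : ∀ i, b i * b i = 1 := fun i => by rw [← sq, hA.2 _ (h1 i).2.2.1]
  refine ⟨fun i => zpowers (b i), fun i => zpowers (x i), fun i => orderOf (x i), fun i =>
    ⟨zpowers_le.mpr (h1 i).2.2.1, by simpa using hb i, zpowers_le.mpr (fittingOf_le L (h1 i).1),
      hodd i, h3le i, ?_⟩, h4, fun i j hij => ?_⟩
  · have h5 : orderOf (b i * x i) = 2 := by
      refine orderOf_eq_prime ?_ fun h => ?_
      · have := (h1 i).2.2.2.2
        rw [inv_eq_of_mul_eq_one_left (hbb i)] at this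
        rw [sq, ← mul_assoc, this, inv_mul_cancel]
      · have h6 := hb i
        rw [eq_inv_of_mul_eq_one_left h, orderOf_inv] at h6
        have := h3le i
        omega
    have h6 := Cfsg.Lib.Local.dih_closure_mulEquiv (hb i) h5
    rw [← mul_assoc, hbb, one_mul] at h6
    have h7 : closure {b i, b i * x i} = zpowers (b i) ⊔ zpowers (x i) := by
      apply le_antisymm
      · rw [closure_le]
        rintro _ (rfl | rfl)
        · exact mem_sup_left (mem_zpowers _)
        · exact mul_mem_sup (mem_zpowers _) (mem_zpowers _)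
      · have h8 : b i ∈ closure {b i, b i * x i} := subset_closure (by simp)
        have h9 : b i * x i ∈ closure {b i, b i * x i} := subset_closure (by simp)
        exact sup_le (zpowers_le.mpr h8) (zpowers_le.mpr ((mul_mem_cancel_left h8).mp h9))
    exact h7 ▸ h6
  · have : zpowers (b i) ⊔ zpowers (x i) ≤
        centralizer ((zpowers (b j) ⊔ zpowers (x j) : Subgroup G) : Set G) := by
      refine sup_le (zpowers_le.mpr ?_) (zpowers_le.mpr ?_) <;>
      · refine zpowers_le.mp (le_centralizer_iff.mp (sup_le (zpowers_le.mpr ?_) (zpowers_le.mpr ?_)))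
        all_goals rw [zpowers_eq_closure, centralizer_closure, mem_centralizer_singleton_iff]
        all_goals first
          | exact setLike_mul_comm (s := A) (h1 j).2.2.1 (h1 i).2.2.1
          | exact (h3 i j hij).symm
          | exact h3 j i hij.symm
          | exact h2 j i
    exact fun y hy z hz => (this hy z hz).symm

end Cfsg.Agent.S1349
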