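import Cfsg.Statements.S1611
import Cfsg.Agent.Spor.Hexacode
import Cfsg.Agent.Spor.PermKitExtra

set_option autoImplicit false
open Cfsg

namespace Cfsg.Agent.S1611

open Cfsg.Lib.Spor Cfsg.Lib.Spor.PK Cfsg.Lib.Spor.Hexa Cfsg.Lib.Spor.Mono Cfsg.Lib.Spor.GF4

theorem diag_gf4 (c : Fin 6 → GF4ˣ) (h : ∀ x ∈ hexacode GF4 w, monomialMap 1 c x ∈ hexacode GF4 w)
    (i : Fin 6) : c i = c 0 := by
  obtain ⟨h1, h2, h3⟩ := mapsTo_iff.1 h
  rw [mem_iff] at h1 h2 h3
  have key : ∀ a b c d e f : GF4, d * 1 = a * 1 + b * 0 + c * 0 →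
      e * (w + 1) = (w + 1) * (a * 1) + w * (b * 0) + c * 0 →
      f * w = w * (a * 1) + (w + 1) * (b * 0) + c * 0 → d * 1 = a * 0 + b * 1 + c * 0 →
      d * 1 = a * 0 + b * 0 + c * 1 → b = a ∧ c = a ∧ d = a ∧ e = a ∧ f = a := by decide +kernel
  obtain ⟨k1, k2, k3, k4, k5⟩ := key (c 0) (c 1) (c 2) (c 3) (c 4) (c 5) h1.1 h1.2.1 h1.2.2 h2.1 h3.1
  apply Units.ext
  fin_cases i
  exacts [rfl, k1, k2, k3, k4, k5]

theorem swap_not_mem : Equiv.swap (0 : Fin 6) 1 ∉ permPart (hexacode GF4 w) := by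
  rintro ⟨c, h⟩
  obtain ⟨h1, h2, h3⟩ := mapsTo_iff.1 h
  rw [mem_iff] at h1 h2 h3
  have key : ∀ a b c d e : GF4, d ≠ 0 → d * 1 = a * 0 + b * 1 + c * 0 →
      e * (w + 1) = (w + 1) * (a * 0) + w * (b * 1) + c * 0 → d * 1 = a * 0 + b * 0 + c * 1 →
      e * 1 = (w + 1) * (a * 0) + w * (b * 0) + c * 1 → False := by decide +kernel
  exact key (c 0) (c 1) (c 2) (c 3) (c 4) (c 3).ne_zero h1.1 h1.2.1 h3.1 h3.2.1

/-- First generator. -/
def g1 : Equiv.Perm (Fin 6) := ⟨![1, 2, 0, 3, 4, 5], ![2, 0, 1, 3, 4, 5], by decide, by decide⟩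

/-- Second generator. -/
def g2 : Equiv.Perm (Fin 6) := ⟨![0, 2, 3, 4, 5, 1], ![0, 5, 1, 2, 3, 4], by decide, by decide⟩

/-- The primitive element as a unit. -/
def u : GF4ˣ := ⟨w, w + 1, by decide, by decide⟩

theorem g1_mem : g1 ∈ permPart (hexacode GF4 w) :=
  ⟨![1, 1, 1, 1, u⁻¹, u], mapsTo_iff.2 (by decide +kernel)⟩

theorem g2_mem : g2 ∈ permPart (hexacode GF4 w) :=
  ⟨![1, u⁻¹, u, u⁻¹, 1, u], mapsTo_iff.2 (by decide +kernel)⟩

/-- A stabiliser chain certificate. -/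
def hxCert : List Cfsg.Lib.Spor.PK.Cert :=
  [⟨0, [128, 64, 321, 257, 193], [[0, 0, 1, 1, 0, 1, 1, 0, 0], [0, 1, 0]]⟩,
   ⟨1, [192, 129, 320, 257], [[1, 0, 1, 1, 0], [1, 1, 1, 1, 0]]⟩,
   ⟨2, [256, 193, 320], [[0, 1]]⟩,
   ⟨3, [320, 256], []⟩]

theorem dens : Dens 7 6 (Fin.ofNat 6) [encL 7 [1, 2, 0, 3, 4, 5], encL 7 [0, 2, 3, 4, 5, 1]]
    [g1, g2] :=
  List.Forall₂.cons (den_encL (ctx_fin 7 6 (by norm_num) (by norm_num) (by norm_num)) rfl
    (by decide +kernel)) (List.Forall₂.cons (den_encL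
      (ctx_fin 7 6 (by norm_num) (by norm_num) (by norm_num)) rfl (by decide +kernel))
      List.Forall₂.nil)

theorem card_alt : Nat.card (alternatingGroup (Fin 6)) = 360 := by
  have := two_mul_nat_card_alternatingGroup (α := Fin 6)
  rw [Nat.card_perm, Nat.card_fin] at this
  have h : Nat.factorial 6 = 720 := rfl
  omega

theorem permPart_gf4 : permPart (hexacode GF4 w) = alternatingGroup (Fin 6) := by
  have h1 : gen [g1, g2] ≤ permPart (hexacode GF4 w) := by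
    rw [Subgroup.closure_le]
    intro g hg
    rcases List.mem_pair.1 hg with rfl | rfl
    exacts [g1_mem, g2_mem]
  have h2 : gen [g1, g2] = alternatingGroup (Fin 6) :=
    (chain_of_chkLow (ctx_fin 7 6 (by norm_num) (by norm_num) (by norm_num)) (cert := hxCert) dens
      (by decide +kernel) (fun g hg => by
        rw [Equiv.Perm.mem_alternatingGroup]
        rcases List.mem_pair.1 hg with rfl | rfl <;> decide +kernel)
      (by rw [card_alt]; decide +kernel)).1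
  rw [h2] at h1
  have h3 := Subgroup.index_dvd_of_le h1
  rw [alternatingGroup.index_eq_two] at h3
  rcases (Nat.dvd_prime Nat.prime_two).1 h3 with h | h
  · exact absurd (Subgroup.index_eq_one.1 h ▸ Subgroup.mem_top _) swap_not_mem
  · exact Equiv.Perm.eq_alternatingGroup_of_index_eq_two h

/-- The monomial automorphism group of the hexacode has order 1080: its diagonal part is the scalars and its permutation parts form the alternating group of degree 6. -/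
theorem result (F : Type*) [Field F] [Fintype F] [DecidableEq F] (hF : Fintype.card F = 4) (ω : F) (hω : ω ^ 2 + ω + 1 = 0) : Nat.card {f : Equiv.Perm (Fin 6) × (Fin 6 → Fˣ) // (∀ x ∈ Cfsg.hexacode F ω, Cfsg.monomialMap f.1 f.2 x ∈ Cfsg.hexacode F ω)} = 1080 ∧ (∀ c : Fin 6 → Fˣ, (∀ x ∈ Cfsg.hexacode F ω, Cfsg.monomialMap 1 c x ∈ Cfsg.hexacode F ω) → ∀ i j, c i = c j) ∧ {σ : Equiv.Perm (Fin 6) | ∃ c : Fin 6 → Fˣ, (∀ x ∈ Cfsg.hexacode F ω, Cfsg.monomialMap σ c x ∈ Cfsg.hexacode F ω)} = (alternatingGroup (Fin 6) : Set (Equiv.Perm (Fin 6))) := by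
  obtain ⟨e, he⟩ := exists_ringEquiv hF hω
  have hd : ∀ c : Fin 6 → Fˣ, (∀ x ∈ Cfsg.hexacode F ω, Cfsg.monomialMap 1 c x ∈ Cfsg.hexacode F ω) →
      ∀ i, c i = c 0 := by
    intro c hc i
    obtain ⟨d, rfl⟩ := exists_units e c
    rw [mapsTo_transport e he] at hc
    simp only [diag_gf4 d hc i]
  have hp : permPart (hexacode F ω) = alternatingGroup (Fin 6) := by
    rw [← permPart_gf4]
    ext σ
    constructor
    · rintro ⟨c, hc⟩
      obtain ⟨d, rfl⟩ := exists_units e c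
      exact ⟨d, (mapsTo_transport e he σ d).1 hc⟩
    · rintro ⟨d, hd⟩
      exact ⟨_, (mapsTo_transport e he σ d).2 hd⟩
  refine ⟨?_, fun c hc i j => (hd c hc i).trans (hd c hc j).symm,
    congrArg (fun H : Subgroup (Equiv.Perm (Fin 6)) => (H : Set (Equiv.Perm (Fin 6)))) hp⟩
  have h3 : Nat.card {c : Fin 6 → Fˣ // ∀ x ∈ hexacode F ω, monomialMap 1 c x ∈ hexacode F ω} =
      Nat.card Fˣ := by
    apply Nat.card_eq_of_bijective (fun c => c.1 0)
    constructor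
    · rintro ⟨c, hc⟩ ⟨d, hd'⟩ h
      apply Subtype.ext
      funext i
      exact (hd c hc i).trans (h.trans (hd d hd' i).symm)
    · intro a
      exact ⟨⟨fun _ => a, fun x hx => (hexacode F ω).smul_mem (a : F) hx⟩, rfl⟩
  rw [card_monomial, hp, card_alt, h3, Nat.card_units, Nat.card_eq_fintype_card, hF]

end Cfsg.Agent.S1611
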