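import Cfsg.Statements.S5560
import Cfsg.Agent.S1187
import Cfsg.Agent.S0007

set_option autoImplicit false
open Cfsg

namespace Cfsg.Agent.S5560

theorem exists_inv {G : Type*} [Group G] [Finite G] (z : G) (hz : Cfsg.IsIsolatedInvolution z) (q : ℕ)
    [Fact q.Prime] : ∃ P : Sylow q G, z ∈ Subgroup.normalizer ((P : Subgroup G) : Set G) := by
  obtain ⟨Q, hQ, hmax⟩ := Set.Finite.exists_maximal (Set.toFinite {Q : Subgroup G | IsPGroup q Q ∧
    z ∈ Subgroup.normalizer (Q : Set G)}) ⟨⊥, IsPGroup.of_bot, by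
      rw [Subgroup.normalizer_eq_top_iff.2 inferInstance]; trivial⟩
  obtain ⟨P, hP⟩ := Cfsg.Agent.S1187.result z hz Q hQ.1 hQ.2
    (fun R h1 h2 h3 => le_antisymm (hmax ⟨h1, h2⟩ h3) h3)
  exact ⟨P, hP ▸ hQ.2⟩

/-- A Z*-type result for an odd prime p. Let G be a finite group and d an involution of G such that the product of any two conjugates of d has order a power of p. Then the product of any two conjugates of d lies in the largest normal p-subgroup O_p(G); in other words the conjugacy class of d lies in the coset O_p(G)d, and d is central modulo O_p(G). -/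
theorem result {G : Type*} [Group G] [Finite G] {p : ℕ} (hp : p.Prime) (hp2 : p ≠ 2)
    (d : G) (hd : orderOf d = 2)
    (hprod : ∀ a ∈ conjugatesOf d, ∀ b ∈ conjugatesOf d, ∃ k : ℕ, orderOf (a * b) = p ^ k) :
    ∀ a ∈ conjugatesOf d, ∀ b ∈ conjugatesOf d, a * b ∈ Cfsg.pCore p G := by
  have : Fact p.Prime := ⟨hp⟩
  have hdd : d * d = 1 := by rw [← pow_two, ← hd, pow_orderOf_eq_one]
  have hdi : d⁻¹ = d := inv_eq_of_mul_eq_one_right hdd
  have hc : ∀ g : G, g * d * g⁻¹ ∈ conjugatesOf d := fun g => isConj_iff.2 ⟨g, rfl⟩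
  have key : ∀ (q : ℕ) (g : G), q.Prime → q ≠ p → ∀ n : ℕ, (d * (g * d * g⁻¹)) ^ q ^ n = 1 →
      g * d * g⁻¹ = d := by
    intro q g hq hqp n h
    obtain ⟨k, hk⟩ := hprod d (IsConj.refl d) _ (hc g)
    have h1 := orderOf_dvd_of_pow_eq_one h
    rw [hk] at h1
    have h2 : p ^ k = 1 := Nat.Coprime.eq_one_of_dvd
      (Nat.Coprime.pow _ _ ((Nat.coprime_primes hp hq).2 hqp.symm)) h1
    rw [h2, orderOf_eq_one_iff] at hk
    exact (eq_inv_of_mul_eq_one_right hk).trans hdi
  have hz : Cfsg.IsIsolatedInvolution d := ⟨hd, fun g h => key 2 g Nat.prime_two hp2.symm 1 (by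
    rw [pow_one, h.mul_pow, conj_pow, ← hd, pow_orderOf_eq_one]; simp)⟩
  have hn : ∀ (P : Subgroup G), d ∈ Subgroup.normalizer (P : Set G) → ∀ x ∈ P, d * (x * d * x⁻¹) ∈ P := by
    intro P hP x hx
    have := P.mul_mem ((Subgroup.mem_normalizer_iff.1 hP x).1 hx) (P.inv_mem hx)
    rwa [hdi, mul_assoc, mul_assoc, ← mul_assoc x] at this
  obtain ⟨P, hP⟩ := exists_inv d hz p
  have hcop : (P : Subgroup G).index.Coprime (Subgroup.centralizer {d}).index := by
    refine Nat.coprime_of_dvd fun q hq h1 h2 => ?_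
    have : Fact q.Prime := ⟨hq⟩
    have hqp : q ≠ p := by rintro rfl; exact P.not_dvd_index h1
    obtain ⟨Q, hQ⟩ := exists_inv d hz q
    have hle : (Q : Subgroup G) ≤ Subgroup.centralizer {d} := by
      intro x hx
      obtain ⟨n, h⟩ := Q.isPGroup' ⟨_, hn _ hQ x hx⟩
      have := key q x hq hqp n (congrArg Subtype.val h)
      rw [Subgroup.mem_centralizer_singleton_iff]
      exact mul_inv_eq_iff_eq_mul.1 this
    exact Q.not_dvd_index (h2.trans (Subgroup.index_dvd_of_le hle))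
  have hD : ∀ a ∈ conjugatesOf d, d * a ∈ (P : Subgroup G) := by
    intro a ha
    obtain ⟨g, rfl⟩ := isConj_iff.1 ha
    obtain ⟨x, hx, y, hy, rfl⟩ := (Cfsg.Agent.S0007.result _ _ hcop).2 g
    rw [Subgroup.mem_centralizer_singleton_iff] at hy
    have : x * y * d * (x * y)⁻¹ = x * d * x⁻¹ := by rw [mul_assoc x y, hy]; group
    rw [this]; exact hn _ hP x hx
  have hDD : ∀ a ∈ conjugatesOf d, ∀ b ∈ conjugatesOf d, a * b ∈ (P : Subgroup G) := by
    intro a ha b hb
    have h1 := Subgroup.mul_mem _ (Subgroup.inv_mem _ (hD a ha)) (hD b hb)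
    obtain ⟨g, rfl⟩ := isConj_iff.1 ha
    convert h1 using 1
    simp only [mul_inv_rev, inv_inv, hdi]
    calc g * d * g⁻¹ * b = g * d * g⁻¹ * (d * d) * b := by rw [hdd, mul_one]
      _ = _ := by group
  intro a ha b hb
  refine (le_sSup (s := {N : Subgroup G | N.Normal ∧ IsPGroup p N}) (a := (P : Subgroup G).normalCore)
    ⟨inferInstance, P.isPGroup'.to_le (Subgroup.normalCore_le _)⟩) fun g => ?_
  have := hDD (g * a * g⁻¹) (IsConj.trans ha (isConj_iff.2 ⟨g, rfl⟩)) (g * b * g⁻¹)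
    (IsConj.trans hb (isConj_iff.2 ⟨g, rfl⟩))
  convert this using 1; group

end Cfsg.Agent.S5560
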