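import Cfsg.Statements.S1617
import Cfsg.Agent.Spor.PT3
import Cfsg.Agent.S0200
import Cfsg.Agent.S0205
import Cfsg.Agent.S0215
import Cfsg.Agent.S0216

set_option autoImplicit false
open Cfsg

namespace Cfsg.Agent.S1617

open Cfsg.Lib.Spor in
theorem core {G : Type*} [Group G] [Finite G] (hsol : ∀ N : Subgroup G, N.Normal → Group.IsSolvable ↥N → N = ⊥)
    {D : Set G} (hinv : ∀ d ∈ D, orderOf d = 2) (hgen : Subgroup.closure D = ⊤)
    (inv : ∀ g : G, ∀ d ∈ D, g * d * g⁻¹ ∈ D) {x y z : G} (hx : x ∈ D) (hy : y ∈ D) (hne : x ≠ y)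
    (c : Commute x y) (pair : ∀ a ∈ D, ∀ b ∈ D, ∃ g : G, g * x * g⁻¹ = a ∧
      (g * x * g⁻¹ = b ∨ g * y * g⁻¹ = b ∨ g * z * g⁻¹ = b)) : Cfsg.IsThreeTranspositionSet D := by
  have sq : ∀ d ∈ D, d * d = 1 := fun d hd => by rw [← pow_two, ← hinv d hd, pow_orderOf_eq_one]
  have two : ∀ N : Subgroup G, N.Normal → IsPGroup 2 N → N = ⊥ := fun N h1 h2 =>
    have := h2.isNilpotent
    hsol N h1 inferInstance
  have nc : ∀ a ∈ D, ∀ b ∈ D, ¬ Commute a b → ∃ g : G, g * x * g⁻¹ = a ∧ g * z * g⁻¹ = b := fun a ha b hb n => by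
    obtain ⟨g, rfl, rfl | rfl | rfl⟩ := pair a ha b hb
    exacts [absurd (Commute.refl _) n, absurd (c.conj g) n, ⟨g, rfl, rfl⟩]
  obtain ⟨u, u1, u2, u3⟩ := Cfsg.Agent.S0200.result x (hinv x hx) fun N h1 h2 h => by
    rw [two N h1 h2, Subgroup.mem_bot] at h
    simpa [h] using hinv x hx
  obtain ⟨p, hp, hd⟩ := Nat.exists_prime_and_dvd (mt orderOf_eq_one_iff.1 u1)
  have h2 : p ≠ 2 := by rintro rfl; exact (Nat.not_even_iff_odd.2 u2) (even_iff_two_dvd.2 hd)
  have v1 := orderOf_pow_orderOf_div (orderOf_pos u).ne' hd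
  have v3 : x * u ^ (orderOf u / p) * x⁻¹ = (u ^ (orderOf u / p))⁻¹ := by rw [← conj_pow, u3, inv_pow]
  generalize u ^ (orderOf u / p) = v at v1 v3
  have v2 : v ^ p = 1 := v1 ▸ pow_orderOf_eq_one v
  have e : x * (v * x * v⁻¹) = (v * v)⁻¹ := by
    rw [mul_inv_rev, ← mul_assoc, ← mul_assoc, ← v3, inv_eq_of_mul_eq_one_right (sq x hx)]
  have n : ¬ Commute x (v * x * v⁻¹) := fun k => by
    have := k.mul_pow 2
    rw [e, pow_two x, pow_two (v * x * v⁻¹), sq x hx, sq _ (inv v x hx), mul_one, inv_pow, inv_eq_one, ← pow_two,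
      ← pow_mul] at this
    have := orderOf_dvd_of_pow_eq_one this
    rw [v1] at this
    exact h2 ((Nat.prime_dvd_prime_iff_eq hp Nat.prime_two).1 (hp.dvd_of_dvd_pow (n := 2) this))
  have hz : (x * z) ^ p = 1 := by
    obtain ⟨g, g1, g2⟩ := nc _ hx _ (inv v x hx) n
    have : (g * (x * z) * g⁻¹) ^ p = 1 := by
      rw [show g * (x * z) * g⁻¹ = g * x * g⁻¹ * (g * z * g⁻¹) by group, g1, g2, e, inv_pow, ← pow_two, ← pow_mul,
        mul_comm, pow_mul, v2]; simp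
    rwa [conj_pow, conj_eq_one_iff] at this
  have h : PT p D := ⟨hp, h2, sq, fun d hd e he => by
    simpa only [inv_eq_of_mul_eq_one_right (sq d hd)] using inv d e he, fun d hd e he n => by
      obtain ⟨g, rfl, rfl⟩ := nc d hd e he n
      rw [show g * x * g⁻¹ * (g * z * g⁻¹) = g * (x * z) * g⁻¹ by group, conj_pow, hz]; simp⟩
  by_cases h3 : p = 3
  · subst h3
    refine ⟨hinv, fun d hd e he => ?_⟩
    by_cases k : Commute d e
    · exact Or.inl (sq_of_commute (sq d hd) (sq e he) k)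
    · exact Or.inr (h.pow d hd e he k)
  have := h.mul_mem_pCore h3 hgen (fun a ha b hb => by
    obtain ⟨g, rfl, -⟩ := pair a ha a ha
    obtain ⟨g', rfl, -⟩ := pair b hb b hb
    exact ⟨g' * g⁻¹, by group⟩) inv (fun a ha b hb a' ha' b' hb' n n' => by
    obtain ⟨g, rfl, rfl⟩ := nc a ha b hb n
    obtain ⟨g', rfl, rfl⟩ := nc a' ha' b' hb' n'
    exact ⟨g' * g⁻¹, by group, by group⟩) hx hy c
  rw [two _ inferInstance (Cfsg.Lib.Solv.pCore_isPGroup 2 G), Subgroup.mem_bot] at this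
  exact absurd (by rw [eq_inv_of_mul_eq_one_left this, h.inv hy]) hne

/-- A generating conjugacy class of involutions on which the group (with trivial solvable radical) acts with rank 3 is a class of 3-transpositions. -/
theorem result {G : Type*} [Group G] [Finite G] (hsol : ∀ N : Subgroup G, N.Normal → Group.IsSolvable ↥N → N = ⊥) {D : Set G} (hinv : ∀ d ∈ D, orderOf d = 2) (hconj : ∃ d ∈ D, D = conjugatesOf d) (hgen : Subgroup.closure D = ⊤) (hrank : ∀ x ∈ D, ∃ y ∈ D, ∃ z ∈ D, {w : G | ∃ g : G, Commute g x ∧ g * y * g⁻¹ = w} ≠ {w : G | ∃ g : G, Commute g x ∧ g * x * g⁻¹ = w} ∧ {w : G | ∃ g : G, Commute g x ∧ g * z * g⁻¹ = w} ≠ {w : G | ∃ g : G, Commute g x ∧ g * x * g⁻¹ = w} ∧ {w : G | ∃ g : G, Commute g x ∧ g * y * g⁻¹ = w} ≠ {w : G | ∃ g : G, Commute g x ∧ g * z * g⁻¹ = w} ∧ D = {w : G | ∃ g : G, Commute g x ∧ g * x * g⁻¹ = w} ∪ {w : G | ∃ g : G, Commute g x ∧ g * y * g⁻¹ = w} ∪ {w : G | ∃ g : G, Commute g x ∧ g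 * z * g⁻¹ = w}) : Cfsg.IsThreeTranspositionClass D := by
  open Cfsg.Lib.Spor in
  refine ⟨?_, hconj, hgen⟩
  obtain ⟨x, hx, hD⟩ := hconj
  have inv : ∀ g : G, ∀ d ∈ D, g * d * g⁻¹ ∈ D := fun g d hd => by
    rw [hD] at hd ⊢
    exact IsConj.trans hd (isConj_iff.2 ⟨g, rfl⟩)
  have sq : ∀ d ∈ D, d * d = 1 := fun d hd => by rw [← pow_two, ← hinv d hd, pow_orderOf_eq_one]
  obtain ⟨y, hy, z, hz, h1, h2, -, h4⟩ := hrank x hx
  have pair : ∀ a ∈ D, ∀ b ∈ D, ∃ g : G, g * x * g⁻¹ = a ∧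
      (g * x * g⁻¹ = b ∨ g * y * g⁻¹ = b ∨ g * z * g⁻¹ = b) := fun a ha b hb => by
    obtain ⟨g, rfl⟩ := isConj_iff.1 (hD ▸ ha : a ∈ conjugatesOf x)
    have k : ∀ {h t : G}, Commute h x → h * t * h⁻¹ = g⁻¹ * b * g⁻¹⁻¹ →
        g * h * x * (g * h)⁻¹ = g * x * g⁻¹ ∧ g * h * t * (g * h)⁻¹ = b := fun {h t} c e => by
      constructor
      · rw [mul_assoc g, c.eq]; group
      · calc g * h * t * (g * h)⁻¹ = g * (h * t * h⁻¹) * g⁻¹ := by group
          _ = b := by rw [e]; group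
    rcases h4.le (inv g⁻¹ b hb) with (⟨h, c, e⟩ | ⟨h, c, e⟩) | ⟨h, c, e⟩
    exacts [⟨_, (k c e).1, Or.inl (k c e).2⟩, ⟨_, (k c e).1, Or.inr (Or.inl (k c e).2)⟩,
      ⟨_, (k c e).1, Or.inr (Or.inr (k c e).2)⟩]
  by_cases cy : Commute x y
  · exact core hsol hinv hgen inv hx hy (by rintro rfl; exact h1 rfl) cy pair
  by_cases cz : Commute x z
  · exact core hsol hinv hgen inv hx hz (by rintro rfl; exact h2 rfl) cz fun a ha b hb =>
      (pair a ha b hb).imp fun g h => ⟨h.1, h.2.imp_right Or.symm⟩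
  have nar : ∀ a ∈ D, Commute x a → a = x := fun a ha c => by
    obtain ⟨g, e, rfl | rfl | rfl⟩ := pair x hx a ha
    · exact e
    · exact absurd (by rw [← e] at c; simpa [mul_assoc] using c.conj g⁻¹) cy
    · exact absurd (by rw [← e] at c; simpa [mul_assoc] using c.conj g⁻¹) cz
  obtain ⟨P, hP⟩ := (IsPGroup.of_card (p := 2) (n := 1) ((Nat.card_zpowers x).trans (hinv x hx))).exists_le_sylow
  have hxP := hP (Subgroup.mem_zpowers x)
  obtain ⟨N, h1, h2, h3⟩ := Cfsg.Agent.S0215.result P x (hinv x hx) hxP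
    ((Cfsg.Agent.S0216.result P x (hinv x hx) hxP).2 fun g => by
      rw [← Nat.not_even_iff_odd]
      rintro ⟨m, hm⟩
      have he := inv g x hx
      have hxi := inv_eq_of_mul_eq_one_right (sq x hx)
      rw [hxi, mul_assoc, mul_assoc, ← mul_assoc g] at hm
      generalize g * x * g⁻¹ = e at he hm
      have k := line_mem_of sq (fun d hd e he => by
        simpa only [inv_eq_of_mul_eq_one_right (sq d hd)] using inv d e he) hx he m
      have hei := inv_eq_of_mul_eq_one_right (sq e he)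
      have o : orderOf (e * x) = m + m := by rw [← hm, ← orderOf_inv, mul_inv_rev, hxi, hei]
      have t : (e * x) ^ m * (e * x) ^ m = 1 := by rw [← pow_add, ← o, pow_orderOf_eq_one]
      have := nar _ k (commute_of_invol_sq (sq _ k) (sq x hx) (by
        rw [mul_assoc, sq x hx, mul_one, pow_two, t])).symm
      have := Nat.le_of_dvd (by have := orderOf_pos (e * x); omega)
        (orderOf_dvd_of_pow_eq_one (mul_eq_right.1 this))
      have := orderOf_pos (e * x)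
      omega)
  rw [hsol N h1 (Cfsg.Agent.S0205.result h2)] at h3
  have : x ∈ Subgroup.center G := Subgroup.mem_center_iff.2 fun g => by
    have := Subgroup.mem_bot.1 (h3 g)
    rw [mul_inv_eq_one, mul_inv_eq_iff_eq_mul] at this
    exact this.symm
  rw [hsol _ inferInstance (isSolvable_center G), Subgroup.mem_bot] at this
  simpa [this] using hinv x hx

end Cfsg.Agent.S1617
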