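import Cfsg.Statements.S1618
import Cfsg.Agent.S5560
import Cfsg.Agent.Solv.Cores

set_option autoImplicit false
open Cfsg

namespace Cfsg.Agent.S1618

/-- A group generated by a class of involutions whose pairwise products (of distinct members) have p-power order for a fixed odd prime p has nilpotent derived subgroup. -/
theorem result {G : Type*} [Group G] [Finite G] (p : ℕ) (hp : p.Prime) (hodd : p ≠ 2) {D : Set G} (hinv : ∀ d ∈ D, orderOf d = 2) (hconj : ∃ d ∈ D, D = conjugatesOf d) (hgen : Subgroup.closure D = ⊤) (hprod : ∀ x ∈ D, ∀ y ∈ D, x ≠ y → ∃ k : ℕ, orderOf (x * y) = p ^ k) : Group.IsNilpotent ↥(commutator G) := by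
  have : Fact p.Prime := ⟨hp⟩
  obtain ⟨d, hd, rfl⟩ := hconj
  have h := Cfsg.Agent.S5560.result hp hodd d (hinv d hd) (fun a ha b hb => by
    by_cases e : a = b
    · subst e
      exact ⟨0, by rw [← pow_two, ← hinv a ha, pow_orderOf_eq_one, orderOf_one, pow_zero]⟩
    · exact hprod a ha b hb e)
  have hle : commutator G ≤ Cfsg.pCore p G := by
    rw [← (QuotientGroup.ker_mk' (Cfsg.pCore p G))]
    have hz : ∀ g : G, QuotientGroup.mk' (Cfsg.pCore p G) g ∈
        Subgroup.zpowers (QuotientGroup.mk' (Cfsg.pCore p G) d) := by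
      intro g
      have hg : g ∈ Subgroup.closure (conjugatesOf d) := hgen ▸ Subgroup.mem_top g
      refine (Subgroup.closure_le (K := (Subgroup.zpowers _).comap _)).2 (fun a ha => ?_) hg
      have h1 : QuotientGroup.mk' (Cfsg.pCore p G) (d * a) = 1 :=
        (QuotientGroup.eq_one_iff _).2 (h d hd a ha)
      rw [map_mul] at h1
      rw [SetLike.mem_coe, Subgroup.mem_comap, eq_inv_of_mul_eq_one_right h1]
      exact Subgroup.inv_mem _ (Subgroup.mem_zpowers _)
    rw [commutator_def, Subgroup.commutator_le]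
    intro a _ b _
    rw [MonoidHom.mem_ker, map_commutatorElement, commutatorElement_eq_one_iff_commute]
    obtain ⟨i, hi⟩ := hz a
    obtain ⟨j, hj⟩ := hz b
    rw [← hi, ← hj]
    exact Commute.zpow_zpow_self _ _ _
  exact ((Cfsg.Lib.Solv.pCore_isPGroup p G).to_le hle).isNilpotent

end Cfsg.Agent.S1618
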