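import Cfsg.Statements.S1892
import Cfsg.Agent.Solv.CoprimeFixed
import Cfsg.Agent.Solv.PSolvable

set_option autoImplicit false
open Cfsg

open Subgroup Cfsg.Lib.Solv
open scoped commutatorElement

namespace Cfsg.Agent.S1892

/-- Let S be a finite p-solvable group with no nontrivial normal subgroup of order prime to p, A a p-subgroup of S, and Q a nontrivial A-invariant subgroup of order prime to p with [A, Q] = Q. Then the commutator [O_p(S), A, Q] is nontrivial. -/
theorem result {S : Type*} [Group S] [Finite S] {p : ℕ} [Fact p.Prime]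
    (hS : Cfsg.IsPSolvable p S) (hred : Cfsg.pPrimeCore p S = ⊥)
    (A Q : Subgroup S) (hA : IsPGroup p A) (hQ : ¬ p ∣ Nat.card Q) (hQ1 : Q ≠ ⊥)
    (hinv : ∀ a ∈ A, ∀ x ∈ Q, a * x * a⁻¹ ∈ Q) (hAQ : ⁅A, Q⁆ = Q) :
    ⁅⁅Cfsg.pCore p S, A⁆, Q⁆ ≠ ⊥ := by
  intro h
  set P := pCore p S with hP
  have hPn : P.Normal := pCore_normal p S
  have h1 : ⁅P, A⁆ ≤ centralizer (Q : Set S) := commutator_eq_bot_iff_le_centralizer.mp h
  let K : Subgroup S :=
    { carrier := {g | ∀ x ∈ P, x⁻¹ * (g * x * g⁻¹) ∈ centralizer (Q : Set S)}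
      one_mem' := fun x _ => by simp
      mul_mem' := fun {g k} hg hk x hx => by
        have := mul_mem (hk x hx) (hg _ (hPn.conj_mem x hx k))
        simpa [mul_assoc] using this
      inv_mem' := fun {g} hg x hx => by
        have := inv_mem (hg _ (hPn.conj_mem x hx g⁻¹))
        simpa [mul_assoc] using this }
  have hAK : A ≤ K := fun a ha x hx => by
    have := h1 (commutator_mem_commutator (inv_mem hx) ha)
    simpa [commutatorElement_def, mul_assoc] using this
  have hQK : Q ≤ K := by
    rw [← hAQ, commutator_le]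
    intro a ha q hq
    have h2 : q * a⁻¹ * q⁻¹ ∈ K := fun x hx => by
      have h3 := hAK (inv_mem ha) _ (hPn.conj_mem x hx q⁻¹)
      have h4 := h3 q hq
      rw [← mul_inv_eq_iff_eq_mul] at h4
      rw [← h4] at h3
      simpa [mul_assoc] using h3
    have := K.mul_mem (hAK ha) h2
    simpa [commutatorElement_def, mul_assoc] using this
  have h5 : ⁅⁅P, Q⁆, Q⁆ = ⊥ := by
    rw [commutator_eq_bot_iff_le_centralizer, commutator_le]
    intro x hx q hq
    have := hQK hq _ (inv_mem hx)
    simpa [commutatorElement_def, mul_assoc] using this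
  have hc : (Nat.card Q).Coprime p := ((Nat.Prime.coprime_iff_not_dvd Fact.out).mpr hQ).symm
  have h6 := Coprime.commutator_eq_bot_of_commutator_commutator_eq_bot le_normalizer_of_normal
    (coprime_card_of_isPGroup (pCore_isPGroup p S) hc).symm h5
  rw [commutator_eq_bot_iff_le_centralizer, le_centralizer_iff] at h6
  apply hQ1
  rw [eq_bot_iff, ← inf_eq_bot_of_isPGroup_of_coprime (pCore_isPGroup p S) hc]
  exact le_inf (h6.trans (hS.centralizer_pCore_le hred)) le_rfl

end Cfsg.Agent.S1892
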