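import Cfsg.Statements.S1893
import Cfsg.Agent.Trans.DicksonFree
import Cfsg.Agent.Solv.NilpotentHall
import Cfsg.Agent.Solv.PSolvable
import Cfsg.Agent.Solv.Cores
import Cfsg.Agent.Solv.Nilpotent

set_option autoImplicit false
open Cfsg

open Cfsg.Lib.Solv Cfsg.Lib.Trans.Quad

namespace Cfsg.Agent.S1893

/-- A `q`-element (`q ≥ 5`) centralizing the `q'`-elements of `F(S)` and quadratic on `O_q(S)`
lies in `F(S)`. -/
theorem mem_fitting_of_quad {S : Type*} [Group S] [Finite S] [Group.IsSolvable S] {q : ℕ}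
    [hq : Fact q.Prime] (h5 : 5 ≤ q) {x : S}
    (hc : ∀ y ∈ fittingSubgroup S, (orderOf y).Coprime q → Commute x y)
    (hquad : ∀ v ∈ pCore q S, Commute x (x * v * x⁻¹ * v⁻¹)) : x ∈ fittingSubgroup S := by
  have hT : TransvFree q S := transvFree_of_isPSolvable h5 (IsPSolvable.of_isSolvable q S)
  let θ : S →* MulAut (pCore q S) := MulAut.conjNormal
  have hx : (x : S ⧸ θ.ker) ∈ pCore q (S ⧸ θ.ker) := by
    refine hT.mk_mem_pCore (pCore_isPGroup q S) θ ?_
    intro v
    apply Subtype.ext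
    have := hquad v v.2
    simp only [θ, MulAut.conjNormal_apply, Subgroup.coe_mul, Subgroup.coe_inv]
    rw [this.eq, mul_inv_cancel_right]
  let T : Set S := {y | y ∈ fittingSubgroup S ∧ (orderOf y).Coprime q}
  have hK : (Subgroup.centralizer T).Normal := by
    refine ⟨fun c hc g => ?_⟩
    rw [Subgroup.mem_centralizer_iff] at hc ⊢
    intro y hy
    have h1 : g⁻¹ * y * g ∈ T := by
      refine ⟨by simpa using (fitting_normal S).conj_mem y hy.1 g⁻¹, ?_⟩
      have : orderOf (g⁻¹ * y * g) = orderOf y := by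
        have := (SemiconjBy.orderOf_eq g (x := g⁻¹ * y * g) (y := y) (by
          unfold SemiconjBy; group))
        exact this
      rw [this]; exact hy.2
    have h2 := hc _ h1
    calc y * (g * c * g⁻¹) = g * ((g⁻¹ * y * g) * c) * g⁻¹ := by group
      _ = g * (c * (g⁻¹ * y * g)) * g⁻¹ := by rw [h2]
      _ = g * c * g⁻¹ * y := by group
  let R : Subgroup S :=
    (pCore q (S ⧸ θ.ker)).comap (QuotientGroup.mk' θ.ker) ⊓ Subgroup.centralizer T
  have hRn : R.Normal := inferInstance
  have hxR : x ∈ R := by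
    refine Subgroup.mem_inf.2 ⟨hx, ?_⟩
    rw [Subgroup.mem_centralizer_iff]
    intro y hy
    exact (hc y hy.1 hy.2).eq.symm
  -- `q'`-elements of `R` lie in `T`
  have hkey : ∀ y ∈ R, (orderOf y).Coprime q → y ∈ T := by
    intro y hy hyq
    refine ⟨?_, hyq⟩
    apply centralizer_fitting_le S
    have hker : y ∈ θ.ker := by
      obtain ⟨k, hk⟩ := pCore_isPGroup q (S ⧸ θ.ker) ⟨_, hy.1⟩
      have h1 : ((y : S ⧸ θ.ker)) ^ q ^ k = 1 := by
        simpa using congrArg Subtype.val hk
      have h2 : ((y : S ⧸ θ.ker)) ^ orderOf y = 1 := by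
        rw [← QuotientGroup.mk_pow, pow_orderOf_eq_one, QuotientGroup.mk_one]
      have h3 : orderOf (y : S ⧸ θ.ker) = 1 :=
        Nat.eq_one_of_dvd_coprimes (hyq.pow_right k) (orderOf_dvd_of_pow_eq_one h2)
          (orderOf_dvd_of_pow_eq_one h1)
      rw [← QuotientGroup.eq_one_iff]
      exact orderOf_eq_one_iff.1 h3
    have : fittingSubgroup S ≤ Subgroup.centralizer {y} := by
      apply le_of_forall_prime_pow_mem
      intro r hr k f hf hfo
      rw [Subgroup.mem_centralizer_singleton_iff]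
      by_cases hrq : r = q
      · subst hrq
        have hfq : f ∈ pCore r S := mem_pCore_of_mem_fitting hf hfo
        have h1 := congrArg Subtype.val
          (DFunLike.congr_fun (MonoidHom.mem_ker.1 hker) ⟨f, hfq⟩)
        simp only [θ, MulAut.conjNormal_apply, MulAut.one_apply] at h1
        calc f * y = (y * f * y⁻¹) * y := by rw [h1]
          _ = y * f := by group
      · have hfT : f ∈ T := ⟨hf, by
          rw [hfo]; exact ((Nat.coprime_primes hr hq.out).2 hrq).pow_left k⟩
        exact (Subgroup.mem_centralizer_iff.1 hy.2) f hfT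
    rw [Subgroup.mem_centralizer_iff]
    intro f hf
    exact Subgroup.mem_centralizer_singleton_iff.1 (this hf)
  have hnil : Group.IsNilpotent R := by
    apply isNilpotent_of_forall_commute_of_prime_pow
    intro r s hr hs hrs k l u w hu hw
    rw [← Subgroup.orderOf_coe] at hu hw
    apply Subtype.ext
    simp only [Subgroup.coe_mul]
    by_cases hrq : r = q
    · have hwT := hkey w w.2 (by
        rw [hw]; exact ((Nat.coprime_primes hs hq.out).2 (hrq ▸ hrs.symm)).pow_left l)
      exact ((Subgroup.mem_centralizer_iff.1 u.2.2) _ hwT).symm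
    · have huT := hkey u u.2 (by
        rw [hu]; exact ((Nat.coprime_primes hr hq.out).2 hrq).pow_left k)
      exact (Subgroup.mem_centralizer_iff.1 w.2.2) _ huT
  exact le_fitting hRn hnil hxR

theorem centralizer_le_of_core {S : Type*} [Group S] [Finite S] [Group.IsSolvable S]
    (π : Set ℕ) (h2 : 2 ∉ π) (h3 : 3 ∉ π) (hF : IsPiNum π (Nat.card (fittingSubgroup S)))
    (A : Subgroup S) (hN : fittingSubgroup S ≤ Subgroup.normalizer (A : Set S))
    (hC : fittingSubgroup S ⊓ Subgroup.centralizer (A : Set S) ≤ A) :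
    Subgroup.centralizer (A : Set S) ≤ A := by
  -- commutators with `F` lie in `A`
  have hcomm : ∀ x ∈ Subgroup.centralizer (A : Set S), ∀ f ∈ fittingSubgroup S,
      x * f * x⁻¹ * f⁻¹ ∈ fittingSubgroup S ∧ Commute x (x * f * x⁻¹ * f⁻¹) := by
    intro x hx f hf
    have h1 : x * f * x⁻¹ * f⁻¹ ∈ fittingSubgroup S :=
      mul_mem ((fitting_normal S).conj_mem f hf x) (inv_mem hf)
    refine ⟨h1, ?_⟩
    have h2 : f * x⁻¹ * f⁻¹ ∈ Subgroup.centralizer (A : Set S) := by
      rw [Subgroup.mem_centralizer_iff]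
      intro a ha
      have ha' : f⁻¹ * a * f ∈ A := by
        have := (Subgroup.mem_normalizer_iff.1 (hN (inv_mem hf)) a).1 ha
        simpa using this
      have h3 := Subgroup.mem_centralizer_iff.1 (inv_mem hx) _ ha'
      calc a * (f * x⁻¹ * f⁻¹) = f * ((f⁻¹ * a * f) * x⁻¹) * f⁻¹ := by group
        _ = f * (x⁻¹ * (f⁻¹ * a * f)) * f⁻¹ := by rw [h3]
        _ = f * x⁻¹ * f⁻¹ * a := by group
    have h3 : x * f * x⁻¹ * f⁻¹ ∈ A := by
      refine hC (Subgroup.mem_inf.2 ⟨h1, ?_⟩)
      have := mul_mem hx h2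
      simpa only [mul_assoc] using this
    exact (Subgroup.mem_centralizer_iff.1 hx _ h3).symm
  apply le_of_forall_prime_pow_mem
  intro q hq k x hx hxo
  have : Fact q.Prime := ⟨hq⟩
  have hc : ∀ y ∈ fittingSubgroup S, (orderOf y).Coprime q → Commute x y := by
    intro f hf hfq
    obtain ⟨h1, h2⟩ := hcomm x hx f hf
    set c := x * f * x⁻¹ * f⁻¹ with hcdef
    have hxf : x * f * x⁻¹ = c * f := by rw [hcdef]; group
    have hpow : ∀ n : ℕ, x ^ n * f * (x ^ n)⁻¹ = c ^ n * f := by
      intro n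
      induction n with
      | zero => simp
      | succ n ih =>
        calc x ^ (n + 1) * f * (x ^ (n + 1))⁻¹ = x * (x ^ n * f * (x ^ n)⁻¹) * x⁻¹ := by
              rw [pow_succ']; group
          _ = (x * c ^ n) * f * x⁻¹ := by rw [ih]; group
          _ = c ^ n * (x * f * x⁻¹) := by rw [(h2.pow_right n).eq]; group
          _ = c ^ (n + 1) * f := by rw [hxf, pow_succ]; group
    have hc1 : c ^ q ^ k = 1 := by
      have := hpow (q ^ k)
      rw [← hxo, pow_orderOf_eq_one] at this
      rw [← hxo]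
      simpa using this.symm
    have hcf : Commute c f := by
      refine commute_of_mem_of_coprime_of_isNilpotent (N := fittingSubgroup S) inferInstance
        h1 hf ?_
      exact ((hfq.pow_right k).symm).coprime_dvd_left (orderOf_dvd_of_pow_eq_one hc1)
    have hc2 : c ^ orderOf f = 1 := by
      have h3 : (c * f) ^ orderOf f = 1 := by
        rw [← hxf, conj_pow, pow_orderOf_eq_one]; group
      rw [hcf.mul_pow, pow_orderOf_eq_one, mul_one] at h3
      exact h3
    have h4 : orderOf c = 1 :=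
      Nat.eq_one_of_dvd_coprimes (hfq.pow_right k) (orderOf_dvd_of_pow_eq_one hc2)
        (orderOf_dvd_of_pow_eq_one hc1)
    rw [orderOf_eq_one_iff.1 h4, one_mul] at hxf
    calc x * f = (x * f * x⁻¹) * x := by group
      _ = f * x := by rw [hxf]
  refine hC ⟨?_, hx⟩
  by_cases hqπ : q ∈ π
  · have h5 : 5 ≤ q := by
      have := hq.two_le
      by_contra hlt
      have : q = 2 ∨ q = 3 ∨ q = 4 := by omega
      rcases this with rfl | rfl | rfl
      · exact h2 hqπ
      · exact h3 hqπ
      · exact absurd hq (by decide)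
    exact mem_fitting_of_quad h5 hc
      (fun v hv => (hcomm x hx v (pCore_le_fitting q S hv)).2)
  · apply centralizer_fitting_le S
    rw [Subgroup.mem_centralizer_iff]
    intro f hf
    refine (hc f hf ?_).eq.symm
    rw [Nat.coprime_comm, hq.coprime_iff_not_dvd]
    intro hd
    exact hqπ (hF.orderOf_of_mem hf q hq hd)

/-- Let S be a finite solvable group, π a set of primes containing neither 2 nor 3, H a Hall π-subgroup of S, and A a self-centralizing normal subgroup of the Fitting subgroup F(H). Then C_S(A) = A × D for a normal subgroup D of C_S(A) whose order has no prime divisor in π. -/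
theorem result {S : Type*} [Group S] [Finite S] [Group.IsSolvable S]
    (π : Set ℕ) (h2 : 2 ∉ π) (h3 : 3 ∉ π) (H : Subgroup S) (hH : Cfsg.IsPiHall π H)
    (A : Subgroup S) (hA : Cfsg.IsSCN ((Cfsg.fittingSubgroup H).map H.subtype) A) :
    ∃ D : Subgroup S, D ≤ Subgroup.centralizer (A : Set S) ∧
      (∀ c ∈ Subgroup.centralizer (A : Set S), ∀ d ∈ D, c * d * c⁻¹ ∈ D) ∧
      A ⊓ D = ⊥ ∧ A ⊔ D = Subgroup.centralizer (A : Set S) ∧
      ∀ q : ℕ, q.Prime → q ∣ Nat.card D → q ∉ π := by
  obtain ⟨hAP, hPN, hPC⟩ := hA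
  rw [isPiHall_iff] at hH
  set N : Subgroup S := piCore πᶜ S with hNdef
  have hNπ : IsPiNum πᶜ (Nat.card N) := isPiNum_card_piCore _ _
  have hHN : H ⊓ N = ⊥ := inf_eq_bot_of_isPiNum hH.1 hNπ
  have hPH : (fittingSubgroup H).map H.subtype ≤ H := Subgroup.map_subtype_le _
  have hAH : A ≤ H := hAP.trans hPH
  let φ : S →* S ⧸ N := QuotientGroup.mk' N
  have hinj : ∀ h ∈ H, φ h = 1 → h = 1 := by
    intro h hh h1
    have : h ∈ H ⊓ N := ⟨hh, (QuotientGroup.eq_one_iff h).1 h1⟩
    rwa [hHN, Subgroup.mem_bot] at this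
  have hF : IsPiNum π (Nat.card (fittingSubgroup (S ⧸ N))) := by
    intro r hr hd
    by_contra hrπ
    have : Fact r.Prime := ⟨hr⟩
    obtain ⟨g, hg⟩ := exists_prime_orderOf_dvd_card' r hd
    have h1 : (g : S ⧸ N) ∈ pCore r (S ⧸ N) :=
      mem_pCore_of_mem_fitting g.2 (k := 1) (by rw [Subgroup.orderOf_coe, hg, pow_one])
    have h2 := pCore_le_piCore (π := πᶜ) hrπ h1
    rw [piCore_quotient_piCore, Subgroup.mem_bot] at h2
    have h3 : g = 1 := Subtype.ext h2
    rw [h3, orderOf_one] at hg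
    exact hr.one_lt.ne hg
  have hFH : fittingSubgroup (S ⧸ N) ≤ H.map φ := by
    apply le_of_normal_of_coprime_card_index
    exact hF.coprime (hH.2.of_dvd (Subgroup.index_map_dvd H (QuotientGroup.mk'_surjective N)))
  have hlift : ∀ f ∈ fittingSubgroup (S ⧸ N),
      ∃ h ∈ (fittingSubgroup H).map H.subtype, φ h = f := by
    intro f hf
    obtain ⟨h, hh, rfl⟩ := hFH hf
    refine ⟨h, ⟨⟨h, hh⟩, ?_, rfl⟩, rfl⟩
    let ψ : H →* S ⧸ N := φ.comp H.subtype
    have hψ : Function.Injective ψ := by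
      rw [injective_iff_map_eq_one]
      intro a ha
      exact Subtype.ext (hinj a a.2 ha)
    have hE : Group.IsNilpotent ((fittingSubgroup (S ⧸ N)).comap ψ) := by
      let ψ' : (fittingSubgroup (S ⧸ N)).comap ψ →* fittingSubgroup (S ⧸ N) :=
        (ψ.comp (Subgroup.subtype _)).codRestrict _ (fun a => a.2)
      refine Subgroup.isNilpotent_of_ker_le_center ψ' ?_
      intro a ha
      have : a = 1 := by
        apply Subtype.ext
        apply hψ
        have h1 : ψ a = 1 := congrArg Subtype.val (MonoidHom.mem_ker.1 ha)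
        rw [h1]; exact (map_one ψ).symm
      rw [this]; exact one_mem _
    exact le_fitting inferInstance hE hf
  have hmain := centralizer_le_of_core π h2 h3 hF (A.map φ) (by
      intro f hf
      obtain ⟨h, hh, rfl⟩ := hlift f hf
      exact Subgroup.le_normalizer_map φ ⟨h, hPN hh, rfl⟩) (by
      intro f hf
      obtain ⟨h, hh, rfl⟩ := hlift f hf.1
      refine ⟨h, ?_, rfl⟩
      rw [← hPC]
      refine Subgroup.mem_inf.2 ⟨hh, ?_⟩
      rw [Subgroup.mem_centralizer_iff]
      intro a ha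
      have h1 := Subgroup.mem_centralizer_iff.1 hf.2 (φ a) ⟨a, ha, rfl⟩
      have h2 := hinj (a * h * a⁻¹ * h⁻¹)
        (mul_mem (mul_mem (mul_mem (hAH ha) (hPH hh)) (inv_mem (hAH ha))) (inv_mem (hPH hh)))
        (by simp only [map_mul, map_inv]; rw [h1]; group)
      calc a * h = (a * h * a⁻¹ * h⁻¹) * h * a := by group
        _ = h * a := by rw [h2]; group)
  have hAC : A ≤ Subgroup.centralizer (A : Set S) := by
    intro a ha
    rw [← hPC] at ha
    exact ha.2
  refine ⟨Subgroup.centralizer (A : Set S) ⊓ N, inf_le_left, ?_, ?_, ?_, ?_⟩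
  · intro c hc d hd
    exact Subgroup.mem_inf.2 ⟨mul_mem (mul_mem hc (Subgroup.mem_inf.1 hd).1) (inv_mem hc),
      Subgroup.Normal.conj_mem inferInstance d hd.2 c⟩
  · rw [eq_bot_iff, ← hHN]
    exact inf_le_inf hAH inf_le_right
  · refine le_antisymm (sup_le hAC inf_le_left) ?_
    intro c hc
    have h1 : φ c ∈ Subgroup.centralizer ((A.map φ : Subgroup (S ⧸ N)) : Set (S ⧸ N)) := by
      rw [Subgroup.mem_centralizer_iff]
      rintro _ ⟨a, ha, rfl⟩
      rw [← map_mul, ← map_mul, Subgroup.mem_centralizer_iff.1 hc a ha]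
    obtain ⟨a, ha, hac⟩ := hmain h1
    have h2 : a⁻¹ * c ∈ N := QuotientGroup.eq.1 hac
    have h3 : c = a * (a⁻¹ * c) := by group
    rw [h3]
    exact Subgroup.mul_mem_sup ha (Subgroup.mem_inf.2 ⟨mul_mem (inv_mem (hAC ha)) hc, h2⟩)
  · intro q hq hd
    exact (hNπ.card_of_le inf_le_right) q hq hd

end Cfsg.Agent.S1893
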