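import Cfsg.Statements.S1894
import Cfsg.Agent.Solv.PGroupNormal
import Mathlib.Order.Preorder.Finite

set_option autoImplicit false
open Cfsg

namespace Cfsg.Agent.S1894

open Subgroup Cfsg.Lib.Solv.PG

/-- Let P be a finite p-group, A a normal subgroup of P and B an abelian subgroup of A that is normal in P. Then some subgroup C of A containing B is normal in P and is self-centralizing and normal in A (C ∈ SCN(A)). -/
theorem result {P : Type*} [Group P] [Finite P] {p : ℕ} [Fact p.Prime] (hP : IsPGroup p P)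
    (A : Subgroup P) [A.Normal] (B : Subgroup P) [B.Normal] (hBA : B ≤ A) (hB : IsMulCommutative B) :
    ∃ C : Subgroup P, C.Normal ∧ B ≤ C ∧ Cfsg.IsSCN A C := by
  obtain ⟨C, ⟨hCn, hBC, hCA, hCc⟩, hmax⟩ := (Set.toFinite {C : Subgroup P | C.Normal ∧ B ≤ C ∧
    C ≤ A ∧ IsMulCommutative C}).exists_maximal ⟨B, inferInstance, le_rfl, hBA, hB⟩
  refine ⟨C, hCn, hBC, hCA, le_normalizer_of_normal, le_antisymm ?_ (le_inf hCA C.le_centralizer)⟩
  by_contra h
  obtain ⟨x, hx, hxC, -, hc⟩ := exists_normal_step_elt hP h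
  have hn : (C ⊔ zpowers x).Normal := normal_of_top_le_normalizer
    (le_normalizer_sup_zpowers le_normalizer_of_normal fun s _ => hc s)
  exact hxC (hmax ⟨hn, hBC.trans le_sup_left, sup_le hCA (zpowers_le.mpr hx.1),
    isMulCommutative_sup_zpowers hx.2⟩ le_sup_left (mem_sup_right (mem_zpowers x)))

end Cfsg.Agent.S1894
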