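import Cfsg.Statements.S1895
import Cfsg.Agent.Trans.RankTwoChar

set_option autoImplicit false
open Cfsg

namespace Cfsg.Agent.S1895

open Cfsg.Lib.Trans Cfsg.Lib.Solv Cfsg.Lib.FT.BG4 Subgroup

/-- Let p be an odd prime and G a finite p-solvable group with no elementary abelian subgroup of order p³. Then every chief factor H/K of G (H, K normal in G with no normal subgroup of G strictly between them) whose order is a power of p has order p or p². -/
theorem result {G : Type*} [Group G] [Finite G] {p : ℕ} [Fact p.Prime] (hp : p ≠ 2)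
    (hG : Cfsg.IsPSolvable p G) (hr : Cfsg.PRankLE p 2 G)
    (H K : Subgroup G) [H.Normal] [K.Normal] (hKH : K < H) (hpow : ∃ n : ℕ, K.relIndex H = p ^ n)
    (hchief : ∀ L : Subgroup G, L.Normal → K ≤ L → L ≤ H → L = K ∨ L = H) :
    K.relIndex H = p ∨ K.relIndex H = p ^ 2 := by
  classical
  obtain ⟨n, hn⟩ := hpow
  let P : Sylow p H := Classical.arbitrary _
  let Q : Subgroup G := (P : Subgroup H).map H.subtype
  have hQ : IsPGroup p Q := P.isPGroup'.map _
  have hHKQ : H ≤ K ⊔ Q := by
    have h1 : (K.subgroupOf H ⊔ (P : Subgroup H)).index ∣ p ^ n := hn ▸ index_dvd_of_le le_sup_left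
    have h2 : (K.subgroupOf H ⊔ (P : Subgroup H)).index ∣ (P : Subgroup H).index :=
      index_dvd_of_le le_sup_right
    have h3 : Nat.Coprime (p ^ n) (P : Subgroup H).index :=
      Nat.Coprime.pow_left n (((Fact.out : p.Prime).coprime_iff_not_dvd).mpr P.not_dvd_index)
    have h4 : K.subgroupOf H ⊔ (P : Subgroup H) = ⊤ :=
      index_eq_one.mp (Nat.eq_one_of_dvd_coprimes h3 h1 h2)
    have h5 := congrArg (Subgroup.map H.subtype) h4
    rw [Subgroup.map_sup, subgroupOf_map_subtype, ← MonoidHom.range_eq_map, range_subtype] at h5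
    exact h5 ▸ sup_le_sup_right inf_le_left _
  set N := normalizer (Q : Set G) with hN
  have hNH : N ⊔ H = ⊤ := P.normalizer_sup_eq_top
  have hNK : N ⊔ K = ⊤ := by
    rw [eq_top_iff, ← hNH]
    exact sup_le le_sup_left (hHKQ.trans (sup_le le_sup_right (le_sup_of_le_left le_normalizer)))
  have key : ∀ (m : ℕ) (A : Subgroup G), Nat.card A = m → A ≤ Q → N ≤ normalizer (A : Set G) →
      H ≤ K ⊔ A → K.relIndex H ≤ p ^ 2 := by
    intro m
    induction m using Nat.strong_induction_on with
    | _ m ih =>
    intro A hm hAQ hNA hHA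
    have hAH : A ≤ H := hAQ.trans (map_subtype_le _)
    have hA1 : A ≠ ⊥ := by
      rintro rfl
      exact hKH.not_ge (by simpa using hHA)
    have : Nontrivial A := (nontrivial_iff_ne_bot A).mpr hA1
    obtain ⟨C, hC, hC1, hC2⟩ := exists_char_index_le_of_rank_two hp _ A rfl (hQ.to_le hAQ)
      (pRankLE_subgroup hr A)
    let B : Subgroup G := C.map A.subtype
    have hBA : B ≤ A := map_subtype_le _
    have hNB : N ≤ normalizer (B : Set G) := 
      hNA.trans (normalizer_le_normalizer_map_subtype_of_char C)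
    have hL : (K ⊔ B).Normal := by
      rw [← normalizer_eq_top_iff, eq_top_iff, ← hNK]
      refine sup_le ?_ (le_sup_left.trans le_normalizer)
      intro g hg
      rw [mem_normalizer_iff_conj_smul_eq, Subgroup.smul_sup, conj_smul_eq_of_mem_normalizer (hNB hg),
        Normal.conj_smul_eq_self]
    rcases hchief _ hL le_sup_left (sup_le hKH.le (hBA.trans hAH)) with h | h
    · have hBK : B ≤ K := h ▸ le_sup_right
      have h1 : H = A ⊔ K := le_antisymm (by rwa [sup_comm]) (sup_le hAH hKH.le)
      rw [h1, relIndex_sup_right]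
      have h2 : K.relIndex A ∣ B.relIndex A := relIndex_dvd_of_le_left A hBK
      have h3 : B.relIndex A = C.index := by
        rw [relIndex, subgroupOf, comap_map_eq_self_of_injective A.subtype_injective]
      rw [h3] at h2
      exact (Nat.le_of_dvd (Nat.pos_of_ne_zero index_ne_zero_of_finite) h2).trans hC2
    · refine ih _ ?_ B rfl (hBA.trans hAQ) hNB h.ge
      rw [← hm]
      refine card_lt_of_lt (lt_of_le_of_ne hBA fun h' => hC1 ?_)
      rw [← comap_map_eq_self_of_injective A.subtype_injective C]
      change B.subgroupOf A = ⊤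
      rw [h', subgroupOf_self]
  have h2 := key _ Q rfl le_rfl le_rfl hHKQ
  rw [hn] at h2 ⊢
  have h3 : n ≤ 2 := (Nat.pow_le_pow_iff_right (Fact.out : p.Prime).one_lt).mp h2
  have h4 : n ≠ 0 := by
    rintro rfl
    exact hKH.not_ge (relIndex_eq_one.mp (by simpa using hn))
  have : n = 1 ∨ n = 2 := by omega
  rcases this with rfl | rfl
  · left; simp
  · right; rfl

end Cfsg.Agent.S1895
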