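import Cfsg.Statements.S1898
import Cfsg.Agent.Trans.CriticalOmega

set_option autoImplicit false
open Cfsg

namespace Cfsg.Agent.S1898

open Cfsg.Lib.Trans
open scoped commutatorElement

/-- Let X be a finite 2-group whose derived subgroup is elementary abelian and central. Then the subgroup generated by the elements of order dividing 4 has exponent dividing 4, and every automorphism of X fixing each element of order dividing 4 has 2-power order. -/
theorem result {X : Type*} [Group X] [Finite X] (hX : IsPGroup 2 X)
    (hel : Cfsg.IsElementaryAbelian 2 (commutator X)) (hcen : commutator X ≤ Subgroup.center X) :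
    (∀ x ∈ Subgroup.closure {g : X | g ^ 4 = 1}, x ^ 4 = 1) ∧
      ∀ φ : MulAut X, (∀ g : X, g ^ 4 = 1 → φ g = g) → ∃ k : ℕ, φ ^ (2 ^ k) = 1 := by
  have hhom : ∀ x y : X, (x * y) ^ 4 = x ^ 4 * y ^ 4 := by
    intro x y
    have hm : ⁅y, x⁆ ∈ commutator X :=
      Subgroup.commutator_mem_commutator (Subgroup.mem_top y) (Subgroup.mem_top x)
    have hc := Subgroup.mem_center_iff.mp (hcen hm)
    rw [mul_pow_of_commute_commutator (hc x).symm (hc y).symm,
      show Nat.choose 4 2 = 2 * 3 by decide, pow_mul, hel.2 _ hm, one_pow, mul_one]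
  constructor
  · intro x hx
    induction hx using Subgroup.closure_induction with
    | mem x hx => exact hx
    | one => exact one_pow _
    | mul x y _ _ hx hy => rw [hhom, hx, hy, one_mul]
    | inv x _ hx => rw [inv_pow, hx, inv_one]
  · intro φ hφ
    obtain ⟨k, hk⟩ := exists_orderOf_pow_coprime Nat.prime_two φ
    refine ⟨k, MulEquiv.ext fun x => mulAut_fix_of_pow_mul (q := 4) (hX.to_subgroup ⊤) (by norm_num)
      (fun x _ y _ => hhom x y) _ hk (fun _ _ => trivial) (fun x _ hx => ?_) x trivial⟩
    exact (MulAction.stabilizer (MulAut X) x).pow_mem (hφ x hx) _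

end Cfsg.Agent.S1898
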