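import Cfsg.Statements.S1899
import Cfsg.Agent.Solv.Conj

set_option autoImplicit false
open Cfsg

namespace Cfsg.Agent.S1899

open Cfsg.Lib.Solv

/-- Let a dihedral group of order 2n, n odd and n > 1, act on a finite abelian 2-group A through automorphisms d and t with d^n = 1, t² = 1 and t d t⁻¹ = d⁻¹, and suppose that d fixes only the identity. Then A is the internal direct product of C_A(t) and its image under d. -/
theorem result {A : Type*} [CommGroup A] [Finite A] (hA : IsPGroup 2 A)
    {n : ℕ} (hn : Odd n) (hn1 : 1 < n) (d t : MulAut A) (hd : d ^ n = 1) (ht : t ^ 2 = 1) (hdt : t * d * t⁻¹ = d⁻¹)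
    (hfix : ∀ a : A, d a = a → a = 1) :
    (MulEquiv.toMonoidHom t).eqLocus (MonoidHom.id A) ⊓ ((MulEquiv.toMonoidHom t).eqLocus (MonoidHom.id A)).map d.toMonoidHom = ⊥ ∧
      (MulEquiv.toMonoidHom t).eqLocus (MonoidHom.id A) ⊔ ((MulEquiv.toMonoidHom t).eqLocus (MonoidHom.id A)).map d.toMonoidHom = ⊤ := by
  have htt : ∀ a, t (t a) = a := fun a => by rw [← MulAut.mul_apply, ← pow_two, ht]; rfl
  have htd : ∀ a, d (t (d a)) = t a := fun a => by
    have := congrArg (fun f : MulAut A => d (f (t a))) hdt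
    simpa using this
  have hd2 : ∀ a, d (d a) = a → a = 1 := by
    intro a ha
    obtain ⟨k, rfl⟩ := hn
    have h1 : ∀ j : ℕ, (d ^ (2 * j)) a = a := by
      intro j
      induction j with
      | zero => rfl
      | succ j ih => rw [mul_add, pow_add, MulAut.mul_apply, mul_one, pow_two, MulAut.mul_apply, ha, ih]
    apply hfix
    have h2 := congrArg (fun f : MulAut A => f a) hd
    rwa [pow_succ', MulAut.mul_apply, h1] at h2
  have key : ∀ X : Subgroup A, X ⊓ X.map d.toMonoidHom = ⊥ →
      Nat.card (X ⊔ X.map d.toMonoidHom : Subgroup A) = Nat.card X * Nat.card X := fun X h => by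
    rw [card_sup_of_disjoint_of_le_normalizer Subgroup.le_normalizer_of_normal h,
      Subgroup.card_map_of_injective d.injective]
  set C := (MulEquiv.toMonoidHom t).eqLocus (MonoidHom.id A) with hC
  have h1 : C ⊓ C.map d.toMonoidHom = ⊥ := by
    rw [eq_bot_iff]
    rintro _ ⟨h1, a, ha, rfl⟩
    have h2 := htd a
    rw [show t (d a) = d a from h1, show t a = a from ha] at h2
    rw [hd2 a h2, map_one]
    exact Subgroup.one_mem _
  let f : A →* A := MonoidHom.id A * t.toMonoidHom
  have h2 : f.ker ⊓ f.ker.map d.toMonoidHom = ⊥ := by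
    rw [eq_bot_iff]
    rintro _ ⟨h1, a, ha, rfl⟩
    have h2 := htd a
    rw [show t (d a) = (d a)⁻¹ from eq_inv_of_mul_eq_one_right h1,
      show t a = a⁻¹ from eq_inv_of_mul_eq_one_right ha, map_inv, inv_inj] at h2
    rw [hd2 a h2, map_one]
    exact Subgroup.one_mem _
  have h3 : f.range ≤ C := by
    rintro _ ⟨a, rfl⟩
    change t (a * t a) = a * t a
    rw [map_mul, htt, mul_comm]
  refine ⟨h1, Subgroup.eq_top_of_le_card _ ?_⟩
  have h4 := Subgroup.card_le_card_group (f.ker ⊔ f.ker.map d.toMonoidHom)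
  rw [key _ h2] at h4
  rw [key _ h1]
  have h5 := f.ker.card_mul_index
  rw [Subgroup.index_ker] at h5
  have h6 := Subgroup.card_le_of_le h3
  have h7 : Nat.card f.ker ≤ Nat.card f.range :=
    Nat.le_of_mul_le_mul_left (h4.trans h5.ge) Nat.card_pos
  rw [← h5]
  exact Nat.mul_le_mul (h7.trans h6) h6

end Cfsg.Agent.S1899
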