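import Cfsg.Statements.S1900
import Cfsg.Agent.Solv.CoprimeGen
import Cfsg.Agent.Solv.CommCalc
import Cfsg.Agent.Solv.Fitting

set_option autoImplicit false
open Cfsg

namespace Cfsg.Agent.S1900

open Cfsg.Lib.Solv Subgroup

/-- Let S = PQ be a finite group with P a normal Sylow p-subgroup and Q elementary abelian of order q², q a prime different from p. If exactly two subgroups X₁, X₂ of order q in Q have a nontrivial centralizer in P, then P is the internal direct product of C_P(X₁) and C_P(X₂): they commute elementwise, meet trivially and generate P. -/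
theorem result {S : Type*} [Group S] [Finite S] {p q : ℕ} [Fact p.Prime] [Fact q.Prime] (hpq : p ≠ q)
    (P : Sylow p S) [(P : Subgroup S).Normal] (Q : Subgroup S) (hQ : Cfsg.IsElementaryAbelian q Q) (hQc : Nat.card Q = q ^ 2)
    (hS : (P : Subgroup S) ⊔ Q = ⊤)
    (X₁ X₂ : Subgroup S) (h₁ : X₁ ≤ Q) (h₂ : X₂ ≤ Q) (h₁₂ : X₁ ≠ X₂) (hc₁ : Nat.card X₁ = q) (hc₂ : Nat.card X₂ = q)
    (hf₁ : (P : Subgroup S) ⊓ Subgroup.centralizer (X₁ : Set S) ≠ ⊥)
    (hf₂ : (P : Subgroup S) ⊓ Subgroup.centralizer (X₂ : Set S) ≠ ⊥)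
    (honly : ∀ X : Subgroup S, X ≤ Q → Nat.card X = q →
      (P : Subgroup S) ⊓ Subgroup.centralizer (X : Set S) ≠ ⊥ → X = X₁ ∨ X = X₂) :
    ⁅(P : Subgroup S) ⊓ Subgroup.centralizer (X₁ : Set S), (P : Subgroup S) ⊓ Subgroup.centralizer (X₂ : Set S)⁆ = ⊥ ∧
      ((P : Subgroup S) ⊓ Subgroup.centralizer (X₁ : Set S)) ⊓ ((P : Subgroup S) ⊓ Subgroup.centralizer (X₂ : Set S)) = ⊥ ∧
      ((P : Subgroup S) ⊓ Subgroup.centralizer (X₁ : Set S)) ⊔ ((P : Subgroup S) ⊓ Subgroup.centralizer (X₂ : Set S)) = P := by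
  have hq : q.Prime := Fact.out
  have := hQ.1
  have hcop : ∀ {X K : Subgroup S}, X ≤ Q → K ≤ P → (Nat.card X).Coprime (Nat.card K) := by
    intro X K hX hK
    obtain ⟨n, hn⟩ := IsPGroup.iff_card.mp P.isPGroup'
    refine Nat.Coprime.coprime_dvd_left (card_dvd_of_le hX)
      (Nat.Coprime.coprime_dvd_right (card_dvd_of_le hK) ?_)
    rw [hQc, hn]
    exact Nat.Coprime.pow _ _ ((Nat.coprime_primes hq Fact.out).mpr hpq.symm)
  set C₁ := (P : Subgroup S) ⊓ centralizer (X₁ : Set S) with hC₁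
  set C₂ := (P : Subgroup S) ⊓ centralizer (X₂ : Set S) with hC₂
  have hQX : ∀ {X : Subgroup S}, X ≤ Q → Q ≤ normalizer (X : Set S) :=
    fun h => Coprime.le_normalizer_of_le_of_comm h
  have hQC : ∀ {K X : Subgroup S}, Q ≤ normalizer (K : Set S) → X ≤ Q →
      Q ≤ normalizer ((K ⊓ centralizer (X : Set S) : Subgroup S) : Set S) :=
    fun h1 h2 => le_normalizer_inf_centralizer h1 (hQX h2)
  have hQ1 : Q ≤ normalizer (C₁ : Set S) := hQC le_normalizer_of_normal h₁
  have hQ2 : Q ≤ normalizer (C₂ : Set S) := hQC le_normalizer_of_normal h₂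
  have hgen : ∀ K ≤ (P : Subgroup S), Q ≤ normalizer (K : Set S) →
      K ≤ K ⊓ centralizer (X₁ : Set S) ⊔ K ⊓ centralizer (X₂ : Set S) := by
    intro K hK hQK
    refine Coprime.le_of_forall_hyperplane hQ.2 (fun h => h₁₂ ?_) hQK (hcop le_rfl hK)
      fun B hB hi => ?_
    · rw [h, le_bot_iff] at h₁ h₂
      rw [h₁, h₂]
    have h1 := (B.subgroupOf Q).card_mul_index
    rw [Nat.card_congr (subgroupOfEquivOfLe hB).toEquiv, ← relIndex, hi, hQc, pow_two] at h1
    by_cases h : (P : Subgroup S) ⊓ centralizer (B : Set S) = ⊥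
    · exact (inf_le_inf_right _ hK).trans (h.le.trans bot_le)
    rcases honly B hB (Nat.eq_of_mul_eq_mul_right hq.pos h1) h with rfl | rfl
    · exact le_sup_left
    · exact le_sup_right
  have hinf : C₁ ⊓ C₂ = ⊥ := by
    by_contra h
    have := Fact.mk (hc₁ ▸ hq : (Nat.card X₁).Prime)
    have := Fact.mk (hc₂ ▸ hq : (Nat.card X₂).Prime)
    have hX : X₁ ⊓ X₂ = ⊥ := by
      by_contra h
      rcases ((X₁ ⊓ X₂).subgroupOf X₁).eq_bot_or_eq_top_of_prime_card with h1 | h1
      · exact h ((subgroupOf_eq_bot.mp h1).eq_bot_of_le inf_le_left)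
      · exact h₁₂ (eq_of_le_of_card_ge ((subgroupOf_eq_top.mp h1).trans inf_le_right)
          (by rw [hc₁, hc₂]))
    obtain ⟨⟨a, ha⟩, ha1⟩ := (ne_bot_iff_exists_ne_one (H := X₁)).mp
      (by rw [← one_lt_card_iff_ne_bot, hc₁]; exact hq.one_lt)
    obtain ⟨⟨b, hb⟩, hb1⟩ := (ne_bot_iff_exists_ne_one (H := X₂)).mp
      (by rw [← one_lt_card_iff_ne_bot, hc₂]; exact hq.one_lt)
    have h1 : a * b ∉ X₁ := fun h => hb1 (Subtype.ext
      (mem_bot.mp (hX ▸ (⟨(X₁.mul_mem_cancel_left ha).mp h, hb⟩ : b ∈ X₁ ⊓ X₂))))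
    have h2 : a * b ∉ X₂ := fun h => ha1 (Subtype.ext
      (mem_bot.mp (hX ▸ (⟨ha, (X₂.mul_mem_cancel_right hb).mp h⟩ : a ∈ X₁ ⊓ X₂))))
    have hab : a * b ∈ Q := mul_mem (h₁ ha) (h₂ hb)
    rcases honly (zpowers (a * b)) (zpowers_le.mpr hab) (by
      rw [Nat.card_zpowers]
      exact orderOf_eq_prime (hQ.2 _ hab) fun h => h1 (h ▸ one_mem _)) (fun h3 => h (by
        rw [eq_bot_iff, ← h3]
        refine le_inf (inf_le_left.trans inf_le_left) (le_centralizer_iff.mp (zpowers_le.mpr ?_))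
        exact mul_mem (le_centralizer_iff.mp (inf_le_left.trans inf_le_right) ha)
          (le_centralizer_iff.mp (inf_le_right.trans inf_le_right) hb))) with h3 | h3
    · exact h1 (h3 ▸ mem_zpowers _)
    · exact h2 (h3 ▸ mem_zpowers _)
  have hsup : C₁ ⊔ C₂ = P :=
    le_antisymm (sup_le inf_le_left inf_le_left) (hgen _ le_rfl le_normalizer_of_normal)
  refine ⟨?_, hinf, hsup⟩
  have hnorm : ∀ {M : Subgroup S}, (P : Subgroup S) ≤ normalizer (M : Set S) →
      Q ≤ normalizer (M : Set S) → M.Normal := fun h1 h2 =>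
    normalizer_eq_top_iff.mp (eq_top_iff.mpr (hS ▸ sup_le h1 h2))
  have e1 : ⁅C₂, X₁⁆ = C₂ := by
    have := Coprime.commutator_sup_centralizer (h₁.trans hQ2) (hcop h₁ inf_le_left)
      (Or.inr (Coprime.isSolvable_of_isPGroup P.isPGroup'.to_inf_left))
    rwa [show C₂ ⊓ centralizer (X₁ : Set S) = ⊥ from eq_bot_iff.mpr (hinf ▸ le_inf
      (inf_le_inf_right _ inf_le_left) inf_le_left), sup_bot_eq] at this
  have e2 : ⁅C₁, X₂⁆ = C₁ := by
    have := Coprime.commutator_sup_centralizer (h₂.trans hQ1) (hcop h₂ inf_le_left)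
      (Or.inr (Coprime.isSolvable_of_isPGroup P.isPGroup'.to_inf_left))
    rwa [show C₁ ⊓ centralizer (X₂ : Set S) = ⊥ from eq_bot_iff.mpr (hinf ▸ le_inf inf_le_left
      (inf_le_inf_right _ inf_le_left)), sup_bot_eq] at this
  have key : ∀ (A B X M : Subgroup S) [M.Normal], A ≤ centralizer (X : Set S) → ⁅B, X⁆ = B →
      ⁅⁅A, B⁆, X⁆ ≤ M → ⁅A, B⁆ ≤ M := by
    intro A B X M _ h1 h2 h3
    rw [commutator_comm, ← h2]
    refine three_subgroups_le ?_ h3
    rw [commutator_comm X, commutator_eq_bot_iff_le_centralizer.mpr h1, commutator_bot_left]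
    exact bot_le
  set D := ⁅C₁, C₂⁆ with hD
  have hDn : D.Normal := hnorm (hsup ▸ sup_le (left_le_normalizer_commutator _ _)
    (right_le_normalizer_commutator _ _)) (le_normalizer_commutator hQ1 hQ2)
  have hDP : D ≤ P := (commutator_mono inf_le_left inf_le_left).trans (commutator_le_self _)
  have hM : (D ⊓ centralizer (X₂ : Set S) ⊔ ⁅D, (P : Subgroup S)⁆).Normal := hnorm
    (le_normalizer_iff_commutator_le_left.mpr ((commutator_mono (sup_le inf_le_left
      (commutator_le_left _ _)) le_rfl).trans le_sup_right))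
    (le_normalizer_sup (hQC le_normalizer_of_normal h₂) le_normalizer_of_normal)
  have h3 := key C₁ C₂ X₁ _ inf_le_right e1 ((commutator_mono (hgen D hDP le_normalizer_of_normal)
    le_rfl).trans (commutator_sup_left_le (N := D ⊓ centralizer (X₂ : Set S) ⊔
      ⁅D, (P : Subgroup S)⁆) ((commutator_eq_bot_iff_le_centralizer.mpr inf_le_right).le.trans
      bot_le) ((commutator_le_left_of_le_normalizer
        (h₁.trans (hQC le_normalizer_of_normal h₂))).trans le_sup_left)))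
  have h4 := key C₂ C₁ X₂ ⁅D, (P : Subgroup S)⁆ inf_le_right e2 (by
    rw [commutator_comm C₂]
    refine (commutator_mono h3 le_rfl).trans (commutator_sup_left_le ?_ (commutator_le_left _ _))
    exact (commutator_eq_bot_iff_le_centralizer.mpr inf_le_right).le.trans bot_le)
  rw [commutator_comm C₂] at h4
  exact eq_bot_of_le_commutator_of_isNilpotent P.isPGroup'.isNilpotent hDP h4

end Cfsg.Agent.S1900
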