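import Cfsg.Statements.S1901
import Cfsg.Agent.Solv.CoprimeFixed
import Cfsg.Agent.Solv.PSolvable

set_option autoImplicit false
open Cfsg

open Subgroup Cfsg.Lib.Solv
open scoped commutatorElement

namespace Cfsg.Agent.S1901

theorem le_of_le_normalizer {G : Type*} [Group G] [Finite G] {p : ℕ} [Fact p.Prime]
    (P : Sylow p G) {Q A : Subgroup G} (hA : IsPGroup p A) (hAQ : A ≤ normalizer (Q : Set G))
    (hP : (P : Subgroup G) ≤ centralizer (Q : Set G)) : A ≤ centralizer (Q : Set G) := by
  have hn : ((centralizer (Q : Set G)).subgroupOf (normalizer (Q : Set G))).Normal :=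
    inferInstance
  have h1 : (A.subgroupOf (normalizer (Q : Set G))) ≤
      (centralizer (Q : Set G)).subgroupOf (normalizer (Q : Set G)) := by
    apply le_of_coprime_card_index
    apply coprime_card_of_isPGroup (hA.comap_subtype)
    apply Nat.Coprime.symm
    rw [Nat.Prime.coprime_iff_not_dvd Fact.out]
    intro h
    apply P.not_dvd_index
    exact (h.trans (relIndex_dvd_index_of_le (centralizer_le_normalizer _))).trans
      (index_dvd_of_le hP)
  intro a ha
  exact h1 (show (⟨a, hAQ ha⟩ : normalizer (Q : Set G)) ∈ _ from ha)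

theorem aux {p : ℕ} [Fact p.Prime] (G : Type*) [Group G] [Finite G] (hG : IsPSolvable p G) :
    ∀ (Q A : Subgroup G) (P : Sylow p G), (Nat.card Q).Coprime p → IsPGroup p A →
      A ≤ normalizer (Q : Set G) → Q ≤ normalizer ((P : Subgroup G) : Set G) → ⁅Q, A⁆ = ⊥ := by
  refine IsPSolvable.induction (P := fun G _ _ => ∀ (Q A : Subgroup G) (P : Sylow p G),
    (Nat.card Q).Coprime p → IsPGroup p A → A ≤ normalizer (Q : Set G) →
      Q ≤ normalizer ((P : Subgroup G) : Set G) → ⁅Q, A⁆ = ⊥) ?_ ?_ G hG
  · intro G _ _ _ Q A P _ _ _ _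
    exact Subsingleton.elim _ _
  · intro G _ _ N _ _ _ hN ih Q A P hQ hA hAQ hQP
    have h1 := ih (Q.map (QuotientGroup.mk' N)) (A.map (QuotientGroup.mk' N))
      (P.mapSurjective (QuotientGroup.mk'_surjective N))
      (hQ.coprime_dvd_left (Subgroup.card_map_dvd _ _)) (hA.map _)
      ((map_mono hAQ).trans (le_normalizer_map _)) ((map_mono hQP).trans (le_normalizer_map _))
    rw [← map_commutator, Subgroup.map_eq_bot_iff, QuotientGroup.ker_mk'] at h1
    have h2 : ⁅Q, A⁆ ≤ Q := commutator_le_left_of_le_normalizer hAQ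
    rcases hN with hN | hN
    · rw [eq_bot_iff, ← inf_eq_bot_of_isPGroup_of_coprime hN hQ]
      exact le_inf h1 h2
    · have h3 : (P : Subgroup G) ≤ centralizer ((⁅Q, A⁆ : Subgroup G) : Set G) := by
        rw [← commutator_eq_bot_iff_le_centralizer, eq_bot_iff,
          ← inf_eq_bot_of_isPGroup_of_coprime P.isPGroup' hN]
        exact le_inf (commutator_le_left_of_le_normalizer (h2.trans hQP))
          ((commutator_mono le_rfl h1).trans (commutator_le_right _ _))
      have h4 := le_of_le_normalizer P hA (right_le_normalizer_commutator Q A) h3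
      rw [← Coprime.commutator_commutator hAQ (coprime_card_of_isPGroup hA hQ),
        commutator_eq_bot_iff_le_centralizer, le_centralizer_iff]
      exact h4

/-- Let G be a finite p-solvable group and Q a subgroup of order prime to p such that p divides the index of C_G(Q) in N_G(Q). Then Q normalizes no Sylow p-subgroup of G. -/
theorem result {G : Type*} [Group G] [Finite G] {p : ℕ} [Fact p.Prime]
    (hG : Cfsg.IsPSolvable p G) (Q : Subgroup G) (hQ : ¬ p ∣ Nat.card Q)
    (hA : p ∣ (Subgroup.centralizer (Q : Set G)).relIndex (Subgroup.normalizer (Q : Set G)))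
    (P : Sylow p G) : ¬ Q ≤ Subgroup.normalizer ((P : Subgroup G) : Set G) := by
  intro h
  obtain ⟨S⟩ : Nonempty (Sylow p (normalizer (Q : Set G))) := inferInstance
  have h1 := aux G hG Q ((S : Subgroup _).map (normalizer (Q : Set G)).subtype) P
    ((Nat.Prime.coprime_iff_not_dvd Fact.out).mpr hQ).symm (S.isPGroup'.map _)
    (map_subtype_le _) h
  rw [commutator_eq_bot_iff_le_centralizer, le_centralizer_iff, map_le_iff_le_comap] at h1
  exact S.not_dvd_index (hA.trans (index_dvd_of_le h1))

end Cfsg.Agent.S1901
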