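import Cfsg.Statements.S1902
import Cfsg.Agent.Trans.PQOdd
import Cfsg.Agent.Block.SylowIn

set_option autoImplicit false
open Cfsg

open Subgroup Cfsg.Lib.Solv Cfsg.Lib.Trans Cfsg.Lib.Block

namespace Cfsg.Agent.S1902

/-- Let p be an odd prime, G a finite p-solvable group, and B an elementary abelian subgroup of order p² such that B is the subgroup generated by the elements of order p of some Sylow p-subgroup of C_G(b₀), for some nontrivial b₀ ∈ B. Then every B-invariant subgroup of G of order prime to p lies in O_{p'}(G). -/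
theorem result {G : Type*} [Group G] [Finite G] {p : ℕ} [Fact p.Prime] (hp : p ≠ 2)
    (hG : Cfsg.IsPSolvable p G) (B : Subgroup G) (hB : Cfsg.IsElementaryAbelian p B) (hBc : Nat.card B = p ^ 2)
    (b₀ : G) (hb₀ : b₀ ∈ B) (hb₁ : b₀ ≠ 1) (P : Sylow p ↥(Subgroup.centralizer ({b₀} : Set G)))
    (hBP : B = Subgroup.closure {x : G | x ∈ ((P : Subgroup ↥(Subgroup.centralizer ({b₀} : Set G))).map
      (Subgroup.centralizer ({b₀} : Set G)).subtype : Subgroup G) ∧ orderOf x = p})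
    (Q : Subgroup G) (hQ : ¬ p ∣ Nat.card Q) (hinv : ∀ b ∈ B, ∀ x ∈ Q, b * x * b⁻¹ ∈ Q) :
    Q ≤ Cfsg.pPrimeCore p G := by
  have hcomm : ∀ x ∈ B, ∀ y ∈ B, x * y = y * x := fun x hx y hy =>
    congrArg Subtype.val (hB.1.is_comm.comm (⟨x, hx⟩ : B) ⟨y, hy⟩)
  have hBQ : B ≤ normalizer (Q : Set G) := fun b hb => mem_normalizer_of_conj_mem (hinv b hb)
  refine le_pPrimeCore_of_pq_odd hp (isPConstrained_of_isPSolvable hG)
    (IsPGroup.of_card hBc) ((Nat.Prime.coprime_iff_not_dvd Fact.out).mpr hQ).symm hBQ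
    fun x hx hxp => hBQ ?_
  let E : Subgroup G :=
    { carrier := {y | ∃ b ∈ B, ∃ n : ℕ, y = b * x ^ n}
      one_mem' := ⟨1, one_mem _, 0, by simp⟩
      mul_mem' := by
        rintro _ _ ⟨b, hb, n, rfl⟩ ⟨c, hc, m, rfl⟩
        refine ⟨b * c, mul_mem hb hc, n + m, ?_⟩
        have : x ^ n * c = c * x ^ n := (pow_mem hx n c hc).symm
        rw [mul_assoc, ← mul_assoc (x ^ n), this, pow_add]
        simp only [mul_assoc]
      inv_mem' := by
        rintro _ ⟨b, hb, n, rfl⟩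
        refine ⟨b⁻¹, inv_mem hb, n * (p - 1), ?_⟩
        have h1 : x ^ n * x ^ (n * (p - 1)) = 1 := by
          rw [← pow_add, ← mul_one_add, Nat.add_sub_cancel' (Fact.out : p.Prime).one_le, mul_comm,
            pow_mul, hxp, one_pow]
        rw [mul_inv_rev, inv_eq_of_mul_eq_one_right h1]
        exact (pow_mem hx _ _ (inv_mem hb)).symm }
  have hE : ∀ y ∈ E, y ^ p = 1 := by
    rintro _ ⟨b, hb, n, rfl⟩
    rw [Commute.mul_pow (pow_mem hx n b hb), hB.2 b hb, ← pow_mul, mul_comm n, pow_mul, hxp]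
    simp
  have hEC : E ≤ centralizer ({b₀} : Set G) := by
    rintro _ ⟨b, hb, n, rfl⟩
    refine mul_mem ?_ (pow_mem ?_ n)
    · rintro _ rfl; exact hcomm _ hb₀ _ hb
    · rintro _ rfl; exact hx _ hb₀
  obtain ⟨c, -, hc⟩ := (isSylowIn_map p _ P).exists_conj_le
    (Q := E) (fun y => ⟨1, Subtype.ext (by simpa using hE y y.2)⟩) hEC
  have h2 : E.map (MulAut.conj c).toMonoidHom ≤ B := by
    intro y hy
    by_cases h1 : y = 1
    · rw [h1]; exact one_mem _
    · rw [hBP]
      refine subset_closure ⟨hc hy, orderOf_eq_prime ?_ h1⟩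
      obtain ⟨z, hz, rfl⟩ := hy
      rw [← map_pow, hE z hz, map_one]
  have h3 : B = E := eq_of_le_of_card_ge (fun b hb => ⟨b, hb, 0, by simp⟩)
    (card_map_conj E c ▸ card_le_of_le h2)
  rw [h3]
  exact ⟨1, one_mem _, 1, by simp⟩

end Cfsg.Agent.S1902
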