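import Cfsg.Statements.S1905
import Cfsg.Agent.Local.StronglyEmbTwo
import Cfsg.Agent.Local.InvolCount

set_option autoImplicit false
open Cfsg

namespace Cfsg.Agent.S1905

open Cfsg.Lib.Local

/-- Let M be a subgroup of even order of a finite group S such that M contains the centralizer in S of each of its involutions and the normal core of M in S has odd order. Then all involutions of S are conjugate. If moreover N_S(X) ≤ M for a Sylow 2-subgroup X of M and I is an involution in the centre of X, then all involutions of M are conjugate in M and M = M₀ C_M(I) for some subgroup M₀ of M of odd order. -/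
theorem result {S : Type*} [Group S] [Finite S] (M : Subgroup S) (hM : Even (Nat.card M))
    (hC : ∀ i ∈ M, orderOf i = 2 → Subgroup.centralizer ({i} : Set S) ≤ M) (hcore : Odd (Nat.card M.normalCore)) :
    (∀ x y : S, orderOf x = 2 → orderOf y = 2 → IsConj x y) ∧
      ∀ (X : Sylow 2 M) (I : M), I ∈ (Subgroup.center ↥(X : Subgroup ↥M)).map (X : Subgroup ↥M).subtype → orderOf I = 2 →
        Subgroup.normalizer (((X : Subgroup M).map M.subtype : Subgroup S) : Set S) ≤ M →
        (∀ x y : M, orderOf x = 2 → orderOf y = 2 → IsConj x y) ∧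
          ∃ M₀ : Subgroup M, Odd (Nat.card M₀) ∧
            ∀ m : M, ∃ a ∈ M₀, ∃ c ∈ Subgroup.centralizer ({I} : Set M), m = a * c := by
  haveI : Fact (Nat.Prime 2) := ⟨Nat.prime_two⟩
  obtain ⟨u, huM, hu⟩ := (even_card_iff_exists_involution M).1 hM
  have hodd : ∀ a ∈ M, ∀ b, b ∉ M → orderOf a = 2 → orderOf b = 2 → IsConj a b := by
    intro a haM b hbM ha hb
    refine isConj_of_odd_orderOf_mul ha hb (Nat.not_even_iff_odd.1 fun he => hbM ?_)
    obtain ⟨z, -, hz, hza, hzb⟩ := SE.exists_central_of_even ha hb he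
    have hzM : z ∈ M := hC a haM ha (Subgroup.mem_centralizer_singleton_iff.2 hza)
    exact hC z hzM hz (Subgroup.mem_centralizer_singleton_iff.2 hzb.symm)
  obtain ⟨g, hg⟩ : ∃ g : S, g * u * g⁻¹ ∉ M := by
    by_contra hcon
    push Not at hcon
    exact (odd_card_iff_forall_not_involution M.normalCore).1 hcore u hcon hu
  have hv : orderOf (g * u * g⁻¹) = 2 := (orderOf_conj g u).trans hu
  have hall : ∀ x : S, orderOf x = 2 → IsConj u x := by
    intro x hx
    by_cases hxM : x ∈ M
    · exact (isConj_iff.2 ⟨g, rfl⟩ : IsConj u (g * u * g⁻¹)).trans (hodd x hxM _ hg hx hv).symm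
    · exact hodd u huM x hxM hu hx
  refine ⟨fun x y hx hy => (hall x hx).symm.trans (hall y hy), fun X I _ hI hN => ?_⟩
  have hMt : M ≠ ⊤ := by rintro rfl; exact hg trivial
  have hse : SE 2 M := SE.of_centralizer_normalizer' hMt X hN fun x hx ho =>
    hC x (Subgroup.map_subtype_le _ hx) ho
  have hord : ∀ x : M, orderOf x = 2 → orderOf (x : S) = 2 := fun x hx => by
    rw [Subgroup.orderOf_coe, hx]
  refine ⟨fun x y hx hy => ?_, ?_⟩
  · obtain ⟨d, hd, h⟩ := hse.exists_conj_mem (hord x hx) x.2 (hord y hy) y.2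
    exact isConj_iff.2 ⟨⟨d, hd⟩, Subtype.ext h⟩
  · set v := g * u * g⁻¹ with hvdef
    refine ⟨(M ⊓ M.map (MulAut.conj v⁻¹).toMonoidHom).subgroupOf M, ?_, fun m => ?_⟩
    · rw [odd_card_iff_forall_not_involution]
      intro x hx ho
      rw [Subgroup.mem_subgroupOf, Subgroup.mem_inf, mem_map_conj, inv_inv] at hx
      have := hse.odd_orderOf_of_conj_mem hg hx.1 hx.2
      rw [hord x ho] at this
      exact absurd this (by decide)
    · have ht : orderOf ((m * I * m⁻¹ : M) : S) = 2 := hord _ ((orderOf_conj m I).trans hI)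
      obtain ⟨d, hd, hinv, h⟩ := hse.exists_inverted_conj hv hg (hord I hI) I.2 ht (m * I * m⁻¹).2
      refine ⟨⟨d, hd⟩, ?_, (⟨d, hd⟩ : M)⁻¹ * m, ?_, by group⟩
      · rw [Subgroup.mem_subgroupOf, Subgroup.mem_inf, mem_map_conj, inv_inv]
        exact ⟨hd, by rw [hinv]; exact M.inv_mem hd⟩
      · rw [Subgroup.mem_centralizer_singleton_iff]
        have h' : (⟨d, hd⟩ : M) * I * (⟨d, hd⟩ : M)⁻¹ = m * I * m⁻¹ := Subtype.ext h
        calc (⟨d, hd⟩ : M)⁻¹ * m * I = (⟨d, hd⟩ : M)⁻¹ * (m * I * m⁻¹) * m := by group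
          _ = _ := by rw [← h']; group

end Cfsg.Agent.S1905
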