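import Cfsg.Statements.S1906
import Cfsg.Agent.Trans.ThreeIdem
import Cfsg.Agent.Trans.TransferTools
import Cfsg.Agent.Trans.Conj
import Cfsg.Agent.Solv.PGroupNormal
import Cfsg.Agent.Solv.CommCalc

set_option autoImplicit false
open Cfsg

namespace Cfsg.Agent.S1906

open Cfsg.Lib.Trans Cfsg.Lib.Solv Subgroup Matrix
open scoped commutatorElement

theorem exists_neg_one {E F : Type*} [Group E] [Finite E] [Field F] (h2 : (2 : F) ≠ 0)
    (φ : E →* Matrix (Fin 3) (Fin 3) F) (hφ : Function.Injective φ) (hc : ∀ x y : E, x * y = y * x)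
    (hE2 : ∀ x : E, x ^ 2 = 1) (hE8 : Nat.card E = 8) : ∃ a, φ a = -1 := by
  classical
  have hm1 : (-1 : F) ≠ 1 := fun h => h2 (by linear_combination -h)
  by_contra hcon
  push Not at hcon
  have hφ1 : ∀ x, φ x = 1 → x = 1 := fun x hx => hφ (by rw [hx, map_one])
  have hsq : ∀ x : E, φ x * φ x = 1 := fun x => by rw [← map_mul, ← sq, hE2, map_one]
  have hEc : ∀ x y : E, φ x * φ y = φ y * φ x := fun x y => by rw [← map_mul, ← map_mul, hc]
  have := Fintype.ofFinite E
  obtain ⟨g, -, hg⟩ := Finset.exists_mem_notMem_of_card_lt_card (s := {(1 : E)})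
    (t := Finset.univ) (by rw [Finset.card_univ, ← Nat.card_eq_fintype_card, hE8]; simp)
  obtain ⟨h, -, hh⟩ := Finset.exists_mem_notMem_of_card_lt_card (s := {(1 : E), g⁻¹})
    (t := Finset.univ) (by
      rw [Finset.card_univ, ← Nat.card_eq_fintype_card, hE8]
      exact lt_of_le_of_lt (Finset.card_le_two) (by norm_num))
  simp only [Finset.mem_insert, Finset.mem_singleton, not_or] at hg hh
  obtain ⟨P, hP, hP'⟩ := exists_diag_of_four_group h2 (hsq g) (hsq h) (hEc g h)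
    (fun h0 => hg (hφ1 _ h0)) (hcon _) (fun h0 => hh.1 (hφ1 _ h0)) (hcon _)
    (fun h0 => hh.2 (by
      rw [← map_mul] at h0
      exact eq_inv_of_mul_eq_one_right (hφ1 _ h0)))
    (by rw [← map_mul]; exact hcon _)
  choose d hd using fun e : E => hP' (φ e) (hEc e g) (hEc e h)
  have hd2 : ∀ e i, d e i = 1 ∨ d e i = -1 := by
    intro e i
    have h1 : P * (diagonal (d e) * diagonal (d e)) = P * 1 := by
      rw [← mul_assoc, ← hd, mul_assoc, ← hd, ← mul_assoc, hsq, one_mul, mul_one]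
    have h3 := congrFun (congrFun (hP.mul_left_cancel h1) i) i
    rw [diagonal_mul_diagonal, diagonal_apply_eq, one_apply_eq] at h3
    exact mul_self_eq_one_iff.mp h3
  let ψ : E → (Fin 3 → Bool) := fun e i => decide (d e i = 1)
  have hψ : Function.Injective ψ := by
    intro e e' hee
    have h1 : d e = d e' := by
      funext i
      have h3 := congrFun hee i
      simp only [ψ, decide_eq_decide] at h3
      rcases hd2 e i with h | h <;> rcases hd2 e' i with h' | h'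
      · rw [h, h']
      · exact absurd (h'.symm.trans (h3.mp h)) hm1
      · exact absurd (h.symm.trans (h3.mpr h')) hm1
      · rw [h, h']
    refine hφ (hP.mul_right_cancel ?_)
    rw [hd, hd, h1]
  have hsurj := (hψ.bijective_of_nat_card_le (by rw [hE8]; simp)).2
  obtain ⟨e, he⟩ := hsurj fun _ => false
  have h1 : d e = fun _ => -1 := by
    funext i
    have := congrFun he i
    simp only [ψ, decide_eq_false_iff_not] at this
    exact (hd2 e i).resolve_left this
  refine hcon e (hP.mul_right_cancel ?_)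
  rw [hd, h1, ← diagonal_neg, diagonal_one]
  simp

theorem comm_of_two {X F : Type*} [Group X] [Field F] (h2 : (2 : F) ≠ 0)
    (φ : X →* Matrix (Fin 3) (Fin 3) F) (hφ : Function.Injective φ) {u w : X}
    (hu : u ^ 2 = 1) (hw : w ^ 2 = 1) (hu1 : u ≠ 1) (hw1 : w ≠ 1) (huw : u * w ≠ 1)
    (hcu : ∀ x, x * u = u * x) (hcw : ∀ x, x * w = w * x) (hdu : (φ u).det = 1)
    (hdw : (φ w).det = 1) (x y : X) : x * y = y * x := by
  have hm1 : (-1 : F) ≠ 1 := fun h => h2 (by linear_combination -h)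
  have hφ1 : ∀ x, φ x = 1 → x = 1 := fun x hx => hφ (by rw [hx, map_one])
  have hne : ∀ x, (φ x).det = 1 → φ x ≠ -1 := fun x hx h => by
    rw [h, det_neg] at hx
    norm_num at hx
    exact hm1 hx
  obtain ⟨P, hP, hP'⟩ := exists_diag_of_four_group h2 (g := φ u) (h := φ w)
    (by rw [← map_mul, ← sq, hu, map_one]) (by rw [← map_mul, ← sq, hw, map_one])
    (by rw [← map_mul, ← map_mul, hcu]) (fun h => hu1 (hφ1 _ h)) (hne _ hdu)
    (fun h => hw1 (hφ1 _ h)) (hne _ hdw) (fun h => huw (hφ1 _ (by rwa [map_mul])))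
    (by rw [← map_mul]; exact hne _ (by rw [map_mul, det_mul, hdu, hdw, one_mul]))
  refine hφ (hP.mul_right_cancel ?_)
  obtain ⟨d, hd⟩ := hP' (φ x) (by rw [← map_mul, ← map_mul, hcu])
    (by rw [← map_mul, ← map_mul, hcw])
  obtain ⟨d', hd'⟩ := hP' (φ y) (by rw [← map_mul, ← map_mul, hcu])
    (by rw [← map_mul, ← map_mul, hcw])
  rw [map_mul, map_mul, mul_assoc, mul_assoc, hd, hd', ← mul_assoc, ← mul_assoc, hd, hd',
    mul_assoc, mul_assoc, diagonal_mul_diagonal, diagonal_mul_diagonal]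
  simp only [mul_comm]


/-- Let G be a finite group with no subgroup of index 2 whose Sylow 2-subgroup X embeds in GL₃(F) for a finite field F of odd order. If X contains an elementary abelian subgroup of order 8, then X is abelian. -/
theorem result {G : Type*} [Group G] [Finite G] (hG : ∀ H : Subgroup G, H.index ≠ 2) (X : Sylow 2 G)
    {F : Type*} [Field F] [Fintype F] (hF : Odd (Fintype.card F))
    (f : ↥(X : Subgroup G) →* GL (Fin 3) F) (hf : Function.Injective f)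
    (E : Subgroup G) (hE : E ≤ (X : Subgroup G)) (hEa : Cfsg.IsElementaryAbelian 2 E) (hE8 : Nat.card E = 8) :
    IsMulCommutative (X : Subgroup G) := by
  classical
  have h2 : (2 : F) ≠ 0 := by
    intro h
    have h1 : ringChar F = 2 := CharP.ringChar_of_prime_eq_zero Nat.prime_two (by exact_mod_cast h)
    have := FiniteField.even_card_of_char_two h1
    rw [Nat.odd_iff] at hF
    omega
  have hm1 : (-1 : F) ≠ 1 := fun h => h2 (by linear_combination -h)
  obtain ⟨φ, hφ⟩ : ∃ φ : (X : Subgroup G) →* Matrix (Fin 3) (Fin 3) F, Function.Injective φ :=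
    ⟨(Units.coeHom _).comp f, Units.val_injective.comp hf⟩
  have := hEa.1
  obtain ⟨⟨a, haE⟩, ha⟩ := exists_neg_one h2 (φ.comp (inclusion hE))
    (hφ.comp (inclusion_injective hE)) (fun x y => mul_comm' x y)
    (fun x => Subtype.ext (hEa.2 x x.2)) hE8
  have haX := hE haE
  replace ha : φ ⟨a, haX⟩ = -1 := ha
  obtain ⟨δ, hδ⟩ : ∃ δ : (X : Subgroup G) →* F, ∀ x, δ x = (φ x).det :=
    ⟨detMonoidHom.comp φ, fun _ => rfl⟩
  obtain ⟨T, hT⟩ : ∃ T : Subgroup G, ∀ x (hx : x ∈ (X : Subgroup G)), x ∈ T ↔ δ ⟨x, hx⟩ = 1 :=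
    ⟨δ.ker.map (X : Subgroup G).subtype, fun x hx => by
      constructor
      · rintro ⟨y, hy, rfl⟩
        exact hy
      · exact fun h => ⟨⟨x, hx⟩, h, rfl⟩⟩
  have hcT : ∀ x ∈ (X : Subgroup G), ∀ y ∈ (X : Subgroup G), ⁅x, y⁆ ∈ T := by
    intro x hx y hy
    have h0 : δ ⁅(⟨x, hx⟩ : (X : Subgroup G)), ⟨y, hy⟩⁆ = 1 := by
      rw [commutatorElement_def, map_mul, map_mul, map_mul, mul_comm (δ _) (δ ⟨y, hy⟩),
        mul_assoc (δ _), ← map_mul, mul_inv_cancel, map_one, mul_one, ← map_mul, mul_inv_cancel,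
        map_one]
    exact (hT _ (⁅(⟨x, hx⟩ : (X : Subgroup G)), ⟨y, hy⟩⁆ : (X : Subgroup G)).2).mpr h0
  have haT : a ∉ T := fun h => by
    have h1 := (hT a haX).mp h
    rw [hδ, ha, det_neg] at h1
    norm_num at h1
    exact hm1 h1
  have ha1 : a ≠ 1 := fun h => haT (by rw [h]; exact T.one_mem)
  have ha2 : orderOf a = 2 := orderOf_eq_prime (hEa.2 _ haE) ha1
  have hac : ∀ r ∈ (X : Subgroup G), r * a = a * r := by
    intro r hr
    have : φ (⟨r, hr⟩ * ⟨a, haX⟩) = φ (⟨a, haX⟩ * ⟨r, hr⟩) := by rw [map_mul, map_mul, ha]; simp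
    exact congrArg Subtype.val (hφ this)
  have key : ∀ w (hw : w ∈ (X : Subgroup G)), orderOf w = 2 → w ∉ T → δ ⟨w, hw⟩ = -1 := by
    intro w hw hw2 hwT
    have h0 : w ^ 2 = 1 := by rw [← hw2]; exact pow_orderOf_eq_one w
    have h3 : (⟨w, hw⟩ : (X : Subgroup G)) * ⟨w, hw⟩ = 1 := Subtype.ext ((sq w).symm.trans h0)
    have h1 : δ ⟨w, hw⟩ * δ ⟨w, hw⟩ = 1 := by rw [← map_mul, h3, map_one]
    exact (mul_self_eq_one_iff.mp h1).resolve_left fun h => hwT ((hT w hw).mpr h)
  have k1 : ∀ x ∈ (X : Subgroup G), ∃ k, x ^ 2 ^ k ∈ T := fun x hx => by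
    obtain ⟨k, hk⟩ := X.isPGroup' ⟨x, hx⟩
    have : x ^ 2 ^ k = 1 := congrArg Subtype.val hk
    exact ⟨k, by rw [this]; exact T.one_mem⟩
  have k2 : ∀ u ∈ (X : Subgroup G), ∀ v ∈ (X : Subgroup G), orderOf u = 2 → orderOf v = 2 →
      u ∉ T → v ∉ T → u * v ∈ T := fun u hu v hv hu2 hv2 huT hvT => by
    have h0 : δ (⟨u, hu⟩ * ⟨v, hv⟩) = 1 := by
      rw [map_mul, key u hu hu2 huT, key v hv hv2 hvT, neg_mul_neg, one_mul]
    exact (hT _ (mul_mem hu hv)).mpr h0
  have k3 : a ∈ commutator G ⊔ pResidual 2 G := by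
    rw [pResidual_two_eq_top_iff.mpr hG]; exact mem_sup_right (mem_top _)
  obtain ⟨g, hg1, hg2, hg3⟩ := thompson_transfer_involution X.not_dvd_index hcT k1 a ha2 k2 k3
    X X.isPGroup' hac
  have hgN : g⁻¹ ∈ normalizer ((X : Subgroup G) : Set G) :=
    mem_normalizer_of_cj_le (cj_le_iff.mpr fun t ht => by rw [inv_inv]; exact hg3 t ht)
  have hcjX : cj g⁻¹ (X : Subgroup G) = X := cj_eq_of_mem_normalizer hgN
  by_contra hna
  have hX1 : (⁅(X : Subgroup G), (X : Subgroup G)⁆).subgroupOf X ≠ ⊥ := by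
    rw [Ne, subgroupOf_eq_bot, disjoint_iff, inf_of_le_left (commutator_le_self _),
      commutator_eq_bot_iff_le_centralizer, le_centralizer_iff_isMulCommutative]
    exact hna
  have hn : ((⁅(X : Subgroup G), (X : Subgroup G)⁆).subgroupOf X).Normal :=
    (normal_subgroupOf_iff_le_normalizer (commutator_le_self _)).mpr
      (left_le_normalizer_commutator _ _)
  obtain ⟨⟨z, hzX⟩, hz, hzc, hz2⟩ := PG.exists_mem_center_orderOf_eq X.isPGroup' _ hX1
  replace hz : z ∈ ⁅(X : Subgroup G), (X : Subgroup G)⁆ := hz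
  replace hz2 : orderOf z = 2 := by rwa [← Subgroup.orderOf_coe] at hz2
  have hXT : ⁅(X : Subgroup G), (X : Subgroup G)⁆ ≤ T := commutator_le.mpr hcT
  have hw : g⁻¹ * z * g ∈ ⁅(X : Subgroup G), (X : Subgroup G)⁆ := by
    rw [← hcjX, ← cj_commutator, mem_cj]
    simpa [mul_assoc] using hz
  have hcen : ∀ y : G, (∀ r ∈ (X : Subgroup G), r * y = y * r) → ∀ r ∈ (X : Subgroup G),
      r * (g⁻¹ * y * g) = g⁻¹ * y * g * r := by
    intro y hy r hr
    have h1 : g * r * g⁻¹ ∈ (X : Subgroup G) := by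
      rw [← hcjX, mem_cj, inv_inv] at hr; exact hr
    calc r * (g⁻¹ * y * g) = g⁻¹ * (g * r * g⁻¹ * y) * g := by group
      _ = g⁻¹ * y * g * r := by rw [hy _ h1]; group
  have hzc' : ∀ r ∈ (X : Subgroup G), r * z = z * r := fun r hr =>
    congrArg Subtype.val (mem_center_iff.mp hzc ⟨r, hr⟩)
  have hsq' : ∀ y : G, y ^ 2 = 1 → (g⁻¹ * y * g) ^ 2 = 1 := fun y hy => by
    have := conj_pow (i := 2) (a := g⁻¹) (b := y)
    rw [inv_inv, hy] at this
    simpa using this
  have hz2' : z ^ 2 = 1 := by rw [← hz2]; exact pow_orderOf_eq_one z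
  have hz1 : z ≠ 1 := fun h => by
    rw [h, orderOf_one] at hz2
    exact absurd hz2 (by decide)
  have hconj1 : ∀ y : G, g⁻¹ * y * g = 1 → y = 1 := fun y hy => by
    have : y = g * (g⁻¹ * y * g) * g⁻¹ := by group
    rw [this, hy]; simp
  have hwX := commutator_le_self _ hw
  refine hna ⟨⟨comm_of_two h2 φ hφ (u := ⟨_, hg1⟩) (w := ⟨_, hwX⟩)
    (Subtype.ext (hsq' _ (hEa.2 _ haE))) (Subtype.ext (hsq' _ hz2'))
    (fun h => ha1 (hconj1 _ (congrArg Subtype.val h)))
    (fun h => hz1 (hconj1 _ (congrArg Subtype.val h))) (fun h => ?_)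
    (fun x => Subtype.ext (hcen _ hac x x.2)) (fun x => Subtype.ext (hcen _ hzc' x x.2))
    (by rw [← hδ]; exact (hT _ hg1).mp hg2) (by rw [← hδ]; exact (hT _ hwX).mp (hXT hw))⟩⟩
  have h1 : g⁻¹ * a * g * (g⁻¹ * z * g) = 1 := congrArg Subtype.val h
  have h3 : a * z = 1 := hconj1 _ (by rw [← h1]; group)
  rw [eq_inv_of_mul_eq_one_left h3] at haT
  exact haT (T.inv_mem (hXT hz))

end Cfsg.Agent.S1906
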