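import Cfsg.Statements.S1907
import Cfsg.Agent.Solv.CoprimeFixed
import Cfsg.Agent.Solv.PConstrained

set_option autoImplicit false
open Cfsg

open Subgroup Cfsg.Lib.Solv
open scoped commutatorElement

namespace Cfsg.Agent.S1907

/-- Let P be a Sylow p-subgroup of a finite group G, H = P ∩ O_{p',p}(G), N = N_G(H) and D = O_{p'}(G). (a) If y is an element of p-power order of N and d ∈ D with d⁻¹ y d ∈ N, then d = d₁ d₂ with d₁ ∈ C_D(y) and d₂ ∈ C_D(H). (b) Two elements of P that are conjugate in G are conjugate in N. -/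
theorem result {G : Type*} [Group G] [Finite G] {p : ℕ} [Fact p.Prime] (P : Sylow p G) :
    (∀ y ∈ Subgroup.normalizer (((P : Subgroup G) ⊓ Cfsg.pPrimePCore p G : Subgroup G) : Set G), (∃ k : ℕ, orderOf y = p ^ k) →
      ∀ d ∈ Cfsg.pPrimeCore p G, d⁻¹ * y * d ∈ Subgroup.normalizer (((P : Subgroup G) ⊓ Cfsg.pPrimePCore p G : Subgroup G) : Set G) →
        ∃ d₁ ∈ Cfsg.pPrimeCore p G ⊓ Subgroup.centralizer ({y} : Set G),
          ∃ d₂ ∈ Cfsg.pPrimeCore p G ⊓ Subgroup.centralizer (((P : Subgroup G) ⊓ Cfsg.pPrimePCore p G : Subgroup G) : Set G), d = d₁ * d₂) ∧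
    ∀ x y : G, x ∈ (P : Subgroup G) → y ∈ (P : Subgroup G) → IsConj x y →
      ∃ n ∈ Subgroup.normalizer (((P : Subgroup G) ⊓ Cfsg.pPrimePCore p G : Subgroup G) : Set G), n * x * n⁻¹ = y := by
  set H := (P : Subgroup G) ⊓ pPrimePCore p G with hH
  set D := pPrimeCore p G with hD
  have hDn : D.Normal := pPrimeCore_normal p G
  have hHp : IsPGroup p H := P.isPGroup'.to_le inf_le_left
  have hDc : (Nat.card D).Coprime p := coprime_card_pPrimeCore p G
  have hE : D ⊓ normalizer (H : Set G) ≤ centralizer (H : Set G) := by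
    rw [← commutator_eq_bot_iff_le_centralizer, eq_bot_iff,
      ← inf_eq_bot_of_isPGroup_of_coprime hHp hDc]
    exact le_inf (commutator_le_right_of_le_normalizer inf_le_right)
      ((commutator_mono inf_le_left le_rfl).trans (commutator_le_left _ _))
  have ha : ∀ y ∈ normalizer (H : Set G), (∃ k : ℕ, orderOf y = p ^ k) →
      ∀ d ∈ D, d⁻¹ * y * d ∈ normalizer (H : Set G) →
        ∃ d₁ ∈ D ⊓ centralizer ({y} : Set G), ∃ d₂ ∈ D ⊓ centralizer (H : Set G), d = d₁ * d₂ := by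
    rintro y hy ⟨k, hk⟩ d hd hdy
    have h1 : zpowers y ≤ normalizer ((D ⊓ normalizer (H : Set G) : Subgroup G) : Set G) :=
      le_normalizer_inf le_normalizer_of_normal (((zpowers_le.mpr hy)).trans le_normalizer)
    have h2 : (Nat.card (zpowers y)).Coprime
        (Nat.card (D ⊓ normalizer (H : Set G) : Subgroup G)) := by
      rw [Nat.card_zpowers, hk]
      exact (hDc.symm.coprime_dvd_right (card_dvd_of_le inf_le_left)).pow_left k
    obtain ⟨e, he, hc⟩ := Coprime.exists_mul_mem_centralizer h1 h2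
      (Or.inl (Coprime.isSolvable_zpowers y)) (g := d) (by
        rintro _ ⟨n, rfl⟩
        refine ⟨D.mul_mem (D.inv_mem hd) (hDn.conj_mem d hd _), ?_⟩
        have e1 : d⁻¹ * (y ^ n * d * (y ^ n)⁻¹) = (d⁻¹ * y * d⁻¹⁻¹) ^ n * (y ^ n)⁻¹ := by
          rw [conj_zpow]; group
        simp only
        rw [e1, inv_inv]
        exact Subgroup.mul_mem _ (Subgroup.zpow_mem _ hdy n) (Subgroup.inv_mem _ (Subgroup.zpow_mem _ hy n)))
    refine ⟨d * e, ⟨mul_mem hd he.1, ?_⟩, e⁻¹, inv_mem ⟨he.1, hE he⟩, by group⟩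
    exact centralizer_le (Set.singleton_subset_iff.mpr (mem_zpowers y)) hc
  refine ⟨ha, fun x y hx hy hxy => ?_⟩
  have hPN : (P : Subgroup G) ≤ normalizer (H : Set G) :=
    le_normalizer_inf le_normalizer le_normalizer_of_normal
  obtain ⟨g, rfl⟩ := isConj_iff.mp hxy
  have hg : g ∈ normalizer (H : Set G) ⊔ D :=
    (normalizer_sup_pPrimeCore_eq_top hHp (pPrimeCore_sup_sylow_inf P)).symm ▸ mem_top g
  obtain ⟨n, hn, d, hd, rfl⟩ := mem_sup_of_normal_right.mp hg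
  obtain ⟨d₁, hd₁, d₂, hd₂, h⟩ := ha x (hPN hx)
    (by simpa using IsPGroup.iff_orderOf.mp P.isPGroup' ⟨x, hx⟩) d⁻¹ (inv_mem hd) (by
      have := mul_mem (mul_mem (inv_mem hn) (hPN hy)) hn
      simpa [mul_assoc] using this)
  refine ⟨n * d₂⁻¹, mul_mem hn (inv_mem (centralizer_le_normalizer _ hd₂.2)), ?_⟩
  have h3 : x * d₁ = d₁ * x := hd₁.2 x rfl
  rw [inv_eq_iff_eq_inv] at h
  rw [h]
  calc n * d₂⁻¹ * x * (n * d₂⁻¹)⁻¹ = n * d₂⁻¹ * d₁⁻¹ * (d₁ * x) * (n * d₂⁻¹)⁻¹ := by group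
    _ = _ := by rw [← h3]; group

end Cfsg.Agent.S1907
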