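import Cfsg.Statements.S1924
import Cfsg.Agent.Trans.TransferTools
import Mathlib.GroupTheory.Perm.Cycle.Type

set_option autoImplicit false
open Cfsg

namespace Cfsg.Agent.S1924

open Subgroup Cfsg.Lib.Trans Equiv

/-- An element of even order acting semiregularly with an odd number of cycles is not in `O²`. -/
theorem not_mem_res {G : Type*} [Group G] [Finite G] (H : Subgroup G) {c : G} {N : ℕ}
    (h2 : Even (orderOf c)) (hN : Odd N) (hi : H.index = orderOf c * N)
    (h : ∀ (j : ℕ) (g : G), g * c ^ j * g⁻¹ ∈ H → c ^ j = 1) : c ∉ pResidual 2 G := by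
  classical
  haveI := Fintype.ofFinite (G ⧸ H)
  set σ := MulAction.toPermHom G (G ⧸ H) c with hσ
  have h1 : ∀ (j : ℕ) (x : G ⧸ H), (σ ^ j) x = x → c ^ j = 1 := fun j x hx => by
    rw [hσ, ← map_pow] at hx
    exact h j x.out⁻¹ (by simpa using (smul_eq_iff_out_conj_mem _ x).1 hx)
  have h3 : ∀ l ∈ σ.cycleType, l = orderOf c := fun l hl => by
    refine Nat.dvd_antisymm ((Perm.dvd_of_mem_cycleType hl).trans (orderOf_map_dvd _ c)) ?_
    obtain ⟨a, τ, e, hd, ha, rfl⟩ := Perm.mem_cycleType_iff.1 hl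
    obtain ⟨x, hx, -⟩ := id ha
    refine orderOf_dvd_of_pow_eq_one (h1 _ x ?_)
    rw [e, hd.commute.mul_pow, ← ha.orderOf, pow_orderOf_eq_one, one_mul]
    exact Perm.pow_apply_eq_self_of_apply_eq_self ((hd x).resolve_left hx) _
  have h4 : σ.cycleType.sum = orderOf c * N := by
    rw [Perm.sum_cycleType, ← hi, index_eq_card, Nat.card_eq_fintype_card, ← Finset.card_univ]
    congr 1
    refine Finset.eq_univ_of_forall fun x => Perm.mem_support.2 fun hx => ?_
    have := h1 1 x (by rwa [pow_one])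
    rw [pow_one] at this
    rw [this, orderOf_one] at h2
    exact absurd h2 (by decide)
  have h5 : σ.cycleType.card = N := by
    rw [Multiset.eq_replicate_card.2 h3, Multiset.sum_replicate, smul_eq_mul, mul_comm] at h4
    exact Nat.eq_of_mul_eq_mul_left (orderOf_pos c) h4
  intro hc
  have h6 : Perm.sign σ = 1 := pResidual_le_ker (Perm.sign.comp (MulAction.toPermHom G (G ⧸ H)))
    (IsPGroup.of_card (n := 1) (by simp)) hc
  rw [Perm.sign_of_cycleType, h4, h5, ((h2.mul_right N).add_odd hN).neg_one_pow] at h6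
  exact absurd h6 (by decide)

theorem dih {n : ℕ} (hn : 2 ≤ n) {C : Subgroup (DihedralGroup n)} (hC : IsCyclic C)
    (hi : C.index = 2) {x : DihedralGroup n} (hx : x ∉ C) : orderOf x = 2 := by
  haveI : NeZero n := ⟨by omega⟩
  have h1 := C.card_mul_index
  rw [hi, DihedralGroup.nat_card] at h1
  obtain ⟨g, hg⟩ := hC.exists_ofOrder_eq_natCard
  rw [← orderOf_coe, show Nat.card C = n by omega] at hg
  rcases x with i | i
  · rcases hg' : (g : DihedralGroup n) with k | k
    · refine (hx ?_).elim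
      have h2 : zpowers (DihedralGroup.r k) = zpowers (DihedralGroup.r (1 : ZMod n)) :=
        eq_of_le_of_card_ge (zpowers_le.2 ⟨k.val, by simp⟩) (by
          rw [Nat.card_zpowers, Nat.card_zpowers, DihedralGroup.orderOf_r_one, ← hg', hg])
      refine zpowers_le.2 g.2 ?_
      rw [hg', h2]
      exact ⟨i.val, by simp⟩
    · rw [hg', DihedralGroup.orderOf_sr] at hg
      subst hg
      refine orderOf_eq_prime ?_ fun h => hx (h ▸ one_mem C)
      exact (by decide : ∀ i : ZMod 2, DihedralGroup.r i ^ 2 = 1) i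
  · exact DihedralGroup.orderOf_sr i


/-- A consequence of Thompson's transfer lemma. Let G be a finite group, L a subgroup with O²(L) = L, T a Sylow 2-subgroup of L and S a Sylow 2-subgroup of G containing T. Suppose D ≤ S is a dihedral subgroup of order at least 4 (the four-group counts) with D ∩ T = 1 and S = TD as a set of products (so |S| = |T|·|D|), and C ≤ D is cyclic of index 2 in D. If no involution of D outside C is G-conjugate to an involution of the subgroup generated by T and C, and the involution of C is not G-conjugate to any involution of T, then G has a normal subgroup K, containing every Sylow 2-subgroup of L as a Sylow 2-subgroup, with G = KD. -/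
theorem result {G : Type*} [Group G] [Finite G] (L T S D C : Subgroup G) (hL : Cfsg.pResidual 2 ↥L = ⊤)
    (hTL : T ≤ L) (hT2 : IsPGroup 2 T) (hTsyl : ¬ 2 ∣ T.relIndex L)
    (hS2 : IsPGroup 2 S) (hSsyl : ¬ 2 ∣ S.index) (hTS : T ≤ S)
    (hDS : D ≤ S) (hDih : ∃ n : ℕ, 2 ≤ n ∧ Nonempty (↥D ≃* DihedralGroup n)) (hDT : D ⊓ T = ⊥) (hTD : T ⊔ D = S) (hTDc : Nat.card T * Nat.card D = Nat.card S)
    (hCD : C ≤ D) (hC : IsCyclic ↥C) (hCi : C.relIndex D = 2)
    (h1 : ∀ x ∈ D, x ∉ C → orderOf x = 2 → ∀ g : G, g * x * g⁻¹ ∈ T ⊔ C → False)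
    (h2 : ∀ c ∈ C, orderOf c = 2 → ∀ g : G, g * c * g⁻¹ ∈ T → False) :
    ∃ K : Subgroup G, K.Normal ∧ K ⊔ D = ⊤ ∧
      ∀ T' : Subgroup G, T' ≤ L → IsPGroup 2 T' → ¬ 2 ∣ T'.relIndex L → T' ≤ K ∧ ¬ 2 ∣ T'.relIndex K := by
  set K := pResidual 2 G
  have hLK : L ≤ K := fun x hx => map_pResidual_le L.subtype ⟨⟨x, hx⟩, hL ▸ mem_top _, rfl⟩
  have hodd : Odd S.index := Nat.not_even_iff_odd.1 fun h => hSsyl h.two_dvd
  have hmul : ∀ {A : Subgroup G}, A ≤ D → Nat.card T * Nat.card A ≤ Nat.card (T ⊔ A : Subgroup G) :=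
    fun {A} hA => by
      rw [← Nat.card_prod]
      refine Nat.card_le_card_of_injective (fun x => ⟨x.1 * x.2, mul_mem (mem_sup_left x.1.2)
        (mem_sup_right x.2.2)⟩) fun x y h => ?_
      have h1 : (x.1 : G) * x.2 = y.1 * y.2 := congrArg Subtype.val h
      have h2 : (y.1 : G)⁻¹ * x.1 = y.2 * (x.2 : G)⁻¹ := by
        rw [inv_mul_eq_iff_eq_mul, ← mul_assoc, ← h1, mul_inv_cancel_right]
      have h3 : (y.1 : G)⁻¹ * x.1 = 1 := hDT.le
        ⟨h2 ▸ D.mul_mem (hA y.2.2) (D.inv_mem (hA x.2.2)), T.mul_mem (T.inv_mem y.1.2) x.1.2⟩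
      exact Prod.ext (Subtype.ext (inv_mul_eq_one.1 h3).symm)
        (Subtype.ext (mul_inv_eq_one.1 (h2 ▸ h3)).symm)
  have hprod : ∀ s ∈ S, ∃ t ∈ T, ∃ d ∈ D, s = t * d := fun s hs => by
    have hinj : Function.Injective fun x : T × D =>
        (⟨x.1 * x.2, mul_mem (hTS x.1.2) (hDS x.2.2)⟩ : S) := fun x y h => by
      have h1 : (x.1 : G) * x.2 = y.1 * y.2 := congrArg Subtype.val h
      have h2 : (y.1 : G)⁻¹ * x.1 = y.2 * (x.2 : G)⁻¹ := by
        rw [inv_mul_eq_iff_eq_mul, ← mul_assoc, ← h1, mul_inv_cancel_right]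
      have h3 : (y.1 : G)⁻¹ * x.1 = 1 := hDT.le
        ⟨h2 ▸ D.mul_mem y.2.2 (D.inv_mem x.2.2), T.mul_mem (T.inv_mem y.1.2) x.1.2⟩
      exact Prod.ext (Subtype.ext (inv_mul_eq_one.1 h3).symm)
        (Subtype.ext (mul_inv_eq_one.1 (h2 ▸ h3)).symm)
    obtain ⟨x, hx⟩ := ((Nat.bijective_iff_injective_and_card _).2
      ⟨hinj, by rw [Nat.card_prod, hTDc]⟩).2 ⟨s, hs⟩
    exact ⟨_, x.1.2, _, x.2.2, (congrArg Subtype.val hx).symm⟩
  have hKD : K ⊓ D ≤ C := fun x hx => by
    by_contra hxC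
    obtain ⟨n, hn, ⟨e⟩⟩ := hDih
    have ho : orderOf x = 2 := by
      have := dih hn (C := (C.subgroupOf D).map (e : D →* _)) (by
        haveI := (subgroupOfEquivOfLe hCD).isCyclic.2 hC
        exact isCyclic_of_surjective _ (MonoidHom.subgroupMap_surjective _ _))
        (by rw [index_map_equiv]; exact hCi) (x := e ⟨x, hx.2⟩) (by
          rintro ⟨y, hy, h⟩
          exact hxC (e.injective h ▸ hy : (⟨x, hx.2⟩ : D) ∈ C.subgroupOf D))
      rwa [MulEquiv.orderOf_eq, ← orderOf_coe] at this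
    have hle : T ⊔ C ≤ S := sup_le hTS (hCD.trans hDS)
    have h3 : (T ⊔ C).relIndex S = 2 := by
      have e1 := card_mul_index ((T ⊔ C).subgroupOf S)
      have e2 := card_mul_index (C.subgroupOf D)
      rw [Nat.card_congr (subgroupOfEquivOfLe hle).toEquiv] at e1
      rw [Nat.card_congr (subgroupOfEquivOfLe hCD).toEquiv] at e2
      change _ * (T ⊔ C).relIndex S = _ at e1
      change _ * C.relIndex D = _ at e2
      have e3 := hmul hCD
      have e4 : (T ⊔ C).relIndex S ≠ 1 := fun h =>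
        h1 x hx.2 hxC ho 1 (by simpa using relIndex_eq_one.1 h (hDS hx.2))
      have e5 : 0 < Nat.card (T ⊔ C : Subgroup G) := Nat.card_pos
      have e6 : 0 < Nat.card S := Nat.card_pos
      rw [hCi] at e2
      generalize (T ⊔ C).relIndex S = k at e1 e4
      rcases k with _ | _ | _ | k <;> [omega; omega; rfl; nlinarith]
    refine not_mem_res (T ⊔ C) (ho ▸ even_two) hodd
      (by rw [ho, ← h3, relIndex_mul_index hle]) (fun j g hg => ?_) hx.1
    rw [← pow_mod_orderOf, ho] at hg ⊢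
    rcases Nat.mod_two_eq_zero_or_one j with h | h <;> rw [h] at hg ⊢
    · exact pow_zero x
    · exact (h1 x hx.2 hxC ho g (by rwa [pow_one] at hg)).elim
  have hKS : ∀ s ∈ K ⊓ S, ∃ t ∈ T, ∃ d ∈ K ⊓ D, s = t * d := fun s hs => by
    obtain ⟨t, ht, d, hd, rfl⟩ := hprod s hs.2
    exact ⟨t, ht, d, ⟨(mul_mem_cancel_left (hLK (hTL ht))).1 hs.1, hd⟩, rfl⟩
  have hKi : Odd ((K ⊓ S).relIndex K) := by
    rw [inf_relIndex_left]
    exact Nat.not_even_iff_odd.1 fun h =>
      not_dvd_relIndex_sylow_of_normal (hS2.toSylow hSsyl) K h.two_dvd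
  have hTK : T.relIndex K = Nat.card (K ⊓ D : Subgroup G) * (K ⊓ S).relIndex K := by
    have hle : T ≤ K ⊓ S := le_inf (hTL.trans hLK) hTS
    rw [← relIndex_mul_relIndex T (K ⊓ S) K hle inf_le_left]
    congr 1
    have e1 := card_mul_index (T.subgroupOf (K ⊓ S))
    rw [Nat.card_congr (subgroupOfEquivOfLe hle).toEquiv] at e1
    refine Nat.eq_of_mul_eq_mul_left (Nat.card_pos (α := T)) (e1.trans (le_antisymm ?_
      ((hmul inf_le_right).trans (card_le_of_le (sup_le hle (inf_le_inf_left _ hDS))))))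
    rw [← Nat.card_prod]
    refine Nat.card_le_card_of_surjective (fun x => ⟨x.1 * x.2, mul_mem (hle x.1.2)
      ⟨x.2.2.1, hDS x.2.2.2⟩⟩) fun s => ?_
    obtain ⟨t, ht, d, hd, e⟩ := hKS s s.2
    exact ⟨(⟨t, ht⟩, ⟨d, hd⟩), Subtype.ext e.symm⟩
  have hb : Nat.card (K ⊓ D : Subgroup G) = 1 := by
    by_contra hne
    obtain ⟨c, hc⟩ := (isCyclic_of_le (H' := C) hKD).exists_ofOrder_eq_natCard
    obtain ⟨k, hk⟩ := (hS2.to_le (inf_le_right.trans hDS : K ⊓ D ≤ S)).exists_card_eq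
    have ho : orderOf (⟨c, c.2.1⟩ : K) = 2 ^ k := (orderOf_mk _ _).trans (by rw [orderOf_coe, hc, hk])
    refine not_mem_res (T.subgroupOf K) (c := ⟨c, c.2.1⟩) (ho ▸ (Nat.even_pow.2 ⟨even_two, ?_⟩))
      hKi (by rw [ho, ← hk]; exact hTK) (fun j g hg => ?_) 
      ((pResidual_pResidual (p := 2) (G := G)).ge (mem_top _))
    · rintro rfl
      exact hne hk
    · by_contra h0
      set y := (⟨c, c.2.1⟩ : K) ^ j
      obtain ⟨z, hz, hz2⟩ : ∃ z ∈ zpowers y, orderOf z = 2 := by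
        obtain ⟨i, -, hi⟩ := (Nat.dvd_prime_pow Nat.prime_two).1 (ho ▸ orderOf_pow_dvd j)
        obtain ⟨z, hz⟩ := exists_prime_orderOf_dvd_card' (G := zpowers y) 2 (by
          rw [Nat.card_zpowers, hi]
          exact dvd_pow_self _ fun h => h0 (orderOf_eq_one_iff.1 (by rw [hi, h, pow_zero])))
        exact ⟨z, z.2, by rw [orderOf_coe, hz]⟩
      obtain ⟨i, rfl⟩ := hz
      refine h2 ((y ^ i : K) : G) (zpow_mem (pow_mem (hKD c.2) j) i) (by rw [orderOf_coe]; exact hz2)
        g ?_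
      have := zpow_mem hg i
      rwa [conj_zpow] at this
  rw [hb, one_mul] at hTK
  refine ⟨K, inferInstance, ?_, fun T' h3 h4 h5 => ⟨h3.trans hLK, ?_⟩⟩
  · obtain ⟨k, hk⟩ := exists_index_pResidual_eq (p := 2) (G := G)
    rw [eq_top_iff, ← sup_eq_top_of_index_pow_of_not_dvd hk hSsyl, ← hTD]
    exact sup_le le_sup_left (sup_le ((hTL.trans hLK).trans le_sup_left) le_sup_right)
  · rw [← relIndex_mul_relIndex T' L K h3 hLK]
    rw [← relIndex_mul_relIndex T L K hTL hLK] at hTK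
    exact fun h => ((Nat.Prime.dvd_mul Nat.prime_two).1 h).elim h5 fun h =>
      Nat.not_even_iff_odd.2 hKi (even_iff_two_dvd.2 (hTK ▸ h.mul_left _))

end Cfsg.Agent.S1924
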