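import Cfsg.Statements.S1935
import Cfsg.Agent.Trans.QuadLimit
import Cfsg.Agent.Trans.Offender
import Cfsg.Agent.Solv.ElemAb

set_option autoImplicit false
open Cfsg

namespace Cfsg.Agent.S1935

open Cfsg.Lib.Trans Cfsg.Lib.Trans.Lim Cfsg.Lib.Trans.TJ Cfsg.Lib.Solv Cfsg.Lib.Solv.Vec Subgroup
open scoped commutatorElement

/-- Let p ≥ 5 be a prime and, inside an ambient finite group, let G be a p-subgroup acting faithfully by conjugation on an elementary abelian p-subgroup V that it normalizes (only the identity of G centralizes V). Suppose V is an F-module for G: some nontrivial elementary abelian subgroup E of G satisfies #E · #C_V(E) ≥ #V. Then G contains such an offender A that moreover acts quadratically on V ([V, A, A] = 1) and is normal in its normal closure in G. -/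
theorem result {Ω : Type*} [Group Ω] [Finite Ω] (p : ℕ) [Fact p.Prime] (hp : 5 ≤ p) (V G : Subgroup Ω) (hV : Cfsg.IsElementaryAbelian p V) (hG : IsPGroup p ↥G) (hGV : G ≤ Subgroup.normalizer (V : Set Ω)) (hfaith : G ⊓ Subgroup.centralizer (V : Set Ω) = ⊥) (hF : ∃ E : Subgroup Ω, E ≤ G ∧ E ≠ ⊥ ∧ Cfsg.IsElementaryAbelian p E ∧ Nat.card ↥V ≤ Nat.card ↥E * Nat.card ↥(V ⊓ Subgroup.centralizer (E : Set Ω))) : ∃ A : Subgroup Ω, A ≤ G ∧ A ≠ ⊥ ∧ Cfsg.IsElementaryAbelian p A ∧ Nat.card ↥V ≤ Nat.card ↥A * Nat.card ↥(V ⊓ Subgroup.centralizer (A : Set Ω)) ∧ ⁅⁅V, A⁆, A⁆ = ⊥ ∧ ∀ g ∈ Subgroup.closure {x : Ω | ∃ h ∈ G, ∃ a ∈ A, x = h * a * h⁻¹}, ∀ a ∈ A, g * a * g⁻¹ ∈ A := by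
  classical
  obtain ⟨E, hEG, hE1, hE, hEo⟩ := hF
  -- a quadratic offender
  obtain ⟨B, hB, hmax⟩ := Set.Finite.exists_maximalFor
    (fun B : Subgroup Ω => Nat.card B * Nat.card ↥(V ⊓ centralizer (B : Set Ω)))
    {B | B ≤ E ∧ B ≠ ⊥} (Set.toFinite _) ⟨E, le_rfl, hE1⟩
  have hmax' : ∀ C : Subgroup Ω, C ≤ E → C ≠ ⊥ → Nat.card C * Nat.card ↥(V ⊓ centralizer (C : Set Ω))
      ≤ Nat.card B * Nat.card ↥(V ⊓ centralizer (B : Set Ω)) := fun C h1 h2 =>
    (le_total _ _).elim id (hmax ⟨h1, h2⟩)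
  have hBG := hB.1.trans hEG
  have hfa : ∀ C : Subgroup Ω, C ≤ G → ⁅V, C⁆ = ⊥ → C = ⊥ := fun C hC h => by
    rw [commutator_eq_bot_iff_le_centralizer, le_centralizer_iff] at h
    exact eq_bot_iff.mpr (hfaith ▸ le_inf hC h)
  have hbest : IsBestOffenderOn p V B := by
    refine ⟨fun C hC => ?_, ?_, fun a ha => by rw [hE.2 a (hB.1 ha)]; exact one_mem _⟩
    · by_cases h : C = ⊥
      · subst h
        refine le_trans ?_ (hEo.trans (hmax' E le_rfl hE1))
        rw [card_bot, one_mul]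
        exact Subgroup.card_le_of_le inf_le_left
      · exact hmax' C (hC.trans hB.1) h
    · exact (commutator_mono hB.1 hB.1).trans ((ea_commutator_self hE).le.trans bot_le)
  obtain ⟨t1, -, t3⟩ := timmesfeld hV (hBG.trans hGV) hbest le_rfl
  set A₀ := B ⊓ centralizer ((⁅V, B⁆ : Subgroup Ω) : Set Ω) with hA₀
  have hA₀G : A₀ ≤ G := inf_le_left.trans hBG
  have hA₀1 : A₀ ≠ ⊥ := fun h => t3 (fun h' => hB.2 (hfa B hBG h')) (by rw [h]; simp)
  have hA₀o : Nat.card V ≤ Nat.card A₀ * Nat.card ↥(V ⊓ centralizer (A₀ : Set Ω)) :=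
    (Nat.le_mul_of_pos_left _ Nat.card_pos).trans (bestOffender_card_le t1)
  have hA₀q : A₀ ≤ centralizer ((⁅V, A₀⁆ : Subgroup Ω) : Set Ω) :=
    inf_le_right.trans (centralizer_le (commutator_mono le_rfl inf_le_left))
  -- the linear representation
  have := ElemAb.of_isElementaryAbelian hV
  obtain ⟨ρ, hρ⟩ : ∃ ρ : G →* Module.End (ZMod p) (Vec p V), ∀ (g : G) (v : Vec p V),
      ((toMul ((ρ g - 1) v) : V) : Ω) = ⁅(g : Ω), ((toMul v : V) : Ω)⁆ :=
    ⟨rep p (conjAutOf V G hGV), fun g v => by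
      rw [LinearMap.sub_apply, Vec.toMul_sub, rep_apply, Vec.toMul_ofMul, Module.End.one_apply,
        div_eq_mul_inv, commutatorElement_def]
      rfl⟩
  have hz : ∀ v : Vec p V, v = 0 ↔ ((toMul v : V) : Ω) = 1 := fun v => by
    rw [← Vec.toMul_eq_one, OneMemClass.coe_eq_one]
  have hinj : Function.Injective ρ := by
    rw [injective_iff_map_eq_one]
    intro g hg
    have : (g : Ω) ∈ G ⊓ centralizer (V : Set Ω) := ⟨g.2, fun v hv => by
      have h := hρ g (ofMul p ⟨v, hv⟩)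
      rw [hg, sub_self] at h
      exact (commutatorElement_eq_one_iff_mul_comm.mp h.symm).symm⟩
    rw [hfaith] at this
    exact Subtype.ext this
  have : Finite (Module.End (ZMod p) (Vec p V)) :=
    Finite.of_injective _ DFunLike.coe_injective
  -- the filtration
  obtain ⟨U, hU0, hUs⟩ : ∃ U : ℕ → Subgroup Ω, U 0 = V ∧ ∀ i, U (i + 1) = ⁅U i, G⁆ :=
    ⟨fun i => Nat.rec V (fun _ W => ⁅W, G⁆) i, rfl, fun _ => rfl⟩
  have hU : ∀ i : ℕ, U i ≤ V ∧ G ≤ normalizer ((U i : Subgroup Ω) : Set Ω) := by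
    intro i
    induction i with
    | zero => rw [hU0]; exact ⟨le_rfl, hGV⟩
    | succ i ih =>
      rw [hUs]
      exact ⟨(commutator_le_left_of_le_normalizer ih.2).trans ih.1,
        right_le_normalizer_commutator _ _⟩
  have hUa : ∀ i, U (i + 1) ≤ U i := fun i =>
    (hUs i).le.trans (commutator_le_left_of_le_normalizer (hU i).2)
  obtain ⟨K, hK⟩ : ∃ K, U K = ⊥ := by
    obtain ⟨K, hK⟩ := WellFoundedLT.antitone_chain_condition (antitone_nat_of_succ_le hUa)
    refine ⟨K, eq_bot_of_le_commutator (ea_isPGroup hV) hGV (fun a ha => ?_) (hU K).1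
      ((hK (K + 1) (by omega)).trans (hUs K)).le (hU K).2⟩
    obtain ⟨k, hk⟩ := hG ⟨a, ha⟩
    exact ⟨k, by rw [show a ^ p ^ k = 1 from congrArg Subtype.val hk]; exact one_mem _⟩
  let F : ℕ → AddSubgroup (Module.End (ZMod p) (Vec p V)) := fun k =>
    { carrier := {x | ∀ i v, ((toMul v : V) : Ω) ∈ U i → ((toMul (x v) : V) : Ω) ∈ U (i + k)}
      zero_mem' := fun i v _ => one_mem _
      add_mem' := fun hx hy i v hv => mul_mem (hx i v hv) (hy i v hv)
      neg_mem' := fun hx i v hv => inv_mem (hx i v hv) }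
  have hstep : ∀ (g : G) i v, ((toMul v : V) : Ω) ∈ U i →
      ((toMul ((ρ g - 1) v) : V) : Ω) ∈ U (i + 1) := fun g i v hv => by
    rw [hρ, ← commutatorElement_inv, hUs]
    exact inv_mem (commutator_mem_commutator hv g.2)
  -- the left ideal
  have hV1 : V ≠ ⊥ := fun h => hB.2 (hfa B hBG (by rw [h]; simp))
  have : Nontrivial V := (nontrivial_iff_ne_bot V).mpr hV1
  obtain ⟨y, hy⟩ := exists_ne (0 : Vec p V)
  obtain ⟨l, hl⟩ := Module.Projective.exists_dual_eq_one (ZMod p) hy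
  let ι : Vec p V →+ Module.End (ZMod p) (Vec p V) :=
    { toFun := fun v => l.smulRight v
      map_zero' := by ext; simp
      map_add' := fun a b => by ext; simp }
  have hι : ∀ v, ι v y = v := fun v => by simp [ι, hl]
  have hιm : ∀ (r : Module.End (ZMod p) (Vec p V)) v, r * ι v = ι (r v) := fun r v => by
    ext; simp [ι]
  have hιi : Function.Injective ι := fun a b h => by rw [← hι a, h, hι]
  have hfix : ∀ A : Subgroup G, Nat.card (fix ρ ι.range A) =
      Nat.card ↥(V ⊓ centralizer ((A.map G.subtype : Subgroup Ω) : Set Ω)) := by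
    intro A
    have key : ∀ v : Vec p V, (∀ a ∈ A, (ρ a - 1) * ι v = 0) ↔
        ((toMul v : V) : Ω) ∈ centralizer ((A.map G.subtype : Subgroup Ω) : Set Ω) := by
      intro v
      have k1 : ∀ a : G, (ρ a - 1) * ι v = 0 ↔ (a : Ω) * (toMul v : V) = (toMul v : V) * a := by
        intro a
        rw [hιm, map_eq_zero_iff _ hιi, hz, hρ, commutatorElement_eq_one_iff_mul_comm]
      constructor
      · rintro h _ ⟨a, ha, rfl⟩
        exact (k1 a).mp (h a ha)
      · exact fun h a ha => (k1 a).mpr (h a ⟨a, ha, rfl⟩)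
    refine (Nat.card_congr (Equiv.ofBijective (fun x : ↥(V ⊓ centralizer
      ((A.map G.subtype : Subgroup Ω) : Set Ω)) => (⟨ι (ofMul p ⟨x, x.2.1⟩), ⟨_, rfl⟩,
        (key _).mpr x.2.2⟩ : fix ρ ι.range A)) ⟨fun a b h => ?_, ?_⟩)).symm
    · exact Subtype.ext (congrArg (fun v : Vec p V => ((toMul v : V) : Ω))
        (hιi (congrArg Subtype.val h)))
    · rintro ⟨_, ⟨v, rfl⟩, h⟩
      exact ⟨⟨(toMul v : V), (toMul v).2, (key v).mp h⟩, rfl⟩
  have hquad : ∀ A : Subgroup G, Quad ρ A ↔ A.map G.subtype ≤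
      centralizer ((⁅V, A.map G.subtype⁆ : Subgroup Ω) : Set Ω) := by
    intro A
    have k1 : ∀ (a a' : G) (v : Vec p V), ((ρ a - 1) * (ρ a' - 1)) v = 0 ↔
        Commute (a : Ω) ⁅((toMul v : V) : Ω), (a' : Ω)⁆ := by
      intro a a' v
      rw [Module.End.mul_apply, hz, hρ, hρ, commutatorElement_eq_one_iff_commute,
        ← commutatorElement_inv, Commute.inv_right_iff]
    rw [← le_centralizer_iff, commutator_le]
    constructor
    · rintro h v hv _ ⟨a', ha', rfl⟩ _ ⟨a, ha, rfl⟩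
      exact (k1 a a' (ofMul p ⟨v, hv⟩)).mp (by rw [h a ha a' ha']; rfl)
    · intro h a ha a' ha'
      exact LinearMap.ext fun v => (k1 a a' v).mpr
        (h _ (toMul v).2 _ ⟨a', ha', rfl⟩ _ ⟨a, ha, rfl⟩)
  have hm : (A₀.subgroupOf G).map G.subtype = A₀ := map_subgroupOf_eq_of_le hA₀G
  obtain ⟨A, h1, h2, h3, h4⟩ := exists_two_subnormal (E := F) (K := K) (J := ι.range)
    (A₀ := A₀.subgroupOf G) hG.isNilpotent hp hinj (fun g i v hv => hUa i (hstep g i v hv))
    (fun g k x hx i v hv => hstep g _ _ (hx i v hv))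
    (fun g k x hx i v hv => by
      have := hx _ _ (hstep g i v hv)
      rwa [add_assoc, add_comm 1 k] at this)
    (fun k x hx i v hv => hUa _ (hx i v hv))
    (eq_bot_iff.mpr fun x hx => LinearMap.ext fun v => (hz _).mpr (by
      have := hx 0 v (hU0 ▸ (toMul v).2)
      rwa [zero_add, hK] at this))
    (by rintro r _ ⟨v, rfl⟩; exact ⟨_, (hιm r v).symm⟩) ((hquad _).mpr (by rwa [hm]))
  have hcA : Nat.card (A.map G.subtype) = Nat.card A := card_map_of_injective G.subtype_injective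
  rw [← card_map_of_injective G.subtype_injective, hm, ← hcA] at h2
  rw [hfix, hfix, hm] at h3
  refine ⟨A.map G.subtype, map_subtype_le _, fun h => hA₀1 ?_, ⟨⟨⟨?_⟩⟩, ?_⟩,
    hA₀o.trans (Nat.mul_le_mul h2 h3), ?_, ?_⟩
  · rw [h, card_bot] at h2
    exact (card_le_one_iff_eq_bot _).mp h2
  · rintro ⟨_, a, ha, rfl⟩ ⟨_, b, hb, rfl⟩
    have : a * b = b * a := hinj (sub_left_injective (by
      change ρ (a * b) - 1 = ρ (b * a) - 1
      rw [map_mul_sub_one (h1 a ha b hb), map_mul_sub_one (h1 b hb a ha), add_comm]))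
    have h := congrArg Subtype.val this
    exact Subtype.ext h
  · rintro _ ⟨a, ha, rfl⟩
    have k : ∀ n : ℕ, ρ (a ^ n) - 1 = n • (ρ a - 1) := by
      intro n
      induction n with
      | zero => simp
      | succ n ih => rw [pow_succ, map_mul_sub_one (h1 _ (pow_mem ha n) a ha), ih, succ_nsmul]
    have : a ^ p = 1 := hinj (by
      rw [map_one, ← sub_eq_zero, k, ← Nat.cast_smul_eq_nsmul (ZMod p), ZMod.natCast_self,
        zero_smul])
    exact congrArg Subtype.val this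
  · rw [commutator_eq_bot_iff_le_centralizer, le_centralizer_iff]
    exact (hquad A).mp h1
  · intro g hg a ha
    have h5 : closure {x : Ω | ∃ h ∈ G, ∃ a ∈ A.map G.subtype, x = h * a * h⁻¹} ≤
        normalizer ((A.map G.subtype : Subgroup Ω) : Set Ω) := by
      rw [closure_le]
      rintro _ ⟨h, hh, _, ⟨a, ha, rfl⟩, rfl⟩
      exact le_normalizer_map G.subtype ⟨_, h4 (mem_iSup_of_mem ⟨h, hh⟩ (conj_mem_cj.mpr ha)), rfl⟩
    exact (mem_normalizer_iff.mp (h5 hg) a).mp ha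

end Cfsg.Agent.S1935
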