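import Cfsg.Statements.S1939
import Cfsg.Agent.Trans.Centric

set_option autoImplicit false
open Cfsg

namespace Cfsg.Agent.S1939

open Cfsg.Lib.Trans

/-- Let S be a Sylow p-subgroup of the finite group G and a an element of S that is the only G-conjugate of a lying in S. Then every power of a has the same property: for every n, the only G-conjugate of a^n lying in S is a^n. -/
theorem result {G : Type*} [Group G] [Finite G] {p : ℕ} [Fact p.Prime] (S : Sylow p G) (a : G)
    (haS : a ∈ (S : Subgroup G)) (hwc : ∀ g : G, g * a * g⁻¹ ∈ (S : Subgroup G) → g * a * g⁻¹ = a) (n : ℕ) :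
    ∀ g : G, g * a ^ n * g⁻¹ ∈ (S : Subgroup G) → g * a ^ n * g⁻¹ = a ^ n := by
  intro g hg
  have hc : ∀ s ∈ (S : Subgroup G), s * a * s⁻¹ = a := fun s hs =>
    hwc s (Subgroup.mul_mem _ (Subgroup.mul_mem _ hs haS) (Subgroup.inv_mem _ hs))
  have h1 : cj g (S : Subgroup G) ≤ Subgroup.centralizer {g * a ^ n * g⁻¹} := by
    rw [cj_le_iff]
    intro s hs
    refine mem_centralizer_of_conj_eq ?_
    rintro _ rfl
    calc g * s * g⁻¹ * (g * a ^ n * g⁻¹) * (g * s * g⁻¹)⁻¹ = g * (s * a * s⁻¹) ^ n * g⁻¹ := by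
          rw [conj_pow]; group
      _ = _ := by rw [hc s hs]
  have h2 : a ∈ Subgroup.centralizer {g * a ^ n * g⁻¹} := by
    rw [Subgroup.mem_centralizer_singleton_iff]
    exact (mul_inv_eq_iff_eq_mul.mp (hc _ hg)).symm
  have h3 := ((isSylowIn_top S).cj_of_mem (g := g) trivial).mono h1 le_top
  obtain ⟨c, hc', h4⟩ := h3.exists_cj_le (S.isPGroup'.to_le (Subgroup.zpowers_le.mpr haS))
    (Subgroup.zpowers_le.mpr h2)
  rw [cj_zpowers, Subgroup.zpowers_le, mem_cj] at h4
  have h5 := hwc (g⁻¹ * c) (by simpa [mul_assoc] using h4)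
  have h6 := conj_eq_of_mem_centralizer' hc' (Set.mem_singleton _)
  calc g * a ^ n * g⁻¹ = c⁻¹ * (g * a ^ n * g⁻¹) * c := h6.symm
    _ = c⁻¹ * (g * ((g⁻¹ * c) * a * (g⁻¹ * c)⁻¹) ^ n * g⁻¹) * c := by rw [h5]
    _ = a ^ n := by rw [conj_pow]; group

end Cfsg.Agent.S1939
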