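import Cfsg.Statements.S1940
import Cfsg.Agent.Trans.Centric

set_option autoImplicit false
open Cfsg

namespace Cfsg.Agent.S1940

open Cfsg.Lib.Trans

/-- Let the finite group L act by automorphisms on the finite abelian group M, and let N be an L-invariant subgroup of M such that M/N is a p-group on which L acts trivially (every l • m lies in the coset mN). If every element of M is a product of an element of N and an element fixed by a Sylow p-subgroup T of L, then every element of M is a product of an element of N and an element fixed by all of L. -/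
theorem result {L : Type*} [Group L] [Finite L] {M : Type*} [CommGroup M] [Finite M] [MulDistribMulAction L M]
    {p : ℕ} [Fact p.Prime] (N : Subgroup M) (hN : ∀ (l : L) (m : M), m ∈ N → l • m ∈ N)
    (hquot : IsPGroup p (M ⧸ N)) (htriv : ∀ (l : L) (m : M), (l • m) * m⁻¹ ∈ N) (T : Sylow p L)
    (hT : ∀ m : M, ∃ n ∈ N, ∃ c : M, (∀ t ∈ (T : Subgroup L), t • c = c) ∧ m = n * c) :
    ∀ m : M, ∃ n ∈ N, ∃ c : M, (∀ l : L, l • c = c) ∧ m = n * c := by
  intro m
  obtain ⟨n, hn, c, hc, rfl⟩ := hT m
  obtain ⟨ν, h1, h2⟩ := exists_relNorm (MulDistribMulAction.toMulAut L M) (T : Subgroup L)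
  obtain ⟨k, hk⟩ := hquot (c : M ⧸ N)
  obtain ⟨j, hj⟩ := exists_pow_mul_eq_self T.not_dvd_index k
  refine ⟨n * c * (ν c ^ j)⁻¹, ?_, ν c ^ j, fun l => ?_, by group⟩
  · rw [mul_assoc]
    refine N.mul_mem hn ?_
    have h3 := (QuotientGroup.eq_one_iff _).mpr (h2 N c fun l => htriv l c)
    rw [QuotientGroup.mk_mul, QuotientGroup.mk_inv, mul_inv_eq_one, QuotientGroup.mk_pow] at h3
    rw [← QuotientGroup.eq_one_iff, QuotientGroup.mk_mul, QuotientGroup.mk_inv, mul_inv_eq_one,
      QuotientGroup.mk_pow, h3, hj _ hk]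
  · rw [smul_pow']
    exact congrArg (· ^ j) (h1 c hc l)

end Cfsg.Agent.S1940
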