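import Cfsg.Statements.S1941
import Cfsg.Agent.Trans.GenFitting
import Cfsg.Agent.Solv.NilpotentHall
import Cfsg.Agent.Solv.Cores
import Cfsg.Agent.Solv.PGroupNormal

set_option autoImplicit false
open Cfsg

namespace Cfsg.Agent.S1941

open Subgroup Cfsg.Lib Cfsg.Lib.Trans

open scoped IsMulCommutative in
theorem aux {G : Type*} [Group G] [Finite G] (Z T : Subgroup G) [Z.Normal] [IsMulCommutative Z]
    (hc : (Nat.card Z).Coprime T.index) (α : MulAut G) (hZ : ∀ g, α g * g⁻¹ ∈ Z)
    (hT : ∀ t ∈ T, α t = t) : ∃ w : G, ∀ x, α x = w * x * w⁻¹ := by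
  classical
  haveI : Fintype (G ⧸ T) := Fintype.ofFinite _
  let c : G → Z := fun g => ⟨α g * g⁻¹, hZ g⟩
  have hmul : ∀ g h, c (g * h) = c g * MulAut.conjNormal g (c h) := by
    intro g h; ext; simp [c, mul_assoc]
  have hT' : ∀ g t, t ∈ T → c (g * t) = c g := by
    intro g t ht; ext; simp [c, hT t ht]
  have hs : ∀ g, ∏ x : G ⧸ T, c x.out
      = c g ^ T.index * MulAut.conjNormal g (∏ x : G ⧸ T, c x.out) := by
    intro g
    have h1 : ∏ x : G ⧸ T, c (g • x).out = ∏ x : G ⧸ T, c x.out :=
      Equiv.prod_comp (MulAction.toPerm g) (fun x : G ⧸ T => c x.out)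
    have h2 : ∀ x : G ⧸ T, c (g • x).out = c g * MulAut.conjNormal g (c x.out) := by
      intro x
      rw [← hmul]
      have h3 : ((g * x.out : G) : G ⧸ T) = g • x := by
        conv_rhs => rw [← x.out_eq]
        rfl
      obtain ⟨t, ht⟩ := QuotientGroup.mk_out_eq_mul T (g * x.out)
      rw [← h3, ht, hT' _ _ t.2]
    conv_lhs => rw [← h1]
    simp_rw [h2]
    rw [Finset.prod_mul_distrib, Finset.prod_const, Finset.card_univ, map_prod, index,
      Nat.card_eq_fintype_card]
  obtain ⟨w, hw⟩ := (powCoprime hc).surjective (∏ x : G ⧸ T, c x.out)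
  refine ⟨w, fun g => ?_⟩
  have h4 : w = c g * MulAut.conjNormal g w := by
    apply (powCoprime hc).injective
    rw [hw, powCoprime_apply, mul_pow, ← map_pow, ← powCoprime_apply hc w, hw]
    exact hs g
  have h5 := congrArg Subtype.val h4
  simp only [c, coe_mul, MulAut.conjNormal_apply] at h5
  calc α g = (α g * g⁻¹ * (g * w * g⁻¹)) * g * (w : G)⁻¹ := by group
    _ = _ := by rw [← h5]

/-- Let G be a finite group with no nontrivial normal subgroup of order prime to p, T a Sylow p-subgroup of G and E(G) the layer of G (the subgroup generated by its components). An automorphism of G of p-power order that fixes T and E(G) elementwise is inner. -/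
theorem result {G : Type*} [Group G] [Finite G] {p : ℕ} [Fact p.Prime] (hcore : Cfsg.pPrimeCore p G = ⊥)
    (T : Sylow p G) (α : MulAut G) (hα : ∃ j : ℕ, orderOf α = p ^ j) (hfixT : ∀ x ∈ (T : Subgroup G), α x = x)
    (hfixE : ∀ x ∈ Cfsg.layer G, α x = x) : ∃ g : G, ∀ x : G, α x = g * x * g⁻¹ := by
  have hF : ∀ x ∈ generalizedFittingSubgroup G, α x = x := by
    have : generalizedFittingSubgroup G ≤ (α.toMonoidHom).eqLocus (MonoidHom.id G) := by
      rw [genFitting_eq_layer_sup_pCore hcore]
      exact sup_le (fun x hx => hfixE x hx) (fun x hx => hfixT x (Solv.pCore_le_sylow T hx))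
    exact fun x hx => this hx
  have h1 : centralizer (generalizedFittingSubgroup G : Set G) ≤ pCore p G := by
    rw [← Solv.fitting_eq_pCore_of_pPrimeCore_eq_bot hcore]
    exact centralizer_genFitting_le_fitting G
  have hp : IsPGroup p (centralizer (generalizedFittingSubgroup G : Set G)) :=
    (Solv.pCore_isPGroup p G).to_le h1
  haveI : IsMulCommutative (centralizer (generalizedFittingSubgroup G : Set G)) :=
    ⟨⟨fun a b => Subtype.ext ((mem_centralizer_iff.1 b.2) a (centralizer_genFitting_le G a.2))⟩⟩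
  refine aux (centralizer (generalizedFittingSubgroup G : Set G)) T ?_ α ?_ hfixT
  · obtain ⟨k, hk⟩ := hp.exists_card_eq
    rw [hk]
    exact Nat.Coprime.pow_left k ((Nat.Prime.coprime_iff_not_dvd Fact.out).2 T.not_dvd_index)
  · intro g
    rw [mem_centralizer_iff]
    intro f hf
    have h2 : g⁻¹ * f * g ∈ generalizedFittingSubgroup G := by
      simpa using (inferInstance : (generalizedFittingSubgroup G).Normal).conj_mem f hf g⁻¹
    have h3 := hF _ h2
    rw [map_mul, map_mul, map_inv, hF f hf] at h3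
    calc f * (α g * g⁻¹) = α g * ((α g)⁻¹ * f * α g) * g⁻¹ := by group
      _ = _ := by rw [h3]; group

end Cfsg.Agent.S1941
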