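import Cfsg.Statements.S1944
import Cfsg.Agent.Trans.Centric

set_option autoImplicit false
open Cfsg

namespace Cfsg.Agent.S1944

open Cfsg.Lib.Trans

/-- Let S be a Sylow p-subgroup of the finite group G and suppose that the centre Z(S) lies in O_{p',p}(G). The elements of S each of which is its only G-conjugate in S form a subgroup W of Z(S); W is then a direct factor of Z(S): there is a subgroup K of Z(S) with W ∩ K = 1 and WK = Z(S). -/
theorem result {G : Type*} [Group G] [Finite G] {p : ℕ} [Fact p.Prime] (S : Sylow p G)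
    (hZ : ((S : Subgroup G) ⊓ Subgroup.centralizer ((S : Subgroup G) : Set G)) ≤ Cfsg.pPrimePCore p G) :
    ∃ W K : Subgroup G, (∀ x : G, x ∈ W ↔ (x ∈ (S : Subgroup G) ∧ ∀ g : G, g * x * g⁻¹ ∈ (S : Subgroup G) → g * x * g⁻¹ = x)) ∧
      K ≤ ((S : Subgroup G) ⊓ Subgroup.centralizer ((S : Subgroup G) : Set G)) ∧ W ⊓ K = ⊥ ∧ W ⊔ K = ((S : Subgroup G) ⊓ Subgroup.centralizer ((S : Subgroup G) : Set G)) := by
  set T := (S : Subgroup G) ⊓ pPrimePCore p G with hT
  set N := Subgroup.normalizer (T : Set G) with hN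
  set A := T ⊓ Subgroup.centralizer (T : Set G) with hA
  set Z := (S : Subgroup G) ⊓ Subgroup.centralizer ((S : Subgroup G) : Set G) with hZdef
  have hSN : (S : Subgroup G) ≤ N := fun s hs => by
    rw [hN, ← cj_eq_self_iff, cj_inf, cj_eq_of_mem hs, cj_eq_of_normal]
  have hNA : N ≤ Subgroup.normalizer (A : Set G) := fun n hn => by
    rw [← cj_eq_self_iff, cj_inf, cj_centralizer, cj_eq_of_mem_normalizer hn]
  have hZA : Z ≤ A := le_inf (le_inf inf_le_left hZ)
    (inf_le_right.trans (Subgroup.centralizer_le inf_le_left))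
  have hAS : A ≤ S := inf_le_left.trans inf_le_left
  have htop := Lib.Solv.normalizer_sup_pPrimeCore_eq_top (S.isPGroup'.to_inf_left (K := _))
    (Lib.Solv.pPrimeCore_sup_sylow_inf S)
  let _ : CommGroup A := { (inferInstance : Group A) with
    mul_comm := fun a b => Subtype.ext (b.2.2 a a.2.1) }
  let φ : N →* MulAut A := A.normalizerMonoidHom.comp (Subgroup.inclusion hNA)
  have hφ : ∀ (n : N) (a : A), (φ n a : G) = n * a * (n : G)⁻¹ := fun _ _ => rfl
  obtain ⟨ν, h1, h2⟩ := exists_relNorm φ ((S : Subgroup G).subgroupOf N)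
  have hi : ¬ p ∣ ((S : Subgroup G).subgroupOf N).index := (isSylowIn_of_le S hSN).not_dvd
  obtain ⟨k, hk⟩ := IsPGroup.iff_card.mp (S.isPGroup'.to_le hAS)
  obtain ⟨j, hj⟩ := exists_pow_mul_eq_self hi k
  have hj' : ∀ a : A, (a ^ ((S : Subgroup G).subgroupOf N).index) ^ j = a := fun a =>
    hj a (by rw [← hk]; exact pow_card_eq_one')
  have h3 : ∀ a : A, (a : G) ∈ Subgroup.centralizer (N : Set G) →
      ν a = a ^ ((S : Subgroup G).subgroupOf N).index := by
    intro a ha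
    have := h2 ⊥ a fun l => by
      rw [Subgroup.mem_bot, mul_inv_eq_one]
      exact Subtype.ext ((hφ l a).trans (mul_inv_eq_iff_eq_mul.mpr (ha l l.2)))
    rwa [Subgroup.mem_bot, mul_inv_eq_one] at this
  have h4 : ∀ a : A, (a : G) ∈ Z → (ν a : G) ∈ Subgroup.centralizer (N : Set G) := by
    intro a ha n hn
    have := congrArg Subtype.val (h1 a (fun t ht => Subtype.ext ((hφ t a).trans
      (mul_inv_eq_iff_eq_mul.mpr (ha.2 t ht)))) ⟨n, hn⟩)
    rw [hφ] at this
    exact mul_inv_eq_iff_eq_mul.mp this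
  refine ⟨Z ⊓ Subgroup.centralizer (N : Set G), Z ⊓ ν.ker.map A.subtype, fun x => ⟨?_, ?_⟩,
    inf_le_left, ?_, le_antisymm (sup_le inf_le_left inf_le_left) fun z hz => ?_⟩
  · rintro ⟨hx, hxN⟩
    refine ⟨hx.1, fun g hg => ?_⟩
    obtain ⟨c, hc, n, hn, rfl⟩ := Subgroup.mem_sup_of_normal_left.mp
      ((sup_comm _ _).trans htop |>.ge (Subgroup.mem_top g))
    have e : c * n * x * (c * n)⁻¹ = c * x * c⁻¹ := by
      calc c * n * x * (c * n)⁻¹ = c * (n * x) * n⁻¹ * c⁻¹ := by group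
        _ = _ := by rw [hxN n hn]; group
    rw [e] at hg ⊢
    have h5 : x⁻¹ * (c * x * c⁻¹) ∈ (S : Subgroup G) ⊓ pPrimeCore p G := by
      refine ⟨Subgroup.mul_mem _ (Subgroup.inv_mem _ hx.1) hg, ?_⟩
      have := Subgroup.mul_mem _ (Subgroup.Normal.conj_mem' inferInstance c hc x)
        (Subgroup.inv_mem _ hc)
      simpa [mul_assoc] using this
    rw [Lib.Solv.inf_eq_bot_of_isPGroup_of_coprime S.isPGroup'
      (Lib.Solv.coprime_card_pPrimeCore p G), Subgroup.mem_bot] at h5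
    exact (inv_mul_eq_one.mp h5).symm
  · rintro ⟨hx, hw⟩
    have hxZ : x ∈ Z := ⟨hx, fun s hs => mul_inv_eq_iff_eq_mul.mp
      (hw s (Subgroup.mul_mem _ (Subgroup.mul_mem _ hs hx) (Subgroup.inv_mem _ hs)))⟩
    exact ⟨hxZ, fun n hn => mul_inv_eq_iff_eq_mul.mp
      (hw n ((Subgroup.mem_normalizer_iff.mp hn x).mp (hZA hxZ).1).1)⟩
  · rw [eq_bot_iff]
    rintro _ ⟨⟨-, h5⟩, -, a, ha, rfl⟩
    have h6 := hj' a
    rw [← h3 a h5, (MonoidHom.mem_ker).mp ha, one_pow] at h6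
    rw [← h6]
    exact Subgroup.one_mem _
  · let a : A := ⟨z, hZA hz⟩
    have h5 := h4 a hz
    have h6 : ((ν a ^ j : A) : G) ∈ Z ⊓ Subgroup.centralizer (N : Set G) :=
      Subgroup.pow_mem _ (⟨⟨hAS (ν a).2, Subgroup.centralizer_le hSN h5⟩, h5⟩ :
        ((ν a : A) : G) ∈ Z ⊓ Subgroup.centralizer (N : Set G)) j
    have h7 : (((ν a ^ j)⁻¹ * a : A) : G) ∈ Z ⊓ ν.ker.map A.subtype := by
      refine ⟨Z.mul_mem (Z.inv_mem h6.1) hz, (ν a ^ j)⁻¹ * a, ?_, rfl⟩
      rw [SetLike.mem_coe, MonoidHom.mem_ker, map_mul, map_inv, map_pow, h3 _ h5, hj',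
        inv_mul_cancel]
    have := Subgroup.mul_mem_sup h6 h7
    simpa using this

end Cfsg.Agent.S1944
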