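import Cfsg.Statements.S1945
import Cfsg.Agent.Gold.PMin
import Cfsg.Agent.Solv.PConstrained
import Cfsg.Agent.Solv.ElemAb

set_option autoImplicit false
open Cfsg

namespace Cfsg.Agent.S1945

open Subgroup Cfsg.Lib Cfsg.Lib.Trans Cfsg.Lib.Trans.TJ Cfsg.Lib.Solv

section
variable {G : Type*} [Group G] [Finite G]

/-- The norm from `Z ≤ C_V(S)` to `C_V(N)`. -/
theorem exists_norm {N S V Z : Subgroup G} (hV : V ≤ centralizer (V : Set G))
    (hN : N ≤ normalizer (V : Set G)) (hZ : Z ≤ V) (hZS : Z ≤ centralizer (S : Set G)) :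
    ∃ τ : Z →* G, (∀ z, τ z ∈ V ⊓ centralizer (N : Set G)) ∧
      ∀ z : Z, (z : G) ∈ centralizer (N : Set G) → τ z = (z : G) ^ S.relIndex N := by
  classical
  let : CommGroup V :=
    { (inferInstance : Group V) with
      mul_comm := fun a b => Subtype.ext ((hV b.2) a.1 a.2) }
  let : Fintype (N ⧸ S.subgroupOf N) := Fintype.ofFinite _
  let φ : N →* MulAut V := conjAutOf V N hN
  let ι : Z →* V := inclusion hZ
  let τ0 : Z →* V := ∏ q : N ⧸ S.subgroupOf N, (φ q.out).toMonoidHom.comp ι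
  have hτ : ∀ z, τ0 z = ∏ q : N ⧸ S.subgroupOf N, φ q.out (ι z) := fun z => by
    simp only [τ0, MonoidHom.finsetProd_apply]
    rfl
  have hS : ∀ z, ∀ s ∈ S.subgroupOf N, φ s (ι z) = ι z := fun z s hs =>
    Subtype.ext (mul_inv_eq_iff_eq_mul.2 (hZS z.2 s hs))
  refine ⟨V.subtype.comp τ0, fun z => ⟨(τ0 z).2, fun n hn => ?_⟩, fun z hz => ?_⟩
  · have h1 : φ ⟨n, hn⟩ (τ0 z) = τ0 z := by
      rw [hτ, map_prod]
      refine Fintype.prod_equiv (MulAction.toPerm (⟨n, hn⟩ : N)) _ _ fun q => ?_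
      have h2 : ((⟨n, hn⟩ : N) * q.out)⁻¹ * ((⟨n, hn⟩ : N) • q).out ∈ S.subgroupOf N := by
        rw [← QuotientGroup.eq, QuotientGroup.out_eq', ← smul_eq_mul,
          MulAction.Quotient.mk_smul_out]
      have h3 : ((⟨n, hn⟩ : N) • q).out =
          (⟨n, hn⟩ : N) * q.out * (((⟨n, hn⟩ : N) * q.out)⁻¹ * ((⟨n, hn⟩ : N) • q).out) := by
        group
      rw [MulAction.toPerm_apply, h3, map_mul, map_mul, MulAut.mul_apply, MulAut.mul_apply,
        hS z _ h2]
    exact mul_inv_eq_iff_eq_mul.1 (congrArg Subtype.val h1)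
  · have h1 : ∀ q : N ⧸ S.subgroupOf N, φ q.out (ι z) = ι z := fun q =>
      Subtype.ext (mul_inv_eq_iff_eq_mul.2 (hz _ q.out.2))
    change ((τ0 z : V) : G) = _
    rw [hτ]
    simp only [h1, Finset.prod_const, Finset.card_univ, SubmonoidClass.coe_pow]
    rw [relIndex, index, Nat.card_eq_fintype_card]
    rfl

theorem main {p : ℕ} [hp : Fact p.Prime] (S : Sylow p G) (T : Subgroup G)
    (hTS : T ≤ S) (hS : (S : Subgroup G) ≤ normalizer (T : Set G))
    (hZ : (S : Subgroup G) ⊓ centralizer ((S : Subgroup G) : Set G) ≤ T)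
    (h : ∀ x ∈ (S : Subgroup G), x ∈ centralizer ((normalizer (T : Set G) : Subgroup G) : Set G) →
      ∀ g : G, g * x * g⁻¹ ∈ (S : Subgroup G) → g * x * g⁻¹ = x) :
    ∃ W K : Subgroup G, (∀ x : G, x ∈ W ↔ (x ∈ (S : Subgroup G) ∧
      ∀ g : G, g * x * g⁻¹ ∈ (S : Subgroup G) → g * x * g⁻¹ = x)) ∧
      K ≤ ((S : Subgroup G) ⊓ centralizer ((S : Subgroup G) : Set G)) ∧ W ⊓ K = ⊥ ∧
      W ⊔ K = ((S : Subgroup G) ⊓ centralizer ((S : Subgroup G) : Set G)) := by
  set N : Subgroup G := normalizer (T : Set G) with hN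
  set Z : Subgroup G := (S : Subgroup G) ⊓ centralizer ((S : Subgroup G) : Set G) with hZd
  have hZV : Z ≤ T ⊓ centralizer (T : Set G) :=
    le_inf hZ (inf_le_right.trans (centralizer_le hTS))
  have hNV : N ≤ normalizer ((T ⊓ centralizer (T : Set G) : Subgroup G) : Set G) :=
    le_normalizer_inf le_rfl (le_normalizer_centralizer le_rfl)
  obtain ⟨τ, h1, h2⟩ := exists_norm (N := N) (S := S) (inf_centralizer_le_centralizer_self T) hNV
    hZV inf_le_right
  have hWZ : (S : Subgroup G) ⊓ centralizer (N : Set G) ≤ Z := inf_le_inf_left _ (centralizer_le hS)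
  have hm : ∀ w ∈ (S : Subgroup G), (orderOf w).Coprime ((S : Subgroup G).relIndex N) := by
    intro w hw
    obtain ⟨k, hk⟩ := IsPGroup.iff_orderOf.1 S.isPGroup' ⟨w, hw⟩
    rw [orderOf_mk] at hk
    rw [hk]
    exact Nat.Coprime.pow_left k
      ((Nat.Prime.coprime_iff_not_dvd hp.out).2 (isSylowIn_of_le S hS).not_dvd)
  refine ⟨(S : Subgroup G) ⊓ centralizer (N : Set G), τ.ker.map Z.subtype, fun x => ⟨fun hx =>
    ⟨hx.1, h x hx.1 hx.2⟩, fun hx => ⟨hx.1, fun n hn => ?_⟩⟩, map_subtype_le _, ?_,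
    le_antisymm (sup_le hWZ (map_subtype_le _)) fun z hz => ?_⟩
  · have hxZ : x ∈ Z := ⟨hx.1, fun s hs =>
      mul_inv_eq_iff_eq_mul.1 (hx.2 s (mul_mem (mul_mem hs hx.1) (inv_mem hs)))⟩
    exact mul_inv_eq_iff_eq_mul.1 (hx.2 n (hTS (mem_normalizer_conj hn (hZ hxZ))))
  · rw [eq_bot_iff]
    rintro _ ⟨hw, w, hw', rfl⟩
    have h3 := h2 w hw.2
    rw [MonoidHom.mem_ker.1 hw'] at h3
    exact orderOf_eq_one_iff.1 ((Nat.coprime_self _).1
      (Nat.Coprime.coprime_dvd_right (orderOf_dvd_of_pow_eq_one h3.symm) (hm _ hw.1)))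
  · have h3 : τ ⟨z, hz⟩ ∈ (S : Subgroup G) ⊓ centralizer (N : Set G) :=
      ⟨hTS (h1 _).1.1, (h1 _).2⟩
    obtain ⟨k, hk⟩ := exists_pow_eq_self_of_coprime (hm _ h3.1).symm
    have h4 : τ ⟨z, hz⟩ ^ k ∈ (S : Subgroup G) ⊓ centralizer (N : Set G) := pow_mem h3 k
    have h5 : τ ⟨_, hWZ h4⟩ = τ ⟨z, hz⟩ := by
      rw [h2 _ h4.2]
      change (τ ⟨z, hz⟩ ^ k) ^ _ = _
      rw [← pow_mul, mul_comm, pow_mul, hk]
    have h6 : (⟨_, hWZ h4⟩ : Z)⁻¹ * ⟨z, hz⟩ ∈ τ.ker := by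
      rw [MonoidHom.mem_ker, map_mul, map_inv, h5, inv_mul_cancel]
    have h7 : z = τ ⟨z, hz⟩ ^ k * ((τ ⟨z, hz⟩ ^ k)⁻¹ * z) := by group
    rw [h7]
    exact mul_mem_sup h4 ⟨_, h6, rfl⟩

end

/-- Let S be a Sylow p-subgroup of the finite group G, and assume that p is odd or that G is solvable. The elements of S each of which is its only G-conjugate in S form a subgroup W of Z(S); W is then a direct factor of Z(S): there is a subgroup K of Z(S) with W ∩ K = 1 and WK = Z(S). (For p = 2 and G not solvable this can fail.) -/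
theorem result {G : Type*} [Group G] [Finite G] {p : ℕ} [Fact p.Prime] (S : Sylow p G) (h : p ≠ 2 ∨ Group.IsSolvable G) :
    ∃ W K : Subgroup G, (∀ x : G, x ∈ W ↔ (x ∈ (S : Subgroup G) ∧ ∀ g : G, g * x * g⁻¹ ∈ (S : Subgroup G) → g * x * g⁻¹ = x)) ∧
      K ≤ ((S : Subgroup G) ⊓ Subgroup.centralizer ((S : Subgroup G) : Set G)) ∧ W ⊓ K = ⊥ ∧ W ⊔ K = ((S : Subgroup G) ⊓ Subgroup.centralizer ((S : Subgroup G) : Set G)) := by
  rcases h with h | h
  · refine main S (thompsonSubgroupOf 0 (S : Subgroup G)) (J_le _) (le_normalizer_J _) ?_ ?_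
    · have := omegaOne_center_le_J (p := 0) (S : Subgroup G)
      rwa [omegaOne_zero] at this
    · intro x hx hc g hg
      exact Gold.weakly_closed_of_centralizes_normalizer_J (isSylowIn_top S) hx
        (fun n hn => mem_centralizer_singleton_iff.2 (hc n hn.2)) (Or.inl h) (mem_top g) hg
  · refine main S ((S : Subgroup G) ⊓ pPrimePCore p G) inf_le_left
      (le_normalizer_inf le_normalizer le_normalizer_of_normal)
      (inf_le_inf_left _ ((isPConstrained_of_isSolvable p G).centralizer_le S inf_le_left)) ?_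
    intro x hx hc g hg
    have h1 := normalizer_sup_pPrimeCore_eq_top S.isPGroup'.to_inf_left (pPrimeCore_sup_sylow_inf S)
    have h2 : g ∈ ((pPrimeCore p G ⊔ normalizer (((S : Subgroup G) ⊓ pPrimePCore p G : Subgroup G) :
        Set G) : Subgroup G) : Set G) := by rw [sup_comm, h1]; exact mem_top g
    rw [normal_mul] at h2
    obtain ⟨o, ho, n, hn, rfl⟩ := h2
    have h3 : o * n * x * (o * n)⁻¹ = o * x * o⁻¹ := by rw [mul_assoc o n x, hc n hn]; group
    simp only at hg ⊢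
    rw [h3] at hg ⊢
    have h4 : o * x * o⁻¹ * x⁻¹ ∈ (S : Subgroup G) ⊓ pPrimeCore p G := by
      refine mem_inf.2 ⟨mul_mem hg (inv_mem hx), ?_⟩
      have := (inferInstance : (pPrimeCore p G).Normal).conj_mem _ (inv_mem ho) x
      simpa [mul_assoc] using mul_mem ho this
    have h5 : (S : Subgroup G) ⊓ pPrimeCore p G = ⊥ := by
      obtain ⟨k, hk⟩ := IsPGroup.iff_card.1 S.isPGroup'
      exact inf_eq_bot_of_coprime_card
        (hk ▸ Nat.Coprime.pow_left k (coprime_card_pPrimeCore p G).symm)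
    rw [h5, mem_bot] at h4
    exact mul_inv_eq_one.1 h4

end Cfsg.Agent.S1945
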