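import Cfsg.Statements.S1948
import Cfsg.Agent.Trans.AutomizerOrder
import Cfsg.Agent.Solv.PConstrained
import Cfsg.Agent.Solv.Conj

set_option autoImplicit false
open Cfsg

namespace Cfsg.Agent.S1948

open Cfsg.Lib.Trans Cfsg.Lib.Solv Subgroup
open scoped Pointwise

theorem aux {G : Type*} [Group G] [Finite G] {p : ℕ} [Fact p.Prime] (S : Sylow p G)
    (hS : (S : Subgroup G).Normal) (h : pPrimeCore p G = ⊥) :
    centralizer (pCore p G : Set G) ≤ pCore p G := by
  rw [pCore_eq_of_normal_sylow S hS]
  set C := centralizer ((S : Subgroup G) : Set G)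
  have h1 : HasNormalPComplement p C := by
    apply hasNormalPComplement_of_sylow_le_center (sylowInfNormal S C)
    intro x hx
    rw [mem_center_iff]
    intro y
    exact Subtype.ext (y.2 x hx).symm
  have h2 : (pResidual p C).map C.subtype ≤ pPrimeCore p G :=
    le_pPrimeCore inferInstance (by
      rw [card_map_of_injective C.subtype_injective]
      exact hasNormalPComplement_iff_coprime.mp h1)
  rw [h, le_bot_iff, Subgroup.map_eq_bot_iff_of_injective _ C.subtype_injective,
    pResidual_eq_bot_iff] at h2
  exact (le_pCore inferInstance h2).trans (pCore_le_sylow S)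


/-- Let S be a Sylow p-subgroup of the finite group G. Then G = N_G(S)·O_{p'}(G) if and only if G is p-constrained and N_G(S) controls fusion in S, in the sense that whenever a subgroup Q of S has a conjugate g Q g⁻¹ inside S, the element g is a product n c with n normalizing S and c centralizing Q. -/
theorem result {G : Type*} [Group G] [Finite G] {p : ℕ} [Fact p.Prime] (S : Sylow p G) :
    Subgroup.normalizer ((S : Subgroup G) : Set G) ⊔ Cfsg.pPrimeCore p G = ⊤ ↔
      (Cfsg.IsPConstrained p G ∧
        ∀ Q : Subgroup G, Q ≤ (S : Subgroup G) → ∀ g : G, Q.map (MulAut.conj g).toMonoidHom ≤ (S : Subgroup G) →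
          ∃ n ∈ Subgroup.normalizer ((S : Subgroup G) : Set G), ∃ c ∈ Subgroup.centralizer (Q : Set G), g = n * c) := by
  constructor
  · intro h
    refine ⟨?_, fun Q hQ g hg => ?_⟩
    · rw [isPConstrained_iff_quotient]
      apply aux (S.mapSurjective (QuotientGroup.mk'_surjective (pPrimeCore p G))) _
        (pPrimeCore_quotient_pPrimeCore p G)
      rw [← normalizer_eq_top_iff, Sylow.coe_mapSurjective, ← map_mk'_normalizer_of_isPGroup _
        (coprime_card_pPrimeCore p G) S.isPGroup', eq_top_iff,
        ← map_top_of_surjective _ (QuotientGroup.mk'_surjective (pPrimeCore p G)), ← h,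
        Subgroup.map_sup, (Subgroup.map_eq_bot_iff _).mpr (QuotientGroup.ker_mk' _).ge, sup_bot_eq]
    · have hg' : g ∈ ((normalizer ((S : Subgroup G) : Set G) ⊔ pPrimeCore p G : Subgroup G) : Set G) := by
        rw [h]; trivial
      rw [mul_normal] at hg'
      obtain ⟨n, hn, o, ho, rfl⟩ := hg'
      refine ⟨n, hn, o, ?_, rfl⟩
      rw [mem_centralizer_iff]
      intro x hx
      have h1 := inv_conj_mem_of_mem_normalizer hn (conj_smul_le_iff.mp hg x hx)
      have h2 : o * x * o⁻¹ * x⁻¹ ∈ (S : Subgroup G) ⊓ pPrimeCore p G := by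
        refine ⟨(S : Subgroup G).mul_mem (by simpa [mul_assoc] using h1) (inv_mem (hQ hx)), ?_⟩
        have := mul_mem ho ((inferInstance : (pPrimeCore p G).Normal).conj_mem _ (inv_mem ho) x)
        simpa [mul_assoc] using this
      rw [inf_eq_bot_of_isPGroup_of_coprime S.isPGroup' (coprime_card_pPrimeCore p G), mem_bot,
        mul_inv_eq_one, mul_inv_eq_iff_eq_mul] at h2
      exact h2.symm
  · rintro ⟨h1, h2⟩
    have h3 := pPrimeCore_sup_sylow_inf S
    have h4 := normalizer_sup_pPrimeCore_eq_top (S.isPGroup'.to_le inf_le_left) h3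
    rw [eq_top_iff, ← h4]
    refine sup_le (fun g hg => ?_) le_sup_right
    obtain ⟨n, hn, c, hc, rfl⟩ := h2 _ inf_le_left g
      ((conj_smul_eq_of_mem_normalizer hg).le.trans inf_le_left)
    refine mul_mem (mem_sup_left hn) ?_
    have h5 := (isPConstrained_iff_sylow_inf S).mp h1 hc
    rw [← h3] at h5
    exact (sup_le (c := normalizer ((S : Subgroup G) : Set G) ⊔ pPrimeCore p G) le_sup_right
      ((inf_le_left.trans le_normalizer).trans le_sup_left)) h5

end Cfsg.Agent.S1948
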