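import Cfsg.Statements.S1951
import Cfsg.Agent.Block.Klein
import Cfsg.Agent.Block.Fong
import Cfsg.Agent.Char.Linear
import Cfsg.Agent.Char.Degree

set_option autoImplicit false
open Cfsg

namespace Cfsg.Agent.S1951

open Subgroup Cfsg.Lib Cfsg.Lib.Char Cfsg.Lib.Block Cfsg.Lib.Block.Princ
open scoped ComplexConjugate

section
variable {p : ℕ} [hp : Fact p.Prime]

theorem not_both_regular {H : Type*} [Group H] [Finite H] (hp2 : p ≠ 2) (hs : IsPSolvable p H)
    (hab : ∀ S : Subgroup H, IsPGroup p S → S ≤ centralizer (S : Set H)) {u v : H}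
    (hu : orderOf u = p) (hv : orderOf v = p) :
    p ∣ orderOf (u * v) ∨ p ∣ orderOf (u * v⁻¹) := by
  have key : ∀ w : H, orderOf w = p → w ∈ pPrimePCore p H := by
    intro w hw
    obtain ⟨S, hS⟩ := (IsPGroup.of_card (n := 1)
      (by rw [Nat.card_zpowers, hw, pow_one]) : IsPGroup p (zpowers w)).exists_le_sylow
    exact (Solv.isPConstrained_of_isPSolvable hs).centralizer_le S inf_le_left
      (hab _ S.isPGroup' (hS (mem_zpowers w)))
  by_contra h
  push Not at h
  have h1 := mem_pPrimeCore_of_mem_pPrimePCore (mul_mem (key u hu) (key v hv)) h.1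
  have h2 := mem_pPrimeCore_of_mem_pPrimePCore (mul_mem (key u hu) (inv_mem (key v hv))) h.2
  have h3 : v ^ 2 ∈ pPrimeCore p H := by
    have := mul_mem (inv_mem h2) h1
    rwa [show (u * v⁻¹)⁻¹ * (u * v) = v ^ 2 by rw [sq]; group] at this
  refine not_dvd_orderOf_of_mem_pPrimeCore h3 ?_
  rw [Nat.Coprime.orderOf_pow (by rw [hv]; exact (Nat.coprime_primes hp.out Nat.prime_two).2 hp2),
    hv]

/-- A character constant on the nonidentity elements of an abelian subgroup. -/
theorem exists_degree_eq {G : Type*} [Group G] [Finite G] {A : Subgroup G}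
    (hab : ∀ a b : A, a * b = b * a) (hA : A ≠ ⊥) (χ : IrrCharacter G) (c : ℂ)
    (h : ∀ y ∈ A, y ≠ 1 → (χ : G → ℂ) y = c) :
    ∃ b : ℕ, (χ : G → ℂ) 1 = c + b * Nat.card A := by
  classical
  have := Fintype.ofFinite A
  have := (nontrivial_iff_ne_bot A).2 hA
  obtain ⟨z, hz⟩ := exists_ne (1 : A)
  obtain ⟨lam, hlam⟩ := exists_monoidHom_apply_ne_one_of_comm hab hz
  have hne : lam ≠ 1 := fun h => hlam (by rw [h]; rfl)
  obtain ⟨n, hn⟩ := (χ.2.isCharacter.res A).exists_nat_classInner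
    (isIrrCharacter_monoidHom lam).isCharacter
  have h1 := card_mul_classInner (fun a : A => (χ : G → ℂ) a) (fun a => (lam a : ℂ))
  have h2 : ∑ a : A, ((χ : G → ℂ) a - c) * conj (lam a : ℂ) = (χ : G → ℂ) 1 - c := by
    rw [Finset.sum_eq_single (1 : A)]
    · simp
    · intro a _ ha
      rw [h a a.2 (fun h => ha (Subtype.ext h)), sub_self, zero_mul]
    · simp
  have h3 : ∑ a : A, conj (lam a : ℂ) = 0 := by
    rw [← map_sum, sum_monoidHom_apply_of_ne_one hne, map_zero]
  simp only [sub_mul, Finset.sum_sub_distrib, ← Finset.mul_sum, h3, mul_zero, sub_zero] at h2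
  rw [hn, h2] at h1
  exact ⟨n, by linear_combination -h1⟩

theorem arith {ι : Type*} [DecidableEq ι] (S : Finset ι) (d n : ι → ℤ) (q : ℤ) (t : ι) (ht : t ∈ S)
    (hd : d t = 1) (hn : n t = 1) (hpos : ∀ i ∈ S, 0 < n i)
    (hb : ∀ i ∈ S, i ≠ t → d i + q ≤ n i) (hsq : ∑ i ∈ S, d i ^ 2 = q)
    (h0 : ∑ i ∈ S, n i * d i = 0) (hq : 3 ≤ q) :
    2 * ∑ i ∈ S, ((d i : ℝ) ^ 3 / n i) < q := by
  obtain ⟨j, hj, hjd⟩ : ∃ j ∈ S, d j < 0 := by
    by_contra h
    push Not at h
    have := Finset.single_le_sum (f := fun i => n i * d i)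
      (fun i hi => mul_nonneg (hpos i hi).le (h i hi)) ht
    rw [h0, hd, hn] at this
    omega
  have hjt : j ≠ t := fun h => by rw [h] at hjd; omega
  have hle : ∀ i ∈ S, (d i : ℝ) ^ 3 / n i ≤
      (d i : ℝ) ^ 2 / 3 + (if i = t then 2 / 3 else 0) - (if i = j then 1 / 3 else 0) := by
    intro i hi
    have hni : (0 : ℝ) < n i := by exact_mod_cast hpos i hi
    by_cases hit : i = t
    · subst hit
      rw [if_pos rfl, if_neg hjt.symm, hd, hn]
      norm_num
    rw [if_neg hit]
    by_cases hneg : d i < 0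
    · have h1 : (d i : ℝ) ≤ -1 := by exact_mod_cast (show d i ≤ -1 by omega)
      have h2 : (d i : ℝ) ^ 3 / n i ≤ 0 :=
        div_nonpos_of_nonpos_of_nonneg (by nlinarith [sq_nonneg (d i : ℝ)]) hni.le
      split_ifs <;> nlinarith
    · rw [if_neg (fun h : i = j => hneg (h ▸ hjd))]
      have h1 : d i ^ 2 + 1 ≤ q := by
        have := Finset.sum_le_sum_of_subset_of_nonneg (f := fun i => d i ^ 2)
          (s := {i, t}) (t := S) (by simp [Finset.insert_subset_iff, hi, ht])
          (fun _ _ _ => sq_nonneg _)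
        rwa [Finset.sum_pair hit, hsq, hd, one_pow] at this
      have h2 : 3 * d i ≤ n i := by nlinarith [hb i hi hit, sq_nonneg (d i - 1)]
      have h3 : 3 * (d i : ℝ) ≤ n i := by exact_mod_cast h2
      rw [add_zero, sub_zero, div_le_div_iff₀ hni (by norm_num)]
      nlinarith [sq_nonneg (d i : ℝ)]
  have h1 := Finset.sum_le_sum hle
  rw [Finset.sum_sub_distrib, Finset.sum_add_distrib, ← Finset.sum_div, Finset.sum_ite_eq',
    Finset.sum_ite_eq', if_pos ht, if_pos hj] at h1
  have h2 : ∑ i ∈ S, (d i : ℝ) ^ 2 = q := by exact_mod_cast hsq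
  have h3 : (3 : ℝ) ≤ q := by exact_mod_cast hq
  linarith

end

/-- Let p be a prime and P a nontrivial elementary abelian Sylow p-subgroup of a finite nonabelian simple group G whose nonidentity elements are all conjugate in G. Suppose that two elements of P are conjugate in G only if they are conjugate in N_G(P), that the centralizer of every element of order p of P has a normal p-complement, and that every two elements of order p of G generate a p-solvable subgroup. Then p = 2. -/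
theorem result {G : Type*} [Group G] [Finite G] [IsSimpleGroup G] (hG : ¬ IsMulCommutative G) {p : ℕ} [Fact p.Prime] (P : Sylow p G)
    (hP1 : (P : Subgroup G) ≠ ⊥) (hPe : Cfsg.IsElementaryAbelian p (P : Subgroup G))
    (hconj : ∀ x ∈ (P : Subgroup G), ∀ y ∈ (P : Subgroup G), x ≠ 1 → y ≠ 1 → ∃ g : G, g * x * g⁻¹ = y)
    (ha : ∀ x ∈ (P : Subgroup G), ∀ y ∈ (P : Subgroup G), (∃ g : G, g * x * g⁻¹ = y) →
      ∃ n ∈ Subgroup.normalizer ((P : Subgroup G) : Set G), n * x * n⁻¹ = y)
    (hb : ∀ x ∈ (P : Subgroup G), orderOf x = p → Cfsg.HasNormalPComplement p ↥(Subgroup.centralizer ({x} : Set G)))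
    (hc : ∀ x y : G, orderOf x = p → orderOf y = p → Cfsg.IsPSolvable p ↥(Subgroup.closure ({x, y} : Set G))) :
    p = 2 := by
  classical
  by_contra hp2
  have hp : p.Prime := Fact.out
  have := Fintype.ofFinite G
  obtain ⟨M, hM⟩ := exists_isPModular hp
  have := hPe.1
  have hab : ∀ a b : (P : Subgroup G), a * b = b * a := fun a b => mul_comm' a b
  have := (nontrivial_iff_ne_bot _).2 hP1
  obtain ⟨⟨z, hzP⟩, hz1⟩ := exists_ne (1 : (P : Subgroup G))
  have hz1' : z ≠ 1 := fun h => hz1 (Subtype.ext h)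
  have hz : orderOf z = p := orderOf_eq_prime (hPe.2 z hzP) hz1'
  have hidx : (pPrimeCore p (centralizer ({z} : Set G))).index = Nat.card P := by
    obtain ⟨Q, N, hN, hNQ⟩ := hb z hzP hz
    rw [index_pPrimeCore_of_isComplement' Q hN hNQ]
    have h1 := Block.IsSylowIn.card_eq
      (isSylowIn_of_sylow_le P (le_centralizer_singleton_of_comm hPe.1 hzP))
    rw [Q.card_eq_multiplicity]
    exact h1.symm
  have hnc : ∃ k, (pPrimeCore p (centralizer ({z} : Set G))).index = p ^ k := by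
    rw [hidx]; exact IsPGroup.iff_card.1 P.isPGroup'
  have hcj : ∀ x : G, (∃ k, orderOf x = p ^ k) → x ≠ 1 → IsConj z x := by
    intro x hx hx1
    obtain ⟨g, hg⟩ := exists_conj_mem_sylow P hx
    obtain ⟨h, hh⟩ := hconj z hzP _ hg hz1' (by simpa [mul_inv_eq_iff_eq_mul] using hx1)
    exact (isConj_iff.2 ⟨h, hh⟩).trans (isConj_iff.2 ⟨g, rfl⟩).symm
  have hval : ∀ χ ∈ principalBlock M G, ∀ g, p ∣ orderOf g → (χ : G → ℂ) g = (χ : G → ℂ) z := by
    intro χ hχ g hg
    obtain ⟨x, hx⟩ := exists_isPPart hp g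
    exact princ_apply_of_isPPart hM hnc hχ hx (hcj x (IsPPart_orderOf hx)
      fun h => (IsPPart_eq_one_iff hp hx).1 h hg)
  have hdeg : ∀ χ : IrrCharacter G, ∃ b : ℕ, χ ∈ principalBlock M G →
      (χ : G → ℂ) 1 = (χ : G → ℂ) z + b * Nat.card P := by
    intro χ
    by_cases hχ : χ ∈ principalBlock M G
    · obtain ⟨b, hb⟩ := exists_degree_eq hab hP1 χ _ fun y hy hy1 =>
        hval χ hχ y (by rw [orderOf_eq_prime (hPe.2 y hy) hy1])
      exact ⟨b, fun _ => hb⟩
    · exact ⟨0, fun h => absurd h hχ⟩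
  choose b hb' using hdeg
  set S := irrFin (principalBlock M G) with hS
  let n : IrrCharacter G → ℤ := fun χ => charDegree (χ : G → ℂ)
  let d : IrrCharacter G → ℤ := fun χ => n χ - b χ * Nat.card P
  have hn : ∀ χ : IrrCharacter G, (χ : G → ℂ) 1 = n χ := fun χ => by
    simp only [n, Int.cast_natCast, irr_charDegree_cast]
  have hd : ∀ χ ∈ S, (χ : G → ℂ) z = d χ := fun χ hχ => by
    have := hb' χ (mem_irrFin.1 hχ)
    simp only [d]
    push_cast
    rw [← hn, this]
    ring
  have htS : triv G ∈ S := mem_irrFin.2 (triv_mem_principalBlock hM)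
  have hsq : ∑ χ ∈ S, (d χ : ℂ) * d χ = Nat.card P := by
    rw [← hidx, ← sum_princ_sq_of_index hM ⟨1, by rw [hz, pow_one]⟩ hnc]
    exact Finset.sum_congr rfl fun χ hχ => by rw [hd χ hχ, map_intCast]
  have hreg : ∀ y : G, ¬ p ∣ orderOf y → ∑ χ ∈ S, (χ : G → ℂ) y * d χ = 0 := fun y hy => by
    rw [← sum_princ_mul_regular hM hy (z := z) (by rw [hz])]
    exact Finset.sum_congr rfl fun χ hχ => by rw [hd χ hχ, map_intCast]
  have hθ : ∀ y : G, ∑ χ ∈ S, (χ : G → ℂ) y * d χ =
      ((if p ∣ orderOf y then (Nat.card P : ℝ) else 0 : ℝ) : ℂ) := fun y => by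
    split_ifs with hy
    · rw [Complex.ofReal_natCast, ← hsq]
      exact Finset.sum_congr rfl fun χ hχ => by rw [hval χ (mem_irrFin.1 hχ) y hy, hd χ hχ]
    · rw [hreg y hy, Complex.ofReal_zero]
  have hsum : ∀ a : G, orderOf a = p →
      ∑ g : G, (if p ∣ orderOf (z * (g * a * g⁻¹)) then (Nat.card P : ℝ) else 0) =
        Nat.card G * ∑ χ ∈ S, ((d χ : ℝ) ^ 3 / n χ) := fun a ha => by
    apply Complex.ofReal_injective
    rw [Complex.ofReal_sum]
    simp only [← hθ]
    rw [Finset.sum_comm]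
    push_cast
    rw [Finset.mul_sum]
    refine Finset.sum_congr rfl fun χ hχ => ?_
    rw [← Finset.sum_mul, irr_sum_mul_conj χ.2, hval χ (mem_irrFin.1 hχ) a (by rw [ha]), hd χ hχ,
      hn]
    ring
  have hPG : ∀ Q : Subgroup G, IsPGroup p Q → Q ≤ centralizer (Q : Set G) := by
    intro Q hQ a ha c hc
    obtain ⟨T, hT⟩ := hQ.exists_le_sylow
    have e := Sylow.equiv T P
    exact congrArg Subtype.val
      (e.injective (by rw [map_mul, map_mul, hab]) : (⟨c, hT hc⟩ * ⟨a, hT ha⟩ : T) = ⟨a, hT ha⟩ * ⟨c, hT hc⟩)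
  have hlow : ∀ g : G, (Nat.card P : ℝ) ≤
      (if p ∣ orderOf (z * (g * z * g⁻¹)) then (Nat.card P : ℝ) else 0) +
      (if p ∣ orderOf (z * (g * z⁻¹ * g⁻¹)) then (Nat.card P : ℝ) else 0) := by
    intro g
    have hv : orderOf (g * z * g⁻¹) = p := by
      rw [← hz]; exact (MulAut.conj g).orderOf_eq z
    have h1 : z ∈ closure ({z, g * z * g⁻¹} : Set G) := subset_closure (by simp)
    have h2 : g * z * g⁻¹ ∈ closure ({z, g * z * g⁻¹} : Set G) := subset_closure (by simp)
    have h3 := not_both_regular hp2 (hc _ _ hz hv) (fun Q hQ a ha c hc => Subtype.ext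
      (hPG _ (hQ.map (Subgroup.subtype _)) (mem_map_of_mem _ ha) _ (mem_map_of_mem _ hc)))
      (u := ⟨_, h1⟩) (v := ⟨_, h2⟩) (by rw [orderOf_mk, hz]) (by rw [orderOf_mk, hv])
    rw [← orderOf_coe, ← orderOf_coe (_ * _)] at h3
    simp only [coe_mul, coe_inv, conj_inv] at h3
    have h4 : (0 : ℝ) ≤ Nat.card P := Nat.cast_nonneg _
    rcases h3 with h3 | h3 <;> rw [if_pos h3] <;> split_ifs <;> linarith
  have h1 := Finset.sum_le_sum fun g (_ : g ∈ Finset.univ) => hlow g
  rw [Finset.sum_add_distrib, hsum z hz, hsum z⁻¹ (by rw [orderOf_inv, hz]), Finset.sum_const,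
    Finset.card_univ, ← Nat.card_eq_fintype_card, nsmul_eq_mul] at h1
  have hq : 3 ≤ Nat.card P := by
    have h2 := Nat.le_of_dvd Nat.card_pos (Subgroup.orderOf_dvd_natCard _ hzP)
    rw [hz] at h2
    change 3 ≤ Nat.card (P : Subgroup G)
    have := hp.two_le
    omega
  have h2 := arith S d n (Nat.card P) (triv G) htS
    (by have := hd _ htS; rw [triv_apply] at this; exact_mod_cast this.symm)
    (by have := hn (triv G); rw [triv_apply] at this; exact_mod_cast this.symm)
    (fun χ _ => by simp only [n]; exact_mod_cast irr_charDegree_pos χ)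
    (fun χ hχ hne => by
      have h3 : b χ ≠ 0 := fun h0 => hne (eq_triv_iff.2 (eq_one_of_apply_eq χ.2 (z := z)
        (fun N hN hzN => (hN.eq_bot_or_eq_top).resolve_left fun h => hz1' (by
          rwa [h, mem_bot] at hzN))
        (by rw [hb' χ (mem_irrFin.1 hχ), h0]; simp)))
      have h4 : (1 : ℤ) ≤ b χ := by exact_mod_cast Nat.one_le_iff_ne_zero.2 h3
      simp only [d]
      nlinarith [(Nat.cast_nonneg (Nat.card P) : (0 : ℤ) ≤ _)])
    (by
      have : ∑ χ ∈ S, (d χ : ℂ) ^ 2 = Nat.card P := by simp only [sq, hsq]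
      exact_mod_cast this)
    (by
      have := hreg 1 (by rw [orderOf_one]; exact hp.one_lt.ne' ∘ Nat.dvd_one.1)
      simp only [hn] at this
      exact_mod_cast this)
    (by exact_mod_cast hq)
  have h3 : (0 : ℝ) < Nat.card G := by exact_mod_cast Nat.card_pos
  push_cast at h2
  nlinarith

end Cfsg.Agent.S1951
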