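import Cfsg.Statements.S1952
import Cfsg.Agent.Trans.Yoshida

set_option autoImplicit false
open Cfsg

namespace Cfsg.Agent.S1952

open Cfsg.Lib.Trans Cfsg.Lib.Solv Subgroup


/-- Let P be a finite p-group with a normal elementary abelian subgroup A of index p, and let x ∈ A and y ∈ P with y outside A. If the product of the p conjugates y^(-i) x y^i (i = 0, …, p−1) is not the identity, then the wreath product Z_p ≀ Z_p, realised as a Sylow p-subgroup of the symmetric group of degree p², is a homomorphic image of P. -/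
theorem result {P : Type*} [Group P] [Finite P] {p : ℕ} [Fact p.Prime] (hP : IsPGroup p P) (A : Subgroup P) [A.Normal]
    (hA : Cfsg.IsElementaryAbelian p A) (hidx : A.index = p) (x y : P) (hx : x ∈ A) (hy : y ∉ A)
    (hprod : ((List.range p).map (fun i => (y ^ i)⁻¹ * x * y ^ i)).prod ≠ 1) :
    ∃ (Q : Sylow p (Equiv.Perm (Fin (p ^ 2)))) (f : P →* ↥(Q : Subgroup (Equiv.Perm (Fin (p ^ 2))))), Function.Surjective f := by
  have := ElemAb.of_isElementaryAbelian hA
  have hc : ∀ i, (y ^ i)⁻¹ * x * y ^ i ∈ A := fun i =>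
    (inferInstance : A.Normal).conj_mem' x hx _
  have key : ∀ n, ∃ h : ((List.range n).map (fun i => (y ^ i)⁻¹ * x * y ^ i)).prod ∈ A,
      ∀ χ : A →* Multiplicative (ZMod p),
        χ ⟨_, h⟩ = ∏ i ∈ Finset.range n, extOne χ ((y ^ i)⁻¹ * x * y ^ i) := by
    intro n
    induction n with
    | zero => exact ⟨one_mem _, fun χ => map_one χ⟩
    | succ n ih =>
      obtain ⟨h1, h2⟩ := ih
      refine ⟨by rw [List.prod_range_succ]; exact mul_mem h1 (hc n), fun χ => ?_⟩
      rw [Finset.prod_range_succ, ← h2, extOne_of_mem χ (hc n), ← map_mul]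
      congr 1
      exact Subtype.ext (List.prod_range_succ _ _)
  obtain ⟨h1, h2⟩ := key p
  obtain ⟨M, hM, -, hM2⟩ := ElemAb.exists_isCoatom_not_mem p (H := ⊥) (x := (⟨_, h1⟩ : A))
    (fun h => hprod (congrArg Subtype.val (mem_bot.mp h)))
  have := ElemAb.normal p M
  have hMi := PG.index_eq_prime_of_isCoatom (hP.to_subgroup A) hM
  have hc' : Nat.card (Multiplicative (ZMod p)) = p := by simp
  let χ : A →* Multiplicative (ZMod p) :=
    (mulEquivOfPrimeCardEq (p := p) hMi hc').toMonoidHom.comp (QuotientGroup.mk' M)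
  refine hasWreathQuotient_of_hom hP hidx χ hx (z := y) ?_
  rw [extOne_iterate_commutator χ (fun t => by simpa using pow_card_eq_one' (x := χ t)) hx
    (by rw [normalizer_eq_top]; trivial), ← h2]
  simpa [χ] using hM2

end Cfsg.Agent.S1952
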