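import Cfsg.Statements.S1954
import Cfsg.Agent.Trans.Radical

set_option autoImplicit false
open Cfsg

namespace Cfsg.Agent.S1954

open Cfsg.Lib.Trans

/-- Let N be a normal subgroup of the finite group G, P a Sylow p-subgroup of G, and V a subgroup of P ∩ N normal in P ∩ N such that N_N(V) controls strong fusion in P ∩ N with respect to N (whenever a subgroup A of P ∩ N has n A n⁻¹ ≤ P ∩ N for some n in N, then n = h c with h in N_N(V) and c in C_N(A)). Let W be the subgroup generated by the conjugates of V under N_G(P ∩ N). Then N_G(W) controls strong fusion in P with respect to G. -/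
theorem result {G : Type*} [Group G] [Finite G] {p : ℕ} [Fact p.Prime] (N : Subgroup G) [N.Normal] (P : Sylow p G) (V : Subgroup G)
    (hV : V ≤ (P : Subgroup G) ⊓ N) (hVn : ∀ x ∈ (P : Subgroup G) ⊓ N, V.map (MulAut.conj x).toMonoidHom = V)
    (hctrl : ∀ A : Subgroup G, A ≤ (P : Subgroup G) ⊓ N → ∀ n ∈ N, A.map (MulAut.conj n).toMonoidHom ≤ (P : Subgroup G) ⊓ N →
      ∃ h ∈ N ⊓ Subgroup.normalizer (V : Set G), ∃ c ∈ N ⊓ Subgroup.centralizer (A : Set G), n = h * c)
    (W : Subgroup G) (hW : W = Subgroup.closure (⋃ x ∈ Subgroup.normalizer (((P : Subgroup G) ⊓ N : Subgroup G) : Set G),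
      ((V.map (MulAut.conj x).toMonoidHom : Subgroup G) : Set G))) :
    ∀ A : Subgroup G, A ≤ (P : Subgroup G) → ∀ g : G, A.map (MulAut.conj g).toMonoidHom ≤ (P : Subgroup G) →
        ∃ h ∈ Subgroup.normalizer (W : Set G), ∃ c ∈ Subgroup.centralizer (A : Set G), g = h * c := by
  set T := (P : Subgroup G) ⊓ N with hT
  have hTN : IsSylowIn p T N := isSylowIn_inf_of_normal P N
  have h1 : CtlFus (N ⊓ Subgroup.normalizer (V : Set G) : Subgroup G) T N := by
    rw [ctlFus_subgroup_iff']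
    intro A hA g hg hgA
    obtain ⟨h, hh, c, hc, e⟩ := hctrl A hA g hg hgA
    exact ⟨h, hh, c, hc.2, e⟩
  have h2 : ∀ x ∈ Subgroup.normalizer (T : Set G),
      CtlFus (N ⊓ Subgroup.normalizer ((cj x V : Subgroup G) : Set G) : Subgroup G) T N := by
    intro x hx
    have := h1.conj x
    rwa [← coe_cj, cj_inf, cj_eq_of_normal x N, cj_normalizer, cj_eq_of_mem_normalizer hx] at this
  have h3 : ∀ x ∈ Subgroup.normalizer (T : Set G), cj x V ≤ T := fun x hx =>
    (cj_mono x hV).trans (cj_eq_of_mem_normalizer hx).le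
  have hWle : ∀ U : Subgroup G, W ≤ U ↔ ∀ x ∈ Subgroup.normalizer (T : Set G), cj x V ≤ U := by
    intro U
    rw [hW, Subgroup.closure_le, Set.iUnion₂_subset_iff]
    rfl
  have hWT : W ≤ T := (hWle T).mpr h3
  have hNW : Subgroup.normalizer (T : Set G) ≤ Subgroup.normalizer (W : Set G) := by
    intro m hm
    apply mem_normalizer_of_cj_le
    rw [cj_le_iff_le_cj_inv, hWle]
    intro x hx
    rw [← cj_le_iff_le_cj_inv, cj_cj]
    exact (hWle W).mp le_rfl _ (Subgroup.mul_mem _ hm hx)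
  have h4 : CtlFus (N ⊓ Subgroup.normalizer (W : Set G) : Subgroup G) T N := by
    refine ctlFus_of_radical hTN fun U hU _ hr n hn => ?_
    have h5 : cj n U ≤ T := (cj_eq_of_mem_normalizer hn.2).le.trans hU
    refine Fus.step ⟨hn.1, mem_normalizer_of_cj_le ?_⟩ h5
    rw [cj_le_iff_le_cj_inv, hWle]
    intro x hx
    rw [← cj_le_iff_le_cj_inv]
    refine le_trans (((h2 x hx).sClosedIn (h3 x hx) inf_le_right).cj_le le_rfl hn.1
      ((cj_mono n ?_).trans h5)) ((hWle W).mp le_rfl x hx)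
    exact hr.le_of_ctlFus hTN.isPGroup hTN.le hU (h3 x hx) (h2 x hx) inf_le_right
  obtain ⟨n, hn⟩ := exists_iterCommutator_self_eq_bot (hTN.isPGroup.to_le hWT)
  have h5 := ctlFus_normalizer_of_chain (isSylowIn_top P) (hWT.trans inf_le_left)
    (iterCommutator W W) rfl hn (fun i v hv g _ hg => ?_) fun i => le_rfl
  · rw [top_inf_eq, ctlFus_subgroup_iff'] at h5
    exact fun A hA g hg => h5 A hA g trivial hg
  have h6 := (iterCommutator_self_le W i).trans hWT
  obtain ⟨k, hk, m, hm, rfl⟩ := hTN.frattini (g := g) (by rw [Subgroup.normalizer_eq_top]; trivial)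
  have h7 := (Subgroup.mem_normalizer_iff.mp
    (normalizer_le_normalizer_iterCommutator_self W i (hNW hm)) v).mp hv
  have e : k * m * v * (k * m)⁻¹ = k * (m * v * m⁻¹) * k⁻¹ := by group
  rw [e] at hg ⊢
  exact h4.sClosedIn h6 (inf_le_right.trans (normalizer_le_normalizer_iterCommutator_self W i)) _ h7
    k hk ⟨hg, N.mul_mem (N.mul_mem hk (h6 h7).2) (N.inv_mem hk)⟩

end Cfsg.Agent.S1954
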