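import Cfsg.Statements.S2001
import Cfsg.Agent.Trans.Centric
import Cfsg.Agent.Solv.PGroupNormal

set_option autoImplicit false
open Cfsg

namespace Cfsg.Agent.S2001

open Cfsg.Lib.Trans

/-- The subgroup controlled by `W` with `V`. -/
def ctl {G : Type*} [Group G] (W V : Subgroup G → Subgroup G) (L Q : Subgroup G) : Subgroup G :=
  (Q ⊓ ⁅L ⊓ Subgroup.normalizer ((W Q : Subgroup G) : Set G),
    L ⊓ Subgroup.normalizer ((W Q : Subgroup G) : Set G)⁆) ⊔
  (Q ⊓ ⁅L ⊓ Subgroup.centralizer ((V Q : Subgroup G) : Set G),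
    L ⊓ Subgroup.centralizer ((V Q : Subgroup G) : Set G)⁆)


/-- Let p be a prime dividing the order of the finite group G, P a Sylow p-subgroup, W a conjugacy functor for p on G with Z(H) ≤ W(H) for every nontrivial p-subgroup H, and V a central functor: a conjugacy functor with V(H) ≤ Z(H), and V(H) ≤ V(K) whenever Z(H) ≤ Z(K), for nontrivial p-subgroups H, K. Say that W with V controls transfer in a subgroup L when some Sylow p-subgroup Q of L satisfies Q ∩ L' = (Q ∩ (N_L(W(Q)))')·(Q ∩ (C_L(V(Q)))') as a product of two subgroups. If W with V controls transfer in N_G(H) for every subgroup H with Z(P) ≤ H ≤ P, then W with V controls transfer in G. -/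
theorem result {G : Type*} [Group G] [Finite G] {p : ℕ} [Fact p.Prime] (hdiv : p ∣ Nat.card G) (P : Sylow p G) (W V : Subgroup G → Subgroup G) (hW : Cfsg.IsConjugacyFunctor p W) (hV : Cfsg.IsConjugacyFunctor p V) (hWZ : ∀ H : Subgroup G, IsPGroup p ↥H → H ⊓ Subgroup.centralizer ((H : Subgroup G) : Set G) ≤ W H) (hVZ : ∀ H : Subgroup G, IsPGroup p ↥H → V H ≤ H ⊓ Subgroup.centralizer ((H : Subgroup G) : Set G)) (hVmono : ∀ H K : Subgroup G, IsPGroup p ↥H → IsPGroup p ↥K → H ≠ ⊥ → K ≠ ⊥ → H ⊓ Subgroup.centralizer ((H : Subgroup G) : Set G) ≤ K ⊓ Subgroup.centralizer ((K : Subgroup G) : Set G) → V H ≤ V K) (hloc : ∀ H : Subgroup G, (P : Subgroup G) ⊓ Subgroup.centralizer (((P : Subgroup G) : Subgroup G) : Set G) ≤ H → H ≤ (P : Subgroup G) → ∃ Q : Subgroup G, Q ≤ Subgroup.normalizer ((H : Subgroup G) : Set G) ∧ IsPGroup p ↥Q ∧ ¬ p ∣ (Q).relIndex (Subgroup.normalizer ((H : Subgroup G) : Set G)) ∧ ∀ x : G, x ∈ Q ⊓ ⁅Subgroup.normalizer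 ((H : Subgroup G) : Set G), Subgroup.normalizer ((H : Subgroup G) : Set G)⁆ ↔ ∃ a ∈ Q ⊓ ⁅Subgroup.normalizer ((H : Subgroup G) : Set G) ⊓ Subgroup.normalizer ((W Q : Subgroup G) : Set G), Subgroup.normalizer ((H : Subgroup G) : Set G) ⊓ Subgroup.normalizer ((W Q : Subgroup G) : Set G)⁆, ∃ b ∈ Q ⊓ ⁅Subgroup.normalizer ((H : Subgroup G) : Set G) ⊓ Subgroup.centralizer ((V Q : Subgroup G) : Set G), Subgroup.normalizer ((H : Subgroup G) : Set G) ⊓ Subgroup.centralizer ((V Q : Subgroup G) : Set G)⁆, x = a * b) : ∃ Q : Subgroup G, IsPGroup p ↥Q ∧ ¬ p ∣ Q.index ∧ ∀ x : G, x ∈ Q ⊓ commutator G ↔ ∃ a ∈ Q ⊓ ⁅Subgroup.normalizer ((W Q : Subgroup G) : Set G), Subgroup.normalizer ((W Q : Subgroup G) : Set G)⁆, ∃ b ∈ Q ⊓ ⁅Subgroup.centralizer ((V Q : Subgroup G) : Set G), Subgroup.centralizer ((V Q : Subgroup G) : Set G)⁆, x = a * b := by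
  have hP := isSylowIn_top P
  have hZ0 : (P : Subgroup G) ≠ ⊥ := fun h => (hP.eq_bot_iff.mp h) (by rwa [Subgroup.card_top])
  have hloc' : ∀ H T : Subgroup G, (P : Subgroup G) ⊓ Subgroup.centralizer ((P : Subgroup G) : Set G) ≤ H →
      H ≤ P → IsSylowIn p T (Subgroup.normalizer (H : Set G)) →
      T ⊓ ⁅Subgroup.normalizer (H : Set G), Subgroup.normalizer (H : Set G)⁆ ≤
        ctl W V (Subgroup.normalizer (H : Set G)) T := by
    intro H T h1 h2 hT
    obtain ⟨Q, h3, h4, h5, h6⟩ := hloc H h1 h2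
    have h7 : Q ⊓ ⁅Subgroup.normalizer (H : Set G), Subgroup.normalizer (H : Set G)⁆ ≤
        ctl W V (Subgroup.normalizer (H : Set G)) Q := by
      intro x hx
      obtain ⟨a, ha, b, hb, rfl⟩ := (h6 x).mp hx
      exact Subgroup.mul_mem_sup ha hb
    obtain ⟨k, hk, rfl⟩ := hT.exists_cj_eq ⟨h3, h4, h5⟩
    have h8 := cj_mono k h7
    simp only [ctl, cj_inf, cj_sup, cj_commutator, cj_eq_of_mem hk] at h8
    rwa [ctl, cf_cj hW h4, cf_cj hV h4, ← cj_normalizer, ← cj_centralizer]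
  have h1 := wellPlacedIn_induction hW (H := ⊤) P.isPGroup' (fun U =>
    (P : Subgroup G) ⊓ Subgroup.centralizer ((P : Subgroup G) : Set G) ≤ U →
      ((P : Subgroup G) ⊓ Subgroup.normalizer (U : Set G)) ⊓
        ⁅Subgroup.normalizer (U : Set G), Subgroup.normalizer (U : Set G)⁆ ≤ ctl W V ⊤ P) ?_
  swap
  · intro U hU ih hZU
    have hT := fullyNorm_top_iff'.mp hU.fullyNorm
    set T := (P : Subgroup G) ⊓ Subgroup.normalizer (U : Set G) with hTdef
    have hZT : (P : Subgroup G) ⊓ Subgroup.centralizer ((P : Subgroup G) : Set G) ≤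
        T ⊓ Subgroup.centralizer (T : Set G) :=
      le_inf (hZU.trans (le_inf hU.le Subgroup.le_normalizer))
        (inf_le_right.trans (Subgroup.centralizer_le inf_le_left))
    refine (hloc' U T hZU hU.le hT).trans (sup_le ?_ ?_)
    · rcases (inf_le_left : T ≤ P).eq_or_lt with h2 | h2
      · rw [show T = P from h2]
        exact le_sup_of_le_left (inf_le_inf_left _ (Subgroup.commutator_mono
          (inf_le_inf_right _ le_top) (inf_le_inf_right _ le_top)))
      · refine le_trans (inf_le_inf ?_ (Subgroup.commutator_mono inf_le_right inf_le_right))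
          (ih h2 (hZT.trans (hWZ T hT.isPGroup)))
        exact le_inf inf_le_left (cf_le_normalizer hW hT.isPGroup)
    · have h2 : V P ≤ V T := by
        refine hVmono _ _ P.isPGroup' hT.isPGroup hZ0 (fun h => ?_) hZT
        exact Lib.Solv.PG.inf_centralizer_ne_bot P.isPGroup' P.isPGroup' Subgroup.le_normalizer hZ0
          (eq_bot_iff.mpr (hZT.trans (inf_le_left.trans h.le)))
      have h3 := inf_le_inf (le_top (a := Subgroup.normalizer (U : Set G)))
        (Subgroup.centralizer_le h2)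
      exact le_sup_of_le_right (inf_le_inf inf_le_left (Subgroup.commutator_mono h3 h3))
  have hmono : ∀ (A B : Subgroup G) (g : G), A ≤ B →
      (∀ a ∈ B, a⁻¹ * (g * a * g⁻¹) ∈ ctl W V ⊤ P) → ∀ a ∈ A, a⁻¹ * (g * a * g⁻¹) ∈ ctl W V ⊤ P :=
    fun A B g h h' a ha => h' a (h ha)
  have hmul : ∀ (A : Subgroup G) (g h : G), (∀ a ∈ A, a⁻¹ * (g * a * g⁻¹) ∈ ctl W V ⊤ P) →
      (∀ a ∈ cj g A, a⁻¹ * (h * a * h⁻¹) ∈ ctl W V ⊤ P) →
      ∀ a ∈ A, a⁻¹ * (h * g * a * (h * g)⁻¹) ∈ ctl W V ⊤ P := by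
    intro A g h h1 h2 a ha
    have := Subgroup.mul_mem _ (h1 a ha) (h2 _ (conj_mem_cj.mpr ha))
    convert this using 1
    group
  have h2 := alperin_wellPlaced hW hP
    (fun A g => ∀ a ∈ A, a⁻¹ * (g * a * g⁻¹) ∈ ctl W V ⊤ P) hmono hmul ?_
  swap
  · intro U hU ih n hn
    by_cases h2 : (P : Subgroup G) ⊓ Subgroup.centralizer (U : Set G) ≤ U
    · intro a ha
      have h3 : a⁻¹ * (n * a * n⁻¹) ∈ U :=
        U.mul_mem (U.inv_mem ha) ((Subgroup.mem_normalizer_iff.mp hn.2 a).mp ha)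
      exact h1 U hU (le_trans (inf_le_inf_left _ (Subgroup.centralizer_le hU.le)) h2)
        ⟨⟨hU.le h3, Subgroup.le_normalizer h3⟩,
          inv_mul_conj_mem_commutator (Subgroup.le_normalizer ha) hn.2⟩
    · refine alperin_step_noncentric hP hmono hmul (fun A c _ hc a ha => ?_) hU.le hU.fullyNorm h2
        ih n hn
      rw [conj_eq_of_mem_centralizer hc ha, inv_mul_cancel]
      exact Subgroup.one_mem _
  have h3 : (P : Subgroup G) ⊓ ⁅(⊤ : Subgroup G), (⊤ : Subgroup G)⁆ ≤ ctl W V ⊤ P :=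
    hP.inf_commutator_le fun b hb g _ hg => h2 (Subgroup.zpowers b) (Subgroup.zpowers_le.mpr hb) g
      trivial (by rwa [cj_zpowers, Subgroup.zpowers_le]) b (Subgroup.mem_zpowers b)
  refine ⟨P, P.isPGroup', P.not_dvd_index, fun x => ⟨fun hx => ?_, ?_⟩⟩
  · have h4 := h3 hx
    rw [ctl, top_inf_eq, top_inf_eq, Lib.Solv.mem_sup_of_le_normalizer] at h4
    · obtain ⟨a, ha, b, hb, rfl⟩ := h4
      exact ⟨a, ha, b, hb, rfl⟩
    · intro s hs
      rw [← cj_eq_self_iff, cj_inf, cj_commutator, cj_eq_of_mem hs.1,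
        cj_eq_of_mem (cf_le_normalizer hW P.isPGroup' hs.1)]
  · rintro ⟨a, ha, b, hb, rfl⟩
    exact ⟨Subgroup.mul_mem _ ha.1 hb.1, Subgroup.mul_mem _
      (Subgroup.commutator_mono le_top le_top ha.2) (Subgroup.commutator_mono le_top le_top hb.2)⟩

end Cfsg.Agent.S2001
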