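import Cfsg.Statements.S2002
import Cfsg.Agent.Trans.Centric
import Cfsg.Agent.Solv.PGroupNormal

set_option autoImplicit false
open Cfsg

namespace Cfsg.Agent.S2002

open Cfsg.Lib.Trans

/-- The allowed steps. -/
def stepSet {G : Type*} [Group G] (W V : Subgroup G → Subgroup G) (L Q : Subgroup G) : Set G :=
  {x | x ∈ L ⊓ Subgroup.normalizer ((W Q : Subgroup G) : Set G) ∨
    x ∈ L ⊓ Subgroup.centralizer ((V Q : Subgroup G) : Set G)}

theorem inv_mem_stepSet {G : Type*} [Group G] {W V : Subgroup G → Subgroup G} {L Q : Subgroup G} :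
    ∀ x ∈ stepSet W V L Q, x⁻¹ ∈ stepSet W V L Q := by
  rintro x (h | h)
  exacts [Or.inl (Subgroup.inv_mem _ h), Or.inr (Subgroup.inv_mem _ h)]

theorem image_conj_eq {G : Type*} [Group G] {c : G} {X : Set G} (hc : c ∈ Subgroup.centralizer X) :
    (fun x => c⁻¹ * x * c) '' X = X := by
  rw [Set.image_congr fun a ha => conj_eq_of_mem_centralizer' hc ha, Set.image_id']


/-- Let p be a prime dividing the order of the finite group G, P a Sylow p-subgroup, W a conjugacy functor for p on G with Z(H) ≤ W(H) for every nontrivial p-subgroup H, and V a central functor (a conjugacy functor with V(H) ≤ Z(H), and V(H) ≤ V(K) whenever Z(H) ≤ Z(K)). Say that W with V controls strong fusion in a subgroup L when some Sylow p-subgroup Q of L has the property: whenever X ⊆ Q and a ∈ L with a⁻¹Xa ⊆ Q, then a = c b with c ∈ C_L(X) and b = b₁ ⋯ bₙ a product of elements each in N_L(W(Q)) or in C_L(V(Q)) such that every partial conjugate (b₁ ⋯ bₖ)⁻¹ X (b₁ ⋯ bₖ)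 lies in Q. If W with V controls strong fusion in N_G(H) for every subgroup H with Z(P) ≤ H ≤ P, then W with V controls strong fusion in G. -/
theorem result {G : Type*} [Group G] [Finite G] {p : ℕ} [Fact p.Prime] (hdiv : p ∣ Nat.card G) (P : Sylow p G) (W V : Subgroup G → Subgroup G) (hW : Cfsg.IsConjugacyFunctor p W) (hV : Cfsg.IsConjugacyFunctor p V) (hWZ : ∀ H : Subgroup G, IsPGroup p ↥H → H ⊓ Subgroup.centralizer ((H : Subgroup G) : Set G) ≤ W H) (hVZ : ∀ H : Subgroup G, IsPGroup p ↥H → V H ≤ H ⊓ Subgroup.centralizer ((H : Subgroup G) : Set G)) (hVmono : ∀ H K : Subgroup G, IsPGroup p ↥H → IsPGroup p ↥K → H ≠ ⊥ → K ≠ ⊥ → H ⊓ Subgroup.centralizer ((H : Subgroup G) : Set G) ≤ K ⊓ Subgroup.centralizer ((K : Subgroup G) : Set G) → V H ≤ V K) (hloc : ∀ H : Subgroup G, (P : Subgroup G) ⊓ Subgroup.centralizer (((P : Subgroup G) : Subgroup G) : Set G) ≤ H → H ≤ (P : Subgroup G) → ∃ Q : Subgroup G, Q ≤ Subgroup.normalizer ((H : Subgroup G) : Set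 G) ∧ IsPGroup p ↥Q ∧ ¬ p ∣ (Q).relIndex (Subgroup.normalizer ((H : Subgroup G) : Set G)) ∧ ∀ (X : Set G) (a : G), X ⊆ Q → a ∈ Subgroup.normalizer ((H : Subgroup G) : Set G) → (fun x => a⁻¹ * x * a) '' X ⊆ Q → ∃ c ∈ Subgroup.normalizer ((H : Subgroup G) : Set G) ⊓ Subgroup.centralizer X, ∃ (n : ℕ) (b : Fin n → G), (∀ i, b i ∈ Subgroup.normalizer ((H : Subgroup G) : Set G) ⊓ Subgroup.normalizer ((W Q : Subgroup G) : Set G) ∨ b i ∈ Subgroup.normalizer ((H : Subgroup G) : Set G) ⊓ Subgroup.centralizer ((V Q : Subgroup G) : Set G)) ∧ a = c * (List.ofFn b).prod ∧ ∀ k : ℕ, k ≤ n → (fun x => (((List.ofFn b).take k).prod)⁻¹ * x * ((List.ofFn b).take k).prod) '' ((fun x => c⁻¹ * x * c) '' X) ⊆ Q) : ∃ Q : Subgroup G, IsPGroup p ↥Q ∧ ¬ p ∣ Q.index ∧ ∀ (X : Set G) (a : G), X ⊆ Q → (fun x => a⁻¹ * x * a) '' X ⊆ Q → ∃ c ∈ Subgroup.centralizer X, ∃ (n : ℕ) (b : Fin n → G), (∀ i, b i ∈ ⊤ ⊓ Subgroup.normalizer ((W Q : Subgroup G) : Set G) ∨ b i ∈ ⊤ ⊓ Subgroup.centralizer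 ((V Q : Subgroup G) : Set G)) ∧ a = c * (List.ofFn b).prod ∧ ∀ k : ℕ, k ≤ n → (fun x => (((List.ofFn b).take k).prod)⁻¹ * x * ((List.ofFn b).take k).prod) '' ((fun x => c⁻¹ * x * c) '' X) ⊆ Q := by
  have hP := isSylowIn_top P
  have hZ0 : (P : Subgroup G) ≠ ⊥ := fun h => (hP.eq_bot_iff.mp h) (by rwa [Subgroup.card_top])
  have hloc' : ∀ H T : Subgroup G, (P : Subgroup G) ⊓ Subgroup.centralizer ((P : Subgroup G) : Set G) ≤ H →
      H ≤ P → IsSylowIn p T (Subgroup.normalizer (H : Set G)) →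
      CtlFus (stepSet W V (Subgroup.normalizer (H : Set G)) T) T (Subgroup.normalizer (H : Set G)) := by
    intro H T h1 h2 hT
    obtain ⟨Q, h3, h4, h5, h6⟩ := hloc H h1 h2
    have h7 : CtlFus (stepSet W V (Subgroup.normalizer (H : Set G)) Q) Q
        (Subgroup.normalizer (H : Set G)) := by
      intro A hA g hg hgA
      obtain ⟨c, hc, n, b, h8, h9, h10⟩ := h6 A g⁻¹ hA (Subgroup.inv_mem _ hg)
        (by rw [← coe_cj_inv, inv_inv]; exact hgA)
      rw [← inv_inv g, fus_iff_list inv_mem_stepSet hA]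
      refine ⟨c, hc.2, n, b, h8, h9, fun k hk => ?_⟩
      have := h10 k hk
      rwa [image_conj_eq hc.2, ← coe_cj_inv] at this
    obtain ⟨k, hk, rfl⟩ := hT.exists_cj_eq ⟨h3, h4, h5⟩
    have h8 := h7.conj k
    rw [cj_eq_of_mem hk] at h8
    refine h8.mono ?_
    rintro _ ⟨x, hx | hx, rfl⟩
    · left
      rw [cf_cj hW h4, ← cj_normalizer, ← cj_eq_of_mem hk, ← cj_inf]
      exact conj_mem_cj.mpr hx
    · right
      rw [cf_cj hV h4, ← cj_centralizer, ← cj_eq_of_mem hk, ← cj_inf]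
      exact conj_mem_cj.mpr hx
  have h1 := wellPlacedIn_induction hW (H := ⊤) P.isPGroup' (fun U =>
    (P : Subgroup G) ⊓ Subgroup.centralizer ((P : Subgroup G) : Set G) ≤ U →
      ∀ A ≤ (P : Subgroup G) ⊓ Subgroup.normalizer (U : Set G),
        ∀ g ∈ Subgroup.normalizer (U : Set G),
          cj g A ≤ (P : Subgroup G) ⊓ Subgroup.normalizer (U : Set G) →
            Fus (stepSet W V ⊤ P) P A g) ?_
  swap
  · intro U hU ih hZU A hA g hg hgA
    have hT := fullyNorm_top_iff'.mp hU.fullyNorm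
    set T := (P : Subgroup G) ⊓ Subgroup.normalizer (U : Set G) with hTdef
    have hZT : (P : Subgroup G) ⊓ Subgroup.centralizer ((P : Subgroup G) : Set G) ≤
        T ⊓ Subgroup.centralizer (T : Set G) :=
      le_inf (hZU.trans (le_inf hU.le Subgroup.le_normalizer))
        (inf_le_right.trans (Subgroup.centralizer_le inf_le_left))
    refine (hloc' U T hZU hU.le hT A hA g hg hgA).bind ?_ hA
    rintro B x hB (hx | hx) hxB
    · rcases (inf_le_left : T ≤ P).eq_or_lt with h2 | h2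
      · rw [show T = P from h2] at hx hxB
        exact Fus.step (Or.inl ⟨trivial, hx.2⟩) hxB
      · have h3 : T ≤ (P : Subgroup G) ⊓ Subgroup.normalizer ((W T : Subgroup G) : Set G) :=
          le_inf inf_le_left (cf_le_normalizer hW hT.isPGroup)
        exact ih h2 (hZT.trans (hWZ T hT.isPGroup)) B (hB.trans h3) x hx.2 (hxB.trans h3)
    · refine Fus.step (Or.inr ⟨trivial, Subgroup.centralizer_le ?_ hx.2⟩) (hxB.trans inf_le_left)
      refine hVmono _ _ P.isPGroup' hT.isPGroup hZ0 (fun h => ?_) hZT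
      exact Lib.Solv.PG.inf_centralizer_ne_bot P.isPGroup' P.isPGroup' Subgroup.le_normalizer hZ0
        (eq_bot_iff.mpr (hZT.trans (inf_le_left.trans h.le)))
  have h2 := alperin_wellPlaced hW hP (Fus (stepSet W V ⊤ P) P) (fun A B g h h' => h'.anti h)
    (fun A g h h1 h2 => h1.mul h2) ?_
  swap
  · intro U hU ih n hn
    by_cases h2 : (P : Subgroup G) ⊓ Subgroup.centralizer (U : Set G) ≤ U
    · refine h1 U hU (le_trans (inf_le_inf_left _ (Subgroup.centralizer_le hU.le)) h2) U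
        (le_inf hU.le Subgroup.le_normalizer) n hn.2 ?_
      rw [cj_eq_of_mem_normalizer hn.2]
      exact le_inf hU.le Subgroup.le_normalizer
    · exact alperin_step_noncentric hP (R := Fus (stepSet W V ⊤ P) P)
        (fun A B g h h' => Fus.anti h' h)
        (fun A g h h1 h2 => Fus.mul h1 h2) (fun A c _ hc => Fus.cent hc) hU.le hU.fullyNorm h2 ih
        n hn
  refine ⟨P, P.isPGroup', P.not_dvd_index, fun X a hX ha => ?_⟩
  have h3 : Subgroup.closure X ≤ P := (Subgroup.closure_le _).mpr hX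
  obtain ⟨c, hc, n, b, h4, h5, h6⟩ := (fus_iff_list inv_mem_stepSet h3).mp
    (h2 _ h3 a⁻¹ trivial (cj_closure_le (by rw [inv_inv]; exact ha)))
  have hc' := Subgroup.centralizer_le Subgroup.subset_closure hc
  refine ⟨c, hc', n, b, h4, h5, fun k hk => ?_⟩
  have := image_subset_of_cj_closure_le (h6 k hk)
  rwa [image_conj_eq hc', ← inv_inv ((List.ofFn b).take k).prod, inv_inv (_)⁻¹]

end Cfsg.Agent.S2002
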