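import Cfsg.Statements.S2010
import Cfsg.Agent.Gold.ClassTwo

set_option autoImplicit false
open Cfsg

namespace Cfsg.Agent.S2010

open Cfsg.Lib.Gold

/-- Let G be a finite solvable group with no section isomorphic to the symmetric group of degree 4, whose Sylow 2-subgroup S has nilpotency class at most 2. Then G = N_G(J_e(S)) · O_{2'}(G), where J_e(S) is the subgroup generated by the elementary abelian subgroups of S of largest order. -/
theorem result {G : Type*} [Group G] [Finite G]
    [Group.IsSolvable G] (hS4 : ¬ Cfsg.Involves (Equiv.Perm (Fin 4)) G) (S : Sylow 2 G)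
    (hcl : Subgroup.lowerCentralSeries (S : Subgroup G) 2 = ⊥) :
    Subgroup.normalizer ((Cfsg.thompsonSubgroupOf 2 (S : Subgroup G)) : Set G) ⊔ Cfsg.pPrimeCore 2 G = ⊤ := by
  exact normalizer_J_sup_of_class_two (Cfsg.Lib.Solv.isPConstrained_of_isSolvable 2 G)
    (fun h => hS4 (involves_S4_iff_qd.2 h)) S hcl (Or.inr rfl)

end Cfsg.Agent.S2010
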