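import Cfsg.Statements.S2015
import Cfsg.Agent.Trans.KInfGlobal

set_option autoImplicit false
universe u
open Cfsg

namespace Cfsg.Agent.S2015

open Cfsg.Lib Cfsg.Lib.Trans

/-- For p ≥ 5, every finite p-group P has a characteristic subgroup K containing Z(P), depending only on P, whose normalizer controls transfer wherever P is a Sylow subgroup: for every finite group G and every embedding ι of P onto a Sylow p-subgroup of G, the intersection of ι(P) with the derived subgroup of G equals its intersection with the derived subgroup of N_G(ι(K)). -/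
theorem result (p : ℕ) [Fact p.Prime] (hp : 5 ≤ p) (P : Type u) [Group P] [Finite P] (hP : IsPGroup p P) : ∃ K : Subgroup P, K.Characteristic ∧ Subgroup.center P ≤ K ∧ ∀ (G : Type u) [Group G] [Finite G] (ι : P →* G), Function.Injective ι → (∃ T : Sylow p G, (T : Subgroup G) = ι.range) → ι.range ⊓ commutator G = ι.range ⊓ (commutator ↥(Subgroup.normalizer ((K.map ι : Subgroup G) : Set G))).map (Subgroup.normalizer ((K.map ι : Subgroup G) : Set G)).subtype := by
  have hW := isCharPFunctor_kInfLower.{u} p
  refine ⟨kInfLower P, ?_, ?_, fun G _ _ ι hι ⟨T, hT⟩ => ?_⟩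
  · exact Subgroup.characteristic_iff_map_eq.mpr fun φ => hW.2 P P hP φ
  · have h1 := center_le_kLowerIn (⊤ : Subgroup P)
    rwa [← kInfLower_eq, top_inf_eq, Subgroup.coe_top, Subgroup.centralizer_univ] at h1
  · have h := isKInf_lower.inf_commutator_eq hp (isSylowIn_top T)
    rw [hT, inducedFunctor_kInfLower, MonoidHom.range_eq_map, ← map_kLowerIn hι, ← kInfLower_eq,
      ← MonoidHom.range_eq_map] at h
    rw [h, Subgroup.map_subtype_commutator]

end Cfsg.Agent.S2015
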