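import Cfsg.Statements.S2045
import Cfsg.Agent.Spor.Co0MultA

set_option autoImplicit false
open Cfsg

namespace Cfsg.Agent.S2045

open Cfsg.Lib Cfsg.Lib.Spor Cfsg.Lib.Spor.CK Cfsg.Lib.Spor.Orb MulAction

/-- The Schur multiplier of the Conway group Co₃ (the stabiliser of a vector of the second shortest length in the rank-24 lattice) is trivial; here the Schur multiplier is described through stem extensions, as in the definitions: surjective homomorphisms onto the group from a finite group, whose kernel is central in that finite group and contained in that finite group's commutator subgroup. -/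
theorem result : Cfsg.HasCyclicSchurMultiplier ↥Cfsg.Spor.Co3 1 := by
  refine Known.hasSchurMultiplier_congr sCo3Equiv (Known.hasTrivialMultiplier_of_pBound fun p hp => ?_)
  by_cases e2 : p = 2
  · exact e2 ▸ pBound_Co3_2
  by_cases e3 : p = 3
  · exact e3 ▸ pBound_Co3_3
  exact Known.pBound_others card_sCo3 23 1 [5] (by decide +kernel) (by simpa using pBound_Co3_5)
    p hp e2 e3

end Cfsg.Agent.S2045
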