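import Cfsg.Statements.S2111
import Cfsg.Agent.Known.SzMult

set_option autoImplicit false
open Cfsg

namespace Cfsg.Agent.S2111


/-- Schur multipliers of the Suzuki groups: for q = 2^(2m+1) with m ≥ 2 the Schur multiplier of Sz(q) is trivial (here the Schur multiplier is described through stem extensions, as in the definitions); q = 8 is exceptional. -/
theorem result {F : Type*} [Field F] [Fintype F] {m : ℕ} (hm : 2 ≤ m) (hF : Fintype.card F = 2 ^ (2 * m + 1)) : Cfsg.HasCyclicSchurMultiplier ↥(Cfsg.Lie.Sz F (2 ^ (m + 1))) 1 := by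
  have M := Cfsg.Lib.Chev.lieSzModel (by omega : 1 ≤ m) hF
  have := M.finite
  refine Cfsg.Lib.Known.hasTrivialMultiplier_of_pBound fun p hp => ?_
  by_cases hp2 : p = 2
  · subst hp2
    intro Γ _ _ σ hσ
    refine ⟨fun _ => 1, fun _ => one_mem _, fun l hl => absurd hl (by omega), fun z hz => ?_⟩
    have h16 : 16 ≤ Fintype.card F := by
      rw [hF]
      calc 16 = 2 ^ 4 := by norm_num
        _ ≤ _ := Nat.pow_le_pow_right (by norm_num) (by omega)
    obtain ⟨b, hb⟩ := Cfsg.Lib.Known.SzMult.pow_mem_range M hσ hz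
    rw [Cfsg.Lib.Known.SzMult.gam_eq_one M hσ h16] at hb
    refine Cfsg.Lib.Known.mem_of_pow_coprime _
      (Nat.coprime_two_right.mpr (Cfsg.Lib.Known.SzMult.odd_exp M)) (hb ▸ one_mem _)
      (Subgroup.subset_closure (Or.inr ⟨z, hz, rfl⟩))
  · exact Cfsg.Lib.Known.SzMult.pBound_odd M hp hp2

end Cfsg.Agent.S2111
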