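import Cfsg.Statements.S2128
import Cfsg.Agent.Chev.AutTwB
import Cfsg.Agent.Known.FinFieldAut

set_option autoImplicit false
open Cfsg Cfsg.Lib.Chev Cfsg.Lib.Chev.Core

namespace Cfsg.Agent.S2128

/-- Outer automorphisms of the large Ree groups: for q = 2^(2m+1) with m ≥ 1 the outer automorphism group of ²F₄(q) has order 2m + 1 (field automorphisms only). -/
theorem result {K : Type*} [Field K] [Fintype K] {m : ℕ} (hm : 1 ≤ m) (hK : Fintype.card K = 2 ^ (2 * m + 1)) : Nat.card (Cfsg.Out ↥(Cfsg.Lie.twistedF4 K (2 ^ m))) = 2 * m + 1 := by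
  obtain ⟨_, θ, hθ, -, hM⟩ := exists_twF4 hK
  refine (card_out_twF4 θ hθ ?_ hM).trans (Cfsg.Lib.Known.card_ringAut hK)
  rw [hK]
  exact lt_of_lt_of_le (by norm_num) (Nat.pow_le_pow_right two_pos (by omega : 2 ≤ _))

end Cfsg.Agent.S2128
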