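import Cfsg.Statements.S2129
import Cfsg.Agent.Chev.AutTwA
import Cfsg.Agent.Known.FinFieldAut

set_option autoImplicit false
open Cfsg Cfsg.Lib.Chev Cfsg.Lib.Chev.Core

namespace Cfsg.Agent.S2129

/-- Outer automorphisms of the triality-twisted groups: for q = p^f (p prime), with the group realised over the field with q³ elements, the outer automorphism group of ³D₄(q) has order 3f (the field automorphisms of the cubic extension). -/
theorem result {K : Type*} [Field K] [Fintype K] (p f : ℕ) [Fact p.Prime] [CharP K p] (hK : Fintype.card K = p ^ (3 * f)) (hf : 1 ≤ f) : Nat.card (Cfsg.Out ↥(Cfsg.Lie.twistedD4 K (p ^ f))) = 3 * f := by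
  obtain ⟨g, hg, hq, hM⟩ := exists_twD4 (q := p ^ f) (hK.trans (by rw [← pow_mul, mul_comm]))
  exact (card_out_twD4 g hg (hK.trans (by rw [← pow_mul, mul_comm])) hq hM).trans
    (Cfsg.Lib.Known.card_ringAut hK)

end Cfsg.Agent.S2129
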