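import Cfsg.Statements.S2163
import Mathlib
import Cfsg.Agent.Known.GLOrder

set_option autoImplicit false
open Cfsg

namespace Cfsg.Agent.S2163

/-- Over a finite field of characteristic two and for n ≥ 3: for every ℓ with 1 ≤ ℓ and 2ℓ ≤ n, the matrix j_ℓ that is the identity plus the entries 1 in positions (n − ℓ + i, i) for i < ℓ (an identity block of size ℓ in the lower left corner) lies in SL_n(F), has order 2, and j_ℓ − 1 has rank ℓ. Together with the conjugacy criterion by rank, these matrices represent the conjugacy classes of involutions of SL_n(F). -/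
theorem result {F : Type*} [Field F] [Fintype F] [CharP F 2] {n : ℕ} (hn : 3 ≤ n) (ℓ : ℕ) (h1 : 1 ≤ ℓ) (h2 : 2 * ℓ ≤ n) :
    ∃ a : Matrix.SpecialLinearGroup (Fin n) F, (a : Matrix (Fin n) (Fin n) F) = 1 + Matrix.of (fun i j : Fin n => if j.val < ℓ ∧ i.val = j.val + (n - ℓ) then (1 : F) else 0) ∧ orderOf a = 2 ∧ ((a : Matrix (Fin n) (Fin n) F) - 1).rank = ℓ := by
  classical
  set N : Matrix (Fin n) (Fin n) F :=
    Matrix.of (fun i j : Fin n => if j.val < ℓ ∧ i.val = j.val + (n - ℓ) then (1 : F) else 0)
    with hN
  have hdet : (1 + N).det = 1 := by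
    rw [Matrix.det_of_isLowerTriangular]
    · refine Finset.prod_eq_one fun i _ => ?_
      simp only [Matrix.add_apply, Matrix.one_apply_eq, hN, Matrix.of_apply]
      rw [if_neg (by omega), add_zero]
    · intro i j hij
      have h : (i : ℕ) < j := hij
      simp only [Matrix.add_apply, hN, Matrix.of_apply]
      rw [Matrix.one_apply_ne (by rintro rfl; omega), if_neg (by omega), add_zero]
  have hN2 : N * N = 0 := by
    ext i k
    simp only [Matrix.mul_apply, hN, Matrix.of_apply, Matrix.zero_apply]
    refine Finset.sum_eq_zero fun j _ => ?_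
    split_ifs <;> first | omega | simp
  let D : Matrix (Fin n) (Fin n) F := Matrix.diagonal fun j => if j.val < ℓ then 1 else 0
  have hD : D.rank = ℓ := by
    rw [Matrix.rank_diagonal, Fintype.card_subtype]
    simp only [ne_eq, ite_eq_right_iff, one_ne_zero, imp_false, not_not]
    rw [Fin.card_filter_val_lt]; omega
  have hND : N * D = N := by
    ext i j
    simp only [D, Matrix.mul_diagonal, hN, Matrix.of_apply]
    split_ifs <;> first | omega | simp
  have hNN : N.transpose * N = D := by
    ext i j
    simp only [D, Matrix.mul_apply, hN, Matrix.of_apply, Matrix.transpose_apply,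
      Matrix.diagonal_apply]
    by_cases hj : j.val < ℓ
    · rw [Finset.sum_eq_single (⟨j.val + (n - ℓ), by omega⟩ : Fin n)]
      · simp only [hj, true_and, if_true, mul_one, Fin.ext_iff]
        split_ifs <;> first | omega | rfl
      · intro k _ hk
        rw [if_neg (c := j.val < ℓ ∧ _) (fun h => hk (Fin.ext h.2)), mul_zero]
      · simp
    · simp only [hj, false_and, if_false, mul_zero, Finset.sum_const_zero]
      split_ifs with h3 h4
      · subst h3; omega
      · rfl
      · rfl
  have hr : N.rank = ℓ := by
    apply le_antisymm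
    · rw [← hND, ← hD]; exact Matrix.rank_mul_le_right _ _
    · rw [← hD, ← hNN]; exact Matrix.rank_mul_le_right _ _
  refine ⟨⟨1 + N, hdet⟩, rfl, ?_, by simpa using hr⟩
  have : Fact (Nat.Prime 2) := ⟨Nat.prime_two⟩
  refine orderOf_eq_prime ?_ ?_
  · apply Subtype.ext
    have h3 : (2 : F) = 0 := CharP.cast_eq_zero F 2
    have h4 : (1 + N) ^ 2 = 1 + (2 : F) • N + N * N := by rw [two_smul]; noncomm_ring
    refine (Matrix.SpecialLinearGroup.coe_pow _ _).trans ?_
    change (1 + N) ^ 2 = 1
    rw [h4, hN2, h3]; simp
  · intro h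
    have h3 : 1 + N = 1 := congrArg Subtype.val h
    rw [add_eq_left] at h3
    rw [h3, Matrix.rank_zero] at hr
    omega

end Cfsg.Agent.S2163
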