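import Cfsg.Statements.S2164
import Cfsg.Agent.Known.GUClasses

set_option autoImplicit false
open Cfsg

namespace Cfsg.Agent.S2164

open Cfsg.Lib.Known Polynomial

/-- Conjugacy of involutions in the special unitary group SU_n(q), q even, n ≥ 3, realised over the field F with q² elements as the matrices of determinant 1 preserving the form Σ u_i v_i^q: for two elements of order 2 of SU_n(q) the following are equivalent — they are conjugate in SU_n(q); they are conjugate in SL_n(F); the matrices a − 1 and b − 1 have the same rank. -/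
theorem result {F : Type*} [Field F] [Fintype F] [CharP F 2] {n q : ℕ} (hF : Fintype.card F = q ^ 2) (hn : 3 ≤ n) (a b : ↥(Cfsg.SU n F q)) (ha : orderOf a = 2) (hb : orderOf b = 2) :
    (IsConj a b ↔ IsConj (a : Matrix.SpecialLinearGroup (Fin n) F) (b : Matrix.SpecialLinearGroup (Fin n) F)) ∧
    (IsConj a b ↔ (((a : Matrix.SpecialLinearGroup (Fin n) F) : Matrix (Fin n) (Fin n) F) - 1).rank = (((b : Matrix.SpecialLinearGroup (Fin n) F) : Matrix (Fin n) (Fin n) F) - 1).rank) := by
  have h2 : ∀ a : SU n F q, orderOf a = 2 →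
      (((a : Matrix.SpecialLinearGroup (Fin n) F) : Matrix (Fin n) (Fin n) F) - 1) ^ 2 = 0 := by
    intro a ha
    have h1 : ((a : Matrix.SpecialLinearGroup (Fin n) F) : Matrix (Fin n) (Fin n) F) ^ 2 = 1 := by
      rw [← Matrix.SpecialLinearGroup.coe_pow, ← Subgroup.coe_pow, ← ha, pow_orderOf_eq_one]
      rfl
    have h3 : ∀ A : Matrix (Fin n) (Fin n) F, A + A = 0 := fun A => by
      ext i j
      exact CharTwo.add_self_eq_zero _
    rw [sq] at h1
    rw [sq, sub_mul, mul_sub, mul_sub, h1, mul_one, one_mul, mul_one]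
    linear_combination (norm := abel) h3 1 -
      h3 ((a : Matrix.SpecialLinearGroup (Fin n) F) : Matrix (Fin n) (Fin n) F)
  have hq : Odd (q + 1) := by
    have := FiniteField.even_card_of_char_two (F := F) (ringChar.eq F 2)
    rw [hF, ← Nat.even_iff, Nat.even_pow' two_ne_zero] at this
    exact this.add_one
  have key : IsConj ((a : Matrix.SpecialLinearGroup (Fin n) F) : Matrix (Fin n) (Fin n) F)
      ((b : Matrix.SpecialLinearGroup (Fin n) F) : Matrix (Fin n) (Fin n) F) → IsConj a b := by
    intro hc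
    obtain ⟨x, hx⟩ := Multiset.exists_mem_of_ne_zero (s := elDivM
      ((a : Matrix.SpecialLinearGroup (Fin n) F) : Matrix (Fin n) (Fin n) F)) fun h => by
      have := elDeg_elDivM ((a : Matrix.SpecialLinearGroup (Fin n) F) : Matrix (Fin n) (Fin n) F)
      rw [h] at this
      simp at this
      omega
    have h3 := ((sub_one_pow_eq_zero_iff _ 2).1 (h2 a ha) x hx).2
    have h4 := (isElDivs_elDivM _ x hx).2.2
    refine SU_isConj_of_coprime hF hx ?_ hc
    obtain h | h : x.2 = 1 ∨ x.2 = 2 := by omega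
    · simp [h]
    · rw [h]
      exact (Nat.coprime_two_left).2 hq
  refine ⟨⟨isConj_coe_subgroup, fun h => key (SL_isConj_coe h)⟩, fun h => ?_, fun h => key ?_⟩
  · have h3 := isConj_iff_elDivM.1 (SU_isConj_coe h)
    have h4 := rank_sub_one_add_card_elDivM ⟨2, h2 a ha⟩
    have h5 := rank_sub_one_add_card_elDivM ⟨2, h2 b hb⟩
    rw [h3] at h4
    omega
  · refine isConj_iff_elDivM.2 (elDivM_eq_of_unipotent rfl ⟨2, h2 a ha⟩ ⟨2, h2 b hb⟩ fun k => ?_)
    rcases k with _ | _ | k
    · simp
    · rw [zero_add, pow_one, pow_one, h]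
    · rw [pow_add _ k 2, pow_add _ k 2, h2 a ha, h2 b hb, mul_zero, mul_zero]

end Cfsg.Agent.S2164
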