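import Cfsg.Statements.S2165
import Cfsg.Agent.Known.GLMat

set_option autoImplicit false
open Cfsg

namespace Cfsg.Agent.S2165

open Cfsg.Lib.Known Matrix

/-- In SU_n(q), q even, n ≥ 3 (matrices of determinant 1 over the field with q² elements preserving Σ u_i v_i^q): for every ℓ with 1 ≤ ℓ and 2ℓ ≤ n, the permutation matrix of the involution of {0, …, n−1} exchanging i and n − ℓ + i for each i < ℓ lies in SU_n(q), has order 2, and differs from the identity by a matrix of rank ℓ. So every rank between 1 and n/2 occurs for involutions of SU_n(q). -/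
theorem result {F : Type*} [Field F] [Fintype F] [CharP F 2] {n q : ℕ} (hF : Fintype.card F = q ^ 2) (hn : 3 ≤ n) (ℓ : ℕ) (h1 : 1 ≤ ℓ) (h2 : 2 * ℓ ≤ n) :
    ∃ a : ↥(Cfsg.SU n F q), (((a : Matrix.SpecialLinearGroup (Fin n) F) : Matrix (Fin n) (Fin n) F) = Matrix.of (fun i j : Fin n => if (j.val < ℓ ∧ i.val = j.val + (n - ℓ)) ∨ (i.val < ℓ ∧ j.val = i.val + (n - ℓ)) ∨ (i = j ∧ ℓ ≤ i.val ∧ i.val < n - ℓ) then (1 : F) else 0)) ∧ orderOf a = 2 ∧ ((((a : Matrix.SpecialLinearGroup (Fin n) F) : Matrix (Fin n) (Fin n) F)) - 1).rank = ℓ := by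
  let f : Fin n → Fin n := fun i =>
    if h : i.val < ℓ then ⟨i.val + (n - ℓ), by omega⟩
    else if h' : n - ℓ ≤ i.val then ⟨i.val - (n - ℓ), by omega⟩ else i
  have hv : ∀ i, (f i).val = if i.val < ℓ then i.val + (n - ℓ)
      else if n - ℓ ≤ i.val then i.val - (n - ℓ) else i.val := fun i => by
    simp only [f]
    split_ifs <;> rfl
  have hf : Function.Involutive f := fun i => Fin.ext (by
    have := i.2
    rw [hv, hv]
    split_ifs <;> omega)
  let π : Equiv.Perm (Fin n) := hf.toPerm f
  have hπ : ∀ i, π i = f i := fun _ => rfl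
  have hmat : π.permMatrix F = Matrix.of (fun i j : Fin n => if (j.val < ℓ ∧ i.val = j.val + (n - ℓ)) ∨ (i.val < ℓ ∧ j.val = i.val + (n - ℓ)) ∨ (i = j ∧ ℓ ≤ i.val ∧ i.val < n - ℓ) then (1 : F) else 0) := by
    ext i j
    have := i.2
    have := j.2
    simp only [Equiv.Perm.permMatrix, PEquiv.toMatrix_apply, Equiv.toPEquiv_apply, Option.mem_def,
      Option.some.injEq, Matrix.of_apply, hπ, Fin.ext_iff, hv]
    refine if_congr ?_ rfl rfl
    split_ifs <;> omega
  have hdet : (π.permMatrix F).det = 1 := by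
    rw [det_permutation]
    rcases Int.units_eq_one_or (Equiv.Perm.sign π) with h | h <;> simp [h, CharTwo.neg_eq]
  let a : SU n F q := ⟨⟨π.permMatrix F, hdet⟩, fun u v => by
    change hermForm n F q (π.permMatrix F *ᵥ u) (π.permMatrix F *ᵥ v) = _
    simp only [permMatrix_mulVec, hermForm, Function.comp]
    exact Equiv.sum_comp π fun i => u i * v i ^ q⟩
  have hr : (π.permMatrix F - 1).rank = ℓ := by
    refine le_antisymm ?_ ?_
    · have h3 := finrank_ker_add_rank (π.permMatrix F - 1)
      let c : Fin n → Fin (n - ℓ) := fun i =>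
        if h : i.val < n - ℓ then ⟨i.val, h⟩ else ⟨i.val - (n - ℓ), by omega⟩
      have hc : ∀ i, (c i).val = if i.val < n - ℓ then i.val else i.val - (n - ℓ) := fun i => by
        simp only [c]
        split_ifs <;> rfl
      have h4 := LinearMap.finrank_range_of_inj (LinearMap.funLeft_injective_of_surjective F F c
        fun j => ⟨⟨j.val, by omega⟩, Fin.ext (by rw [hc, if_pos j.2])⟩)
      have h5 : LinearMap.range (LinearMap.funLeft F F c) ≤
          LinearMap.ker (Matrix.toLin' (π.permMatrix F - 1)) := by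
        rintro _ ⟨w, rfl⟩
        rw [LinearMap.mem_ker, toLin'_apply, sub_mulVec, one_mulVec, permMatrix_mulVec, sub_eq_zero]
        ext i
        refine congrArg w (Fin.ext ?_)
        have := i.2
        rw [hc, hc, hπ, hv]
        split_ifs <;> omega
      have h6 := Submodule.finrank_mono h5
      rw [h4] at h6
      simp at h6 h3
      omega
    · let e : Fin ℓ → Fin n := fun i => ⟨i.val, by omega⟩
      have h3 : (π.permMatrix F - 1).submatrix e e = 1 := by
        ext i j
        have := i.2
        have := j.2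
        simp only [hmat, submatrix_apply, Matrix.sub_apply, Matrix.of_apply, one_apply, e,
          Fin.ext_iff]
        rw [if_neg (by omega)]
        split_ifs <;> simp [CharTwo.neg_eq]
      have h4 := rank_submatrix_le (π.permMatrix F - 1) e e
      rwa [h3, rank_one, Fintype.card_fin] at h4
  refine ⟨a, hmat, orderOf_eq_prime (Subtype.ext (Subtype.ext ?_)) fun h => ?_, hr⟩
  · change π.permMatrix F ^ 2 = 1
    rw [sq, ← permMatrix_mul, show π * π = 1 from Equiv.ext hf, permMatrix_one]
  · have h3 : π.permMatrix F = 1 := congrArg (fun x : SU n F q =>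
      ((x : Matrix.SpecialLinearGroup (Fin n) F) : Matrix (Fin n) (Fin n) F)) h
    rw [h3, sub_self, rank_zero] at hr
    omega

end Cfsg.Agent.S2165
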