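import Cfsg.Statements.S2166
import Cfsg.Agent.Known.InvTwoCard
import Cfsg.Agent.Known.ClassConj

set_option autoImplicit false
open Cfsg

namespace Cfsg.Agent.S2166

open Cfsg.Lib.Known Cfsg.Lib.Class Cfsg.Lib.Class.Orth QuadraticMap Module

/-- Conjugacy of involutions in the symplectic group Sp_{2m}(F), F a finite field of characteristic two, m ≥ 2 (Sp taken as the matrices A with A J Aᵀ = J, acting on column vectors, with the alternating form f(u, v) = u ⬝ (J v)). For an involution t write V(t) for the set of vectors v with f(v, t v) = 0 (a subspace). Two involutions a, b are conjugate in Sp_{2m}(F) exactly when a − 1 and b − 1 have the same rank and, in case that rank is even, V(a) and V(b) have the same number of elements. -/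
theorem result {F : Type*} [Field F] [Fintype F] [CharP F 2] {m : ℕ} (hm : 2 ≤ m) (a b : ↥(Matrix.symplecticGroup (Fin m) F)) (ha : orderOf a = 2) (hb : orderOf b = 2) :
    IsConj a b ↔ ((((a : ↥(Matrix.symplecticGroup (Fin m) F)) : Matrix (Fin m ⊕ Fin m) (Fin m ⊕ Fin m) F) - 1).rank = (((b : ↥(Matrix.symplecticGroup (Fin m) F)) : Matrix (Fin m ⊕ Fin m) (Fin m ⊕ Fin m) F) - 1).rank ∧
      (Even (((a : ↥(Matrix.symplecticGroup (Fin m) F)) : Matrix (Fin m ⊕ Fin m) (Fin m ⊕ Fin m) F) - 1).rank → Nat.card {v : Fin m ⊕ Fin m → F // Cfsg.sympForm m F v (Matrix.mulVec ((a : ↥(Matrix.symplecticGroup (Fin m) F)) : Matrix (Fin m ⊕ Fin m) (Fin m ⊕ Fin m) F) v) = 0} = Nat.card {v : Fin m ⊕ Fin m → F // Cfsg.sympForm m F v (Matrix.mulVec ((b : ↥(Matrix.symplecticGroup (Fin m) F)) : Matrix (Fin m ⊕ Fin m) (Fin m ⊕ Fin m) F) v) = 0})) := by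
  have hG := witt2_SpB (sympBilin_nondegenerate (F := F) m) (sympBilin_isAlt m)
  have ha' : spEquivSpB m F a * spEquivSpB m F a = 1 := by
    rw [← map_mul, mul_self_of_orderOf ha, map_one]
  have hb' : spEquivSpB m F b * spEquivSpB m F b = 1 := by
    rw [← map_mul, mul_self_of_orderOf hb, map_one]
  have ht := hG.isInv ha'
  have hs := hG.isInv hb'
  simp only [← sympBilin_apply, ← spEquivSpB_apply]
  rw [rank_sub_one (spEquivSpB_apply m a), rank_sub_one (spEquivSpB_apply m b),
    ← isConj_mulEquiv_iff (spEquivSpB m F), hG.isConj_iff ha' hb', invType_eq_iff]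
  refine and_congr_right fun hr => ?_
  have hq : 1 < Fintype.card F := Fintype.one_lt_card
  have hne : ∀ x n : ℕ, x * Fintype.card F = Fintype.card F ^ n → x ≠ Fintype.card F ^ n := by
    rintro _ n h rfl
    have : 0 < Fintype.card F ^ n := by positivity
    nlinarith
  by_cases h : ∀ v, sympBilin m F v ((spEquivSpB m F a).1 v) = 0 <;>
    by_cases h' : ∀ v, sympBilin m F v ((spEquivSpB m F b).1 v) = 0
  · rw [card_zero_of_alt h, card_zero_of_alt h']
    exact iff_of_true (iff_of_true h h') fun _ => rfl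
  · refine iff_of_false (fun h1 => h' (h1.1 h)) fun h1 => ?_
    have := h1 (ht.even_of_alt hG.sym hG.alt h)
    rw [card_zero_of_alt h] at this
    exact hne _ _ (hs.card_zero_of_not_alt hG.sym h') this.symm
  · refine iff_of_false (fun h1 => h (h1.2 h')) fun h1 => ?_
    have := h1 (hr ▸ hs.even_of_alt hG.sym hG.alt h')
    rw [card_zero_of_alt h'] at this
    exact hne _ _ (ht.card_zero_of_not_alt hG.sym h) this
  · exact iff_of_true (iff_of_false h h') fun _ => Nat.eq_of_mul_eq_mul_right (by omega)
      ((ht.card_zero_of_not_alt hG.sym h).trans (hs.card_zero_of_not_alt hG.sym h').symm)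

end Cfsg.Agent.S2166
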