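import Cfsg.Statements.S2167
import Cfsg.Agent.Known.InvTwoCard

set_option autoImplicit false
open Cfsg

namespace Cfsg.Agent.S2167

open Cfsg.Lib.Known Cfsg.Lib.Class Cfsg.Lib.Class.Orth QuadraticMap Module

/-- For an involution t of the symplectic group Sp_{2m}(F), m ≥ 2, F a finite field of characteristic two (matrices A with A J Aᵀ = J acting on column vectors, alternating form f(u, v) = u ⬝ (J v)): the set V(t) of vectors v with f(v, t v) = 0 has either q^{2m} or q^{2m−1} elements, q the order of F (it is a subspace of codimension at most 1), and if it is the whole space then t − 1 has even rank. -/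
theorem result {F : Type*} [Field F] [Fintype F] [CharP F 2] {m : ℕ} (hm : 2 ≤ m) (a : ↥(Matrix.symplecticGroup (Fin m) F)) (ha : orderOf a = 2) :
    (Nat.card {v : Fin m ⊕ Fin m → F // Cfsg.sympForm m F v (Matrix.mulVec ((a : ↥(Matrix.symplecticGroup (Fin m) F)) : Matrix (Fin m ⊕ Fin m) (Fin m ⊕ Fin m) F) v) = 0} = Fintype.card F ^ (2 * m) ∨ Nat.card {v : Fin m ⊕ Fin m → F // Cfsg.sympForm m F v (Matrix.mulVec ((a : ↥(Matrix.symplecticGroup (Fin m) F)) : Matrix (Fin m ⊕ Fin m) (Fin m ⊕ Fin m) F) v) = 0} * Fintype.card F = Fintype.card F ^ (2 * m)) ∧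
    ((∀ v : Fin m ⊕ Fin m → F, Cfsg.sympForm m F v (Matrix.mulVec ((a : ↥(Matrix.symplecticGroup (Fin m) F)) : Matrix (Fin m ⊕ Fin m) (Fin m ⊕ Fin m) F) v) = 0) → Even (((a : ↥(Matrix.symplecticGroup (Fin m) F)) : Matrix (Fin m ⊕ Fin m) (Fin m ⊕ Fin m) F) - 1).rank) := by
  have hG := witt2_SpB (sympBilin_nondegenerate (F := F) m) (sympBilin_isAlt m)
  have ht := hG.isInv (t := spEquivSpB m F a)
    (by rw [← map_mul, mul_self_of_orderOf ha, map_one])
  simp only [← sympBilin_apply, ← spEquivSpB_apply]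
  rw [rank_sub_one (spEquivSpB_apply m a), ← finrank_symp_space (F := F) m]
  refine ⟨?_, ht.even_of_alt hG.sym hG.alt⟩
  by_cases h : ∀ v, sympBilin m F v ((spEquivSpB m F a).1 v) = 0
  · exact Or.inl (card_zero_of_alt h)
  · exact Or.inr (ht.card_zero_of_not_alt hG.sym h)

end Cfsg.Agent.S2167
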