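import Cfsg.Statements.S2168
import Cfsg.Agent.Known.InvTwoClass

set_option autoImplicit false
open Cfsg

namespace Cfsg.Agent.S2168

open Cfsg.Lib.Known Cfsg.Lib.Class Cfsg.Lib.Class.Orth QuadraticMap Module

theorem aux {F : Type*} [Field F] [Fintype F] [CharP F 2] {ι : Type} [Fintype ι] [DecidableEq ι]
    {Q : QuadraticForm F (ι → F)} (hQ : (polarBilin Q).Nondegenerate) (t s : isometryGroup F Q)
    (ht : orderOf t = 2) (hs : orderOf s = 2) :
    IsConj t s ↔ ∃ g ∈ preserving (Units.coeHom (Matrix ι ι F))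
      (fun u v => Q (u + v) - Q u - Q v), g * (t : GL ι F) * g⁻¹ = (s : GL ι F) := by
  constructor
  · intro h
    obtain ⟨c, hc⟩ := isConj_iff.1 h
    exact ⟨c, fun u v => O_polar (oEquivIsom Q c) u v, congrArg Subtype.val hc⟩
  · rintro ⟨g, hg, hc⟩
    rw [← isConj_mulEquiv_iff (oEquivIsom Q), (witt2_O hQ).isConj_iff
      (by rw [← map_mul, mul_self_of_orderOf ht, map_one])
      (by rw [← map_mul, mul_self_of_orderOf hs, map_one])]
    refine invType_eq_of_conj (g := glLin ι F g) hg fun u => ?_
    rw [mul_inv_eq_iff_eq_mul] at hc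
    have := LinearEquiv.congr_fun (congrArg (glLin ι F) hc) u
    rwa [map_mul, map_mul] at this


/-- Involutions in the full isometry group O of the hyperbolic quadratic form Σ x_i y_i in dimension 2m over a finite field F of characteristic two, m ≥ 4 (plus type): two elements of order 2 of O are conjugate in O exactly when they are conjugate under the group of all invertible matrices preserving the polar bilinear form (u, v) ↦ Q(u + v) − Q(u) − Q(v) (the symplectic group of that form). -/
theorem result {F : Type*} [Field F] [Fintype F] [CharP F 2] {m : ℕ} (hm : 4 ≤ m) (t s : ↥(Cfsg.isometryGroup F (Cfsg.quadFormPlus m F))) (ht : orderOf t = 2) (hs : orderOf s = 2) :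
    IsConj t s ↔ ∃ g ∈ Cfsg.preserving (Units.coeHom (Matrix (Fin m ⊕ Fin m) (Fin m ⊕ Fin m) F)) (fun u v => Cfsg.quadFormPlus m F (u + v) - Cfsg.quadFormPlus m F u - Cfsg.quadFormPlus m F v), g * ((t : ↥(Cfsg.isometryGroup F (Cfsg.quadFormPlus m F))) : GL (Fin m ⊕ Fin m) F) * g⁻¹ = ((s : ↥(Cfsg.isometryGroup F (Cfsg.quadFormPlus m F))) : GL (Fin m ⊕ Fin m) F) := by
  revert t s
  rw [← coe_quadPlus]
  exact aux (quadPlus_nondegenerate m)

end Cfsg.Agent.S2168
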