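import Cfsg.Statements.S2173
import Cfsg.Agent.Known.InvTwoClass

set_option autoImplicit false
open Cfsg

namespace Cfsg.Agent.S2173

open Cfsg.Lib.Known Cfsg.Lib.Class Cfsg.Lib.Class.Orth QuadraticMap Module

theorem aux {F : Type*} [Field F] [Fintype F] [CharP F 2] {ι : Type} [Fintype ι] [DecidableEq ι]
    {Q : QuadraticForm F (ι → F)} (t s : isometryGroup F Q) :
    (∃ g ∈ Omega F Q, g * t * g⁻¹ = s) ↔
      ∃ g ∈ commutator (O Q), g * oEquivIsom Q t * g⁻¹ = oEquivIsom Q s := by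
  constructor
  · rintro ⟨g, hg, rfl⟩
    exact ⟨_, (mem_Omega_iff g).1 hg, by simp⟩
  · rintro ⟨g, hg, h⟩
    obtain ⟨g, rfl⟩ := (oEquivIsom Q).surjective g
    exact ⟨g, (mem_Omega_iff g).2 hg, (oEquivIsom Q).injective (by simpa using h)⟩


/-- For the quadratic form Σ x_i y_i + (z₁² + c z₁ z₂ + d z₂²) in dimension 2m with anisotropic binary part over a finite field F of characteristic two, m ≥ 4 (minus type): two involutions of the commutator subgroup Ω that are conjugate in the full isometry group O are conjugate by an element of Ω (no class of involutions of O inside Ω splits). -/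
theorem result {F : Type*} [Field F] [Fintype F] [CharP F 2] {m : ℕ} (hm : 4 ≤ m) (c d : F) (hcd : ∀ z₁ z₂ : F, z₁ ^ 2 + c * z₁ * z₂ + d * z₂ ^ 2 = 0 → z₁ = 0 ∧ z₂ = 0) (t s : ↥(Cfsg.isometryGroup F (Cfsg.quadFormMinus (m - 1) F c d))) (ht : orderOf t = 2) (hs : orderOf s = 2) (htO : t ∈ Cfsg.Omega F (Cfsg.quadFormMinus (m - 1) F c d)) (hsO : s ∈ Cfsg.Omega F (Cfsg.quadFormMinus (m - 1) F c d)) (hconj : IsConj t s) :
    ∃ g ∈ Cfsg.Omega F (Cfsg.quadFormMinus (m - 1) F c d), g * t * g⁻¹ = s := by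
  revert t s
  rw [← coe_quadMinus]
  intro t s ht _ _ _ hconj
  rw [aux]
  refine exists_commutator_conj (quadMinus_nondegenerate _ hcd) (not_exc_quadMinus _ hcd)
    (by rw [← map_mul, mul_self_of_orderOf ht, map_one]) (fun h => ?_)
    ((isConj_mulEquiv_iff _).2 hconj)
  have h1 := (wittIdx_quadMinus _ hcd).2 _ h.2
  have h2 := h.1
  simp only [Module.finrank_fintype_fun_eq_card, Fintype.card_sum, Fintype.card_fin] at h2
  omega

end Cfsg.Agent.S2173
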