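import Cfsg.Statements.S2172
import Cfsg.Agent.Known.InvTwoClass
import Cfsg.Agent.S2173

set_option autoImplicit false
open Cfsg

namespace Cfsg.Agent.S2172

open Cfsg.Lib.Known Cfsg.Lib.Class Cfsg.Lib.Class.Orth QuadraticMap Module

/-- Splitting of involution classes from O to Ω for the hyperbolic quadratic form Q = Σ x_i y_i in dimension 2m over a finite field F of characteristic two, m ≥ 4. Let t, s be involutions of the commutator subgroup Ω that are conjugate in the full isometry group O. If it is not the case that t − 1 has rank m and Q(v + t v) = 0 for every vector v, then t and s are conjugate by an element of Ω. If t − 1 has rank m and Q(v + t v) = 0 for all v, then t and s are conjugate by an element of Ω exactly when the intersection of the images of t − 1 and s − 1 has even dimension (so the class of t in O meets at most two classes of Ω). -/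
theorem result {F : Type*} [Field F] [Fintype F] [CharP F 2] {m : ℕ} (hm : 4 ≤ m) (t s : ↥(Cfsg.isometryGroup F (Cfsg.quadFormPlus m F))) (ht : orderOf t = 2) (hs : orderOf s = 2) (htO : t ∈ Cfsg.Omega F (Cfsg.quadFormPlus m F)) (hsO : s ∈ Cfsg.Omega F (Cfsg.quadFormPlus m F)) (hconj : IsConj t s) :
    (¬ (((((t : ↥(Cfsg.isometryGroup F (Cfsg.quadFormPlus m F))) : GL (Fin m ⊕ Fin m) F) : Matrix (Fin m ⊕ Fin m) (Fin m ⊕ Fin m) F) - 1).rank = m ∧ ∀ v : Fin m ⊕ Fin m → F, Cfsg.quadFormPlus m F (v + Matrix.mulVec (((t : ↥(Cfsg.isometryGroup F (Cfsg.quadFormPlus m F))) : GL (Fin m ⊕ Fin m) F) : Matrix (Fin m ⊕ Fin m) (Fin m ⊕ Fin m) F) v) = 0) →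
      ∃ g ∈ Cfsg.Omega F (Cfsg.quadFormPlus m F), g * t * g⁻¹ = s) ∧
    ((((((t : ↥(Cfsg.isometryGroup F (Cfsg.quadFormPlus m F))) : GL (Fin m ⊕ Fin m) F) : Matrix (Fin m ⊕ Fin m) (Fin m ⊕ Fin m) F) - 1).rank = m ∧ ∀ v : Fin m ⊕ Fin m → F, Cfsg.quadFormPlus m F (v + Matrix.mulVec (((t : ↥(Cfsg.isometryGroup F (Cfsg.quadFormPlus m F))) : GL (Fin m ⊕ Fin m) F) : Matrix (Fin m ⊕ Fin m) (Fin m ⊕ Fin m) F) v) = 0) →
      ((∃ g ∈ Cfsg.Omega F (Cfsg.quadFormPlus m F), g * t * g⁻¹ = s) ↔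
        Even (Module.finrank F ↥(LinearMap.range (Matrix.toLin' ((((t : ↥(Cfsg.isometryGroup F (Cfsg.quadFormPlus m F))) : GL (Fin m ⊕ Fin m) F) : Matrix (Fin m ⊕ Fin m) (Fin m ⊕ Fin m) F) - 1)) ⊓ LinearMap.range (Matrix.toLin' ((((s : ↥(Cfsg.isometryGroup F (Cfsg.quadFormPlus m F))) : GL (Fin m ⊕ Fin m) F) : Matrix (Fin m ⊕ Fin m) (Fin m ⊕ Fin m) F) - 1)))))) := by
  revert t s
  rw [← coe_quadPlus]
  intro t s ht _ htO _ hconj
  have hQ := quadPlus_nondegenerate (F := F) m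
  have hE : ¬ Exc (quadPlus m F) := not_exc_quadPlus (Or.inr (by omega))
  have h0 : (∀ v, quadPlus m F (v + (mat t).mulVec v) = 0) ↔
      ∀ x ∈ resSp (oEquivIsom _ t).1, quadPlus m F x = 0 := by
    constructor
    · rintro h _ ⟨v, rfl⟩
      rw [resN_apply']; exact h v
    · intro h v
      have := h _ ⟨v, rfl⟩
      rwa [resN_apply'] at this
  rw [Cfsg.Agent.S2173.aux, rank_sub_one (oEquivIsom_apply _ t), h0,
    rank_sub_one_eq (oEquivIsom_apply _ t), rank_sub_one_eq (oEquivIsom_apply _ s)]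
  have hc := (isConj_mulEquiv_iff (oEquivIsom _)).2 hconj
  refine ⟨fun h => exists_commutator_conj hQ hE
    (by rw [← map_mul, mul_self_of_orderOf ht, map_one]) (fun h1 => h ⟨?_, h1.2⟩) hc, fun h => ?_⟩
  · have := h1.1
    rw [finrank_plusSpace] at this
    omega
  · have he := (mem_commutator_iff_even_resSp hQ hE _).1 ((mem_Omega_iff t).1 htO)
    rw [h.1] at he
    have hle : finrank F ↥(resSp (oEquivIsom _ t).1 ⊓ resSp (oEquivIsom _ s).1) ≤ m :=
      (Submodule.finrank_mono inf_le_left).trans h.1.le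
    have key : ∀ g : O (quadPlus m F), g * oEquivIsom _ t * g⁻¹ = oEquivIsom _ s →
        (g ∈ commutator (O (quadPlus m F)) ↔
          Even (finrank F ↥(resSp (oEquivIsom _ t).1 ⊓ resSp (oEquivIsom _ s).1))) := by
      intro g hg
      rw [conj_mem_commutator_iff hQ hE finrank_plusSpace h.1 h.2 hg, Nat.even_sub hle]
      exact ⟨fun h => h.1 he, fun h => iff_of_true he h⟩
    obtain ⟨c, hc⟩ := isConj_iff.1 hc
    exact ⟨fun ⟨g, hg, h1⟩ => (key g h1).1 hg, fun h1 => ⟨c, (key c hc).2 h1, hc⟩⟩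

end Cfsg.Agent.S2172
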