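import Cfsg.Statements.S2186
import Cfsg.Agent.Chev.RootCent
import Cfsg.Agent.Chev.CoreAll

set_option autoImplicit false
open Cfsg Cfsg.Lie Cfsg.Lib.Chev Cfsg.Lib.Chev.Core

namespace Cfsg.Agent.S2186

theorem aux {F : Type*} [Field F] [Fintype F] [CharP F 2] {D : ChevalleyDatum} (C : Cert D)
    (R : RootData D) (h : 0 < D.nroots ∧ ∀ r ∈ posL D, commMod D 2 r (D.nroots - 1) = true)
    {g : GL D.Idx F} (hg : g ∈ D.group F) :
    IsPGroup 2 ↥(D.rootSubgroup F (D.nroots - 1) ⊔
      (D.rootSubgroup F (D.nroots - 1)).map (MulAut.conj g).toMonoidHom) ∨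
    ∃ h ∈ D.group F, (D.rootSubgroup F (D.nroots - 1) ⊔ (D.rootSubgroup F (D.nroots - 1)).map
      (MulAut.conj g).toMonoidHom).map (MulAut.conj h).toMonoidHom =
        D.rootSubgroup F (D.nroots - 1) ⊔ D.rootSubgroup F 0 := by
  have hθ : D.nroots - 1 < D.nroots := by omega
  have hc : ∀ u ∈ (C.Y F R).U, ((C.Y F R).X (D.nroots - 1)).map (MulAut.conj u).toMonoidHom =
      (C.Y F R).X (D.nroots - 1) := fun u hu => by
    refine Subgroup.mem_normalizer_iff_map_conj_eq.1 (Subgroup.centralizer_le_normalizer _ ?_)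
    refine (spanX_le_iff.2 fun r hr a ha b hb => ?_ : (C.Y F R).U ≤ Subgroup.centralizer _) hu
    exact ((C.stRelN F R).toStRel.commute_xSub R (R.weyl_mem.1 hr.1) hθ
      (h.2 r (R.mem_posL.2 hr)) ha hb).eq.symm
  rw [C.group_eq_Y R] at hg ⊢
  rw [C.rootSubgroup_eq_Y R, C.rootSubgroup_eq_Y R]
  obtain ⟨w, hw⟩ := RGD.mem_G0_iff.1 hg
  obtain ⟨u, hu, m, hm, u', hu', rfl⟩ := RGD.exists_normal_form' hw
  have e : ((C.Y F R).X (D.nroots - 1) ⊔ ((C.Y F R).X (D.nroots - 1)).map
      (MulAut.conj (u * m * u')).toMonoidHom).map (MulAut.conj u⁻¹).toMonoidHom =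
      (C.Y F R).X (D.nroots - 1) ⊔ (C.Y F R).X (w • (D.nroots - 1)) := by
    rw [Subgroup.map_sup, hc _ (inv_mem hu), ← hm.map_X (R.weyl_mem.2 hθ)]
    congr 1
    conv_rhs => rw [← hc u' ((C.Y F R).Uneg_le_U w hu')]
    rw [Subgroup.map_map, Subgroup.map_map]
    congr 1
    ext x : 1
    simp [mul_assoc]
  by_cases h0 : w • (D.nroots - 1) = 0
  · exact Or.inr ⟨u⁻¹, inv_mem ((C.Y F R).U_le_G0 hu), by rw [e, h0]⟩
  left
  refine IsPGroup.of_equiv ?_ (Subgroup.equivMapOfInjective _ (MulAut.conj u⁻¹).toMonoidHom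
    (MulAut.conj u⁻¹).injective).symm
  rw [e]
  have hr := R.weyl_smul_lt w hθ
  obtain ⟨ψ, h1, h2⟩ : ∃ ψ : (Fin D.rank → ℤ) →ₗ[ℤ] ℤ, 0 < ψ (R.rc (D.nroots - 1)) ∧
      0 < ψ (R.rc (w • (D.nroots - 1))) := by
    by_cases e : w • (D.nroots - 1) = D.nroots - 1
    · have := (R.weyl.stHt_empty_pos_iff (R.weyl_mem.2 hθ)).2
        (R.weyl_pos.2 ((R.pos_iff _).2 ⟨by have := R.nroots_eq; omega, hθ⟩))
      exact ⟨_, this, by rw [e]; exact this⟩
    · exact R.exists_pos_functional hθ hr e (by rw [R.neg_eq _ hθ, Nat.sub_self]; exact h0)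
  obtain ⟨n, -, hn⟩ := FiniteField.card F 2
  have hS : ∀ r ∈ (Finset.range D.nroots).filter fun r => 0 < ψ (R.rc r), r < D.nroots :=
    fun r hr => Finset.mem_range.1 (Finset.mem_filter.1 hr).1
  have hcard := (C.faithful F R).card_spanX (S := (Finset.range D.nroots).filter fun r => 0 < ψ (R.rc r))
    (fun r hr => R.weyl_mem.2 (hS r hr))
    (by simpa using R.weyl.stClosed_gt ψ le_rfl) ψ fun r hr => (Finset.mem_filter.1 hr).2
  rw [StRelW.rgd_X, Finset.prod_congr rfl fun r hr => C.card_xSub (F := F) R (hS r hr), Finset.prod_const,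
    Nat.card_eq_fintype_card (α := F), hn, ← pow_mul] at hcard
  exact (IsPGroup.of_card hcard).to_le (sup_le (le_spanX _ (by simp [hθ, h1])) (le_spanX _ (by simp [hr, h2])))

/-- Let G be the Chevalley group of type G₂ (over a field with at least four elements), D₄, E₆, E₇ or E₈ over a finite field F of characteristic two, and let X be the root subgroup of the highest root (the last root index) — a long root subgroup, of order |F|. For every g in G, the subgroup generated by X and its conjugate g X g⁻¹ is either a 2-group or is conjugate by an element of G to the subgroup generated by X and the root subgroup of the lowest root (index 0, the negative of the highest root), which is a copy of SL₂(F). -/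
theorem result {F : Type*} [Field F] [Fintype F] [CharP F 2] (D : Cfsg.Lie.ChevalleyDatum) (hD : D ∈ [Cfsg.Lie.chevG2, Cfsg.Lie.chevD4, Cfsg.Lie.chevE6, Cfsg.Lie.chevE7, Cfsg.Lie.chevE8]) (hF : D = Cfsg.Lie.chevG2 → 4 ≤ Fintype.card F) (g : GL D.Idx F) (hg : g ∈ D.group F) :
    IsPGroup 2 ↥(D.rootSubgroup F (D.nroots - 1) ⊔ (D.rootSubgroup F (D.nroots - 1)).map (MulAut.conj g).toMonoidHom) ∨
    ∃ h ∈ D.group F, (D.rootSubgroup F (D.nroots - 1) ⊔ (D.rootSubgroup F (D.nroots - 1)).map (MulAut.conj g).toMonoidHom).map (MulAut.conj h).toMonoidHom = D.rootSubgroup F (D.nroots - 1) ⊔ D.rootSubgroup F 0 := by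
  simp only [List.mem_cons, List.not_mem_nil, or_false] at hD
  rcases hD with rfl | rfl | rfl | rfl | rfl
  · exact aux Core.certG2 rootG2 (by decide +kernel) hg
  · exact aux Core.certD4 rootD4 (by decide +kernel) hg
  · exact aux Core.certE6 rootE6 (by decide +kernel) hg
  · exact aux Core.certE7 rootE7 (by decide +kernel) hg
  · exact aux Core.certE8 rootE8 (by decide +kernel) hg

end Cfsg.Agent.S2186
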