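import Cfsg.Statements.S2190
import Cfsg.Agent.Chev.SubfCert

set_option autoImplicit false
open Cfsg Cfsg.Lib.Chev Cfsg.Lib.Chev.Core

namespace Cfsg.Agent.S2190

/-- Subfield subgroups of prime degree are maximal. Let K be a finite field with q^r elements, r a prime, q a power of the characteristic, and G the Chevalley group of type G₂, B₂, D₄, F₄, E₆, E₇ or E₈ over K (the matrix group generated by the root elements). Let M be the subgroup of G consisting of the matrices all of whose entries lie in the subfield with q elements (entries c with c^q = c). Then M is a proper subgroup of G and is maximal: every subgroup of G containing M is M or G. -/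
theorem result {K : Type*} [Field K] [Fintype K] (p : ℕ) [Fact p.Prime] [CharP K p] (D : Cfsg.Lie.ChevalleyDatum) (hD : D ∈ [Cfsg.Lie.chevG2, Cfsg.Lie.chevB2, Cfsg.Lie.chevD4, Cfsg.Lie.chevF4, Cfsg.Lie.chevE6, Cfsg.Lie.chevE7, Cfsg.Lie.chevE8]) (a r : ℕ) (ha : 1 ≤ a) (hr : r.Prime) (hK : Fintype.card K = (p ^ a) ^ r) (M : Subgroup (GL D.Idx K))
    (hM : ∀ g : GL D.Idx K, g ∈ M ↔ g ∈ D.group K ∧ ∀ i j : D.Idx, ((g : Matrix D.Idx D.Idx K) i j) ^ (p ^ a) = (g : Matrix D.Idx D.Idx K) i j) :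
    M ≠ D.group K ∧ ∀ H : Subgroup (GL D.Idx K), M ≤ H → H ≤ D.group K → H = M ∨ H = D.group K := by
  obtain ⟨C, R⟩ := (cert_root_of_mem hD).some
  have hx : ∀ s, s < D.nroots → ∀ t : K, xGL D K s t ∈ M ↔ t ^ p ^ a = t := fun s hs t => by
    rw [hM, and_iff_right (C.xGL_mem_group R s t)]
    refine (mapGL_eq_iff (f := iterateFrobenius K p a)).symm.trans ?_
    rw [C.mapGL_xGL _ R, (C.xGL_injective R hs).eq_iff, iterateFrobenius_def]
  have hq : 1 < p ^ a := Nat.one_lt_pow (by omega) (Fact.out : p.Prime).one_lt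
  have hp : ∀ {L : Type _} [Field L] (c : L) (n : ℕ),
      Function.IsPeriodicPt (· ^ p ^ a) n c ↔ c ^ (p ^ a) ^ n = c := fun c n => by
    rw [Function.IsPeriodicPt, Function.IsFixedPt, pow_iterate]
  refine ⟨fun e => ?_, fun H h1 h2 => ?_⟩
  · have h3 := (FiniteField.forall_pow_eq_one_iff K (p ^ a - 1)).1 fun x => by
      have := (hx 0 (C.nroots_pos R) x).1 (e ▸ C.xGL_mem_group R 0 (x : K))
      rw [← mul_left_inj x, ← pow_succ, Nat.sub_add_cancel hq.le, one_mul]
      exact Units.ext (by simpa using this)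
    have h4 := Nat.le_of_dvd (by omega) h3
    have h5 := Nat.pow_lt_pow_right hq hr.one_lt
    rw [pow_one] at h5
    omega
  let ι := algebraMap K (AlgebraicClosure K)
  have : Finite (H.map (mapGL D ι)) := Finite.of_surjective _ ((mapGL D ι).subgroupMap_surjective H)
  have h3 : ∀ s, ∀ t : AlgebraicClosure K, t ^ (p ^ a) ^ r = t →
      ∃ u, t = ι u ∧ xGL D _ s t = mapGL D ι (xGL D K s u) := fun s t ht => by
    obtain ⟨u, rfl⟩ := (Lang.pow_card_eq_iff ι t).1 (hK ▸ ht)
    exact ⟨u, rfl, (C.mapGL_xGL ι R s u).symm⟩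
  obtain ⟨r', -, h4, h5⟩ := finite_overgroup p hD ha (M := H.map (mapGL D ι))
    (by rintro _ ⟨g, hg, rfl⟩; exact mapGL_mem_group ι (h2 hg)) fun s hs t ht => by
      obtain ⟨u, rfl, e⟩ := h3 s t ((hp t r).1 (Function.IsFixedPt.isPeriodicPt ht r))
      exact e ▸ ⟨_, h1 ((hx s hs u).2 (ι.injective (by rw [map_pow, ht]))), rfl⟩
  rcases (Nat.coprime_or_dvd_of_prime hr r') with h | h
  · refine Or.inl (le_antisymm (fun g hg => (hM g).2 ⟨h2 hg, fun i j => ?_⟩) h1)
    have h6 := mapGL_eq_iff.1 (h5 _ ⟨g, hg, rfl⟩) i j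
    rw [iterateFrobenius_def, pow_mul, coe_mapGL, Matrix.map_apply, ← map_pow, ι.injective.eq_iff] at h6
    have h7 := ((hp _ r).2 (hK ▸ FiniteField.pow_card _)).gcd ((hp _ r').2 h6)
    rwa [h.gcd_eq_one, hp, pow_one] at h7
  · refine Or.inr (le_antisymm h2 ((C.group_le_iff R).2 fun s t hs => ?_))
    obtain ⟨g, hg, e⟩ := h4 s hs (ι t) ((hp _ r').1 (((hp _ r).2 (by
      rw [← map_pow, ← hK, FiniteField.pow_card])).trans_dvd h))
    rw [← C.mapGL_xGL ι R] at e
    exact mapGL_injective ι e ▸ hg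

end Cfsg.Agent.S2190
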