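import Cfsg.Statements.S2192
import Cfsg.Agent.Chev.SubMaxTypes

set_option autoImplicit false
open Cfsg Cfsg.Lib.Chev Cfsg.Lib.Chev.Core

namespace Cfsg.Agent.S2192

/-- In the twisted group ³D₄(q), realised inside the Chevalley group of type D₄ over the field K with q³ elements (q a power of the characteristic) as the subgroup generated by the root elements, and products of root elements, that the twisting map fixes, the subgroup of matrices all of whose entries lie in the subfield with q elements (it contains the subgroup of type G₂ over that subfield) is a proper maximal subgroup. -/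
theorem result {K : Type*} [Field K] [Fintype K] (p : ℕ) [Fact p.Prime] [CharP K p] (q : ℕ) (hq : ∃ a : ℕ, 1 ≤ a ∧ q = p ^ a) (hK : Fintype.card K = q ^ 3) (M : Subgroup (GL Cfsg.Lie.chevD4.Idx K))
    (hM : ∀ g : GL Cfsg.Lie.chevD4.Idx K, g ∈ M ↔ g ∈ Cfsg.Lie.twistedD4 K q ∧ ∀ i j : Cfsg.Lie.chevD4.Idx, ((g : Matrix Cfsg.Lie.chevD4.Idx Cfsg.Lie.chevD4.Idx K) i j) ^ q = (g : Matrix Cfsg.Lie.chevD4.Idx Cfsg.Lie.chevD4.Idx K) i j) :
    M ≠ Cfsg.Lie.twistedD4 K q ∧ ∀ H : Subgroup (GL Cfsg.Lie.chevD4.Idx K), M ≤ H → H ≤ Cfsg.Lie.twistedD4 K q → H = M ∨ H = Cfsg.Lie.twistedD4 K q := by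
  obtain ⟨f, hf, hq', e⟩ := exists_twD4 hK
  obtain ⟨t, ht⟩ := exists_pow_ne_self hK (by decide)
  have h : ∀ g, g ∈ M ↔ g ∈ (twD4 f hf).G1 ∧ mapGL Cfsg.Lie.chevD4 f g = g := fun g => by
    simp only [hM, e, mapGL_eq_iff, hq']
  rw [← e]
  exact ⟨Core.certD4.ne_G1 (endD4 f hf) (subData_D4 hf) h (i := (0 : Fin 4)) (hq' t ▸ ht) ⟨t, rfl⟩
    (.head _), fun H => maximal_twD4 hf h⟩

end Cfsg.Agent.S2192
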