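import Cfsg.Statements.S2212
import Cfsg.Agent.Recog.PGU3C
-- import your own Cfsg.Agent.* helpers here

set_option autoImplicit false
open Cfsg

namespace Cfsg.Agent.S2212

/-- Characterization of the three-dimensional projective unitary groups over finite fields of characteristic two by the centralizer of an involution. Let q = 2^n > 2 and let PGU₃(q) be the quotient of the full unitary group of a non-degenerate Hermitian form in three variables over the field with q² elements by its centre. Let G be a finite group of even order in which all involutions are conjugate, the centralizer of an involution is isomorphic to the centralizer of an involution in PGU₃(q), and a Sylow 2-subgroup is not normal. Then G ≅ PGU₃(q). -/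
theorem result {G : Type*} [Group G] [Finite G] {F : Type*} [Field F] [Fintype F] [CharP F 2] (q : ℕ) (hq : 2 < q) (hF : Fintype.card F = q ^ 2)
    (heven : Even (Nat.card G)) (hconj : ∀ s t : G, orderOf s = 2 → orderOf t = 2 → IsConj s t)
    (hC : ∀ (x : G) (y : (↥(Cfsg.GU 3 F q) ⧸ Subgroup.center ↥(Cfsg.GU 3 F q))), orderOf x = 2 → orderOf y = 2 →
      Nonempty (↥(Subgroup.centralizer ({x} : Set G)) ≃* ↥(Subgroup.centralizer ({y} : Set (↥(Cfsg.GU 3 F q) ⧸ Subgroup.center ↥(Cfsg.GU 3 F q))))))
    (hS : ∀ P : Sylow 2 G, ¬ (P : Subgroup G).Normal) :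
    Nonempty (G ≃* (↥(Cfsg.GU 3 F q) ⧸ Subgroup.center ↥(Cfsg.GU 3 F q))) := by
  open Cfsg.Lib Cfsg.Lib.Known Subgroup in
  obtain ⟨p, n, hp, hc, -, rfl⟩ := Class.exists_prime_pow_of_card_sq hF
  obtain rfl : 2 = p := CharP.eq F ‹CharP F 2› hc
  have hn : 2 ≤ n := by
    by_contra h
    interval_cases n <;> omega
  let κ : (↥(Cfsg.GU 3 F (2 ^ n)) ⧸ center ↥(Cfsg.GU 3 F (2 ^ n))) ≃* (innU 3 F (2 ^ n)).range :=
    (QuotientGroup.quotientMulEquivOfEq (ker_innU hF (by norm_num)).symm).trans
      (QuotientGroup.quotientKerEquivRange _)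
  obtain ⟨e⟩ := Recog.PGU3.nonempty_equiv_range hn hF heven hconj (fun x y hx hy => by
    obtain ⟨y, rfl⟩ := κ.surjective y
    obtain ⟨e⟩ := hC x y hx ((κ.orderOf_eq y).symm.trans hy)
    refine ⟨e.trans ((κ.subgroupMap _).trans (MulEquiv.subgroupCongr ?_))⟩
    ext z
    obtain ⟨z, rfl⟩ := κ.surjective z
    rw [mem_centralizer_singleton_iff, ← map_mul, ← map_mul, κ.injective.eq_iff, ← mem_centralizer_singleton_iff]
    exact mem_map_iff_mem κ.injective) hS
  exact ⟨e.trans κ.symm⟩

end Cfsg.Agent.S2212
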