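import Cfsg.Statements.S2214
import Cfsg.Agent.Chev.CoreAll
import Cfsg.Agent.Chev.SubCent

set_option autoImplicit false
open Cfsg

namespace Cfsg.Agent.S2214

open Cfsg.Lib Cfsg.Lib.Chev Cfsg.Lib.Chev.Core Cfsg.Lie

set_option maxHeartbeats 400000


/-- Let k be an algebraically closed field of prime characteristic p, G the adjoint Chevalley group of type G₂, B₂, D₄, F₄, E₆, E₇ or E₈ over k (the matrix group generated by the root elements x_s(t), t ∈ k, acting on the Lie algebra), q = p^a with a ≥ 1, and K a subgroup of G containing every root element x_s(t) with t^q = t and consisting of matrices all of whose entries c satisfy c^q = c. Then the centralizer of K in G is trivial, and the normalizer of K in G is exactly the set of elements of G all of whose entries c satisfy c^q = c. -/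
theorem result {k : Type*} [Field k] [IsAlgClosed k] (p : ℕ) [Fact p.Prime] [CharP k p] (D : Cfsg.Lie.ChevalleyDatum) (hD : D ∈ [Cfsg.Lie.chevG2, Cfsg.Lie.chevB2, Cfsg.Lie.chevD4, Cfsg.Lie.chevF4, Cfsg.Lie.chevE6, Cfsg.Lie.chevE7, Cfsg.Lie.chevE8]) (a : ℕ) (ha : 1 ≤ a) (K : Subgroup (GL D.Idx k)) (hKG : K ≤ D.group k)
    (hLK : Subgroup.closure {g : GL D.Idx k | ∃ (s : ℕ) (t : k), t ^ (p ^ a) = t ∧ (g : Matrix D.Idx D.Idx k) = D.x k s t} ≤ K)
    (hKfix : ∀ g ∈ K, ∀ i j : D.Idx, ((g : Matrix D.Idx D.Idx k) i j) ^ (p ^ a) = (g : Matrix D.Idx D.Idx k) i j) :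
    D.group k ⊓ Subgroup.centralizer (K : Set (GL D.Idx k)) = ⊥ ∧
    ∀ g : GL D.Idx k, g ∈ D.group k → (g ∈ Subgroup.normalizer (K : Set (GL D.Idx k)) ↔ ∀ i j : D.Idx, ((g : Matrix D.Idx D.Idx k) i j) ^ (p ^ a) = (g : Matrix D.Idx D.Idx k) i j) := by
  obtain ⟨C, R⟩ := cert_root_of_mem hD
  obtain ⟨E, _, _, ι, -, hE⟩ := exists_subfield k p (n := a) ha
  have hk := C.hSub_eq_range (k := k) R (snf_of_mem hD)
  have hG := C.Yhat_G0_eq (k := k) R (snf_of_mem hD)
  have hfix : ∀ g : GL D.Idx k, (∀ i j : D.Idx, ((g : Matrix D.Idx D.Idx k) i j) ^ (p ^ a) =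
      (g : Matrix D.Idx D.Idx k) i j) ↔ mapGL D (iterateFrobenius k p a) g = g := fun g =>
    ⟨fun h => Units.ext (Matrix.ext h), fun h i j => by
      conv_rhs => rw [← h]
      rfl⟩
  have hx : ∀ r (t : E), mapGL D ι (xGL D E r t) ∈ K := fun r t => by
    rw [C.mapGL_xGL ι R]
    exact hLK (Subgroup.subset_closure ⟨r, ι t, (hE _).2 ⟨t, rfl⟩, C.coe_xGL R r _⟩)
  have hL : ∀ g ∈ D.group E, mapGL D ι g ∈ K := fun g hg =>
    ((C.group_le_iff R (K := K.comap (mapGL D ι))).2 fun r t _ => hx r t) hg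
  have hc : ∀ g ∈ D.group k, (∀ y ∈ K, y * g = g * y) → g = 1 := fun g hg h => by
    refine C.eq_one_of_commute_one R (hG ▸ hg) fun r _ => (h _ ?_).symm
    have := hx r 1
    rwa [C.mapGL_xGL ι R, map_one] at this
  refine ⟨eq_bot_iff.2 fun g hg => hc g hg.1 (Subgroup.mem_centralizer_iff.1 hg.2), fun g hg => ?_⟩
  rw [hfix]
  refine ⟨fun h => ?_, fun h => ?_⟩
  · have h1 := hc (g⁻¹ * mapGL D (iterateFrobenius k p a) g)
      (mul_mem (inv_mem hg) (mapGL_mem_group _ hg)) fun y hy => by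
        have h2 := (hfix _).1 (hKfix _ (conj_mem_of_mem_normalizer h hy))
        rw [map_mul, map_mul, map_inv, (hfix _).1 (hKfix y hy)] at h2
        rw [mul_assoc, mul_inv_eq_iff_eq_mul.1 h2]
        group
    exact (inv_mul_eq_one.1 h1).symm
  · have key : ∀ g ∈ (C.Yhat E R).G0.map (mapGL D ι), ∀ y ∈ K, g * y * g⁻¹ ∈ K := by
      rintro _ ⟨g, hg, rfl⟩ y hy
      obtain ⟨z, hz, rfl⟩ := (C.fixed_iff R _ ι hE hk).1 ⟨hKG hy, (hfix _).1 (hKfix y hy)⟩
      have := mul_mem (hL _ (C.commutator_mem_group R hg hz)) hy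
      simpa using this
    exact le_normalizer_of_conj_mem key ((C.fixed_iff R _ ι hE hk).1 ⟨hg, h⟩)

end Cfsg.Agent.S2214
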