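import Cfsg.Statements.S2221
import Mathlib
import Cfsg.Agent.Class.AltSylDec

set_option autoImplicit false
open Cfsg

namespace Cfsg.Agent.S2221

open Cfsg.Lib.Class.AltSyl

/-- Direct decomposability of the Sylow 2-subgroups of the alternating groups. Let n ≥ 4 and let P be a Sylow 2-subgroup of the alternating group of degree n. Then P is the internal direct product of two nontrivial subgroups if and only if n = 4, n = 5, or n ≡ 2, 3 (mod 4) with 4⌊n/4⌋ not a power of 2. In the remaining cases (n ≡ 0, 1 (mod 4) with n ≥ 8, or n ≡ 2, 3 (mod 4) with 4⌊n/4⌋ a power of 2) P is directly indecomposable. -/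
theorem result (n : ℕ) (hn : 4 ≤ n)
    (P : Sylow 2 (alternatingGroup (Fin n))) :
    (∃ S₁ S₂ : Subgroup (alternatingGroup (Fin n)), S₁ ≠ ⊥ ∧ S₂ ≠ ⊥ ∧
        Cfsg.IsInternalDirectProduct S₁ S₂ (P : Subgroup (alternatingGroup (Fin n)))) ↔
      (n = 4 ∨ n = 5 ∨ ((n % 4 = 2 ∨ n % 4 = 3) ∧ ∀ r : ℕ, 4 * (n / 4) ≠ 2 ^ r)) := by
  obtain ⟨e⟩ := Cfsg.Lib.DC.Wr.nonempty_equiv_Om (p := 2) (Fin n)
  rw [Fintype.card_fin] at e
  have hJ : Fintype.card (Fin (n % 2)) < 2 := by simpa using Nat.mod_lt n two_pos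
  have key := dec_iff hJ e.symm P
  change Dec _ ↔ _
  obtain ⟨Q⟩ : Nonempty (Sylow 2 (Equiv.Perm (Fin (n / 2)))) := inferInstance
  by_cases h2 : n / 2 = 2
  · exact iff_of_true ((key Q).2 (dec_two (by simpa using h2))) (by omega)
  have h3 : 3 ≤ Fintype.card (Fin (n / 2)) := by rw [Fintype.card_fin]; omega
  by_cases he : Even (Fintype.card (Fin (n / 2)))
  · refine iff_of_false (fun h => ?_) ?_
    · obtain ⟨_, _, _, _, hd⟩ := ((key Q).1 h).dat h3
      exact hd.not_even h3 he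
    · rw [Fintype.card_fin, Nat.even_iff] at he
      omega
  obtain ⟨Q, hQ⟩ := dec_odd (Fin (n % 2)) h3 he
  rw [key Q, hQ]
  rw [Fintype.card_fin] at *
  rw [Nat.even_iff] at he
  refine ⟨fun h => Or.inr (Or.inr ⟨by omega, fun r hr => ?_⟩), fun h r hr => ?_⟩
  · rcases r with _ | r
    · omega
    · exact h r (by rw [pow_succ] at hr; omega)
  · exact ((h.resolve_left (by omega)).resolve_left (by omega)).2 (r + 1) (by rw [pow_succ]; omega)

end Cfsg.Agent.S2221
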