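import Cfsg.Statements.S2222
import Cfsg.Agent.Perm.SymSylow2
import Cfsg.Agent.S3820

set_option autoImplicit false
open Cfsg

namespace Cfsg.Agent.S2222

open Cfsg.Lib.Perm.SymSyl in

/-- In the alternating group of degree n ≥ 5 every subgroup H of odd index is pronormal: for every element g, the subgroups H and gHg⁻¹ are conjugate by an element of the subgroup they generate. -/
theorem result (n : ℕ) (hn : 5 ≤ n)
    (H : Subgroup (alternatingGroup (Fin n))) (hH : Odd H.index) : Cfsg.IsPronormal H := by
  obtain ⟨S⟩ : Nonempty (Sylow 2 H) := inferInstance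
  have hS : IsPGroup 2 ((S : Subgroup H).map H.subtype) := S.isPGroup'.map _
  have hi : ¬ 2 ∣ ((S : Subgroup H).map H.subtype).index := by
    rw [Subgroup.index_map_subtype]
    exact fun hd => ((Nat.Prime.dvd_mul Nat.prime_two).1 hd).elim S.not_dvd_index
      hH.not_two_dvd_nat
  have hR : ((hS.toSylow hi : Sylow 2 _) : Subgroup _) ≤ H := Subgroup.map_subtype_le _
  refine (Cfsg.Agent.S3820.result _ H hR (Cfsg.Lib.Solv.isPronormal_sylow _)).mpr fun g hg => ?_
  refine ⟨1, Subgroup.one_mem _, ?_⟩
  exact (Subgroup.mem_normalizer_iff_map_conj_eq.mp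
    (normalizer_le_normalizer_alt (by simpa using hn) _ hR hg)).trans
    (Subgroup.mem_normalizer_iff_map_conj_eq.mp (Subgroup.one_mem _)).symm

end Cfsg.Agent.S2222
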