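import Cfsg.Statements.S2225
import Mathlib
import Cfsg.Agent.Known.PronCls
import Cfsg.Agent.Known.PronEven
import Cfsg.Agent.Known.PronL2

set_option autoImplicit false
open Cfsg

namespace Cfsg.Agent.S2225

open Cfsg.Lib.Known.Pron

/-- Let F be a finite field and d = 2^w ≥ 2 a power of 2 such that PSL_d(F) is simple. Then every subgroup H of PSL_d(F) of odd index is pronormal: for every g, H and gHg⁻¹ are conjugate by an element of the subgroup they generate. -/
theorem result {F : Type*} [Field F] [Fintype F]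
    (w : ℕ) (hw : 1 ≤ w) (hs : IsSimpleGroup (Matrix.ProjectiveSpecialLinearGroup (Fin (2 ^ w)) F))
    (H : Subgroup (Matrix.ProjectiveSpecialLinearGroup (Fin (2 ^ w)) F)) (hH : Odd H.index) : Cfsg.IsPronormal H := by
  by_cases h2 : (2 : F) = 0
  · have := CharTwo.of_one_ne_zero_of_two_eq_zero one_ne_zero h2
    have h : ∀ n, 0 < n → OddPron (Matrix.SpecialLinearGroup (Fin n) F) := fun n hn => by
      obtain ⟨n, rfl⟩ := Nat.exists_eq_add_one_of_ne_zero hn.ne'
      exact oddPron_SL_even n
    exact (h _ (Nat.two_pow_pos w)).of_surjective _ (QuotientGroup.mk'_surjective _) H hH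
  · obtain rfl | hw2 := hw.eq_or_lt
    · exact oddPron_PSL2 h2 H hH
    · obtain ⟨k, rfl⟩ := Nat.exists_eq_add_of_le' (show 2 ≤ w from hw2)
      exact (oddPron_SL_odd h2 k).of_surjective _ (QuotientGroup.mk'_surjective _) H hH
end Cfsg.Agent.S2225
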