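import Cfsg.Statements.S2228
import Cfsg.Agent.SporChar.HJWrap
import Cfsg.Agent.Block.UniqFix

set_option autoImplicit false
open Cfsg

namespace Cfsg.Agent.S2228

open scoped Pointwise commutatorElement

open Subgroup Cfsg.Lib.Spor Cfsg.Lib.Spor.HJ Cfsg.Lib.Spor.WF Cfsg.Lib.Local Cfsg.Lib.Solv Cfsg.Lib.Known

/-- Let G be a finite simple group in which all involutions are conjugate and the centralizer of an involution has a normal extraspecial subgroup of order 32 complemented by a subgroup isomorphic to the alternating group of degree 5 (a group of J₃-type). Then a Sylow 19-subgroup of G is self-centralizing with normalizer-quotient cyclic of order 9, and a Sylow 17-subgroup is self-centralizing with normalizer-quotient cyclic of order 8. -/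
theorem result {G : Type*} [Group G] [Finite G] [IsSimpleGroup G]
    (hone : ∀ x y : G, orderOf x = 2 → orderOf y = 2 → IsConj x y)
    (t : G) (ht : orderOf t = 2) (E A : Subgroup ↥(Subgroup.centralizer ({t} : Set G))) [E.Normal]
    (hE : Cfsg.IsExtraspecial 2 ↥E) (hE32 : Nat.card ↥E = 32) (hEA : E.IsComplement' A)
    (eA : ↥A ≃* ↥(alternatingGroup (Fin 5))) :
    (∀ X : Sylow 19 G, Subgroup.centralizer ((X : Subgroup G) : Set G) = X ∧
        ∃ h : ((X : Subgroup G).subgroupOf (Subgroup.normalizer ((X : Subgroup G) : Set G))).Normal,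
          IsCyclic (↥(Subgroup.normalizer ((X : Subgroup G) : Set G)) ⧸ (X : Subgroup G).subgroupOf _) ∧
          Nat.card (↥(Subgroup.normalizer ((X : Subgroup G) : Set G)) ⧸ (X : Subgroup G).subgroupOf _) = 9) ∧
    (∀ Y : Sylow 17 G, Subgroup.centralizer ((Y : Subgroup G) : Set G) = Y ∧
        ∃ h : ((Y : Subgroup G).subgroupOf (Subgroup.normalizer ((Y : Subgroup G) : Set G))).Normal,
          IsCyclic (↥(Subgroup.normalizer ((Y : Subgroup G) : Set G)) ⧸ (Y : Subgroup G).subgroupOf _) ∧
          Nat.card (↥(Subgroup.normalizer ((Y : Subgroup G) : Set G)) ⧸ (Y : Subgroup G).subgroupOf _) = 8) := by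
  obtain ⟨F, _, _, ω, hF, hω⟩ := exists_F4
  have e' := hEA.symm.QuotientMulEquiv.trans eA
  obtain ⟨e⟩ := j3_of_A5 hone ht hE32 hE e' hF hω
  have hc := (janko_A5 ht hE32 hE e').1
  have hG : Nat.card G = 50232960 := (Nat.card_congr e.toEquiv).trans (card_J3Q hF hω)
  have : Fact (Nat.Prime 17) := ⟨by norm_num⟩
  have : Fact (Nat.Prime 19) := ⟨by norm_num⟩
  have h17 : Nat.card G = 17 * 2954880 := hG
  have h19 : Nat.card G = 19 * 2643840 := hG
  have c17 : ∀ P : Sylow 17 G, centralizer ((P : Subgroup G) : Set G) = P := fun P => by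
    obtain ⟨x, hx⟩ := exists_prime_orderOf_dvd_card' (G := G) 17 (Dvd.intro _ h17.symm)
    exact cent_sylow_prime h17 (by norm_num) hx (fun d => cent_17 hF hω e hx) P
  have c19 : ∀ P : Sylow 19 G, centralizer ((P : Subgroup G) : Set G) = P := by
    obtain ⟨x, u, hx, hu⟩ : ∃ x u : G, orderOf x = 19 ∧ u * x = x ^ 4 * u := by
      obtain ⟨x, u, a, b⟩ := exists_19 hF hω
      exact ⟨e.symm x, e.symm u, (e.symm.orderOf_eq x).trans a, by rw [← map_pow, ← map_mul, b, map_mul]⟩
    refine cent_sylow_prime h19 (by norm_num) hx fun d hd => ?_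
    obtain ⟨P, hP⟩ := SC.exists_sylow_mem_of_orderOf (p := 19) (k := 1) hx
    have hP' := card_sylow_prime h19 (by norm_num) P
    have e1 := SC.zpowers_eq_of_card_prime (by norm_num) hP' hP (by rintro rfl; simp at hx)
    have h1 := SC.card_normalizer_eq_mul (P : Subgroup G)
    have h2 := SC.relIndex_centralizer_dvd_sub_one (by norm_num) _ hP'
    have h3 := SC.card_normalizer_mul_card_sylow P
    have h4 := card_sylow_modEq_one 19 G
    have k1 : ∀ k : ℕ, u ^ k * x = x ^ 4 ^ k * u ^ k := fun k => by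
      induction k with
      | zero => simp
      | succ k ih => rw [pow_succ', mul_assoc, ih, ← mul_assoc, (SemiconjBy.pow_right hu _).eq,
          ← pow_mul, ← pow_succ', mul_assoc]
    have k2 : u ∈ normalizer ((P : Subgroup G) : Set G) := e1 ▸ Lib.Block.Princ.mem_normalizer_zpowers
      (by rw [hu, mul_inv_cancel_right]; exact pow_mem (mem_zpowers x) 4)
    have k3 := pow_index_mem (H := (centralizer ((P : Subgroup G) : Set G)).subgroupOf
      (normalizer ((P : Subgroup G) : Set G))) ⟨u, k2⟩
    replace k3 := k3 x hP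
    change x * u ^ relIndex _ _ = u ^ relIndex _ _ * x at k3
    rw [k1, mul_left_inj, ← pow_one x, ← pow_mul, pow_eq_pow_iff_modEq, hx, one_mul] at k3
    have hZ : zpowers x ≤ centralizer {x} := zpowers_le.2 (mem_centralizer_singleton_iff.2 rfl)
    obtain ⟨c, k4⟩ := card_dvd_of_le hZ
    rw [Nat.card_zpowers, hx] at k4
    have k5 : ∀ p : ℕ, p.Prime → (∀ y : G, orderOf y = p → ¬ x * y = y * x) → c.Coprime p :=
      fun p hp a => ((Nat.Prime.coprime_iff_not_dvd hp).2 fun b => by
        obtain ⟨y, hy, b⟩ := exists_mem_orderOf hp (k4 ▸ b.mul_left 19)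
        exact a y b (mem_centralizer_singleton_iff.1 hy).symm).symm
    have k6 := k5 2 Nat.prime_two fun y hy a => by
      have := orderOf_dvd_natCard (⟨x, mem_centralizer_singleton_iff.2 a⟩ : centralizer {y})
      rw [SC.card_centralizer_eq_of_isConj (hone y t hy ht), hc, ← orderOf_coe, hx] at this
      omega
    have k7 := k5 17 (by norm_num) fun y hy a => by
      have := orderOf_dvd_of_mem_zpowers (cent_17 hF hω e hy a)
      rw [hx, hy] at this
      omega
    generalize relIndex (centralizer ((P : Subgroup G) : Set G)) _ = a at *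
    rw [h1, ← e1, SC.centralizer_zpowers, k4, h19, mul_assoc, mul_assoc,
      Nat.mul_right_inj (by norm_num)] at h3
    have k8 : c ∣ 1215 := k7.dvd_of_dvd_mul_left ((k6.pow_right 7).dvd_of_dvd_mul_left
      (Dvd.intro _ h3))
    have k9 : c * a % 19 = 9 := by
      have := h4.mul_left (c * a)
      rw [mul_assoc, h3] at this
      exact (mul_one (c * a) ▸ this.symm :)
    obtain rfl := (by decide +kernel : ∀ c ∈ Nat.divisors 1215, ∀ a ∈ Nat.divisors 18,
      1 % 19 = 4 ^ a % 19 → c * a % 19 = 9 → c = 1) c (Nat.mem_divisors.2 ⟨k8, by norm_num⟩) a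
      (Nat.mem_divisors.2 ⟨h2, by norm_num⟩) k3 k9
    rw [eq_of_le_of_card_ge hZ (by rw [k4, Nat.card_zpowers, hx])]
    exact mem_centralizer_singleton_iff.2 hd
  exact ⟨fun P => ⟨c19 P, quot_prime h19 (by norm_num) P (c19 P)⟩,
    fun P => ⟨c17 P, quot_prime h17 (by norm_num) P (c17 P)⟩⟩

end Cfsg.Agent.S2228
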