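import Cfsg.Statements.S2231
import Cfsg.Agent.Trans.QdSylow
import Cfsg.Agent.Class.PGL2Borel

set_option autoImplicit false
open Cfsg

open Cfsg.Lib Cfsg.Lib.Trans Cfsg.Lib.Trans.Qd Subgroup

namespace Cfsg.Agent.S2231

/-- Let p be an odd prime and K a finite field of characteristic p. Then Qd(p) (the natural semidirect product of an elementary abelian group of order p² by SL₂(p)) is not involved in the projective special linear group PSL₂(K). -/
theorem result {p : ℕ} [Fact p.Prime] (hp : p ≠ 2) {K : Type*} [Field K] [Fintype K] [CharP K p] : ¬ Cfsg.Involves ↥(Cfsg.qd p) (Matrix.ProjectiveSpecialLinearGroup (Fin 2) K) := by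
  intro h
  refine not_isMulCommutative_sylow (qdSylow p)
    (sylow_comm_of_involves h (Class.pslSylow p (Class.P1.inf K)) ?_ _)
  refine Solv.PG.isMulCommutative_of_forall fun x hx y hy => Class.pslι_injective ?_
  rw [map_mul, map_mul]
  exact Class.commute_of_mem_unip p hx hy

end Cfsg.Agent.S2231
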