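import Cfsg.Statements.S2232
import Mathlib
import Cfsg.Agent.Trans.StableModel
import Cfsg.Agent.Class.StdForms

set_option autoImplicit false
open Cfsg

open Cfsg.Lib Cfsg.Lib.Trans Cfsg.Lib.Trans.Qd Cfsg.Lib.Trans.Quad Matrix

namespace Cfsg.Agent.S2232

section
variable {K : Type*} [Field K]

theorem det3 (a b c : Fin 3 → K) : Matrix.det (Matrix.of ![a, b, c]) =
    a 0 * b 1 * c 2 - a 0 * b 2 * c 1 - a 1 * b 0 * c 2 + a 1 * b 2 * c 0 + a 2 * b 0 * c 1
      - a 2 * b 1 * c 0 := by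
  rw [Matrix.det_fin_three]; rfl

theorem par {x v : Fin 3 → K} (hv : v ≠ 0)
    (h : ∀ w : Fin 3 → K, Matrix.det (Matrix.of ![x, v, w]) = 0) : ∃ t : K, x = t • v := by
  have h0 := h ![1, 0, 0]
  have h1 := h ![0, 1, 0]
  have h2 := h ![0, 0, 1]
  simp [Matrix.det_fin_three] at h0 h1 h2
  obtain ⟨i, hi⟩ := Function.ne_iff.1 hv
  refine ⟨x i / v i, ?_⟩
  have hi' : v i ≠ 0 := hi
  ext j
  simp only [Pi.smul_apply, smul_eq_mul]
  field_simp
  fin_cases i <;> fin_cases j <;> simp <;>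
    first
    | linear_combination h0 | linear_combination -h0 | linear_combination h1
    | linear_combination -h1 | linear_combination h2 | linear_combination -h2

theorem det_mulVec (g : Matrix (Fin 3) (Fin 3) K) (a b c : Fin 3 → K) :
    Matrix.det (Matrix.of ![g *ᵥ a, g *ᵥ b, g *ᵥ c]) = g.det * Matrix.det (Matrix.of ![a, b, c]) := by
  have : Matrix.of ![g *ᵥ a, g *ᵥ b, g *ᵥ c] = Matrix.of ![a, b, c] * gᵀ := by
    ext i j
    fin_cases i <;> simp [Matrix.mul_apply, Matrix.mulVec, dotProduct, mul_comm]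
  rw [this, Matrix.det_mul, Matrix.det_transpose, mul_comm]

variable (σ : K →+* K)

/-- The sesquilinear form. -/
def B (u v : Fin 3 → K) : K := ∑ i, u i * σ (v i)

theorem B_sub (u u' v : Fin 3 → K) : B σ (u - u') v = B σ u v - B σ u' v := by
  simp [B, Fin.sum_univ_three]; ring

theorem B_add (u u' v : Fin 3 → K) : B σ (u + u') v = B σ u v + B σ u' v := by
  simp [B, Fin.sum_univ_three]; ring

theorem B_smul_right (t : K) (u v : Fin 3 → K) : B σ u (t • v) = σ t * B σ u v := by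
  simp [B, Fin.sum_univ_three]; ring

theorem det_of_perp {s a b c : Fin 3 → K} (hs : s ≠ 0) (ha : B σ a s = 0) (hb : B σ b s = 0)
    (hc : B σ c s = 0) : Matrix.det (Matrix.of ![a, b, c]) = 0 := by
  rw [← Matrix.exists_mulVec_eq_zero_iff]
  refine ⟨fun i => σ (s i), ?_, ?_⟩
  · intro h
    apply hs
    ext i
    simpa using congrFun h i
  · ext i
    fin_cases i
    · exact ha
    · exact hb
    · exact hc

theorem det_of_iso {a b : Fin 3 → K} (haa : B σ a a = 0) (hab : B σ a b = 0) (hba : B σ b a = 0)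
    (hbb : B σ b b = 0) (c : Fin 3 → K) : Matrix.det (Matrix.of ![a, b, c]) = 0 := by
  set M : Matrix (Fin 3) (Fin 3) K := Matrix.of ![a, b, c] with hM
  have h1 : M * (M.map σ)ᵀ = !![0, 0, B σ a c; 0, 0, B σ b c; B σ c a, B σ c b, B σ c c] := by
    ext i j
    fin_cases i <;> fin_cases j <;> first | rfl | exact haa | exact hab | exact hba | exact hbb
  have h2 := congrArg Matrix.det h1
  rw [Matrix.det_mul, Matrix.det_transpose, ← RingHom.mapMatrix_apply, ← RingHom.map_det] at h2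
  have h3 : M.det * σ M.det = 0 := by rw [h2]; simp [Matrix.det_fin_three]
  simpa using h3

/-- An isometry of determinant one fixing an isotropic vector is unipotent. -/
theorem cube_eq_zero {c : Matrix (Fin 3) (Fin 3) K} (hd : c.det = 1)
    (hc : ∀ u v, B σ (c *ᵥ u) (c *ᵥ v) = B σ u v) {v : Fin 3 → K} (hv : v ≠ 0) (hvv : B σ v v = 0)
    (hcv : c *ᵥ v = v) : (c - 1) ^ 3 = 0 := by
  have h1 : ∀ u, B σ (c *ᵥ u - u) v = 0 := by
    intro u
    rw [B_sub]
    nth_rewrite 1 [← hcv]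
    rw [hc, sub_self]
  have h2 : ∀ u, B σ u v = 0 → ∃ t : K, c *ᵥ u - u = t • v := by
    intro u hu
    apply par hv
    intro w
    have e1 := det_mulVec c u v w
    rw [hd, one_mul, hcv] at e1
    have e2 : Matrix.det (Matrix.of ![c *ᵥ u, v, c *ᵥ w - w]) = 0 :=
      det_of_perp σ hv (by nth_rewrite 1 [← hcv]; rw [hc, hu]) hvv (h1 w)
    simp only [det3, Pi.sub_apply] at e1 e2 ⊢
    linear_combination e1 - e2
  apply Matrix.ext_of_mulVec_single
  intro i
  obtain ⟨t, ht⟩ := h2 _ (h1 (Pi.single i 1))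
  rw [pow_succ, pow_two, ← Matrix.mulVec_mulVec, ← Matrix.mulVec_mulVec]
  simp only [Matrix.sub_mulVec, Matrix.one_mulVec]
  rw [ht, Matrix.mulVec_smul, hcv, sub_self, Matrix.zero_mulVec]

end

/-- Let p be an odd prime, q a power of p and K a finite field with q² elements. Then Qd(p) (the natural semidirect product of an elementary abelian group of order p² by SL₂(p)) is not involved in the projective special unitary group PSU₃(q) realised over K. -/
theorem result {p : ℕ} [Fact p.Prime] (hp : p ≠ 2) {K : Type*} [Field K] [Fintype K] [CharP K p] (n : ℕ) (hn : 1 ≤ n) (hK : Fintype.card K = (p ^ n) ^ 2) : ¬ Cfsg.Involves ↥(Cfsg.qd p) (Cfsg.PSU 3 K (p ^ n)) := by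
  classical
  intro h
  have h' : Involves (qd p) (SU 3 K (p ^ n)) := involves_trans h (involves_quotient _)
  obtain ⟨Q, M, ψ, hQ, hM, hψ, hC⟩ := exists_automizer_section_of_involves_qd h'
  set σ := Class.frobq hK with hσ
  let m : SU 3 K (p ^ n) →* Matrix (Fin 3) (Fin 3) K := (slToMat 3 K).comp (SU 3 K (p ^ n)).subtype
  have hm : ∀ g u v, B σ (m g *ᵥ u) (m g *ᵥ v) = B σ u v := fun g u v => g.2 u v
  have hdet : ∀ g, (m g).det = 1 := fun g => g.1.2
  have hminj : Function.Injective m := fun a b hab => Subtype.ext (Subtype.ext hab)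
  have hmul : ∀ g h u, m (g * h) *ᵥ u = m g *ᵥ (m h *ᵥ u) := fun g h u => by
    rw [map_mul, Matrix.mulVec_mulVec]
  obtain ⟨x, hx⟩ := hψ (upT 1)
  obtain ⟨y, hy⟩ := hψ (loT 1)
  have hQne : ∃ u ∈ Q, u ≠ 1 := by
    by_contra hne
    push Not at hne
    apply upT_one_ne_one (K := ZMod p)
    rw [← hx]
    apply hC
    rw [Subgroup.mem_centralizer_iff]
    intro u hu
    rw [hne u hu, one_mul, mul_one]
  obtain ⟨u, huQ, hu1⟩ := hQne
  -- the perpendicular of the fixed space
  let T : AddSubgroup (Fin 3 → K) :=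
    { carrier := {a | ∀ b, (∀ g ∈ Q, m g *ᵥ b = b) → B σ a b = 0}
      zero_mem' := fun b _ => by simp [B]
      add_mem' := fun {a a'} ha ha' b hb => by rw [B_add, ha b hb, ha' b hb, add_zero]
      neg_mem' := fun {a} ha b hb => by
        rw [← zero_sub, B_sub, ha b hb]; simp [B] }
  have hfix : ∀ g ∈ Subgroup.normalizer (Q : Set (SU 3 K (p ^ n))), ∀ b, (∀ k ∈ Q, m k *ᵥ b = b) →
      ∀ k ∈ Q, m k *ᵥ (m g *ᵥ b) = m g *ᵥ b := by
    intro g hg b hb k hk
    have h1 : g⁻¹ * k * g ∈ Q := (Subgroup.mem_normalizer_iff''.1 hg k).1 hk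
    have h2 := hb _ h1
    rw [← hmul]
    nth_rewrite 2 [← h2]
    rw [← hmul]
    congr 2
    group
  have hT : ∀ g ∈ Subgroup.normalizer (Q : Set (SU 3 K (p ^ n))), ∀ a ∈ T, m g *ᵥ a ∈ T := by
    intro g hg a ha b hb
    have h1 := hfix g⁻¹ (Subgroup.inv_mem _ hg) b hb
    have h2 := ha _ h1
    rw [← hm g, ← hmul, mul_inv_cancel, map_one, Matrix.one_mulVec] at h2
    exact h2
  have hpT : p ∣ Nat.card T := by
    obtain ⟨a, ha⟩ : ∃ a, m u *ᵥ a - a ≠ 0 := by
      by_contra hne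
      push Not at hne
      apply hu1
      apply hminj
      rw [map_one]
      apply Matrix.ext_of_mulVec_single
      intro i
      rw [Matrix.one_mulVec]
      exact sub_eq_zero.1 (hne _)
    have haT : m u *ᵥ a - a ∈ T := by
      intro b hb
      rw [B_sub]
      nth_rewrite 1 [← hb u huQ]
      rw [hm, sub_self]
    have h1 : addOrderOf (⟨_, haT⟩ : T) = p := by
      apply addOrderOf_eq_prime
      · apply Subtype.ext
        ext i
        simp
      · intro h0
        exact ha (congrArg Subtype.val h0)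
    exact h1 ▸ addOrderOf_dvd_natCard _
  let _ : MulAction Q T :=
    { smul := fun g a => ⟨m g *ᵥ a, hT g (Subgroup.le_normalizer g.2) a a.2⟩
      one_smul := fun a => Subtype.ext (by
        change m 1 *ᵥ a.1 = a.1
        rw [map_one, Matrix.one_mulVec])
      mul_smul := fun g g' a => Subtype.ext (hmul _ _ _) }
  obtain ⟨v, hvf, hv0⟩ := hQ.exists_fixed_point_of_prime_dvd_card_of_fixed_point T hpT (a := 0)
    (fun g => Subtype.ext (Matrix.mulVec_zero (m g)))
  have hv : (v : Fin 3 → K) ≠ 0 := fun h0 => hv0 (Subtype.ext h0.symm)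
  have hvQ : ∀ k ∈ Q, m k *ᵥ (v : Fin 3 → K) = v := fun k hk => congrArg Subtype.val (hvf ⟨k, hk⟩)
  have hvv : B σ v v = 0 := v.2 _ hvQ
  have hpar : ∀ g : M, ∃ t : K, m g *ᵥ (v : Fin 3 → K) = t • (v : Fin 3 → K) := by
    intro g
    apply par hv
    have h1 := hT g (hM g.2) v v.2
    have h2 := hfix g (hM g.2) v hvQ
    exact det_of_iso σ (h1 _ h2) (h1 _ hvQ) (v.2 _ h2) hvv
  have hcv : m (x * y * x⁻¹ * y⁻¹ : M) *ᵥ (v : Fin 3 → K) = v := by
    obtain ⟨s, hs⟩ := hpar x
    obtain ⟨t, ht⟩ := hpar y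
    have h1 : m (x * y : M) *ᵥ (v : Fin 3 → K) = m (y * x : M) *ᵥ (v : Fin 3 → K) := by
      simp only [Subgroup.coe_mul, hmul, hs, ht, Matrix.mulVec_smul, smul_smul, mul_comm]
    obtain ⟨r, hr⟩ := hpar (y * x)
    have h2 : m (x * y * x⁻¹ * y⁻¹ : M) *ᵥ (m (y * x : M) *ᵥ (v : Fin 3 → K)) =
        m (y * x : M) *ᵥ (v : Fin 3 → K) := by
      rw [← hmul, ← h1, ← Subgroup.coe_mul]
      congr 3
      group
    have hr0 : r ≠ 0 := by
      rintro rfl
      apply hv
      have h3 := hmul ((y * x : M) : SU 3 K (p ^ n))⁻¹ (y * x : M) v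
      rw [inv_mul_cancel, map_one, Matrix.one_mulVec, hr, zero_smul, Matrix.mulVec_zero] at h3
      exact h3
    rw [hr, Matrix.mulVec_smul] at h2
    exact smul_right_injective _ hr0 h2
  have h3 := cube_eq_zero σ (hdet _) (hm _) hv hvv hcv
  have hp3 : 3 ≤ p := by
    have := (Fact.out : p.Prime).two_le
    omega
  have h4 : (x * y * x⁻¹ * y⁻¹) ^ p = 1 := by
    apply Subtype.ext
    apply hminj
    rw [Subgroup.coe_pow, map_pow, Subgroup.coe_one, map_one]
    have h5 : (m (x * y * x⁻¹ * y⁻¹ : M) - 1) ^ p = 0 := pow_eq_zero_of_le hp3 h3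
    rw [sub_pow_char_of_commute p (Commute.one_right _), one_pow, sub_eq_zero] at h5
    exact h5
  have h5 : (ψ (x * y * x⁻¹ * y⁻¹)) ^ p ^ 1 = 1 := by rw [pow_one, ← map_pow, h4, map_one]
  have h6 := sub_one_mul_sub_one_eq_zero h5
  have h7 : (ψ (x * y * x⁻¹ * y⁻¹)).1 = !![3, -1; 1, 0] := by
    rw [map_mul, map_mul, map_mul, map_inv, map_inv, hx, hy]
    simp only [Matrix.SpecialLinearGroup.coe_mul, Matrix.SpecialLinearGroup.coe_inv]
    ext i j
    fin_cases i <;> fin_cases j <;>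
      simp [upT, loT, Matrix.mul_apply, Fin.sum_univ_two] <;> norm_num
  rw [h7] at h6
  have h8 := congrFun (congrFun h6 1) 0
  simp [Matrix.mul_apply, Fin.sum_univ_two, Matrix.one_apply] at h8
  norm_num at h8

end Cfsg.Agent.S2232
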