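import Cfsg.Statements.S2239
import Cfsg.Agent.Chev.SuzukiMax

set_option autoImplicit false
open Cfsg

namespace Cfsg.Agent.S2239

/-- Subfield subgroups of the Suzuki group: let q = 2^(2m+1) and s = 2^(2k+1) with m, k ≥ 1 and 2k+1 dividing 2m+1 (so q is a power of s), both groups realised as stabilisers in SL₄ of the Suzuki–Tits ovoid. Then Sz(q) has a subgroup isomorphic to Sz(s), and any two subgroups of Sz(q) isomorphic to Sz(s) are conjugate. -/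
theorem result {F : Type*} [Field F] [Fintype F] {m : ℕ} (hm : 1 ≤ m) (hF : Fintype.card F = 2 ^ (2 * m + 1)) {K : Type*} [Field K] [Fintype K] {k : ℕ} (hk : 1 ≤ k) (hK : Fintype.card K = 2 ^ (2 * k + 1)) (hdiv : 2 * k + 1 ∣ 2 * m + 1) :
    (∃ S : Subgroup ↥(Cfsg.Sz F m), Nonempty (↥S ≃* ↥(Cfsg.Sz K k))) ∧
    ∀ S₁ S₂ : Subgroup ↥(Cfsg.Sz F m), Nonempty (↥S₁ ≃* ↥(Cfsg.Sz K k)) → Nonempty (↥S₂ ≃* ↥(Cfsg.Sz K k)) →
      ∃ g : ↥(Cfsg.Sz F m), S₂ = S₁.map (MulAut.conj g).toMonoidHom := by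
  classical
  let X := Cfsg.Lib.Chev.szModel hm hF
  let Y := Cfsg.Lib.Chev.szModel hk hK
  obtain ⟨E, hE⟩ := Cfsg.Lib.Chev.exists_subfield_card (F := F) (n := 2 * k + 1) (by omega)
    (by rw [Nat.card_eq_fintype_card, hF]) hdiv
  have key : ∀ S : Subgroup ↥(Cfsg.Sz F m), Nonempty (↥S ≃* ↥(Cfsg.Sz K k)) →
      ∃ g, S = (X.sub E).map (MulAut.conj g).toMonoidHom := by
    rintro S ⟨e⟩
    obtain ⟨g, E', hE', rfl⟩ := X.exists_eq_sub_of_not_isSolvable (K := S) fun _ =>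
      Y.not_isSolvable (Group.isSolvable_of_surjective (f := e.toMonoidHom) e.surjective)
    have h1 := (X.conjModel g).card_sub hF E' hE'
    rw [Nat.card_congr e.toEquiv, Y.card_G, hK, ← hE] at h1
    have h2 := Cfsg.Lib.Chev.sz_order_inj Finite.one_lt_card Finite.one_lt_card h1
    rw [← Cfsg.Lib.Chev.subfield_eq_of_card_eq h2]
    exact ⟨g, X.conjModel_sub g E⟩
  refine ⟨⟨_, X.nonempty_sub_equiv_of_card Y hE⟩, fun S₁ S₂ h₁ h₂ => ?_⟩
  obtain ⟨g₁, rfl⟩ := key S₁ h₁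
  obtain ⟨g₂, rfl⟩ := key S₂ h₂
  refine ⟨g₂ * g₁⁻¹, ?_⟩
  rw [Subgroup.map_map]
  congr 1
  ext x : 1
  simp [mul_assoc]

end Cfsg.Agent.S2239
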