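import Cfsg.Statements.S2240
import Cfsg.Agent.Chev.SuzukiMax

set_option autoImplicit false
open Cfsg

namespace Cfsg.Agent.S2240

open Cfsg.Lib.Chev in
theorem aux {F : Type*} [Field F] [Fintype F] {τ : Tw F} {G : Type*} [Group G] (M : SzModel τ G)
    {E : Subgroup G} (hE : E ≤ M.Z) (h1 : M.T 0 1 ∈ E)
    (h : ∀ x : G, E ⊓ E.map (MulAut.conj x).toMonoidHom ≠ ⊥ → x ∈ Subgroup.normalizer (E : Set G)) :
    ∃ K : Subfield F, Nat.card K = Nat.card E := by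
  have hmul : ∀ a ∈ M.zAdd E, ∀ b ∈ M.zAdd E, a * b ∈ M.zAdd E := by
    intro a ha b hb
    by_cases ha0 : a = 0
    · simp [ha0]
    obtain ⟨l, rfl⟩ := τ.exists_unit_θ_mul_sq ha0
    have h2 := h (M.D l) (fun h3 => by
      have h4 : M.T 0 (τ.θ l * (l : F) ^ 2) ∈ E ⊓ E.map (MulAut.conj (M.D l)).toMonoidHom :=
        ⟨ha, _, h1, by simpa using M.D_conj_T l 0 1⟩
      rw [h3, Subgroup.mem_bot] at h4
      simp at h4)
    have h3 := (Subgroup.mem_normalizer_iff.mp h2 _).mp hb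
    rw [M.D_conj_T, mul_zero] at h3
    exact h3
  refine ⟨subfieldOfMulMem (M.zAdd E) h1 hmul, ?_⟩
  have h2 := M.card_zAdd E
  rw [inf_eq_left.mpr hE] at h2
  exact h2

/-- Elementary abelian TI-subgroups of the Suzuki group: let q = 2^(2m+1) with m ≥ 1, the group realised as the stabiliser in SL₄ of the Suzuki–Tits ovoid, and n ≥ 2. There is an elementary abelian 2-subgroup E of order 2^n that is a TI-subgroup (every conjugate of E meeting E nontrivially is E itself) if and only if n divides 2m + 1. -/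
theorem result {F : Type*} [Field F] [Fintype F] {m : ℕ} (hm : 1 ≤ m) (hF : Fintype.card F = 2 ^ (2 * m + 1)) (n : ℕ) (hn : 2 ≤ n) :
    (∃ E : Subgroup ↥(Cfsg.Sz F m), Cfsg.IsElementaryAbelian 2 E ∧ Nat.card ↥E = 2 ^ n ∧
      ∀ x : ↥(Cfsg.Sz F m), E ⊓ E.map (MulAut.conj x).toMonoidHom ≠ ⊥ → x ∈ Subgroup.normalizer (E : Set ↥(Cfsg.Sz F m))) ↔ n ∣ 2 * m + 1 := by
  classical
  let X := Cfsg.Lib.Chev.szModel hm hF
  have := X.finite
  constructor
  · rintro ⟨E, ⟨-, hE2⟩, hcard, hTI⟩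
    obtain ⟨p, hp⟩ := X.exists_le_Pat (K := E) (IsPGroup.of_card hcard)
    obtain ⟨u, hu, hu1⟩ := (Subgroup.bot_or_exists_ne_one E).resolve_left (fun h => by
      rw [h, Subgroup.card_bot] at hcard
      exact absurd (Nat.pow_eq_one.mp hcard.symm) (by omega))
    obtain ⟨k, rfl⟩ := X.exists_smul_inf p
    have hZ : E ≤ X.Zat (k • X.inf) := fun x hx => X.mem_Zat.mpr ⟨(X.mem_Pat.mp (hp hx)).1, hE2 x hx⟩
    have hu' := hZ hu
    rw [X.Zat_smul, X.Zat_inf] at hu'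
    obtain ⟨_, ⟨b, rfl⟩, rfl⟩ := hu'
    have hb : b ≠ 0 := by
      rintro rfl
      simp at hu1
    obtain ⟨l, hl⟩ := (Cfsg.Lib.Chev.Tw.ofCard hF).exists_unit_θ_mul_sq hb
    have h1 : (X.conjModel (k * X.D l)).T 0 1 = (MulAut.conj k).toMonoidHom (X.T 0 b) := by
      have h2 := X.D_conj_T l 0 1
      rw [mul_zero, mul_one, hl] at h2
      rw [X.conjModel_T, ← h2]
      simp [mul_assoc]
    obtain ⟨K, hK⟩ := aux (X.conjModel (k * X.D l)) (E := E)
      (by rw [X.conjModel_Z, mul_smul, X.D_smul_inf]; exact hZ) (h1 ▸ hu) hTI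
    exact Cfsg.Lib.Chev.dvd_of_ringHom (hK.trans hcard) (by rw [Nat.card_eq_fintype_card, hF]) K.subtype
  · intro hd
    obtain ⟨K, hK⟩ := Cfsg.Lib.Chev.exists_subfield_card (F := F) (n := n) (by omega)
      (by rw [Nat.card_eq_fintype_card, hF]) hd
    refine ⟨X.zSub K.toAddSubgroup, ⟨⟨⟨?_⟩⟩, ?_⟩, (X.card_zSub _).trans hK, ?_⟩
    · rintro ⟨_, b, -, rfl⟩ ⟨_, c, -, rfl⟩
      exact Subtype.ext (X.commute_T_iff'.mpr (Or.inl rfl))
    · rintro _ ⟨b, -, rfl⟩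
      exact X.T_zero_sq b
    · intro x hx
      obtain ⟨_, ⟨⟨b, hb, hb'⟩, _, ⟨c, hc, rfl⟩, rfl⟩, h1⟩ := (Subgroup.bot_or_exists_ne_one _).resolve_left hx
      have hc1 : X.T 0 c ≠ 1 := by simpa using h1
      have hc0 : c ≠ 0 := by simpa using hc1
      have hb'' : x * X.T 0 c * x⁻¹ = X.T 0 b := hb'
      have hfix : x • X.inf = X.inf := X.smul_eq_of_conj_mem_Pat (x := X.T 0 c)
        (by rw [X.Pat_inf]; exact X.T_mem_P _ _) hc1 (by rw [hb'', X.Pat_inf]; exact X.T_mem_P _ _)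
      obtain ⟨a, d, l, rfl⟩ := X.exists_TD_of_smul hfix
      rw [X.TD_conj_T_zero] at hb''
      have hμ : (Cfsg.Lib.Chev.Tw.ofCard hF).θ l * (l : F) ^ 2 ∈ K := by
        have h2 := K.div_mem hb hc
        rwa [← (X.T_inj.mp hb'').2, mul_div_cancel_right₀ _ hc0] at h2
      refine Subgroup.mem_normalizer_fintype ?_
      rintro _ ⟨e, he, rfl⟩
      exact ⟨_, K.mul_mem hμ he, X.TD_conj_T_zero _ _ _ _⟩

end Cfsg.Agent.S2240
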