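import Cfsg.Statements.S2241
import Cfsg.Agent.Chev.SuzukiPart

set_option autoImplicit false
open Cfsg

namespace Cfsg.Agent.S2241

/-- Real 2-elements of the Suzuki group: with q = 2^(2m+1), m ≥ 1, and the group realised as the stabiliser in SL₄ of the Suzuki–Tits ovoid, a non-identity element of a Sylow 2-subgroup is conjugate to its inverse if and only if it is an involution; in particular no element of order 4 is conjugate to its inverse. -/
theorem result {F : Type*} [Field F] [Fintype F] {m : ℕ} (hm : 1 ≤ m) (hF : Fintype.card F = 2 ^ (2 * m + 1)) (P : Sylow 2 ↥(Cfsg.Sz F m)) (g : ↥(Cfsg.Sz F m)) (hg : g ∈ (P : Subgroup ↥(Cfsg.Sz F m))) (h1 : g ≠ 1) :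
    IsConj g g⁻¹ ↔ orderOf g = 2 := by
  let M := Cfsg.Lib.Chev.szModel hm hF
  obtain ⟨p, hp⟩ := M.exists_sylow_eq P
  constructor
  · intro h
    exact orderOf_eq_prime (M.sq_eq_one_of_isConj_inv (hp ▸ hg) h) h1
  · intro h
    have : g⁻¹ = g := by
      rw [inv_eq_iff_mul_eq_one, ← sq, ← h, pow_orderOf_eq_one]
    rw [this]

end Cfsg.Agent.S2241
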