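import Cfsg.Statements.S2244
import Cfsg.Agent.Chev.WeakCl
import Cfsg.Agent.Chev.RootCert

set_option autoImplicit false
open Cfsg Cfsg.Lib.Chev Cfsg.Lib.Chev.Core

namespace Cfsg.Agent.S2244

/-- Weakly closed unipotent subgroups of Chevalley groups: let G be the Chevalley group of type G₂, B₂, D₄, F₄, E₆, E₇ or E₈ over a finite field F (the matrix group generated by the root elements), with |F| ≠ 2, and |F| ≠ 3 as well for the types G₂, B₂, D₄, F₄. Let U be the subgroup generated by the positive root subgroups. If X ≤ U is weakly closed in U with respect to G (every G-conjugate of X lying in U equals X), then X is the unipotent radical U_J of a standard parabolic subgroup for some set J of fundamental roots. -/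
theorem result {F : Type*} [Field F] [Fintype F] (D : Cfsg.Lie.ChevalleyDatum) (hD : D ∈ [Cfsg.Lie.chevG2, Cfsg.Lie.chevB2, Cfsg.Lie.chevD4, Cfsg.Lie.chevF4, Cfsg.Lie.chevE6, Cfsg.Lie.chevE7, Cfsg.Lie.chevE8])
    (h2 : Fintype.card F ≠ 2) (h3 : D ∈ [Cfsg.Lie.chevG2, Cfsg.Lie.chevB2, Cfsg.Lie.chevD4, Cfsg.Lie.chevF4] → Fintype.card F ≠ 3)
    (X : Subgroup (GL D.Idx F)) (hXU : X ≤ D.posUnipotent F)
    (hwc : ∀ g ∈ D.group F, X.map (MulAut.conj g).toMonoidHom ≤ D.posUnipotent F → X.map (MulAut.conj g).toMonoidHom = X) :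
    ∃ J : Set ℕ, (∀ j ∈ J, j < D.rank) ∧ X = D.unipotentRadical F J := by
  have key : ∀ (C : Cert D) (R : RootData D), (∀ J, htLev R (xGL D F) 1 ≤ Subgroup.normalizer (X : Set _) →
      hSub D (xGL D F) ≤ Subgroup.normalizer (X : Set _) →
      (∀ i ∉ J, ∃ u ∈ X, coef R (xGL D F) i u ≠ 0) → (C.Y F R).UJ J ≤ X) →
      ∃ J : Set ℕ, (∀ j ∈ J, j < D.rank) ∧ X = D.unipotentRadical F J := fun C R h => by
    rw [C.posUnipotent_eq_Y R] at hXU hwc
    obtain ⟨J, hJ⟩ := (C.model F R).eq_UJ_of_weaklyClosed hXU (fun g hg h => by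
      have := hwc g ((C.group_eq_Y R).ge hg) (by rintro _ ⟨u, hu, rfl⟩; exact h u hu)
      rw [Subgroup.mem_normalizer_iff]
      intro u
      conv_rhs => rw [← this]
      exact (Subgroup.mem_map_iff_mem (f := (MulAut.conj g).toMonoidHom)
        (MulAut.conj g).injective).symm) h
    exact ⟨Fin.val '' J, by rintro _ ⟨j, -, rfl⟩; exact j.2, by
      rw [C.unipotentRadical_eq_Y R, Set.preimage_image_eq _ Fin.val_injective, hJ]⟩
  have h1 := Fintype.one_lt_card (α := F)
  have hN : ∀ n ∈ [1], n ≠ 0 ∧ n + 1 < Fintype.card F := by simp; omega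
  have hN' : Fintype.card F ≠ 3 → ∀ n ∈ [1, 2], n ≠ 0 ∧ n + 1 < Fintype.card F := by simp; omega
  simp only [List.mem_cons, List.not_mem_nil, or_false] at hD h3
  rcases hD with rfl | rfl | rfl | rfl | rfl | rfl | rfl
  · have := h3 (.inl rfl)
    exact key Core.certG2 rootG2 ((Core.certG2.model F rootG2).UJ_le_G2
      (Core.certG2.posUnipotent_eq_Y (F := F) rootG2 ▸ hXU) (by omega))
  · exact key Core.certB2 rootB2 ((Core.certB2.model F rootB2).UJ_le_of_chk
      (Core.certB2.posUnipotent_eq_Y (F := F) rootB2 ▸ hXU) _ (hN' (h3 (by simp))) [] (by simp)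
      (by decide +kernel) (.inr (by decide +kernel)))
  · exact key Core.certD4 rootD4 ((Core.certD4.model F rootD4).UJ_le_of_chk
      (Core.certD4.posUnipotent_eq_Y (F := F) rootD4 ▸ hXU) _ (hN' (h3 (by simp))) [] (by simp)
      (by decide +kernel) (.inl (rootD4.sl_of_symm (by decide +kernel))))
  · exact key Core.certF4 rootF4 ((Core.certF4.model F rootF4).UJ_le_of_chk
      (Core.certF4.posUnipotent_eq_Y (F := F) rootF4 ▸ hXU) _ (hN' (h3 (by simp))) [] (by simp)
      (by decide +kernel) (.inr (by decide +kernel)))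
  · exact key Core.certE6 rootE6 ((Core.certE6.model F rootE6).UJ_le_of_chk
      (Core.certE6.posUnipotent_eq_Y (F := F) rootE6 ▸ hXU) _ hN [] (by simp)
      (by decide +kernel) (.inl (rootE6.sl_of_symm (by decide +kernel))))
  · exact key Core.certE7 rootE7 ((Core.certE7.model F rootE7).UJ_le_of_chk
      (Core.certE7.posUnipotent_eq_Y (F := F) rootE7 ▸ hXU) _ hN [] (by simp)
      (by decide +kernel) (.inl (rootE7.sl_of_symm (by decide +kernel))))
  · exact key Core.certE8 rootE8 ((Core.certE8.model F rootE8).UJ_le_of_chk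
      (Core.certE8.posUnipotent_eq_Y (F := F) rootE8 ▸ hXU) _ hN [] (by simp)
      (by decide +kernel) (.inl (rootE8.sl_of_symm (by decide +kernel))))

end Cfsg.Agent.S2244
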