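import Cfsg.Statements.S2249
import Mathlib
import Cfsg.Agent.Known.Syl2Rank

set_option autoImplicit false
open Cfsg

namespace Cfsg.Agent.S2249

open Cfsg.Lib.Known Cfsg.Lib.Known.S2R Cfsg.Lib.Char Module

theorem v_one {q : ℕ} (h1 : 1 < q) (hq : q % 4 = 1) (n : ℕ) :
    padicValNat 2 (∏ i ∈ Finset.range n, (q ^ (i + 1) - 1)) =
      n * padicValNat 2 (q - 1) + padicValNat 2 n.factorial := by
  have ho : Odd q := Nat.odd_iff.2 (by omega)
  induction n with
  | zero => simp
  | succ n ih =>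
    have h2 := (V2.v_sub_of_one h1 ho (k := n + 1) (by omega) (by simp [Nat.pow_mod, hq])).1
    have h3 := (V2.v_sub_of_one h1 ho (k := 1) (by omega) (by simp [hq])).1
    rw [Finset.prod_range_succ, padicValNat.mul (V2.prod_gl_ne h1 _)
      (V2.pow_sub_one_ne h1 (by omega)), ih, V2.v_factorial_succ]
    simp only [pow_one, padicValNat_one_right] at h3
    lia

theorem neg_sub {F V : Type*} [Field F] [AddCommGroup V] [Module F V] (D : Sylow 2 (V ≃ₗ[F] V)) :
    ∃ z : D.1, z ∈ Subgroup.center D.1 ∧ z ^ 2 = 1 ∧ orderOf z = orderOf (LinearEquiv.neg F : V ≃ₗ[F] V) := by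
  have h : (LinearEquiv.neg F : V ≃ₗ[F] V) ^ 2 = 1 := LinearEquiv.ext fun v => by simp [sq]
  exact ⟨⟨_, mem_sylow_of_center neg_mem_center h D⟩, Subgroup.mem_center_iff.2 fun g =>
    Subtype.ext (Subgroup.mem_center_iff.1 neg_mem_center _), Subtype.ext h,
    (Subgroup.orderOf_coe _).symm⟩

/-- The normal 2-rank of the general linear group over a finite field of odd order q: for n ≥ 1 and S a Sylow 2-subgroup of GL_n(F), the largest rank of an elementary abelian subgroup of S that is normal in S equals n when q ≡ 1 (mod 4) and ⌊(n + 1)/2⌋ when q ≡ 3 (mod 4). -/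
theorem result {F : Type*} [Field F] [Fintype F] {q : ℕ} (hF : Fintype.card F = q) (hodd : Odd q) (n : ℕ) (hn : 1 ≤ n) (S : Sylow 2 (Matrix.GeneralLinearGroup (Fin n) F)) :
    (q % 4 = 1 → ((∃ E : Subgroup ↥(S : Subgroup (Matrix.GeneralLinearGroup (Fin n) F)), E.Normal ∧ Cfsg.IsElementaryAbelian 2 E ∧ 2 ^ (n) ≤ Nat.card ↥E) ∧
      ∀ E : Subgroup ↥(S : Subgroup (Matrix.GeneralLinearGroup (Fin n) F)), E.Normal → Cfsg.IsElementaryAbelian 2 E → Nat.card ↥E ≤ 2 ^ (n))) ∧
    (q % 4 = 3 → ((∃ E : Subgroup ↥(S : Subgroup (Matrix.GeneralLinearGroup (Fin n) F)), E.Normal ∧ Cfsg.IsElementaryAbelian 2 E ∧ 2 ^ ((n + 1) / 2) ≤ Nat.card ↥E) ∧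
      ∀ E : Subgroup ↥(S : Subgroup (Matrix.GeneralLinearGroup (Fin n) F)), E.Normal → Cfsg.IsElementaryAbelian 2 E → Nat.card ↥E ≤ 2 ^ ((n + 1) / 2))) := by
  subst hF
  have h1 : 1 < Fintype.card F := Fintype.one_lt_card
  have h2 := Lib.Class.two_ne_zero_of_odd_card hodd
  refine ⟨fun hq => ⟨?_, fun E _ hE => ?_⟩, fun hq => ?_⟩
  · obtain ⟨D⟩ : Nonempty (Sylow 2 ((Fin 1 → F) ≃ₗ[F] (Fin 1 → F))) := inferInstance
    obtain ⟨E⟩ : Nonempty (Sylow 2 ((Fin 0 → F) ≃ₗ[F] (Fin 0 → F))) := inferInstance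
    obtain ⟨W, T, ⟨e⟩⟩ := exists_sylow_GL hodd (m := n) one_pos (by simp) D E
      (by rw [v_one h1 hq]; simp) S
    obtain ⟨z, hz1, hz2, hz3⟩ := neg_sub D
    have := (hasN_syl W T hz1 hz2 (one_mem _) (one_pow _)).congr e
    rwa [hz3, orderOf_neg h2, orderOf_one, mul_one, Nat.card_eq_fintype_card, Fintype.card_fin] at this
  · let ρ : (S : Subgroup (GL (Fin n) F)) →* End F (Fin n → F) :=
      (Matrix.toLinAlgEquiv' (R := F) (n := Fin n)).toMulEquiv.toMonoidHom.comp
        ((Units.coeHom _).comp (S : Subgroup (GL (Fin n) F)).subtype)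
    have hρ : Function.Injective ρ := (Matrix.toLinAlgEquiv' (R := F)).injective.comp
      (Units.val_injective.comp Subtype.val_injective)
    simpa using card_le_of_invols h2 (f := fun a : E => ρ a) (hρ.comp Subtype.val_injective)
      (fun a b => Commute.map ((ea_iff'.1 hE).1 _ a.2 _ b.2) ρ)
      fun a => by rw [← map_mul, ← sq, hE.2 _ a.2, map_one]
  · obtain ⟨m, r, hr, rfl⟩ : ∃ m r, r ≤ 1 ∧ n = 2 * m + r := ⟨n / 2, n % 2, by omega, by omega⟩
    have : Finite ((Fin 2 → F) ≃ₗ[F] (Fin 2 → F)) := finite_linearEquiv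
    have : Finite ((Fin r → F) ≃ₗ[F] (Fin r → F)) := finite_linearEquiv
    obtain ⟨D⟩ : Nonempty (Sylow 2 ((Fin 2 → F) ≃ₗ[F] (Fin 2 → F))) := inferInstance
    obtain ⟨E⟩ : Nonempty (Sylow 2 ((Fin r → F) ≃ₗ[F] (Fin r → F))) := inferInstance
    obtain ⟨W, T, ⟨e⟩⟩ := exists_sylow_GL hodd (m := m) two_pos rfl D E (by
      have := V2.v_gl_even h1 hodd 1
      rw [mul_one] at this
      rw [this]
      interval_cases r
      · rw [add_zero, V2.v_gl_even h1 hodd]; simp
      · rw [V2.v_gl_odd h1 hodd]; simp) S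
    rw [show (2 * m + r + 1) / 2 = m + r by omega, pow_add]
    constructor
    · obtain ⟨z, hz1, hz2, hz3⟩ := neg_sub D
      obtain ⟨z', hz1', hz2', hz3'⟩ := neg_sub E
      have := (hasN_syl W T hz1 hz2 hz1' hz2').congr e
      rw [hz3, hz3', orderOf_neg h2, Nat.card_eq_fintype_card, Fintype.card_fin] at this
      interval_cases r
      · rwa [show (LinearEquiv.neg F : (Fin 0 → F) ≃ₗ[F] (Fin 0 → F)) = 1 from
          LinearEquiv.ext fun _ => Subsingleton.elim _ _, orderOf_one] at this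
      · rwa [orderOf_neg h2] at this
    · obtain ⟨P⟩ : Nonempty (Sylow 2 (GL (Fin 2) F)) := inferInstance
      obtain ⟨e'⟩ := sylow_equiv (Matrix.GeneralLinearGroup.toLin.trans
        (LinearMap.GeneralLinearGroup.generalLinearEquiv F _)) P D
      have hD : IsQuasiDihedral D.1 := by
        obtain ⟨k, hk, hc, x, y, hx, hy, hxy⟩ := GL2.isQuasiDihedral_sylow_GL hq P
        exact ⟨k, hk, (Nat.card_congr e'.toEquiv).trans hc, e'.symm x, e'.symm y,
          by rwa [MulEquiv.orderOf_eq], by rwa [MulEquiv.orderOf_eq],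
          by rw [← map_pow, ← hxy, map_mul, map_mul, map_inv]⟩
      obtain ⟨⟨a, ha⟩, hc⟩ := qd_card_le hD
      intro N hN hE
      refine ((leN_syl W T ha).congr e.symm N hN hE).trans (Nat.mul_le_mul ?_ (le_of_eq ?_))
      · rw [Nat.card_eq_fintype_card (α := Fin m), Fintype.card_fin]
        exact Nat.pow_le_pow_left hc _
      · rw [E.card_eq_multiplicity, card_linearEquiv (k := r) (by simp),
          Nat.factorization_def _ Nat.prime_two]
        interval_cases r
        · simp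
        · simp [V2.v_eq_one (show (Fintype.card F - 1) % 4 = 2 by omega)]

end Cfsg.Agent.S2249
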