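import Cfsg.Statements.S2250
import Mathlib
import Cfsg.Agent.Known.Syl2Rank

set_option autoImplicit false
open Cfsg

namespace Cfsg.Agent.S2250

open Cfsg.Lib.Known Cfsg.Lib.Known.S2R Cfsg.Lib.Char Module Cfsg.Lib Equiv

/-- The normal 2-rank of the symplectic group over a finite field of odd order: for n ≥ 1 and S a Sylow 2-subgroup of Sp_{2n}(F), the largest rank of an elementary abelian subgroup of S that is normal in S equals n. -/
theorem result {F : Type*} [Field F] [Fintype F] (hF : Odd (Fintype.card F)) (n : ℕ) (hn : 1 ≤ n) (S : Sylow 2 ↥(Matrix.symplecticGroup (Fin n) F)) :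
    ((∃ E : Subgroup ↥(S : Subgroup ↥(Matrix.symplecticGroup (Fin n) F)), E.Normal ∧ Cfsg.IsElementaryAbelian 2 E ∧ 2 ^ (n) ≤ Nat.card ↥E) ∧
      ∀ E : Subgroup ↥(S : Subgroup ↥(Matrix.symplecticGroup (Fin n) F)), E.Normal → Cfsg.IsElementaryAbelian 2 E → Nat.card ↥E ≤ 2 ^ (n)) := by
  have h1 : 1 < Fintype.card F := Fintype.one_lt_card
  have h2 := Lib.Class.two_ne_zero_of_odd_card hF
  refine ⟨?_, fun E _ hE => ?_⟩
  · obtain ⟨D⟩ : Nonempty (Sylow 2 (Matrix.SpecialLinearGroup (Fin 2) F)) := inferInstance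
    obtain ⟨T⟩ : Nonempty (Sylow 2 (Perm (Fin n))) := inferInstance
    let f : ((Fin n → Fin 2 → F) × (Fin 0 → F)) → ((Fin n → Fin 2 → F) × (Fin 0 → F)) → F :=
      fun u v => sympForm n F (spCoord F n u) (spCoord F n v)
    have hf : ∀ u v, f u v = ∑ i, (u.1 i 1 * v.1 i 0 - u.1 i 0 * v.1 i 1) := fun u v =>
      Class.sympForm_eq n _ _
    let e : Matrix.symplecticGroup (Fin n) F ≃* Class.Isom f :=
      (Class.spEquivIsom n F).trans (Class.isomCongr (spCoord F n) fun _ _ => rfl).symm
    let W := ((linWr F (Fin n) (Fin 2 → F) (Fin 0 → F)).comp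
      (Matrix.SpecialLinearGroup.toLin'.comp (D : Subgroup _).subtype) (1 : Unit →* _)
      (Matrix.SpecialLinearGroup.toLin'_injective.comp Subtype.val_injective)
      (fun _ _ _ => rfl)).codRestrict (Class.Isom f)
      (fun b u v => by
        rw [hf, hf]
        refine Finset.sum_congr rfl fun i _ => ?_
        have h3 := (b.1 i).1.2
        rw [Matrix.det_fin_two] at h3
        change ((b.1 i).1.1.mulVec (u.1 i)) 1 * ((b.1 i).1.1.mulVec (v.1 i)) 0 -
          ((b.1 i).1.1.mulVec (u.1 i)) 0 * ((b.1 i).1.1.mulVec (v.1 i)) 1 = _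
        simp only [Matrix.mulVec, dotProduct, Fin.sum_univ_two]
        linear_combination (u.1 i 1 * v.1 i 0 - u.1 i 0 * v.1 i 1) * h3)
      (fun π u v => by
        rw [hf, hf]
        exact Equiv.sum_comp π.symm fun i => u.1 i 1 * v.1 i 0 - u.1 i 0 * v.1 i 1)
    have := Finite.of_equiv _ e.toEquiv
    obtain ⟨S', hS⟩ := W.exists_sylow (p := 2) (b := 0) D.card_eq_multiplicity (by simp) T (by
      rw [← Nat.card_congr e.toEquiv, Class.card_symplecticGroup, card_SL2_eq,
        Nat.factorization_def _ Nat.prime_two, Nat.factorization_def _ Nat.prime_two,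
        Nat.factorization_def _ Nat.prime_two, Class.spOrd,
        padicValNat.mul (by positivity) (V2.prod_sp_ne h1 n), V2.v_prod_sp h1 hF,
        padicValNat.mul (by positivity) (V2.pow_sub_one_ne h1 two_ne_zero), V2.v_odd hF,
        V2.v_odd hF.pow]
      simp)
    obtain ⟨e'⟩ := sylow_equiv e.symm S' S
    have hc : (-1 : Matrix.SpecialLinearGroup (Fin 2) F) ∈ Subgroup.center _ :=
      Subgroup.mem_center_iff.2 fun g => by simp
    have hz : (-1 : Matrix.SpecialLinearGroup (Fin 2) F) ^ 2 = 1 := by simp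
    have ho : orderOf (-1 : Matrix.SpecialLinearGroup (Fin 2) F) = 2 :=
      orderOf_eq_prime hz fun h => h2 (by
        have := congrFun (congrFun (congrArg Subtype.val h) 0) 0
        simp at this
        linear_combination -this)
    have := hasN_syl W T (z := ⟨-1, mem_sylow_of_center hc hz D⟩) (Subgroup.mem_center_iff.2 fun g =>
      Subtype.ext (Subgroup.mem_center_iff.1 hc _)) (Subtype.ext hz) (one_mem _) (one_pow _)
    rw [← hS, ← Subgroup.orderOf_coe, ho, orderOf_one, mul_one, Nat.card_eq_fintype_card,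
      Fintype.card_fin] at this
    exact this.congr e'
  · let ρ : (S : Subgroup (Matrix.symplecticGroup (Fin n) F)) →* End F (Fin n ⊕ Fin n → F) :=
      (Matrix.toLinAlgEquiv' (R := F) (n := Fin n ⊕ Fin n)).toMulEquiv.toMonoidHom.comp
        ((Submonoid.subtype _).comp (S : Subgroup (Matrix.symplecticGroup (Fin n) F)).subtype)
    have hρ : Function.Injective ρ := (Matrix.toLinAlgEquiv' (R := F)).injective.comp
      (Subtype.val_injective.comp Subtype.val_injective)
    exact card_le_of_invols_alt h2 (f := fun a : E => ρ a) (hρ.comp Subtype.val_injective)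
      (fun a b => Commute.map ((ea_iff'.1 hE).1 _ a.2 _ b.2) ρ)
      (fun a => by rw [← map_mul, ← sq, hE.2 _ a.2, map_one])
      (Class.sympBilin_nondegenerate n) (Class.sympBilin_isAlt n)
      (fun a u v => Class.mem_SpB.1 (Class.spEquivSpB n F a.1.1).2 u v) (Class.finrank_symp_space n)

end Cfsg.Agent.S2250
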