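import Cfsg.Statements.S2251
import Cfsg.Agent.Chev.SuzukiMax

set_option autoImplicit false
open Cfsg

namespace Cfsg.Agent.S2251

/-- The subgroups of the Suzuki group: with q = 2^(2m+1), m ≥ 1, r = 2^m and the group realised as the stabiliser in SL₄ of the Suzuki–Tits ovoid, every proper subgroup is contained in the normalizer of a Sylow 2-subgroup, or in the normalizer of a cyclic subgroup of order q − 1, q + 2r + 1 or q − 2r + 1, or in a subgroup isomorphic to a smaller Suzuki group Sz(s) with s = 2^(2k+1) ≥ 8 and 2k+1 a proper divisor of 2m+1. -/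
theorem result {F : Type*} [Field F] [Fintype F] {m : ℕ} (hm : 1 ≤ m) (hF : Fintype.card F = 2 ^ (2 * m + 1)) (M : Subgroup ↥(Cfsg.Sz F m)) (hM : M ≠ ⊤) :
    (∃ P : Sylow 2 ↥(Cfsg.Sz F m), M ≤ Subgroup.normalizer ((P : Subgroup ↥(Cfsg.Sz F m)) : Set ↥(Cfsg.Sz F m))) ∨
    (∃ U : Subgroup ↥(Cfsg.Sz F m), IsCyclic ↥U ∧ Nat.card ↥U ∈ ({2 ^ (2 * m + 1) - 1, 2 ^ (2 * m + 1) + 2 ^ (m + 1) + 1, 2 ^ (2 * m + 1) - 2 ^ (m + 1) + 1} : Set ℕ) ∧
      M ≤ Subgroup.normalizer (U : Set ↥(Cfsg.Sz F m))) ∨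
    (∃ (K : Type) (_ : Field K) (_ : Fintype K) (k : ℕ), 1 ≤ k ∧ k < m ∧ Fintype.card K = 2 ^ (2 * k + 1) ∧ 2 * k + 1 ∣ 2 * m + 1 ∧
      ∃ S : Subgroup ↥(Cfsg.Sz F m), Nonempty (↥S ≃* ↥(Cfsg.Sz K k)) ∧ M ≤ S) := by
  classical
  let X := Cfsg.Lib.Chev.szModel hm hF
  rcases X.classification M with ⟨U, hU, h⟩ | ⟨g, E, hE, rfl⟩
  · rcases (X.isPart_iff hm hF).mp hU with ⟨P, rfl⟩ | ⟨h1, h2⟩
    · exact Or.inl ⟨P, h⟩
    · exact Or.inr (Or.inl ⟨U, h1, h2, h⟩)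
  · obtain ⟨k, hk, hcard, hdvd⟩ := Cfsg.Lib.Chev.exists_card_subfield hF E hE
    have hEF : E ≠ ⊤ := fun h => hM ((X.conjModel g).sub_eq_top_iff.mpr h)
    have hkm : k < m := by
      have h1 := Nat.le_of_dvd (by omega) hdvd
      by_contra h2
      obtain rfl : k = m := by omega
      exact hEF (Cfsg.Lib.Chev.subfield_eq_top_of_card (by rw [hcard, ← hF, Nat.card_eq_fintype_card]))
    let K := GaloisField 2 (2 * k + 1)
    let _ : Fintype K := Fintype.ofFinite K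
    have hK : Nat.card K = 2 ^ (2 * k + 1) := GaloisField.card 2 _ (by omega)
    have hK' : Fintype.card K = 2 ^ (2 * k + 1) := by rw [← Nat.card_eq_fintype_card, hK]
    exact Or.inr (Or.inr ⟨K, inferInstance, inferInstance, k, hk, hkm, hK', hdvd, _,
      (X.conjModel g).nonempty_sub_equiv_of_card (Cfsg.Lib.Chev.szModel hk hK') hcard, le_rfl⟩)

end Cfsg.Agent.S2251
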