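import Cfsg.Statements.S2253
import Cfsg.Agent.Known.SymNilp

set_option autoImplicit false
open Cfsg

namespace Cfsg.Agent.S2253

open Cfsg.Lib.Known

/-- Let n be a natural number not congruent to 3 modulo 4. Then every nilpotent subgroup of the symmetric group on n letters has order at most the order of a Sylow 2-subgroup (so the nilpotent subgroups of largest order are exactly the Sylow 2-subgroups). -/
theorem result  (n : ℕ) (hn : n % 4 ≠ 3)
    (N : Subgroup (Equiv.Perm (Fin n))) (hN : Group.IsNilpotent N)
    (P : Sylow 2 (Equiv.Perm (Fin n))) :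
    Nat.card N ≤ Nat.card P := by
  have h1 := (nilp_bound n (Fin n) N (Fintype.card_fin n)).1
  have h2 := card_sylow_perm P
  rw [nilH, if_neg hn] at h1
  rw [Fintype.card_fin] at h2
  change _ ≤ Nat.card (P : Subgroup (Equiv.Perm (Fin n)))
  rw [h2]
  exact Nat.le_of_mul_le_mul_left h1 two_pos

end Cfsg.Agent.S2253
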