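import Cfsg.Statements.S2254
import Cfsg.Agent.Known.SymNilp2

set_option autoImplicit false
open Cfsg

namespace Cfsg.Agent.S2254

open Cfsg.Lib.Known

/-- Let n ≡ 3 (mod 4). Then every nilpotent subgroup of the symmetric group on n letters has order at most 3 times the order of a Sylow 2-subgroup of the symmetric group on n − 3 letters; the bound is attained by a nilpotent subgroup isomorphic to the direct product of such a Sylow 2-subgroup with a cyclic group of order 3; and any two nilpotent subgroups attaining the bound are conjugate. -/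
theorem result  (n : ℕ) (hn : n % 4 = 3)
    (P : Sylow 2 (Equiv.Perm (Fin (n - 3)))) :
    (∀ N : Subgroup (Equiv.Perm (Fin n)), Group.IsNilpotent N → Nat.card N ≤ 3 * Nat.card P) ∧
    (∃ M : Subgroup (Equiv.Perm (Fin n)), Group.IsNilpotent M ∧ Nat.card M = 3 * Nat.card P ∧
      Nonempty (M ≃* (↥(P : Subgroup (Equiv.Perm (Fin (n - 3)))) × Multiplicative (ZMod 3)))) ∧
    (∀ N₁ N₂ : Subgroup (Equiv.Perm (Fin n)), Group.IsNilpotent N₁ → Group.IsNilpotent N₂ →
      Nat.card N₁ = 3 * Nat.card P → Nat.card N₂ = 3 * Nat.card P →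
      ∃ g : Equiv.Perm (Fin n), N₂ = N₁.map (MulAut.conj g).toMonoidHom) := by
  have h2 : Nat.card P = 2 ^ vf 2 (n - 3) := by
    have := card_sylow_perm P
    rwa [Fintype.card_fin] at this
  have h3 : vf 2 n = vf 2 (n - 3) + 1 := by
    rw [vf_two_eq n, vf_two_eq (n - 3), show (n - 3) / 4 = n / 4 by omega]; omega
  refine ⟨fun N hN => ?_, ?_, fun N M hN hM hN' hM' => ?_⟩
  · have h1 := (nilp_bound n (Fin n) N (Fintype.card_fin n)).1
    rw [nilH, if_pos hn, h3, pow_succ, ← h2] at h1
    omega
  · have e1 : EmbS (P : Subgroup (Equiv.Perm (Fin (n - 3)))) (n - 3) :=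
      ⟨Subgroup.subtype _, Subtype.val_injective⟩
    have e2 : EmbS (Multiplicative (ZMod 3)) 3 := by
      simpa using embS_self (H := Multiplicative (ZMod 3))
    obtain ⟨M, ⟨e⟩⟩ := ((e1.prod e2).mono (show n - 3 + 3 ≤ n by omega)).exists_subgroup
    have := P.isPGroup'.isNilpotent
    refine ⟨M, Group.nilpotent_of_surjective e.symm.toMonoidHom e.symm.surjective, ?_, ⟨e⟩⟩
    rw [Nat.card_congr e.toEquiv, Nat.card_prod, mul_comm]
    simp
  · rw [h2] at hN' hM'
    refine conj_of_nilpotent Equiv.Perm.IsThreeCycle (fun x hx h => isThreeCycle_of_pow_dvd hx h ?_)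
      (fun x y hx hy => Equiv.Perm.isConj_iff_cycleType_eq.2 (hx.cycleType.trans hy.cycleType.symm))
      (fun x hx h => ?_) hN hM hN' hM'
    · rw [Fintype.card_fin]
      intro h6
      have := vf_mono 2 (show (n - 4) / 4 ≤ (n - 3) / 4 by omega)
      rw [vf_two_eq (n - 4), vf_two_eq (n - 3)]
      omega
    · rw [card_centralizer_of_isThreeCycle hx, Fintype.card_fin] at h
      have := (pow_dvd_factorial_iff Nat.prime_two).1
        ((Nat.Coprime.pow_left _ (by norm_num : Nat.Coprime 2 3)).dvd_of_dvd_mul_right h)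
      omega

end Cfsg.Agent.S2254
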