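import Cfsg.Statements.S2255
import Cfsg.Agent.Known.SymNilp

set_option autoImplicit false
open Cfsg

namespace Cfsg.Agent.S2255

open Cfsg.Lib.Known

/-- Let n be a natural number not congruent to 3 modulo 4, with n ∉ {5, 6, 9}. Then every nilpotent subgroup of the alternating group on n letters has order at most the order of a Sylow 2-subgroup of the alternating group (so the nilpotent subgroups of largest order are exactly the Sylow 2-subgroups). -/
theorem result  (n : ℕ) (hn : n % 4 ≠ 3)
    (h5 : n ≠ 5) (h6 : n ≠ 6) (h9 : n ≠ 9)
    (N : Subgroup (alternatingGroup (Fin n))) (hN : Group.IsNilpotent N)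
    (P : Sylow 2 (alternatingGroup (Fin n))) :
    Nat.card N ≤ Nat.card P := by
  by_cases h : n < 2
  · have : Subsingleton (alternatingGroup (Fin n)) := by
      interval_cases n <;> exact ⟨by decide⟩
    rw [Subsingleton.elim N ⊥, Subgroup.card_bot]
    exact Nat.card_pos (α := (P : Subgroup (alternatingGroup (Fin n))))
  have : Nontrivial (Fin n) := Fin.nontrivial_iff_two_le.2 (not_lt.1 h)
  have h1 := (nilp_bound n (Fin n) N (Fintype.card_fin n)).2 (sign_toPerm_alt N)
  have h2 := card_sylow_alt_two P
  rw [nilA_eq (by omega), nilH, if_neg hn] at h1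
  rw [Fintype.card_fin] at h2
  change _ ≤ Nat.card (P : Subgroup (alternatingGroup (Fin n)))
  unfold vf at h1
  omega

end Cfsg.Agent.S2255
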