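import Cfsg.Statements.S2256
import Cfsg.Agent.Known.SymNilp2

set_option autoImplicit false
open Cfsg

namespace Cfsg.Agent.S2256

open Cfsg.Lib.Known

/-- Let n ≡ 3 (mod 4) with n ≥ 7. Then every nilpotent subgroup of the alternating group on n letters has order at most 3 times the order of a Sylow 2-subgroup of the alternating group on n − 3 letters; the bound is attained by a nilpotent subgroup isomorphic to the direct product of such a Sylow 2-subgroup with a cyclic group of order 3; and any two nilpotent subgroups of the alternating group attaining the bound are conjugate in it. -/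
theorem result  (n : ℕ) (hn : n % 4 = 3) (h7 : 7 ≤ n)
    (P : Sylow 2 (alternatingGroup (Fin (n - 3)))) :
    (∀ N : Subgroup (alternatingGroup (Fin n)), Group.IsNilpotent N → Nat.card N ≤ 3 * Nat.card P) ∧
    (∃ M : Subgroup (alternatingGroup (Fin n)), Group.IsNilpotent M ∧ Nat.card M = 3 * Nat.card P ∧
      Nonempty (M ≃* (↥(P : Subgroup (alternatingGroup (Fin (n - 3)))) × Multiplicative (ZMod 3)))) ∧
    (∀ N₁ N₂ : Subgroup (alternatingGroup (Fin n)), Group.IsNilpotent N₁ → Group.IsNilpotent N₂ →
      Nat.card N₁ = 3 * Nat.card P → Nat.card N₂ = 3 * Nat.card P →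
      ∃ g : alternatingGroup (Fin n), N₂ = N₁.map (MulAut.conj g).toMonoidHom) := by
  have : Nontrivial (Fin (n - 3)) := Fin.nontrivial_iff_two_le.2 (by omega)
  have h3 : vf 2 n = vf 2 (n - 3) + 1 := by
    rw [vf_two_eq n, vf_two_eq (n - 3), show (n - 3) / 4 = n / 4 by omega]; omega
  obtain ⟨a, ha⟩ : ∃ a, vf 2 (n - 3) = a + 1 :=
    ⟨vf 2 (n - 3) - 1, by rw [vf_two_eq (n - 3)]; omega⟩
  have h2 : Nat.card P = 2 ^ a := by
    have := card_sylow_alt_two P
    rw [Fintype.card_fin, ← vf, ha, pow_succ'] at this
    exact Nat.eq_of_mul_eq_mul_left two_pos this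
  refine ⟨fun N hN => ?_, ?_, fun N M hN hM hN' hM' => ?_⟩
  · have h1 := (nilp_bound n (Fin n) N (Fintype.card_fin n)).2 (sign_toPerm_alt N)
    rw [nilA_eq (by omega), nilH, if_pos hn, h3, ha, pow_succ, pow_succ, ← h2] at h1
    omega
  · have e1 : EmbA (P : Subgroup (alternatingGroup (Fin (n - 3)))) (n - 3) :=
      (embA_alt (Fintype.card_fin _)).of_injective (Subgroup.subtype _) Subtype.val_injective
    have e2 : EmbA (Multiplicative (ZMod 3)) 3 := by
      simpa using (embS_self (H := Multiplicative (ZMod 3))).embA_of_odd (by simp; decide)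
    obtain ⟨M, ⟨e⟩⟩ := ((e1.prod e2).mono (show n - 3 + 3 ≤ n by omega)).exists_subgroup
    have := P.isPGroup'.isNilpotent
    refine ⟨M, Group.nilpotent_of_surjective e.symm.toMonoidHom e.symm.surjective, ?_, ⟨e⟩⟩
    rw [Nat.card_congr e.toEquiv, Nat.card_prod, mul_comm]
    simp
  · rw [h2] at hN' hM'
    refine conj_of_nilpotent (fun x : alternatingGroup (Fin n) => x.1.IsThreeCycle)
      (fun x hx h => isThreeCycle_of_pow_dvd (a := a) ((Subgroup.orderOf_coe x).trans hx)
        (h.trans ?_) ?_)
      (fun x y hx hy => alternatingGroup.isThreeCycle_isConj (by simp; omega) hx hy)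
      (fun x hx h => ?_) hN hM hN' hM'
    · rw [card_centralizer_alt]
      exact Subgroup.card_dvd_of_le inf_le_right
    · rw [Fintype.card_fin]
      intro h6
      have := vf_mono 2 (show (n - 4) / 4 ≤ (n - 3) / 4 by omega)
      rw [vf_two_eq (n - 3)] at ha
      rw [vf_two_eq (n - 4)]
      omega
    · have e1 := two_mul_card_centralizer_alt x fun e => by
        have := Equiv.Perm.card_le_of_centralizer_le_alternating e
        rw [hx.cycleType] at this
        simp at this
        omega
      have e2 := Nat.mul_dvd_mul_left 2 h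
      rw [e1, card_centralizer_of_isThreeCycle hx, Fintype.card_fin, ← pow_succ'] at e2
      have := (pow_dvd_factorial_iff Nat.prime_two).1
        ((Nat.Coprime.pow_left _ (by norm_num : Nat.Coprime 2 3)).dvd_of_dvd_mul_right e2)
      omega

end Cfsg.Agent.S2256
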