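import Cfsg.Statements.S2257
import Cfsg.Agent.Known.PSL2Sol2
-- import your own Cfsg.Agent.* helpers here

set_option autoImplicit false
open Cfsg

namespace Cfsg.Agent.S2257

open Cfsg.Lib.Class Cfsg.Lib.Class.Sol

/-- Let G = PSL_2(F) with F a field of order q = 2^p, p prime, and for x ∈ G call the solubilizer of x the set of y ∈ G such that x and y generate a solvable subgroup. Then the solubilizer of an involution has 3q(q − 1) elements; that of a non-identity element of order dividing q − 1 has 2q(q − 1) elements; and that of a non-identity element of order dividing q + 1 has 2(q + 1) elements. -/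
theorem result (p : ℕ) (hp : p.Prime) {F : Type*} [Field F] [Fintype F]
    (hF : Fintype.card F = 2 ^ p) (x : Matrix.ProjectiveSpecialLinearGroup (Fin 2) F) :
    (orderOf x = 2 → Nat.card {y : Matrix.ProjectiveSpecialLinearGroup (Fin 2) F // Group.IsSolvable ↥(Subgroup.closure ({x, y} : Set (Matrix.ProjectiveSpecialLinearGroup (Fin 2) F)))} = 3 * 2 ^ p * (2 ^ p - 1)) ∧
    (x ≠ 1 → orderOf x ∣ 2 ^ p - 1 → Nat.card {y : Matrix.ProjectiveSpecialLinearGroup (Fin 2) F // Group.IsSolvable ↥(Subgroup.closure ({x, y} : Set (Matrix.ProjectiveSpecialLinearGroup (Fin 2) F)))} = 2 * 2 ^ p * (2 ^ p - 1)) ∧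
    (x ≠ 1 → orderOf x ∣ 2 ^ p + 1 → Nat.card {y : Matrix.ProjectiveSpecialLinearGroup (Fin 2) F // Group.IsSolvable ↥(Subgroup.closure ({x, y} : Set (Matrix.ProjectiveSpecialLinearGroup (Fin 2) F)))} = 2 * (2 ^ p + 1)) := by
  have : CharP F 2 := charP_of_card_eq_prime_pow hF
  have hq : Nat.card F = 2 ^ p := by rw [Nat.card_eq_fintype_card, hF]
  have hm := min_two hp hq
  have ho : orderOf (pslι x) = orderOf x := orderOf_injective pslι pslι_injective x
  have hx := psl_toPGL_mem_psl2 x
  have hg := gcd_two_card_eq_one (ringChar.eq F 2)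
  have hodd : ∀ n, ¬ 2 ∣ n → x ≠ 1 → orderOf x ∣ n → pslι x * pslι x ≠ 1 := by
    intro n hn h1 hd h
    rw [← map_mul, map_eq_one_iff _ pslι_injective, ← sq] at h
    rw [orderOf_eq_prime h h1] at hd
    exact hn hd
  have h2 : 2 ∣ 2 ^ p := dvd_pow_self 2 hp.ne_zero
  have h1 : 0 < 2 ^ p := by positivity
  rw [card_sol, ← hq]
  rw [← hq] at h1 h2
  refine ⟨fun h => ?_, fun h h' => ?_, fun h h' => ?_⟩
  · rw [hm.invol_two (by rw [← sq, ← orderOf_dvd_iff_pow_eq_one, ho, h]) (fun e => by
      rw [e, orderOf_one] at ho; omega), mul_assoc]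
  · have := (hm.torus hx (hodd _ (by omega) h h')).1 (ho ▸ h')
    rwa [hg, one_mul, ← mul_assoc] at this
  · have := (hm.torus hx (hodd _ (by omega) h h')).2 (ho ▸ h')
    rwa [hg, one_mul] at this

end Cfsg.Agent.S2257
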