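import Cfsg.Statements.S2258
import Cfsg.Agent.Known.PSL2Sol2
-- import your own Cfsg.Agent.* helpers here

set_option autoImplicit false
open Cfsg

namespace Cfsg.Agent.S2258

open Cfsg.Lib.Class Cfsg.Lib.Class.Sol

/-- Let G = PSL_2(F) with F a field of order q = 3^p, p an odd prime, and for x ∈ G call the solubilizer of x the set of y ∈ G such that x and y generate a solvable subgroup. Then the solubilizer of an involution has q(q + 1) elements; that of an element of order 3 has q(q + 5)/2 elements; that of an element of order neither 1 nor 2 dividing q − 1 has q(q − 1) elements; and that of an element of order neither 1 nor 2 dividing q + 1 has q + 1 elements. -/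
theorem result (p : ℕ) (hp : p.Prime) (hodd : Odd p) {F : Type*} [Field F] [Fintype F]
    (hF : Fintype.card F = 3 ^ p) (x : Matrix.ProjectiveSpecialLinearGroup (Fin 2) F) :
    (orderOf x = 2 → Nat.card {y : Matrix.ProjectiveSpecialLinearGroup (Fin 2) F // Group.IsSolvable ↥(Subgroup.closure ({x, y} : Set (Matrix.ProjectiveSpecialLinearGroup (Fin 2) F)))} = 3 ^ p * (3 ^ p + 1)) ∧
    (orderOf x = 3 → 2 * Nat.card {y : Matrix.ProjectiveSpecialLinearGroup (Fin 2) F // Group.IsSolvable ↥(Subgroup.closure ({x, y} : Set (Matrix.ProjectiveSpecialLinearGroup (Fin 2) F)))} = 3 ^ p * (3 ^ p + 5)) ∧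
    (x ≠ 1 → orderOf x ≠ 2 → orderOf x ∣ 3 ^ p - 1 → Nat.card {y : Matrix.ProjectiveSpecialLinearGroup (Fin 2) F // Group.IsSolvable ↥(Subgroup.closure ({x, y} : Set (Matrix.ProjectiveSpecialLinearGroup (Fin 2) F)))} = 3 ^ p * (3 ^ p - 1)) ∧
    (x ≠ 1 → orderOf x ≠ 2 → orderOf x ∣ 3 ^ p + 1 → Nat.card {y : Matrix.ProjectiveSpecialLinearGroup (Fin 2) F // Group.IsSolvable ↥(Subgroup.closure ({x, y} : Set (Matrix.ProjectiveSpecialLinearGroup (Fin 2) F)))} = 3 ^ p + 1) := by
  have : Fact (Nat.Prime 3) := ⟨Nat.prime_three⟩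
  have : CharP F 3 := charP_of_card_eq_prime_pow hF
  have hq : Nat.card F = 3 ^ p := by rw [Nat.card_eq_fintype_card, hF]
  have hm := min_three hp hodd hq
  have ho : orderOf (pslι x) = orderOf x := orderOf_injective pslι pslι_injective x
  have hx := psl_toPGL_mem_psl2 x
  have h4 : Nat.card F % 4 = 3 := by
    obtain ⟨k, rfl⟩ := hodd
    rw [hq, pow_succ, pow_mul, Nat.mul_mod, Nat.pow_mod]
    simp
  have hg := gcd_two_card_eq_two' ((two_ne_zero_iff_char (F := F) 3).2 (by norm_num))
  have h2 : x ≠ 1 → orderOf x ≠ 2 → pslι x * pslι x ≠ 1 := by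
    intro h1 hd h
    rw [← map_mul, map_eq_one_iff _ pslι_injective, ← sq] at h
    exact hd (orderOf_eq_prime h h1)
  rw [card_sol, ← hq]
  refine ⟨fun h => ?_, fun h => ?_, fun h h' h'' => ?_, fun h h' h'' => ?_⟩
  · exact hm.invol_three h4 hx (by rw [← sq, ← orderOf_dvd_iff_pow_eq_one, ho, h]) (fun e => by
      rw [e, orderOf_one] at ho; omega)
  · exact hm.order_three h4 (by rw [← h, ← ho, pow_orderOf_eq_one]) (fun e => by
      rw [e, orderOf_one] at ho; omega)
  · have := (hm.torus hx (h2 h h')).1 (ho ▸ h'')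
    rw [hg] at this
    exact Nat.eq_of_mul_eq_mul_left two_pos this
  · have := (hm.torus hx (h2 h h')).2 (ho ▸ h'')
    rw [hg] at this
    exact Nat.eq_of_mul_eq_mul_left two_pos this

end Cfsg.Agent.S2258
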