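import Cfsg.Statements.S2259
import Cfsg.Agent.Chev.SuzukiSol

set_option autoImplicit false
open Cfsg

namespace Cfsg.Agent.S2259

open Cfsg.Lib.Chev Cfsg.Lib.Chev.SzModel

section

variable {F : Type*} [Field F] [Fintype F] {m : ℕ} {hF : Fintype.card F = 2 ^ (2 * m + 1)}
  {G : Type*} [Group G] (M : SzModel (Tw.ofCard hF) G)

/-- The solubiliser. -/
def sol (x : G) : Set G :=
  {y | ∃ U, M.IsPart U ∧ x ∈ Subgroup.normalizer (U : Set G) ∧ y ∈ Subgroup.normalizer (U : Set G)}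

theorem card_eq (x : G) :
    Nat.card {y : G // Group.IsSolvable (Subgroup.closure ({x, y} : Set G))} = (sol M x).ncard := by
  rw [← Nat.card_coe_set_eq]
  refine Nat.card_congr (Equiv.subtypeEquivRight fun y => ?_)
  simp only [M.isSolvable_iff, Subgroup.closure_le, Set.insert_subset_iff, Set.singleton_subset_iff]
  rfl

theorem sol_two {p : M.Pt} {x : G} (hm : 1 ≤ m) (hx : x ∈ M.Pat p) (hx1 : x ≠ 1) :
    (sol M x).ncard = Fintype.card F ^ 2 * (Fintype.card F - 1) + (M.solSet p x (Fintype.card F - 1)).ncard +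
      (M.solSet p x (Fintype.card F + 2 ^ (m + 1) + 1)).ncard +
      (M.solSet p x (Fintype.card F - 2 ^ (m + 1) + 1)).ncard := by
  have := M.finite
  have hlt := sz_tori_lt hm
  have h4 : 4 ≤ 2 ^ (m + 1) := by
    calc 4 = 2 ^ 2 := rfl
      _ ≤ 2 ^ (m + 1) := Nat.pow_le_pow_right two_pos (by omega)
  rw [← hF] at hlt
  have h : sol M x = (MulAction.stabilizer G p : Set G) ∪ M.solSet p x (Fintype.card F - 1) ∪
      M.solSet p x (Fintype.card F + 2 ^ (m + 1) + 1) ∪ M.solSet p x (Fintype.card F - 2 ^ (m + 1) + 1) := by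
    ext y
    constructor
    · rintro ⟨U, hU, hxU, hyU⟩
      by_cases hy : y • p = p
      · exact Or.inl (Or.inl (Or.inl hy))
      rcases hU with ⟨p', rfl⟩ | ⟨a, b, hab, rfl⟩ | ⟨z, hz, rfl⟩
      · rw [M.normalizer_Pat] at hxU hyU
        obtain rfl := M.eq_of_mem_Pat hx1 hx hxU
        exact absurd hyU hy
      · exact Or.inl (Or.inl (Or.inr ⟨hy, _, Or.inl ⟨a, b, hab, rfl⟩, M.card_Hat hab, hxU, hyU⟩))
      · rcases hz.card_centralizer hF with h | h
        · exact Or.inl (Or.inr ⟨hy, _, Or.inr ⟨z, hz, rfl⟩, h, hxU, hyU⟩)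
        · exact Or.inr ⟨hy, _, Or.inr ⟨z, hz, rfl⟩, h, hxU, hyU⟩
    · rintro (((hy | ⟨-, V, hV, -, h⟩) | ⟨-, V, hV, -, h⟩) | ⟨-, V, hV, -, h⟩)
      · exact ⟨_, Or.inl ⟨p, rfl⟩, by rw [M.normalizer_Pat]; exact M.Pat_le_stabilizer p hx,
          by rw [M.normalizer_Pat]; exact hy⟩
      all_goals exact ⟨V, hV.isPart, h⟩
  have hd : ∀ u, Disjoint (MulAction.stabilizer G p : Set G) (M.solSet p x u) := fun u =>
    Set.disjoint_left.mpr fun y hy hy' => hy'.1 hy
  rw [h, Set.ncard_union_eq, Set.ncard_union_eq, Set.ncard_union_eq (hd _), ← Nat.card_coe_set_eq,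
    ← M.card_stabilizer p]
  · rfl
  · exact Set.disjoint_union_left.mpr ⟨hd _, disjoint_solSet hx hx1 (by omega)⟩
  · exact Set.disjoint_union_left.mpr ⟨Set.disjoint_union_left.mpr ⟨hd _, disjoint_solSet hx hx1 (by omega)⟩,
      disjoint_solSet hx hx1 (by omega)⟩

theorem ncard_solSet_fpf {p : M.Pt} {x z : G} (hx : x ∈ M.Pat p) (hx1 : x ≠ 1) (hz : M.Fpf z) :
    (M.solSet p x (Nat.card (Subgroup.centralizer ({z} : Set G)))).ncard =
      Nat.card (Subgroup.centralizer ({x} : Set G)) * (Nat.card (Subgroup.centralizer ({z} : Set G)) - 1) := by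
  have hU : M.IsTorus (Subgroup.centralizer ({z} : Set G)) := Or.inr ⟨z, hz, rfl⟩
  obtain ⟨k, hk⟩ : ∃ k, x ∈ Subgroup.normalizer
      ((Subgroup.centralizer ({z} : Set G)).map (MulAut.conj k).toMonoidHom : Set G) := by
    by_cases h2 : x ^ 2 = 1
    · exact hU.exists_invol hx1 h2
    · exact hz.exists_order_four h2 (M.mem_Pat.mp hx).2
  rw [← card_map_conj _ k]
  refine (hU.map_conj k).ncard_solSet hx hx1 hk (e := 2) ?_
  rw [map_conj_centralizer]
  exact (hz.conj k).card_normalizer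

theorem sol_invol (hm : 1 ≤ m) {x : G} (hx : orderOf x = 2) :
    (sol M x).ncard = Fintype.card F ^ 2 * (4 * Fintype.card F - 3) := by
  obtain ⟨h2, h1⟩ := (orderOf_eq_prime_iff (p := 2)).mp hx
  obtain ⟨p, hp⟩ := M.exists_mem_Zat_of_sq h2
  have hP := M.Zat_le_Pat p hp
  obtain ⟨g₁, g₂, hg₁, hg₂, hc₁, hc₂, -⟩ := M.exists_tori hF
  have h3 := ncard_solSet_fpf M hP h1 hg₁
  have h4 := ncard_solSet_fpf M hP h1 hg₂
  have hH : M.IsTorus (M.Hat M.inf (M.pt 0 0)) := Or.inl ⟨_, _, M.inf_ne_pt 0 0, rfl⟩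
  obtain ⟨k, hk⟩ := hH.exists_invol h1 h2
  have hne : k • M.inf ≠ k • M.pt 0 0 := fun h => M.inf_ne_pt 0 0 (smul_left_cancel k h)
  rw [← M.Hat_smul] at hk
  have h5 := IsTorus.ncard_solSet (Or.inl ⟨_, _, hne, rfl⟩) hP h1 hk (e := 1)
    (by rw [M.card_normalizer_Hat hne, M.card_Hat hne, pow_one])
  rw [M.centralizer_of_mem_Zat hp h1, M.card_Pat] at h3 h4 h5
  rw [hc₁] at h3
  rw [hc₂] at h4
  rw [M.card_Hat hne] at h5
  rw [sol_two M hm hP h1, h3, h4, h5, ← mul_add, ← mul_add, ← mul_add]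
  have hlt := sz_tori_lt hm
  have h8 := M.eight_le_card
  rw [← hF] at hlt
  congr 1
  omega

theorem sol_four (hm : 1 ≤ m) {x : G} (hx : orderOf x = 4) :
    (sol M x).ncard = Fintype.card F ^ 2 * (Fintype.card F + 3) := by
  have h4 : x ^ 2 ^ 2 = 1 := orderOf_dvd_iff_pow_eq_one.mp (by rw [hx]; norm_num)
  have h2 : x ^ 2 ≠ 1 := pow_ne_one_of_lt_orderOf two_ne_zero (by omega)
  have h1 : x ≠ 1 := fun h => h2 (by simp [h])
  obtain ⟨p, hP⟩ := M.exists_mem_Pat_of_pow h4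
  obtain ⟨g₁, g₂, hg₁, hg₂, hc₁, hc₂, -⟩ := M.exists_tori hF
  have h3 := ncard_solSet_fpf M hP h1 hg₁
  have h5 := ncard_solSet_fpf M hP h1 hg₂
  have h6 : M.solSet p x (Fintype.card F - 1) = ∅ := by
    rw [Set.eq_empty_iff_forall_notMem]
    rintro y ⟨-, V, hV, hc, hxV, -⟩
    obtain ⟨a, b, hab, rfl⟩ := M.eq_Hat_of_cyclic hV.isCyclic hc
    rcases (M.mem_normalizer_Hat hab).mp hxV with h | h
    · exact h1 (M.eq_one_of_mem_Hat_of_pow hab (M.mem_Hat.mpr h) h4)
    · exact h2 (by rw [sq, M.mul_self_of_swap hab h.1 h.2])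
  rw [M.card_centralizer_of_sq_ne_one hP h2] at h3 h5
  rw [hc₁] at h3
  rw [hc₂] at h5
  rw [sol_two M hm hP h1, h3, h5, h6, Set.ncard_empty, add_zero, add_assoc, ← mul_add]
  have hlt := sz_tori_lt hm
  have h8 := M.eight_le_card
  rw [← hF] at hlt
  rw [show Fintype.card F + 2 ^ (m + 1) + 1 - 1 + (Fintype.card F - 2 ^ (m + 1) + 1 - 1) = 2 * Fintype.card F by omega,
    show Fintype.card F + 3 = Fintype.card F - 1 + 4 by omega]
  ring

theorem sol_hat {x : G} (hx1 : x ≠ 1) (hx : orderOf x ∣ Fintype.card F - 1) :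
    (sol M x).ncard = 2 * Fintype.card F ^ 2 * (Fintype.card F - 1) := by
  have := M.finite
  obtain ⟨a, b, hab, hxH⟩ := M.mem_Hat_of_orderOf_dvd hx1 hx
  have hodd := (odd_sub_one (τ := Tw.ofCard hF)).of_dvd_nat hx
  have hH : M.IsTorus (M.Hat a b) := Or.inl ⟨a, b, hab, rfl⟩
  have h : sol M x = ((MulAction.stabilizer G a : Set G) ∪ (MulAction.stabilizer G b : Set G)) ∪
      ((Subgroup.normalizer (M.Hat a b : Set G) : Set G) \ M.Hat a b) := by
    ext y
    constructor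
    · rintro ⟨U, ⟨p, rfl⟩ | hU, hxU, hyU⟩
      · rw [M.normalizer_Pat] at hxU hyU
        rcases M.eq_or_eq_of_mem_Hat hab hxH hx1 hxU with rfl | rfl
        exacts [Or.inl (Or.inl hyU), Or.inl (Or.inr hyU)]
      · obtain rfl := hH.isPart.eq_of_mem (IsTorus.isPart hU) hx1 hxH (IsTorus.mem_of_odd hU hxU hodd)
        by_cases hy : y ∈ M.Hat a b
        · exact Or.inl (Or.inl hy.1)
        · exact Or.inr ⟨hyU, hy⟩
    · rintro ((hy | hy) | hy)
      · exact ⟨_, Or.inl ⟨a, rfl⟩, by rw [M.normalizer_Pat]; exact hxH.1, by rw [M.normalizer_Pat]; exact hy⟩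
      · exact ⟨_, Or.inl ⟨b, rfl⟩, by rw [M.normalizer_Pat]; exact hxH.2, by rw [M.normalizer_Pat]; exact hy⟩
      · exact ⟨_, hH.isPart, Subgroup.le_normalizer hxH, hy.1⟩
  have h1 := Set.ncard_union_add_ncard_inter (MulAction.stabilizer G a : Set G) (MulAction.stabilizer G b : Set G)
  have h2 : ∀ p : M.Pt, (MulAction.stabilizer G p : Set G).ncard = Fintype.card F ^ 2 * (Fintype.card F - 1) :=
    fun p => M.card_stabilizer p
  have h3 : (M.Hat a b : Set G).ncard = Fintype.card F - 1 := M.card_Hat hab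
  have h4 : ((MulAction.stabilizer G a : Set G) ∩ (MulAction.stabilizer G b : Set G)).ncard =
    Fintype.card F - 1 := h3
  have h5 : (Subgroup.normalizer (M.Hat a b : Set G) : Set G).ncard = 2 * (Fintype.card F - 1) :=
    M.card_normalizer_Hat hab
  rw [h, Set.ncard_union_eq, Set.ncard_sdiff Subgroup.le_normalizer, h3, h5]
  · rw [h2, h2, h4] at h1
    rw [mul_assoc]
    omega
  · rw [Set.disjoint_left]
    rintro y hy ⟨hy1, hy2⟩
    rcases (M.mem_normalizer_Hat hab).mp hy1 with h6 | h6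
    · exact hy2 (M.mem_Hat.mpr h6)
    · rcases hy with hy | hy
      · exact hab ((hy : y • a = a).symm.trans h6.1)
      · exact hab (h6.2.symm.trans (hy : y • b = b))

theorem sol_fpf {x : G} (hx : M.Fpf x) :
    (sol M x).ncard = 4 * Nat.card (Subgroup.centralizer ({x} : Set G)) := by
  have hodd := (odd_sq_add_one (τ := Tw.ofCard hF)).of_dvd_nat hx.orderOf_dvd
  have hC : M.IsTorus (Subgroup.centralizer ({x} : Set G)) := Or.inr ⟨x, hx, rfl⟩
  have hxC : x ∈ Subgroup.centralizer ({x} : Set G) := Subgroup.mem_centralizer_singleton_iff.mpr rfl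
  have h : sol M x = Subgroup.normalizer (Subgroup.centralizer ({x} : Set G) : Set G) := by
    ext y
    constructor
    · rintro ⟨U, ⟨p, rfl⟩ | hU, hxU, hyU⟩
      · rw [M.normalizer_Pat] at hxU
        exact absurd hxU (hx p)
      · rwa [hC.isPart.eq_of_mem (IsTorus.isPart hU) hx.ne_one hxC (IsTorus.mem_of_odd hU hxU hodd)]
    · intro hy
      exact ⟨_, hC.isPart, Subgroup.le_normalizer hxC, hy⟩
  rw [h]
  exact hx.card_normalizer

end

/-- Let G be the Suzuki group Sz(q), q = 2^(2m+1) with 2m + 1 prime and m ≥ 1, realised inside Sp_4(F) for F the field of order q, write r = 2^(m+1) (so r² = 2q), and for x ∈ G call the solubilizer of x the set of y ∈ G such that x and y generate a solvable subgroup. Then the solubilizer of an involution has q²(4q − 3) elements; that of an element of order 4 has q²(q + 3) elements; that of a non-identity element of order dividing q − 1 has 2q²(q − 1) elements; that of a non-identity element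 of order dividing q + r + 1 has 4(q + r + 1) elements; and that of a non-identity element of order dividing q − r + 1 has 4(q − r + 1) elements. -/
theorem result {F : Type*} [Field F] [Fintype F] {m : ℕ} (hm : 1 ≤ m)
    (hp : (2 * m + 1).Prime) (hF : Fintype.card F = 2 ^ (2 * m + 1)) (x : ↥(Cfsg.Lie.Sz F (2 ^ (m + 1)))) :
    (orderOf x = 2 → Nat.card {y : ↥(Cfsg.Lie.Sz F (2 ^ (m + 1))) // Group.IsSolvable ↥(Subgroup.closure ({x, y} : Set (↥(Cfsg.Lie.Sz F (2 ^ (m + 1))))))} = (2 ^ (2 * m + 1)) ^ 2 * (4 * 2 ^ (2 * m + 1) - 3)) ∧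
    (orderOf x = 4 → Nat.card {y : ↥(Cfsg.Lie.Sz F (2 ^ (m + 1))) // Group.IsSolvable ↥(Subgroup.closure ({x, y} : Set (↥(Cfsg.Lie.Sz F (2 ^ (m + 1))))))} = (2 ^ (2 * m + 1)) ^ 2 * (2 ^ (2 * m + 1) + 3)) ∧
    (x ≠ 1 → orderOf x ∣ 2 ^ (2 * m + 1) - 1 →
      Nat.card {y : ↥(Cfsg.Lie.Sz F (2 ^ (m + 1))) // Group.IsSolvable ↥(Subgroup.closure ({x, y} : Set (↥(Cfsg.Lie.Sz F (2 ^ (m + 1))))))} = 2 * (2 ^ (2 * m + 1)) ^ 2 * (2 ^ (2 * m + 1) - 1)) ∧
    (x ≠ 1 → orderOf x ∣ 2 ^ (2 * m + 1) + 2 ^ (m + 1) + 1 → Nat.card {y : ↥(Cfsg.Lie.Sz F (2 ^ (m + 1))) // Group.IsSolvable ↥(Subgroup.closure ({x, y} : Set (↥(Cfsg.Lie.Sz F (2 ^ (m + 1))))))} = 4 * (2 ^ (2 * m + 1) + 2 ^ (m + 1) + 1)) ∧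
    (x ≠ 1 → orderOf x ∣ 2 ^ (2 * m + 1) - 2 ^ (m + 1) + 1 → Nat.card {y : ↥(Cfsg.Lie.Sz F (2 ^ (m + 1))) // Group.IsSolvable ↥(Subgroup.closure ({x, y} : Set (↥(Cfsg.Lie.Sz F (2 ^ (m + 1))))))} = 4 * (2 ^ (2 * m + 1) - 2 ^ (m + 1) + 1)) := by
  let M := lieSzModel hm hF
  have := M.finite
  rw [card_eq M]
  have hmul := sz_tori_mul (m := m)
  have hcop := sz_tori_coprime hm
  refine ⟨fun h => hF ▸ sol_invol M hm h, fun h => hF ▸ sol_four M hm h,
    fun h1 h => hF ▸ sol_hat M h1 (hF ▸ h), fun h1 h => ?_, fun h1 h => ?_⟩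
  · have hx := M.fpf_of_orderOf_dvd h1 (by rw [hF, ← hmul]; exact h.mul_right _)
    rw [sol_fpf M hx]
    rcases hx.card_centralizer hF with h2 | h2
    · rw [h2, hF]
    · have h3 := Subgroup.orderOf_dvd_natCard _ (Subgroup.mem_centralizer_singleton_iff.mpr (rfl : x * x = x * x))
      rw [h2, hF] at h3
      exact absurd (orderOf_eq_one_iff.mp (Nat.eq_one_of_dvd_coprimes hcop h h3)) h1
  · have hx := M.fpf_of_orderOf_dvd h1 (by rw [hF, ← hmul]; exact h.mul_left _)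
    rw [sol_fpf M hx]
    rcases hx.card_centralizer hF with h2 | h2
    · have h3 := Subgroup.orderOf_dvd_natCard _ (Subgroup.mem_centralizer_singleton_iff.mpr (rfl : x * x = x * x))
      rw [h2, hF] at h3
      exact absurd (orderOf_eq_one_iff.mp (Nat.eq_one_of_dvd_coprimes hcop h3 h)) h1
    · rw [h2, hF]

end Cfsg.Agent.S2259
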