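import Cfsg.Statements.S2268
import Cfsg.Agent.Fus.SylowIn

set_option autoImplicit false
open Cfsg

namespace Cfsg.Agent.S2268

/-- Let G be a finite group with an abelian Sylow p-subgroup P and let Q ≤ P. Then N_G(Q) = (N_G(Q) ∩ N_G(P))·C_G(Q), so that N_G(Q)/C_G(Q) is a homomorphic image of the subgroup (N_G(Q) ∩ N_G(P))/C_G(P) of N_G(P)/C_G(P); in particular the order of N_G(Q)/C_G(Q) divides the order of N_G(P)/C_G(P). -/
theorem result {G : Type*} [Group G] [Finite G] {p : ℕ} [Fact p.Prime]
    (P : Sylow p G) (hP : IsMulCommutative (P : Subgroup G)) (Q : Subgroup G) (hQ : Q ≤ (P : Subgroup G)) :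
    Subgroup.normalizer (Q : Set G) =
      (Subgroup.normalizer (Q : Set G) ⊓ Subgroup.normalizer ((P : Subgroup G) : Set G)) ⊔ Subgroup.centralizer (Q : Set G) ∧
    ((Subgroup.centralizer (Q : Set G)).subgroupOf (Subgroup.normalizer (Q : Set G))).index ∣ ((Subgroup.centralizer ((P : Subgroup G) : Set G)).subgroupOf (Subgroup.normalizer ((P : Subgroup G) : Set G))).index := by
  have hPC : (P : Subgroup G) ≤ Subgroup.centralizer (Q : Set G) := fun x hx y hy =>
    congrArg Subtype.val (hP.is_comm.comm (⟨y, hQ hy⟩ : (P : Subgroup G)) ⟨x, hx⟩)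
  have hCN := Subgroup.centralizer_le_normalizer (Q : Set G)
  have h1 : Subgroup.normalizer (Q : Set G) = (Subgroup.normalizer (Q : Set G) ⊓
      Subgroup.normalizer ((P : Subgroup G) : Set G)) ⊔ Subgroup.centralizer (Q : Set G) := by
    refine le_antisymm (fun g hg => ?_) (sup_le inf_le_left hCN)
    obtain ⟨k, hk, h⟩ := ((Lib.Fus.isSylowIn_top P).mono hPC le_top).frattini (g := g)
      ((Subgroup.normal_subgroupOf_iff_le_normalizer hCN).1 inferInstance hg)
    have := mul_mem (Subgroup.mem_sup_right (inv_mem hk)) (Subgroup.mem_sup_left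
      (show k * g ∈ Subgroup.normalizer (Q : Set G) ⊓ _ from ⟨mul_mem (hCN hk) hg, h⟩))
    rw [sup_comm]
    simpa [sup_comm] using this
  refine ⟨h1, ?_⟩
  rw [← Subgroup.relIndex_top_right, ← Subgroup.subgroupOf_self, congrArg
    (fun X : Subgroup G => X.subgroupOf (Subgroup.normalizer (Q : Set G))) h1,
    Subgroup.subgroupOf_sup inf_le_left hCN, Subgroup.relIndex_sup_right,
    Subgroup.relIndex_subgroupOf inf_le_left]
  refine (Subgroup.relIndex_dvd_of_le_left _ (Subgroup.centralizer_le hQ)).trans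
    (dvd_of_mul_right_eq _ (Subgroup.relIndex_mul_relIndex _ _ _ (le_inf
      ((Subgroup.centralizer_le hQ).trans hCN) (Subgroup.centralizer_le_normalizer _))
      inf_le_right))

end Cfsg.Agent.S2268
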