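import Cfsg.Statements.S2269
import Cfsg.Agent.Known.SymSylowAb
import Cfsg.Agent.Local.InvolCount

set_option autoImplicit false
open Cfsg

namespace Cfsg.Agent.S2269

open Cfsg.Lib.Known

/-- Let n ≥ 5 and let P be an abelian Sylow p-subgroup of the alternating group A_n. Then N(P)/C(P) (taken in A_n) has even order, or P is cyclic, except when n = 5 and p = 2, where P is a four-group and N(P)/C(P) has order 3. -/
theorem result (n : ℕ) (hn : 5 ≤ n) {p : ℕ} [Fact p.Prime]
    (P : Sylow p (alternatingGroup (Fin n))) (hP : IsMulCommutative (P : Subgroup (alternatingGroup (Fin n)))) :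
    (¬ (n = 5 ∧ p = 2) → 2 ∣ ((Subgroup.centralizer ((P : Subgroup (alternatingGroup (Fin n))) : Set (alternatingGroup (Fin n)))).subgroupOf (Subgroup.normalizer ((P : Subgroup (alternatingGroup (Fin n))) : Set (alternatingGroup (Fin n))))).index ∨ IsCyclic (P : Subgroup (alternatingGroup (Fin n)))) ∧
    ((n = 5 ∧ p = 2) → ((Subgroup.centralizer ((P : Subgroup (alternatingGroup (Fin n))) : Set (alternatingGroup (Fin n)))).subgroupOf (Subgroup.normalizer ((P : Subgroup (alternatingGroup (Fin n))) : Set (alternatingGroup (Fin n))))).index = 3 ∧ IsKleinFour (P : Subgroup (alternatingGroup (Fin n)))) := by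
  have hp' : p.Prime := Fact.out
  constructor
  · intro h
    have hp : p ≠ 2 := by
      rintro rfl
      exact not_comm_sylow_two_alt (by omega) P hP
    by_cases hpn : p + 2 ≤ n
    · left
      obtain ⟨x, hx⟩ := (exists_alt_cycleType_iff (α := Fin n) {p}).2 ⟨by simp; omega,
        by simpa using hp'.two_le, by simpa using (hp'.odd_of_ne_two hp).add_one⟩
      have h1 : orderOf x = p ^ 1 := by
        rw [← Subgroup.orderOf_coe, ← Equiv.Perm.lcm_cycleType, hx]; simp
      refine two_dvd_index_of_isConj_inv P h1 (fun h => hp ?_) (alternatingGroup.isConj_of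
        (Equiv.Perm.isConj_iff_cycleType_eq.2 (Equiv.Perm.cycleType_inv _).symm) ?_)
      · rw [← sq, ← orderOf_dvd_iff_pow_eq_one, h1, pow_one] at h
        exact (Nat.prime_dvd_prime_iff_eq hp' Nat.prime_two).1 h
      · rw [← Equiv.Perm.sum_cycleType, hx]
        simpa using hpn
    · right
      have h1 := card_sylow_alt_of_ne_two hp P
      rw [Fintype.card_fin, factorization_factorial_of_lt_sq hp' (by nlinarith)] at h1
      have h2 : n / p < 2 := (Nat.div_lt_iff_lt_mul hp'.pos).2 (by omega)
      rcases Nat.le_one_iff_eq_zero_or_eq_one.1 (Nat.lt_succ_iff.1 h2) with h3 | h3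
      · rw [h3, pow_zero] at h1
        have := (Nat.card_eq_one_iff_unique.1 h1).1
        infer_instance
      · rw [h3, pow_one] at h1
        exact isCyclic_of_prime_card h1
  · rintro ⟨rfl, rfl⟩
    have := alternatingGroup.isSimpleGroup (α := Fin 5) (by simp)
    have hc : Nat.card (alternatingGroup (Fin 5)) = 2 ^ 2 * 15 := by
      rw [nat_card_alternatingGroup]; simp [Nat.factorial]
    have h1 : Nat.card (P : Subgroup (alternatingGroup (Fin 5))) = 4 :=
      SC.sylow_card_eq_pow P hc (by norm_num)
    have hbot : (P : Subgroup (alternatingGroup (Fin 5))) ≠ ⊥ := fun e => by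
      rw [e, Subgroup.card_bot] at h1; omega
    have htop : (P : Subgroup (alternatingGroup (Fin 5))) ≠ ⊤ := fun e => by
      rw [e, Subgroup.card_top] at h1; omega
    constructor
    · have h2 := SC.card_sylow_dvd hc (by norm_num)
      have h3 := SC.card_sylow_ne_one P hbot htop
      have h4 := SC.card_normalizer_mul_card_sylow P
      have h5 := SC.card_normalizer_eq_mul (P : Subgroup (alternatingGroup (Fin 5)))
      have h7 := SC.relIndex_centralizer_ne_one P hbot htop
      have h8 := Subgroup.card_dvd_of_le (P : Subgroup (alternatingGroup (Fin 5))).le_centralizer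
      have h9 := Cfsg.Lib.Local.card_dvd_factorial_index (H := Subgroup.normalizer
        ((P : Subgroup (alternatingGroup (Fin 5))) : Set (alternatingGroup (Fin 5)))) (fun e => by
          rw [e, Subgroup.card_top, hc] at h4; omega)
      rw [Sylow.coe_coe, ← P.card_eq_index_normalizer, hc] at h9
      rw [h5, hc] at h4
      rw [h1] at h8
      obtain ⟨m, hm⟩ := h8
      change Subgroup.relIndex _ _ = 3
      have e := Nat.le_of_dvd (by norm_num) h2
      rw [hm] at h4
      generalize Subgroup.relIndex (G := alternatingGroup (Fin 5)) _ _ = r at *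
      generalize Nat.card (Sylow 2 (alternatingGroup (Fin 5))) = s at *
      have e1 : s = 5 ∨ s = 15 := by
        interval_cases s <;> simp [Nat.factorial] at h2 h3 h9 ⊢
      have e2 : m * r = 3 ∨ m * r = 1 := by
        rw [mul_assoc 4] at h4
        rcases e1 with rfl | rfl <;> omega
      rcases e2 with e2 | e2
      · exact (Nat.prime_three.eq_one_or_self_of_dvd r (Dvd.intro_left _ e2)).resolve_left h7
      · exact absurd (Nat.eq_one_of_mul_eq_one_left e2) h7
    · have : Nontrivial (P : Subgroup (alternatingGroup (Fin 5))) :=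
        (Subgroup.nontrivial_iff_ne_bot _).2 hbot
      refine ⟨h1, (Monoid.exponent_eq_prime_iff Nat.prime_two).2 fun g hg => orderOf_eq_prime ?_ hg⟩
      have h2 : g ^ 4 = 1 := h1 ▸ pow_card_eq_one'
      have key : ∀ a : Equiv.Perm (Fin 5), Equiv.Perm.sign a = 1 → a ^ 4 = 1 → a ^ 2 = 1 := by
        decide +kernel
      exact Subtype.ext (Subtype.ext (key g.1.1 g.1.2 (congrArg (fun x => x.1.1) h2)))

end Cfsg.Agent.S2269
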