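import Cfsg.Statements.S2270
import Cfsg.Agent.Known.SymSylowAb

set_option autoImplicit false
open Cfsg

namespace Cfsg.Agent.S2270

open Cfsg.Lib.Known

/-- Let n ≥ 3, p an odd prime, and P an abelian Sylow p-subgroup of the symmetric group S_n (with p dividing n!, so that P ≠ 1). Then N(P)/C(P) has even order. -/
theorem result (n : ℕ) (hn : 3 ≤ n) {p : ℕ} [Fact p.Prime] (hp : p ≠ 2) (hpn : p ≤ n)
    (P : Sylow p (Equiv.Perm (Fin n))) (hP : IsMulCommutative (P : Subgroup (Equiv.Perm (Fin n)))) :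
    2 ∣ ((Subgroup.centralizer ((P : Subgroup (Equiv.Perm (Fin n))) : Set (Equiv.Perm (Fin n)))).subgroupOf (Subgroup.normalizer ((P : Subgroup (Equiv.Perm (Fin n))) : Set (Equiv.Perm (Fin n))))).index := by
  have hp' : p.Prime := Fact.out
  obtain ⟨x, hx⟩ := exists_isCycle_of_le (α := Fin n) hp'.two_le (by simpa using hpn)
  have h1 : orderOf x = p ^ 1 := by rw [← Equiv.Perm.lcm_cycleType, hx]; simp
  refine two_dvd_index_of_isConj_inv P h1 (fun h => hp ?_)
    (Equiv.Perm.isConj_iff_cycleType_eq.2 (Equiv.Perm.cycleType_inv x).symm)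
  rw [← sq, ← orderOf_dvd_iff_pow_eq_one, h1, pow_one] at h
  exact (Nat.prime_dvd_prime_iff_eq hp' Nat.prime_two).1 h

end Cfsg.Agent.S2270
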