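import Cfsg.Statements.S2279
import Cfsg.Agent.Known.RUTwo

set_option autoImplicit false
open Cfsg

namespace Cfsg.Agent.S2279

open Cfsg.Lib.Known.RU Cfsg.Lib.Class

/-- Let F be a finite field with q elements and n ≥ 4. Then SL_n(F) is generated by two regular unipotent elements (elements u with u − 1 nilpotent and (u − 1)^(n−1) ≠ 0); if q is prime, the two can be taken conjugate in SL_n(F). -/
theorem result {F : Type*} [Field F] [Fintype F] (n : ℕ) (hn : 4 ≤ n) :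
    (∃ u v : Matrix.SpecialLinearGroup (Fin n) F, (IsNilpotent ((u : Matrix (Fin n) (Fin n) F) - 1) ∧ ((u : Matrix (Fin n) (Fin n) F) - 1) ^ (n - 1) ≠ 0) ∧ (IsNilpotent ((v : Matrix (Fin n) (Fin n) F) - 1) ∧ ((v : Matrix (Fin n) (Fin n) F) - 1) ^ (n - 1) ≠ 0) ∧
      Subgroup.closure ({u, v} : Set (Matrix.SpecialLinearGroup (Fin n) F)) = ⊤) ∧
    ((Fintype.card F).Prime → ∃ u g : Matrix.SpecialLinearGroup (Fin n) F, (IsNilpotent ((u : Matrix (Fin n) (Fin n) F) - 1) ∧ ((u : Matrix (Fin n) (Fin n) F) - 1) ^ (n - 1) ≠ 0) ∧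
      Subgroup.closure ({u, g * u * g⁻¹} : Set (Matrix.SpecialLinearGroup (Fin n) F)) = ⊤) := by
  obtain ⟨h, hh, H⟩ := two_gen (F := F) hn
  have r := reg_uJ (F := F) (n := n) (by omega)
  constructor
  · obtain ⟨v, hv⟩ := exists_toLin' (g := h * uJ F n * h⁻¹)
      ((inferInstance : (SLV F (Fin n → F)).Normal).conj_mem _ uJ_mem h)
    refine ⟨Um F n, v, (reg_toLin'_iff n _).1 r, (reg_toLin'_iff n _).1 (hv ▸ r.conj h),
      eq_top_of_SLV_le _ (H _ ?_ ?_)⟩
    · exact ⟨_, Subgroup.subset_closure (by simp), rfl⟩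
    · exact ⟨v, Subgroup.subset_closure (by simp), hv⟩
  · intro hp
    obtain ⟨G, rfl⟩ := exists_toLin' (hh hp)
    refine ⟨Um F n, G, (reg_toLin'_iff n _).1 r, eq_top_of_SLV_le _ (H _ ?_ ?_)⟩
    · exact ⟨_, Subgroup.subset_closure (by simp), rfl⟩
    · exact ⟨G * Um F n * G⁻¹, Subgroup.subset_closure (by simp), by simp [uJ]⟩

end Cfsg.Agent.S2279
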