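import Cfsg.Statements.S2281
import Cfsg.Agent.Known.RUSp

set_option autoImplicit false
open Cfsg

namespace Cfsg.Agent.S2281

open Cfsg.Lib.Known.RU Cfsg.Lib.Class Matrix

/-- Let F be a finite field and n ≥ 2, excluding the case n = 2 with F of two elements (where the group is not quasisimple). Then the symplectic group Sp_2n(F) is generated by three conjugate regular unipotent elements: there are u ∈ Sp_2n(F) with u − 1 nilpotent and (u − 1)^(2n−1) ≠ 0, and g, h ∈ Sp_2n(F), such that u, g u g⁻¹ and h u h⁻¹ generate Sp_2n(F). -/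
theorem result {F : Type*} [Field F] [Fintype F] (n : ℕ) (hn : 2 ≤ n) (h22 : ¬ (n = 2 ∧ Fintype.card F = 2)) :
    ∃ u g h : Matrix.symplecticGroup (Fin n) F,
      IsNilpotent ((u : Matrix (Fin n ⊕ Fin n) (Fin n ⊕ Fin n) F) - 1) ∧
      ((u : Matrix (Fin n ⊕ Fin n) (Fin n ⊕ Fin n) F) - 1) ^ (2 * n - 1) ≠ 0 ∧
      Subgroup.closure ({u, g * u * g⁻¹, h * u * h⁻¹} : Set (Matrix.symplecticGroup (Fin n) F)) = ⊤ := by
  obtain ⟨g, hg, h, hh, H⟩ := sp_three_gen (F := F) hn h22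
  obtain ⟨e, he⟩ := exists_equiv_sympForm (spB_nondeg (F := F) (n := n)) spB_alt (m := n) (by simp)
  let Φ : Matrix.symplecticGroup (Fin n) F ≃* SpB (spB F n) :=
    (spEquivIsom n F).trans (isomCongr e he)
  have hΦ : ∀ A z, (Φ A : _ ≃ₗ[F] _) (e z) = e (A.1 *ᵥ z) := fun A z => by simp [Φ]
  obtain ⟨u, hu⟩ := Φ.surjective ⟨_, uJ_mem_SpB⟩
  obtain ⟨g', hg'⟩ := Φ.surjective ⟨g, hg⟩
  obtain ⟨h', hh'⟩ := Φ.surjective ⟨h, hh⟩
  have r := reg_of_intertwine e (hΦ u) (k := 2 * n) (by rw [hu]; exact reg_uJ (by omega))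
  refine ⟨u, g', h', r.1, r.2, eq_top_iff.2 fun A _ => ?_⟩
  obtain ⟨A', hA', e'⟩ := H ((Subgroup.closure {u, g' * u * g'⁻¹, h' * u * h'⁻¹}).map
    ((SpB (spB F n)).subtype.comp Φ.toMonoidHom)) (by
      rintro _ ⟨A, -, rfl⟩
      exact (Φ A).2) ⟨u, Subgroup.subset_closure (by simp), by simp [hu]⟩
    ⟨g' * u * g'⁻¹, Subgroup.subset_closure (by simp), by simp [hu, hg']⟩
    ⟨h' * u * h'⁻¹, Subgroup.subset_closure (by simp), by simp [hu, hh']⟩ (Φ A).2
  rwa [← Φ.injective (Subtype.ext e')]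

end Cfsg.Agent.S2281
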