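import Cfsg.Statements.S2286
import Cfsg.Agent.Known.PresSL2

set_option autoImplicit false
open Cfsg

namespace Cfsg.Agent.S2286

/-- For every finite field F, SL_2(F) and PSL_2(F) have presentations with 3 generators and at most 9 relations; when F has characteristic 2, PSL_2(F) has a presentation with 3 generators and at most 5 relations. -/
theorem result {F : Type*} [Field F] [Fintype F] :
    (∃ rels : Finset (FreeGroup (Fin 3)), rels.card ≤ 9 ∧ Nonempty (PresentedGroup (↑rels : Set (FreeGroup (Fin 3))) ≃* Matrix.SpecialLinearGroup (Fin 2) F)) ∧ (∃ rels : Finset (FreeGroup (Fin 3)), rels.card ≤ 9 ∧ Nonempty (PresentedGroup (↑rels : Set (FreeGroup (Fin 3))) ≃* Matrix.ProjectiveSpecialLinearGroup (Fin 2) F)) ∧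
    (CharP F 2 → ∃ rels : Finset (FreeGroup (Fin 3)), rels.card ≤ 5 ∧ Nonempty (PresentedGroup (↑rels : Set (FreeGroup (Fin 3))) ≃* Matrix.ProjectiveSpecialLinearGroup (Fin 2) F)) := by
  have := Cfsg.Lib.Known.isCyclic_center_SL (n := Fin 2) (F := F)
  refine ⟨(Cfsg.Lib.Known.hasPres_SL2.mono (by omega)).out,
    (Cfsg.Lib.Known.hasPres_SL2.quotient _).out, fun h => ?_⟩
  have hc : Subgroup.center (Matrix.SpecialLinearGroup (Fin 2) F) = ⊥ := by
    rw [eq_bot_iff]
    intro A hA
    obtain ⟨r, h1, h2⟩ := Matrix.SpecialLinearGroup.mem_center_iff.1 hA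
    have h3 : r = 1 := by
      rw [Fintype.card_fin] at h1
      rcases sq_eq_one_iff.1 h1 with h | h
      · exact h
      · rw [h, CharTwo.neg_eq]
    rw [Subgroup.mem_bot]
    apply Subtype.ext
    change A.1 = 1
    rw [← h2, h3, map_one]
  exact ((Cfsg.Lib.Known.hasPres_SL2_small (Or.inl (ringChar.eq F 2))).of_equiv
    (QuotientGroup.quotientBot.symm.trans (QuotientGroup.quotientMulEquivOfEq hc.symm))).out

end Cfsg.Agent.S2286
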