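import Cfsg.Statements.S2292
import Cfsg.Agent.Known.GenSp

set_option autoImplicit false
open Cfsg

namespace Cfsg.Agent.S2292

/-- Let F be a finite field with q elements and m ≥ 2 with (m, q) ≠ (2, 2). Then the simple group PSp_2m(F) has a presentation with 2 generators and at most 80 relations. -/
theorem result {F : Type*} [Field F] [Fintype F] (m : ℕ) (hm : 2 ≤ m) (h22 : ¬ (m = 2 ∧ Fintype.card F = 2)) :
    ∃ rels : Finset (FreeGroup (Fin 2)), rels.card ≤ 80 ∧ Nonempty (PresentedGroup (↑rels : Set (FreeGroup (Fin 2))) ≃* Cfsg.PSp m F) := by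
  have := Lib.Known.isCyclic_center_Sp (F := F) m
  obtain ⟨a, b, hab⟩ := Lib.Known.exists_two_gen_Sp (F := F) m hm fun h =>
    lt_of_le_of_ne Fintype.one_lt_card fun e => h22 ⟨h, e.symm⟩
  obtain ⟨m, rfl⟩ := Nat.exists_eq_add_of_le' hm
  have h : Lib.Known.HasPres (Matrix.symplecticGroup (Fin (m + 2)) F) 2 79 := by
    rcases m with _ | m
    · exact ((Lib.Known.hasPres_Sp_of Lib.Known.hasPres_SL2).two hab).mono (by omega)
    · exact ((Lib.Known.hasPres_Sp_of (Lib.Known.hasPres_SL m)).two hab).mono (by omega)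
  exact (h.quotient _).out

end Cfsg.Agent.S2292
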