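import Cfsg.Statements.S2294
import Cfsg.Agent.Known.PresSUn
import Cfsg.Agent.Known.PresSU4
import Cfsg.Agent.S0281
import Cfsg.Agent.Class.FieldIso

set_option autoImplicit false
open Cfsg

namespace Cfsg.Agent.S2294

open Lib.Known Lib.Class Lib.Chev Subgroup

theorem two_gen_map {G H : Type*} [Group G] [Group H] (e : G ≃* H) {a b : G} (h : closure {a, b} = ⊤) :
    closure {e a, e b} = ⊤ := by
  rw [← Set.image_pair, ← MulEquiv.coe_toMonoidHom, ← MonoidHom.map_closure, h, map_top_of_surjective _ e.surjective]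

theorem five {F : Type*} [Field F] [Fintype F] {q : ℕ} (hF : Fintype.card F = q ^ 2) {n r : ℕ} (hn : 5 ≤ n)
    (hA : HasPres (alternatingGroup (Fin n)) 2 r) : HasPres (SU n F q) 6 (30 + r) := by
  have := Fact.mk hF
  have hq := Lib.Phan.two_le_q F q
  obtain ⟨y₁, y₂, hy⟩ : ∃ a b : SU 2 F q, closure {a, b} = ⊤ := by
    obtain ⟨p, _, n, hp, hn⟩ := FiniteField.card' F
    obtain ⟨k, -, rfl⟩ := (Nat.dvd_prime_pow hp).1 (hn ▸ hF ▸ dvd_pow_self q two_ne_zero)
    have : Fact p.Prime := ⟨hp⟩
    let := Fintype.ofFinite (GaloisField p k)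
    obtain ⟨e⟩ := S0281.result hF (K := GaloisField p k) (by
      rw [← Nat.card_eq_fintype_card, GaloisField.card p k (by rintro rfl; simp at hq)])
    obtain ⟨a, b, h⟩ := exists_two_gen_SL (F := GaloisField p k) 0
    exact ⟨_, _, two_gen_map e.symm h⟩
  obtain rfl | rfl | h : q = 2 ∨ q = 3 ∨ 4 ≤ q := by omega
  · obtain ⟨e⟩ := nonempty_ringEquiv_GF4 hF
    exact (hasPres_SU_glue (.inr rfl) (by omega) (.inl le_rfl) (fun _ => rfl) (by omega) hn
      (hasPres_SU42.of_equiv (suEquiv 4 2 e).symm) hA (hasPres_alt_two 4) (two_gen_map (suEquiv 3 2 e).symm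
        (su32_top (Fin.forall_fin_two.2 ⟨subset_closure (.inl rfl), subset_closure (.inr rfl)⟩))) hy).le
      (by omega) (by omega)
  · obtain ⟨e⟩ := nonempty_ringEquiv_GF9 hF
    exact (hasPres_SU_glue (.inl rfl) (by omega) (.inl le_rfl) (by omega) (by omega) (by omega)
      (hasPres_SU43.of_equiv (suEquiv 4 3 e).symm) hA (hasPres_alt_two 4) hy hy).mono (by omega)
  · have : IsCyclic (alternatingGroup (Fin 3)) := alternatingGroup.isCyclic_of_card_le_three (by simp)
    exact (hasPres_SU_glue (.inl rfl) (by omega) (.inr ⟨rfl, h⟩) (by omega) (by omega) (by omega)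
      ((hasPres_SU3 hF (by omega)).of_equiv (nonempty_suF_equiv hF 2).some) hA (hasPres_of_isCyclic _) hy hy).mono
      (by omega)


/-- Let F be a field with q² elements and n ≥ 4, and SU_n(q), PSU_n(q) the special unitary group of the standard Hermitian form and its central quotient. Then SU_n(q) has a presentation with 6 generators and at most 39 relations and PSU_n(q) one with 6 generators and at most 40 relations; moreover SU_4(q) and SU_5(q) have presentations with 6 generators and at most 35 relations, and PSU_4(q) one with 6 generators and at most 36 relations. -/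
theorem result {F : Type*} [Field F] [Fintype F] (q : ℕ) (hF : Fintype.card F = q ^ 2) (n : ℕ) (hn : 4 ≤ n) :
    (∃ rels : Finset (FreeGroup (Fin 6)), rels.card ≤ 39 ∧ Nonempty (PresentedGroup (↑rels : Set (FreeGroup (Fin 6))) ≃* ↥(Cfsg.SU n F q))) ∧ (∃ rels : Finset (FreeGroup (Fin 6)), rels.card ≤ 40 ∧ Nonempty (PresentedGroup (↑rels : Set (FreeGroup (Fin 6))) ≃* Cfsg.PSU n F q)) ∧
    (∃ rels : Finset (FreeGroup (Fin 6)), rels.card ≤ 35 ∧ Nonempty (PresentedGroup (↑rels : Set (FreeGroup (Fin 6))) ≃* ↥(Cfsg.SU 4 F q))) ∧ (∃ rels : Finset (FreeGroup (Fin 6)), rels.card ≤ 35 ∧ Nonempty (PresentedGroup (↑rels : Set (FreeGroup (Fin 6))) ≃* ↥(Cfsg.SU 5 F q))) ∧ (∃ rels : Finset (FreeGroup (Fin 6)), rels.card ≤ 36 ∧ Nonempty (PresentedGroup (↑rels : Set (FreeGroup (Fin 6))) ≃* Cfsg.PSU 4 F q)) := by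
  have h4 : HasPres (SU 4 F q) 6 35 :=
    (hasPres_SU_even (m := 0) (frobq_ne_id hF) (frobq_frobq hF) hasPres_SL2 ((le_antisymm (RGD.Twist.G1_le_F _)
      (suTw_F_le hF (by omega))).trans (Subgroup.ext fun _ => (mem_suTw_F _ _).trans mem_suF.symm))).of_equiv
        (nonempty_suF_equiv hF 3).some
  have h : HasPres (SU n F q) 6 39 := by
    obtain rfl | h : n = 4 ∨ 5 ≤ n := by omega
    exacts [h4.mono (by omega), (five hF h (hasPres_alt_two n)).mono (by omega)]
  have := isCyclic_center_SU hF (n := n) (by omega)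
  have := isCyclic_center_SU hF (n := 4) (by omega)
  exact ⟨h.out, (h.quotient _).out, h4.out, (five hF le_rfl (hasPres_alt_small (by omega))).out, (h4.quotient _).out⟩

end Cfsg.Agent.S2294
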