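import Cfsg.Statements.S2295
import Cfsg.Agent.Known.PresOmega

set_option autoImplicit false
open Cfsg

namespace Cfsg.Agent.S2295

/-- Let F be a finite field and n ≥ 4, and let Ω⁺_2n(F) be the commutator subgroup of the orthogonal group of the hyperbolic quadratic form Σ x_i y_i, with PΩ⁺_2n(F) its central quotient. Then Ω⁺_2n(F) has a presentation with 8 generators and at most 31 relations (at most 29 if n = 4 or 5), and PΩ⁺_2n(F) one with 8 generators and at most 32 relations (at most 30 if n = 4 or 5). -/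
theorem result {F : Type*} [Field F] [Fintype F] (n : ℕ) (hn : 4 ≤ n) :
    (∃ rels : Finset (FreeGroup (Fin 8)), rels.card ≤ 31 ∧ Nonempty (PresentedGroup (↑rels : Set (FreeGroup (Fin 8))) ≃* ↥(Cfsg.Omega F (Cfsg.quadFormPlus n F)))) ∧ (∃ rels : Finset (FreeGroup (Fin 8)), rels.card ≤ 32 ∧ Nonempty (PresentedGroup (↑rels : Set (FreeGroup (Fin 8))) ≃* Cfsg.POmega F (Cfsg.quadFormPlus n F))) ∧
    (n ≤ 5 → (∃ rels : Finset (FreeGroup (Fin 8)), rels.card ≤ 29 ∧ Nonempty (PresentedGroup (↑rels : Set (FreeGroup (Fin 8))) ≃* ↥(Cfsg.Omega F (Cfsg.quadFormPlus n F)))) ∧ (∃ rels : Finset (FreeGroup (Fin 8)), rels.card ≤ 30 ∧ Nonempty (PresentedGroup (↑rels : Set (FreeGroup (Fin 8))) ≃* Cfsg.POmega F (Cfsg.quadFormPlus n F)))) := by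
  have := Lib.Known.isCyclic_center_omegaPlus (F := F) hn
  have h2 : n ≤ 5 → Lib.Known.HasPres (Cfsg.Omega F (Cfsg.quadFormPlus n F)) 8 29 := fun h => by
    obtain rfl | rfl : n = 4 ∨ n = 5 := by omega
    · exact (Lib.Known.hasPres_omegaPlus_of hn Lib.Known.hasPres_SL4).le (by omega) (by simp)
    · exact (Lib.Known.hasPres_omegaPlus_of hn Lib.Known.hasPres_SL5).le (by omega) (by simp)
  have h1 : Lib.Known.HasPres (Cfsg.Omega F (Cfsg.quadFormPlus n F)) 8 31 := by
    by_cases h : n ≤ 5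
    · exact (h2 h).mono (by omega)
    obtain ⟨n, rfl⟩ : ∃ m, n = m + 3 := ⟨n - 3, by omega⟩
    exact (Lib.Known.hasPres_omegaPlus_of hn (Lib.Known.hasPres_SL n)).le (by omega)
      (by rw [if_pos (by omega)])
  exact ⟨h1.out, (h1.quotient _).out, fun h => ⟨(h2 h).out, ((h2 h).quotient _).out⟩⟩

end Cfsg.Agent.S2295
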