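import Cfsg.Statements.S2296
import Cfsg.Agent.Known.PresSp

set_option autoImplicit false
open Cfsg

namespace Cfsg.Agent.S2296

/-- Let F be a finite field. Sp_2n(F) has a presentation with 10 generators and at most 58 relations for n ≥ 4, with 9 generators and at most 57 relations for n = 4 or 5, and with 8 generators and at most 52 relations for n = 3; in each case PSp_2n(F) has a presentation with the same number of generators and at most one more relation. -/
theorem result {F : Type*} [Field F] [Fintype F] (n : ℕ) :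
    (4 ≤ n → (∃ rels : Finset (FreeGroup (Fin 10)), rels.card ≤ 58 ∧ Nonempty (PresentedGroup (↑rels : Set (FreeGroup (Fin 10))) ≃* Matrix.symplecticGroup (Fin n) F)) ∧ (∃ rels : Finset (FreeGroup (Fin 10)), rels.card ≤ 59 ∧ Nonempty (PresentedGroup (↑rels : Set (FreeGroup (Fin 10))) ≃* Cfsg.PSp n F))) ∧
    ((n = 4 ∨ n = 5) → (∃ rels : Finset (FreeGroup (Fin 9)), rels.card ≤ 57 ∧ Nonempty (PresentedGroup (↑rels : Set (FreeGroup (Fin 9))) ≃* Matrix.symplecticGroup (Fin n) F)) ∧ (∃ rels : Finset (FreeGroup (Fin 9)), rels.card ≤ 58 ∧ Nonempty (PresentedGroup (↑rels : Set (FreeGroup (Fin 9))) ≃* Cfsg.PSp n F))) ∧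
    (n = 3 → (∃ rels : Finset (FreeGroup (Fin 8)), rels.card ≤ 52 ∧ Nonempty (PresentedGroup (↑rels : Set (FreeGroup (Fin 8))) ≃* Matrix.symplecticGroup (Fin n) F)) ∧ (∃ rels : Finset (FreeGroup (Fin 8)), rels.card ≤ 53 ∧ Nonempty (PresentedGroup (↑rels : Set (FreeGroup (Fin 8))) ≃* Cfsg.PSp n F))) := by
  have := Lib.Known.isCyclic_center_Sp (F := F) n
  have key : ∀ {d r}, Lib.Known.HasPres (Matrix.symplecticGroup (Fin n) F) d r → _ ∧ _ := fun h =>
    ⟨h.out, (h.quotient (Subgroup.center _)).out⟩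
  have h : ∀ k, n = k + 3 → Lib.Known.HasPres (Matrix.symplecticGroup (Fin n) F) 9 48 := by
    rintro k rfl
    exact Lib.Known.hasPres_Sp_of (m := k + 1) (Lib.Known.hasPres_SL k)
  refine ⟨fun hn => key ((h (n - 3) (by omega)).le (by omega) (by omega)),
    fun hn => key ((h (n - 3) (by omega)).le (by omega) (by omega)), ?_⟩
  rintro rfl
  exact key ((Lib.Known.hasPres_Sp_of (m := 1) Lib.Known.hasPres_SL3).le (by omega) (by omega))

end Cfsg.Agent.S2296
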