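import Cfsg.Statements.S2332
import Cfsg.Agent.Char.MinDegSL3
import Cfsg.Agent.S0157

set_option autoImplicit false
open Cfsg

namespace Cfsg.Agent.S2332

/-- Smallest degree of a non-linear irreducible complex representation of SL_n over a finite field with q elements, for n ≥ 3 and (n, q) not one of (3, 2), (3, 4), (4, 2), (4, 3): every irreducible complex representation of SL_n(F) of degree at least 2 has degree at least (q^n − q)/(q − 1), and there is an irreducible complex representation of exactly that degree. -/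
theorem result {F : Type*} [Field F] [Fintype F] [DecidableEq F] (n : ℕ) (hn : 3 ≤ n)
    (hex : (n, Fintype.card F) ≠ (3, 2) ∧ (n, Fintype.card F) ≠ (3, 4) ∧ (n, Fintype.card F) ≠ (4, 2) ∧ (n, Fintype.card F) ≠ (4, 3)) :
    (∀ (k : ℕ) (ρ : Representation ℂ (Matrix.SpecialLinearGroup (Fin n) F) (Fin k → ℂ)), ρ.IsIrreducible → 2 ≤ k → (Fintype.card F ^ n - Fintype.card F) / (Fintype.card F - 1) ≤ k) ∧
    (∃ ρ : Representation ℂ (Matrix.SpecialLinearGroup (Fin n) F) (Fin ((Fintype.card F ^ n - Fintype.card F) / (Fintype.card F - 1)) → ℂ), ρ.IsIrreducible) := by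
  have hq : 1 < Fintype.card F := Fintype.one_lt_card
  set q := Fintype.card F with hqd
  obtain ⟨N, rfl⟩ : ∃ N, n = N + 1 := ⟨n - 1, by omega⟩
  set m := ∑ i ∈ Finset.range N, q ^ i with hmd
  have hm : (q - 1) * m + 1 = q ^ N := by
    rw [mul_comm, hmd, geom_sum_mul_of_one_le hq.le, Nat.sub_add_cancel (Nat.one_le_pow _ _ (by omega))]
  have hD : (q ^ (N + 1) - q) / (q - 1) = q * m := by
    rw [pow_succ', ← hm, mul_add, mul_one, Nat.add_sub_cancel, mul_left_comm,
      Nat.mul_div_cancel_left _ (by omega)]
  rw [hD]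
  refine ⟨fun k ρ hρ hk => ?_, ?_⟩
  · refine Cfsg.Lib.Char.SLDeg.le_degree (Cfsg.Lib.Char.isIrrCharacter_rep ρ)
      (by rw [Representation.char_one, Module.finrank_fin_fun]) hk (by simpa using hn) ?_ (by simpa using hm)
    obtain ⟨a, ha⟩ := IsCyclic.exists_ofOrder_eq_natCard (α := Fˣ)
    rw [Nat.card_units, Nat.card_eq_fintype_card, ← hqd] at ha
    have key : ∀ j : ℕ, (a : F) ^ j = 1 → q - 1 ∣ j := fun j e =>
      ha ▸ orderOf_dvd_of_pow_eq_one (Units.ext (by simpa using e))
    simp only [Fintype.card_fin, ne_eq, Prod.mk.injEq, not_and] at hex ⊢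
    rcases Nat.lt_or_ge (N + 1) 5 with h5 | h5
    · right
      rcases (by omega : N + 1 = 4 ∨ N + 1 = 3) with h | h
      · refine Or.inl ⟨h, a, a.ne_zero, fun e => ?_⟩
        have := Nat.le_of_dvd two_pos (key 2 e)
        omega
      · refine Or.inr ⟨a, a.ne_zero, fun e => ?_⟩
        rw [h] at e
        have := (Nat.dvd_prime Nat.prime_three).1 (key 3 e)
        omega
    · exact Or.inl h5
  · have hc : Nat.card (Projectivization F (Fin (N + 1) → F)) = q * m + 1 := by
      rw [Projectivization.card_of_finrank F _ (Module.finrank_fin_fun F), Finset.sum_range_succ',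
        Nat.card_eq_fintype_card, hmd, Finset.mul_sum]
      simp only [pow_succ', pow_zero, hqd]
    have hm1 : 1 ≤ m := by
      rcases Nat.eq_zero_or_pos m with h | h
      · have := Nat.one_lt_pow (n := N) (by omega) hq
        rw [h] at hm; omega
      · exact h
    obtain ⟨k, ρ, hρ, e⟩ := (Cfsg.Agent.S0157.result (G := Matrix.SpecialLinearGroup (Fin (N + 1)) F)
      (Projectivization F (Fin (N + 1) → F)) (by rw [hc]; nlinarith)).2 inferInstance
    have := congrFun e 1
    rw [Representation.char_one, Module.finrank_fin_fun, MulAction.fixedBy_one_eq_univ, Nat.card_univ,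
      hc] at this
    obtain rfl : k = q * m := by
      push_cast at this
      exact_mod_cast (by linear_combination this : (k : ℂ) = q * m)
    exact ⟨ρ, hρ⟩

end Cfsg.Agent.S2332
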