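import Cfsg.Statements.S2333
import Cfsg.Agent.Char.MinDegSp

set_option autoImplicit false
open Cfsg

namespace Cfsg.Agent.S2333

/-- For a finite field F of even order q and n ≥ 2 with (n, q) ≠ (2, 2), every irreducible complex representation of the symplectic group Sp_{2n}(F) of degree at least 2 has degree at least (q^n − 1)(q^n − q)/(2(q + 1)). -/
theorem result {F : Type*} [Field F] [Fintype F] [DecidableEq F] (n : ℕ) (hn : 2 ≤ n) (heven : Even (Fintype.card F)) (hex : (n, Fintype.card F) ≠ (2, 2)) :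
    (∀ (k : ℕ) (ρ : Representation ℂ (Matrix.symplecticGroup (Fin n) F) (Fin k → ℂ)), ρ.IsIrreducible → 2 ≤ k → (Fintype.card F ^ n - 1) * (Fintype.card F ^ n - Fintype.card F) / (2 * (Fintype.card F + 1)) ≤ k) := by
  intro k ρ hρ hk
  have h2 : CharP F 2 := by
    have := FiniteField.even_card_iff_char_two (F := F) |>.2 (Nat.even_iff.1 heven)
    exact this ▸ ringChar.charP F
  have h := Cfsg.Lib.Char.SpDeg.le_degree n k ρ hρ hk
  refine Nat.div_le_of_le_mul ?_
  have h1 : 1 ≤ Fintype.card F ^ n := Nat.one_le_pow _ _ Fintype.card_pos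
  have h3 : Fintype.card F ≤ Fintype.card F ^ n := Nat.le_self_pow (by omega) _
  have : (((Fintype.card F ^ n - 1) * (Fintype.card F ^ n - Fintype.card F) : ℕ) : ℝ) ≤
      ((2 * (Fintype.card F + 1) * k : ℕ) : ℝ) := by
    push_cast [Nat.cast_sub h1, Nat.cast_sub h3]
    exact h
  exact_mod_cast this

end Cfsg.Agent.S2333
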