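import Cfsg.Statements.S2338
import Cfsg.Agent.Char.MDG2c
import Cfsg.Agent.S1055

set_option autoImplicit false
open Cfsg

namespace Cfsg.Agent.S2338

/-- Lower bounds for the degrees of non-linear irreducible complex representations of the Chevalley group of type G₂ over a finite field with q elements: the degree is at least q³ + 1 when q ≡ 1 (mod 3) and q > 4, at least q³ − 1 when q ≡ 2 (mod 3) and q > 2, and at least q⁴ + q² + 1 when q ≡ 0 (mod 3) and q > 3. -/
theorem result {F : Type*} [Field F] [Fintype F] (k : ℕ) (ρ : Representation ℂ (Cfsg.Lie.chevG2.group F) (Fin k → ℂ)) (hρ : ρ.IsIrreducible) (hk : 2 ≤ k) :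
    (Fintype.card F % 3 = 1 → 4 < Fintype.card F → Fintype.card F ^ 3 + 1 ≤ k) ∧
    (Fintype.card F % 3 = 2 → 2 < Fintype.card F → Fintype.card F ^ 3 - 1 ≤ k) ∧
    (Fintype.card F % 3 = 0 → 3 < Fintype.card F → Fintype.card F ^ 4 + Fintype.card F ^ 2 + 1 ≤ k) := by
  classical
  have hχ := Lib.Char.isIrrCharacter_rep ρ
  have hd : ρ.character 1 = k := by rw [Representation.char_one, Module.finrank_fin_fun]
  have hx := Lib.Chev.Core.certG2.model_xG F Lib.Chev.rootG2
  have hs : 2 < Fintype.card F → IsSimpleGroup (Cfsg.Lie.chevG2.group F) := fun h =>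
    (S1055.result ((Lib.Chev.exists_pow_ne_one (K := F) one_ne_zero h).imp fun a ha => by
      simpa using ha)).1
  obtain ⟨p, hp⟩ := CharP.exists F
  obtain ⟨n, h1, h2⟩ := FiniteField.card F p
  have h3 : (3 : F) = 0 ↔ Fintype.card F % 3 = 0 := by
    rw [← Nat.dvd_iff_mod_eq_zero, h2, Nat.prime_three.prime.dvd_pow_iff_dvd n.ne_zero,
      Nat.prime_dvd_prime_iff_eq Nat.prime_three h1, eq_comm (b := p), ← Nat.prime_dvd_prime_iff_eq h1 Nat.prime_three]
    exact_mod_cast CharP.cast_eq_zero_iff F p 3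
  refine ⟨fun h4 h5 => ?_, fun h4 h5 => ?_, fun h4 h5 => ?_⟩
  · have := hs (by omega)
    refine (Lib.Char.MD.le_degree_G2 hx (by rw [Ne, h3]; omega) h5 hχ hd hk).2 ?_
    have : Fact (Nat.Prime 3) := ⟨Nat.prime_three⟩
    obtain ⟨a, ha⟩ := exists_prime_orderOf_dvd_card (G := Fˣ) 3 (by rw [Fintype.card_units]; omega)
    by_contra! h
    have := Finite.injective_iff_surjective.2 (show Function.Surjective fun u : F => u ^ 3 from h)
      (a₁ := a) (a₂ := 1) (by
        change (a : F) ^ 3 = 1 ^ 3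
        rw [← Units.val_pow_eq_pow_val, one_pow, ← ha, pow_orderOf_eq_one, Units.val_one])
    rw [Units.val_eq_one.1 this, orderOf_one] at ha
    omega
  · have := hs h5
    have := (Lib.Char.MD.le_degree_G2 hx (by rw [Ne, h3]; omega) (by omega) hχ hd hk).1
    omega
  · have := hs (by omega)
    refine Lib.Char.MD.le_degree_G2_three hx (Lib.Chev.Core.certG2.closure_xG_eq_top Lib.Chev.rootG2) (h3.2 h4) ?_ hχ hd hk
    by_contra h
    have : p ^ n.1 = 6 := h2.symm.trans (by omega)
    have h6 := (Nat.prime_dvd_prime_iff_eq Nat.prime_two h1).1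
      (Nat.prime_two.dvd_of_dvd_pow (n := n.1) (by rw [this]; norm_num))
    have h7 := (Nat.prime_dvd_prime_iff_eq Nat.prime_three h1).1
      (Nat.prime_three.dvd_of_dvd_pow (n := n.1) (by rw [this]; norm_num))
    omega

end Cfsg.Agent.S2338
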