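import Cfsg.Statements.S2341
import Cfsg.Agent.Char.MDTw6
import Cfsg.Agent.Char.Degree
import Cfsg.Agent.S1066
import Cfsg.Agent.S1070

set_option autoImplicit false
open Cfsg

namespace Cfsg.Agent.S2341

/-- For the twisted group ²E₆(q), realised over the field with q² elements (q a prime power), every irreducible complex representation of degree at least 2 has degree at least q(q⁶ − q³ + 1)(q⁴ + 1). -/
theorem result {K : Type*} [Field K] [Fintype K] (q : ℕ) (hq : IsPrimePow q) (hK : Fintype.card K = q ^ 2) :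
    (∀ (k : ℕ) (ρ : Representation ℂ (Cfsg.Lie.twistedE6 K q) (Fin k → ℂ)), ρ.IsIrreducible → 2 ≤ k → q * (q ^ 6 - q ^ 3 + 1) * (q ^ 4 + 1) ≤ k) := by
  intro k ρ hρ hk
  have h1 := S1066.result hq hK
  have h2 := (S1070.result hq hK).1
  obtain ⟨f, hf, hq', h⟩ := Lib.Chev.exists_twE6 hK
  have h3 := Lib.Char.irr_degree_dvd_card (Lib.Char.isIrrCharacter_rep ρ)
    (by rw [Representation.char_one, Module.finrank_fin_fun] : ρ.character 1 = k)
  have h5 := fun l => Lib.Char.MD.not_dvd_E6 (d := k) hq.two_le l (h1 ▸ h3.mul_left _)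
  clear h1 h3
  revert ρ
  rw [← h] at h2 ⊢
  intro ρ hρ
  have h4 := Lib.Char.MD.le_degree_twE6 f hf hK hq' ρ hρ hk
  obtain ⟨r, rfl⟩ : ∃ r, q = r + 2 := ⟨q - 2, by have := hq.two_le; omega⟩
  have h6 : (r + 2) ^ 3 ≤ (r + 2) ^ 6 := Nat.pow_le_pow_right (by omega) (by norm_num)
  have h7 : (r + 2) * ((r + 2) ^ 6 - (r + 2) ^ 3 + 1) * ((r + 2) ^ 4 + 1) + (r + 2) ^ 8 + (r + 2) ^ 4 =
      (r + 2) ^ 11 + (r + 2) ^ 7 + (r + 2) ^ 5 + (r + 2) := by
    zify [h6]
    ring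
  by_contra h8
  generalize (r + 2) * ((r + 2) ^ 6 - (r + 2) ^ 3 + 1) * ((r + 2) ^ 4 + 1) = D at *
  rw [show r + 2 - 1 = r + 1 from rfl] at h4
  refine h5 ?_
  clear * - h4 h7 h8
  ring_nf at h4 h7 ⊢
  omega

end Cfsg.Agent.S2341
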