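import Cfsg.Statements.S2342
import Cfsg.Agent.Char.MDTri2
import Cfsg.Agent.S1067
import Cfsg.Agent.S1071

set_option autoImplicit false
open Cfsg

namespace Cfsg.Agent.S2342

/-- For the twisted group ³D₄(q), realised over the field with q³ elements (q a prime power), every irreducible complex representation of degree at least 2 has degree at least q(q⁴ − q² + 1). -/
theorem result {K : Type*} [Field K] [Fintype K] (q : ℕ) (hq : IsPrimePow q) (hK : Fintype.card K = q ^ 3) :
    (∀ (k : ℕ) (ρ : Representation ℂ (Cfsg.Lie.twistedD4 K q) (Fin k → ℂ)), ρ.IsIrreducible → 2 ≤ k → q * (q ^ 4 - q ^ 2 + 1) ≤ k) := by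
  intro k ρ hρ hk
  have h1 := S1067.result hq hK
  have h2 := (S1071.result hq hK).1
  obtain ⟨f, hf, hq', h⟩ := Lib.Chev.exists_twD4 hK
  have hχ := Lib.Char.isIrrCharacter_rep ρ
  have hd : ρ.character 1 = k := by rw [Representation.char_one, Module.finrank_fin_fun]
  have h3 := Lib.Char.irr_degree_dvd_card hχ hd
  generalize ρ.character = χ at hχ hd
  clear hρ ρ
  rw [h1] at h3
  revert χ
  rw [← h] at h2 ⊢
  intro χ hχ hd
  have h4 := Lib.Char.MD.le_degree_twD4 f hf hK hq' hχ hd hk
  have h5 := Lib.Char.MD.not_dvd_D4 (d := k) hq.two_le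
  have h6 : q ^ 2 ≤ q ^ 4 := Nat.pow_le_pow_right hq.pos (by norm_num)
  have h7 : q * (q ^ 4 - q ^ 2 + 1) + q ^ 3 = q ^ 5 + q := by
    zify [h6]
    ring
  by_contra h8
  exact h5 (by omega) h3

end Cfsg.Agent.S2342
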