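import Cfsg.Statements.S2344
import Cfsg.Agent.Char.MDO10

set_option autoImplicit false
open Cfsg

namespace Cfsg.Agent.S2344

/-- For a finite field F of odd order q > 3 and n ≥ 3, every irreducible complex representation of degree at least 2 of Ω_{2n+1}(F) (the commutator subgroup of the isometry group of the quadratic form x₀² + x₁y₁ + ⋯ + x_ny_n) has degree at least (q^{2n} − 1)/(q² − 1). -/
theorem result {F : Type*} [Field F] [Fintype F] (n : ℕ) (hn : 3 ≤ n) (hodd : Odd (Fintype.card F)) (h3 : 3 < Fintype.card F) :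
    (∀ (k : ℕ) (ρ : Representation ℂ (Cfsg.Omega F (Cfsg.quadFormOdd n F)) (Fin k → ℂ)), ρ.IsIrreducible → 2 ≤ k → (Fintype.card F ^ (2 * n) - 1) / (Fintype.card F ^ 2 - 1) ≤ k) := by
  rw [← Lib.Class.coe_quadOdd]
  intro k ρ hρ hk
  obtain ⟨j, rfl⟩ : ∃ j, n = j + 3 := ⟨n - 3, by omega⟩
  have h2 : (2 : F) ≠ 0 := Ring.two_ne_zero fun h => by
    have := FiniteField.even_card_of_char_two h
    rw [Nat.odd_iff] at hodd
    omega
  have := (Lib.Char.MDO.bd_odd' h2 h3 (Lib.Class.quadOdd_nondegenerate h2 (j + 3)) (k := j)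
    (by simp; omega)).le_of_rep (Lib.Class.quadOdd_nondegenerate h2 _) (by simp; omega) ρ hρ hk
  rw [pow_mul, ← Nat.geomSum_eq (by nlinarith)]
  simpa only [Lib.Char.MDO.DB, pow_mul, Nat.cast_le] using this

end Cfsg.Agent.S2344
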