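import Cfsg.Statements.S2345
import Cfsg.Agent.Char.MDO6

set_option autoImplicit false
open Cfsg

namespace Cfsg.Agent.S2345

/-- For a finite field F with q > 3 elements and n ≥ 4, every irreducible complex representation of degree at least 2 of Ω⁺_{2n}(F) (the commutator subgroup of the isometry group of the hyperbolic quadratic form x₁y₁ + ⋯ + x_ny_n) has degree at least (q^n − 1)(q^{n−1} + q)/(q² − 1). -/
theorem result {F : Type*} [Field F] [Fintype F] (n : ℕ) (hn : 4 ≤ n) (h3 : 3 < Fintype.card F) :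
    (∀ (k : ℕ) (ρ : Representation ℂ (Cfsg.Omega F (Cfsg.quadFormPlus n F)) (Fin k → ℂ)), ρ.IsIrreducible → 2 ≤ k → (Fintype.card F ^ n - 1) * (Fintype.card F ^ (n - 1) + Fintype.card F) / (Fintype.card F ^ 2 - 1) ≤ k) := by
  rw [← Lib.Class.coe_quadPlus]
  intro k ρ hρ hk
  obtain ⟨j, rfl⟩ : ∃ j, n = j + 3 := ⟨n - 3, by omega⟩
  have hq := Lib.Char.MDO.one_lt_q F
  obtain ⟨A, hA⟩ := sub_one_dvd_pow_sub_one ((Fintype.card F : ℤ) ^ 2) (j + 2)
  have := (Lib.Char.MDO.bd_plus h3 j (Q := Lib.Class.quadPlus (j + 3) F)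
    ⟨Lib.Class.quadPlus_nondegenerate _, by simp; omega, by
      rw [Lib.Class.Orth.sing_quadPlus, Nat.card_eq_fintype_card, one_mul]⟩ A
    (by rw [← hA, pow_mul])).le_of_rep (Lib.Class.quadPlus_nondegenerate _) (by simp; omega) ρ hρ hk
  refine Nat.div_le_of_le_mul ?_
  rw [show j + 3 - 1 = j + 2 from rfl]
  zify [Nat.one_le_pow (j + 3) (Fintype.card F) (by omega), Nat.one_le_pow 2 (Fintype.card F) (by omega)]
  have h : (0 : ℤ) ≤ (Fintype.card F : ℤ) ^ 2 - 1 := by nlinarith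
  linear_combination mul_le_mul_of_nonneg_left this h + (Fintype.card F : ℤ) * hA

end Cfsg.Agent.S2345
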