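import Cfsg.Statements.S2347
import Cfsg.Agent.Known.CrossChar
import Cfsg.Agent.Known.Weil
import Cfsg.Agent.Char.Basic

set_option autoImplicit false
open Cfsg

namespace Cfsg.Agent.S2347

open Cfsg.Lib.Known Cfsg.Lib.Class Cfsg.Lib.Char Module

/-- Smallest degree of a non-linear irreducible complex representation of the symplectic group Sp_{2n} over a finite field of odd order q, n ≥ 2: every irreducible complex representation of degree at least 2 has degree at least (q^n − 1)/2, and there is an irreducible complex representation of exactly that degree (a Weil representation). -/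
theorem result {F : Type*} [Field F] [Fintype F] [DecidableEq F] (n : ℕ) (hn : 2 ≤ n) (hodd : Odd (Fintype.card F)) :
    (∀ (k : ℕ) (ρ : Representation ℂ (Matrix.symplecticGroup (Fin n) F) (Fin k → ℂ)), ρ.IsIrreducible → 2 ≤ k → (Fintype.card F ^ n - 1) / 2 ≤ k) ∧
    (∃ ρ : Representation ℂ (Matrix.symplecticGroup (Fin n) F) (Fin ((Fintype.card F ^ n - 1) / 2) → ℂ), ρ.IsIrreducible) := by
  have h2 : (2 : F) ≠ 0 := two_ne_zero_of_odd_card hodd
  have hq : 3 ≤ Fintype.card F := by
    have := Fintype.one_lt_card (α := F)
    obtain ⟨m, hm⟩ := hodd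
    omega
  constructor
  · intro k ρ hρ hk
    have hK : ringChar ℂ ≠ ringChar F := by
      rw [ringChar.eq_zero]
      exact (CharP.char_is_prime F _).ne_zero.symm
    have h := sp_cross_lower hodd (by omega : 1 ≤ n) hK ρ (fun g hg => ?_)
    · rwa [Module.finrank_fin_fun] at h
    let e := spEquivSpB n F
    let N : Subgroup (SpB (sympBilin n F)) :=
      (MonoidHom.comp ρ e.symm.toMonoidHom).toHomUnits.ker
    have hN : ∀ x, x ∈ N ↔ ρ (e.symm x) = 1 := fun x => by
      simp only [N, MonoidHom.mem_ker, Units.ext_iff]
      rfl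
    rcases SpB_normal_le_center_or (sympBilin_nondegenerate (F := F) n) (sympBilin_isAlt n) N
      with h1 | h1
    · have := h1 ((hN (e g)).2 (by rwa [e.symm_apply_apply]))
      exact (MulEquivClass.apply_mem_center_iff e).1 this
    · exfalso
      rw [SpB_commutator_eq_top (sympBilin_nondegenerate (F := F) n) (sympBilin_isAlt n)
        (spPerfectCond_of_card n (by omega))] at h1
      have htriv : ∀ x, ρ x = 1 := fun x => by
        have := (hN (e x)).1 (h1 (Subgroup.mem_top _))
        rwa [e.symm_apply_apply] at this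
      let v : Fin k → ℂ := Pi.single ⟨0, by omega⟩ 1
      have hv : v ≠ 0 := fun h => one_ne_zero (α := ℂ) (by simpa [v] using congrFun h ⟨0, by omega⟩)
      rcases ((isIrreducible_iff ρ).1 hρ).2 (Submodule.span ℂ {v}) (fun x w hw => by
        rwa [htriv]) with h3 | h3
      · exact hv (Submodule.span_singleton_eq_bot.1 h3)
      · have h4 := finrank_span_singleton (K := ℂ) hv
        rw [h3, finrank_top, Module.finrank_fin_fun] at h4
        omega
  · let ψ : AddChar F ℂ := AddChar.FiniteField.primitiveChar_to_Complex F
    have hψ : ψ ≠ 1 := by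
      have := AddChar.FiniteField.primitiveChar_to_Complex_isPrimitive F one_ne_zero
      rwa [AddChar.mulShift_one] at this
    have hr := finrank_weilSp_neg_one (F := F) (n := n) h2
    have hpos : 0 < finrank ℂ (WeilSp F n (-1)) := by
      rw [hr]
      have : Fintype.card F ^ 1 ≤ Fintype.card F ^ n := Nat.pow_le_pow_right (by omega) (by omega)
      rw [pow_one] at this
      omega
    have : Nontrivial (WeilSp F n (-1)) := Module.finrank_pos_iff.1 hpos
    have hirr := weilPart_isIrreducible (n := n) h2 hψ (-1)
    let σ : Representation ℂ (Matrix.symplecticGroup (Fin n) F) (WeilSp F n (-1)) :=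
      MonoidHom.comp (weilPart h2 hψ (-1)) (spEquivSpB n F).toMonoidHom
    have hσ : σ.IsIrreducible := by
      rw [isIrreducible_iff] at hirr ⊢
      refine ⟨hirr.1, fun W hW => hirr.2 W fun g v hv => ?_⟩
      obtain ⟨x, rfl⟩ := (spEquivSpB n F).surjective g
      exact hW x v hv
    let b : WeilSp F n (-1) ≃ₗ[ℂ] (Fin ((Fintype.card F ^ n - 1) / 2) → ℂ) :=
      LinearEquiv.ofFinrankEq _ _ (by rw [hr, Module.finrank_fin_fun])
    exact ⟨repConj σ b, isIrreducible_of_equiv (repConjEquiv σ b)⟩

end Cfsg.Agent.S2347
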