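import Cfsg.Statements.S2352
import Cfsg.Agent.Known.SymMisc
import Mathlib.GroupTheory.FreeGroup.Basic

set_option autoImplicit false
open Cfsg

namespace Cfsg.Agent.S2352

open Cfsg.Lib.Known

/-- A non-trivial law holds in only finitely many alternating groups: for every non-trivial element w of the free group on countably many generators there is N such that for all n ≥ N some substitution of elements of the alternating group of degree n into w is not the identity. -/
theorem result (w : FreeGroup ℕ) (hw : w ≠ 1) :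
    ∃ N : ℕ, ∀ n : ℕ, N ≤ n → ∃ f : ℕ → alternatingGroup (Fin n), FreeGroup.lift f w ≠ 1 := by
  classical
  obtain ⟨L, rfl⟩ := Quot.exists_rep w
  change FreeGroup.mk L ≠ 1 at hw
  let B : Finset (FreeGroup ℕ) := (L.tails.map FreeGroup.mk).toFinset
  have hB : ∀ M, M <:+ L → FreeGroup.mk M ∈ B := fun M hM => by
    simp only [B, List.mem_toFinset, List.mem_map, List.mem_tails]
    exact ⟨M, hM, rfl⟩
  have h1 : ∀ a : ℕ, ∃ σ : Equiv.Perm B, ∀ x : {x : B // FreeGroup.of a * x ∈ B},
      σ x.1 = ⟨_, x.2⟩ := fun a =>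
    Equiv.Perm.exists_extending_pair _ _ Subtype.val_injective fun x y h =>
      Subtype.ext (Subtype.ext (mul_left_cancel (congrArg Subtype.val h)))
  choose σ hσ using h1
  have h2 : ∀ M (hM : M <:+ L), FreeGroup.lift σ (FreeGroup.mk M) ⟨_, hB [] List.nil_suffix⟩ =
      ⟨_, hB M hM⟩ := by
    intro M hM
    induction M with
    | nil => rfl
    | cons x M ih =>
      have e1 := ih ((List.suffix_cons x M).trans hM)
      obtain ⟨a, b⟩ := x
      have e2 : FreeGroup.mk ((a, b) :: M) = FreeGroup.mk [(a, b)] * FreeGroup.mk M := rfl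
      simp only [e2] at hM ⊢
      rw [map_mul, Equiv.Perm.mul_apply, e1]
      cases b
      · have e3 : FreeGroup.mk [(a, false)] = (FreeGroup.of a)⁻¹ := rfl
        simp only [e3, map_inv, FreeGroup.lift_apply_of]
        rw [Equiv.Perm.inv_eq_iff_eq, hσ a ⟨⟨_, _⟩, by
          simpa using hB M ((List.suffix_cons _ M).trans hM)⟩]
        simp
      · have e3 : FreeGroup.mk [(a, true)] = FreeGroup.of a := rfl
        simp only [e3, FreeGroup.lift_apply_of]
        exact hσ a ⟨⟨_, hB M ((List.suffix_cons _ M).trans hM)⟩, hB _ hM⟩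
  have h3 : FreeGroup.lift σ (FreeGroup.mk L) ≠ 1 := fun h => by
    have := h2 L List.suffix_rfl
    rw [h] at this
    exact hw (congrArg Subtype.val this).symm
  refine ⟨B.card + 2, fun n hn => ?_⟩
  obtain ⟨φ, hφ⟩ := ((embS_perm (Fintype.card_coe B)).embA_add_two.mono hn).exists_hom
  refine ⟨φ ∘ σ, fun h => h3 (hφ ?_)⟩
  rw [map_one, ← h]
  exact FreeGroup.lift_unique (φ.comp (FreeGroup.lift σ)) (by simp)

end Cfsg.Agent.S2352
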