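import Cfsg.Statements.S2354
import Cfsg.Agent.Known.SzLaw
import Cfsg.Agent.Chev.SuzukiInst

set_option autoImplicit false
open Cfsg

namespace Cfsg.Agent.S2354


/-- A non-trivial law holds in only finitely many Suzuki groups: for every non-trivial element w of the free group on countably many generators there is N such that for q = 2^(2m+1) with m ≥ N some substitution of elements of the Suzuki group over the field with q elements into w is not the identity. -/
theorem result (w : FreeGroup ℕ) (hw : w ≠ 1) :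
    ∃ N : ℕ, ∀ (F : Type*) [Field F] [Fintype F] (m : ℕ), 1 ≤ m → N ≤ m →
      Fintype.card F = 2 ^ (2 * m + 1) →
      ∃ f : ℕ → ↥(Cfsg.Lie.Sz F (2 ^ (m + 1))), FreeGroup.lift f w ≠ 1 := by
  refine ⟨(w.toWord.map fun l => 4 * l.1 + 4).sum, fun F _ _ m hm hN hF => ?_⟩
  refine Cfsg.Lib.Known.SzLaw.exists_ne_one (Cfsg.Lib.Chev.lieSzModel hm hF) (e := 2 ^ (m + 1))
    (by calc 2 = 2 ^ 1 := rfl
      _ ≤ 2 ^ (m + 1) := Nat.pow_le_pow_right (by norm_num) (by omega))
    (Cfsg.Lib.Chev.Tw.ofCard_θ hF) w hw ?_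
  rw [hF, show 2 * m + 1 = (m + 1) + m by ring, pow_add 2 (m + 1) m]
  exact Nat.mul_lt_mul_of_pos_left (lt_of_le_of_lt hN Nat.lt_two_pow_self) (by positivity)

end Cfsg.Agent.S2354
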