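import Cfsg.Statements.S2355
import Mathlib
import Cfsg.Agent.Known.LawSL2

set_option autoImplicit false
open Cfsg

namespace Cfsg.Agent.S2355

open Cfsg.Lib.Known.Law Cfsg.Lib.Known.SylH

/-- A non-trivial law is satisfied by only finitely many finite simple groups that are alternating or classical, up to isomorphism: for every non-trivial element w of the free group on countably many generators there is a bound N such that every alternating group of degree ≥ 5 and every simple classical group (linear, symplectic, unitary or orthogonal, in this problem's sense) in which w is a law has order at most N. -/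
theorem result (w : FreeGroup ℕ) (hw : w ≠ 1) :
    ∃ N : ℕ, ∀ (G : Type*) [Group G] [Finite G],
      (Cfsg.IsAlternating G ∨ Cfsg.IsPSL G ∨ Cfsg.IsPSp G ∨ Cfsg.IsPSU G ∨ Cfsg.IsPOmegaOdd G ∨
          Cfsg.IsPOmegaPlus G ∨ Cfsg.IsPOmegaMinus G) →
      (∀ f : ℕ → G, FreeGroup.lift f w = 1) → Nat.card G ≤ N := by
  obtain ⟨N, h, hN0, hN, H, _, _, hH, hh, hw'⟩ := exists_bounds hw
  have key : ∀ {q d : ℕ}, q ≤ N ^ 2 → d ≤ 2 * h + 2 →
      q ^ (d * d) ≤ h.factorial + (N ^ 2) ^ ((2 * h + 2) * (2 * h + 2)) := fun h1 h2 =>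
    le_add_left ((Nat.pow_le_pow_left h1 _).trans
      (Nat.pow_le_pow_right (by positivity) (Nat.mul_le_mul h2 h2)))
  have hsq : ∀ {q : ℕ}, q < N → q ≤ N ^ 2 := fun h1 => by nlinarith
  have orth : ∀ {F ι κ : Type} [Field F] [Fintype F] [Fintype ι] [DecidableEq ι] [Fintype κ]
      [DecidableEq κ] {m : ℕ} (_ : 3 ≤ m) (e : (Fin m ⊕ Fin m) ⊕ κ ≃ ι) (Q : (ι → F) → F)
      (R : (κ → F) → F) (_ : ∀ v, Q v = quadFormPlus m F (v ∘ e ∘ Sum.inl) + R (v ∘ e ∘ Sum.inr))
      (_ : Fintype.card κ ≤ 2) (_ : LawZ w (Omega F Q)), Nat.card (POmega F Q) ≤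
        h.factorial + (N ^ 2) ^ ((2 * h + 2) * (2 * h + 2)) := by
    intro F ι κ _ _ _ _ _ _ m hm e Q R hQ hκ hl
    obtain ⟨h1, h2⟩ := bound_of_emb_SL hN hH hh hw' (by omega) (Emb.commutator
      (emb_SL_GL.trans (emb_GL_isometry e Q R hQ)) (Cfsg.Agent.S0248.result m hm)) hl
    refine (card_le_of_emb ((Emb.subgroup _).trans (Emb.subgroup _))).trans (key (hsq h1) ?_)
    rw [← Fintype.card_congr e]
    simp only [Fintype.card_sum, Fintype.card_fin]
    omega
  refine ⟨h.factorial + (N ^ 2) ^ ((2 * h + 2) * (2 * h + 2)), fun G _ _ hG hl => ?_⟩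
  rcases hG with ⟨n, -, ⟨e⟩⟩ | ⟨F, _, _, n, hn, -, ⟨e⟩⟩ | ⟨F, _, _, m, hm, -, ⟨e⟩⟩ |
    ⟨F, _, _, n, q, hF, hn, -, ⟨e⟩⟩ | ⟨F, _, _, m, hm, -, ⟨e⟩⟩ | ⟨F, _, _, m, hm, ⟨e⟩⟩ |
    ⟨F, _, _, m, a, b, hm, -, ⟨e⟩⟩ <;> rw [Nat.card_congr e.toEquiv]
  · have h1 : n < h := lt_of_not_ge fun h1 => hw' (LawZ.of_emb (fun f => hl f ▸ one_mem _)
      ((emb_alt hH (hh ▸ h1)).trans (Emb.of_equiv e.symm)))
    refine le_add_right ((Subgroup.card_le_card_group _).trans ?_)
    rw [Nat.card_perm, Nat.card_fin]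
    exact Nat.factorial_le h1.le
  · obtain ⟨h1, h2⟩ := bound_of_emb_SL hN hH hh hw' hn (Emb.of_equiv (MulEquiv.refl _))
      (lawZ_of_quot e hl)
    exact (card_le_of_emb emb_SL_GL).trans (key (hsq h1) (by simp; omega))
  · obtain ⟨h1, h2⟩ := bound_of_emb_SL hN hH hh hw' hm (emb_SL_GL.trans (emb_gl_sp m))
      (lawZ_of_quot e hl)
    exact (card_le_of_emb (emb_sp_gl m)).trans (key (hsq h1) (by simp; omega))
  · have hl' := lawZ_of_quot e hl
    have h2 : n < h := lt_of_not_ge fun h1 => hw' (hl'.of_emb (emb_SU hH (hh ▸ h1) q))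
    obtain ⟨p, hp⟩ := CharP.exists F
    obtain ⟨k, hp', hk⟩ := FiniteField.card F p
    have := Fact.mk hp'
    obtain ⟨j, -, rfl⟩ := (Nat.dvd_prime_pow hp').mp (show q ∣ p ^ (k : ℕ) from
      hk ▸ hF ▸ dvd_pow_self q two_ne_zero)
    have hj : j ≠ 0 := by
      rintro rfl
      exact Fintype.one_lt_card.ne' (hF.trans (by simp))
    let _ := Fintype.ofFinite (GaloisField p j)
    have h3 : Fintype.card (GaloisField p j) = p ^ j := by
      rw [← Nat.card_eq_fintype_card, GaloisField.card p j hj]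
    obtain ⟨e'⟩ := Cfsg.Agent.S0281.result hF h3
    have h1 := hN _ (hl'.of_emb ((Emb.of_equiv e'.symm).trans (emb_SU_SU _ (by omega))))
    refine (card_le_of_emb ((Emb.subgroup _).trans emb_SL_GL)).trans (key ?_ (by simp; omega))
    rw [hF, ← h3]
    exact Nat.pow_le_pow_left h1.le 2
  · exact orth hm (Equiv.sumComm _ _) _ (fun v => v () ^ 2) (fun v => add_comm _ _) (by simp)
      (lawZ_of_quot e hl)
  · exact orth (κ := Empty) (by omega) (Equiv.sumEmpty _ _) _ (fun _ => 0)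
      (fun v => (add_zero _).symm) (by simp) (lawZ_of_quot e hl)
  · exact orth (by omega) (Equiv.refl _) _ (fun v => v 0 ^ 2 + a * v 0 * v 1 + b * v 1 ^ 2)
      (fun v => rfl) (by simp) (lawZ_of_quot e hl)

end Cfsg.Agent.S2355
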