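import Cfsg.Statements.S2356
import Cfsg.Agent.Class.HermParab
import Cfsg.Agent.Mit.Trace

set_option autoImplicit false
open Cfsg

namespace Cfsg.Agent.S2356

open Cfsg.Lib.Class Cfsg.Lib.Class.Form Matrix

section

variable {F : Type*} [Field F] [Fintype F] {q : ℕ} (hF : Fintype.card F = q ^ 2)

theorem B_apply (u v : Fin 3 → F) : hermSesq hF 3 u v =
    v 0 * frobq hF (u 0) + v 1 * frobq hF (u 1) + v 2 * frobq hF (u 2) := by
  simp [hermForm, Fin.sum_univ_three]

theorem B_symm (u v : Fin 3 → F) : frobq hF (hermSesq hF 3 u v) = hermSesq hF 3 v u :=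
  (hermSesq_isSymm hF 3).eq u v

theorem B_symm_zero {u v : Fin 3 → F} (h : hermSesq hF 3 u v = 0) : hermSesq hF 3 v u = 0 := by
  rw [← B_symm, h, map_zero]

/-- The matrix of an element of `SU₃`. -/
abbrev mat (x : Cfsg.SU 3 F q) : Matrix (Fin 3) (Fin 3) F := (x : SpecialLinearGroup (Fin 3) F)

theorem B_mat (x : Cfsg.SU 3 F q) (u v : Fin 3 → F) :
    hermSesq hF 3 (mat x *ᵥ u) (mat x *ᵥ v) = hermSesq hF 3 u v := x.2 v u

omit [Fintype F] in
theorem ext_mulVec {x y : Cfsg.SU 3 F q} (h : ∀ u, mat x *ᵥ u = mat y *ᵥ u) : x = y :=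
  Subtype.ext (Subtype.ext (Matrix.toLin'.injective (LinearMap.ext h)))

omit [Fintype F] in
theorem mat_mul (x y : Cfsg.SU 3 F q) (u : Fin 3 → F) : mat (x * y) *ᵥ u = mat x *ᵥ (mat y *ᵥ u) := by
  rw [mulVec_mulVec]; rfl

/-- `x` is the involution with axis `v`. -/
def IsR (x : Cfsg.SU 3 F q) (v : Fin 3 → F) : Prop :=
  hermSesq hF 3 v v ≠ 0 ∧ ∀ u, mat x *ᵥ u = (2 * hermSesq hF 3 v u / hermSesq hF 3 v v) • v - u

theorem exists_isR_of_inv (h2 : (2 : F) ≠ 0) {x : Cfsg.SU 3 F q} (h1 : x ≠ 1) (hx : x * x = 1) :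
    ∃ v, IsR hF x v := by
  have hM : mat x * mat x = 1 := congrArg mat hx
  have hd : (mat x).det = 1 := (x : SpecialLinearGroup (Fin 3) F).2
  have hadj : (mat x).adjugate = mat x := by
    calc (mat x).adjugate = mat x * mat x * (mat x).adjugate := by rw [hM, one_mul]
      _ = mat x := by rw [mul_assoc, mul_adjugate, hd, one_smul, mul_one]
  have htr : (mat x).trace = -1 := by
    have h3 := Cfsg.Lib.Mit.ch3 (mat x)
    rw [hadj, hd, pow_succ, sq, hM, one_mul, one_smul] at h3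
    by_contra hne
    have h4 : ((mat x).trace + 1) • (mat x - 1) = 0 := by
      rw [add_smul, one_smul, smul_sub]
      nth_rewrite 4 [h3]
      abel
    rcases smul_eq_zero.1 h4 with h | h
    · exact hne (eq_neg_of_add_eq_zero_left h)
    · exact h1 (Subtype.ext (Subtype.ext (sub_eq_zero.1 h)))
  obtain ⟨P, hP⟩ : ∃ P, P = mat x + 1 := ⟨_, rfl⟩
  have hP2 : P ^ 2 = (2 : F) • P := by
    rw [hP, sq, mul_add, add_mul, hM, two_smul]; simp; abel
  have hPt : P.trace = 2 := by rw [hP, trace_add, htr]; simp; ring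
  have hPa : P.adjugate = 0 := by
    have h3 := Cfsg.Lib.Mit.adj3 P
    rw [hP2, hPt, sub_self, zero_add] at h3
    have h4 := congrArg trace h3
    rw [trace_smul, trace_one, Fintype.card_fin, smul_eq_mul] at h4
    have h5 : P.adjugate.trace = 0 := by
      refine (mul_eq_zero.1 (show 2 * P.adjugate.trace = 0 by push_cast at h4; linear_combination -h4)).resolve_left h2
    rw [h3, h5, zero_smul]
  have hminor : ∀ i j k, P j k * P i i = P j i * P i k := by
    have h := fun a b => congrFun (congrFun hPa a) b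
    have h00 := h 0 0; have h01 := h 0 1; have h02 := h 0 2
    have h10 := h 1 0; have h11 := h 1 1; have h12 := h 1 2
    have h20 := h 2 0; have h21 := h 2 1; have h22 := h 2 2
    simp [adjugate_fin_three] at h00 h01 h02 h10 h11 h12 h20 h21 h22
    intro i j k
    fin_cases i <;> fin_cases j <;> fin_cases k <;> simp <;> first
      | ring1 | linear_combination h00 | linear_combination h11 | linear_combination h22
      | linear_combination -h01 | linear_combination -h02 | linear_combination -h10 | linear_combination -h12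
      | linear_combination -h20 | linear_combination -h21
  obtain ⟨i, hi⟩ : ∃ i, P i i ≠ 0 := by
    by_contra! h
    rw [trace_fin_three, h, h, h] at hPt
    exact h2 (by linear_combination -hPt)
  have hPv : ∀ u, P *ᵥ u = mat x *ᵥ u + u := fun u => by rw [hP, add_mulVec, one_mulVec]
  have hsa : ∀ u w, hermSesq hF 3 (P *ᵥ u) w = hermSesq hF 3 u (P *ᵥ w) := fun u w => by
    rw [hPv, hPv, map_add, map_add, LinearMap.add_apply, ← B_mat hF x u (mat x *ᵥ w), mulVec_mulVec, hM, one_mulVec]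
  have he : ∀ w : Fin 3 → F, hermSesq hF 3 (Pi.single i 1) w = w i := fun w => by
    rw [B_apply]; fin_cases i <;> simp [-frobq_apply]
  have hv : ∀ u, hermSesq hF 3 (P *ᵥ Pi.single i 1) u = (P *ᵥ u) i := fun u => by rw [hsa, he]
  have hvv : hermSesq hF 3 (P *ᵥ Pi.single i 1) (P *ᵥ Pi.single i 1) = 2 * P i i := by
    rw [hv, mulVec_mulVec, ← sq, hP2, smul_mulVec]; simp
  refine ⟨P *ᵥ Pi.single i 1, by rw [hvv]; exact mul_ne_zero h2 hi, fun u => ?_⟩
  rw [hvv, hv, eq_sub_iff_add_eq, ← hPv]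
  funext j
  simp only [mulVec, dotProduct, Fin.sum_univ_three, Pi.smul_apply, smul_eq_mul]
  have : P j 0 * (Pi.single i 1 : Fin 3 → F) 0 + P j 1 * (Pi.single i 1 : Fin 3 → F) 1 +
      P j 2 * (Pi.single i 1 : Fin 3 → F) 2 = P j i := by fin_cases i <;> simp
  rw [this]
  field_simp
  linear_combination u 0 * hminor i j 0 + u 1 * hminor i j 1 + u 2 * hminor i j 2

theorem exists_isR {v : Fin 3 → F} (hv : hermSesq hF 3 v v ≠ 0) : ∃ x, IsR hF x v := by
  let M : Matrix (Fin 3) (Fin 3) F := (2 / hermSesq hF 3 v v) • vecMulVec v (fun i => frobq hF (v i)) - 1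
  have hM : ∀ u, M *ᵥ u = (2 * hermSesq hF 3 v u / hermSesq hF 3 v v) • v - u := fun u => by
    rw [sub_mulVec, one_mulVec, smul_mulVec]
    funext j
    simp only [Pi.sub_apply, Pi.smul_apply, smul_eq_mul, B_apply hF v u,
      mulVec, dotProduct, Fin.sum_univ_three, vecMulVec_apply]
    ring
  have hd : M.det = 1 := by
    have h := B_apply hF v v
    simp only [M, det_fin_three, Matrix.sub_apply, Matrix.smul_apply, vecMulVec_apply, smul_eq_mul, one_apply]
    generalize hermSesq hF 3 v v = N at h hv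
    simp only [Fin.isValue, Fin.reduceEq, if_true, if_false]
    field_simp
    linear_combination (-2 * N ^ 2) * h
  refine ⟨⟨⟨M, hd⟩, fun u w => ?_⟩, hv, hM⟩
  change hermSesq hF 3 (M *ᵥ w) (M *ᵥ u) = hermSesq hF 3 w u
  rw [hM, hM]
  simp only [map_sub, map_smulₛₗ, LinearMap.sub_apply, LinearMap.smul_apply, smul_eq_mul, RingHom.id_apply, map_div₀,
    map_mul, map_ofNat, B_symm]
  field_simp
  ring

variable {hF}

theorem IsR.self {x : Cfsg.SU 3 F q} {v : Fin 3 → F} (h : IsR hF x v) : mat x *ᵥ v = v := by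
  rw [h.2, mul_div_assoc, div_self h.1, mul_one, two_smul, add_sub_cancel_right]

theorem IsR.mul_self {x : Cfsg.SU 3 F q} {v : Fin 3 → F} (h : IsR hF x v) : x * x = 1 := by
  refine ext_mulVec fun u => ?_
  rw [mat_mul, h.2 u, mulVec_sub, mulVec_smul, h.self, h.2 u, sub_sub_cancel]
  exact (one_mulVec u).symm

theorem IsR.smul {x : Cfsg.SU 3 F q} {v : Fin 3 → F} (h : IsR hF x v) {a : F} (ha : a ≠ 0) : IsR hF x (a • v) := by
  have ha' : frobq hF a ≠ 0 := (map_ne_zero _).2 ha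
  have := h.1
  refine ⟨by simp only [map_smulₛₗ, LinearMap.smul_apply, smul_eq_mul, RingHom.id_apply]; positivity, fun u => ?_⟩
  rw [h.2, smul_smul]
  simp only [map_smulₛₗ, LinearMap.smul_apply, smul_eq_mul, RingHom.id_apply]
  congr 2
  field_simp

theorem IsR.unique {x y : Cfsg.SU 3 F q} {v : Fin 3 → F} (h : IsR hF x v) (h' : IsR hF y v) : x = y :=
  ext_mulVec fun u => by rw [h.2, h'.2]

theorem IsR.ne_zero {x : Cfsg.SU 3 F q} {v : Fin 3 → F} (h : IsR hF x v) : v ≠ 0 := by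
  rintro rfl
  exact h.1 (by simp)

theorem IsR.par (h2 : (2 : F) ≠ 0) {x : Cfsg.SU 3 F q} {v w : Fin 3 → F} (h : IsR hF x v) (h' : IsR hF x w) :
    ∃ a : F, a ≠ 0 ∧ w = a • v := by
  have h3 := h.2 w
  rw [h'.self, eq_sub_iff_add_eq, ← two_smul F] at h3
  have h5 : w = (2⁻¹ * (2 * hermSesq hF 3 v w / hermSesq hF 3 v v)) • v := by
    rw [mul_smul, ← h3, smul_smul, inv_mul_cancel₀ h2, one_smul]
  exact ⟨_, fun h4 => h'.ne_zero (by rw [h5, h4, zero_smul]), h5⟩

theorem IsR.ne_one (h2 : (2 : F) ≠ 0) {x : Cfsg.SU 3 F q} {v : Fin 3 → F} (h : IsR hF x v) : x ≠ 1 := by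
  rintro rfl
  obtain ⟨d, hd, hd'⟩ := (herm_hermSesq hF 3).exists_nonisotropic_orth_of_lt (W := F ∙ v) (by
    rw [finrank_span_singleton h.ne_zero]; simp)
  have h3 := h.2 d
  rw [mem_orth_span_singleton.1 hd, mul_zero, zero_div, zero_smul, zero_sub] at h3
  have h4 : d = -d := (one_mulVec d).symm.trans h3
  have h5 : d = 0 := by
    rw [eq_neg_iff_add_eq_zero, ← two_smul F, smul_eq_zero] at h4
    exact h4.resolve_left h2
  exact hd' (by simp [h5])

theorem IsR.commute_iff (h2 : (2 : F) ≠ 0) {x y : Cfsg.SU 3 F q} {v w : Fin 3 → F} (h : IsR hF x v)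
    (h' : IsR hF y w) : Commute x y ↔ hermSesq hF 3 v w = 0 ∨ x = y := by
  constructor
  · intro hc
    refine (eq_or_ne _ 0).imp_right fun hne => ?_
    have h3 := congrArg (fun z => mat z *ᵥ w) hc.eq
    simp only [mat_mul] at h3
    rw [h'.self, h.2 w, mulVec_sub, mulVec_smul, h'.self, sub_left_inj] at h3
    have h4 := smul_right_injective _ (div_ne_zero (mul_ne_zero h2 hne) h.1) h3
    rw [h'.2 v, eq_sub_iff_add_eq, ← two_smul F] at h4
    have h5 : v = (2⁻¹ * (2 * hermSesq hF 3 w v / hermSesq hF 3 w w)) • w := by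
      rw [mul_smul, ← h4, smul_smul, inv_mul_cancel₀ h2, one_smul]
    refine h.unique ?_
    rw [h5]
    refine h'.smul fun h6 => h.ne_zero ?_
    rw [h5, h6, zero_smul]
  · rintro (h0 | rfl)
    · have h0' := B_symm_zero hF h0
      refine ext_mulVec fun u => ?_
      rw [mat_mul, mat_mul, h'.2 u, h.2 u, mulVec_sub, mulVec_sub, mulVec_smul, mulVec_smul, h.2 w, h'.2 v, h.2 u,
        h'.2 u, h0, h0']
      simp only [mul_zero, zero_div, zero_smul, zero_sub, smul_neg]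
      abel
    · exact Commute.refl _

theorem count (h2 : (2 : F) ≠ 0) (p : Cfsg.SU 3 F q → Prop) (p' : (Fin 3 → F) → Prop)
    (h : ∀ x w, IsR hF x w → (p x ↔ p' w)) :
    Nat.card {x : Cfsg.SU 3 F q // x ≠ 1 ∧ x * x = 1 ∧ p x} * (q ^ 2 - 1) =
      Nat.card {w : Fin 3 → F // hermSesq hF 3 w w ≠ 0 ∧ p' w} := by
  classical
  choose ax hax using fun x : {x : Cfsg.SU 3 F q // x ≠ 1 ∧ x * x = 1 ∧ p x} =>
    exists_isR_of_inv hF h2 x.2.1 x.2.2.1
  rw [← hF, ← Fintype.card_units, ← Nat.card_eq_fintype_card, ← Nat.card_prod]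
  refine Nat.card_eq_of_bijective (fun z => ⟨(z.2 : F) • ax z.1, ((hax z.1).smul z.2.ne_zero).1,
    (h _ _ ((hax z.1).smul z.2.ne_zero)).1 z.1.2.2.2⟩) ⟨?_, ?_⟩
  · rintro ⟨x, a⟩ ⟨y, b⟩ hab
    have h1 : (a : F) • ax x = (b : F) • ax y := congrArg Subtype.val hab
    have h3 : x = y := Subtype.ext (((hax x).smul a.ne_zero).unique (h1 ▸ (hax y).smul b.ne_zero))
    subst h3
    rw [Units.ext (smul_left_injective F (hax x).ne_zero h1)]
  · rintro ⟨w, hw, hp⟩
    obtain ⟨x, hx⟩ := exists_isR hF hw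
    obtain ⟨a, ha, h3⟩ := (hax ⟨x, hx.ne_one h2, hx.mul_self, (h _ _ hx).2 hp⟩).par h2 hx
    exact ⟨(⟨x, hx.ne_one h2, hx.mul_self, (h _ _ hx).2 hp⟩, Units.mk0 a ha), Subtype.ext h3.symm⟩

theorem eq_zero_of_orth {u v x : Fin 3 → F} (hu : hermSesq hF 3 u u ≠ 0) (hv : hermSesq hF 3 v v ≠ 0)
    (huv : hermSesq hF 3 u v = 0) (hux : hermSesq hF 3 u x = 0) (hvx : hermSesq hF 3 v x = 0)
    (hxx : hermSesq hF 3 x x = 0) : x = 0 := by
  have hvu := B_symm_zero hF huv
  have hxu := B_symm_zero hF hux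
  have hxv := B_symm_zero hF hvx
  have hD := mul_ne_zero hu hv
  simp only [B_apply] at *
  have hs : frobq hF (x 0 * (u 1 * v 2 - u 2 * v 1) + x 1 * (u 2 * v 0 - u 0 * v 2) + x 2 * (u 0 * v 1 - u 1 * v 0)) *
      (x 0 * (u 1 * v 2 - u 2 * v 1) + x 1 * (u 2 * v 0 - u 0 * v 2) + x 2 * (u 0 * v 1 - u 1 * v 0)) = 0 := by
    simp only [map_add, map_mul, map_sub]
    generalize frobq hF (u 0) = a0, frobq hF (u 1) = a1, frobq hF (u 2) = a2, frobq hF (v 0) = b0,
      frobq hF (v 1) = b1, frobq hF (v 2) = b2, frobq hF (x 0) = y0, frobq hF (x 1) = y1, frobq hF (x 2) = y2 at *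
    linear_combination
      ((u 0 * a0 + u 1 * a1 + u 2 * a2) * (v 0 * b0 + v 1 * b1 + v 2 * b2) -
        (v 0 * a0 + v 1 * a1 + v 2 * a2) * (u 0 * b0 + u 1 * b1 + u 2 * b2)) * hxx -
      ((x 0 * a0 + x 1 * a1 + x 2 * a2) * (v 0 * b0 + v 1 * b1 + v 2 * b2) -
        (v 0 * a0 + v 1 * a1 + v 2 * a2) * (x 0 * b0 + x 1 * b1 + x 2 * b2)) * hxu +
      ((x 0 * a0 + x 1 * a1 + x 2 * a2) * (u 0 * b0 + u 1 * b1 + u 2 * b2) -
        (u 0 * a0 + u 1 * a1 + u 2 * a2) * (x 0 * b0 + x 1 * b1 + x 2 * b2)) * hxv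
  have hl : x 0 * (u 1 * v 2 - u 2 * v 1) + x 1 * (u 2 * v 0 - u 0 * v 2) + x 2 * (u 0 * v 1 - u 1 * v 0) = 0 := by
    rcases mul_eq_zero.1 hs with h | h
    · exact (map_eq_zero _).1 h
    · exact h
  generalize frobq hF (u 0) = a0, frobq hF (u 1) = a1, frobq hF (u 2) = a2, frobq hF (v 0) = b0,
      frobq hF (v 1) = b1, frobq hF (v 2) = b2 at *
  funext i
  refine (mul_eq_zero.1 ?_).resolve_left hD
  fin_cases i
  · simp only [Fin.zero_eta]
    linear_combination (a1 * b2 - a2 * b1) * hl + x 0 * (v 0 * a0 + v 1 * a1 + v 2 * a2) * hvu +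
      ((u 2 * v 0 - u 0 * v 2) * a2 - (u 0 * v 1 - u 1 * v 0) * a1) * hvx -
      ((u 2 * v 0 - u 0 * v 2) * b2 - (u 0 * v 1 - u 1 * v 0) * b1) * hux
  · simp only [Fin.mk_one]
    linear_combination (a2 * b0 - a0 * b2) * hl + x 1 * (v 0 * a0 + v 1 * a1 + v 2 * a2) * hvu +
      ((u 0 * v 1 - u 1 * v 0) * a0 - (u 1 * v 2 - u 2 * v 1) * a2) * hvx -
      ((u 0 * v 1 - u 1 * v 0) * b0 - (u 1 * v 2 - u 2 * v 1) * b2) * hux
  · simp only [Fin.reduceFinMk]
    linear_combination (a0 * b1 - a1 * b0) * hl + x 2 * (v 0 * a0 + v 1 * a1 + v 2 * a2) * hvu +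
      ((u 1 * v 2 - u 2 * v 1) * a1 - (u 2 * v 0 - u 0 * v 2) * a0) * hvx -
      ((u 1 * v 2 - u 2 * v 1) * b1 - (u 2 * v 0 - u 0 * v 2) * b0) * hux

theorem exists_orth (v w : Fin 3 → F) : ∃ c, hermSesq hF 3 v c = 0 ∧ hermSesq hF 3 w c = 0 ∧
    hermSesq hF 3 c c = hermSesq hF 3 v v * hermSesq hF 3 w w - hermSesq hF 3 v w * hermSesq hF 3 w v := by
  refine ⟨![frobq hF (v 1 * w 2 - v 2 * w 1), frobq hF (v 2 * w 0 - v 0 * w 2), frobq hF (v 0 * w 1 - v 1 * w 0)],
    ?_, ?_, ?_⟩ <;>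
  · simp only [B_apply, cons_val_zero, cons_val_one, cons_val, frobq_frobq, map_sub, map_mul]
    ring

/-- The component of `w` orthogonal to `v`. -/
def proj (v w : Fin 3 → F) : Fin 3 → F := w - (hermSesq hF 3 v w / hermSesq hF 3 v v) • v

theorem B_proj {v : Fin 3 → F} (hv : hermSesq hF 3 v v ≠ 0) (w : Fin 3 → F) :
    hermSesq hF 3 v (proj (hF := hF) v w) = 0 := by
  rw [proj, map_sub, map_smul, smul_eq_mul, div_mul_cancel₀ _ hv, sub_self]

theorem N_proj {v : Fin 3 → F} (hv : hermSesq hF 3 v v ≠ 0) (w : Fin 3 → F) :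
    hermSesq hF 3 v v * hermSesq hF 3 (proj (hF := hF) v w) (proj (hF := hF) v w) =
      hermSesq hF 3 v v * hermSesq hF 3 w w - hermSesq hF 3 v w * hermSesq hF 3 w v := by
  simp only [proj, map_sub, map_smulₛₗ, LinearMap.sub_apply, LinearMap.smul_apply, smul_eq_mul, RingHom.id_apply,
    map_div₀, B_symm]
  field_simp
  ring

theorem common_iff (h2 : (2 : F) ≠ 0) {t x : Cfsg.SU 3 F q} {v w : Fin 3 → F} (h : IsR hF t v) (h' : IsR hF x w)
    (hc : ¬ Commute t x) :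
    (∃ y : Cfsg.SU 3 F q, y ≠ 1 ∧ y * y = 1 ∧ Commute t y ∧ Commute y x) ↔
      hermSesq hF 3 (proj (hF := hF) v w) (proj (hF := hF) v w) ≠ 0 := by
  constructor
  · rintro ⟨y, h1, hy, hty, hyx⟩ h0
    obtain ⟨u, hu⟩ := exists_isR_of_inv hF h2 h1 hy
    rcases (h.commute_iff h2 hu).1 hty with h3 | rfl
    · rcases (hu.commute_iff h2 h').1 hyx with h4 | rfl
      · have h5 := eq_zero_of_orth hu.1 h.1 (B_symm_zero hF h3) (by
          rw [proj, map_sub, map_smul, h4, B_symm_zero hF h3, smul_zero, sub_zero]) (B_proj h.1 w) h0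
        rw [proj, sub_eq_zero] at h5
        refine hc ((h.commute_iff h2 h').2 (Or.inr ((h.smul fun h6 => h'.ne_zero ?_).unique (h5 ▸ h'))))
        rw [h5, h6, zero_smul]
      · exact hc hty
    · exact hc hyx
  · intro h0
    obtain ⟨c, h1, h3, h4⟩ := exists_orth (hF := hF) v w
    rw [← N_proj h.1] at h4
    obtain ⟨y, hy⟩ := exists_isR hF (v := c) (h4 ▸ mul_ne_zero h.1 h0)
    exact ⟨y, hy.ne_one h2, hy.mul_self, (h.commute_iff h2 hy).2 (Or.inl h1),
      (hy.commute_iff h2 h').2 (Or.inl (B_symm_zero hF h3))⟩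

theorem card_split {α : Type*} [Finite α] (p r : α → Prop) :
    Nat.card {x // p x} = Nat.card {x // p x ∧ r x} + Nat.card {x // p x ∧ ¬ r x} := by
  classical
  rw [← Nat.card_sum]
  refine Nat.card_congr ((Equiv.sumCompl fun x : {x // p x} => r x.1).symm.trans (Equiv.sumCongr ?_ ?_))
  · exact Equiv.subtypeSubtypeEquivSubtypeInter p r
  · exact Equiv.subtypeSubtypeEquivSubtypeInter p fun x => ¬ r x

theorem card_iso_orth {v : Fin 3 → F} (hv : hermSesq hF 3 v v ≠ 0) :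
    Nat.card {w : Fin 3 → F // hermSesq hF 3 v w = 0} = q ^ 4 ∧
    Nat.card {w : Fin 3 → F // hermSesq hF 3 v w = 0 ∧ hermSesq hF 3 w w = 0} = (q ^ 2 - 1) * (q + 1) + 1 := by
  have hH := herm_hermSesq hF 3
  have hv0 : v ≠ 0 := by rintro rfl; exact hv (by simp)
  have hr : Module.finrank F (orth (hermSesq hF 3) (F ∙ v)) = 2 := by
    have := hH.toGood.finrank_orth (F ∙ v)
    rw [finrank_span_singleton hv0, Module.finrank_fin_fun] at this
    omega
  constructor
  · rw [show q ^ 4 = Nat.card F ^ 2 by rw [Nat.card_eq_fintype_card, hF]; ring, ← hr, ← Module.natCard_eq_pow_finrank]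
    exact Nat.card_congr (Equiv.subtypeEquivRight fun w => mem_orth_span_singleton.symm)
  · have h1 := (hH.restrict (hH.toGood.nondegOn_orth (Good.nondegOn_span_singleton hv))).card_norm_eq hF hr 0
    rw [normCount_zero hF, if_pos (by decide)] at h1
    simp only [Nat.add_one_sub_one, pow_one] at h1
    rw [← h1]
    exact Nat.card_congr ((Equiv.subtypeEquivRight fun w => and_congr_left' mem_orth_span_singleton.symm).trans
      (Equiv.subtypeSubtypeEquivSubtypeInter _ _).symm)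

end

/-- Let q be odd, F the field with q² elements, S = SU_3(F) (determinant-one isometries of the standard Hermitian form) and t an involution of S. Then: exactly q(q−1) involutions other than t commute with t; exactly q(q−2)(q²−1) involutions do not commute with t but commute with some involution commuting with t; exactly (q+1)(q²−1) involutions x do not commute with t and admit no involution commuting with both t and x; and every involution can be reached from t in at most three steps, each step going to an involution that commutes with the previous one (the commuting involution graph is connected of diameter 3). -/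
theorem result {F : Type*} [Field F] [Fintype F] {q : ℕ} (hq : Odd q)
    (hF : Fintype.card F = q ^ 2) (t : ↥(Cfsg.SU 3 F q)) (ht : t ≠ 1) (ht2 : t * t = 1) :
    Nat.card {x : ↥(Cfsg.SU 3 F q) // x ≠ 1 ∧ x * x = 1 ∧ x ≠ t ∧ Commute t x} = q * (q - 1) ∧
    Nat.card {x : ↥(Cfsg.SU 3 F q) // x ≠ 1 ∧ x * x = 1 ∧ ¬ Commute t x ∧
        ∃ y : ↥(Cfsg.SU 3 F q), y ≠ 1 ∧ y * y = 1 ∧ Commute t y ∧ Commute y x} = q * (q - 2) * (q ^ 2 - 1) ∧
    Nat.card {x : ↥(Cfsg.SU 3 F q) // x ≠ 1 ∧ x * x = 1 ∧ ¬ Commute t x ∧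
        ∀ y : ↥(Cfsg.SU 3 F q), y ≠ 1 → y * y = 1 → ¬ (Commute t y ∧ Commute y x)} = (q + 1) * (q ^ 2 - 1) ∧
    ∀ x : ↥(Cfsg.SU 3 F q), x ≠ 1 → x * x = 1 →
      ∃ y z : ↥(Cfsg.SU 3 F q), y ≠ 1 ∧ y * y = 1 ∧ z ≠ 1 ∧ z * z = 1 ∧
        Commute t y ∧ Commute y z ∧ Commute z x := by
  classical
  have h2 : (2 : F) ≠ 0 := by
    intro h
    have hc : ringChar F = 2 := by
      have := (ringChar.spec F 2).1 (by exact_mod_cast h)
      exact (Nat.dvd_prime Nat.prime_two).1 this |>.resolve_left CharP.ringChar_ne_one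
    have := (FiniteField.even_card_iff_char_two (F := F)).1 hc
    rw [hF] at this
    obtain ⟨k, rfl⟩ := hq
    have h3 : (2 * k + 1) ^ 2 = 2 * (2 * k ^ 2 + 2 * k) + 1 := by ring
    omega
  obtain ⟨k, hk⟩ : ∃ k, q = k + 2 := ⟨q - 2, by have := two_le_of_card_sq hF; omega⟩
  have hE : q ^ 2 - 1 = (k + 1) * (k + 3) := by
    rw [hk, show (k + 2) ^ 2 = (k + 1) * (k + 3) + 1 by ring, Nat.add_sub_cancel]
  have hE0 : 0 < (k + 1) * (k + 3) := by positivity
  obtain ⟨v, hv⟩ := exists_isR_of_inv hF h2 ht ht2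
  obtain ⟨c1, c2⟩ := card_iso_orth hv.1
  have hne : ∀ {x w}, IsR hF x w → hermSesq hF 3 v w = 0 → x ≠ t := fun {x w} hx h0 h1 => by
    obtain ⟨a, ha, rfl⟩ := hv.par h2 (h1 ▸ hx)
    rw [map_smul, smul_eq_mul] at h0
    exact mul_ne_zero ha hv.1 h0
  -- neighbours
  have e1 : Nat.card {x : ↥(Cfsg.SU 3 F q) // x ≠ 1 ∧ x * x = 1 ∧ x ≠ t ∧ Commute t x} = q * (q - 1) := by
    have h3 := count (hF := hF) h2 (fun x => x ≠ t ∧ Commute t x) (fun w => hermSesq hF 3 v w = 0) fun x w hx => by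
      rw [hv.commute_iff h2 hx]
      exact ⟨fun h => h.2.resolve_right h.1.symm, fun h => ⟨hne hx h, Or.inl h⟩⟩
    have h4 := card_split (fun w : Fin 3 → F => hermSesq hF 3 v w = 0) fun w => hermSesq hF 3 w w = 0
    have h4' : Nat.card {w : Fin 3 → F // hermSesq hF 3 v w = 0 ∧ ¬ hermSesq hF 3 w w = 0} =
        Nat.card {w : Fin 3 → F // hermSesq hF 3 w w ≠ 0 ∧ hermSesq hF 3 v w = 0} :=
      Nat.card_congr (Equiv.subtypeEquivRight fun w => and_comm)
    rw [c1, c2, h4', ← h3, hE] at h4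
    refine Nat.eq_of_mul_eq_mul_right hE0 ?_
    have h5 : q ^ 4 = (k + 1) * (k + 3) * (q + 1) + 1 + q * (q - 1) * ((k + 1) * (k + 3)) := by
      rw [hk, show k + 2 - 1 = k + 1 from rfl]; ring
    omega
  -- distance three
  have e3 : Nat.card {x : ↥(Cfsg.SU 3 F q) // x ≠ 1 ∧ x * x = 1 ∧ ¬ Commute t x ∧
        ∀ y : ↥(Cfsg.SU 3 F q), y ≠ 1 → y * y = 1 → ¬ (Commute t y ∧ Commute y x)} = (q + 1) * (q ^ 2 - 1) := by
    have h3 := count (hF := hF) h2 (fun x => ¬ Commute t x ∧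
        ∀ y : ↥(Cfsg.SU 3 F q), y ≠ 1 → y * y = 1 → ¬ (Commute t y ∧ Commute y x))
        (fun w => hermSesq hF 3 v w ≠ 0 ∧ proj (hF := hF) v w ≠ 0 ∧
          hermSesq hF 3 (proj (hF := hF) v w) (proj (hF := hF) v w) = 0) fun x w hx => by
      constructor
      · rintro ⟨hc, h⟩
        refine ⟨fun h0 => hc ((hv.commute_iff h2 hx).2 (Or.inl h0)), fun h0 => ?_, ?_⟩
        · rw [proj, sub_eq_zero] at h0
          refine hc ((hv.commute_iff h2 hx).2 (Or.inr ((hv.smul fun h6 => hx.ne_zero ?_).unique (h0 ▸ hx))))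
          rw [h0, h6, zero_smul]
        · by_contra h0
          obtain ⟨y, a, b, c⟩ := (common_iff h2 hv hx hc).2 h0
          exact h y a b c
      · rintro ⟨a, b, c⟩
        have hc : ¬ Commute t x := fun hc => by
          rcases (hv.commute_iff h2 hx).1 hc with h | rfl
          · exact a h
          · obtain ⟨d, -, rfl⟩ := hv.par h2 hx
            exact b (by rw [proj, map_smul, smul_eq_mul, mul_div_cancel_right₀ _ hv.1, sub_self])
        exact ⟨hc, fun y h1 hy h => (common_iff h2 hv hx hc).1 ⟨y, h1, hy, h⟩ c⟩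
    have h4 := card_split (fun w : Fin 3 → F => hermSesq hF 3 v w = 0 ∧ hermSesq hF 3 w w = 0) fun w => w = 0
    have h5 : Nat.card {w : Fin 3 → F // (hermSesq hF 3 v w = 0 ∧ hermSesq hF 3 w w = 0) ∧ w = 0} = 1 :=
      Nat.card_eq_one_iff_exists.2 ⟨⟨0, by simp [-hermSesq_apply]⟩, fun y => Subtype.ext y.2.2⟩
    rw [c2, h5] at h4
    have h6 : Nat.card {w : Fin 3 → F // hermSesq hF 3 w w ≠ 0 ∧ (hermSesq hF 3 v w ≠ 0 ∧ proj (hF := hF) v w ≠ 0 ∧
          hermSesq hF 3 (proj (hF := hF) v w) (proj (hF := hF) v w) = 0)} =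
        Nat.card {w : Fin 3 → F // (hermSesq hF 3 v w = 0 ∧ hermSesq hF 3 w w = 0) ∧ ¬ w = 0} * (q ^ 2 - 1) := by
      rw [← hF, ← Fintype.card_units, ← Nat.card_eq_fintype_card, ← Nat.card_prod]
      refine Nat.card_eq_of_bijective (fun w => (⟨proj (hF := hF) v w.1, ⟨B_proj hv.1 _, w.2.2.2.2⟩, w.2.2.2.1⟩,
        Units.mk0 _ (div_ne_zero w.2.2.1 hv.1))) ⟨fun a b hab => ?_, ?_⟩
      · have h7 : proj (hF := hF) v a.1 = proj (hF := hF) v b.1 := congrArg (fun z => z.1.1) hab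
        have h8 : hermSesq hF 3 v a.1 / hermSesq hF 3 v v = hermSesq hF 3 v b.1 / hermSesq hF 3 v v :=
          congrArg (fun z => (z.2 : F)) hab
        rw [proj, proj, h8, sub_left_inj] at h7
        exact Subtype.ext h7
      · rintro ⟨⟨w, ⟨a, b⟩, c⟩, d⟩
        have h7 : hermSesq hF 3 v (w + (d : F) • v) / hermSesq hF 3 v v = d := by
          rw [map_add, map_smul, a, zero_add, smul_eq_mul, mul_div_cancel_right₀ _ hv.1]
        have h8 : proj (hF := hF) v (w + (d : F) • v) = w := by rw [proj, h7, add_sub_cancel_right]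
        have h9 : hermSesq hF 3 v (w + (d : F) • v) ≠ 0 := fun h => d.ne_zero (by rw [← h7, h, zero_div])
        refine ⟨⟨w + (d : F) • v, fun h => ?_, h9, h8.symm ▸ c, h8.symm ▸ b⟩,
          Prod.ext (Subtype.ext h8) (Units.ext h7)⟩
        have h10 := N_proj hv.1 (w + (d : F) • v)
        rw [h8, b, h, mul_zero, zero_sub, eq_comm, neg_eq_zero] at h10
        exact mul_ne_zero h9 (fun h => h9 (B_symm_zero hF h)) h10
    rw [h6] at h3
    rw [Nat.eq_of_mul_eq_mul_right (hE ▸ hE0) h3, mul_comm]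
    omega
  refine ⟨e1, ?_, e3, fun x h1 hx => ?_⟩
  · have h3 := count (hF := hF) h2 (fun _ => True) (fun _ => True) fun _ _ _ => Iff.rfl
    have h4 := card_split (fun _ : Fin 3 → F => True) fun w => hermSesq hF 3 w w = 0
    have h5 := (herm_hermSesq hF 3).card_norm_eq hF (Module.finrank_fin_fun F) 0
    rw [normCount_zero hF, if_neg (by decide)] at h5
    have h4a : Nat.card {_w : Fin 3 → F // True} = (q ^ 2) ^ 3 := by
      rw [Nat.card_congr (Equiv.subtypeUnivEquiv fun _ => trivial), Nat.card_fun, Nat.card_eq_fintype_card, hF]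
      simp
    have h4b : Nat.card {w : Fin 3 → F // True ∧ hermSesq hF 3 w w = 0} =
        Nat.card {w : Fin 3 → F // hermSesq hF 3 w w = 0} :=
      Nat.card_congr (Equiv.subtypeEquivRight fun w => by simp only [true_and])
    have h4c : Nat.card {w : Fin 3 → F // True ∧ ¬ hermSesq hF 3 w w = 0} =
        Nat.card {w : Fin 3 → F // hermSesq hF 3 w w ≠ 0 ∧ True} :=
      Nat.card_congr (Equiv.subtypeEquivRight fun w => and_comm)
    rw [h4a, h4b, h5, h4c, ← h3] at h4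
    have h6 := card_split (fun x : Cfsg.SU 3 F q => x ≠ 1 ∧ x * x = 1 ∧ True) fun x => Commute t x
    have h7 := card_split (fun x : Cfsg.SU 3 F q => (x ≠ 1 ∧ x * x = 1 ∧ True) ∧ Commute t x) fun x => x = t
    have h8 := card_split (fun x : Cfsg.SU 3 F q => (x ≠ 1 ∧ x * x = 1 ∧ True) ∧ ¬ Commute t x)
      fun x => ∃ y : ↥(Cfsg.SU 3 F q), y ≠ 1 ∧ y * y = 1 ∧ Commute t y ∧ Commute y x
    have h9 : Nat.card {x : Cfsg.SU 3 F q // ((x ≠ 1 ∧ x * x = 1 ∧ True) ∧ Commute t x) ∧ x = t} = 1 :=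
      Nat.card_eq_one_iff_exists.2 ⟨⟨t, ⟨⟨ht, ht2, trivial⟩, Commute.refl t⟩, rfl⟩, fun y => Subtype.ext y.2.2⟩
    have h10 : Nat.card {x : Cfsg.SU 3 F q // ((x ≠ 1 ∧ x * x = 1 ∧ True) ∧ Commute t x) ∧ ¬ x = t} = q * (q - 1) :=
      (Nat.card_congr (Equiv.subtypeEquivRight fun x => by tauto)).trans e1
    have h11 : Nat.card {x : Cfsg.SU 3 F q // ((x ≠ 1 ∧ x * x = 1 ∧ True) ∧ ¬ Commute t x) ∧
        ¬ ∃ y : ↥(Cfsg.SU 3 F q), y ≠ 1 ∧ y * y = 1 ∧ Commute t y ∧ Commute y x} = (q + 1) * (q ^ 2 - 1) :=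
      (Nat.card_congr (Equiv.subtypeEquivRight fun x => by
        simp only [and_true, not_exists, not_and, and_assoc])).trans e3
    have h12 : Nat.card {x : Cfsg.SU 3 F q // ((x ≠ 1 ∧ x * x = 1 ∧ True) ∧ ¬ Commute t x) ∧
        ∃ y : ↥(Cfsg.SU 3 F q), y ≠ 1 ∧ y * y = 1 ∧ Commute t y ∧ Commute y x} =
        Nat.card {x : ↥(Cfsg.SU 3 F q) // x ≠ 1 ∧ x * x = 1 ∧ ¬ Commute t x ∧
          ∃ y : ↥(Cfsg.SU 3 F q), y ≠ 1 ∧ y * y = 1 ∧ Commute t y ∧ Commute y x} :=
      Nat.card_congr (Equiv.subtypeEquivRight fun x => by simp only [and_true, and_assoc])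
    rw [h9, h10] at h7
    rw [h11, h12] at h8
    rw [h7, h8] at h6
    rw [h6] at h4
    rw [show 3 - 1 = 2 from rfl] at h4
    generalize Nat.card {x : ↥(Cfsg.SU 3 F q) // x ≠ 1 ∧ x * x = 1 ∧ ¬ Commute t x ∧
          ∃ y : ↥(Cfsg.SU 3 F q), y ≠ 1 ∧ y * y = 1 ∧ Commute t y ∧ Commute y x} = n at h4 ⊢
    rw [hE] at h4 ⊢
    subst hk
    simp only [show k + 2 - 1 = k + 1 from rfl, show k + 2 - 2 = k from rfl] at h4 ⊢
    refine Nat.eq_of_mul_eq_mul_right hE0 ?_
    zify at h4 ⊢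
    linear_combination -h4
  · by_cases hc : Commute t x
    · exact ⟨t, t, ht, ht2, ht, ht2, Commute.refl t, Commute.refl t, hc⟩
    obtain ⟨w, hw⟩ := exists_isR_of_inv hF h2 h1 hx
    by_cases h0 : hermSesq hF 3 (proj (hF := hF) v w) (proj (hF := hF) v w) ≠ 0
    · obtain ⟨y, a, b, c, d⟩ := (common_iff h2 hv hw hc).2 h0
      exact ⟨t, y, ht, ht2, a, b, Commute.refl t, c, d⟩
    rw [not_not] at h0
    obtain ⟨u₀, hu₀, hu₀'⟩ := (herm_hermSesq hF 3).exists_nonisotropic_orth_of_lt (W := F ∙ v) (by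
      rw [finrank_span_singleton hv.ne_zero]; simp)
    rw [mem_orth_span_singleton] at hu₀
    obtain ⟨w', hw'⟩ : ∃ w', w' = proj (hF := hF) v w := ⟨_, rfl⟩
    have hvw' : hermSesq hF 3 v w' = 0 := hw' ▸ B_proj hv.1 w
    rw [← hw'] at h0
    have hκ : hermSesq hF 3 u₀ w' ≠ 0 := fun h => by
      have h5 := eq_zero_of_orth hu₀' hv.1 (B_symm_zero hF hu₀) h hvw' h0
      rw [hw', proj, sub_eq_zero] at h5
      refine hc ((hv.commute_iff h2 hw).2 (Or.inr ((hv.smul fun h6 => hw.ne_zero ?_).unique (h5 ▸ hw))))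
      rw [h5, h6, zero_smul]
    have hκ' : hermSesq hF 3 w' u₀ ≠ 0 := fun h => hκ (B_symm_zero hF h)
    obtain ⟨c, hcd⟩ : ∃ c, c = -(hermSesq hF 3 u₀ w' * hermSesq hF 3 w' u₀) / hermSesq hF 3 w w := ⟨_, rfl⟩
    have hc0 : c ≠ 0 := hcd ▸ div_ne_zero (neg_ne_zero.2 (mul_ne_zero hκ hκ')) hw.1
    have hσc : frobq hF c = c := by
      rw [hcd]; simp only [map_div₀, map_neg, map_mul, B_symm]; ring
    obtain ⟨u, hu⟩ : ∃ u, u = u₀ + ((c - hermSesq hF 3 u₀ u₀) / 2 / hermSesq hF 3 u₀ w') • w' := ⟨_, rfl⟩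
    have hNu : hermSesq hF 3 u u = c := by
      rw [hu]
      simp only [map_add, map_smulₛₗ, LinearMap.add_apply, LinearMap.smul_apply, smul_eq_mul, RingHom.id_apply,
        map_div₀, map_sub, map_ofNat, B_symm, hσc, h0]
      field_simp
      ring
    have hvu : hermSesq hF 3 v u = 0 := by rw [hu, map_add, map_smul, hu₀, hvw', smul_zero, add_zero]
    have hw'u : hermSesq hF 3 w' u = hermSesq hF 3 w' u₀ := by rw [hu, map_add, map_smul, h0, smul_zero, add_zero]
    have huw : hermSesq hF 3 u w = hermSesq hF 3 u₀ w' := by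
      have : w = w' + (hermSesq hF 3 v w / hermSesq hF 3 v v) • v := by rw [hw', proj, sub_add_cancel]
      rw [this, map_add, map_smul, B_symm_zero hF hvu, smul_zero, add_zero, ← B_symm, hw'u, B_symm]
    obtain ⟨y, hy⟩ := exists_isR hF (v := u) (hNu ▸ hc0)
    have hty := (hv.commute_iff h2 hy).2 (Or.inl hvu)
    by_cases hyx : Commute y x
    · exact ⟨t, y, ht, ht2, hy.ne_one h2, hy.mul_self, Commute.refl t, hty, hyx⟩
    obtain ⟨z, a, b, c', d⟩ := (common_iff h2 hy hw hyx).2 fun h => by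
      have h5 := N_proj hy.1 w
      rw [h, mul_zero, hNu, ← B_symm hF u w, huw, B_symm, hcd, div_mul_cancel₀ _ hw.1] at h5
      exact mul_ne_zero h2 (mul_ne_zero hκ hκ') (by linear_combination h5)
    exact ⟨y, z, hy.ne_one h2, hy.mul_self, a, b, hty, c', d⟩

end Cfsg.Agent.S2356
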