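import Cfsg.Statements.S2385
import Cfsg.Agent.Known.SpSemi
import Cfsg.Agent.Known.SelfDualCount

set_option autoImplicit false
open Cfsg

namespace Cfsg.Agent.S2385

open Cfsg.Lib.Known Cfsg.Lib.Class Polynomial

/-- In the symplectic group `Sp_{2n}(q)`, `q` a power of the prime `p`, the number of conjugacy classes of elements of order prime to `p` is `q^n`. -/
theorem result {F : Type*} [Field F] [Fintype F] {q : ℕ} (hq : Fintype.card F = q) (p : ℕ) [Fact p.Prime] [CharP F p] (n : ℕ) :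
    Nat.card {c : ConjClasses ↥(Matrix.symplecticGroup (Fin n) F) //
      ∃ g : ↥(Matrix.symplecticGroup (Fin n) F), ConjClasses.mk g = c ∧ (orderOf g).Coprime p} = q ^ n := by
  rw [card_Sp_classes_of_nonsplit _ (fun s => ∀ x ∈ s, x.2 = 1) (Sp_orderOf_coprime_iff p)
      fun g g' hg h => (Sp_isConj_iff_of_coprime p hg).mpr h, ← hq, ← Nat.card_eq_fintype_card,
    ← card_palindromic n, ← Nat.card_congr (ssTypeEquiv (2 * n) fun f =>
      dualPoly (RingHom.id F) f = f ∧ f.coeff 0 = 1)]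
  refine Nat.card_congr (Equiv.subtypeEquivRight fun s => ⟨fun h => ⟨h.1.1, h.1.2.1,
    ⟨by rw [← elProd_map_dualED, h.2.1],
      (spReal_of_parity h.1.1 h.1.2.2 h.2.1 h.2.2.1).coeff_zero_elProd⟩, h.2.2.2⟩, fun h => ?_⟩)
  obtain ⟨h2, h3, ⟨h4, h5⟩, h6⟩ := h
  have h7 : (elProd s).coeff 0 ≠ 0 := by rw [h5]; simp
  have h8 := h2.forall_ne_X_iff.mpr h7
  have h9 : s.map (dualED (RingHom.id F)) = s := by
    rw [← h2.ssType_elProd h6, ssType_map_dualED (fun _ => rfl) h2.monic_elProd h7, h4]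
  exact ⟨⟨h2, h3, h8⟩, h9,
    spParity_of_semisimple h2 h8 h9 h6 (by rw [h3]; exact even_two_mul n) h5, h6⟩

end Cfsg.Agent.S2385
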