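import Cfsg.Statements.S2413
import Cfsg.Agent.Known.GenCls

set_option autoImplicit false
open Cfsg

namespace Cfsg.Agent.S2413

/-- The simple orthogonal group `PΩ_{2m+1}(q)` (commutator subgroup of the orthogonal group of `x₀² + Σ x_i y_i` modulo its centre) with `m ≥ 2` and `q` odd is generated by two of its elements. -/
theorem result {F : Type*} [Field F] [Fintype F] (hodd : Odd (Fintype.card F)) (m : ℕ) (hm : 2 ≤ m) :
    ∃ a b : Cfsg.POmega F (Cfsg.quadFormOdd m F), Subgroup.closure ({a, b} : Set (Cfsg.POmega F (Cfsg.quadFormOdd m F))) = ⊤ := by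
  obtain rfl | ⟨k, rfl⟩ : m = 2 ∨ ∃ k, m = k + 3 := (Nat.lt_or_ge m 3).imp (by omega) fun h => ⟨m - 3, by omega⟩
  · obtain ⟨e⟩ := Cfsg.Agent.S0301.result hodd
    refine Cfsg.Lib.Known.two_gen_of_surj e.symm.toMonoidHom e.symm.surjective (Cfsg.Agent.S2411.result 2 le_rfl fun _ => ?_)
    have := Fintype.one_lt_card (α := F)
    obtain ⟨j, hj⟩ := hodd
    omega
  refine Cfsg.Lib.Known.two_gen_odd (fun h => ?_) k
  have := Cfsg.Lib.Class.Orth.even_card_of_char_two h
  rw [Nat.card_eq_fintype_card] at this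
  exact Nat.not_even_iff_odd.2 hodd this

end Cfsg.Agent.S2413
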