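import Cfsg.Statements.S2444
import Cfsg.Agent.Known.CycProd
import Cfsg.Agent.Known.RUBase

set_option autoImplicit false
open Cfsg

namespace Cfsg.Agent.S2444

open Cfsg.Lib.Known.RU Cfsg.Lib.Known.CP

/-- In the special linear group SL(n,F) over a finite field F, with n ≥ 2 and (n, |F|) not (2,2) or (2,3), every element is a commutator a·b·a⁻¹·b⁻¹ of two elements of SL(n,F). -/
theorem result {F : Type*} [Field F] [Fintype F] (n : ℕ) (hn : 2 ≤ n) (hex : n = 2 → 4 ≤ Fintype.card F) :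
    ∀ g : Matrix.SpecialLinearGroup (Fin n) F, ∃ a b : Matrix.SpecialLinearGroup (Fin n) F, g = a * b * a⁻¹ * b⁻¹ := by
  intro g
  have k : ∀ a : (Fin n → F) ≃ₗ[F] (Fin n → F), LinearMap.det a.toLinearMap = 1 ↔
      a ∈ Cfsg.Lib.Class.SLV F (Fin n → F) := fun a => by
    rw [MonoidHom.mem_ker, ← Units.val_eq_one, LinearEquiv.coe_det]
  obtain ⟨a, b, ha, hb, e⟩ := isComm_of_det g.toLin' ((k _).2 (toLin'_mem_SLV g)) (by simpa)
    (by simpa)
  obtain ⟨a, rfl⟩ := exists_toLin' ((k a).1 ha)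
  obtain ⟨b, rfl⟩ := exists_toLin' ((k b).1 hb)
  exact ⟨a, b, Matrix.SpecialLinearGroup.toLin'_injective (by simpa using e)⟩

end Cfsg.Agent.S2444
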