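import Cfsg.Statements.S2450
import Cfsg.Agent.Known.SL2Prod

set_option autoImplicit false
open Cfsg

namespace Cfsg.Agent.S2450

open Cfsg.Lib.Known Cfsg.Lib.Known.GL2 Matrix

/-- The Arad–Herzog conjecture for PSL(2,q): let F be a finite field with q ≥ 4 elements. For any two non-identity elements a, b of PSL(2,F), the set of products of a conjugate of a with a conjugate of b is not a single conjugacy class. -/
theorem result {F : Type*} [Field F] [Fintype F] (h4 : 4 ≤ Fintype.card F)
    (a b : Matrix.ProjectiveSpecialLinearGroup (Fin 2) F) (ha : a ≠ 1) (hb : b ≠ 1) (c : Matrix.ProjectiveSpecialLinearGroup (Fin 2) F) :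
    {g : Matrix.ProjectiveSpecialLinearGroup (Fin 2) F | ∃ u v : Matrix.ProjectiveSpecialLinearGroup (Fin 2) F, g = (u * a * u⁻¹) * (v * b * v⁻¹)} ≠ {g | IsConj c g} := by
  classical
  intro H
  obtain ⟨a, rfl⟩ := piSL_surjective a
  obtain ⟨b, rfl⟩ := piSL_surjective b
  obtain ⟨c, rfl⟩ := piSL_surjective c
  rw [Ne, piSL_eq_one_iff] at ha hb
  obtain ⟨x, hx⟩ := exists_isConj_entry ha
  obtain ⟨y, hy⟩ := exists_isConj_entry hb
  obtain ⟨c₁, c₀, h⟩ := trace_mul_conj_u (x * a * x⁻¹) (y * b * y⁻¹)
  have h1 := card_le_of_quadratic (neg_ne_zero.2 (mul_ne_zero hx hy)) (b := c₁) (c := c₀)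
    (S := {((slLin F).ρ c).trace, -((slLin F).ρ c).trace}) fun l => by
      rw [← h l]
      have h2 : piSL F (x * a * x⁻¹ * ((slLin F).u l * (y * b * y⁻¹) * ((slLin F).u l)⁻¹)) ∈
          {g | IsConj (piSL F c) g} := by
        rw [← H]
        exact ⟨piSL F x, piSL F ((slLin F).u l * y), by simp [mul_assoc]⟩
      rcases isConj_piSL_iff.1 h2 with h3 | h3
      · rw [← (slLin F).trace_eq_of_isConj h3]; simp
      · have := (slLin F).trace_eq_of_isConj h3
        rw [trace_neg_SL] at this
        rw [this]; simp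
  by_cases h2 : (2 : F) = 0
  · rw [show -((slLin F).ρ c).trace = ((slLin F).ρ c).trace by
      linear_combination (-((slLin F).ρ c).trace) * h2] at h1
    simp at h1
    omega
  · have h3 := Nat.odd_iff.1 (odd_card_of_two_ne_zero h2)
    have h5 := Finset.card_le_two (a := ((slLin F).ρ c).trace) (b := -((slLin F).ρ c).trace)
    omega

end Cfsg.Agent.S2450
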