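import Cfsg.Statements.S2455
import Cfsg.Agent.Known.SL2Prod

set_option autoImplicit false
open Cfsg

namespace Cfsg.Agent.S2455

open Cfsg.Lib.Known Cfsg.Lib.Known.GL2 Matrix

/-- A strong covering result in the direction of Thompson's conjecture (non-identity elements) for PSL(2,q), q odd: let F be a finite field of odd characteristic p with at least 5 elements and let x ∈ PSL(2,F) have order greater than 2 and not divisible by p (so x is not unipotent). Then every non-identity element of PSL(2,F) is a product of two conjugates of x. -/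
theorem result {F : Type*} [Field F] [Fintype F] (p : ℕ) [Fact p.Prime] [CharP F p] (hp : p ≠ 2) (h5 : 5 ≤ Fintype.card F)
    (x : Matrix.ProjectiveSpecialLinearGroup (Fin 2) F) (hx2 : 2 < orderOf x) (hxp : ¬ p ∣ orderOf x) : ∀ g : Matrix.ProjectiveSpecialLinearGroup (Fin 2) F, g ≠ 1 → ∃ u v : Matrix.ProjectiveSpecialLinearGroup (Fin 2) F, g = (u * x * u⁻¹) * (v * x * v⁻¹) := by
  have h2 := two_ne_zero_of_charP (F := F) p hp
  obtain ⟨x, rfl⟩ := piSL_surjective x
  have hx : x ∉ (slLin F).Z := fun h => by simp [piSL_eq_one_iff.2 h] at hx2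
  have ht : ((slLin F).ρ x).trace ≠ 0 := fun h => by
    rw [orderOf_piSL_eq_two_iff.2 ⟨hx, h⟩] at hx2; omega
  have hd : ((slLin F).ρ x).trace ^ 2 ≠ 4 := fun h => by
    obtain ⟨z, hz, b, hb, h'⟩ := exists_isConj_Z_mul_u (slLin F) hx (by rw [disc_SL, h, sub_self])
    rw [← orderOf_eq_of_isConj (isConj_piSL_iff.2 (Or.inl h')), orderOf_piSL_Z_mul_u p hz hb] at hxp
    exact hxp dvd_rfl
  have key : ∀ g : SL2 F, g ∉ (slLin F).Z → ((slLin F).ρ g).trace ≠ 2 →
      ∃ u v, piSL F g = u * piSL F x * u⁻¹ * (v * piSL F x * v⁻¹) := by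
    intro g hg hg2
    obtain ⟨y, z, hy, hz, rfl⟩ : ∃ y z : SL2 F, ((slLin F).ρ y).trace = ((slLin F).ρ x).trace ∧
        ((slLin F).ρ z).trace = ((slLin F).ρ x).trace ∧ g = y * z := by
      by_cases h : ((slLin F).ρ g).trace = -2
      · refine exists_mul_of_conic hg (b := (2 * ((slLin F).ρ x).trace)⁻¹)
          (d := (2 * ((slLin F).ρ x).trace)⁻¹) ?_
        rw [h]; field_simp; ring
      · refine exists_mul_of_disc ?_ _ _
        rw [disc_SL, show ((slLin F).ρ g).trace ^ 2 - 4 =
          (((slLin F).ρ g).trace - 2) * (((slLin F).ρ g).trace + 2) by ring]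
        exact mul_ne_zero (sub_ne_zero.2 hg2) fun h' => h (eq_neg_of_add_eq_zero_left h')
    obtain ⟨u, rfl⟩ := isConj_iff.1 (isConj_of_trace_SL hd hy.symm)
    obtain ⟨v, rfl⟩ := isConj_iff.1 (isConj_of_trace_SL hd hz.symm)
    exact ⟨piSL F u, piSL F v, by simp⟩
  intro g hg
  obtain ⟨g, rfl⟩ := piSL_surjective g
  by_cases h : ((slLin F).ρ g).trace = 2
  · rw [← piSL_neg] at hg ⊢
    refine key _ (by rwa [← piSL_eq_one_iff]) ?_
    rw [trace_neg_SL, h]
    intro h'
    exact mul_ne_zero h2 h2 (by linear_combination -h')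
  · exact key _ (by rwa [← piSL_eq_one_iff]) h

end Cfsg.Agent.S2455
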