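import Cfsg.Statements.S2456
import Cfsg.Agent.Known.SL2Prod

set_option autoImplicit false
open Cfsg

namespace Cfsg.Agent.S2456

open Cfsg.Lib.Known Cfsg.Lib.Known.GL2 Matrix

/-- A strong covering result in the direction of Thompson's conjecture (non-identity elements) for PSL(2,q), q even: let F be a finite field of characteristic 2 with q ≥ 4 elements and let x ∈ PSL(2,F) have order greater than 2 and not dividing q + 1. Then every non-identity element of PSL(2,F) is a product of two conjugates of x. -/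
theorem result {F : Type*} [Field F] [Fintype F] [CharP F 2] (h4 : 4 ≤ Fintype.card F)
    (x : Matrix.ProjectiveSpecialLinearGroup (Fin 2) F) (hx2 : 2 < orderOf x) (hxq : ¬ orderOf x ∣ Fintype.card F + 1) : ∀ g : Matrix.ProjectiveSpecialLinearGroup (Fin 2) F, g ≠ 1 → ∃ u v : Matrix.ProjectiveSpecialLinearGroup (Fin 2) F, g = (u * x * u⁻¹) * (v * x * v⁻¹) := by
  have h2 : (2 : F) = 0 := CharP.cast_eq_zero F 2
  obtain ⟨x, rfl⟩ := piSL_surjective x
  have hx : x ∉ (slLin F).Z := fun h => by simp [piSL_eq_one_iff.2 h] at hx2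
  have ht : ((slLin F).ρ x).trace ≠ 0 := fun h => by
    rw [orderOf_piSL_eq_two_iff.2 ⟨hx, h⟩] at hx2; omega
  have he : ¬ IsEll ((slLin F).ρ x) := fun h => hxq (orderOf_dvd_of_pow_eq_one (by
    rw [← map_pow, pow_card_add_one_of_isEll_SL h, map_one]))
  rw [isEll_iff, det_SL] at he
  push Not at he
  obtain ⟨c, hc⟩ := he
  have key : ∀ y : SL2 F, ((slLin F).ρ y).trace = ((slLin F).ρ x).trace → IsConj x y := by
    intro y hy
    refine isConj_of_trace_SL ?_ hy.symm
    intro h
    exact ht (pow_eq_zero_iff two_ne_zero |>.1 (by linear_combination h + 2 * h2))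
  intro g hg
  obtain ⟨g, rfl⟩ := piSL_surjective g
  rw [Ne, piSL_eq_one_iff] at hg
  obtain ⟨y, z, hy, hz, rfl⟩ : ∃ y z : SL2 F, ((slLin F).ρ y).trace = ((slLin F).ρ x).trace ∧
      ((slLin F).ρ z).trace = ((slLin F).ρ x).trace ∧ g = y * z := by
    by_cases h : ((slLin F).ρ g).trace = 0
    · refine exists_mul_of_conic hg (b := c) (d := 0) ?_
      linear_combination hc
    · refine exists_mul_of_disc ?_ _ _
      rw [disc_SL]
      intro h'
      exact h (pow_eq_zero_iff two_ne_zero |>.1 (by linear_combination h' + 2 * h2))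
  obtain ⟨u, rfl⟩ := isConj_iff.1 (key y hy)
  obtain ⟨v, rfl⟩ := isConj_iff.1 (key z hz)
  exact ⟨piSL F u, piSL F v, by simp⟩

end Cfsg.Agent.S2456
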