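import Cfsg.Statements.S2457
import Cfsg.Agent.Known.SzTable2
import Cfsg.Agent.Char.ClassMult

set_option autoImplicit false
open Cfsg

namespace Cfsg.Agent.S2457

open Cfsg.Lib.Chev Cfsg.Lib.Char Cfsg.Lib.Known.SzChar Cfsg.Lib.Known.TI
open scoped ComplexConjugate

/-- the summand of the class multiplication coefficient -/
noncomputable def term {G : Type*} [Group G] (x g : G) (χ : G → ℂ) : ℝ :=
  (χ x * χ x * conj (χ g) / χ 1).re

theorem term_eq {G : Type*} [Group G] (x g : G) {χ : G → ℂ} {d c : ℝ} (hd : χ 1 = d)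
    (hc : χ x * χ x = c) : term x g χ = c * (χ g).re / d := by
  simp [term, hd, hc]

theorem term_ge {G : Type*} [Group G] (x g : G) {χ : G → ℂ} {d B : ℝ} (hd : χ 1 = d) (h0 : 0 < d)
    (hB : ‖χ g‖ ≤ B) : -(B / d * ‖χ x‖ ^ 2) ≤ term x g χ := by
  have h1 : ‖χ x * χ x * conj (χ g) / χ 1‖ ≤ B / d * ‖χ x‖ ^ 2 := by
    rw [norm_div, norm_mul, norm_mul, Complex.norm_conj, hd, Complex.norm_real, Real.norm_of_nonneg h0.le,
      div_mul_eq_mul_div, mul_comm B, sq]
    gcongr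
  exact (neg_le_neg h1).trans (neg_le_of_abs_le (Complex.abs_re_le_norm _))

theorem cover_of {G : Type*} [Group G] [Finite G] (x g : G) {a b c d : G → ℂ}
    (ha : IsIrrCharacter G a) (hb : IsIrrCharacter G b) (hc : IsIrrCharacter G c)
    (hd : IsIrrCharacter G d) (hab : a ≠ b) (hac : a ≠ c) (had : a ≠ d) (hbc : b ≠ c) (hbd : b ≠ d)
    (hcd : c ≠ d) (f : (G → ℂ) → ℝ) {C : ℝ} (hf : ∑ χ : IrrCharacter G, f χ = C)
    (h0 : ∀ χ, IsIrrCharacter G χ → χ ≠ a → χ ≠ b → χ ≠ c → χ ≠ d → 0 ≤ term x g χ + f χ)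
    (h : C < term x g a + term x g b + (term x g c + term x g d) + (f a + f b + f c + f d)) :
    ∃ u v : G, g = (u * x * u⁻¹) * (v * x * v⁻¹) := by
  classical
  have h1 : ∑ χ ∈ ({⟨a, ha⟩, ⟨b, hb⟩, ⟨c, hc⟩, ⟨d, hd⟩} : Finset (IrrCharacter G)),
      (term x g χ + f χ) ≤ ∑ χ : IrrCharacter G, (term x g χ + f χ) :=
    Finset.sum_le_sum_of_subset_of_nonneg (Finset.subset_univ _) fun χ _ hχ => by
      simp only [Finset.mem_insert, Finset.mem_singleton, not_or, Subtype.ext_iff] at hχ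
      exact h0 χ χ.2 hχ.1 hχ.2.1 hχ.2.2.1 hχ.2.2.2
  rw [Finset.sum_insert (by simp [hab, hac, had]), Finset.sum_insert (by simp [hbc, hbd]),
    Finset.sum_pair (by simp [hcd]), Finset.sum_add_distrib, hf] at h1
  have h2 : 0 < ∑ χ : IrrCharacter G, term x g χ := by
    simp only at h1
    linarith
  by_contra hcon
  have h3 := card_isConj_mul_eq x x g
  have : IsEmpty {p : G × G // IsConj x p.1 ∧ IsConj x p.2 ∧ p.1 * p.2 = g} := by
    refine ⟨fun p => hcon ?_⟩
    obtain ⟨u, hu⟩ := isConj_iff.mp p.2.1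
    obtain ⟨v, hv⟩ := isConj_iff.mp p.2.2.1
    exact ⟨u, v, by rw [hu, hv, p.2.2.2]⟩
  have : Nonempty {y : G // IsConj x y} := ⟨⟨x, IsConj.refl x⟩⟩
  rw [Nat.card_of_isEmpty, Nat.cast_zero, eq_comm, mul_eq_zero, div_eq_zero_iff, mul_self_eq_zero] at h3
  rcases h3 with (h3 | h3) | h3
  · exact natCard_cast_ne_zero _ h3
  · exact card_ne_zero G h3
  · have h4 := congrArg Complex.re h3
    rw [Complex.re_sum] at h4
    exact h2.ne' h4

set_option maxHeartbeats 1000000 in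
theorem main {F : Type*} [Field F] [Fintype F] {τ : Tw F} {G : Type*} [Group G] (M : SzModel τ G)
    {m : ℕ} (hm : 1 ≤ m) (hF : Fintype.card F = 2 ^ (2 * m + 1)) (x : G) (hx2 : 2 < orderOf x)
    (g : G) (hg : g ≠ 1) : ∃ u v : G, g = (u * x * u⁻¹) * (v * x * v⁻¹) := by
  have := M.finite
  have := Fintype.ofFinite G
  obtain ⟨A, A', h⟩ := exists_pair M hm hF
  obtain ⟨W, W', hW, hW'⟩ := h.exists_rowW hF
  obtain ⟨t, ht, ht2⟩ : ∃ t : ℝ, (2 : ℂ) ^ m = t ∧ 2 ≤ t := ⟨2 ^ m, by simp, by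
    calc (2 : ℝ) = 2 ^ 1 := by norm_num
      _ ≤ _ := pow_le_pow_right₀ (by norm_num) hm⟩
  have hq : (Fintype.card F : ℂ) = (2 * t ^ 2 : ℝ) := by
    rw [hF]
    push_cast
    rw [← ht]
    ring
  replace h : Pair M A A' (2 * t) := by convert h using 1; rw [← ht]; ring
  rw [ht] at hW hW'
  have ht0 : (t : ℂ) ≠ 0 := by exact_mod_cast (by linarith : t ≠ 0)
  have n1 := hW.ne_one_St (mul_ne_zero Complex.I_ne_zero ht0)
  have n2 := hW'.ne_one_St (mul_ne_zero (neg_ne_zero.mpr Complex.I_ne_zero) ht0)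
  have cov := fun (f : (G → ℂ) → ℝ) (C : ℝ) hf
    (h0 : ∀ χ, RowI M χ ∨ RowY M A A' (2 * t) χ ∨ RowY M A' A (-(2 * t)) χ →
      0 ≤ term x g χ + f χ) h1 => cover_of x g isIrrCharacter_one (St_irr M) hW.irr hW'.irr
    (St_ne_one M).symm n1.1.symm n2.1.symm n1.2.symm n2.2.symm (hW.ne ht0 hW') f (C := C) hf
    (fun χ hχ h1 h2 h3 h4 => h0 χ (h.classify ht0 hW hW' hχ h1 h2 h3 h4)) h1
  -- degrees
  obtain ⟨q, hq2⟩ : ∃ q, q = 2 * t ^ 2 := ⟨_, rfl⟩
  rw [← hq2] at hq
  have hq8 : 8 ≤ q := by nlinarith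
  have hqt : 4 * t ≤ q := by nlinarith
  have dS : St M 1 = (q ^ 2 : ℝ) := by simp [St_one, hq]
  have dW : W 1 = (t * (q - 1) : ℝ) := by simp [hW.one, hq]
  have dW' : W' 1 = (t * (q - 1) : ℝ) := by simp [hW'.one, hq]
  have dI : ∀ χ, RowI M χ → χ 1 = (q ^ 2 + 1 : ℝ) := fun χ h => by simp [h.one, hq]
  have dY : ∀ χ, RowY M A A' (2 * t) χ → χ 1 = ((q - 1) * (q - 2 * t + 1) : ℝ) := fun χ h => by
    simp [h.one, hq]
  have dZ : ∀ χ, RowY M A' A (-(2 * t)) χ → χ 1 = ((q - 1) * (q + 2 * t + 1) : ℝ) := fun χ h => by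
    simp [h.one, hq]
  have pI : 0 < q ^ 2 + 1 := by positivity
  have pY : 0 < (q - 1) * (q - 2 * t + 1) := mul_pos (by linarith) (by linarith)
  have pZ : 0 < (q - 1) * (q + 2 * t + 1) := mul_pos (by linarith) (by linarith)
  have pW : 0 < t * (q - 1) := mul_pos (by linarith) (by linarith)
  have t1 : term x g (fun _ => 1) = 1 := by simp [term]
  have tW : ∀ c : ℝ, W x * W x = c → W' x * W' x = c →
      term x g W + term x g W' = c * (W g + W' g).re / (t * (q - 1)) := fun c h1 h2 => by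
    rw [term_eq x g dW h1, term_eq x g dW' h2, Complex.add_re]
    ring
  -- the column of `g`
  have col : -1 ≤ (St M g).re ∧ -(2 * t) ≤ (W g + W' g).re ∧ (∀ χ, RowI M χ → ‖χ g‖ ≤ 2) ∧
      (∀ χ, RowY M A' A (-(2 * t)) χ → ‖χ g‖ ≤ 2 * t + 1) ∧
      (((W g + W' g).re ≤ 0 ∧ ∀ χ, RowY M A A' (2 * t) χ → -1 ≤ (χ g).re) ∨
        ((W g + W' g).re = 2 ∧ St M g = -1 ∧ W g = 1 ∧ W' g = 1 ∧
          (∀ χ, RowY M A A' (2 * t) χ → ‖χ g‖ ≤ 4) ∧
          (∀ χ, RowI M χ → χ g = 0) ∧ ∀ χ, RowY M A' A (-(2 * t)) χ → χ g = 0)) := by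
    have e : ∀ {u : G} (_ : IsConj u g) {χ : G → ℂ} (_ : IsIrrCharacter G χ), χ g = χ u :=
      fun hu _ hχ => (hχ.isClassFunction.eq_of_isConj hu).symm
    rcases h.classes g with rfl | h1 | h1 | h1 | ⟨l, hl, h1⟩ | ⟨u, hu, hu1, h1⟩ | ⟨u, hu, hu1, h1⟩
    · exact absurd rfl hg
    · rw [e h1 (St_irr M), e h1 hW.irr, e h1 hW'.irr, St_T M (by simp), hW.sig, hW'.sig]
      refine ⟨by simp, by simp; linarith, fun χ h => by simp [e h1 h.irr, h.sig], fun χ h => ?_,
        Or.inl ⟨by simp; linarith, fun χ h => by simp [e h1 h.irr, h.sig]; linarith⟩⟩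
      rw [e h1 h.irr, h.sig, show -(2 * (t : ℂ)) - 1 = -((2 * t + 1 : ℝ) : ℂ) by push_cast; ring,
        norm_neg, Complex.norm_real, Real.norm_of_nonneg (by linarith)]
    · rw [e h1 (St_irr M), e h1 hW.irr, e h1 hW'.irr, St_T M (by simp), hW.rho, hW'.rho]
      exact ⟨by simp, by simp; linarith, fun χ h => by simp [e h1 h.irr, h.rho],
        fun χ h => by simp [e h1 h.irr, h.rho]; linarith,
        Or.inl ⟨by simp, fun χ h => by simp [e h1 h.irr, h.rho]⟩⟩
    · rw [e h1 (St_irr M), e h1 hW.irr, e h1 hW'.irr, St_T M (by simp), hW.rho', hW'.rho']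
      exact ⟨by simp, by simp; linarith, fun χ h => by simp [e h1 h.irr, h.rho'],
        fun χ h => by simp [e h1 h.irr, h.rho']; linarith,
        Or.inl ⟨by simp, fun χ h => by simp [e h1 h.irr, h.rho']⟩⟩
    · rw [e h1 (St_irr M), e h1 hW.irr, e h1 hW'.irr, St_D M hl, hW.hD l hl, hW'.hD l hl]
      exact ⟨by simp, by simp; linarith, fun χ h => e h1 h.irr ▸ h.hD l hl,
        fun χ h => by simp [e h1 h.irr, h.hD l hl]; linarith,
        Or.inl ⟨by simp, fun χ h => by simp [e h1 h.irr, h.hD l hl]⟩⟩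
    · have hf := h.t.fpf u hu hu1
      rw [e h1 (St_irr M), e h1 hW.irr, e h1 hW'.irr, St_fpf M hf, hW.hA u hu hu1, hW'.hA u hu hu1]
      exact ⟨by simp, by simp; linarith, fun χ h => by simp [e h1 h.irr, h.fpf u hf],
        fun χ h => by simp [e h1 h.irr, h.hA' u hu hu1]; linarith,
        Or.inr ⟨by norm_num, rfl, rfl, rfl, fun χ h => e h1 h.irr ▸ h.hA u hu hu1,
          fun χ h => e h1 h.irr ▸ h.fpf u hf, fun χ h => e h1 h.irr ▸ h.hA' u hu hu1⟩⟩
    · have hf := h.t'.fpf u hu hu1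
      rw [e h1 (St_irr M), e h1 hW.irr, e h1 hW'.irr, St_fpf M hf, hW.hA' u hu hu1,
        hW'.hA' u hu hu1]
      exact ⟨by simp, by simp; linarith, fun χ h => by simp [e h1 h.irr, h.fpf u hf],
        fun χ h => e h1 h.irr ▸ (h.hA u hu hu1).trans (by linarith),
        Or.inl ⟨by simp, fun χ h => by simp [e h1 h.irr, h.hA' u hu hu1]⟩⟩
  obtain ⟨c1, c2, c3, c4, c5⟩ := col
  have tS : ∀ c : ℝ, 0 ≤ c → c ≤ 1 → St M x * St M x = c → -(1 / q ^ 2) ≤ term x g (St M) := by
    intro c h0 h1 h2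
    rw [term_eq x g dS h2, ← neg_div]
    gcongr
    nlinarith
  -- the correction from the columns of the elements of order four
  have hρ : ∑ χ : IrrCharacter G,
      (1 / q * ((χ : G → ℂ) (M.T 1 0) * conj ((χ : G → ℂ) (M.T 1 1))).re) = 0 := by
    rw [← Finset.mul_sum, ← Complex.re_sum, sum_irr_mul_conj_of_not_isConj]
    · simp
    · intro hc
      have := hW.irr.isClassFunction.eq_of_isConj hc
      rw [hW.rho, hW.rho'] at this
      apply mul_ne_zero Complex.I_ne_zero ht0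
      linear_combination this / 2
  have covρ : (∀ χ, RowI M χ ∨ RowY M A A' (2 * t) χ ∨ RowY M A' A (-(2 * t)) χ →
      -(1 / q) ≤ term x g χ) → 0 ≤ term x g W + term x g W' → -(1 / q ^ 2) ≤ term x g (St M) →
      ∃ u v : G, g = (u * x * u⁻¹) * (v * x * v⁻¹) := by
    intro h1 h2 h3
    refine cov (fun χ => 1 / q * (χ (M.T 1 0) * conj (χ (M.T 1 1))).re) 0 hρ (fun χ hχ => ?_) ?_
    · have := h1 χ hχ
      rcases hχ with h | h | h <;> simp only [h.rho, h.rho'] <;> norm_num at this ⊢ <;> linarith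
    · simp only [t1, hW.rho, hW.rho', hW'.rho, hW'.rho', St_T M (a := 1) (b := 0) (by simp)]
      have h4 : 1 / q ^ 2 < 1 / q := by
        apply one_div_lt_one_div_of_lt <;> nlinarith
      have h5 : 1 / q * (t * t) = 1 / 2 := by
        rw [hq2]
        field_simp
      norm_num at h3 h4 h5 ⊢
      linarith
  have covA : ∀ κ : ℝ, (∀ χ, RowI M χ ∨ RowY M A A' (2 * t) χ ∨ RowY M A' A (-(2 * t)) χ →
      -(κ * ‖χ x‖ ^ 2) ≤ term x g χ) → St M x = -1 → W x * W x = 1 → W' x * W' x = 1 →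
      κ * (Nat.card (Subgroup.centralizer ({x} : Set G)) - 4) + 1 / q ^ 2 <
        1 + (W g + W' g).re / (t * (q - 1)) → ∃ u v : G, g = (u * x * u⁻¹) * (v * x * v⁻¹) := by
    intro κ h1 h2 h3 h4 h5
    refine cov (fun χ => κ * ‖χ x‖ ^ 2) (κ * Nat.card (Subgroup.centralizer ({x} : Set G)))
      (by rw [← Finset.mul_sum, sum_irr_normSq]) (fun χ hχ => by linarith [h1 χ hχ]) ?_
    have h6 := tS 1 zero_le_one le_rfl (by simp [h2])
    have h7 : ‖W x‖ ^ 2 = 1 := by rw [sq, ← norm_mul, h3, norm_one]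
    have h8 : ‖W' x‖ ^ 2 = 1 := by rw [sq, ← norm_mul, h4, norm_one]
    rw [tW 1 (by simpa using h3) (by simpa using h4), t1, h7, h8, h2]
    norm_num at h5 h6 ⊢
    linarith
  have e : ∀ {u : G} (_ : IsConj u x) {χ : G → ℂ} (_ : IsIrrCharacter G χ), χ x = χ u :=
    fun hu _ hχ => (hχ.isClassFunction.eq_of_isConj hu).symm
  have caseρ : St M x = 0 → W x * W x = -t ^ 2 → W' x * W' x = -t ^ 2 → W x + W' x = 0 →
      (∀ χ, RowI M χ → χ x = 1) → (∀ {A A' s} χ, RowY M A A' s χ → χ x = -1) →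
      ∃ u v : G, g = (u * x * u⁻¹) * (v * x * v⁻¹) := by
    intro h1 h2 h3 h4 h5 h6
    have h7 := tW (-t ^ 2) (by simpa using h2) (by simpa using h3)
    rcases c5 with ⟨c5, c6⟩ | ⟨c5, c6, c7, c8, -, c9, c10⟩
    · refine covρ (fun χ hχ => ?_) ?_ (tS 0 le_rfl zero_le_one (by simp [h1]))
      · rcases hχ with h | h | h
        · refine le_trans ?_ (term_ge x g (dI χ h) pI (c3 χ h))
          rw [h5 χ h, norm_one, one_pow, mul_one, neg_le_neg_iff, div_le_div_iff₀ pI (by linarith)]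
          nlinarith
        · rw [term_eq x g (dY χ h) (c := 1) (by simp [h6 χ h]), ← neg_div,
            div_le_div_iff₀ (by linarith) pY]
          nlinarith [c6 χ h]
        · refine le_trans ?_ (term_ge x g (dZ χ h) pZ (c4 χ h))
          rw [h6 χ h, norm_neg, norm_one, one_pow, mul_one, neg_le_neg_iff,
            div_le_div_iff₀ pZ (by linarith)]
          nlinarith
      · rw [h7]
        apply div_nonneg _ pW.le
        nlinarith
    · refine cov (fun χ => 1 / ((q - 1) * (q - 2 * t + 1)) * (χ x * conj (χ g)).re) 0 ?_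
        (fun χ hχ => ?_) ?_
      · rw [← Finset.mul_sum, ← Complex.re_sum, sum_irr_mul_conj_of_not_isConj]
        · simp
        · intro hc
          have := (St_irr M).isClassFunction.eq_of_isConj hc
          rw [h1, c6] at this
          norm_num at this
      · rcases hχ with h | h | h
        · simp [term, c9 χ h]
        · rw [term_eq x g (dY χ h) (c := 1) (by simp [h6 χ h]), h6 χ h]
          simp [div_eq_inv_mul]
        · simp [term, c10 χ h]
      · have h8 : (W x).re + (W' x).re = 0 := by rw [← Complex.add_re, h4, Complex.zero_re]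
        have h9 : 0 < 1 / ((q - 1) * (q - 2 * t + 1)) := by positivity
        have h10 : t ^ 2 * 2 / (t * (q - 1)) < 1 := by
          rw [div_lt_one pW]
          nlinarith
        rw [h7, c5, t1, term_eq x g dS (c := 0) (by simp [h1]), h1, c7, c8]
        simp only [map_one, mul_one, Complex.one_re, zero_mul, Complex.zero_re, mul_zero, zero_div,
          neg_mul, neg_div]
        have h11 : 1 / ((q - 1) * (q - 2 * t + 1)) * (W x).re +
          1 / ((q - 1) * (q - 2 * t + 1)) * (W' x).re = 0 := by rw [← mul_add, h8, mul_zero]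
        linarith
  have hw : -(2 / (q - 1)) ≤ (W g + W' g).re / (t * (q - 1)) := by
    rw [← neg_div, div_le_div_iff₀ (by linarith) pW]
    nlinarith
  have hq1 : 1 / q ^ 2 ≤ 1 / 64 := by
    apply one_div_le_one_div_of_le <;> nlinarith
  have hq3 : 2 / (q - 1) ≤ 2 / 7 := by
    rw [div_le_div_iff₀ (by linarith) (by norm_num)]
    linarith
  have cent : ∀ {A : Subgroup G} {u : G}, IsT M A → u ∈ A → u ≠ 1 → IsConj u x →
      Nat.card (Subgroup.centralizer ({x} : Set G)) = Nat.card A := by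
    intro A u hA hu hu1 hc
    have h1 := sum_irr_mul_conj_of_isConj hc.symm
    have h2 := sum_irr_mul_conj_of_isConj (IsConj.refl u)
    rw [hA.cent u hu hu1] at h2
    rw [Finset.sum_congr rfl fun χ _ => by rw [e hc χ.2], h2] at h1
    exact_mod_cast h1.symm
  rcases h.classes x with rfl | h1 | h1 | h1 | ⟨l, hl, h1⟩ | ⟨u, hu, hu1, h1⟩ | ⟨u, hu, hu1, h1⟩
  · simp at hx2
  · obtain ⟨y, rfl⟩ := isConj_iff.mp h1
    have h2 : (y * M.T 0 1 * y⁻¹) ^ 2 = 1 := by rw [conj_pow, M.T_zero_sq]; simp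
    exact absurd (Nat.le_of_dvd two_pos (orderOf_dvd_of_pow_eq_one h2)) hx2.not_ge
  · refine caseρ (by rw [e h1 (St_irr M), St_T M (by simp)]) ?_ ?_
      (by rw [e h1 hW.irr, e h1 hW'.irr, hW.rho, hW'.rho]; ring)
      (fun χ h => e h1 h.irr ▸ h.rho) (fun χ h => e h1 h.irr ▸ h.rho)
    · rw [e h1 hW.irr, hW.rho]
      linear_combination (t : ℂ) ^ 2 * Complex.I_mul_I
    · rw [e h1 hW'.irr, hW'.rho]
      linear_combination (t : ℂ) ^ 2 * Complex.I_mul_I
  · refine caseρ (by rw [e h1 (St_irr M), St_T M (by simp)]) ?_ ?_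
      (by rw [e h1 hW.irr, e h1 hW'.irr, hW.rho', hW'.rho']; ring)
      (fun χ h => e h1 h.irr ▸ h.rho') (fun χ h => e h1 h.irr ▸ h.rho')
    · rw [e h1 hW.irr, hW.rho']
      linear_combination (t : ℂ) ^ 2 * Complex.I_mul_I
    · rw [e h1 hW'.irr, hW'.rho']
      linear_combination (t : ℂ) ^ 2 * Complex.I_mul_I
  · refine covρ (fun χ hχ => ?_) ?_ (tS 1 zero_le_one le_rfl (by simp [e h1 (St_irr M), St_D M hl]))
    · have h0 : -(1 / q) ≤ 0 := neg_nonpos.mpr (by positivity)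
      rcases hχ with h | h | h
      · refine le_trans ?_ (term_ge x g (dI χ h) pI (c3 χ h))
        have h2 : ‖χ x‖ ^ 2 ≤ 2 ^ 2 := pow_le_pow_left₀ (norm_nonneg _) (e h1 h.irr ▸ h.hD l hl) 2
        rw [neg_le_neg_iff, div_mul_eq_mul_div, div_le_div_iff₀ pI (by linarith)]
        nlinarith
      · simpa [term, e h1 h.irr, h.hD l hl] using h0
      · simpa [term, e h1 h.irr, h.hD l hl] using h0
    · simp [term, e h1 hW.irr, e h1 hW'.irr, hW.hD l hl, hW'.hD l hl]
  · have hf := h.t.fpf u hu hu1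
    have hA : (Nat.card A : ℝ) = q + 2 * t + 1 := by
      have := h.card
      rw [hq] at this
      exact_mod_cast this
    have hreal : IsConj u u⁻¹ := by
      refine isConj_inv_of_centralizer A h.t.cent ?_ (h.t.norm ▸ Dvd.dvd.mul_right (by norm_num) _) hu
      have h2 := hf.card_centralizer_dvd
      rw [h.t.cent u hu hu1] at h2
      exact (SzModel.odd_sq_add_one (τ := τ)).of_dvd_nat h2
    have key : ∀ κ : ℝ, 0 ≤ κ → (∀ χ, RowY M A A' (2 * t) χ → -κ ≤ (χ g).re) →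
        κ / ((q - 1) * (q - 2 * t + 1)) * (q + 2 * t + 1 - 4) + 1 / q ^ 2 <
        1 + (W g + W' g).re / (t * (q - 1)) → ∃ u v : G, g = (u * x * u⁻¹) * (v * x * v⁻¹) := by
      intro κ hκ h2 h3
      refine covA (κ / ((q - 1) * (q - 2 * t + 1))) (fun χ hχ => ?_)
        (by rw [e h1 (St_irr M), St_fpf M hf]) (by simp [e h1 hW.irr, hW.hA u hu hu1])
        (by simp [e h1 hW'.irr, hW'.hA u hu hu1]) (by rwa [cent h.t hu hu1 h1, hA])
      rcases hχ with h | h | h
      · simp [term, e h1 h.irr, h.fpf u hf]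
      · have h4 : χ x * χ x = (‖χ x‖ ^ 2 : ℝ) := by
          rw [← Complex.normSq_eq_norm_sq, ← Complex.mul_conj, e h1 h.irr,
            ← h.irr.isCharacter.apply_inv, ← h.irr.isClassFunction.eq_of_isConj hreal]
        rw [term_eq x g (dY χ h) h4, div_mul_eq_mul_div, ← neg_div]
        gcongr
        nlinarith [h2 χ h, sq_nonneg ‖χ x‖]
      · simp [term, e h1 h.irr, h.hA' u hu hu1]
    rcases c5 with ⟨-, c6⟩ | ⟨c5, -, -, -, c6, -⟩
    · refine key 1 zero_le_one c6 ?_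
      have h2 : 1 / ((q - 1) * (q - 2 * t + 1)) * (q + 2 * t + 1 - 4) ≤ 1 / 2 := by
        rw [div_mul_eq_mul_div, div_le_div_iff₀ pY two_pos]
        nlinarith
      linarith
    · refine key 4 (by norm_num) (fun χ h => neg_le_of_abs_le
        ((Complex.abs_re_le_norm _).trans (c6 χ h))) ?_
      rw [c5]
      rcases eq_or_lt_of_le hm with rfl | hm'
      · have h2 : t = 2 := by
          have : ((2 : ℝ) : ℂ) = t := by simpa using ht
          exact_mod_cast this.symm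
        subst h2
        rw [hq2]
        norm_num
      · have h2 : 4 ≤ t := by
          have h3 : ((2 ^ m : ℝ) : ℂ) = t := by simpa using ht
          have h4 : (2 : ℝ) ^ 2 ≤ 2 ^ m := pow_le_pow_right₀ (by norm_num) hm'
          rw [Complex.ofReal_inj.mp h3] at h4
          linarith
        have h3 : 4 / ((q - 1) * (q - 2 * t + 1)) * (q + 2 * t + 1 - 4) ≤ 1 / 2 := by
          rw [div_mul_eq_mul_div, div_le_div_iff₀ pY two_pos]
          nlinarith
        have h4 : 0 < 2 / (t * (q - 1)) := by positivity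
        linarith
  · have hf := h.t'.fpf u hu hu1
    have hA : (Nat.card A' : ℝ) = q - 2 * t + 1 := by
      have := h.card'
      rw [hq] at this
      exact_mod_cast this
    refine covA ((2 * t + 1) / ((q - 1) * (q + 2 * t + 1))) (fun χ hχ => ?_)
      (by rw [e h1 (St_irr M), St_fpf M hf]) (by simp [e h1 hW.irr, hW.hA' u hu hu1])
      (by simp [e h1 hW'.irr, hW'.hA' u hu hu1]) ?_
    · rcases hχ with h | h | h
      · simp [term, e h1 h.irr, h.fpf u hf]
      · simp [term, e h1 h.irr, h.hA' u hu hu1]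
      · exact term_ge x g (dZ χ h) pZ (c4 χ h)
    · rw [cent h.t' hu hu1 h1, hA]
      have h2 : (2 * t + 1) / ((q - 1) * (q + 2 * t + 1)) * (q - 2 * t + 1 - 4) ≤ 1 / 2 := by
        rw [div_mul_eq_mul_div, div_le_div_iff₀ pZ two_pos]
        nlinarith
      linarith

/-- A strong covering result in the direction of Thompson's conjecture (non-identity elements) for the Suzuki groups: let q = 2^(2m+1) ≥ 8, F the field with q elements and Sz(q) the Suzuki group over F. For every element x of Sz(q) of order greater than 2, every non-identity element of Sz(q) is a product of two conjugates of x. -/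
theorem result {F : Type*} [Field F] [Fintype F] (m : ℕ) (hm : 1 ≤ m) (hF : Fintype.card F = 2 ^ (2 * m + 1))
    (x : Cfsg.Lie.Sz F (2 ^ (m + 1))) (hx2 : 2 < orderOf x) : ∀ g : Cfsg.Lie.Sz F (2 ^ (m + 1)), g ≠ 1 → ∃ u v : Cfsg.Lie.Sz F (2 ^ (m + 1)), g = (u * x * u⁻¹) * (v * x * v⁻¹) := by
  exact main (Cfsg.Lib.Chev.lieSzModel hm hF) hm hF x hx2

end Cfsg.Agent.S2457
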