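import Cfsg.Statements.S2459
import Cfsg.Agent.Known.ThompSq
import Cfsg.Agent.Known.GLClasses

set_option autoImplicit false
open Cfsg

namespace Cfsg.Agent.S2459

open Cfsg.Lib.Known Cfsg.Lib.Known.GL2 Matrix Polynomial

variable {F : Type*} [Field F] {τ δ : F}

theorem exists_conj (g : Matrix (Fin 3) (Fin 3) F) (hg : ¬ ∃ c : F, g = c • 1) :
    ∃ P : Matrix (Fin 3) (Fin 3) F, IsUnit P.det ∧ ![0, 0, 1] ᵥ* (P * g) = ![0, 1, 0] ᵥ* P := by
  obtain ⟨v, hv⟩ : ∃ v, LinearIndependent F ![v, g.vecMulLinear v] := by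
    by_contra! h
    obtain ⟨c, hc⟩ := LinearMap.exists_eq_smul_id_of_forall_notLinearIndependent h
    exact hg ⟨c, by
      ext i j
      simpa [Pi.single_apply, one_apply, eq_comm] using
        congrFun (LinearMap.congr_fun hc (Pi.single i 1)) j⟩
  obtain ⟨u, hu⟩ := exists_linearIndependent_cons_of_lt_finrank (LinearIndependent.pair_symm_iff.mp hv)
    (by simp)
  refine ⟨of (Fin.cons u ![v ᵥ* g, v]), (isUnit_iff_isUnit_det _).mp
    (linearIndependent_rows_iff_isUnit.mp hu), ?_⟩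
  rw [← vecMul_vecMul]
  simp

theorem exists_factor [Finite F] (hτ : τ ≠ 0) (hδ : δ ≠ 0) (g : Matrix (Fin 3) (Fin 3) F)
    (h1 : g.det = 1) (hg : ¬ ∃ c : F, g = c • 1) : ∃ y z : Matrix (Fin 3) (Fin 3) F, g = y * z ∧
      y.det = 1 ∧ y.charpoly = (X ^ 2 - C τ * X + C δ) * (X - C δ⁻¹) ∧
      z.charpoly = (X ^ 2 - C τ * X + C δ) * (X - C δ⁻¹) := by
  suffices h : ∀ (g P : Matrix (Fin 3) (Fin 3) F), IsUnit P.det → (∃ y z : Matrix (Fin 3) (Fin 3) F,
      P * g * P⁻¹ = y * z ∧ y.det = 1 ∧ y.charpoly = (X ^ 2 - C τ * X + C δ) * (X - C δ⁻¹) ∧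
      z.charpoly = (X ^ 2 - C τ * X + C δ) * (X - C δ⁻¹)) → ∃ y z : Matrix (Fin 3) (Fin 3) F,
      g = y * z ∧ y.det = 1 ∧ y.charpoly = (X ^ 2 - C τ * X + C δ) * (X - C δ⁻¹) ∧
      z.charpoly = (X ^ 2 - C τ * X + C δ) * (X - C δ⁻¹) by
    obtain ⟨P, hP, h2⟩ := exists_conj g hg
    refine h g P hP ?_
    have h3 : ![0, 0, 1] ᵥ* (P * g * P⁻¹) = ![0, 1, 0] := by
      rw [← vecMul_vecMul, h2, vecMul_vecMul, mul_nonsing_inv _ hP, vecMul_one]
    have h4 : (P * g * P⁻¹).det = 1 := by rw [det_conj ((isUnit_iff_isUnit_det _).mpr hP), h1]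
    generalize P * g * P⁻¹ = g at *
    have a0 : g 2 0 = 0 := by simpa [vecMul, dotProduct, Fin.sum_univ_three] using congrFun h3 0
    have a1 : g 2 1 = 1 := by simpa [vecMul, dotProduct, Fin.sum_univ_three] using congrFun h3 1
    obtain ⟨b, d, h5⟩ := exists_fac_col δ hτ hδ (a := g 0 0) (c := g 1 0) (by
      by_contra! h
      simp [det_fin_three, h, a0] at h4)
    have hQ : (!![1, 0, b - g 0 1; 0, 1, d - g 1 1; 0, 0, 1] : Matrix _ _ F) *
        !![1, 0, g 0 1 - b; 0, 1, g 1 1 - d; 0, 0, 1] = 1 := by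
      ext i j; fin_cases i <;> fin_cases j <;> simp [mul_apply, Fin.sum_univ_three]
    refine h g _ (isUnit_det_of_right_inverse hQ) ?_
    have h6 := det_conj ((isUnit_iff_isUnit_det _).mpr (isUnit_det_of_right_inverse hQ)) g
    rw [inv_eq_right_inv hQ] at h6 ⊢
    set g' := !![1, 0, b - g 0 1; 0, 1, d - g 1 1; 0, 0, 1] * g *
      !![1, 0, g 0 1 - b; 0, 1, g 1 1 - d; 0, 0, 1]
    obtain ⟨B, H, e, b1, b2, b3, b4⟩ := h5.exists_mul hδ
    let σ : Fin 2 ⊕ Fin 1 ≃ Fin 3 := finSumFinEquiv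
    have h7 : (g'.submatrix σ σ).toBlocks₁₁ = B * H := by
      have c : ∀ i j : Fin 2, g' (Fin.castSucc i) (Fin.castSucc j) = !![g 0 0, b; g 1 0, d] i j := by
        intro i j; fin_cases i <;> fin_cases j <;>
          simp [g', mul_apply, vecMul, dotProduct, Fin.sum_univ_three, a0, a1]
      rw [← e]
      ext i j; exact c i j
    have h8 := fromBlocks_toBlocks (g'.submatrix σ σ)
    rw [mul_div_cancel_right₀ _ hδ] at b3
    rw [pow_two, mul_div_cancel_right₀ _ hδ] at b4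
    rw [h7, fromBlocks_eq_mul (b2 ▸ hδ) (b4 ▸ hδ) _ _ (e := δ⁻¹ • 1) (e' := δ • (_ - _))
      (by rw [smul_mul_smul_comm, inv_mul_cancel₀ hδ, one_smul, one_mul, add_sub_cancel])] at h8
    generalize (_ - _ : Matrix (Fin 1) (Fin 1) F) = S at h8
    have h9 := congrArg det h8
    rw [det_submatrix_equiv_self, h6, h4, det_mul, det_fromBlocks_zero₁₂, det_fromBlocks_zero₂₁,
      b2, b4] at h9
    refine ⟨submatrix _ σ.symm σ.symm, submatrix _ σ.symm σ.symm, by
      rw [submatrix_mul_equiv, h8]; simp, ?_, ?_, ?_⟩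
    · simp [b2, hδ]
    · rw [← reindex_apply, charpoly_reindex, charpoly_fromBlocks_zero₁₂, charpoly_eq_of_trace_det b1 b2]
      simp [charpoly]
    · rw [← reindex_apply, charpoly_reindex, charpoly_fromBlocks_zero₂₁, charpoly_eq_of_trace_det b3 b4]
      simp [hδ] at h9
      simp [charpoly, eq_inv_of_mul_eq_one_right h9]
  rintro g P hP ⟨y, z, e, h2, h3, h4⟩
  have hP' := (isUnit_iff_isUnit_det _).mpr hP
  refine ⟨P⁻¹ * y * P, P⁻¹ * z * P, ?_, by rw [det_conj' hP', h2], ?_, ?_⟩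
  · rw [← Matrix.mul_assoc, ← Matrix.mul_assoc, mul_nonsing_inv_cancel_right _ _ hP, Matrix.mul_assoc _ y,
      ← e]
    simp [← Matrix.mul_assoc, nonsing_inv_mul _ hP, nonsing_inv_mul_cancel_right _ _ hP]
  · rw [charpoly_mul_comm, mul_nonsing_inv_cancel_left _ _ hP, h3]
  · rw [charpoly_mul_comm, mul_nonsing_inv_cancel_left _ _ hP, h4]

theorem exists_params [Fintype F] : ∃ τ δ : F, τ ≠ 0 ∧ δ ≠ 0 ∧
    Squarefree ((X ^ 2 - C τ * X + C δ) * (X - C δ⁻¹)) := by
  obtain ⟨τ, δ, h1, h2, h3, h4⟩ : ∃ τ δ : F, τ ≠ 0 ∧ δ * δ = 1 ∧ τ ^ 2 - 4 * δ ≠ 0 ∧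
      1 - τ * δ + δ ≠ 0 := by
    by_cases h2 : (2 : F) = 0
    · exact ⟨1, 1, one_ne_zero, one_mul 1, fun h => one_ne_zero (α := F)
        (by linear_combination h + 2 * h2), by simp⟩
    · obtain ⟨τ, h, h'⟩ := exists_tau h2
      exact ⟨τ, -1, h, by simp, by simpa, by simpa⟩
  obtain ⟨α, β, a1, a2⟩ := exists_roots τ δ
  have h5 := congrArg (algebraMap F (Ec F)) h2
  rw [← (algebraMap F (Ec F)).injective.ne_iff] at h3 h4
  simp only [map_sub, map_mul, map_pow, map_add, map_one, map_zero, map_ofNat, ← a1] at h3 h4 h5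
  refine ⟨τ, δ, h1, left_ne_zero_of_mul_eq_one h2, squarefree_of_map ![α, β, algebraMap F _ δ] ?_ ?_⟩
  · have b1 : α ≠ β := fun h => h3 (by rw [← a2, h]; ring)
    have b2 : α ≠ algebraMap F _ δ := fun h => h4 (by linear_combination -a2 - h5 + (β - α - algebraMap F (Ec F) δ + α) * h)
    have b3 : β ≠ algebraMap F _ δ := fun h => h4 (by linear_combination -a2 - h5 + (α - algebraMap F (Ec F) δ) * h)
    intro i j
    fin_cases i <;> fin_cases j <;> simp [b1, b2, b3, b1.symm, b2.symm, b3.symm]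
  · rw [inv_eq_of_mul_eq_one_left h2]
    simp only [Fin.prod_univ_three, Polynomial.map_mul, Polynomial.map_sub, Polynomial.map_add,
      Polynomial.map_pow, map_X, map_C, ← a1]
    nth_rewrite 1 [← a2]
    simp
    left
    ring

/-- A form of Thompson's conjecture for PSL(3,q), q > 2 (covering the non-identity elements), with a semisimple class: for F a finite field of characteristic p with more than 2 elements there is an element x of PSL(3,F) of order prime to p such that every non-identity element of PSL(3,F) is a product of two conjugates of x. -/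
theorem result {F : Type*} [Field F] [Fintype F] (p : ℕ) [Fact p.Prime] [CharP F p] (h3 : 3 ≤ Fintype.card F) :
    ∃ x : Matrix.ProjectiveSpecialLinearGroup (Fin 3) F, ¬ p ∣ orderOf x ∧ ∀ g : Matrix.ProjectiveSpecialLinearGroup (Fin 3) F, g ≠ 1 → ∃ u v : Matrix.ProjectiveSpecialLinearGroup (Fin 3) F, g = (u * x * u⁻¹) * (v * x * v⁻¹) := by
  obtain ⟨τ, δ, h1, h2, h4⟩ := exists_params (F := F)
  obtain ⟨x, -, -, a1, a2, -⟩ := exists_factor h1 h2 !![1, 1, 0; 0, 1, 0; 0, 0, 1]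
    (by simp [det_fin_three]) fun ⟨c, h⟩ => by simpa using congrFun (congrFun h 0) 1
  have a3 := snd_eq_one_of_charpoly (a2 ▸ h4)
  let X : SpecialLinearGroup (Fin 3) F := ⟨x, a1⟩
  refine ⟨QuotientGroup.mk X, fun h => ?_, fun g hg => ?_⟩
  · have := (GL_orderOf_coprime_iff p (SpecialLinearGroup.toGL X)).mpr a3
    rw [orderOf_toGL] at this
    exact ((Fact.out : p.Prime).coprime_iff_not_dvd.mp this.symm)
      (h.trans (orderOf_map_dvd (QuotientGroup.mk' _) X))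
  obtain ⟨g, rfl⟩ := QuotientGroup.mk_surjective g
  obtain ⟨y, z, e, b1, b2, b3⟩ := exists_factor h1 h2 g.1 g.2 fun ⟨c, h⟩ => hg
    ((QuotientGroup.eq_one_iff _).mpr (Subgroup.mem_center_iff.mpr fun k => Subtype.ext (by
      simp [show (g : Matrix (Fin 3) (Fin 3) F) = c • 1 from h])))
  have b4 : z.det = 1 := by simpa [e, b1] using g.2
  obtain ⟨u, hu⟩ := isConj_iff.mp (SL_isConj_of_semisimple (g := X) (h := ⟨y, b1⟩) a3
    (isConj_of_charpoly_eq a3 (snd_eq_one_of_charpoly (b2 ▸ h4)) (a2.trans b2.symm)))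
  obtain ⟨v, hv⟩ := isConj_iff.mp (SL_isConj_of_semisimple (g := X) (h := ⟨z, b4⟩) a3
    (isConj_of_charpoly_eq a3 (snd_eq_one_of_charpoly (b3 ▸ h4)) (a2.trans b3.symm)))
  refine ⟨QuotientGroup.mk u, QuotientGroup.mk v, ?_⟩
  simp only [← QuotientGroup.mk_inv, ← QuotientGroup.mk_mul, hu, hv]
  exact congrArg _ (Subtype.ext e)

end Cfsg.Agent.S2459
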