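import Cfsg.Statements.S2460
import Cfsg.Agent.Known.ThompSq
import Cfsg.Agent.Known.GLClasses
import Cfsg.Agent.Known.SpSemi
import Cfsg.Agent.Known.ClassConj

set_option autoImplicit false
open Cfsg

namespace Cfsg.Agent.S2460

open Cfsg.Lib.Known Cfsg.Lib.Known.GL2 Matrix Polynomial

variable {F : Type*} [Field F] {τ δ : F} {A B C D S : M2 F}

theorem mem_iff : fromBlocks A B C D ∈ symplecticGroup (Fin 2) F ↔
    Cᵀ * A = Aᵀ * C ∧ Aᵀ * D = 1 + Cᵀ * B ∧ Dᵀ * A = 1 + Bᵀ * C ∧ Dᵀ * B = Bᵀ * D := by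
  rw [SymplecticGroup.mem_iff', J, fromBlocks_transpose, fromBlocks_multiply, fromBlocks_multiply,
    fromBlocks_inj]
  simp only [Matrix.mul_zero, Matrix.mul_one, Matrix.mul_neg, zero_add, add_zero, Matrix.neg_mul]
  refine and_congr add_neg_eq_zero (and_congr ?_ (and_congr ?_ add_neg_eq_zero)) <;>
    constructor <;> intro h <;>
      first | linear_combination (norm := abel1) h | linear_combination (norm := abel1) -h

theorem exists_symm {v : Fin 2 → F} (hv : v ≠ 0) (w : Fin 2 → F) :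
    ∃ S : M2 F, Sᵀ = S ∧ S *ᵥ v = w := by
  by_cases h : v 0 = 0
  · have h1 : v 1 ≠ 0 := fun h' => hv (by ext i; fin_cases i <;> simp [h, h'])
    exact ⟨!![0, w 0 / v 1; w 0 / v 1, w 1 / v 1], by ext i j; fin_cases i <;> fin_cases j <;> simp,
      by ext i; fin_cases i <;> simp [mulVec, dotProduct, h, h1]⟩
  · refine ⟨!![(w 0 - w 1 / v 0 * v 1) / v 0, w 1 / v 0; w 1 / v 0, 0],
      by ext i j; fin_cases i <;> fin_cases j <;> simp, ?_⟩
    ext i; fin_cases i <;> simp [mulVec, dotProduct, h]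

theorem exists_fac_symm [Finite F] (hτ : τ ≠ 0) (hC : C.det ≠ 0) :
    ∃ S : M2 F, Sᵀ = S ∧ Fac τ δ 1 (S * C) := by
  by_cases hs : Cᵀ = C
  · exact ⟨C⁻¹, by rw [transpose_nonsing_inv, hs], by
      simpa [nonsing_inv_mul _ hC.isUnit] using fac_smul_one τ δ 1⟩
  obtain ⟨S, h1, h2, h3⟩ : ∃ S : M2 F, Sᵀ = S ∧ (S * C).det = 1 ∧ (S * C).trace ≠ 2 := by
    by_cases h2 : (2 : F) = 0
    · have := (CharP.charP_iff_prime_eq_zero Nat.prime_two).mpr h2
      obtain ⟨y, hy⟩ := FiniteField.isSquare_of_char_two (ringChar.eq F 2) C.det⁻¹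
      have h3 : y ≠ 0 := fun h => inv_ne_zero hC (by rw [hy, h, mul_zero])
      refine ⟨!![0, y; y, 0], by ext i j; fin_cases i <;> fin_cases j <;> simp, ?_, fun h => hs ?_⟩
      · rw [det_mul, det_fin_two_of, ← hy, zero_mul, zero_sub, CharTwo.neg_eq, inv_mul_cancel₀ hC]
      · have h4 : C 1 0 = C 0 1 := mul_left_cancel₀ h3 (by
          simp [trace_fin_two, vecMul, dotProduct, h2] at h
          linear_combination h - y * C 0 1 * h2)
        ext i j; fin_cases i <;> fin_cases j <;> simp [h4]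
    · have h3 : (diagonal ![1, C.det⁻¹] * C).det = 1 := by simp [hC]
      by_cases h : (diagonal ![1, C.det⁻¹] * C).trace = 2
      · refine ⟨-diagonal ![1, C.det⁻¹], by simp, by rw [Matrix.neg_mul, det_neg, h3]; simp, ?_⟩
        rw [Matrix.neg_mul, trace_neg, h]
        exact fun h => mul_ne_zero h2 h2 (by linear_combination -h)
      · exact ⟨_, by simp, h3, h⟩
  refine ⟨S, h1, fac_of_not_isScal δ hτ one_ne_zero (fun h => hs ?_) (by simpa using h2) (by simpa)⟩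
  obtain ⟨a, ha⟩ := isScal_iff_eq_smul.mp h
  have h4 : IsUnit S.det := (left_ne_zero_of_mul_eq_one (det_mul S C ▸ h2)).isUnit
  rw [← nonsing_inv_mul_cancel_left S C h4, ha]
  simp [transpose_nonsing_inv, h1]

theorem exists_fac [Finite F] (hτ : τ ≠ 0) (h : fromBlocks A B C D ∈ symplecticGroup (Fin 2) F)
    (hC : C ≠ 0) : ∃ S : M2 F, Sᵀ = S ∧ Fac τ δ 1 (A + S * C) := by
  obtain ⟨h1, -, h2, -⟩ := mem_iff.mp h
  by_cases hd : C.det = 0
  · obtain ⟨k, hk, h3⟩ := exists_mulVec_eq_zero_iff.mpr hd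
    obtain ⟨A', h4, h5⟩ := exists_fac_mulVec δ hτ one_ne_zero hk (m := A *ᵥ k) fun h => hk (by
      simpa [add_mulVec, ← mulVec_mulVec, h, h3, eq_comm] using congrArg (· *ᵥ k) h2)
    obtain ⟨z, hz⟩ : ∃ z, C *ᵥ z ≠ 0 := by
      by_contra! h
      exact hC (ext_of_mulVec_single fun i => by rw [h, zero_mulVec])
    obtain ⟨S, h6, h7⟩ := exists_symm hz ((A' - A) *ᵥ z)
    have h8 : (of ![k, z])ᵀ.det ≠ 0 := by
      rw [det_transpose]
      refine ((isUnit_iff_isUnit_det _).mp (linearIndependent_rows_iff_isUnit.mp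
        ((LinearIndependent.pair_iff' hk).mpr fun a h => hz ?_))).ne_zero
      rw [← h, mulVec_smul, h3, smul_zero]
    refine ⟨S, h6, h4.conj (x := 1) (by simp) ?_⟩
    rw [one_mul, mul_one, ← mul_nonsing_inv_cancel_right _ A' h8.isUnit,
      ← mul_nonsing_inv_cancel_right _ (A + S * C) h8.isUnit]
    congr 1
    ext i j
    fin_cases j
    · show (A' *ᵥ k) i = ((A + S * C) *ᵥ k) i
      rw [add_mulVec, ← mulVec_mulVec, h3, h5, mulVec_zero, add_zero]
    · show (A' *ᵥ z) i = ((A + S * C) *ᵥ z) i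
      rw [add_mulVec, ← mulVec_mulVec, h7, sub_mulVec, add_sub_cancel]
  · obtain ⟨S, h3, h4⟩ := exists_fac_symm (δ := δ) hτ hd
    have hd' : IsUnit C.det := Ne.isUnit hd
    refine ⟨S - A * C⁻¹, ?_, by rwa [sub_mul, nonsing_inv_mul_cancel_right _ _ hd', add_sub_cancel]⟩
    rw [transpose_sub, h3, transpose_mul, ← mul_nonsing_inv_cancel_right _ (C⁻¹ᵀ * Aᵀ) hd',
      mul_assoc _ _ C, ← h1, transpose_nonsing_inv, nonsing_inv_mul_cancel_left _ _ (det_transpose C ▸ hd')]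

theorem charpoly_inv (h1 : A.trace = τ) (h2 : A.det = δ) (hδ : δ ≠ 0) :
    A⁻¹ᵀ.charpoly = X ^ 2 - Polynomial.C (τ / δ) * X + Polynomial.C δ⁻¹ := by
  refine charpoly_eq_of_trace_det ?_ (by simp [h2])
  rw [trace_transpose, inv_def, ← h1, h2]
  simp [adjugate_fin_two, trace_fin_two]
  field_simp
  ring

/-- The common characteristic polynomial. -/
noncomputable def ff (τ δ : F) : F[X] :=
  (X ^ 2 - Polynomial.C τ * X + Polynomial.C δ) * (X ^ 2 - Polynomial.C (τ / δ) * X + Polynomial.C δ⁻¹)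

/-- `g` is a product of two elements with characteristic polynomial `ff τ δ`. -/
def PP (τ δ : F) (g : symplecticGroup (Fin 2) F) : Prop :=
  ∃ y z : symplecticGroup (Fin 2) F, g = y * z ∧ y.1.charpoly = ff τ δ ∧ z.1.charpoly = ff τ δ

theorem PP.of_conj {g : symplecticGroup (Fin 2) F} (u : symplecticGroup (Fin 2) F)
    (h : PP τ δ (u * g * u⁻¹)) : PP τ δ g := by
  obtain ⟨y, z, e, h1, h2⟩ := h
  have h3 (w : symplecticGroup (Fin 2) F) : (u⁻¹ * w * u).1.charpoly = w.1.charpoly := by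
    rw [Submonoid.coe_mul, charpoly_mul_comm, ← Submonoid.coe_mul, mul_inv_cancel_left]
  exact ⟨u⁻¹ * y * u, u⁻¹ * z * u, by rw [← inv_mul_cancel_left u g, ← inv_mul_cancel_right (u * g) u, e]; group,
    (h3 y).trans h1, (h3 z).trans h2⟩

theorem pp_of_fac (hδ : δ ≠ 0) (h : fromBlocks A B C D ∈ symplecticGroup (Fin 2) F)
    (hA : Fac τ δ 1 A) : PP τ δ ⟨_, h⟩ := by
  obtain ⟨h1, h2, -, -⟩ := mem_iff.mp h
  obtain ⟨Y, H, rfl, b1, b2, b3, b4⟩ := hA.exists_mul hδ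
  rw [mul_one] at b3
  rw [one_pow, one_div] at b4
  have hY : Y.det ≠ 0 := b2 ▸ hδ
  have hH : H.det ≠ 0 := b4 ▸ inv_ne_zero hδ
  have hY' : IsUnit Yᵀ.det := by simpa
  have hH' : IsUnit Hᵀ.det := by simpa
  have h3 : (C * H⁻¹)ᵀ * Y = Yᵀ * (C * H⁻¹) := by
    rw [transpose_mul, transpose_nonsing_inv, ← mul_nonsing_inv_cancel_right _ (_ * Y) hH.isUnit,
      mul_assoc _ Y, mul_assoc _ Cᵀ, h1, transpose_mul, mul_assoc Hᵀ, nonsing_inv_mul_cancel_left _ _ hH',
      mul_assoc]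
  let y : symplecticGroup (Fin 2) F := ⟨fromBlocks Y 0 (C * H⁻¹) Y⁻¹ᵀ, mem_iff.mpr ⟨h3, by
    simp [← transpose_mul, nonsing_inv_mul _ hY.isUnit], by simp [nonsing_inv_mul _ hY.isUnit], by simp⟩⟩
  have e := fromBlocks_eq_mul hY hH B C (d := D) (e := Y⁻¹ᵀ) (e' := H⁻¹ᵀ) (by
    have h4 : Yᵀ * (C * H⁻¹) * (Y⁻¹ * B) = H⁻¹ᵀ * (Cᵀ * B) := by
      rw [← h3, mul_assoc, mul_nonsing_inv_cancel_left _ _ hY.isUnit, transpose_mul, mul_assoc]
    rw [← nonsing_inv_mul_cancel_left _ D hY', ← nonsing_inv_mul_cancel_left _ (Yᵀ * D) hH',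
      ← mul_assoc Hᵀ, ← transpose_mul Y, h2, ← transpose_nonsing_inv H, mul_add H⁻¹ᵀ, ← h4, mul_add,
      mul_assoc Yᵀ, nonsing_inv_mul_cancel_left _ _ hY', transpose_nonsing_inv Y, mul_one, add_comm,
      mul_assoc])
  refine ⟨y, y⁻¹ * ⟨_, h⟩, by simp, ?_, ?_⟩
  · rw [charpoly_fromBlocks_zero₁₂, charpoly_eq_of_trace_det b1 b2, charpoly_inv b1 b2 hδ, ff]
  · change charpoly (y⁻¹.1 * fromBlocks _ _ _ _) = _
    rw [e, ← mul_assoc, ← Submonoid.coe_mul _ y⁻¹ y, inv_mul_cancel,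
      OneMemClass.coe_one, one_mul, charpoly_fromBlocks_zero₂₁, charpoly_eq_of_trace_det b3 b4,
      charpoly_inv b3 b4 (inv_ne_zero hδ), ff, mul_comm, inv_inv, div_inv_eq_mul, div_mul_cancel₀ _ hδ]

theorem pp_of_ne [Finite F] (hτ : τ ≠ 0) (hδ : δ ≠ 0) (g : symplecticGroup (Fin 2) F)
    (hg : g.1.toBlocks₂₁ ≠ 0) : PP τ δ g := by
  obtain ⟨g, h⟩ := g
  obtain ⟨A, B, C, D, rfl⟩ : ∃ A B C D, g = fromBlocks A B C D := ⟨_, _, _, _, (fromBlocks_toBlocks g).symm⟩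
  obtain ⟨S, h1, h2⟩ := exists_fac (δ := δ) hτ h hg
  let u : symplecticGroup (Fin 2) F := ⟨fromBlocks 1 S 0 1, mem_iff.mpr (by simp [h1])⟩
  let v : symplecticGroup (Fin 2) F := ⟨fromBlocks 1 (-S) 0 1, mem_iff.mpr (by simp [h1])⟩
  have h3 : u⁻¹ = v := inv_eq_of_mul_eq_one_right (Subtype.ext (by simp [u, v, fromBlocks_multiply]))
  refine .of_conj u ?_
  have h4 := (u * ⟨_, h⟩ * v).2
  simp only [u, v, Submonoid.coe_mul, fromBlocks_multiply, one_mul, mul_one, mul_zero, add_zero] at h4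
  convert pp_of_fac hδ h4 h2
  rw [h3]
  simp only [u, v, Submonoid.coe_mul, fromBlocks_multiply, one_mul, mul_one, mul_zero, add_zero]

theorem pp_of_not_mem [Finite F] (hτ : τ ≠ 0) (hδ : δ ≠ 0) (g : symplecticGroup (Fin 2) F)
    (hg : g ∉ Subgroup.center _) : PP τ δ g := by
  by_contra h
  have h1 (u v : symplecticGroup (Fin 2) F) (e : u.1 * v.1 = 1) : (u.1 * g.1 * v.1).toBlocks₂₁ = 0 := by
    by_contra h'
    obtain rfl : u⁻¹ = v := inv_eq_of_mul_eq_one_right (Subtype.ext e)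
    exact h (.of_conj u (pp_of_ne hτ hδ _ h'))
  rw [← fromBlocks_toBlocks g.1] at h1
  have h2 := h1 1 1 (by simp)
  have h3 := h1 ⟨fromBlocks 0 (-1) 1 0, mem_iff.mpr (by simp)⟩ ⟨fromBlocks 0 1 (-1) 0, mem_iff.mpr (by simp)⟩
    (by simp [fromBlocks_multiply])
  have h4 (S : M2 F) (hS : Sᵀ = S) := h1 ⟨fromBlocks 1 0 S 1, mem_iff.mpr (by simp [hS])⟩
    ⟨fromBlocks 1 0 (-S) 1, mem_iff.mpr (by simp [hS])⟩ (by simp [fromBlocks_multiply])
  simp only [OneMemClass.coe_one, one_mul, mul_one, toBlocks_fromBlocks₂₁] at h2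
  simp [fromBlocks_multiply] at h3
  simp only [fromBlocks_multiply, h2, h3, toBlocks_fromBlocks₂₁, mul_one, one_mul, mul_zero,
    add_zero, zero_add, mul_neg, add_neg_eq_zero] at h4
  have h5 := h4 1 (by simp)
  have h6 := h4 !![1, 0; 0, 0] (by ext i j; fin_cases i <;> fin_cases j <;> simp)
  have h7 := h4 !![0, 1; 1, 0] (by ext i j; fin_cases i <;> fin_cases j <;> simp)
  rw [one_mul, mul_one] at h5
  rw [← h5] at h6 h7
  obtain ⟨a, ha⟩ := isScal_iff_eq_smul.mp (show IsScal g.1.toBlocks₁₁ from ⟨by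
    simpa [mul_apply] using congrFun₂ h6 0 1, by simpa [mul_apply, eq_comm] using congrFun₂ h6 1 0, by
    simpa [mul_apply, eq_comm] using congrFun₂ h7 0 1⟩)
  have h8 : g.1 = a • 1 := by
    rw [← fromBlocks_toBlocks g.1, ← h5, h2, h3, ha, ← fromBlocks_one, fromBlocks_smul, smul_zero]
  exact hg (Subgroup.mem_center_iff.mpr fun k => Subtype.ext (by simp [h8]))

theorem exists_params [Fintype F] (h : 3 ≤ Fintype.card F) :
    ∃ τ δ : F, τ ≠ 0 ∧ δ ≠ 0 ∧ Squarefree (ff τ δ) := by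
  obtain ⟨τ, δ, h1, h2, h3, h4, h5, h6⟩ : ∃ τ δ : F, τ ≠ 0 ∧ δ ≠ 0 ∧ τ ^ 2 - 4 * δ ≠ 0 ∧
      δ - 1 ≠ 0 ∧ 1 - τ + δ ≠ 0 ∧ 1 + τ + δ ≠ 0 := by
    by_cases h2 : (2 : F) = 0
    · obtain ⟨δ, h0, h1⟩ : ∃ δ : F, δ ≠ 0 ∧ δ ≠ 1 := by
        by_contra! h'
        classical
        have := Finset.card_le_card (show (Finset.univ : Finset F) ⊆ {0, 1} from fun x _ => by
          simpa [or_iff_not_imp_left] using h' x)
        exact absurd (h.trans (this.trans Finset.card_le_two)) (by decide)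
      exact ⟨1, δ, one_ne_zero, h0, fun h => one_ne_zero (α := F) (by linear_combination h + 2 * δ * h2),
        sub_ne_zero.mpr h1, by simpa, fun h => h0 (by linear_combination h - h2)⟩
    · obtain ⟨τ, h, h'⟩ := exists_tau h2
      exact ⟨τ, -1, h, by simp, by simpa, fun h => h2 (by linear_combination -h),
        fun h' => h (by linear_combination -h'), by simpa⟩
  obtain ⟨α, β, a1, a2⟩ := exists_roots τ δ
  refine ⟨τ, δ, h1, h2, squarefree_of_map ![α, β, α⁻¹, β⁻¹] ?_ ?_⟩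
  all_goals rw [← (algebraMap F (Ec F)).injective.ne_iff] at h2 h3 h4 h5 h6
  all_goals simp only [map_sub, map_mul, map_pow, map_add, map_one, map_zero, map_ofNat, ← a1, ← a2] at h2 h3 h4 h5 h6
  all_goals obtain ⟨c1, c2⟩ := mul_ne_zero_iff.mp h2
  · have b (x : Ec F) (hx : x ≠ 0) (h : x - 1 ≠ 0) (h' : x + 1 ≠ 0) : x ≠ x⁻¹ := fun e =>
      mul_ne_zero h h' (by linear_combination x * e + mul_inv_cancel₀ hx)
    have b1 : α ≠ β := fun h => h3 (by rw [h]; ring)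
    have b2 := b α c1 (fun h => h5 (by linear_combination (β - 1) * h))
      fun h => h6 (by linear_combination (β + 1) * h)
    have b3 := b β c2 (fun h => h5 (by linear_combination (α - 1) * h))
      fun h => h6 (by linear_combination (α + 1) * h)
    have b4 : α ≠ β⁻¹ := fun h => h4 (by rw [h, inv_mul_cancel₀ c2, sub_self])
    have b5 : β ≠ α⁻¹ := fun h => h4 (by rw [h, mul_inv_cancel₀ c1, sub_self])
    intro i j
    fin_cases i <;> fin_cases j <;>
      simp [b1, b2, b3, b4, b5, b1.symm, b2.symm, b3.symm, b4.symm, b5.symm]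
  · have b : (α + β) / (α * β) = α⁻¹ + β⁻¹ := by field_simp; ring
    simp only [ff, Fin.prod_univ_four, Polynomial.map_mul, Polynomial.map_sub, Polynomial.map_add,
      Polynomial.map_pow, map_X, map_C, map_div₀, map_inv₀, ← a1, ← a2, b, mul_inv]
    simp
    ring

/-- A form of Thompson's conjecture for the simple groups PSp(4,q), q ≥ 3 (covering the non-identity elements), with a semisimple class: for F a finite field of characteristic p with at least 3 elements there is an element x of PSp(4,F) of order prime to p such that every non-identity element of PSp(4,F) is a product of two conjugates of x. -/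
theorem result {F : Type*} [Field F] [Fintype F] (p : ℕ) [Fact p.Prime] [CharP F p] (h3 : 3 ≤ Fintype.card F) :
    ∃ x : Cfsg.PSp 2 F, ¬ p ∣ orderOf x ∧ ∀ g : Cfsg.PSp 2 F, g ≠ 1 → ∃ u v : Cfsg.PSp 2 F, g = (u * x * u⁻¹) * (v * x * v⁻¹) := by
  obtain ⟨τ, δ, h1, h2, h4⟩ := exists_params h3
  obtain ⟨x, -, -, a2, -⟩ := pp_of_ne h1 h2 ⟨_, SymplecticGroup.J_mem (Fin 2) F⟩ (by simp [J])
  have a3 := snd_eq_one_of_charpoly (a2 ▸ h4)
  have a4 := (GL_orderOf_coprime_iff p (spToGL 2 F x)).mpr a3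
  rw [orderOf_injective _ fun _ _ h => Subtype.ext (congrArg Units.val h)] at a4
  refine ⟨QuotientGroup.mk x, fun h => ((Fact.out : p.Prime).coprime_iff_not_dvd.mp a4.symm)
      (h.trans (orderOf_map_dvd (QuotientGroup.mk' _) x)), fun g hg => ?_⟩
  obtain ⟨g, rfl⟩ := QuotientGroup.mk_surjective g
  obtain ⟨y, z, rfl, b2, b3⟩ := pp_of_not_mem h1 h2 g (mt (QuotientGroup.eq_one_iff _).mpr hg)
  obtain ⟨u, hu⟩ := isConj_iff.mp ((Sp_isConj_iff_of_coprime p a4).mpr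
    (isConj_of_charpoly_eq a3 (snd_eq_one_of_charpoly (b2 ▸ h4)) (a2.trans b2.symm)))
  obtain ⟨v, hv⟩ := isConj_iff.mp ((Sp_isConj_iff_of_coprime p a4).mpr
    (isConj_of_charpoly_eq a3 (snd_eq_one_of_charpoly (b3 ▸ h4)) (a2.trans b3.symm)))
  refine ⟨QuotientGroup.mk u, QuotientGroup.mk v, ?_⟩
  simp only [← QuotientGroup.mk_inv, ← QuotientGroup.mk_mul, hu, hv]

end Cfsg.Agent.S2460
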