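import Cfsg.Statements.S2461
import Cfsg.Agent.Chev.EGInst
import Cfsg.Agent.S1055
-- import your own Cfsg.Agent.* helpers here

set_option autoImplicit false
open Cfsg

namespace Cfsg.Agent.S2461

/-- A form of Thompson's conjecture for the simple Chevalley groups G₂(q), q ≥ 3 (covering the non-identity elements), with a semisimple class: for F a finite field of characteristic p with at least 3 elements there is an element x of the Chevalley group of type G₂ over F of order prime to p such that every non-identity element of that group is a product of two conjugates of x. -/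
theorem result {F : Type*} [Field F] [Fintype F] (p : ℕ) [Fact p.Prime] [CharP F p] (h3 : 3 ≤ Fintype.card F) :
    ∃ x : Cfsg.Lie.chevG2.group F, ¬ p ∣ orderOf x ∧ ∀ g : Cfsg.Lie.chevG2.group F, g ≠ 1 → ∃ u v : Cfsg.Lie.chevG2.group F, g = (u * x * u⁻¹) * (v * x * v⁻¹) := by
  obtain ⟨t, h1, h2⟩ := Cfsg.Lib.Chev.exists_pow_ne_one (K := F) one_ne_zero h3
  have := (S1055.result (F := F) ⟨t, h1, by simpa using h2⟩).1
  exact Cfsg.Lib.Chev.cover_G2 p (by rwa [Nat.card_eq_fintype_card])

end Cfsg.Agent.S2461
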