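import Cfsg.Statements.S2462
import Cfsg.Agent.Chev.EGD4
import Cfsg.Agent.S1071
-- import your own Cfsg.Agent.* helpers here

set_option autoImplicit false
open Cfsg

namespace Cfsg.Agent.S2462

/-- A form of Thompson's conjecture for the triality groups ³D₄(q) (covering the non-identity elements) with a semisimple class: for q a power of the prime p and K the field with q³ elements there is an element x of ³D₄(q) (realised over K) of order prime to p such that every non-identity element of ³D₄(q) is a product of two conjugates of x. -/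
theorem result {K : Type*} [Field K] [Fintype K] (p : ℕ) [Fact p.Prime] [CharP K p] (q : ℕ) (hq : IsPrimePow q) (hK : Fintype.card K = q ^ 3) :
    ∃ x : Cfsg.Lie.twistedD4 K q, ¬ p ∣ orderOf x ∧ ∀ g : Cfsg.Lie.twistedD4 K q, g ≠ 1 → ∃ u v : Cfsg.Lie.twistedD4 K q, g = (u * x * u⁻¹) * (v * x * v⁻¹) := by
  obtain ⟨f, hf, -, h⟩ := Cfsg.Lib.Chev.exists_twD4 hK
  have := (S1071.result hq hK).1
  exact Cfsg.Lib.Chev.cover_D4 p f hf (by
    rw [Nat.card_eq_fintype_card, hK]
    exact lt_of_lt_of_le (by norm_num) (Nat.pow_le_pow_left hq.two_le 3)) h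

end Cfsg.Agent.S2462
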