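import Cfsg.Statements.S2463
import Cfsg.Agent.Chev.EGF4
import Cfsg.Agent.Chev.EGTits
import Cfsg.Agent.S1072
-- import your own Cfsg.Agent.* helpers here

set_option autoImplicit false
open Cfsg

namespace Cfsg.Agent.S2463

/-- A form of Thompson's conjecture for the simple groups of type ²F₄ (covering the non-identity elements) with a semisimple class: if M is a large Ree group ²F₄(2^(2m+1)) with m ≥ 1, or the Tits group, then there is an element x of M of odd order such that every non-identity element of M is a product of two conjugates of x. -/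
theorem result {M : Type*} [Group M] [Finite M] (hM : Cfsg.Lie.Iso2F4 M ∨ Cfsg.Lie.IsoTits M) :
    ∃ x : M, Odd (orderOf x) ∧ ∀ g : M, g ≠ 1 → ∃ u v : M, g = (u * x * u⁻¹) * (v * x * v⁻¹) := by
  have key : ∀ {G' : Type} [Group G'] {G : Subgroup G'}, (M ≃* G) → (∃ x : G, Odd (orderOf x) ∧
      ∀ g : G, g ≠ 1 → ∃ u v, g = u * x * u⁻¹ * (v * x * v⁻¹)) → ∃ x : M, Odd (orderOf x) ∧
        ∀ g : M, g ≠ 1 → ∃ u v : M, g = (u * x * u⁻¹) * (v * x * v⁻¹) := fun e ⟨x, h1, h2⟩ =>
    ⟨e.symm x, by rwa [e.symm.orderOf_eq], fun g hg => by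
      obtain ⟨u, v, h⟩ := h2 (e g) (by simpa)
      exact ⟨e.symm u, e.symm v, e.injective (by simpa using h)⟩⟩
  rcases hM with ⟨K, _, _, m, hm, hq, ⟨e⟩⟩ | ⟨⟨e⟩⟩
  · have := (S1072.result hm hq).1
    exact key e (Lib.Chev.cover_F4 hm hq)
  · exact key e Lib.Chev.cover_tits

end Cfsg.Agent.S2463
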