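import Cfsg.Statements.S2466
import Cfsg.Agent.Known.SymOrder

set_option autoImplicit false
open Cfsg

namespace Cfsg.Agent.S2466

/-- Adjacency of odd primes in the prime graph of the alternating groups: let r ≠ s be odd primes at most n. The alternating group of degree n has an element of order r·s if and only if r + s ≤ n. -/
theorem result (n r s : ℕ) (hr : r.Prime) (hs : s.Prime) (hr2 : r ≠ 2) (hs2 : s ≠ 2) (hrs : r ≠ s) (hrn : r ≤ n) (hsn : s ≤ n) :
    (r * s ∈ Set.range (orderOf : alternatingGroup (Fin n) → ℕ)) ↔ r + s ≤ n := by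
  rw [Cfsg.Lib.Known.mem_range_orderOf_alt_iff, Fintype.card_fin]
  constructor
  · rintro ⟨c, h1, h2, -, h4⟩
    obtain ⟨a, ha, hra⟩ := Cfsg.Lib.Known.exists_dvd_of_prime_dvd_lcm hr (h4 ▸ Dvd.intro _ rfl)
    obtain ⟨b, hb, hsb⟩ := Cfsg.Lib.Known.exists_dvd_of_prime_dvd_lcm hs
      (h4 ▸ Dvd.intro_left _ rfl)
    have h5 := Nat.le_of_dvd (by have := h2 a ha; omega) hra
    have h6 := Nat.le_of_dvd (by have := h2 b hb; omega) hsb
    by_cases hab : b = a
    · subst hab
      have h7 := Nat.le_of_dvd (by have := h2 b hb; omega)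
        (((Nat.coprime_primes hr hs).2 hrs).mul_dvd_of_dvd_of_dvd hra hsb)
      have h8 := Multiset.single_le_sum (fun _ _ => Nat.zero_le _) b hb
      have h9 := Nat.add_le_mul hr.two_le hs.two_le
      omega
    · have := Cfsg.Lib.Known.add_le_sum_of_mem ha ((Multiset.mem_erase_of_ne hab).2 hb)
      omega
  · intro h
    refine ⟨{r, s}, by simpa using h, ?_, ?_, ?_⟩
    · intro a ha
      simp only [Multiset.insert_eq_cons, Multiset.mem_cons, Multiset.mem_singleton] at ha
      rcases ha with rfl | rfl
      · exact hr.two_le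
      · exact hs.two_le
    · have h1 := hr.eq_two_or_odd.resolve_left hr2
      have h2 := hs.eq_two_or_odd.resolve_left hs2
      simp only [Multiset.insert_eq_cons, Multiset.sum_cons, Multiset.sum_singleton,
        Multiset.card_cons, Multiset.card_singleton, Nat.even_iff]
      omega
    · simp only [Multiset.insert_eq_cons, Multiset.lcm_cons, Multiset.lcm_singleton, normalize_eq]
      exact ((Nat.coprime_primes hr hs).2 hrs).lcm_eq_mul

end Cfsg.Agent.S2466
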