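import Cfsg.Statements.S2467
import Cfsg.Agent.Known.SymOrder

set_option autoImplicit false
open Cfsg

namespace Cfsg.Agent.S2467

/-- Adjacency of 2 and an odd prime in the prime graph of the alternating groups: let r be an odd prime at most n, with n ≥ 4. The alternating group of degree n has an element of order 2r if and only if r + 4 ≤ n. -/
theorem result (n r : ℕ) (hn : 4 ≤ n) (hr : r.Prime) (hr2 : r ≠ 2) (hrn : r ≤ n) :
    (2 * r ∈ Set.range (orderOf : alternatingGroup (Fin n) → ℕ)) ↔ r + 4 ≤ n := by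
  rw [Cfsg.Lib.Known.mem_range_orderOf_alt_iff, Fintype.card_fin]
  have h0 := hr.eq_two_or_odd.resolve_left hr2
  have h3 := hr.two_le
  constructor
  · rintro ⟨c, h1, h2, h3, h4⟩
    obtain ⟨a, ha, hra⟩ := Cfsg.Lib.Known.exists_dvd_of_prime_dvd_lcm hr
      (h4 ▸ Dvd.intro_left _ rfl)
    obtain ⟨b, hb, hsb⟩ := Cfsg.Lib.Known.exists_dvd_of_prime_dvd_lcm Nat.prime_two
      (h4 ▸ Dvd.intro _ rfl)
    have key : ∀ s : Multiset ℕ, (∀ x ∈ s, ¬ 2 ∣ x) → (s.sum + s.card) % 2 = 0 := by
      intro s hs
      induction s using Multiset.induction_on with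
      | empty => simp
      | cons x s ih =>
        have e1 := hs x (Multiset.mem_cons_self _ _)
        have e2 := ih fun y hy => hs y (Multiset.mem_cons_of_mem hy)
        rw [Multiset.sum_cons, Multiset.card_cons]
        omega
    obtain ⟨b', hb', hsb'⟩ : ∃ b' ∈ c.erase b, 2 ∣ b' := by
      by_contra hc
      push Not at hc
      have e1 := key _ hc
      rw [← Multiset.cons_erase hb, Multiset.sum_cons, Multiset.card_cons, Nat.even_iff] at h3
      omega
    have e1 := h2 a ha
    have e2 := h2 b hb
    have e3 := h2 b' (Multiset.mem_of_mem_erase hb')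
    have e4 : ∀ x, r ∣ x → 2 ∣ x → 2 ≤ x → 2 * r ≤ x := fun x h1 h2 h3 =>
      Nat.le_of_dvd (by omega) (((Nat.coprime_primes Nat.prime_two hr).2 hr2.symm).mul_dvd_of_dvd_of_dvd h2 h1)
    have e5 := Cfsg.Lib.Known.add_le_sum_of_mem hb hb'
    by_cases h5 : a = b
    · have := e4 a hra (h5 ▸ hsb) e1
      omega
    by_cases h6 : a = b'
    · have := e4 a hra (h6 ▸ hsb') e1
      omega
    have e6 := Cfsg.Lib.Known.add_le_sum_of_mem hb'
      ((Multiset.mem_erase_of_ne h6).2 ((Multiset.mem_erase_of_ne h5).2 ha))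
    have e7 := Multiset.sum_erase hb
    have e8 := Nat.le_of_dvd (by omega) hra
    omega
  · intro h
    refine ⟨{r, 2, 2}, by simp; omega, ?_, ?_, ?_⟩
    · intro a ha
      simp only [Multiset.insert_eq_cons, Multiset.mem_cons, Multiset.mem_singleton] at ha
      omega
    · simp only [Multiset.insert_eq_cons, Multiset.sum_cons, Multiset.sum_singleton,
        Multiset.card_cons, Multiset.card_singleton, Nat.even_iff]
      omega
    · simp only [Multiset.insert_eq_cons, Multiset.lcm_cons, Multiset.lcm_singleton, normalize_eq,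
        lcm_same]
      rw [mul_comm]
      exact ((Nat.coprime_primes hr Nat.prime_two).2 hr2).lcm_eq_mul

end Cfsg.Agent.S2467
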