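import Cfsg.Statements.S2471
import Cfsg.Agent.Known.PSL2Basic

set_option autoImplicit false
open Cfsg

namespace Cfsg.Agent.S2471

open Cfsg.Lib.Known Cfsg.Lib.Known.GL2 Matrix

/-- In PSL(2,q) with q odd, the characteristic p is isolated from 2 in the prime graph: for F a finite field of odd characteristic p with at least 5 elements, PSL(2,F) has no element of order 2p. -/
theorem result {F : Type*} [Field F] [Fintype F] (p : ℕ) [Fact p.Prime] [CharP F p] (hp : p ≠ 2) (h5 : 5 ≤ Fintype.card F) (g : Matrix.ProjectiveSpecialLinearGroup (Fin 2) F) :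
    orderOf g ≠ 2 * p := by
  intro h
  have hp0 := (Fact.out : p.Prime).pos
  have hd : p ∣ orderOf g := by rw [h]; exact dvd_mul_left p 2
  have h2 : Nat.gcd 2 (Fintype.card F - 1) ∣ Fintype.card F + 1 := by
    have : Fintype.card F + 1 = Fintype.card F - 1 + 2 := by omega
    rw [this]
    exact dvd_add (Nat.gcd_dvd_right _ _) (Nat.gcd_dvd_left _ _)
  rcases orderOf_PSL2_cases p g with h1 | h1 | h1
  · omega
  · exact not_char_dvd_sub_one p ((hd.trans h1).trans (Nat.div_dvd_of_dvd (Nat.gcd_dvd_right _ _)))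
  · exact not_char_dvd_add_one p ((hd.trans h1).trans (Nat.div_dvd_of_dvd h2))

end Cfsg.Agent.S2471
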