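import Cfsg.Statements.S2478
import Mathlib
import Cfsg.Agent.Known.ClassCount

set_option autoImplicit false
open Cfsg

namespace Cfsg.Agent.S2478

open Cfsg.Lib.Known Polynomial

/-- The number of conjugacy classes of GL(n,q): for F a finite field with q elements and n ≥ 1, the number k of conjugacy classes of GL(n,F) satisfies q^n − q^(n−1) ≤ k ≤ q^n. -/
theorem result {F : Type*} [Field F] [Fintype F] (n : ℕ) (hn : 1 ≤ n) :
    Fintype.card F ^ n - Fintype.card F ^ (n - 1) ≤ Nat.card (ConjClasses (Matrix.GeneralLinearGroup (Fin n) F)) ∧ Nat.card (ConjClasses (Matrix.GeneralLinearGroup (Fin n) F)) ≤ Fintype.card F ^ n := by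
  classical
  obtain ⟨hfin, hle⟩ := card_isGLType_le (K := F) n
  rw [card_conjClasses_GL, Fintype.card_fin, ← Nat.card_eq_fintype_card]
  refine ⟨?_, hle.trans ((Nat.le_succ _).trans (cSum_lin_lt Nat.card_pos n hn))⟩
  have h1 := card_monic_coeff_zero (K := F) hn (· ≠ 0)
  rw [← Nat.card_congr unitsEquivNeZero, Nat.card_units,
    ← Nat.card_congr (ssTypeEquiv n fun f => f.coeff 0 ≠ 0)] at h1
  refine le_trans (le_of_eq ?_) (h1.symm.le.trans (Nat.card_le_card_of_injective
    (fun s => (⟨s.1, s.2.1, s.2.2.1, s.2.1.forall_ne_X_iff.mpr s.2.2.2.1⟩ : {s // IsGLType n s}))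
    fun s t h => Subtype.ext (Subtype.mk.inj h)))
  obtain ⟨m, rfl⟩ : ∃ m, n = m + 1 := ⟨n - 1, by omega⟩
  rw [Nat.add_sub_cancel, Nat.sub_mul, one_mul, pow_succ']

end Cfsg.Agent.S2478
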