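import Cfsg.Statements.S2481
import Mathlib
import Cfsg.Agent.Known.ClassCount
import Cfsg.Agent.S2386

set_option autoImplicit false
open Cfsg

namespace Cfsg.Agent.S2481

open Cfsg.Lib.Known Cfsg.Lib.Class Polynomial

/-- The number of conjugacy classes of SU(n,q): for n ≥ 2, q a prime power and F the field with q² elements, the number k of conjugacy classes of SU(n,q) (the determinant-one isometries of the standard Hermitian form on F^n) satisfies q^(n−1) ≤ k ≤ 8.26·q^(n−1). -/
theorem result {F : Type*} [Field F] [Fintype F] (n q : ℕ) (hn : 2 ≤ n) (hF : Fintype.card F = q ^ 2) :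
    q ^ (n - 1) ≤ Nat.card (ConjClasses (Cfsg.SU n F q)) ∧ 100 * Nat.card (ConjClasses (Cfsg.SU n F q)) ≤ 826 * q ^ (n - 1) := by
  classical
  have hfin : Finite (ConjClasses (Cfsg.SU n F q)) :=
    Finite.of_surjective _ ConjClasses.mk_surjective
  have hq : 2 ≤ q := by
    have := Fintype.one_lt_card (α := F)
    by_contra h
    interval_cases q <;> omega
  constructor
  · obtain ⟨p, hp⟩ := CharP.exists F
    have : Fact p.Prime := ⟨CharP.char_is_prime F p⟩
    rw [← Cfsg.Agent.S2386.result hF p n (by omega)]
    exact Finite.card_subtype_le _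
  choose rep hrep using ConjClasses.mk_surjective (α := Cfsg.SU n F q)
  have h1 := card_le_clB_types (X := ConjClasses (Cfsg.SU n F q))
    ((Units.coeHom F).comp (normOne F q).subtype)
    (Units.val_injective.comp Subtype.val_injective) (fun f => dualPoly (frobq hF) f = f) (n := n)
    q Nat.one_pos (fun C => elDivM ((rep C : Matrix.SpecialLinearGroup (Fin n) F) :
      Matrix (Fin n) (Fin n) F))
    (fun C => by simpa using isGLType_SL (rep C : Matrix.SpecialLinearGroup (Fin n) F))
    (fun C => by rw [← det_eq_tDet, Matrix.SpecialLinearGroup.det_coe])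
    (fun C e => (layer_map (dualPolyHom (frobq hF)) _ e).symm.trans
      (congrArg (Cfsg.Lib.Known.layer · e) (GU_elDivM_dual hF (suToGU n F q (rep C)))))
    (fun f hf h0 h => ⟨one_dvd _, ⟨Units.mk0 (lval f)
      (show lval f ≠ 0 from mul_ne_zero (pow_ne_zero _ (neg_ne_zero.mpr one_ne_zero)) h0), by
        have h2 := coeff_zero_dualPoly (σ := frobq hF) hf
        rw [h] at h2
        rw [mem_normOne, Units.val_mk0, ← frobq_apply hF, lval, map_mul, map_pow, map_neg, map_one,
          mul_mul_mul_comm, ← mul_pow, neg_mul_neg, one_mul, one_pow, one_mul]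
        nth_rewrite 2 [h2]
        exact mul_inv_cancel₀ ((_root_.map_ne_zero _).mpr h0)⟩, rfl⟩)
    (fun m hm a ha => by
      by_cases h : frobq hF a * a = 1
      · rw [one_mul, card_selfDual_herm hF hm h]
      · have : IsEmpty {f : F[X] // (f.Monic ∧ f.natDegree = 1 * m) ∧
            dualPoly (frobq hF) f = f ∧ f.coeff 0 = a} := ⟨fun f => h (by
          have h2 := coeff_zero_dualPoly (σ := frobq hF) f.2.1.1
          rw [f.2.2.1, f.2.2.2] at h2
          nth_rewrite 2 [h2]
          exact mul_inv_cancel₀ ((_root_.map_ne_zero _).mpr ha))⟩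
        rw [Nat.card_of_isEmpty]
        exact Nat.zero_le _)
    (fun C => ⟨_, fun y hy a => pow_mem_map_detU_centralizer hF (suToGU n F q (rep C)) hy a, by
      rw [← card_SU_classes_split hF (by omega)]
      exact Nat.card_le_card_of_injective (fun D => ⟨D.1, rep D.1, hrep _, D.2.symm⟩)
        fun D E h => Subtype.ext (Subtype.mk.inj h)⟩)
  rw [card_normOne hF] at h1
  have h3 := (Nat.mul_le_mul_left 100 h1).trans (clB_uni hq (by omega))
  rw [mul_left_comm] at h3
  exact Nat.le_of_mul_le_mul_left h3 (Nat.succ_pos _)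

end Cfsg.Agent.S2481
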