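import Cfsg.Statements.S2482
import Mathlib
import Cfsg.Agent.Known.WallCount
import Cfsg.Agent.S2385

set_option autoImplicit false
open Cfsg

namespace Cfsg.Agent.S2482

open Cfsg.Lib.Known Cfsg.Lib.Class

/-- The number of conjugacy classes of Sp(2n,q), q odd: for F a finite field of odd order q and n ≥ 1, the number k of conjugacy classes of Sp(2n,F) satisfies q^n ≤ k ≤ 10.8·q^n. -/
theorem result {F : Type*} [Field F] [Fintype F] (hodd : Odd (Fintype.card F)) (n : ℕ) (hn : 1 ≤ n) :
    Fintype.card F ^ n ≤ Nat.card (ConjClasses (Matrix.symplecticGroup (Fin n) F)) ∧ 5 * Nat.card (ConjClasses (Matrix.symplecticGroup (Fin n) F)) ≤ 54 * Fintype.card F ^ n := by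
  obtain ⟨p, hp⟩ := CharP.exists F
  have := Fact.mk (CharP.char_is_prime F p)
  have h2 := two_ne_zero_of_odd hodd
  obtain ⟨hfin, h⟩ := card_le_of_wall h2 (by simp)
    (hform_of_isAlt (sympBilin_nondegenerate n) (sympBilin_isAlt n))
    (fun C : ConjClasses (Matrix.symplecticGroup (Fin n) F) =>
      Matrix.toLin' (C.out : Matrix (Fin n ⊕ Fin n) (Fin n ⊕ Fin n) F))
    (fun C u v => sympBilin_mulVec C.out u v) (fun C C' h => by
      rw [← C.out_eq, ← C'.out_eq]
      exact Quotient.sound (Sp_isConj_iff_exists.mpr h)) Odd (fun j => by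
      rw [← pow_succ', ← Nat.not_even_iff_odd, ← Nat.even_add_one, iff_comm]
      exact ⟨even_of_neg_one_pow h2, Even.neg_one_pow⟩) (le_max_left _ 16)
  refine ⟨?_, (Nat.mul_le_mul_left 5 h).trans ?_⟩
  · rw [← S2385.result rfl p n]
    exact Finite.card_subtype_le _
  · rw [Nat.card_eq_fintype_card, Module.finrank_fintype_fun_eq_card, Fintype.card_sum,
      Fintype.card_fin, ← two_mul]
    exact shapeSum_Sp_le (three_le_card_of_odd hodd) (le_max_right _ _) n

end Cfsg.Agent.S2482
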