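import Cfsg.Statements.S2483
import Cfsg.Agent.Known.LevMain

set_option autoImplicit false
open Cfsg

namespace Cfsg.Agent.S2483

open Module Polynomial Cfsg.Lib.Known Cfsg.Lib.Known.Lev in
/-- The action on column vectors. -/
noncomputable def act (F : Type*) [Field F] (n : ℕ) :
    Matrix.SpecialLinearGroup (Fin n) F →* End F (Fin n → F) where
  toFun A := Matrix.toLin' A.1
  map_one' := by simp [End.one_eq_id]
  map_mul' A B := by simp [Matrix.toLin'_mul, End.mul_eq_comp]

theorem exists_act {F : Type*} [Field F] {n : ℕ} (f : Module.End F (Fin n → F))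
    (h : LinearMap.det f = 1) : ∃ A, act F n A = f :=
  ⟨⟨LinearMap.toMatrix' f, by simp [h]⟩, by simp [act]⟩

theorem det_act {F : Type*} [Field F] {n : ℕ} (A) : LinearMap.det (act F n A) = 1 := by simp [act]

theorem mem_center {F : Type*} [Field F] {n : ℕ} {A : Matrix.SpecialLinearGroup (Fin n) F} :
    A ∈ Subgroup.center _ ↔ ∃ c : F, ∀ v, act F n A v = c • v := by
  refine ⟨fun h => ?_, fun ⟨c, hc⟩ => Subgroup.mem_center_iff.2 fun B => Subtype.ext
    (Matrix.toLin'.injective ?_)⟩
  · obtain ⟨r, -, h⟩ := Matrix.SpecialLinearGroup.mem_center_iff.1 h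
    exact ⟨r, fun v => by ext i; simp [act, ← h]⟩
  · change act F n _ = act F n _
    exact LinearMap.ext fun v => by simp [hc]

theorem mk_prod {G : Type*} [Group G] {N : Subgroup G} [N.Normal] {k : ℕ} (c : Fin k → G) (x : G) :
    (List.ofFn fun i => (c i : G ⧸ N) * x * (c i : G ⧸ N)⁻¹).prod =
      ((List.ofFn fun i => c i * x * (c i)⁻¹).prod : G) := by
  rw [← QuotientGroup.mk'_apply N (List.prod _), map_list_prod, List.map_ofFn]
  rfl

open Module Polynomial Cfsg.Lib.Known Cfsg.Lib.Known.Lev in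
theorem exists_no_eig (F : Type*) [Field F] [Fintype F] {n : ℕ} (hn : 3 ≤ n) :
    ∃ g : End F (Fin n → F), LinearMap.det g = 1 ∧ ∀ (c : F) v, g v = c • v → v = 0 := by
  classical
  obtain ⟨⟨a, b⟩, -, h⟩ := Finset.exists_mem_notMem_of_card_lt_card
    (s := ((Finset.univ.erase (0 : F)) ×ˢ (Finset.univ : Finset F)).image fun p =>
      (p.2, -(p.1 ^ n + p.2 * p.1 ^ 2 + (-1) ^ n) / p.1)) (t := Finset.univ)
    (Finset.card_image_le.trans_lt (by
      rw [Finset.card_product, ← Finset.univ_product_univ, Finset.card_product]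
      exact Nat.mul_lt_mul_of_pos_right (Finset.card_erase_lt_of_mem (Finset.mem_univ _))
        Fintype.card_pos))
  have t : (C a * X ^ 2 + C b * X + C ((-1) ^ n : F)).degree < (n : WithBot ℕ) :=
    degree_quadratic_lt.trans_le (by exact_mod_cast hn)
  have e : (X ^ n + (C a * X ^ 2 + C b * X + C ((-1) ^ n : F))).eval 0 = (-1) ^ n := by
    simp [show n ≠ 0 by omega]
  obtain ⟨T, z, -, h3, h4⟩ := exists_cy_on (Fin n → F) (monic_X_pow_add t) (by rw [e]; simp)
    (by rw [natDegree_add_eq_left_of_degree_lt (by rwa [degree_X_pow]), natDegree_X_pow]; simp)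
  refine ⟨T, by rw [h4, e, finrank_fin_fun, ← mul_pow]; simp, fun c => no_eig h3 fun hc => ?_⟩
  rcases eq_or_ne c 0 with rfl | c0
  · rw [e] at hc; simp at hc
  refine h (Finset.mem_image.2 ⟨(c, a), by simp [c0], Prod.ext rfl ?_⟩)
  simp only [eval_add, eval_pow, eval_X, eval_mul, eval_C] at hc
  field_simp
  linear_combination -hc

/-- The covering number of PSL(n,q) is n: let F be a finite field with q ≥ 4 elements and n ≥ 3. For every non-identity element x of PSL(n,F), every element of PSL(n,F) is a product of n conjugates of x; and for some non-identity x, some element is not a product of n − 1 conjugates of x. -/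
theorem result {F : Type*} [Field F] [Fintype F] (h4 : 4 ≤ Fintype.card F) (n : ℕ) (hn : 3 ≤ n) :
    (∀ x : Matrix.ProjectiveSpecialLinearGroup (Fin n) F, x ≠ 1 → ∀ g : Matrix.ProjectiveSpecialLinearGroup (Fin n) F, ∃ f : Fin n → Matrix.ProjectiveSpecialLinearGroup (Fin n) F, g = (List.ofFn fun i => f i * x * (f i)⁻¹).prod) ∧
    (∃ x : Matrix.ProjectiveSpecialLinearGroup (Fin n) F, x ≠ 1 ∧ ∃ g : Matrix.ProjectiveSpecialLinearGroup (Fin n) F, ∀ f : Fin (n - 1) → Matrix.ProjectiveSpecialLinearGroup (Fin n) F, g ≠ (List.ofFn fun i => f i * x * (f i)⁻¹).prod) := by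
  constructor
  · intro x hx g
    obtain ⟨X, rfl⟩ := QuotientGroup.mk_surjective x
    obtain ⟨G, rfl⟩ := QuotientGroup.mk_surjective g
    obtain ⟨ζ, -, h⟩ := Lib.Known.Lev.cov h4 (det_act X) (fun h => hx
      ((QuotientGroup.eq_one_iff _).2 (mem_center.2 h))) (by simpa) _ (det_act G)
    rw [Module.finrank_fin_fun, Set.mem_pow] at h
    obtain ⟨f, hf⟩ := h
    have : ∀ i, ∃ c, act F n (c * X * c⁻¹) = f i := fun i => by
      obtain ⟨e, h1, h2⟩ := (f i).2
      obtain ⟨c, hc⟩ := exists_act e.toLinearMap h1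
      refine ⟨c, ?_⟩
      have : act F n c * act F n X = f i * act F n c := by rw [hc]; exact LinearMap.ext h2
      rw [map_mul, map_mul, this, mul_assoc, ← map_mul, mul_inv_cancel, map_one, mul_one]
    choose c hc using this
    refine ⟨fun i => c i, ?_⟩
    rw [mk_prod, QuotientGroup.eq, mem_center]
    refine ⟨ζ, fun v => ?_⟩
    rw [map_mul, map_list_prod, List.map_ofFn, show _ ∘ _ = _ from funext hc, hf, mul_smul_comm,
      ← map_mul, inv_mul_cancel, map_one]
    rfl
  obtain ⟨m, rfl⟩ := Nat.exists_eq_add_of_le' hn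
  obtain ⟨t, ht⟩ := exists_act (LinearMap.transvection (LinearMap.proj (R := F) (1 : Fin (m + 3)))
    (Pi.single 0 1)) (by simp)
  obtain ⟨g, g1, g2⟩ := exists_no_eig F hn
  obtain ⟨G, rfl⟩ := exists_act g g1
  refine ⟨t, fun h => ?_, G, fun f h => ?_⟩
  · obtain ⟨c, hc⟩ := mem_center.1 ((QuotientGroup.eq_one_iff _).1 h)
    simpa [ht, LinearMap.transvection.apply] using congrFun (hc (Pi.single 1 1)) 0
  choose c hc using fun i => QuotientGroup.mk_surjective (f i)
  obtain rfl : f = fun i => (c i : _ ⧸ _) := funext fun i => (hc i).symm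
  rw [mk_prod, QuotientGroup.eq, mem_center] at h
  obtain ⟨r, hr⟩ := h
  obtain ⟨v, h1, h0⟩ := (Submodule.ne_bot_iff _).1 (LinearMap.ker_ne_bot_of_finrank_lt
    (f := LinearMap.pi fun i => LinearMap.proj (R := F) 1 ∘ₗ act F _ (c i)⁻¹) (by simp))
  have h2 : act F _ (List.ofFn fun i => c i * t * (c i)⁻¹).prod v = v := by
    refine List.prod_induction (fun a => act F _ a v = v) (fun a b ha hb => by simp [ha, hb])
      (by simp) fun a ha => ?_
    obtain ⟨i, rfl⟩ := List.mem_ofFn.1 ha
    have : act F _ (c i)⁻¹ v 1 = 0 := congrFun h1 i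
    rw [map_mul, map_mul, Module.End.mul_apply, Module.End.mul_apply, ht,
      LinearMap.transvection.apply, LinearMap.proj_apply, this, zero_smul, add_zero,
      ← Module.End.mul_apply, ← map_mul, mul_inv_cancel, map_one, Module.End.one_apply]
  have h3 := congrArg (act F _ G) (hr v)
  rw [← Module.End.mul_apply, ← map_mul, mul_inv_cancel_left, h2, map_smul] at h3
  rcases eq_or_ne r 0 with rfl | r0
  · exact h0 (by simpa using h3)
  · exact h0 (g2 r⁻¹ v ((eq_inv_smul_iff₀ r0).2 h3.symm))

end Cfsg.Agent.S2483
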