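import Cfsg.Statements.S2485
import Cfsg.Agent.Class.PGL2Borel
import Cfsg.Agent.Known.GL2Sylow

set_option autoImplicit false
open scoped Pointwise
open Cfsg

namespace Cfsg.Agent.S2485

open Cfsg.Lib.Class Matrix MulAction
open scoped MatrixGroups Pointwise

theorem aux {F : Type*} [Field F] [Finite F] (p : ℕ) [Fact p.Prime] [CharP F p]
    (h2 : Odd (Nat.card F)) {x y : P1 (Kb F)} (hT : TorusPair x y)
    (hx : x ∉ Set.range (barPt : P1 F → P1 (Kb F))) (g : PGL(2, F)) :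
    stabPair x y ⊓ (stabPair x y).map (MulAut.conj g).toMonoidHom ≠ ⊥ := by
  have key : ∀ {a b : P1 (Kb F)}, TorusPair a b → ∃ w ∈ fixPair a b, w ≠ 1 ∧ w * w = 1 := by
    intro a b h
    obtain ⟨w, hw⟩ := exists_prime_orderOf_dvd_card' (G := fixPair a b) 2 (by
      have := Nat.odd_iff.1 h2
      rcases h.card_fixPair with e | e <;> rw [e] <;> omega)
    refine ⟨w, w.2, fun h' => ?_, ?_⟩
    · rw [show w = 1 from Subtype.ext h'] at hw; simp at hw
    · have := pow_orderOf_eq_one w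
      rw [hw, sq] at this
      exact congrArg Subtype.val this
  obtain ⟨z, hz, hz1, hz2⟩ := key hT
  have hT' := hT.smul g
  obtain ⟨z', hz', hz1', hz2'⟩ := key hT'
  rw [← stabPair_smul]
  have hi := inv_eq_of_mul_eq_one_right hz2
  have hi' := inv_eq_of_mul_eq_one_right hz2'
  have e1 : z⁻¹ * (z * z') * z = (z * z')⁻¹ := by rw [_root_.mul_inv_rev, hi', hi, ← mul_assoc, hz2, one_mul]
  have e2 : z'⁻¹ * (z * z') * z' = (z * z')⁻¹ := by
    rw [_root_.mul_inv_rev, hi', hi, mul_assoc, mul_assoc, hz2', mul_one]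
  rw [Subgroup.ne_bot_iff_exists_ne_one]
  by_cases h1 : z * z' = 1
  · refine ⟨⟨z, fixPair_le_stabPair _ _ hz, fixPair_le_stabPair _ _ ?_⟩,
      fun h => hz1 (congrArg Subtype.val h)⟩
    rw [eq_inv_of_mul_eq_one_left h1]
    exact Subgroup.inv_mem _ hz'
  by_cases hp : (z * z') ^ p = 1
  · exfalso
    obtain ⟨a, ha⟩ := pgl2_exists_fixed_of_pow_char p hp
    have h3 := (conj_mem_unip_iff p z⁻¹ (z * z')).2 ((mem_unip p).2 ⟨ha, hp⟩)
    rw [inv_inv, e1] at h3
    have h4 := eq_of_mem_unip p h3 (inv_ne_one.2 h1) (y := a) (by rw [inv_smul_eq_iff, ha])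
    rw [hi] at h4
    rcases pgl2_fixed_eq_or (bar_eq_one_iff.not.2 hz1) hT.ne hz.1 hz.2
      ((bar_smul_barPt_eq_iff z a a).2 h4.symm) with h | h
    · exact hx ⟨a, h⟩
    · exact hx (hT.mem_range_iff.2 ⟨a, h⟩)
  · obtain ⟨a, b, hab, hu⟩ := exists_torusPair p hp
    obtain ⟨w, hw, hw1, hw2⟩ := key hab
    have c : ∀ t : PGL(2, F), t⁻¹ * (z * z') * t = (z * z')⁻¹ → t * w = w * t := fun t ht => by
      have := conj_eq_or_inv hab.ne (mem_stabPair_of_conj_mem hab.ne h1 hu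
        (ht ▸ Subgroup.inv_mem _ hu)) hw
      rw [inv_eq_of_mul_eq_one_right hw2, or_self, mul_inv_eq_iff_eq_mul] at this
      exact this
    exact ⟨⟨w, mem_stabPair_of_commute hT.ne hz1 hz (c z e1),
      mem_stabPair_of_commute hT'.ne hz1' hz' (c z' e2)⟩, fun h => hw1 (congrArg Subtype.val h)⟩

/-- Let q = 2^k − 1 ≥ 7 be a prime and let G = PGL(2,q), the general linear group of degree 2 over the field with q elements modulo its centre. Then any two Sylow 2-subgroups of G have a non-trivial intersection: for a Sylow 2-subgroup H and every x ∈ G, H ∩ H^x ≠ 1. -/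
theorem result {q k : ℕ} [Fact q.Prime] (hk : q + 1 = 2 ^ k) (hq : 7 ≤ q)
    (H : Sylow 2 (GL (Fin 2) (ZMod q) ⧸ Subgroup.center (GL (Fin 2) (ZMod q))))
    (x : GL (Fin 2) (ZMod q) ⧸ Subgroup.center (GL (Fin 2) (ZMod q))) :
    (H : Subgroup (GL (Fin 2) (ZMod q) ⧸ Subgroup.center (GL (Fin 2) (ZMod q)))) ⊓ MulAut.conj x • (H : Subgroup _) ≠ ⊥ := by
  have hc : Nat.card (ZMod q) = q := Nat.card_zmod q
  obtain ⟨j, rfl⟩ : ∃ j, k = j + 2 := ⟨k - 2, by
    have : 2 ^ 2 ≤ 2 ^ k := by omega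
    have := (Nat.pow_le_pow_iff_right one_lt_two).1 this
    omega⟩
  have hk' : q + 1 = 4 * 2 ^ j := by rw [hk]; ring
  obtain ⟨a, b, hT, ha, hcard⟩ := exists_torusPair_nonsplit (F := ZMod q)
  have h1 : Nat.card (stabPair a b) = 2 ^ (j + 3) := by
    rw [hT.card_stabPair, hcard, hc, hk]; ring
  obtain ⟨Q, hQ⟩ := (IsPGroup.of_card h1).exists_le_sylow
  have h2 : Nat.card (Q : Subgroup PGL(2, ZMod q)) = 2 ^ (j + 3) :=
    Lib.Known.GL2.card_sylow_of_eq Q (m := q * (2 * 2 ^ j - 1)) (by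
      rw [card_PGL2, hc, hk, show q - 1 = 2 * (2 * 2 ^ j - 1) by omega]; ring) (by
      rw [Nat.prime_two.dvd_mul]; omega)
  have h3 := Subgroup.eq_of_le_of_card_ge hQ (by rw [h1, h2])
  obtain ⟨c, hc'⟩ := exists_smul_eq PGL(2, ZMod q) Q H
  have h4 : (H : Subgroup (GL (Fin 2) (ZMod q) ⧸ Subgroup.center (GL (Fin 2) (ZMod q)))) =
      stabPair (bar c • a) (bar c • b) := by
    rw [stabPair_smul, h3, ← hc']; rfl
  rw [h4]
  exact aux q (by rw [hc, Nat.odd_iff]; omega) (hT.smul c) (by rwa [mem_range_barPt_smul_iff]) x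

end Cfsg.Agent.S2485
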