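import Cfsg.Statements.S2486
import Mathlib
import Cfsg.Agent.Chev.LieModel
import Cfsg.Agent.Chev.AutBN

set_option autoImplicit false
open scoped Pointwise
open Cfsg

namespace Cfsg.Agent.S2486

open Cfsg.Lib.Chev

theorem aux {ι A : Type} [Fintype ι] [DecidableEq ι] [DecidableEq A] {Γ : Type*} [Group Γ]
    [Finite Γ] {R : WeylData ι A} {Y : RGD R Γ} (hY : Y.Faithful)
    (htop : spanX Y.X {r | r ∈ R.Φ} = ⊤) (hU : IsPGroup 2 Y.U) (hH : ∀ h ∈ Y.H, h = 1)
    {G : Type*} [Group G] [Finite G] (N : Subgroup G) [N.Normal] (e : N ≃* Γ) (hidx : N.index = 2)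
    (H : Sylow 2 G) (x : G) :
    (H : Subgroup G) ⊓ MulAut.conj x • (H : Subgroup G) ≠ ⊥ := by
  have hK : hY.idTwist.G1 = ⊤ := hY.idTwist_G1.trans htop
  have hF : ∀ g, g ∈ hY.idTwist.F := fun g => hY.idTwist.G1_le_F (hK ▸ Subgroup.mem_top g)
  have hU' : IsPGroup 2 (Y.U.subgroupOf ⊤) := hU.comap_of_injective _ Subtype.val_injective
  have hH' : ∀ h ∈ Y.H, ∀ k : ℕ, h ^ 2 ^ k = 1 → h = 1 := fun h hh _ _ => hH h hh
  let e' : N ≃* (⊤ : Subgroup Γ) := e.trans Subgroup.topEquiv.symm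
  let j : (⊤ : Subgroup Γ) →* G := N.subtype.comp e'.symm.toMonoidHom
  have hj : Function.Injective j := Subtype.val_injective.comp e'.symm.injective
  have hjN : ∀ k, j k ∈ N := fun k => (e'.symm k).2
  have hsurj : ∀ g ∈ N, ∃ k, j k = g := fun g hg => ⟨e' ⟨g, hg⟩, by simp [j]⟩
  let θ : G → MulAut (⊤ : Subgroup Γ) := fun t => e'.symm.trans ((MulAut.conjNormal t).trans e')
  have hθ : ∀ t k, j (θ t k) = t * j k * t⁻¹ := fun t k => by simp [j, θ]
  obtain ⟨P, hP⟩ := hY.idTwist.exists_sylow hY hK hU' hH'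
  obtain ⟨Q, hQ⟩ := P.exists_comap_eq_of_injective hj
  have hQU : ∀ k, j k ∈ (Q : Subgroup G) ↔ (k : Γ) ∈ Y.U := fun k => by
    rw [← Subgroup.mem_comap, hQ, hP, Subgroup.mem_subgroupOf]
  -- elements normalising `U` lie in `Q`
  let M : Subgroup G := Subgroup.normalizer (((Q : Subgroup G) ⊓ N : Subgroup G) : Set G)
  have hQM : (Q : Subgroup G) ≤ M := fun g hg => Subgroup.mem_normalizer_iff.2 fun y => by
    simp only [Subgroup.mem_inf]
    rw [Subgroup.mul_mem_cancel_right _ (inv_mem hg), Subgroup.mul_mem_cancel_left _ hg,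
      Subgroup.Normal.mem_comm_iff ‹N.Normal› (a := g * y), inv_mul_cancel_left]
  have hMp : IsPGroup 2 M := fun ⟨s, hs⟩ => by
    obtain ⟨k, hk⟩ := hsurj _ (Subgroup.sq_mem_of_index_two hidx s)
    have hkB : (k : Γ) ∈ Y.B := hY.idTwist.mem_B_of_conj hY (hF _) fun u hu => by
      have h1 := (Subgroup.mem_normalizer_iff.1 (pow_mem hs 2) (j ⟨u, trivial⟩)).1
        ⟨(hQU _).2 hu.1, hjN _⟩
      rw [← hk, ← map_inv, ← map_mul, ← map_mul] at h1
      exact Y.U_le_B ((hQU _).1 h1.1)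
    obtain ⟨u, hu, h, hh, e1⟩ := Y.mem_B_iff.1 hkB
    rw [hH h hh, mul_one] at e1
    obtain ⟨a, ha⟩ := Q.isPGroup' ⟨j k, (hQU k).2 (e1 ▸ hu)⟩
    refine ⟨a + 1, Subtype.ext ?_⟩
    have := congrArg Subtype.val ha
    simp only [Subgroup.coe_pow, Subgroup.coe_one] at this ⊢
    rw [pow_succ', pow_mul, ← hk, this]
  have hMQ : M = Q := Q.is_maximal' hMp hQM
  have hnorm : ∀ s : G, (∀ k : (⊤ : Subgroup Γ), (θ s k : Γ) ∈ Y.U ↔ (k : Γ) ∈ Y.U) →
      s ∈ (Q : Subgroup G) := fun s hs => by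
    rw [← hMQ]
    refine Subgroup.mem_normalizer_iff.2 fun y => ⟨fun hy => ?_, fun hy => ?_⟩
    · obtain ⟨k, rfl⟩ := hsurj y hy.2
      rw [← hθ]
      exact ⟨(hQU _).2 ((hs k).2 ((hQU _).1 hy.1)), hjN _⟩
    · have hyN : y ∈ N := by simpa [mul_assoc] using ‹N.Normal›.conj_mem _ hy.2 s⁻¹
      obtain ⟨k, rfl⟩ := hsurj y hyN
      rw [← hθ] at hy
      exact ⟨(hQU _).2 ((hs k).1 ((hQU _).1 hy.1)), hyN⟩
  -- a standard element outside `N`
  obtain ⟨t, ht⟩ : ∃ t, t ∉ N := by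
    by_contra! h
    rw [(Subgroup.eq_top_iff' N).2 h, Subgroup.index_top] at hidx
    omega
  obtain ⟨y, hyU, hyV⟩ := hY.idTwist.exists_std hY hK hU' hH' (θ t)
  have hs : ∀ k, θ (j y * t) k = (MulAut.conj y * θ t) k := fun k => hj (by
    simp [hθ, mul_assoc])
  have hsN : j y * t ∉ N := fun h => ht ((N.mul_mem_cancel_left (hjN y)).1 h)
  have hsQ : j y * t ∈ (Q : Subgroup G) := hnorm _ fun k => by rw [hs]; exact hyU k
  have key : ∀ g : G, ∃ s, s ≠ 1 ∧ s ∈ (Q : Subgroup G) ∧ g⁻¹ * s * g ∈ (Q : Subgroup G) := by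
    have keyN : ∀ g ∈ N, ∃ s, s ≠ 1 ∧ s ∈ (Q : Subgroup G) ∧ g * s * g⁻¹ ∈ (Q : Subgroup G) := by
      intro g hg
      obtain ⟨k, rfl⟩ := hsurj g hg
      by_contra! hcon
      obtain ⟨a, ha, m, hm, b, hb, e1⟩ := hY.idTwist.exists_of_disjoint hY (g := k)
        (by rw [hK]; trivial) fun u hu h2 => by
          by_contra h1
          refine hcon (j ⟨u, trivial⟩) (fun h => h1 (congrArg Subtype.val (hj (h.trans
            (map_one j).symm)))) ((hQU _).2 hu.1) ?_
          rw [← map_inv, ← map_mul, ← map_mul]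
          exact (hQU _).2 h2
      let a' : (⊤ : Subgroup Γ) := ⟨a, trivial⟩
      let m' : (⊤ : Subgroup Γ) := ⟨m, trivial⟩
      let b' : (⊤ : Subgroup Γ) := ⟨b, trivial⟩
      have e2 : k = a' * m' * b' := Subtype.ext e1
      have hbQ : j b' ∈ (Q : Subgroup G) := (hQU _).2 hb
      have haQ : j a' ∈ (Q : Subgroup G) := (hQU _).2 ha.1
      have h3 : j m' * (j y * t) * (j m')⁻¹ ∈ (Q : Subgroup G) := hnorm _ fun z => by
        have h4 : θ (j m' * (j y * t) * (j m')⁻¹) z = m' * θ (j y * t) (m'⁻¹ * z * m') * m'⁻¹ :=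
          hj (by simp [hθ, mul_assoc])
        rw [h4, hs]
        have h5 := hyV (m'⁻¹ * z * m')
        have h6 := hm.conj_V_w0 (u := ((MulAut.conj y * θ t) (m'⁻¹ * z * m') : (⊤ : Subgroup Γ)))
        have h7 := hm.conj_V_w0 (u := (m'⁻¹ * z * m' : (⊤ : Subgroup Γ)))
        refine h6.trans (h5.trans (h7.symm.trans ?_))
        simp [m', mul_assoc]
      refine hcon ((j b')⁻¹ * (j y * t) * j b') (fun h => hsN ?_)
        (mul_mem (mul_mem (inv_mem hbQ) hsQ) hbQ) ?_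
      · have : j y * t = 1 := by simpa [mul_assoc] using congrArg (fun z => j b' * z * (j b')⁻¹) h
        rw [this]; exact one_mem _
      · have : j k * ((j b')⁻¹ * (j y * t) * j b') * (j k)⁻¹ =
            j a' * (j m' * (j y * t) * (j m')⁻¹) * (j a')⁻¹ := by
          rw [e2, map_mul, map_mul]; group
        rw [this]
        exact mul_mem (mul_mem haQ h3) (inv_mem haQ)
    intro g
    by_cases hg : g ∈ N
    · simpa using keyN g⁻¹ (inv_mem hg)
    · have h1 : (j y * t) * g⁻¹ ∈ N := (Subgroup.mul_mem_iff_of_index_two hidx).2 (by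
        simp [hsN, hg])
      obtain ⟨s, h2, h3, h4⟩ := keyN _ h1
      refine ⟨s, h2, h3, ?_⟩
      have : g⁻¹ * s * g = (j y * t)⁻¹ * (j y * t * g⁻¹ * s * (j y * t * g⁻¹)⁻¹) * (j y * t) := by
        group
      rw [this]
      exact mul_mem (mul_mem (inv_mem hsQ) h4) hsQ
  obtain ⟨g, rfl⟩ := MulAction.exists_smul_eq G Q H
  obtain ⟨s, h1, h2, h3⟩ := key (g⁻¹ * x * g)
  intro h
  have : g * s * g⁻¹ ∈ ((g • Q : Sylow 2 G) : Subgroup G) ⊓
      MulAut.conj x • ((g • Q : Sylow 2 G) : Subgroup G) := by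
    rw [Sylow.coe_subgroup_smul]
    rw [Subgroup.mem_inf, Subgroup.mem_pointwise_smul_iff_inv_smul_mem,
      Subgroup.mem_pointwise_smul_iff_inv_smul_mem, Subgroup.mem_pointwise_smul_iff_inv_smul_mem]
    refine ⟨?_, ?_⟩
    · simpa [mul_assoc] using h2
    · simpa [mul_assoc] using h3
  rw [h, Subgroup.mem_bot] at this
  exact h1 (by simpa using this)

/-- Let n ≥ 4 and let G be a finite group with a normal subgroup N of index 2 isomorphic to SL(n,2) and with trivial centralizer in G (so G is the extension of the simple group L_n(2) by its inverse-transpose automorphism, its full automorphism group). Then any two Sylow 2-subgroups of G have a non-trivial intersection: for a Sylow 2-subgroup H and every x ∈ G, H ∩ H^x ≠ 1. -/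
theorem result {G : Type*} [Group G] [Finite G] {n : ℕ} (hn : 4 ≤ n) (N : Subgroup G) [N.Normal]
    (e : N ≃* Matrix.SpecialLinearGroup (Fin n) (ZMod 2)) (hidx : N.index = 2)
    (hC : Subgroup.centralizer (N : Set G) = ⊥)
    (H : Sylow 2 G) (x : G) :
    (H : Subgroup G) ⊓ MulAut.conj x • (H : Subgroup G) ≠ ⊥ := by
  obtain ⟨m, rfl⟩ : ∃ m, n = m + 1 := ⟨n - 1, by omega⟩
  exact aux (slGr m (ZMod 2)).faithful slGr_spanX ((slGr m (ZMod 2)).isPGroup_U 2)
    (fun h hh => by simpa using (slGr m (ZMod 2)).H_pow slGr_wt_injective hh) N e hidx H x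

end Cfsg.Agent.S2486
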