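import Cfsg.Statements.S2487
import Cfsg.Agent.Class.StdForms
import Cfsg.Agent.Class.OrthBasic
import Cfsg.Agent.Class.Isom

set_option autoImplicit false
open scoped Pointwise
open Cfsg

namespace Cfsg.Agent.S2487

open Cfsg.Lib.Class Cfsg.Lib.Class.Orth QuadraticMap Module

theorem exists_fix {F V κ : Type*} [Field F] [AddCommGroup V] [Module F V] [FiniteDimensional F V]
    [Fintype κ] {Q : QuadraticForm F V} (hQ : (polarBilin Q).Nondegenerate) (v : κ → V)
    (h : Fintype.card κ + 2 ≤ finrank F V) : ∃ g : O Q, g ≠ 1 ∧ ∀ k, g.1 (v k) = v k := by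
  let φ : V →ₗ[F] (κ → F) := LinearMap.pi fun k => polarBilin Q (v k)
  have h1 := φ.finrank_range_add_finrank_ker
  have h2 : finrank F (LinearMap.range φ) ≤ Fintype.card κ := by
    simpa using (LinearMap.range φ).finrank_le
  have hk : ∀ t ∈ LinearMap.ker φ, ∀ k, polar Q (v k) t = 0 := fun t ht k => congrFun ht k
  have nd : ∀ t, t ≠ 0 → ∃ u, polar Q u t ≠ 0 := fun t ht => by
    by_contra! h
    exact ht (hQ.2 t h)
  by_cases hs : ∃ t ∈ LinearMap.ker φ, Q t ≠ 0
  · obtain ⟨t, ht, hq⟩ := hs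
    refine ⟨refl Q t, fun h => ?_, fun k => refl_apply_of_orth (hk t ht k)⟩
    have h0 : t ≠ 0 := by rintro rfl; simp at hq
    obtain ⟨u, hu⟩ := nd t h0
    have := refl_apply (Q := Q) t u
    rw [h, O_one_apply] at this
    simpa [h0, hq, hu] using sub_eq_self.1 this.symm
  · push Not at hs
    obtain ⟨b, hb⟩ := exists_linearIndependent_of_le_finrank (R := F) (M := LinearMap.ker φ)
      (n := 2) (by omega)
    have hb' := hb.map' _ (LinearMap.ker φ).ker_subtype
    have h01 : polar Q (b 0 : V) (b 1) = 0 := by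
      have := Q_add (Q := Q) (b 0 : V) (b 1)
      rw [hs _ (b 0).2, hs _ (b 1).2, hs _ (add_mem (b 0).2 (b 1).2)] at this
      simpa using this.symm
    refine ⟨eich Q (b 0) (b 1), fun h => ?_, fun k =>
      eich_apply_of_orth_orth (hk _ (b 0).2 k) (hk _ (b 1).2 k)⟩
    obtain ⟨u, hu⟩ := nd (b 0) (hb'.ne_zero 0)
    have := eich_apply (hs _ (b 0).2) h01 u
    rw [h, O_one_apply] at this
    refine hu (neg_eq_zero.1 (Fintype.linearIndependent_iff.1 hb'
      ![polar Q u (b 1) - Q (b 1) * polar Q u (b 0), -polar Q u (b 0)] ?_ 1))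
    simp only [Fin.sum_univ_two, Function.comp, Matrix.cons_val_zero, Matrix.cons_val_one,
      Submodule.subtype_apply]
    linear_combination (norm := module) (-1 : F) • this

theorem pow_four {F : Type*} [Field F] (hF : ∀ a : F, a = 0 ∨ a = 1) (h2 : (2 : F) = 0) {m : ℕ}
    (j : Fin m) (g : O (quadPlus m F))
    (hg : ∀ i, i ≠ j → g.1 (Pi.single (.inl i) 1) = Pi.single (.inl i) 1) : g ^ 4 = 1 := by
  have hp : ∀ (u : Fin m ⊕ Fin m → F) i, polar (quadPlus m F) u (Pi.single (.inl i) 1) = u (.inr i) := by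
    intro u i
    simp [polar, quadFormPlus, add_mul, Finset.sum_add_distrib, Pi.single_apply]
  have A : ∀ u i, i ≠ j → g.1 u (.inr i) = u (.inr i) := fun u i hi => by
    rw [← hp (g.1 u), ← hg i hi, O_polar, hp]
  have B : ∀ w : Fin m ⊕ Fin m → F, (∀ i, i ≠ j → w (.inr i) = 0) →
      quadPlus m F w = w (.inl j) * w (.inr j) := fun w hw => by
    rw [quadPlus_apply, quadFormPlus, Finset.sum_eq_single j] <;> simp +contextual [hw]
  have C : ∀ w : Fin m ⊕ Fin m → F, (∀ i, i ≠ j → w (.inr i) = 0) → w (.inl j) = 0 →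
      w (.inr j) = 0 → g.1 w = w := fun w hw h1 h3 => by
    have : w = ∑ i, w (.inl i) • (Pi.single (.inl i) 1 : Fin m ⊕ Fin m → F) := by
      ext (k | k)
      · simp [Finset.sum_apply, Pi.single_apply]
      · by_cases h : k = j
        · simp [Finset.sum_apply, h, h3]
        · simp [Finset.sum_apply, hw k h]
    rw [this, map_sum]
    refine Finset.sum_congr rfl fun i _ => ?_
    by_cases h : i = j
    · simp [h, h1]
    · rw [map_smul, hg i h]
  have D : ∀ w : Fin m ⊕ Fin m → F, (∀ i, i ≠ j → w (.inr i) = 0) →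
      (g.1 w - w) (.inl j) = (g.1 w - w) (.inr j) ∧
        (w (.inl j) = w (.inr j) → (g.1 w - w) (.inl j) = 0) := fun w hw => by
    have hw' : ∀ i, i ≠ j → g.1 w (.inr i) = 0 := fun i hi => by rw [A w i hi, hw i hi]
    have h1 := O_map g w
    rw [B _ hw, B _ hw'] at h1
    have h3 := C w hw
    have h4 : g.1 w (.inl j) = 0 → g.1 w (.inr j) = 0 → g.1 w = w := fun a b =>
      g.1.injective (C _ hw' a b)
    have h5 : (-1 : F) = 1 := by linear_combination -h2
    simp only [Pi.sub_apply]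
    rcases hF (w (.inl j)) with a | a <;> rcases hF (w (.inr j)) with b | b <;>
      rcases hF (g.1 w (.inl j)) with c | c <;> rcases hF (g.1 w (.inr j)) with d | d <;>
      simp_all
  refine O_ext fun u => ?_
  have N : ∀ u i, i ≠ j → (g.1 u - u) (.inr i) = 0 := fun u i hi => by simp [A u i hi]
  obtain ⟨u1, h1⟩ : ∃ u1, u1 = g.1 u - u := ⟨_, rfl⟩
  obtain ⟨u2, h3⟩ : ∃ u2, u2 = g.1 u1 - u1 := ⟨_, rfl⟩
  obtain ⟨u3, h4⟩ : ∃ u3, u3 = g.1 u2 - u2 := ⟨_, rfl⟩
  have e1 := (D u1 (h1 ▸ N u)).1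
  rw [← h3] at e1
  have e2 := D u2 (h3 ▸ N u1)
  rw [← h4] at e2
  have e3 := C u3 (h4 ▸ N u2) (e2.2 e1) (e2.1 ▸ e2.2 e1)
  have f1 : g.1 u = u + u1 := by rw [h1]; abel
  have f2 : g.1 u1 = u1 + u2 := by rw [h3]; abel
  have f3 : g.1 u2 = u2 + u3 := by rw [h4]; abel
  simp only [pow_succ, pow_zero, O_mul_apply, O_one_apply, f1, f2, f3, e3, map_add]
  linear_combination (norm := module) h2 • ((2 : F) • u1 + (3 : F) • u2 + (2 : F) • u3)

/-- Let m ≥ 4 and let G be the full isometry group of the hyperbolic quadratic form x₁y₁ + ⋯ + x_m y_m on the 2m-dimensional space over the field with 2 elements (the orthogonal group O⁺(2m,2), which contains Ω⁺(2m,2) with index 2). Then any two Sylow 2-subgroups of G have a non-trivial intersection: for a Sylow 2-subgroup H and every x ∈ G, H ∩ H^x ≠ 1. -/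
theorem result {F : Type*} [Field F] [Fintype F] (hF : Fintype.card F = 2) {m : ℕ} (hm : 4 ≤ m)
    (H : Sylow 2 (Cfsg.isometryGroup F (Cfsg.quadFormPlus m F)))
    (x : Cfsg.isometryGroup F (Cfsg.quadFormPlus m F)) :
    (H : Subgroup (Cfsg.isometryGroup F (Cfsg.quadFormPlus m F))) ⊓ MulAut.conj x • (H : Subgroup _) ≠ ⊥ := by
  have hF' : ∀ a : F, a = 0 ∨ a = 1 := fun a => by
    have := FiniteField.pow_card a
    rw [hF] at this
    exact (eq_zero_or_one_of_sq_eq_self this)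
  have h2 : (2 : F) = 0 := by simpa [hF] using FiniteField.cast_card_eq_zero F
  revert H x
  rw [← coe_quadPlus]
  intro H x
  let e := oEquivIsom (quadPlus m F)
  let j : Fin m := ⟨0, by omega⟩
  let P : Subgroup (O (quadPlus m F)) := ⨅ i : {i // i ≠ j},
    (MulAction.stabilizer _ (Pi.single (.inl i.1) 1 : Fin m ⊕ Fin m → F)).comap (O _).subtype
  have hP : ∀ g, g ∈ P ↔ ∀ i : {i // i ≠ j}, g.1 (Pi.single (.inl i.1) 1) = Pi.single (.inl i.1) 1 :=
    fun g => by simp only [P, Subgroup.mem_iInf]; rfl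
  have hp : IsPGroup 2 P := fun g => ⟨2, Subtype.ext
    (pow_four hF' h2 j g.1 fun i hi => (hP _).1 g.2 ⟨i, hi⟩)⟩
  obtain ⟨S, hS⟩ := (hp.comap_of_injective e.toMonoidHom e.injective).exists_le_sylow
  obtain ⟨y, rfl⟩ := MulAction.exists_smul_eq (isometryGroup F (quadPlus m F)) S H
  obtain ⟨g, hg, h⟩ := exists_fix (quadPlus_nondegenerate (F := F) m)
    (Sum.elim (fun i : {i // i ≠ j} => (e y).1 (Pi.single (.inl i.1) 1))
      (fun i : {i // i ≠ j} => (e (x * y)).1 (Pi.single (.inl i.1) 1))) (by simp; omega)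
  have key : ∀ z, (∀ i : {i // i ≠ j}, g.1 ((e z).1 (Pi.single (.inl i.1) 1)) =
      (e z).1 (Pi.single (.inl i.1) 1)) → z⁻¹ * e.symm g * z ∈ (S : Subgroup _) := fun z hz =>
    hS ((hP _).2 fun i => by
      simp only [MulEquiv.toMonoidHom_eq_coe, MonoidHom.coe_coe, map_mul, map_inv,
        MulEquiv.apply_symm_apply, O_mul_apply, hz, O_inv_apply])
  intro h0
  have : e.symm g ∈ (⊥ : Subgroup _) := h0 ▸ ⟨?_, ?_⟩
  · exact hg (by simpa using this)
  · exact ⟨_, key y fun i => h (.inl i), by simp [mul_assoc]⟩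
  · exact ⟨_, ⟨_, key (x * y) fun i => h (.inr i), rfl⟩, by simp [mul_assoc]⟩

end Cfsg.Agent.S2487
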