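import Cfsg.Statements.S2488
import Cfsg.Agent.Local.D8Cent
import Cfsg.Agent.S1611
import Cfsg.Agent.Solv.PGroupNormal

set_option autoImplicit false
open scoped Pointwise
open Cfsg

namespace Cfsg.Agent.S2488

open Equiv Equiv.Perm

/-- an involution -/
def z0 : Perm (Fin 6) := swap 0 1 * swap 2 3

theorem cases_ord : ∀ w : Perm (Fin 6), w * w = 1 → sign w = 1 →
    (z0 * w) ^ 3 = 1 ∨ (z0 * w) ^ 4 = 1 ∨ (z0 * w) ^ 5 = 1 := by decide +kernel

theorem count : ∀ k ∈ [3, 4, 5], (Finset.univ.filter fun w : Perm (Fin 6) =>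
    w * w = 1 ∧ sign w = 1 ∧ (z0 * w) ^ k = 1).card < 32 := by decide +kernel

theorem cycleType_inv {z : Perm (Fin 6)} (hz : orderOf z = 2) (hs : sign z = 1) :
    z.cycleType = {2, 2} := by
  obtain ⟨n, hn⟩ := cycleType_prime_order (σ := z) (by rw [hz]; norm_num)
  have h1 := z.sum_cycleType ▸ Finset.card_le_univ z.support
  rw [sign_of_cycleType, hn, hz] at hs
  rw [hn, hz] at h1
  simp only [Multiset.sum_replicate, smul_eq_mul, Fintype.card_fin] at h1
  have : n = 0 ∨ n = 1 ∨ n = 2 := by omega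
  rcases this with rfl | rfl | rfl
  · exact absurd hs (by decide)
  · rw [hn, hz]; rfl
  · exact absurd hs (by decide)

theorem key {z z' : Perm (Fin 6)} (hz : orderOf z = 2) (hs : sign z = 1) (hz' : z' * z' = 1)
    (hs' : sign z' = 1) {ι : Type*} [Finite ι] (f : ι → Perm (Fin 6)) (hf : Function.Injective f)
    (h : ∀ i, f i * f i = 1 ∧ sign (f i) = 1 ∧ orderOf (z * f i) = orderOf (z * z')) :
    Nat.card ι < 32 := by
  have h0 : orderOf z0 = 2 := orderOf_eq_prime (by decide) (by decide)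
  obtain ⟨g, hg⟩ := isConj_iff.1 (isConj_iff_cycleType_eq.2
    ((cycleType_inv hz hs).trans (cycleType_inv h0 (by decide)).symm))
  have cj : ∀ w, w * w = 1 → sign w = 1 → (g * w * g⁻¹) * (g * w * g⁻¹) = 1 ∧
      sign (g * w * g⁻¹) = 1 ∧ orderOf (z0 * (g * w * g⁻¹)) = orderOf (z * w) := fun w h1 h2 => by
    refine ⟨by simp [mul_assoc, ← mul_assoc w, h1], by simp [h2], ?_⟩
    rw [← hg, conj_mul]
    exact (MulAut.conj g).orderOf_eq _
  obtain ⟨h1, h2, h3⟩ := cj z' hz' hs'
  obtain ⟨k, hk, e⟩ : ∃ k ∈ [3, 4, 5], (z0 * (g * z' * g⁻¹)) ^ k = 1 := by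
    rcases cases_ord _ h1 h2 with e | e | e <;> exact ⟨_, by simp, e⟩
  refine lt_of_le_of_lt ?_ (count k hk)
  rw [← Fintype.card_subtype, ← Nat.card_eq_fintype_card]
  refine Nat.card_le_card_of_injective (fun i => ⟨g * f i * g⁻¹, ?_⟩) fun i j e => hf ?_
  · obtain ⟨a1, a2, a3⟩ := cj _ (h i).1 (h i).2.1
    refine ⟨a1, a2, ?_⟩
    rw [← orderOf_dvd_iff_pow_eq_one, a3, (h i).2.2, ← h3, orderOf_dvd_iff_pow_eq_one, e]
  · simpa using congrArg Subtype.val e

/-- Let G be a finite group with a normal subgroup N of index 4 isomorphic to the alternating group of degree 6 and with trivial centralizer in G (so G is the full automorphism group of A₆). Then any two Sylow 2-subgroups of G have a non-trivial intersection: for a Sylow 2-subgroup H and every x ∈ G, H ∩ H^x ≠ 1. -/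
theorem result {G : Type*} [Group G] [Finite G] (N : Subgroup G) [N.Normal]
    (e : N ≃* alternatingGroup (Fin 6)) (hidx : N.index = 4)
    (hC : Subgroup.centralizer (N : Set G) = ⊥)
    (H : Sylow 2 G) (x : G) :
    (H : Subgroup G) ⊓ MulAut.conj x • (H : Subgroup G) ≠ ⊥ := by
  intro hbot
  have hN : Nat.card N = 360 := (Nat.card_congr e.toEquiv).trans S1611.card_alt
  have hG : Nat.card G = 1440 := by rw [← N.index_mul_card, hidx, hN]
  have hH : Nat.card H = 32 := by
    rw [Sylow.card_eq_multiplicity, hG, show 1440 = 2 ^ 5 * 45 by norm_num,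
      Nat.factorization_mul (by norm_num) (by norm_num), Nat.Prime.factorization_pow Nat.prime_two]
    simp [Nat.factorization_eq_zero_of_not_dvd]
  have h1 : N.subgroupOf H ≠ ⊥ := by
    intro h
    have h2 := Subgroup.relIndex_dvd_index_of_normal N H
    rw [Subgroup.relIndex, h, Subgroup.index_bot, hH, hidx] at h2
    omega
  obtain ⟨z, hzN, hzc, hz2⟩ := Lib.Solv.PG.exists_mem_center_orderOf_eq H.isPGroup' _ h1
  have hzc' : ∀ h ∈ (H : Subgroup G), h * z.1 = z.1 * h := fun h hh =>
    congrArg Subtype.val (Subgroup.mem_center_iff.1 hzc ⟨h, hh⟩)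
  let u : N := ⟨z.1, hzN⟩
  have hu : orderOf u = 2 := by rw [← Subgroup.orderOf_coe, Subgroup.orderOf_coe z, hz2]
  let u' : N := MulAut.conjNormal x u
  have hu' : orderOf u' = 2 := by rw [MulEquiv.orderOf_eq, hu]
  set C := Subgroup.centralizer ({u'.1} : Set G)
  have hC8 : Nat.card (C.subgroupOf N) = 8 := by
    obtain ⟨e'⟩ := Lib.Local.nonempty_centralizer_A6 (e u') (by rw [MulEquiv.orderOf_eq, hu'])
    have : (C.subgroupOf N).map e.toMonoidHom = Subgroup.centralizer {e u'} := by
      ext y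
      obtain ⟨y, rfl⟩ := e.surjective y
      have h3 : e y ∈ (C.subgroupOf N).map e.toMonoidHom ↔ y ∈ C.subgroupOf N :=
        Subgroup.mem_map_iff_mem e.injective
      rw [h3, Subgroup.mem_subgroupOf, Subgroup.mem_centralizer_singleton_iff,
        Subgroup.mem_centralizer_singleton_iff, ← map_mul, ← map_mul, e.injective.eq_iff,
        Subtype.ext_iff]
      rfl
    rw [Nat.card_congr (e.subgroupMap _).toEquiv]
    change Nat.card ((C.subgroupOf N).map e.toMonoidHom) = 8
    rw [this, Nat.card_congr e'.toEquiv, DihedralGroup.nat_card]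
  have hC32 : Nat.card C ≤ 32 := by
    have h2 := Nat.le_of_dvd (by omega) (Subgroup.relIndex_dvd_index_of_normal N C)
    have h3 := (N.subgroupOf C).index_mul_card
    have h4 : Nat.card (N.subgroupOf C) = Nat.card (C.subgroupOf N) := by
      rw [← Subgroup.inf_subgroupOf_right, ← Subgroup.inf_subgroupOf_right C,
        Nat.card_congr (Subgroup.subgroupOfEquivOfLe inf_le_right).toEquiv,
        Nat.card_congr (Subgroup.subgroupOfEquivOfLe inf_le_right).toEquiv, inf_comm]
    rw [h4, hC8] at h3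
    rw [hidx, Subgroup.relIndex] at h2
    omega
  have hCH : MulAut.conj x • (H : Subgroup G) = C := by
    refine Subgroup.eq_of_le_of_card_ge ?_ ?_
    · rintro _ ⟨h, hh, rfl⟩
      rw [Subgroup.mem_centralizer_singleton_iff]
      show x * h * x⁻¹ * (x * z.1 * x⁻¹) = x * z.1 * x⁻¹ * (x * h * x⁻¹)
      rw [conj_mul, conj_mul, hzc' h hh]
    · rw [← Nat.card_congr (Subgroup.equivSMul (MulAut.conj x) (H : Subgroup G)).toEquiv, hH]
      exact hC32
  have ho : ∀ v : N, orderOf (e v).1 = orderOf v := fun v => by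
    rw [Subgroup.orderOf_coe, MulEquiv.orderOf_eq]
  have sq : ∀ v : N, orderOf v = 2 → (e v).1 * (e v).1 = 1 := fun v hv => by
    rw [← pow_two, ← hv, ← ho, pow_orderOf_eq_one]
  have := key (z := e u) (z' := e u') ((ho u).trans hu) (e u).2 (sq _ hu') (e u').2
    (fun h : H => (e (MulAut.conjNormal h.1 u')).1) (fun a b hab => by
      have h2 : a.1 * u'.1 * a.1⁻¹ = b.1 * u'.1 * b.1⁻¹ :=
        congrArg Subtype.val (e.injective (Subtype.ext hab))
      have h3 : (b⁻¹ * a).1 ∈ (H : Subgroup G) ⊓ MulAut.conj x • (H : Subgroup G) := by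
        refine ⟨(b⁻¹ * a).2, ?_⟩
        rw [hCH]
        refine Subgroup.mem_centralizer_singleton_iff.2 ?_
        show b.1⁻¹ * a.1 * u'.1 = u'.1 * (b.1⁻¹ * a.1)
        calc _ = b.1⁻¹ * (a.1 * u'.1 * a.1⁻¹) * a.1 := by group
          _ = _ := by rw [h2]; group
      rw [hbot] at h3
      exact (inv_mul_eq_one.1 (Subtype.ext h3)).symm) (fun h => by
      refine ⟨sq _ (by rw [MulEquiv.orderOf_eq, hu']), (e _).2, ?_⟩
      have h2 : MulAut.conjNormal h.1 u = u := Subtype.ext (by
        show h.1 * z.1 * h.1⁻¹ = z.1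
        rw [hzc' h.1 h.2, mul_inv_cancel_right])
      rw [← Subgroup.coe_mul, ← Subgroup.coe_mul, ← map_mul, ← map_mul, ho, ho]
      conv_lhs => rw [← h2, ← map_mul, MulEquiv.orderOf_eq])
  exact absurd (hH ▸ this) (by norm_num)

end Cfsg.Agent.S2488
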