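import Cfsg.Statements.S2490
import Cfsg.Agent.Spor.O7920A

set_option autoImplicit false
open Cfsg

namespace Cfsg.Agent.S2490

/-- Let G be a finite group of order 7920 = 2⁴·3²·5·11 (the order of the smallest Mathieu group) and suppose its prime graph (vertices the prime divisors of the order, distinct p, q joined when there is an element of order pq) is disconnected: the prime divisors split into two non-empty parts with no element of order pq for p in one part and q in the other. Then G is simple. -/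
theorem result {G : Type*} [Group G] [Finite G] (hord : Nat.card G = 7920)
    (hdisc : (∃ A : Set ℕ, (∃ a ∈ A, a.Prime ∧ a ∣ Nat.card G) ∧ (∃ b ∉ A, b.Prime ∧ b ∣ Nat.card G) ∧
      ∀ a ∈ A, ∀ b ∉ A, a.Prime → b.Prime → a ∣ Nat.card G → b ∣ Nat.card G → ¬ ∃ g : G, orderOf g = a * b)) :
    IsSimpleGroup G := by
  open Cfsg.Lib.Spor.O7920 Cfsg.Lib.Known Cfsg.Lib.Block Subgroup in
  by_contra hns
  obtain ⟨A, ⟨a, ha, hap, had⟩, ⟨b, hb, hbp, hbd⟩, hA⟩ := hdisc
  have hp : ∀ q : ℕ, q.Prime → q ∣ Nat.card G → q = 2 ∨ q = 3 ∨ q = 5 ∨ q = 11 := by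
    intro q hq hd
    have : q ∈ Nat.primeFactors 7920 := Nat.mem_primeFactors.2 ⟨hq, hord ▸ hd, by norm_num⟩
    have h2 : Nat.primeFactors 7920 = {2, 3, 5, 11} := by decide +kernel
    simpa [h2] using this
  have edge : ∀ p q : ℕ, p.Prime → q.Prime → p ≠ q → ∀ x y : G, orderOf x = p → orderOf y = q →
      y * x = x * y → (p ∈ A ↔ q ∈ A) := by
    intro p q hp hq hpq x y hx hy hc
    have h1 := (Nat.coprime_primes hp hq).2 hpq
    have h2 := hx ▸ orderOf_dvd_natCard x
    have h3 := hy ▸ orderOf_dvd_natCard y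
    constructor <;> intro h <;> by_contra hn
    · exact hA p h q hn hp hq h2 h3 (exists_orderOf_mul h1 hx hy hc.symm)
    · exact hA q h p hn hq hp h3 h2 (exists_orderOf_mul h1.symm hy hx hc)
  have edge' : ∀ p q : ℕ, p.Prime → q.Prime → p ≠ q → ∀ x : G, orderOf x = p →
      q ∣ Nat.card (centralizer ({x} : Set G)) → (p ∈ A ↔ q ∈ A) := by
    intro p q hp hq hpq x hx hd
    obtain ⟨y, hy, hc⟩ := exists_commute_of_dvd hq hd
    exact edge p q hp hq hpq x y hx hy hc
  suffices h : (2 ∈ A ↔ 11 ∈ A) ∧ (3 ∈ A ↔ 11 ∈ A) ∧ (5 ∈ A ↔ 11 ∈ A) by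
    rcases hp a hap had with rfl | rfl | rfl | rfl <;>
      rcases hp b hbp hbd with rfl | rfl | rfl | rfl <;> tauto
  obtain ⟨P⟩ : Nonempty (Sylow 11 G) := inferInstance
  have hP := card_syl11 hord P
  have h12 : Nat.card (Sylow 11 G) = 1 ∨ Nat.card (Sylow 11 G) = 12 →
      (2 ∈ A ↔ 11 ∈ A) ∧ (3 ∈ A ↔ 11 ∈ A) ∧ (5 ∈ A ↔ 11 ∈ A) := by
    intro h
    obtain ⟨h1, h2⟩ := dvd_card_centralizer_of_le_12 hord P h
    obtain ⟨x, hx, hx1, hxo⟩ := exists_gen hP
    have hC := PS.centralizer_singleton_eq hP hx hx1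
    have e2 := edge' 11 2 (by norm_num) (by norm_num) (by norm_num) x hxo (by rw [hC]; omega)
    have e3 := edge' 11 3 (by norm_num) (by norm_num) (by norm_num) x hxo (by rw [hC]; omega)
    refine ⟨e2.symm, e3.symm, ?_⟩
    by_cases h5 : 5 ∣ Nat.card (centralizer ((P : Subgroup G) : Set G))
    · exact (edge' 11 5 (by norm_num) (by norm_num) (by norm_num) x hxo (by rwa [hC])).symm
    let M := (centralizer ((P : Subgroup G) : Set G)).subgroupOf
      (normalizer ((P : Subgroup G) : Set G))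
    have hM : Nat.card M = Nat.card (centralizer ((P : Subgroup G) : Set G)) :=
      Nat.card_congr (subgroupOfEquivOfLe (centralizer_le_normalizer _)).toEquiv
    obtain ⟨k, m, hm, hk⟩ := Nat.exists_eq_pow_mul_and_not_dvd (Nat.card_pos (α := M)).ne' 3
      (by norm_num)
    have h3 : 3 ^ k ∣ 7920 := hord ▸ (Dvd.intro _ hk.symm).trans (hM ▸ card_subgroup_dvd_card _)
    have h4 : k ≠ 0 := by rintro rfl; rw [hM] at hk; omega
    have h6 : k ≤ 2 := by
      by_contra hn
      exact absurd ((pow_dvd_pow 3 (by omega : 3 ≤ k)).trans h3) (by norm_num)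
    obtain ⟨y, z, hy, hz, -, hc⟩ := exists_commute_of_normal (p := 5) M (by
      have h7 : 5 ∣ Nat.card M * M.index := by rw [M.card_mul_index]; omega
      exact ((Nat.Prime.dvd_mul (by norm_num)).1 h7).resolve_left (hM ▸ h5))
      (by norm_num) hk hm (by interval_cases k <;> simp_all)
    exact (edge 5 3 (by norm_num) (by norm_num) (by norm_num) y z (by rw [orderOf_coe, hy])
      (by rw [orderOf_coe, hz]) (congrArg Subtype.val hc)).trans e3.symm
  rcases n11_cases hord with h | h | h | h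
  · exact h12 (Or.inl h)
  · exact h12 (Or.inr h)
  · obtain ⟨t, ht, hd⟩ := dvd_of_n45 hord h
    have e3 := edge' 2 3 (by norm_num) (by norm_num) (by norm_num) t ht (by omega)
    have e5 := edge' 2 5 (by norm_num) (by norm_num) (by norm_num) t ht (by omega)
    have e11 := edge' 2 11 (by norm_num) (by norm_num) (by norm_num) t ht (by omega)
    exact ⟨e11, e3.symm.trans e11, e5.symm.trans e11⟩
  · exact hns (isSimpleGroup_of_n144 hord h) |>.elim

end Cfsg.Agent.S2490
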