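import Cfsg.Statements.S2493
import Cfsg.Agent.DC.Invol

set_option autoImplicit false
open Cfsg

namespace Cfsg.Agent.S2493

open Equiv Subgroup Cfsg.Lib.DC Cfsg.Lib.Known
open scoped commutatorElement

section Perms

variable {Ω : Type*} [Fintype Ω] [DecidableEq Ω]

theorem cycleType_inv {u : Perm Ω} (hu : u * u = 1) :
    ∃ k, u.cycleType = Multiset.replicate k 2 := by
  have : Fact (Nat.Prime 2) := ⟨Nat.prime_two⟩
  exact ⟨_, Perm.cycleType_of_pow_prime_eq_one (p := 2) (by rw [pow_two, hu])⟩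

theorem isConj_inv {u v : Perm Ω} (hu : u * u = 1) (hv : v * v = 1)
    (h : u.support.card = v.support.card) : IsConj u v := by
  obtain ⟨k, hk⟩ := cycleType_inv hu
  obtain ⟨l, hl⟩ := cycleType_inv hv
  rw [← Perm.sum_cycleType, ← Perm.sum_cycleType, hk, hl] at h
  simp only [Multiset.sum_replicate, smul_eq_mul] at h
  obtain rfl : k = l := by omega
  exact Perm.isConj_iff_cycleType_eq.2 (hk.trans hl.symm)

theorem swap_mul_inv {v : Perm Ω} (hv : v * v = 1) {p r : Ω} (hpr : p ≠ r) (hp : v p = p)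
    (hr : v r = r) : swap p r * v * (swap p r * v) = 1 ∧
      (swap p r * v).support.card = v.support.card + 2 ∧
      (swap p r * v).support = {p, r} ∪ v.support := by
  have hd : Perm.Disjoint (swap p r) v := fun x => by
    by_cases h1 : x = p
    · right; rw [h1, hp]
    by_cases h2 : x = r
    · right; rw [h2, hr]
    · left; exact swap_apply_of_ne_of_ne h1 h2
  refine ⟨?_, ?_, ?_⟩
  · rw [mul_assoc, ← mul_assoc v, ← hd.commute.eq, mul_assoc, hv, mul_one, swap_mul_self]
  · rw [hd.card_support_mul, Perm.card_support_swap hpr, add_comm]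
  · rw [hd.support_mul, Perm.support_swap hpr]

/-- Every permutation is a product of two involutions of nearly the same shape. -/
theorem two_inv : ∀ (n : ℕ) (x : Perm Ω) (p : Ω), x.support.card ≤ n →
    ∃ u v : Perm Ω, u * u = 1 ∧ v * v = 1 ∧ x = u * v ∧ u.support ⊆ x.support ∧
      v.support ⊆ x.support ∧ v p = p ∧ (x p ≠ p → u p ≠ p) ∧
      u.support.card = v.support.card + (if Perm.sign x = 1 then 0 else 2) := by
  intro n
  induction n with
  | zero =>
    intro x p h
    have : x = 1 := Perm.card_support_eq_zero.1 (by omega)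
    subst this
    exact ⟨1, 1, by simp, by simp, by simp, by simp, by simp, rfl, by simp, by simp⟩
  | succ n ih =>
    intro x p h
    have key : ∀ p, x p ≠ p → ∃ u v : Perm Ω, u * u = 1 ∧ v * v = 1 ∧ x = u * v ∧
        u.support ⊆ x.support ∧ v.support ⊆ x.support ∧ v p = p ∧ u p ≠ p ∧
        u.support.card = v.support.card + (if Perm.sign x = 1 then 0 else 2) := by
      intro p hp
      set x' := swap p (x p) * x with hx'
      have hlt : x'.support.card < x.support.card := Perm.card_support_swap_mul hp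
      have hsub : x'.support ⊆ x.support := fun y hy =>
        (Perm.mem_support_swap_mul_imp_mem_support_ne hy).1
      have hp' : p ∉ x'.support := by
        rw [Perm.notMem_support, hx', Perm.mul_apply, swap_apply_right]
      obtain ⟨U, V, hU, hV, e, sU, sV, hr, -, hc⟩ := ih x'⁻¹ (x p) (by
        rw [Perm.support_inv]; omega)
      rw [Perm.support_inv] at sU sV
      have hVp : V p = p := Perm.notMem_support.1 fun h => hp' (sV h)
      have hUp : U p = p := Perm.notMem_support.1 fun h => hp' (sU h)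
      obtain ⟨h1, h2, h3⟩ := swap_mul_inv hV hp.symm hVp hr
      refine ⟨swap p (x p) * V, U, h1, hU, ?_, ?_, sU.trans hsub, hUp, ?_, ?_⟩
      · have : x' = V * U := by
          rw [← inv_inv x', e, mul_inv_rev, inv_eq_of_mul_eq_one_right hU,
            inv_eq_of_mul_eq_one_right hV]
        rw [mul_assoc, ← this, hx', ← mul_assoc, swap_mul_self, one_mul]
      · rw [h3]
        refine Finset.union_subset ?_ (sV.trans hsub)
        intro y hy
        simp only [Finset.mem_insert, Finset.mem_singleton] at hy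
        rcases hy with rfl | rfl
        · exact Perm.mem_support.2 hp
        · exact Perm.apply_mem_support.2 (Perm.mem_support.2 hp)
      · rw [Perm.mul_apply, hVp, swap_apply_left]; exact hp
      · rw [h2, hc, Perm.sign_inv, hx', map_mul, Perm.sign_swap hp.symm]
        rcases Int.units_eq_one_or (Perm.sign x) with h | h <;> simp [h]
    by_cases hp : x p = p
    · by_cases h1 : x = 1
      · subst h1
        exact ⟨1, 1, by simp, by simp, by simp, by simp, by simp, rfl, by simp, by simp⟩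
      · obtain ⟨q, hq⟩ : ∃ q, x q ≠ q := by
          by_contra! e
          exact h1 (Equiv.ext e)
        obtain ⟨u, v, h1, h2, h3, h4, h5, -, -, h6⟩ := key q hq
        exact ⟨u, v, h1, h2, h3, h4, h5,
          Perm.notMem_support.1 fun h => Perm.mem_support.1 (h5 h) hp, fun h => absurd hp h, h6⟩
    · obtain ⟨u, v, h1, h2, h3, h4, h5, h6, h7, h8⟩ := key p hp
      exact ⟨u, v, h1, h2, h3, h4, h5, h6, fun _ => h7, h8⟩

theorem strip {u : Perm Ω} (hu : u * u = 1) {b : Ω} (hb : u b ≠ b) :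
    ∃ u' : Perm Ω, u' * u' = 1 ∧ u = swap b (u b) * u' ∧ u' b = b ∧ u' (u b) = u b ∧
      u.support.card = u'.support.card + 2 ∧ ∀ y, y ≠ b → y ≠ u b → u' y = u y := by
  have hi := invol_of_mul_self hu
  have h1 : (swap b (u b) * u) b = b := by rw [Perm.mul_apply, swap_apply_right]
  have h2 : (swap b (u b) * u) (u b) = u b := by rw [Perm.mul_apply, hi, swap_apply_left]
  have h3 : ∀ y, y ≠ b → y ≠ u b → (swap b (u b) * u) y = u y := fun y a c => by
    rw [Perm.mul_apply, swap_apply_of_ne_of_ne (fun e => c (by rw [← e, hi])) (u.injective.ne a)]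
  have h4 : swap b (u b) * u * (swap b (u b) * u) = 1 := by
    have : u * swap b (u b) = swap b (u b) * u := by
      rw [mul_swap_eq_swap_mul, hi, swap_comm]
    rw [mul_assoc, ← mul_assoc u, this, mul_assoc, hu, mul_one, swap_mul_self]
  have e : u = swap b (u b) * (swap b (u b) * u) := by rw [← mul_assoc, swap_mul_self, one_mul]
  refine ⟨swap b (u b) * u, h4, e, h1, h2, ?_, h3⟩
  conv_lhs => rw [e]
  exact (swap_mul_inv h4 hb.symm h1 h2).2.1

/-- The decomposition needed in the double cover. -/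
def Good (x : Perm Ω) : Prop :=
  ∃ U V : Perm Ω, x = U * V ∧ IsConj U⁻¹ V ∧ Perm.sign U = 1 ∧
    ∃ a b c d : Ω, [a, b, c, d].Nodup ∧ U a = b ∧ U b = a ∧ U c = d ∧ U d = c

theorem good_dt {x : Perm Ω} {a b c d a' b' c' d' : Ω} (h : [a, b, c, d].Nodup)
    (h' : [a', b', c', d'].Nodup) (e : x = swap a b * swap c d * (swap a' b' * swap c' d')) :
    Good x := by
  have e1 := h
  simp only [List.nodup_cons, List.mem_cons, List.not_mem_nil, not_or] at e1
  obtain ⟨⟨h1, h2, h3, -⟩, ⟨h4, h5, -⟩, ⟨h6, -⟩, -⟩ := e1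
  obtain ⟨g, -, hg⟩ := exists_conj_dt h h'
  refine ⟨_, _, e, ?_, sign_dt h1 h6, a, b, c, d, h, ?_, ?_, ?_, ?_⟩
  · rw [mul_inv_rev, swap_inv, swap_inv, ← (disjoint_swap h).commute.eq]
    exact isConj_iff.2 ⟨g, hg⟩
  · rw [Perm.mul_apply, swap_apply_of_ne_of_ne h2 h3, swap_apply_left]
  · rw [Perm.mul_apply, swap_apply_of_ne_of_ne h4 h5, swap_apply_right]
  · rw [Perm.mul_apply, swap_apply_left, swap_apply_of_ne_of_ne (Ne.symm h3) (Ne.symm h5)]
  · rw [Perm.mul_apply, swap_apply_right, swap_apply_of_ne_of_ne (Ne.symm h2) (Ne.symm h4)]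

theorem exists_two (h5 : 5 ≤ Fintype.card Ω) (a b c : Ω) :
    ∃ d e : Ω, d ≠ e ∧ d ∉ ({a, b, c} : Finset Ω) ∧ e ∉ ({a, b, c} : Finset Ω) := by
  have h1 : ({a, b, c} : Finset Ω).card ≤ 3 := Finset.card_le_three
  have h2 : 1 < (({a, b, c} : Finset Ω)ᶜ).card := by rw [Finset.card_compl]; omega
  obtain ⟨d, hd, e, he, hde⟩ := Finset.one_lt_card.1 h2
  exact ⟨d, e, hde, Finset.mem_compl.1 hd, Finset.mem_compl.1 he⟩

omit [Fintype Ω] in
theorem dt_mul {a b c d : Ω} (h : [a, b, c, d].Nodup) :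
    swap a b * swap c d = swap a c * swap b d * (swap a d * swap b c) := by
  simp only [List.nodup_cons, List.mem_cons, List.not_mem_nil, not_or] at h
  obtain ⟨⟨h1, h2, h3, -⟩, ⟨h4, h5, -⟩, ⟨h6, -⟩, -⟩ := h
  ext y
  simp only [Perm.mul_apply, swap_apply_def]
  split_ifs <;> simp_all

theorem good (h5 : 5 ≤ Fintype.card Ω) {x : Perm Ω} (hx : Perm.sign x = 1) : Good x := by
  by_cases h1 : x = 1
  · let p : Fin 4 ↪ Ω := (Function.Embedding.nonempty_of_card_le (by simp; omega)).some
    have hp : [p 0, p 1, p 2, p 3].Nodup := by simp [p.injective.eq_iff]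
    refine good_dt hp hp ?_
    rw [h1, mul_assoc, ← mul_assoc (swap (p 2) (p 3)), ← (disjoint_swap hp).commute.eq]
    simp [mul_assoc, ← mul_assoc (swap (p 0) (p 1)) (swap (p 0) (p 1))]
  obtain ⟨b, hb⟩ : ∃ q, x q ≠ q := by
    by_contra! e
    exact h1 (Equiv.ext e)
  obtain ⟨u, v, hu, hv, e, -, -, hvb, hub, hc⟩ := two_inv _ x b le_rfl
  rw [if_pos hx, add_zero] at hc
  replace hub := hub hb
  rcases Int.units_eq_one_or (Perm.sign u) with hs | hs
  · obtain ⟨q, hq⟩ := exists_ap (invol_of_mul_self hu) hs hub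
    refine ⟨u, v, e, ?_, hs, b, u b, q, u q, hq.nodup (invol_of_mul_self hu), rfl,
      invol_of_mul_self hu _, rfl, invol_of_mul_self hu _⟩
    rw [inv_eq_of_mul_eq_one_right hu]
    exact isConj_inv hu hv hc
  obtain ⟨a, hva, hua⟩ : ∃ a, v a ≠ a ∧ u a = a := by
    by_contra! H
    have h2 : v.support ⊆ u.support := fun y hy => Perm.mem_support.2 (H y (Perm.mem_support.1 hy))
    have h3 := Finset.eq_of_subset_of_card_le h2 hc.le
    exact Perm.mem_support.1 (h3 ▸ Perm.mem_support.2 hub) hvb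
  obtain ⟨u', hu', eu, u1, u2, u3, u4⟩ := strip hu hub
  obtain ⟨v', hv', ev, v1, v2, v3, v4⟩ := strip hv hva
  have hab : a ≠ b := fun h => hub (h ▸ hua)
  have hab' : a ≠ u b := fun h => hab (by
    rw [← hua, h, invol_of_mul_self hu])
  have hba' : b ≠ v a := fun h => hab (by
    rw [← invol_of_mul_self hv a, ← h, hvb])
  have u5 : u' a = a := by rw [u4 a hab hab', hua]
  have v5 : v' b = b := by rw [v4 b hab.symm hba', hvb]
  by_cases h0 : u' = 1
  · have h0' : v' = 1 := by
      rw [h0, Perm.support_one, Finset.card_empty] at u3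
      exact Perm.card_support_eq_zero.1 (by omega)
    rw [h0, mul_one] at eu
    rw [h0', mul_one] at ev
    by_cases h2 : v a = u b
    · obtain ⟨c, d, hcd, hc', hd'⟩ := exists_two h5 a b (u b)
      simp only [Finset.mem_insert, Finset.mem_singleton, not_or] at hc' hd'
      refine good_dt (a := b) (b := u b) (c := c) (d := d) (a' := c) (b' := d) (c' := a)
        (d' := u b) ?_ ?_ ?_
      · simp [hub.symm, Ne.symm hc'.2.1, Ne.symm hd'.2.1, Ne.symm hc'.2.2, Ne.symm hd'.2.2, hcd]
      · simp [hcd, hc'.1, hc'.2.2, hd'.1, hd'.2.2, hab']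
      · rw [mul_assoc, ← mul_assoc (swap c d), swap_mul_self, one_mul, ← eu, ← h2, ← ev, e]
    · have hn : [b, u b, a, v a].Nodup := by
        simp [hub.symm, hab.symm, hba', hab'.symm, Ne.symm h2, hva.symm]
      refine good_dt (a := b) (b := a) (c := u b) (d := v a) (a' := b) (b' := v a) (c' := u b)
        (d' := a) ?_ ?_ ?_
      · simp [hub.symm, hab.symm, hba', hab', Ne.symm h2, hva.symm]
      · simp [hub.symm, hab.symm, hba', hab'.symm, h2, hva]
      · rw [← dt_mul hn, ← eu, ← ev, e]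
  · obtain ⟨c, hc'⟩ : ∃ q, u' q ≠ q := by
      by_contra! e
      exact h0 (Equiv.ext e)
    have hs' : Perm.sign u' = 1 := by
      rw [eu, map_mul, Perm.sign_swap hub.symm] at hs
      simpa using hs
    have hi := invol_of_mul_self hu'
    obtain ⟨q, hq⟩ := exists_ap hi hs' hc'
    have hn := hq.nodup hi
    have hmv : ∀ y, u' y ≠ y → (u * swap a b) y = u' y := fun y hy => by
      have n1 : y ≠ a := fun h => hy (h ▸ u5)
      have n2 : y ≠ b := fun h => hy (h ▸ u1)
      have n3 : y ≠ u b := fun h => hy (h ▸ u2)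
      rw [Perm.mul_apply, swap_apply_of_ne_of_ne n1 n2, u4 y n2 n3]
    have hq' : u' q ≠ q := by
      simp only [List.nodup_cons, List.mem_cons, List.not_mem_nil, not_or] at hn
      exact Ne.symm hn.2.2.1.1
    refine ⟨u * swap a b, swap a b * v, ?_, ?_, ?_, c, u' c, q, u' q, hn, hmv c hc', ?_,
      hmv q hq', ?_⟩
    · rw [mul_assoc, ← mul_assoc (swap a b), swap_mul_self, one_mul, e]
    · rw [mul_inv_rev, swap_inv, inv_eq_of_mul_eq_one_right hu, eu, ev, ← mul_assoc, ← mul_assoc]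
      have dj : ∀ {w : Perm Ω} {i j k : Ω}, w i = i → w j = j → w k = k →
          Perm.Disjoint (swap i j * swap i k) w := fun {w i j k} a1 a2 a3 y => by
        by_cases n1 : y = i
        · right; rw [n1, a1]
        by_cases n2 : y = j
        · right; rw [n2, a2]
        by_cases n3 : y = k
        · right; rw [n3, a3]
        · left; rw [Perm.mul_apply, swap_apply_of_ne_of_ne n1 n3, swap_apply_of_ne_of_ne n1 n2]
      refine Perm.Disjoint.isConj_mul ?_ (isConj_inv hu' hv' (by omega)) ?_ (dj v1 v5 v2)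
      · rw [Perm.isConj_iff_cycleType_eq,
          (Perm.isThreeCycle_swap_mul_swap_same hab hva.symm hba').cycleType, swap_comm a b,
          (Perm.isThreeCycle_swap_mul_swap_same hab.symm hub.symm hab').cycleType]
      · rw [swap_comm a b]; exact dj u1 u5 u2
    · rw [map_mul, hs, Perm.sign_swap hab]; simp
    · rw [hmv _ (by rw [hi]; exact hc'.symm), hi]
    · rw [hmv _ (by rw [hi]; exact hq'.symm), hi]

variable {H : Type*} [Group H] {ζ : H} {π : H →* Perm Ω}

theorem exists_anti (hc : Cov ζ π) {u : H} {a b c d : Ω} (hn : [a, b, c, d].Nodup)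
    (h1 : π u a = b) (h2 : π u b = a) (h3 : π u c = d) (h4 : π u d = c) :
    ∃ s : H, s * u * s⁻¹ = u * ζ := by
  have e := hn
  simp only [List.nodup_cons, List.mem_cons, List.not_mem_nil, not_or] at e
  obtain ⟨⟨n1, n2, n3, -⟩, ⟨n4, n5, -⟩, ⟨n6, -⟩, -⟩ := e
  have hn1 : [a, c, b, d].Nodup := by simp [n1, n2, n3, Ne.symm n4, n5, n6]
  have hn2 : [a, d, b, c].Nodup := by simp [n1, n2, n3, n4, Ne.symm n5, Ne.symm n6]
  have hn3 : [a, d, c, b].Nodup := by simp [n1, n2, n3, Ne.symm n4, Ne.symm n5, Ne.symm n6]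
  obtain ⟨s, hs⟩ := hc.exists_lift (sign_dt n2 n5)
  obtain ⟨t, ht⟩ := hc.exists_lift (sign_dt n1 n6)
  have hst : π (s * t) = swap a d * swap c b := by
    rw [map_mul, hs, ht, dt_mul hn3, swap_comm d b, swap_comm d c]
  have h5 := Cov.anti_of_sq hc.toPre (hc.sq _ _ _ _ hn1 s hs) (hc.sq _ _ _ _ hn t ht)
    (hc.sq _ _ _ _ hn3 _ hst)
  have h6 : Commute s (t⁻¹ * u) := by
    refine hc.commute_of_disjoint (P := {a, b, c, d}) (Q := {a, b, c, d}ᶜ) disjoint_compl_right
      (hs ▸ dt_mem_altOn n2 n5 (by simp) (by simp) (by simp) (by simp)) ⟨hc.sign_eq _, ?_⟩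
    intro y hy
    rw [Set.notMem_compl_iff] at hy
    rw [map_mul, map_inv, Perm.mul_apply, Perm.inv_eq_iff_eq, ht, Perm.mul_apply]
    simp only [Set.mem_insert_iff, Set.mem_singleton_iff] at hy
    rcases hy with rfl | rfl | rfl | rfl
    · rw [h1, swap_apply_of_ne_of_ne n2 n3, swap_apply_left]
    · rw [h2, swap_apply_of_ne_of_ne n4 n5, swap_apply_right]
    · rw [h3, swap_apply_left, swap_apply_of_ne_of_ne (Ne.symm n3) (Ne.symm n5)]
    · rw [h4, swap_apply_right, swap_apply_of_ne_of_ne (Ne.symm n2) (Ne.symm n4)]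
  refine ⟨s, ?_⟩
  calc s * u * s⁻¹ = (s * t) * (t⁻¹ * u) * s⁻¹ := by group
    _ = t * (s * ζ * (t⁻¹ * u)) * s⁻¹ := by rw [h5]; group
    _ = t * (s * (t⁻¹ * u) * ζ) * s⁻¹ := by
      rw [mul_assoc s ζ, ← (hc.cent (t⁻¹ * u)).eq, mul_assoc s]
    _ = u * (s * ζ * s⁻¹) := by rw [h6.eq]; group
    _ = u * ζ := by rw [(hc.cent s).eq, mul_inv_cancel_right]

theorem main (hc : Cov ζ π) (h5 : 5 ≤ Fintype.card Ω) (g : H) :
    ∃ a b : H, a * b * a⁻¹ * b⁻¹ = g := by
  obtain ⟨U, V, e, hUV, hs, a, b, c, d, hn, h1, h2, h3, h4⟩ := good h5 (hc.sign_eq g)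
  have n1 : a ≠ b := by
    simp only [List.nodup_cons, List.mem_cons, List.not_mem_nil, not_or] at hn
    exact hn.1.1
  obtain ⟨B, hB, hB'⟩ := exists_even_conj (s := swap a b) hUV (Perm.sign_swap n1) (by
    refine Commute.inv_right ?_
    rw [Commute, SemiconjBy, mul_swap_eq_swap_mul, h1, h2, swap_comm])
  obtain ⟨u, rfl⟩ := hc.exists_lift hs
  obtain ⟨w, rfl⟩ := hc.exists_lift hB
  obtain ⟨s, hs'⟩ := exists_anti hc hn h1 h2 h3 h4
  have : π g = π (u * w * u⁻¹ * w⁻¹) := by
    rw [e, ← hB']; simp only [map_mul, map_inv, mul_assoc]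
  rcases hc.eq_or this with h | h
  · exact ⟨u, w, h.symm⟩
  · refine ⟨u, w * s, ?_⟩
    have h7 : s * u⁻¹ * s⁻¹ = u⁻¹ * ζ := by
      have : s * u⁻¹ * s⁻¹ = (s * u * s⁻¹)⁻¹ := by group
      rw [this, hs', mul_inv_rev, hc.inv_eq, (hc.cent _).eq]
    calc u * (w * s) * u⁻¹ * (w * s)⁻¹ = u * w * (s * u⁻¹ * s⁻¹) * w⁻¹ := by group
      _ = u * w * u⁻¹ * (ζ * w⁻¹) := by rw [h7]; group
      _ = g := by rw [h, ← (hc.cent w⁻¹).eq]; group

end Perms

/-- Let n ≥ 5 and let G be a finite perfect group whose centre has order 2 with G/Z(G) isomorphic to the alternating group of degree n (the double cover of the alternating group). Then every element of G is a commutator. -/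
theorem result {G : Type*} [Group G] [Finite G] (hperf : commutator G = ⊤) {n : ℕ} (hn : 5 ≤ n)
    (hZ : Nat.card (Subgroup.center G) = 2) (e : G ⧸ Subgroup.center G ≃* alternatingGroup (Fin n))
    (g : G) :
    ∃ a b : G, a * b * a⁻¹ * b⁻¹ = g := by
  have : Finite (center G) := inferInstance
  obtain ⟨z, hz⟩ := exists_prime_orderOf_dvd_card' (G := center G) 2 (by rw [hZ])
  have hns : IsNonsplitDoubleCover G (alternatingGroup (Fin n)) := by
    refine ⟨hZ, ⟨e⟩, fun L hL => ?_⟩
    have h1 : commutator G ≤ L := by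
      rw [commutator_def, commutator_le]
      intro x _ y _
      obtain ⟨⟨c, l⟩, rfl⟩ := hL.2 x
      obtain ⟨⟨c', l'⟩, rfl⟩ := hL.2 y
      have : ⁅(c : G) * l, (c' : G) * l'⁆ = ⁅(l : G), (l' : G)⁆ := by
        have a1 := fun g => mem_center_iff.1 c.2 g
        have a2 := fun g => mem_center_iff.1 c'.2 g
        simp only [commutatorElement_def, mul_inv_rev]
        calc (c : G) * l * (c' * l') * ((l : G)⁻¹ * (c : G)⁻¹) * ((l' : G)⁻¹ * (c' : G)⁻¹)
            = c * (l * (c' * l') * (l : G)⁻¹) * (c : G)⁻¹ * ((l' : G)⁻¹ * (c' : G)⁻¹) := by group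
          _ = l * (c' * l') * (l : G)⁻¹ * ((l' : G)⁻¹ * (c' : G)⁻¹) := by
            rw [← a1, mul_inv_cancel_right]
          _ = (l * c') * (l' * (l : G)⁻¹ * (l' : G)⁻¹) * (c' : G)⁻¹ := by group
          _ = c' * (l * l' * (l : G)⁻¹ * (l' : G)⁻¹) * (c' : G)⁻¹ := by rw [a2]; group
          _ = _ := by rw [← a2, mul_inv_cancel_right]
      show ⁅(c : G) * l, (c' : G) * l'⁆ ∈ L
      rw [this, commutatorElement_def]
      exact mul_mem (mul_mem (mul_mem l.2 l'.2) (inv_mem l.2)) (inv_mem l'.2)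
    rw [hperf, top_le_iff] at h1
    have h2 := hL.disjoint
    rw [h1, disjoint_top] at h2
    rw [h2, Subgroup.card_bot] at hZ
    omega
  obtain ⟨π, hc⟩ := exists_cov (ζ := (z : G)) hns (by rw [orderOf_coe, hz])
    fun x => mem_center_iff.1 z.2 x
  exact main hc (by simpa using hn) g

end Cfsg.Agent.S2493
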