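import Cfsg.Statements.S2503
import Cfsg.Agent.Known.SL2Prod

set_option autoImplicit false
open Cfsg

namespace Cfsg.Agent.S2503

open Cfsg.Lib.Known Cfsg.Lib.Known.GL2 Matrix

theorem aux {F : Type*} [Field F] [Finite F] (h2 : (2 : F) = 0) {s x y j : SL2 F}
    (hs : IsEll ((slLin F).ρ s)) (hxy : x ≠ y) (ht : ((slLin F).ρ x).trace = ((slLin F).ρ y).trace)
    (ht' : ((slLin F).ρ (s * x)).trace = ((slLin F).ρ (s * y)).trace)
    (h1 : j * s = s⁻¹ * j) (h3 : j * y = y⁻¹ * j) : ∃ a, a * s = s * a ∧ a * y = x * a := by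
  have e1 : ((slLin F).ρ x - (slLin F).ρ y) * (slLin F).ρ s⁻¹ =
      (slLin F).ρ s * ((slLin F).ρ x - (slLin F).ρ y) := by
    rw [← bar_SL, Lin2.ρ_bar]
    simp only [map_mul, trace_fin_two, mul00, mul11] at ht ht'
    refine m2_ext ?_ ?_ ?_ ?_ <;>
      simp only [mul00, mul01, mul10, mul11, adjugate_fin_two, Matrix.sub_apply] <;> simp
    · linear_combination -ht' + ((slLin F).ρ s 1 1) * ht
    · linear_combination -((slLin F).ρ s 0 1) * ht
    · linear_combination -((slLin F).ρ s 1 0) * ht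
    · linear_combination -ht' + ((slLin F).ρ s 0 0) * ht
  have e2 : ((slLin F).ρ x - (slLin F).ρ y) * (slLin F).ρ y⁻¹ =
      (slLin F).ρ x * ((slLin F).ρ x - (slLin F).ρ y) := by
    rw [sub_mul, ← map_mul _ y, mul_inv_cancel, map_one, mul_sub, ← map_mul _ x x, mul_self_SL,
      ← bar_SL, Lin2.ρ_bar, adjugate_eq_trace_sub, ht, mul_sub, mul_smul_comm, mul_one]
    abel
  set m := ((slLin F).ρ x - (slLin F).ρ y) * (slLin F).ρ j with hm
  have c1 : m * (slLin F).ρ s = (slLin F).ρ s * m := by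
    rw [hm, mul_assoc, ← map_mul, h1, map_mul, ← mul_assoc, e1, mul_assoc]
  have c2 : m * (slLin F).ρ y = (slLin F).ρ x * m := by
    rw [hm, mul_assoc, ← map_mul, h3, map_mul, ← mul_assoc, e2, mul_assoc]
  have hd : m.det ≠ 0 := by
    obtain ⟨a, b, e⟩ := (commute_iff hs.not_isScal m).1 c1
    intro h
    rw [e, hs.det_smul_add_eq_zero_iff] at h
    rw [h.1, h.2, zero_smul, zero_smul, add_zero] at e
    have := congrArg (· * (slLin F).ρ j⁻¹) (hm.symm.trans e)
    simp only [mul_assoc, ← map_mul, mul_inv_cancel, map_one, mul_one, zero_mul, sub_eq_zero] at this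
    exact hxy ((slLin F).inj this)
  obtain ⟨r, hr⟩ := FiniteField.isSquare_of_char_two (by
    have := Fintype.ofFinite F
    by_contra h; exact (Ring.two_ne_zero h) h2) m.det
  have hr0 : r ≠ 0 := fun h => hd (by rw [hr, h, mul_zero])
  have hm1 : (r⁻¹ • m).det = 1 := by rw [det_smul, hr]; simp; field_simp
  refine ⟨(slLin F).mk1 _ hm1, (slLin F).inj ?_, (slLin F).inj ?_⟩ <;>
    simp only [map_mul, Lin2.ρ_mk1, smul_mul_assoc, mul_smul_comm, c1, c2]

/-- Let F be a finite field with q = 2^t ≥ 4 elements and L = PSL(2,F). Then L has a cyclic subgroup A of order q + 1 and an elementary abelian 2-subgroup B of order q such that L = ABA: every element of L is a product a·b·a' with a, a' ∈ A and b ∈ B. -/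
theorem result {F : Type*} [Field F] [Fintype F]
    (h2 : 2 ∣ Fintype.card F) (h4 : 4 ≤ Fintype.card F) :
    ∃ A B : Subgroup (Matrix.ProjectiveSpecialLinearGroup (Fin 2) F),
      IsCyclic A ∧ Nat.card A = Fintype.card F + 1 ∧ IsMulCommutative B ∧ (∀ b ∈ B, b * b = 1) ∧
        Nat.card B = Fintype.card F ∧
        ∀ g : Matrix.ProjectiveSpecialLinearGroup (Fin 2) F, ∃ a ∈ A, ∃ b ∈ B, ∃ c ∈ A, g = a * b * c := by
  have h2 := two_eq_zero_of_even_card (F := F) (even_iff_two_dvd.2 h2)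
  obtain ⟨s, hs, -⟩ := (slLin F).exists_isEll
  have := (slLin F).isCyclic_centralizer_ell hs
  refine ⟨(Subgroup.centralizer {s}).map (piSL F), (slLin F).U.map (piSL F),
    isCyclic_of_surjective _ ((piSL F).subgroupMap_surjective _), ?_, ⟨⟨?_⟩⟩, ?_, ?_, fun g => ?_⟩
  · rw [Subgroup.card_map_of_injective (piSL_injective h2), card_centralizer_ell_SL hs]
  · rintro ⟨_, a, ha, rfl⟩ ⟨_, b, hb, rfl⟩
    exact Subtype.ext (by
      change piSL F a * piSL F b = piSL F b * piSL F a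
      rw [← map_mul, ← map_mul, (slLin F).U_comm ha hb])
  · rintro _ ⟨_, ⟨b, rfl⟩, rfl⟩
    rw [← map_mul, ← Lin2.u_add, ← two_mul, h2, zero_mul, Lin2.u_zero, map_one]
  · rw [Subgroup.card_map_of_injective (piSL_injective h2), Lin2.card_U, Nat.card_eq_fintype_card]
  obtain ⟨g, rfl⟩ := piSL_surjective g
  have hc := hs.ne10
  obtain ⟨l, hl⟩ := FiniteField.isSquare_of_char_two (by
    by_contra h; exact (Ring.two_ne_zero h) h2)
    (((slLin F).ρ (s * s)).trace - ((slLin F).ρ (s * (g * s * g⁻¹))).trace)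
  set b := l / (slLin F).ρ s 1 0 with hb
  have ht' : ((slLin F).ρ (s * (g * s * g⁻¹))).trace =
      ((slLin F).ρ (s * ((slLin F).u b * s * ((slLin F).u b)⁻¹))).trace := by
    rw [← sub_sub_cancel ((slLin F).ρ (s * s)).trace ((slLin F).ρ (s * (g * s * g⁻¹))).trace, hl,
      ← Lin2.u_neg, hb]
    simp only [map_mul, Lin2.ρ_u, trace_fin_two, mul10, mul11, mul00, mul01]
    simp
    field_simp
    ring
  obtain ⟨a, ha, e⟩ : ∃ a, a * s = s * a ∧
      a * ((slLin F).u b * s * ((slLin F).u b)⁻¹) = g * s * g⁻¹ * a := by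
    by_cases h : g * s * g⁻¹ = (slLin F).u b * s * ((slLin F).u b)⁻¹
    · exact ⟨1, by simp, by simp [h]⟩
    have h1 : (slLin F).u (((slLin F).ρ s).trace / (slLin F).ρ s 1 0) * s =
        s⁻¹ * (slLin F).u (((slLin F).ρ s).trace / (slLin F).ρ s 1 0) := (slLin F).inj (by
      rw [← bar_SL, map_mul, map_mul, Lin2.ρ_bar, Lin2.ρ_u]
      refine m2_ext ?_ ?_ ?_ ?_ <;>
        simp only [mul00, mul01, mul10, mul11, adjugate_fin_two, trace_fin_two] <;> simp
      · field_simp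
        linear_combination ((slLin F).ρ s 0 0) * h2
      · linear_combination ((slLin F).ρ s 0 1) * h2
      · linear_combination ((slLin F).ρ s 1 0) * h2
      · field_simp
        linear_combination ((slLin F).ρ s 1 1) * h2)
    refine aux h2 hs h ?_ ht' h1 ?_
    · rw [← (slLin F).trace_eq_of_isConj (isConj_iff.2 ⟨g, rfl⟩),
        ← (slLin F).trace_eq_of_isConj (isConj_iff.2 ⟨_, rfl⟩)]
    · rw [← mul_assoc, ← mul_assoc, (slLin F).U_comm (Lin2.u_mem_U _ _) (Lin2.u_mem_U _ b),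
        mul_assoc ((slLin F).u b), h1, _root_.mul_inv_rev, _root_.mul_inv_rev, inv_inv]
      simp only [mul_assoc]
      rw [(slLin F).U_comm (Lin2.u_mem_U _ _) ((slLin F).U.inv_mem (Lin2.u_mem_U _ b))]
  refine ⟨piSL F a, ⟨a, Subgroup.mem_centralizer_singleton_iff.2 ha, rfl⟩, piSL F ((slLin F).u b),
    ⟨_, Lin2.u_mem_U _ b, rfl⟩, piSL F (((slLin F).u b)⁻¹ * a⁻¹ * g),
    ⟨_, Subgroup.mem_centralizer_singleton_iff.2 ?_, rfl⟩, by simp [mul_assoc]⟩
  calc ((slLin F).u b)⁻¹ * a⁻¹ * g * s = ((slLin F).u b)⁻¹ * a⁻¹ * (g * s * g⁻¹ * a) * a⁻¹ * g := by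
        group
    _ = _ := by rw [← e]; group

end Cfsg.Agent.S2503
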