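import Cfsg.Statements.S2504
import Cfsg.Agent.Known.SymAbel

set_option autoImplicit false
open Cfsg

namespace Cfsg.Agent.S2504

open Cfsg.Lib.Known

theorem le_of (n c : ℕ) (h : ∃ A : Subgroup (alternatingGroup (Fin n)), IsMulCommutative A ∧
    Nat.card A = c) : c ≤ mp n := by
  obtain ⟨A, h1, rfl⟩ := h
  simpa using card_le_mp_of_comm (Ω := Fin n) (comm_of_isMulCommutative h1)

/-- The largest order of an abelian subgroup of the alternating group of degree n is 3^k when n = 3k, 4·3^(k−1) when n = 3k + 1, and 16·3^(k−2) when n = 3k + 2, for every k ≥ 2 (so for all degrees n ≥ 6). -/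
theorem result (k : ℕ) (hk : 2 ≤ k) :
    IsGreatest {c : ℕ | ∃ A : Subgroup (alternatingGroup (Fin (3 * k))), IsMulCommutative A ∧ Nat.card A = c} (3 ^ k) ∧
    IsGreatest {c : ℕ | ∃ A : Subgroup (alternatingGroup (Fin (3 * k + 1))), IsMulCommutative A ∧ Nat.card A = c}
      (4 * 3 ^ (k - 1)) ∧
    IsGreatest {c : ℕ | ∃ A : Subgroup (alternatingGroup (Fin (3 * k + 2))), IsMulCommutative A ∧ Nat.card A = c}
      (16 * 3 ^ (k - 2)) := by
  obtain ⟨k, rfl⟩ := Nat.exists_eq_add_of_le' hk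
  refine ⟨⟨(abA_three_mul _).exists_subgroup, fun c hc => ?_⟩,
    ⟨(abA_three_mul_add_four (k + 1)).exists_subgroup, fun c hc => ?_⟩,
    ⟨(abA_three_mul_add_eight k).exists_subgroup, ?_⟩⟩
  · exact (le_of _ _ hc).trans (mp_three_mul _).le
  · exact (le_of _ _ hc).trans (mp_three_mul_add_four (k + 1)).le
  · rintro c ⟨A, h1, rfl⟩
    exact card_le_of_comm_alt (k := k) (by simp; ring) A (comm_of_isMulCommutative h1)

end Cfsg.Agent.S2504
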