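import Cfsg.Statements.S2505
import Cfsg.Agent.Known.SymAbel

set_option autoImplicit false
open Cfsg

namespace Cfsg.Agent.S2505

open Cfsg.Lib.Known

theorem le_of (n c : ℕ) (h : ∃ A : Subgroup (Equiv.Perm (Fin n)), IsMulCommutative A ∧
    Nat.card A = c) : c ≤ mp n := by
  obtain ⟨A, h1, rfl⟩ := h
  simpa using card_le_mp_of_comm (Ω := Fin n) (comm_of_isMulCommutative h1)

/-- The largest order of an abelian subgroup of the symmetric group of degree n is 3^k when n = 3k, 4·3^(k−1) when n = 3k + 1, and 2·3^k when n = 3k + 2, for every k ≥ 1. -/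
theorem result (k : ℕ) (hk : 1 ≤ k) :
    IsGreatest {c : ℕ | ∃ A : Subgroup (Equiv.Perm (Fin (3 * k))), IsMulCommutative A ∧ Nat.card A = c} (3 ^ k) ∧
    IsGreatest {c : ℕ | ∃ A : Subgroup (Equiv.Perm (Fin (3 * k + 1))), IsMulCommutative A ∧ Nat.card A = c}
      (4 * 3 ^ (k - 1)) ∧
    IsGreatest {c : ℕ | ∃ A : Subgroup (Equiv.Perm (Fin (3 * k + 2))), IsMulCommutative A ∧ Nat.card A = c}
      (2 * 3 ^ k) := by
  obtain ⟨k, rfl⟩ := Nat.exists_eq_add_of_le' hk
  refine ⟨⟨(abA_three_mul _).abS.exists_subgroup, fun c hc => ?_⟩,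
    ⟨(abA_three_mul_add_four k).abS.exists_subgroup, fun c hc => ?_⟩, ⟨?_, fun c hc => ?_⟩⟩
  · exact (le_of _ _ hc).trans (mp_three_mul _).le
  · exact (le_of _ _ hc).trans (mp_three_mul_add_four _).le
  · rw [mul_comm 2]
    exact ((abA_three_mul _).abS.mul (abS_self 2 two_ne_zero)).exists_subgroup
  · exact (le_of _ _ hc).trans (mp_three_mul_add_two _).le

end Cfsg.Agent.S2505
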