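import Cfsg.Statements.S2506
import Cfsg.Agent.Known.SymAbel
import Mathlib.GroupTheory.Sylow

set_option autoImplicit false
open scoped Pointwise
open Cfsg

namespace Cfsg.Agent.S2506

open Cfsg.Lib.Known

/-- In the alternating group of any degree, any two abelian subgroups of the largest possible order (among abelian subgroups) are conjugate. -/
theorem result (n : ℕ)
    (A B : Subgroup (alternatingGroup (Fin n))) (hA : IsMulCommutative A) (hB : IsMulCommutative B)
    (hAmax : ∀ C : Subgroup (alternatingGroup (Fin n)), IsMulCommutative C → Nat.card C ≤ Nat.card A)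
    (hBmax : ∀ C : Subgroup (alternatingGroup (Fin n)), IsMulCommutative C → Nat.card C ≤ Nat.card B) :
    ∃ g : alternatingGroup (Fin n), B = MulAut.conj g • A := by
  have hAB : Nat.card A = Nat.card B := le_antisymm (hBmax A hA) (hAmax B hB)
  by_cases h3 : n < 3
  · have : Subsingleton (alternatingGroup (Fin n)) := by
      interval_cases n <;> exact ⟨by decide⟩
    exact ⟨1, Subsingleton.elim _ _⟩
  by_cases h5 : n = 5
  · subst h5
    have : Fact (Nat.Prime 5) := ⟨Nat.prime_five⟩
    have hc : Nat.card (alternatingGroup (Fin 5)) = 60 := by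
      rw [nat_card_alternatingGroup]; simp [Nat.factorial]
    obtain ⟨g, hg⟩ := exists_prime_orderOf_dvd_card' (G := alternatingGroup (Fin 5)) 5
      (by rw [hc]; norm_num)
    have h1 := hAmax (Subgroup.zpowers g) inferInstance
    rw [Nat.card_zpowers, hg] at h1
    have h2 : Nat.card A ≤ mp 5 := by
      simpa using card_le_mp_of_comm (Ω := Fin 5) (comm_of_isMulCommutative hA)
    have h4 : Nat.card A ≠ 6 := by
      intro h
      obtain ⟨e1, e2⟩ := prod_eq_of_three_four fun a (ha : a ∈ orbSizes A (Fin 5)) =>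
        orbSizes_of_big (comm_of_isMulCommutative hA) (sign_toPerm_alt A) (by rw [h]; decide)
          (by rw [h]; decide) ha
      rw [sum_orbSizes, Nat.card_fin] at e2
      omega
    have h6 : Nat.card A = 5 := by
      change _ ≤ 6 at h2
      omega
    have h7 : ∀ C : Subgroup (alternatingGroup (Fin 5)), Nat.card C = 5 →
        ∃ P : Sylow 5 (alternatingGroup (Fin 5)), (P : Subgroup _) = C := fun C hC =>
      ⟨Sylow.ofCard C (by
        rw [hC, hc, show 60 = 5 * 12 by norm_num, Nat.factorization_mul (by norm_num) (by norm_num)]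
        simp [Nat.prime_five.factorization_self,
          Nat.factorization_eq_zero_of_not_dvd (by norm_num : ¬ 5 ∣ 12)]), rfl⟩
    obtain ⟨P, rfl⟩ := h7 A h6
    obtain ⟨Q, rfl⟩ := h7 B (hAB ▸ h6)
    obtain ⟨g, rfl⟩ := MulAction.exists_smul_eq (alternatingGroup (Fin 5)) P Q
    exact ⟨g, rfl⟩
  obtain ⟨c, h1, h2, h4⟩ := exists_big_abA (not_lt.1 h3) h5
  obtain ⟨C, hC, rfl⟩ := h1.exists_subgroup
  have := hAmax C hC
  have : Nonempty (Fin n) := ⟨⟨0, by omega⟩⟩
  exact conj_of_big A B (comm_of_isMulCommutative hA) (comm_of_isMulCommutative hB) hAB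
    (by rw [Fintype.card_fin]; omega) (by rw [Fintype.card_fin]; omega)

end Cfsg.Agent.S2506
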