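import Cfsg.Statements.S2511
import Cfsg.Agent.Known.SpecU

set_option autoImplicit false
open Cfsg

namespace Cfsg.Agent.S2511

open Cfsg.Lib.Known Cfsg.Lib.Class Polynomial

section Aux

variable {K : Type*} [Field K] [Fintype K] {q n : ℕ}

theorem trichotomy (p : ℕ) [Fact p.Prime] [CharP K p] (hK : Fintype.card K = q ^ 2) (hn : 3 ≤ n)
    {r o : ℕ} (hr : r.Prime) (hrq : r ∣ q + 1) (hrn : ¬ r ∣ n)
    (ho : o ∈ Set.range (orderOf : PSU n K q → ℕ)) (hro : ¬ r ∣ o) :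
    o * r ∈ Set.range (orderOf : PSU n K q → ℕ) ∨ (∃ j, n - 1 = p ^ j ∧ o ∣ p ^ (j + 1)) ∨
      o ∣ coxU q n / (coxU q n).gcd (q + 1) := by
  have hp : p.Prime := Fact.out
  obtain ⟨s, hs, h1, rfl⟩ := (mem_spec_PSU_iff hK (by omega)).mp ho
  obtain ⟨x, hx⟩ := Multiset.exists_mem_of_ne_zero (s := s) (by
    rintro rfl
    have := hs.1.2.1
    rw [elDeg_zero] at this
    omega)
  obtain ⟨θ, t, hθ, -, he, ht, h2, h3⟩ := hs.exists_piece_add hx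
  generalize x.2 = e at he h2 h3
  subst h2
  have hD := pdeg_pos (σ := frobq hK) hθ
  by_cases ht0 : t = 0
  swap
  · subst h3
    exact Or.inl (mul_mem_spec_PSU_of_add hK (Nat.mul_pos hD he) (ht.1.1.elDeg_pos ht0) hr hrq hrn
      (isGUType_piece hK hθ he) ht h1 dvd_rfl hro)
  subst ht0
  rw [add_zero] at h1 hro ⊢
  rw [elDeg_zero, add_zero] at h3
  have key : ∀ k, k ≠ 0 → θ ^ (k * (q + 1)) = 1 → e ≤ ordProj[p] k →
      tOrd (piece (frobq hK) θ e) ∣ k := fun k hk h4 h5 => by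
    have := (tOrd_piece_frobq_dvd_iff p hK hθ he one_ne_zero hk).mpr ⟨h4, h5⟩
    rwa [one_nsmul] at this
  rcases Nat.eq_or_lt_of_le (show 1 ≤ e from he) with rfl | he1
  · right; right
    rw [mul_one] at h3
    exact h3 ▸ tOrd_piece_dvd_coxU hK hθ h1
  rcases Nat.eq_or_lt_of_le (show 1 ≤ pdeg (frobq hK) θ from hD) with hD1 | hD1
  · have h4 := (pdeg_frobq_eq_one_iff hK hθ).mp hD1.symm
    rw [← hD1, one_mul] at h3
    subst h3
    by_cases h5 : ∃ j, e - 1 = p ^ j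
    · obtain ⟨j, hj⟩ := h5
      refine Or.inr (Or.inl ⟨j, hj, key _ (pow_pos hp.pos _).ne' (by rw [pow_mul', h4, one_pow]) ?_⟩)
      rw [Nat.factorization_pow_self hp]
      have := Nat.pow_lt_pow_right hp.one_lt (Nat.lt_add_one j)
      omega
    · left
      obtain ⟨e, rfl⟩ : ∃ e', e = e' + 1 := ⟨e - 1, by omega⟩
      have hs' := (isGUType_X_sub_one hK (e := e) (by omega)).add (isGUType_X_sub_one hK one_pos)
      refine mul_mem_spec_PSU_of_add hK (by omega) one_pos hr hrq hrn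
        (isGUType_X_sub_one hK (by omega)) (isGUType_X_sub_one hK one_pos)
        (by rw [tDet_add, tDet_X_sub_one, tDet_X_sub_one, one_mul])
        (key _ hs'.1.tOrd_pos.ne' (by rw [pow_mul', h4, one_pow]) ?_) hro
      have h6 := hs'.1.snd_le_ordProj_tOrd p (x := (X - 1, e)) (by simp)
      exact lt_of_le_of_ne h6 fun h7 => h5 ⟨_, h7⟩
  · left
    set D := pdeg (frobq hK) θ
    have hγ : θ ^ (q + 1) ≠ 0 := pow_ne_zero _ hθ
    obtain ⟨m, hm⟩ := (pdeg_frobq_dvd_iff hK hγ D).mpr (by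
      rw [← zpow_natCast, ← zpow_mul, mul_comm, zpow_mul, zpow_neg_pow_pdeg hK hθ])
    have hm0 : m ≠ 0 := by rintro rfl; omega
    have hs1 := (isGUType_piece hK hγ one_pos).nsmul m
    rw [mul_one, mul_comm, ← hm] at hs1
    obtain ⟨k, hk⟩ : ∃ k, n = D + (e + k) := ⟨n - D - e, by
      have : D + e ≤ D * e := by nlinarith
      omega⟩
    have hs2 := (isGUType_X_sub_one hK he).add (isGUType_replicate_one hK k)
    have hs3 := (hs1.add hs2).1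
    rw [hk] at hrn ⊢
    refine mul_mem_spec_PSU_of_add hK hD (by omega) hr hrq hrn hs1 hs2 ?_
      (key _ hs3.tOrd_pos.ne' ?_ (hs3.snd_le_ordProj_tOrd p (x := (X - 1, e)) (by simp))) hro
    · rw [tDet_add, tDet_add, tDet_X_sub_one, tDet_replicate_one, mul_one, mul_one]
      refine (algebraMap K (Ec K)).injective ?_
      rw [tDet_nsmul, algebraMap_tDet_piece_pow hK hγ, ← hm, ← zpow_natCast, ← zpow_mul, mul_comm,
        zpow_mul, zpow_natCast, zpow_sum_pow_succ hθ, zpow_neg_pow_pdeg hK hθ, div_self hθ, map_one]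
    · have := hs3.pow_tOrd_eq (θ := θ ^ (q + 1)) (θ' := 1)
        (eig_add.mpr (Or.inl ((eig_nsmul hm0).mpr (eig_piece_self _ _))))
        (eig_add.mpr (Or.inr (eig_add.mpr (Or.inl (eig_X_sub_one.mpr rfl)))))
      rwa [one_pow, ← pow_mul'] at this

theorem pow_mem_spec (p : ℕ) [Fact p.Prime] [CharP K p] (hK : Fintype.card K = q ^ 2)
    (hn : 3 ≤ n) {j : ℕ} (hj : n - 1 = p ^ j) :
    p ^ (j + 1) ∈ Set.range (orderOf : PSU n K q → ℕ) :=
  have hs := isGUType_X_sub_one hK (e := n) (by omega)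
  mem_spec_PSU_of_dvd hK (by omega) hs (tDet_X_sub_one n)
    (hs.1.pow_succ_dvd_tOrd p (x := (X - 1, n)) (by simp) (by omega))

theorem prime_mem_spec (hK : Fintype.card K = q ^ 2) (hn : 3 ≤ n) {r : ℕ} (hr : r.Prime)
    (hrq : r ∣ q + 1) (hrn : ¬ r ∣ n) : r ∈ Set.range (orderOf : PSU n K q → ℕ) := by
  obtain ⟨n, rfl⟩ : ∃ n', n = n' + 1 := ⟨n - 1, by omega⟩
  simpa using mul_mem_spec_PSU_of_add hK (o := 1) (by omega) one_pos hr hrq hrn
    (isGUType_replicate_one hK n) (isGUType_replicate_one hK 1)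
    (by rw [tDet_add, tDet_replicate_one, tDet_replicate_one, one_mul]) (one_dvd _) hr.not_dvd_one

end Aux

section Comb

variable {S : Set ℕ} {r : ℕ} {U T : ℕ → Prop}

theorem lcm_cases (hr : r.Prime) {a z : ℕ} (hz : z ∣ r) : a.lcm z = a ∨ ¬ r ∣ a ∧ a.lcm z = a * r := by
  rcases (Nat.dvd_prime hr).mp hz with rfl | rfl
  · simp
  · by_cases h : z ∣ a
    · exact Or.inl (Nat.lcm_eq_left h)
    · exact Or.inr ⟨h, ((Nat.Prime.coprime_iff_not_dvd hr).mpr h).symm.lcm_eq_mul⟩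

theorem lcm_mul_eq (hr : r.Prime) {a b : ℕ} (h : ¬ r ∣ a.lcm b) :
    a.lcm b * r = (a * r).lcm b := by
  have h1 : ¬ r ∣ a := fun h1 => h (h1.trans (Nat.dvd_lcm_left _ _))
  rw [← ((Nat.Prime.coprime_iff_not_dvd hr).mpr h).symm.lcm_eq_mul,
    ← ((Nat.Prime.coprime_iff_not_dvd hr).mpr h1).symm.lcm_eq_mul, Nat.lcm_assoc, Nat.lcm_assoc,
    Nat.lcm_comm b]

theorem two (hr : r.Prime) (hrS : r ∈ S) (hT : ∀ a b, T a → T b → a.lcm b ∈ S)
    {a b : ℕ} (ha : a ∈ S) (hb : b ∈ S) (ha' : a * r ∈ S ∨ T a) (hb' : b * r ∈ S ∨ T b)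
    (h : ¬ r ∣ a.lcm b) : ∃ a' ∈ S, ∃ b' ∈ S, a.lcm b * r = a'.lcm b' := by
  rcases ha' with ha' | ha'
  · exact ⟨_, ha', _, hb, lcm_mul_eq hr h⟩
  rcases hb' with hb' | hb'
  · rw [Nat.lcm_comm] at h ⊢
    exact ⟨_, hb', _, ha, lcm_mul_eq hr h⟩
  · exact ⟨_, hT a b ha' hb', _, hrS,
      ((Nat.Prime.coprime_iff_not_dvd hr).mpr h).symm.lcm_eq_mul.symm⟩

theorem three (hr : r.Prime) (hrS : r ∈ S) (hU : ∀ a b, U a → U b → a.lcm b ∈ S)
    (hT : ∀ a b, T a → T b → a.lcm b ∈ S) (H : ∀ a ∈ S, ¬ r ∣ a → a * r ∈ S ∨ U a ∨ T a)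
    {a b c : ℕ} (ha : a ∈ S) (hb : b ∈ S) (hc : c ∈ S) (h : ¬ r ∣ a.lcm (b.lcm c)) :
    ∃ a' ∈ S, ∃ b' ∈ S, ∃ c' ∈ S, a.lcm (b.lcm c) * r = a'.lcm (b'.lcm c') := by
  have key : ∀ a ∈ S, ∀ b ∈ S, ∀ c ∈ S, ¬ r ∣ a.lcm (b.lcm c) →
      ((a * r ∈ S ∨ U a) ∧ (b * r ∈ S ∨ U b) ∨ (a * r ∈ S ∨ T a) ∧ (b * r ∈ S ∨ T b) ∨
        a * r ∈ S) → ∃ a' ∈ S, ∃ b' ∈ S, ∃ c' ∈ S, a.lcm (b.lcm c) * r = a'.lcm (b'.lcm c') := by
    intro a ha b hb c hc h h1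
    have h2 : ¬ r ∣ a.lcm b := fun h2 => h (h2.trans (by
      rw [← Nat.lcm_assoc]; exact Nat.dvd_lcm_left _ _))
    have h3 : ∃ a' ∈ S, ∃ b' ∈ S, a.lcm b * r = a'.lcm b' := by
      rcases h1 with h1 | h1 | h1
      · exact two hr hrS hU ha hb h1.1 h1.2 h2
      · exact two hr hrS hT ha hb h1.1 h1.2 h2
      · exact ⟨_, h1, _, hb, lcm_mul_eq hr h2⟩
    obtain ⟨a', ha', b', hb', h3⟩ := h3
    rw [← Nat.lcm_assoc] at h ⊢
    exact ⟨a', ha', b', hb', c, hc, by rw [lcm_mul_eq hr h, h3, Nat.lcm_assoc]⟩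
  have h1 := H a ha fun h1 => h (h1.trans (Nat.dvd_lcm_left _ _))
  have h2 := H b hb fun h1 => h (h1.trans ((Nat.dvd_lcm_left _ _).trans (Nat.dvd_lcm_right _ _)))
  have h3 := H c hc fun h1 => h (h1.trans ((Nat.dvd_lcm_right _ _).trans (Nat.dvd_lcm_right _ _)))
  have e1 : a.lcm (b.lcm c) = b.lcm (c.lcm a) := by rw [Nat.lcm_comm, Nat.lcm_assoc]
  have e2 : a.lcm (b.lcm c) = c.lcm (a.lcm b) := by rw [← Nat.lcm_assoc, Nat.lcm_comm]
  have k1 := key a ha b hb c hc h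
  have k2 := key b hb c hc a ha (e1 ▸ h)
  have k3 := key c hc a ha b hb (e2 ▸ h)
  rw [← e1] at k2
  rw [← e2] at k3
  rcases h1 with h1 | h1 | h1
  · exact k1 (Or.inr (Or.inr h1))
  all_goals rcases h2 with h2 | h2 | h2
  · exact k2 (Or.inr (Or.inr h2))
  · exact k1 (Or.inl ⟨Or.inr h1, Or.inr h2⟩)
  · rcases h3 with h3 | h3 | h3
    · exact k3 (Or.inr (Or.inr h3))
    · exact k3 (Or.inl ⟨Or.inr h3, Or.inr h1⟩)
    · exact k2 (Or.inr (Or.inl ⟨Or.inr h2, Or.inr h3⟩))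
  · exact k2 (Or.inr (Or.inr h2))
  · rcases h3 with h3 | h3 | h3
    · exact k3 (Or.inr (Or.inr h3))
    · exact k2 (Or.inl ⟨Or.inr h2, Or.inr h3⟩)
    · exact k3 (Or.inr (Or.inl ⟨Or.inr h3, Or.inr h1⟩))
  · exact k1 (Or.inr (Or.inl ⟨Or.inr h1, Or.inr h2⟩))

theorem spec_two {L Z : Type*} [Group L] [Group Z] (hr : r.Prime) (hZ : ∀ z : Z, orderOf z ∣ r)
    (hrS : r ∈ Set.range (orderOf : L → ℕ))
    (hT : ∀ a b, T a → T b → a.lcm b ∈ Set.range (orderOf : L → ℕ))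
    (H : ∀ a ∈ Set.range (orderOf : L → ℕ), ¬ r ∣ a → a * r ∈ Set.range (orderOf : L → ℕ) ∨ T a) :
    Set.range (orderOf : L × L × Z → ℕ) = Set.range (orderOf : L × L → ℕ) := by
  ext d
  simp only [mem_spec_prod_iff]
  constructor
  · rintro ⟨a, ha, _, ⟨b, hb, _, ⟨z, rfl⟩, rfl⟩, rfl⟩
    rw [← Nat.lcm_assoc]
    rcases lcm_cases hr (a := a.lcm b) (hZ z) with h | ⟨h, h'⟩
    · exact ⟨a, ha, b, hb, h⟩
    · rw [h']
      exact two hr hrS hT ha hb (H a ha fun h1 => h (h1.trans (Nat.dvd_lcm_left _ _)))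
        (H b hb fun h1 => h (h1.trans (Nat.dvd_lcm_right _ _))) h
  · rintro ⟨a, ha, b, hb, rfl⟩
    exact ⟨a, ha, b, ⟨b, hb, 1, one_mem_spec, by simp⟩, rfl⟩

theorem spec_three {L Z : Type*} [Group L] [Group Z] (hr : r.Prime) (hZ : ∀ z : Z, orderOf z ∣ r)
    (hrS : r ∈ Set.range (orderOf : L → ℕ))
    (hU : ∀ a b, U a → U b → a.lcm b ∈ Set.range (orderOf : L → ℕ))
    (hT : ∀ a b, T a → T b → a.lcm b ∈ Set.range (orderOf : L → ℕ))
    (H : ∀ a ∈ Set.range (orderOf : L → ℕ), ¬ r ∣ a →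
      a * r ∈ Set.range (orderOf : L → ℕ) ∨ U a ∨ T a) :
    Set.range (orderOf : L × L × L × Z → ℕ) = Set.range (orderOf : L × L × L → ℕ) := by
  ext d
  simp only [mem_spec_prod_iff]
  constructor
  · rintro ⟨a, ha, _, ⟨b, hb, _, ⟨c, hc, _, ⟨z, rfl⟩, rfl⟩, rfl⟩, rfl⟩
    rw [← Nat.lcm_assoc b, ← Nat.lcm_assoc]
    rcases lcm_cases hr (a := a.lcm (b.lcm c)) (hZ z) with h | ⟨h, h'⟩
    · exact ⟨a, ha, _, ⟨b, hb, c, hc, rfl⟩, h⟩
    · obtain ⟨a', ha', b', hb', c', hc', h1⟩ := three hr hrS hU hT H ha hb hc h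
      exact ⟨a', ha', _, ⟨b', hb', c', hc', rfl⟩, h'.trans h1⟩
  · rintro ⟨a, ha, _, ⟨b, hb, c, hc, rfl⟩, rfl⟩
    exact ⟨a, ha, _, ⟨b, hb, c, ⟨c, hc, 1, one_mem_spec, by simp⟩, rfl⟩, rfl⟩

end Comb

/-- Let F be a finite field with q² elements, q = p^a, n ≥ 3 with (n, q) ≠ (3, 2), L = PSU(n, q) realised over F, and let r be a prime dividing q + 1 and not dividing n. Then for every m the direct product L × L × L × (ℤ/r)^m has the same set of element orders as L × L × L; and if n − 1 is not a power of p, then already L × L × (ℤ/r)^m has the same set of element orders as L × L. -/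
theorem result {F : Type*} [Field F] [Fintype F] (p a n q r m : ℕ) (hp : p.Prime) (ha : 1 ≤ a) (hq : q = p ^ a) (hF : Fintype.card F = q ^ 2)
    (hn : 3 ≤ n) (hn3 : ¬ (n = 3 ∧ q = 2)) (hr : r.Prime) (hrq : r ∣ q + 1) (hrn : ¬ r ∣ n) :
    Set.range (orderOf : Cfsg.PSU n F q × Cfsg.PSU n F q × Cfsg.PSU n F q × Multiplicative (Fin m → ZMod r) → ℕ) = Set.range (orderOf : Cfsg.PSU n F q × Cfsg.PSU n F q × Cfsg.PSU n F q → ℕ) ∧
    ((¬ ∃ j : ℕ, n - 1 = p ^ j) →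
      Set.range (orderOf : Cfsg.PSU n F q × Cfsg.PSU n F q × Multiplicative (Fin m → ZMod r) → ℕ) = Set.range (orderOf : Cfsg.PSU n F q × Cfsg.PSU n F q → ℕ)) := by
  obtain ⟨p', hc⟩ := CharP.exists F
  have : Fact p'.Prime := ⟨CharP.char_is_prime F p'⟩
  obtain rfl : p' = p := (Nat.prime_dvd_prime_iff_eq Fact.out hp).mp
    ((Fact.out : p'.Prime).dvd_of_dvd_pow (hq ▸ char_dvd_of_card_sq p' hF))
  have hT : ∀ a b : ℕ, a ∣ coxU q n / (coxU q n).gcd (q + 1) →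
      b ∣ coxU q n / (coxU q n).gcd (q + 1) → a.lcm b ∈ Set.range (orderOf : PSU n F q → ℕ) :=
    fun a b ha hb => mem_spec_of_dvd' (coxU_div_mem_spec hF (by omega)) (Nat.lcm_dvd ha hb)
  refine ⟨spec_three hr orderOf_zmod_pi_dvd (prime_mem_spec hF hn hr hrq hrn)
    (U := fun o => ∃ j, n - 1 = p' ^ j ∧ o ∣ p' ^ (j + 1)) ?_ hT
    fun o ho hro => trichotomy p' hF hn hr hrq hrn ho hro, fun h =>
      spec_two hr orderOf_zmod_pi_dvd (prime_mem_spec hF hn hr hrq hrn) hT fun o ho hro =>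
        (trichotomy p' hF hn hr hrq hrn ho hro).imp_right fun h1 =>
          h1.resolve_left fun ⟨j, hj, _⟩ => h ⟨j, hj⟩⟩
  rintro a b ⟨i, hi, ha⟩ ⟨j, hj, hb⟩
  obtain rfl : i = j := Nat.pow_right_injective hp.two_le (hi.symm.trans hj)
  exact mem_spec_of_dvd' (pow_mem_spec p' hF hn hi) (Nat.lcm_dvd ha hb)

end Cfsg.Agent.S2511
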