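import Cfsg.Statements.S2512
import Cfsg.Agent.Known.SpecSp
import Cfsg.Agent.S2511

set_option autoImplicit false
open Cfsg

namespace Cfsg.Agent.S2512

open Cfsg.Lib.Known Cfsg.Lib.Class Polynomial

section Aux

variable {F : Type*} [Field F] [Fintype F] {m : ℕ}

/-- The odd one among `(q^m ± 1)/2`. -/
def oddTorus (q m : ℕ) : ℕ := if q ^ m % 4 = 1 then (q ^ m + 1) / 2 else (q ^ m - 1) / 2

theorem nine_le (hodd : Odd (Fintype.card F)) (hm : 2 ≤ m) : 9 ≤ Fintype.card F ^ m := by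
  have h1 : 1 < Fintype.card F := Fintype.one_lt_card
  have h2 : 3 ≤ Fintype.card F := by obtain ⟨k, hk⟩ := hodd; omega
  exact (Nat.pow_le_pow_left h2 2).trans (Nat.pow_le_pow_right (by omega) hm)

theorem oddTorus_mem (hodd : Odd (Fintype.card F)) (hm : 2 ≤ m) :
    oddTorus (Fintype.card F) m ∈ Set.range (orderOf : PSp m F → ℕ) := by
  have h1 := nine_le hodd hm
  obtain ⟨k, hk⟩ := hodd.pow (n := m)
  refine torus_mem_spec_PSp ?_ ?_ (by omega) <;> unfold oddTorus <;> split_ifs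
  · omega
  · omega
  · exact Or.inr (dvd_of_eq (by omega))
  · exact Or.inl (dvd_of_eq (by omega))

theorem trichotomy (p : ℕ) [Fact p.Prime] [CharP F p] (hodd : Odd (Fintype.card F)) (hm : 2 ≤ m)
    {o : ℕ} (ho : o ∈ Set.range (orderOf : PSp m F → ℕ)) (hro : ¬ 2 ∣ o) :
    o * 2 ∈ Set.range (orderOf : PSp m F → ℕ) ∨ (∃ j, 2 * m - 1 = p ^ j ∧ o ∣ p ^ (j + 1)) ∨
      o ∣ oddTorus (Fintype.card F) m := by
  have hp : p.Prime := Fact.out
  have h2 := two_ne_zero_of_odd_card hodd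
  have hoo : Odd o := Nat.odd_iff.mpr (by omega)
  obtain ⟨s, hs, hd, rfl, h1⟩ := exists_spReal_of_odd hoo ho
  by_cases hu : ∀ θ, Eig s θ → θ = 1
  · have key : ∀ k, k ≠ 0 → 2 * m ≤ ordProj[p] k → tOrd s ∣ k := fun k hk h =>
      (hs.isGLType.tOrd_dvd_iff' p hk).mpr ⟨fun θ θ' h h' => by rw [hu θ h, hu θ' h'],
        fun x hx => (hs.isGLType.1.snd_le_elDeg hx).trans (hd ▸ h)⟩
    by_cases h5 : ∃ j, 2 * m - 1 = p ^ j
    · obtain ⟨j, hj⟩ := h5
      refine Or.inr (Or.inl ⟨j, hj, key _ (pow_pos hp.pos _).ne' ?_⟩)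
      rw [Nat.factorization_pow_self hp]
      have := Nat.pow_lt_pow_right hp.one_lt (Nat.lt_add_one j)
      omega
    · left
      have h6 := spReal_X_sub_one (F := F) (k := m - 1) (by omega)
      have h7 := spReal_X_sub_one (F := F) one_pos
      have hs' := (h6.add h7).isGLType
      refine mul_mem_spec_PSp_of_add h2 h6 h7 (by simp) (by simp)
        (by simp [natDegree_X_sub_one]; omega) (key _ hs'.tOrd_pos.ne' ?_) hro
      have h8 := hs'.snd_le_ordProj_tOrd p (x := (X - 1, 2 * (m - 1))) (by simp)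
      generalize (tOrd (K := F) _).factorization p = c at h8 ⊢
      have h9 : Odd (p ^ c) := (hp.odd_of_ne_two (by
        rintro rfl
        exact h2 (CharP.cast_eq_zero F 2))).pow
      have h10 : 2 * m - 1 ≠ p ^ c := fun h => h5 ⟨c, h⟩
      obtain ⟨k, hk⟩ := h9
      simp only at h8
      omega
  push Not at hu
  obtain ⟨θ, hθs, hθ1⟩ := hu
  have hθ := hθs.ne_zero hs.isGLType
  have hθ2 : θ ^ 2 ≠ 1 := fun h => hθ1 (by
    have := h1 θ hθs
    obtain ⟨k, hk⟩ := hoo
    rwa [hk, pow_succ, pow_mul, h, one_pow, one_mul] at this)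
  obtain ⟨e, he⟩ := hθs.exists_mem hs.isGLType.1
  have he0 : 0 < e := (hs.isGLType.1 _ he).2.2
  obtain ⟨t, ht, rfl⟩ := hs.exists_piece_add he hθ2
  by_cases ht0 : t = 0
  swap
  · exact Or.inl (mul_mem_spec_PSp_of_add h2 (spReal_piece hθ hθ2 he0) ht (piece_ne_zero _ _) ht0
      (by rwa [← elDeg_add]) dvd_rfl hro)
  subst ht0
  rw [add_zero] at *
  rw [elDeg_piece hθ] at hd
  rcases Nat.eq_or_lt_of_le (show 1 ≤ e from he0) with rfl | he1
  · have h3 := nine_le hodd hm
    obtain ⟨k, hk⟩ := hodd.pow (n := m)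
    have key : ∀ N, N ≠ 0 → orderOf θ ∣ 2 * N → tOrd (piece (RingHom.id F) θ 1) ∣ N :=
      fun N hN h => (Nat.coprime_two_right.mpr hoo).dvd_of_dvd_mul_left
        (tOrd_piece_id_dvd p hθ one_pos (by omega) (orderOf_dvd_iff_pow_eq_one.mp h)
          (Nat.one_le_pow _ _ hp.pos))
    have h4 := (pdeg_id_dvd_iff' hθ hθ2 m).mp (by rw [← hd, mul_one])
    rw [oddTorus]
    rcases h4 with h4 | h4
    · have h5 := key k (by omega) (by rwa [hk] at h4)
      split_ifs with h6
      · exact Or.inl (mem_spec_of_dvd' (torus_mem_spec_PSp (N := k) (by omega)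
          (Or.inl (dvd_of_eq (by omega))) (by omega))
          ((Nat.coprime_two_right.mpr hoo).mul_dvd_of_dvd_of_dvd h5 (by omega)))
      · exact Or.inr (Or.inr (h5.trans (dvd_of_eq (by omega))))
    · have h5 := key (k + 1) (by omega) (by rwa [hk] at h4)
      split_ifs with h6
      · exact Or.inr (Or.inr (h5.trans (dvd_of_eq (by omega))))
      · exact Or.inl (mem_spec_of_dvd' (torus_mem_spec_PSp (N := k + 1) (by omega)
          (Or.inr (dvd_of_eq (by omega))) (by omega))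
          ((Nat.coprime_two_right.mpr hoo).mul_dvd_of_dvd_of_dvd h5 (by omega)))
  · left
    obtain ⟨d, hd'⟩ := even_pdeg_id hθ hθ2
    have hD := pdeg_pos (σ := RingHom.id F) hθ
    obtain ⟨e, rfl⟩ := Nat.exists_eq_add_of_le' he1.le
    have h6 := spReal_piece hθ hθ2 one_pos
    have h7 := spReal_X_sub_one (F := F) (k := d * e) (Nat.mul_pos (by omega) (by omega))
    have hs' := (h6.add h7).isGLType
    refine mul_mem_spec_PSp_of_add h2 h6 h7 (piece_ne_zero _ _) (by simp)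
      (by rw [elDeg_piece hθ, elDeg_singleton, natDegree_X_sub_one, ← hd, hd']; ring)
      (tOrd_piece_id_dvd p hθ he0 hs'.tOrd_pos.ne' ?_ ?_) hro
    · simpa using hs'.pow_tOrd_eq (θ := θ) (θ' := 1) (eig_add.mpr (Or.inl (eig_piece_self _ _)))
        (eig_add.mpr (Or.inr (eig_X_sub_one.mpr rfl)))
    · refine le_trans ?_ (hs'.snd_le_ordProj_tOrd p (x := (X - 1, 2 * (d * e))) (by simp))
      have : e ≤ d * e := Nat.le_mul_of_pos_left _ (by omega)
      simp only
      omega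

theorem pow_mem_spec (p : ℕ) [Fact p.Prime] [CharP F p] (hm : 2 ≤ m) {j : ℕ}
    (hj : 2 * m - 1 = p ^ j) : p ^ (j + 1) ∈ Set.range (orderOf : PSp m F → ℕ) :=
  have hs := spReal_X_sub_one (F := F) (k := m) (by omega)
  mem_spec_PSp_of_dvd hs (by simp [natDegree_X_sub_one])
    (hs.isGLType.pow_succ_dvd_tOrd p (x := (X - 1, 2 * m)) (by simp) (by omega))

theorem two_mem_spec (hodd : Odd (Fintype.card F)) (hm : 2 ≤ m) :
    2 ∈ Set.range (orderOf : PSp m F → ℕ) := by
  simpa using mul_mem_spec_PSp_of_add (m := m) (two_ne_zero_of_odd_card hodd) (o := 1)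
    (spReal_replicate_one (m - 1)) (spReal_replicate_one 1)
    (by rw [Ne, ← Multiset.card_eq_zero, Multiset.card_replicate]; omega) (by simp)
    (by simp only [elDeg_replicate, natDegree_X_sub_one]; omega) (one_dvd _) (by omega)

end Aux

/-- Let F be a finite field of odd order q = p^a, n ≥ 2 (with q ≥ 3 automatic), and L = PSp(2n, F). Then for every m the direct product L × L × L × (ℤ/2)^m has the same set of element orders as L × L × L; and if 2n − 1 is not a power of p, then already L × L × (ℤ/2)^m has the same set of element orders as L × L. -/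
theorem result {F : Type*} [Field F] [Fintype F] (p a n m : ℕ) (hp : p.Prime) (ha : 1 ≤ a) (hF : Fintype.card F = p ^ a) (hodd : Odd (Fintype.card F))
    (hn : 2 ≤ n) :
    Set.range (orderOf : Cfsg.PSp n F × Cfsg.PSp n F × Cfsg.PSp n F × Multiplicative (Fin m → ZMod 2) → ℕ) = Set.range (orderOf : Cfsg.PSp n F × Cfsg.PSp n F × Cfsg.PSp n F → ℕ) ∧
    ((¬ ∃ j : ℕ, 2 * n - 1 = p ^ j) →
      Set.range (orderOf : Cfsg.PSp n F × Cfsg.PSp n F × Multiplicative (Fin m → ZMod 2) → ℕ) = Set.range (orderOf : Cfsg.PSp n F × Cfsg.PSp n F → ℕ)) := by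
  obtain ⟨p', hc⟩ := CharP.exists F
  have : Fact p'.Prime := ⟨CharP.char_is_prime F p'⟩
  obtain rfl : p' = p := by
    obtain ⟨k, -, hk⟩ := FiniteField.card F p'
    exact (Nat.prime_dvd_prime_iff_eq Fact.out hp).mp
      ((Fact.out : p'.Prime).dvd_of_dvd_pow (hF ▸ hk ▸ dvd_pow_self p' k.ne_zero))
  have hT : ∀ a b : ℕ, a ∣ oddTorus (Fintype.card F) n → b ∣ oddTorus (Fintype.card F) n →
      a.lcm b ∈ Set.range (orderOf : PSp n F → ℕ) :=
    fun a b ha hb => mem_spec_of_dvd' (oddTorus_mem hodd hn) (Nat.lcm_dvd ha hb)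
  refine ⟨S2511.spec_three Nat.prime_two orderOf_zmod_pi_dvd (two_mem_spec hodd hn)
    (U := fun o => ∃ j, 2 * n - 1 = p' ^ j ∧ o ∣ p' ^ (j + 1)) ?_ hT
    fun o ho hro => trichotomy p' hodd hn ho hro, fun h =>
      S2511.spec_two Nat.prime_two orderOf_zmod_pi_dvd (two_mem_spec hodd hn) hT fun o ho hro =>
        (trichotomy p' hodd hn ho hro).imp_right fun h1 =>
          h1.resolve_left fun ⟨j, hj, _⟩ => h ⟨j, hj⟩⟩
  rintro a b ⟨i, hi, ha⟩ ⟨j, hj, hb⟩
  obtain rfl : i = j := Nat.pow_right_injective hp.two_le (hi.symm.trans hj)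
  exact mem_spec_of_dvd' (pow_mem_spec p' hn hi) (Nat.lcm_dvd ha hb)

end Cfsg.Agent.S2512
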