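import Cfsg.Statements.S2513
import Mathlib
import Cfsg.Agent.Known.TOrd

set_option autoImplicit false
open Cfsg

namespace Cfsg.Agent.S2513

open Polynomial Cfsg.Lib.Known

theorem spec_pi_eq {G : Type*} [Group G] [Finite G] {k k0 : ℕ} (hk : k0 ≤ k) (y : Fin k0 → G)
    (hy : Monoid.exponent G ∣ orderOf y) :
    Set.range (orderOf : (Fin k → G) → ℕ) = Set.range (orderOf : (Fin k0 → G) → ℕ) := by
  have h1 : ∀ (m : ℕ) (x : Fin m → G), orderOf x ∣ Monoid.exponent G := fun m x =>
    orderOf_dvd_of_pow_eq_one (funext fun i => Monoid.pow_exponent_eq_one (x i))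
  apply Set.Subset.antisymm
  · rintro _ ⟨x, rfl⟩
    exact mem_spec_of_dvd ((h1 _ x).trans hy)
  · rintro _ ⟨x, rfl⟩
    let y' : Fin k → G := fun i => if h : (i : ℕ) < k0 then y ⟨i, h⟩ else 1
    refine mem_spec_of_dvd (g := y') ((h1 _ x).trans (hy.trans ?_))
    refine orderOf_dvd_of_pow_eq_one (funext fun i => ?_)
    have := congrFun (pow_orderOf_eq_one y') (Fin.castLE hk i)
    simpa [y'] using this

theorem exists_singer {F : Type*} [Field F] [Fintype F] (hF : Fintype.card F = 2) {n d : ℕ}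
    (hd : 0 < d) (hdn : d ≤ n) :
    ∃ y : Matrix.ProjectiveSpecialLinearGroup (Fin n) F, 2 ^ d - 1 ∣ orderOf y := by
  have h2 : (2 : F) = 0 := by
    have := FiniteField.cast_card_eq_zero F
    rwa [hF] at this
  have h1 : 1 ≤ 2 ^ d := Nat.one_le_two_pow
  obtain ⟨θ, hθ⟩ := exists_orderOf_eq_ec (K := F) (N := 2 ^ d - 1) (by
    rw [Nat.cast_sub h1]
    simp [h2, hd.ne'])
  have hpos : 0 < 2 ^ d - 1 := by
    have := Nat.one_lt_two_pow hd.ne'
    omega
  have hθ1 : θ ^ (2 ^ d - 1) = 1 := hθ ▸ pow_orderOf_eq_one θ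
  have hθ0 : θ ≠ 0 := by rintro rfl; simp [hpos.ne'] at hθ1
  have hdeg : (minpoly F θ).natDegree ≤ n := by
    refine (Nat.le_of_dvd hd ((natDegree_minpoly_dvd_iff θ d).mpr ?_)).trans hdn
    rw [hF, ← Nat.sub_add_cancel h1, pow_succ, hθ1, one_mul]
  have hs := isGLType_add (isGLType_minpoly hθ0 Nat.one_pos)
    (isGLType_nsmul (isGLType_X_sub_one (K := F) Nat.one_pos) (n - (minpoly F θ).natDegree))
  rw [mul_one, mul_one, Nat.add_sub_cancel' hdeg] at hs
  set s := ({(minpoly F θ, 1)} : Multiset (F[X] × ℕ)) +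
    (n - (minpoly F θ).natDegree) • ({((X - 1 : F[X]), 1)} : Multiset (F[X] × ℕ))
  have he : Eig s θ := eig_add.mpr (Or.inl (eig_singleton.mpr (minpoly.aeval F θ)))
  have hdet : tDet s = 1 := by
    obtain ⟨g, hg⟩ := IsGLType.exists_GL (n := Fin n) (by simpa using hs)
    rw [← hg, ← det_eq_tDet]
    have := FiniteField.pow_card_sub_one_eq_one _ (Matrix.GeneralLinearGroup.det g).ne_zero
    simpa [hF] using this
  obtain ⟨y, hy⟩ := (mem_spec_PSL_iff (n := Fin n) (K := F)).mpr ⟨s, by simpa using hs, hdet, rfl⟩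
  refine ⟨y, hy ▸ hθ ▸ orderOf_dvd_of_pow_eq_one ?_⟩
  have := hs.pow_tOrd_eq (he.pow_card_pow 1) he
  rw [hF, pow_one, ← pow_mul, mul_comm, pow_mul, sq] at this
  exact mul_right_cancel₀ (pow_ne_zero _ hθ0) (this.trans (one_mul _).symm)

/-- Let F be the field with two elements, n ≥ 2, L = PSL(n, F) and k₀ = ⌊(n + 3)/2⌋. Then for every k ≥ k₀ the direct product of k copies of L has the same set of element orders as the direct product of k₀ copies of L. -/
theorem result {F : Type*} [Field F] [Fintype F] (hF : Fintype.card F = 2) (n k : ℕ) (hn : 2 ≤ n) (hk : (n + 3) / 2 ≤ k) :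
    Set.range (orderOf : (Fin k → Matrix.ProjectiveSpecialLinearGroup (Fin n) F) → ℕ) = Set.range (orderOf : (Fin ((n + 3) / 2) → Matrix.ProjectiveSpecialLinearGroup (Fin n) F) → ℕ) := by
  have hchar : CharP F 2 := charP_of_card_eq_prime_pow (p := 2) (f := 1) (by simpa using hF)
  obtain ⟨u, hu⟩ := Nat.prime_two.exists_orderOf_eq_pow_factorization_exponent
    (G := Matrix.ProjectiveSpecialLinearGroup (Fin n) F)
  have hk0 : (n + 3) / 2 = (n + 1) / 2 + 1 := by omega
  rw [hk0] at hk ⊢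
  have hex : ∀ i : Fin ((n + 1) / 2), ∃ y : Matrix.ProjectiveSpecialLinearGroup (Fin n) F,
      2 ^ (n / 2 + 1 + i) - 1 ∣ orderOf y := fun i =>
    exists_singer hF (by omega) (by have := i.2; omega)
  choose y hy using hex
  refine spec_pi_eq hk (Fin.cons u y) ?_
  set Y : Fin ((n + 1) / 2 + 1) → Matrix.ProjectiveSpecialLinearGroup (Fin n) F := Fin.cons u y
  have hY : orderOf Y ≠ 0 := (orderOf_pos _).ne'
  have hE : Monoid.exponent (Matrix.ProjectiveSpecialLinearGroup (Fin n) F) ∣ orderOf Y * 2 ^ n := by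
    rw [Monoid.exponent_dvd]
    intro x
    obtain ⟨s, hs, -, h⟩ := mem_spec_PSL_iff.mp ⟨x, rfl⟩
    rw [Fintype.card_fin] at hs
    rw [← h]
    have key : ∀ θ, Eig s θ → θ ^ orderOf Y = 1 := by
      intro θ hθ
      have h1 := hθ.natDegree_le hs
      have h2 := natDegree_minpoly_ec_pos θ
      set d := (minpoly F θ).natDegree
      have h3 : n / 2 < d * (n / d) := by
        have := Nat.div_add_mod n d
        have := Nat.mod_lt n h2
        have : d ≤ d * (n / d) := Nat.le_mul_of_pos_right _ (Nat.div_pos h1 h2)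
        omega
      have h4 : d * (n / d) ≤ n := Nat.mul_div_le n d
      let i : Fin ((n + 1) / 2) := ⟨d * (n / d) - (n / 2 + 1), by omega⟩
      have h5 : n / 2 + 1 + i = d * (n / d) := by simp only [i]; omega
      have h6 := (natDegree_minpoly_dvd_iff θ (d * (n / d))).mp (dvd_mul_right _ _)
      rw [hF, ← h5, ← Nat.sub_add_cancel (Nat.one_le_two_pow (n := n / 2 + 1 + i)), pow_succ]
        at h6
      have h7 := mul_right_cancel₀ (hθ.ne_zero hs) (h6.trans (one_mul θ).symm)
      obtain ⟨c, hc⟩ := (hy i).trans (orderOf_apply_dvd_orderOf (x := Y) i.succ)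
      rw [hc, pow_mul, h7, one_pow]
    refine hs.tOrd_dvd_mul_pow 2 hY (fun θ θ' h h' => by rw [key θ h, key θ' h']) fun x hx => ?_
    exact (hs.2.1 ▸ hs.1.snd_le_elDeg hx).trans Nat.lt_two_pow_self.le
  have hE0 := Monoid.exponent_ne_zero_of_finite
    (G := Matrix.ProjectiveSpecialLinearGroup (Fin n) F)
  rw [← Nat.ordProj_mul_ordCompl_eq_self
    (Monoid.exponent (Matrix.ProjectiveSpecialLinearGroup (Fin n) F)) 2]
  have hc := Nat.coprime_ordCompl Nat.prime_two hE0
  refine (hc.pow_left _).mul_dvd_of_dvd_of_dvd ?_ ?_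
  · rw [← hu]
    exact orderOf_apply_dvd_orderOf (x := Y) 0
  · exact (hc.symm.pow_right n).dvd_of_dvd_mul_right ((Nat.ordCompl_dvd _ _).trans hE)

end Cfsg.Agent.S2513
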