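import Cfsg.Statements.S2514
import Mathlib
import Cfsg.Agent.Known.Eig

set_option autoImplicit false
open Cfsg

namespace Cfsg.Agent.S2514

open Cfsg.Lib.Known

theorem exists_max {G : Type*} [Group G] [Finite G] (g : G) :
    ∃ n, (n ∈ Set.range (orderOf : G → ℕ) ∧ ∀ m ∈ Set.range (orderOf : G → ℕ), n ∣ m → m = n) ∧
      orderOf g ∣ n := by
  obtain ⟨x, hx, hmax⟩ := Set.exists_max_image {x : G | orderOf g ∣ orderOf x} orderOf
    (Set.toFinite _) ⟨g, dvd_rfl⟩
  refine ⟨orderOf x, ⟨⟨x, rfl⟩, ?_⟩, hx⟩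
  rintro _ ⟨y, rfl⟩ hy
  exact le_antisymm (hmax y (dvd_trans hx hy)) (Nat.le_of_dvd (orderOf_pos y) hy)

/-- For a finite group X write μ(X) for the set of element orders of X that are maximal under divisibility. Let G and H be finite groups and k ≥ 1 such that μ(H) ⊆ μ(G) and μ(G) has fewer than k elements outside μ(H). Then the direct product of k copies of G has the same set of element orders as the direct product of k − 1 copies of G with H. -/
theorem result {G H : Type*} [Group G] [Finite G] [Group H] [Finite H] (k : ℕ) (hk : 1 ≤ k)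
    (hsub : {n : ℕ | n ∈ Set.range (orderOf : H → ℕ) ∧ ∀ m ∈ Set.range (orderOf : H → ℕ), n ∣ m → m = n} ⊆ {n : ℕ | n ∈ Set.range (orderOf : G → ℕ) ∧ ∀ m ∈ Set.range (orderOf : G → ℕ), n ∣ m → m = n})
    (hfew : ({n : ℕ | n ∈ Set.range (orderOf : G → ℕ) ∧ ∀ m ∈ Set.range (orderOf : G → ℕ), n ∣ m → m = n} \ {n : ℕ | n ∈ Set.range (orderOf : H → ℕ) ∧ ∀ m ∈ Set.range (orderOf : H → ℕ), n ∣ m → m = n}).ncard < k) :
    Set.range (orderOf : (Fin k → G) → ℕ) = Set.range (orderOf : (Fin (k - 1) → G) × H → ℕ) := by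
  classical
  obtain ⟨k, rfl⟩ := Nat.exists_eq_add_of_le' hk
  change _ = Set.range (orderOf : (Fin k → G) × H → ℕ)
  choose μ hμ hμ' using exists_max (G := G)
  apply Set.Subset.antisymm
  · rintro _ ⟨x, rfl⟩
    set T := {n : ℕ | n ∈ Set.range (orderOf : G → ℕ) ∧ ∀ m ∈ Set.range (orderOf : G → ℕ), n ∣ m → m = n} \ {n : ℕ | n ∈ Set.range (orderOf : H → ℕ) ∧ ∀ m ∈ Set.range (orderOf : H → ℕ), n ∣ m → m = n} with hT
    have hfin : T.Finite := (Set.finite_range _).subset fun n hn => hn.1.1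
    by_cases h : ∃ i, μ (x i) ∉ T
    · obtain ⟨i, hi⟩ := h
      obtain ⟨⟨y, hy⟩, -⟩ : μ (x i) ∈ {n : ℕ | n ∈ Set.range (orderOf : H → ℕ) ∧
          ∀ m ∈ Set.range (orderOf : H → ℕ), n ∣ m → m = n} := by
        by_contra h1
        exact hi ⟨hμ _, h1⟩
      refine mem_spec_of_dvd (g := (fun j => x (i.succAbove j), y)) ?_
      rw [Prod.orderOf_mk, Pi.orderOf, Finset.lcm_dvd_iff]
      intro j _
      rcases Fin.eq_self_or_eq_succAbove i j with rfl | ⟨j, rfl⟩
      · exact ((hμ' _).trans (hy ▸ dvd_rfl)).trans (Nat.dvd_lcm_right _ _)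
      · exact (orderOf_apply_dvd_orderOf (x := fun j => x (i.succAbove j)) j).trans
          (Nat.dvd_lcm_left _ _)
    · push Not at h
      obtain ⟨i, j, hij, h1⟩ := Fintype.exists_ne_map_eq_of_card_lt
        (fun i => (⟨μ (x i), hfin.mem_toFinset.mpr (h i)⟩ : hfin.toFinset)) (by
          rwa [Fintype.card_coe, ← Set.ncard_eq_toFinset_card T hfin, Fintype.card_fin])
      have h2 : μ (x i) = μ (x j) := congrArg Subtype.val h1
      choose z hz using fun g => (hμ g).1
      refine mem_spec_of_dvd (g := (fun l => z (x (i.succAbove l)), 1)) ?_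
      rw [Prod.orderOf_mk, Pi.orderOf x, Finset.lcm_dvd_iff]
      have key : ∀ l, μ (x (i.succAbove l)) ∣ orderOf fun l => z (x (i.succAbove l)) := fun l =>
        hz _ ▸ orderOf_apply_dvd_orderOf (x := fun l => z (x (i.succAbove l))) l
      intro l _
      refine ((hμ' _).trans ?_).trans (Nat.dvd_lcm_left _ _)
      rcases Fin.eq_self_or_eq_succAbove i l with rfl | ⟨l, rfl⟩
      · obtain ⟨l', rfl⟩ := Fin.exists_succAbove_eq hij.symm
        exact h2 ▸ key l'
      · exact key l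
  · rintro _ ⟨⟨x, y⟩, rfl⟩
    obtain ⟨n, hn, h1⟩ := exists_max y
    obtain ⟨⟨z, rfl⟩, -⟩ := hsub hn
    refine mem_spec_of_dvd (g := (Fin.cons z x : Fin (k + 1) → G)) ?_
    rw [Prod.orderOf_mk]
    refine Nat.lcm_dvd ?_ (h1.trans (orderOf_apply_dvd_orderOf (x := (Fin.cons z x : Fin (k + 1) → G)) 0))
    rw [Pi.orderOf, Finset.lcm_dvd_iff]
    exact fun j _ => orderOf_apply_dvd_orderOf (x := (Fin.cons z x : Fin (k + 1) → G)) j.succ

end Cfsg.Agent.S2514
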