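import Cfsg.Statements.S2515
import Cfsg.Agent.Known.ReeSpec
import Cfsg.Agent.Known.PSL2Sizes

set_option autoImplicit false
open Cfsg

namespace Cfsg.Agent.S2515

open Cfsg.Lib.Known.GL2 Cfsg.Lib.Known.Ree

theorem exists_orders (F : Type*) [Field F] [Fintype F] :
    (∃ x : PSL2 F, orderOf x = (Fintype.card F - 1) / Nat.gcd 2 (Fintype.card F - 1)) ∧
    ∃ x : PSL2 F, orderOf x = (Fintype.card F + 1) / Nat.gcd 2 (Fintype.card F - 1) := by
  constructor
  · have := isCyclic_T_SL (F := F)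
    obtain ⟨g, -, hg⟩ := exists_orderOf_piSL_of_dvd (slLin F).Z_le_T (m := _) dvd_rfl
    exact ⟨_, by rw [hg, card_T_SL]⟩
  · obtain ⟨s, hs, ho⟩ := exists_isEll_orderOf (F := F)
    have hc := card_centralizer_ell_SL hs
    have : IsCyclic (Subgroup.centralizer ({s} : Set (SL2 F))) :=
      isCyclic_of_orderOf_eq_card ⟨s, Subgroup.mem_centralizer_singleton_iff.2 rfl⟩
        (by rw [hc, ← ho, ← Subgroup.orderOf_coe])
    have hZ : (slLin F).Z ≤ Subgroup.centralizer ({s} : Set (SL2 F)) := fun z hz => by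
      rw [Subgroup.mem_centralizer_singleton_iff]
      rcases mem_Z_SL.1 hz with rfl | rfl <;> simp
    obtain ⟨g, -, hg⟩ := exists_orderOf_piSL_of_dvd hZ (m := _) dvd_rfl
    exact ⟨_, by rw [hg, hc]⟩

theorem maximal_eq {H : Type*} [Group H] (S : Set ℕ) (h1 : ∀ n ∈ S, ∃ x : H, orderOf x = n)
    (h2 : ∀ x : H, ∃ n ∈ S, orderOf x ∣ n) (h3 : ∀ n ∈ S, ∀ m ∈ S, n ∣ m → n = m) :
    {n : ℕ | n ∈ Set.range (orderOf : H → ℕ) ∧ ∀ m ∈ Set.range (orderOf : H → ℕ), n ∣ m → m = n} = S := by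
  ext n
  constructor
  · rintro ⟨⟨x, rfl⟩, h⟩
    obtain ⟨m, hm, hd⟩ := h2 x
    rw [← h m (h1 m hm) hd]
    exact hm
  · intro hn
    refine ⟨h1 n hn, ?_⟩
    rintro _ ⟨x, rfl⟩ hd
    obtain ⟨m, hm, hd'⟩ := h2 x
    have := h3 n hn m hm (hd.trans hd')
    subst this
    exact Nat.dvd_antisymm hd' hd

/-- Let q = 3^α with α ≥ 3 odd. There is a finite group H having a non-trivial normal 3-subgroup and whose element orders maximal under divisibility are exactly 6, 9, q − 1 and (q + 1)/2. -/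
theorem result (α : ℕ) (hα : 3 ≤ α) (hodd : Odd α) :
    ∃ (H : Type) (_ : Group H) (_ : Fintype H), (∃ P : Subgroup H, P.Normal ∧ P ≠ ⊥ ∧ IsPGroup 3 ↥P) ∧
      {n : ℕ | n ∈ Set.range (orderOf : H → ℕ) ∧ ∀ m ∈ Set.range (orderOf : H → ℕ), n ∣ m → m = n} = ({6, 9, 3 ^ α - 1, (3 ^ α + 1) / 2} : Set ℕ) := by
  classical
  haveI : Fact (Nat.Prime 3) := ⟨Nat.prime_three⟩
  let K := GaloisField 3 α
  letI : Fintype K := Fintype.ofFinite K
  have hK : Fintype.card K = 3 ^ α := by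
    rw [← Nat.card_eq_fintype_card]; exact GaloisField.card 3 α (by omega)
  obtain ⟨k, rfl⟩ := hodd
  have hq : ∃ r, 3 ^ (2 * k + 1) = 12 * r + 3 ∧ 2 ≤ r := by
    have h9 : ∃ s, 3 ^ (2 * k) = 4 * s + 1 := by
      refine ⟨3 ^ (2 * k) / 4, ?_⟩
      have : 3 ^ (2 * k) % 4 = 1 := by rw [pow_mul, Nat.pow_mod]; norm_num
      omega
    obtain ⟨s, hs⟩ := h9
    have h27 : 3 ^ 3 ≤ 3 ^ (2 * k + 1) := Nat.pow_le_pow_right (by norm_num) hα
    refine ⟨s, by rw [pow_succ, hs]; ring, ?_⟩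
    rw [pow_succ 3 (2 * k), hs] at h27
    omega
  obtain ⟨r, hr, hr2⟩ := hq
  have hi : ∀ i : K, i ^ 2 ≠ -1 := fun i hi => by
    have : IsSquare (-1 : K) := ⟨i, by rw [← hi, sq]⟩
    rw [FiniteField.isSquare_neg_one_iff, hK, hr] at this
    omega
  have hg : Nat.gcd 2 (Fintype.card K - 1) = 2 := by
    rw [hK, hr]
    exact Nat.gcd_eq_left (by omega)
  haveI : Finite (XX K 1) := Finite.of_equiv _ SemidirectProduct.equivProd.symm
  refine ⟨XX K 1, inferInstance, Fintype.ofFinite _, ⟨(SemidirectProduct.inl : Md K 1 →* XX K 1).range, ?_, ?_, ?_⟩, ?_⟩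
  · rw [SemidirectProduct.range_inl_eq_ker_rightHom]; infer_instance
  · intro h
    have h1 : (SemidirectProduct.inl (Multiplicative.ofAdd fun _ => 1) : XX K 1) ∈ (⊥ : Subgroup (XX K 1)) :=
      h ▸ ⟨_, rfl⟩
    have h2 := congrArg (fun x : XX K 1 => x.left.toAdd 0 0 0) (Subgroup.mem_bot.1 h1)
    simp at h2
  · rintro ⟨_, A, rfl⟩
    exact ⟨1, Subtype.ext (by
      change (SemidirectProduct.inl A : XX K 1) ^ (3 ^ 1) = 1
      rw [pow_one, ← map_pow, md_pow_three, map_one])⟩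
  have hz : orderOf (Multiplicative.ofAdd (1 : ZMod 2)) = 2 := by
    rw [orderOf_ofAdd_eq_addOrderOf, ZMod.addOrderOf_one]
  have hinr : ∀ g : Multiplicative (ZMod 2) × PSL2 K, orderOf (SemidirectProduct.inr g : XX K 1) = orderOf g :=
    fun g => orderOf_injective _ SemidirectProduct.inr_injective g
  obtain ⟨⟨a, ha⟩, b, hb⟩ := exists_orders K
  rw [hg, hK] at ha hb
  refine maximal_eq _ ?_ ?_ ?_
  · rintro n (rfl | rfl | rfl | rfl)
    · refine ⟨SemidirectProduct.inr (Multiplicative.ofAdd 1, piSL K ((slLin K).u 1)), ?_⟩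
      rw [hinr, Prod.orderOf, hz]
      have h3 : orderOf (piSL K ((slLin K).u 1)) = 3 := by
        refine orderOf_eq_prime (by rw [← map_pow, Lin2.u_pow_char, map_one]) fun h => ?_
        rcases mem_Z_SL.1 (piSL_eq_one_iff.1 h) with h | h
        · have := congrArg (fun g => (slLin K).ρ g 0 1) h
          simp [Lin2.ρ_u] at this
        · have := congrArg (fun g => (slLin K).ρ g 0 1) h
          simp [Lin2.ρ_u, ρ_neg_SL] at this
      rw [h3]; rfl
    · exact exists_orderOf_XX 0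
    · refine ⟨SemidirectProduct.inr (Multiplicative.ofAdd 1, a), ?_⟩
      rw [hinr, Prod.orderOf, hz, ha, hr]
      have h1 : (12 * r + 3 - 1) / 2 = 6 * r + 1 := by omega
      rw [h1, Nat.Coprime.lcm_eq_mul ((Nat.coprime_two_left).2 ⟨3 * r, by ring⟩)]
      omega
    · exact ⟨SemidirectProduct.inr (1, b), by rw [hinr, Prod.orderOf, orderOf_one, hb, Nat.lcm_one_left]⟩
  · intro x
    rcases orderOf_XX hi x with h | h | h
    · exact ⟨6, by simp, h⟩
    · exact ⟨9, by simp, h⟩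
    have h2 : orderOf x.right.1 ∣ 2 := by
      simpa using orderOf_dvd_card (x := x.right.1)
    rw [h, Prod.orderOf]
    rcases orderOf_PSL2_cases 3 x.right.2 with h3 | h3 | h3
    · exact ⟨6, by simp, Nat.lcm_dvd (h2.trans (by norm_num)) (by rw [h3]; norm_num)⟩
    · rw [hg, hK] at h3
      refine ⟨3 ^ (2 * k + 1) - 1, by simp, Nat.lcm_dvd (h2.trans ?_) (h3.trans ?_)⟩
      · rw [hr]; omega
      · rw [hr]; exact ⟨2, by omega⟩
    · rw [hg, hK] at h3
      refine ⟨(3 ^ (2 * k + 1) + 1) / 2, by simp, Nat.lcm_dvd (h2.trans ?_) h3⟩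
      rw [hr]; omega
  · rw [hr]
    have h1 : 12 * r + 3 - 1 = 12 * r + 2 := by omega
    have h2 : (12 * r + 3 + 1) / 2 = 6 * r + 2 := by omega
    rw [h1, h2]
    rintro n (rfl | rfl | rfl | rfl) m (rfl | rfl | rfl | rfl) hd <;> first
      | rfl
      | (exfalso; omega)
      | (exfalso; have := Nat.le_of_dvd (by omega) hd; omega)
      | (exfalso
         have h3 : 6 * r + 2 ∣ 2 := by
           have := (Nat.dvd_sub (Dvd.intro_left 2 rfl) hd)
           rwa [show 2 * (6 * r + 2) - (12 * r + 2) = 2 by omega] at this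
         have := Nat.le_of_dvd (by omega) h3
         omega)

end Cfsg.Agent.S2515
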