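import Cfsg.Statements.S2516


set_option autoImplicit false
open Cfsg

namespace Cfsg.Agent.S2516

/-- Let F be a field of characteristic p > 0, V a non-zero finite-dimensional F-vector space, G a finite group and ρ a representation of G on V; form the semidirect product V ⋊ G. For g ∈ G of order k, the coset Vg contains an element of order pk if and only if the minimal polynomial of ρ(g) does not divide 1 + X + ⋯ + X^(k−1). -/
theorem result {F : Type*} [Field F] (p : ℕ) [Fact p.Prime] [CharP F p] {V : Type*} [AddCommGroup V] [Module F V] [FiniteDimensional F V] [Nontrivial V]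
    {G : Type*} [Group G] [Finite G] (ρ : Representation F G V) (g : G) :
    (∃ x : Multiplicative V ⋊[(MulAutMultiplicative V).symm.toMonoidHom.comp
        ((DistribMulAction.toAddAut ((V →ₗ[F] V)ˣ) V).comp ρ.asGroupHom)] G,
        x.right = g ∧ orderOf x = p * orderOf g) ↔
      ¬ (minpoly F (ρ g) ∣ ∑ i ∈ Finset.range (orderOf g), (Polynomial.X : Polynomial F) ^ i) := by
  have hp : p.Prime := Fact.out
  set φ := (MulAutMultiplicative V).symm.toMonoidHom.comp
        ((DistribMulAction.toAddAut ((V →ₗ[F] V)ˣ) V).comp ρ.asGroupHom) with hφ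
  have hφa : ∀ (h : G) (v : Multiplicative V), φ h v = Multiplicative.ofAdd (ρ h v.toAdd) := by
    intro h v
    rfl
  have hpow : ∀ (x : Multiplicative V ⋊[φ] G) (n : ℕ),
      (x ^ n).left.toAdd = (∑ i ∈ Finset.range n, (ρ x.right) ^ i) x.left.toAdd := by
    intro x n
    induction n with
    | zero => simp
    | succ n ih =>
      rw [pow_succ, SemidirectProduct.mul_left, toAdd_mul, ih, hφa, Finset.sum_range_succ,
        LinearMap.add_apply]
      have : (x ^ n).right = x.right ^ n := map_pow SemidirectProduct.rightHom x n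
      rw [this, map_pow]
      rfl
  have hk : 0 < orderOf g := orderOf_pos g
  have hdvd : minpoly F (ρ g) ∣ ∑ i ∈ Finset.range (orderOf g), (Polynomial.X : Polynomial F) ^ i ↔
      ∑ i ∈ Finset.range (orderOf g), (ρ g) ^ i = 0 := by
    rw [minpoly.dvd_iff]
    simp [map_sum]
  rw [hdvd]
  have hx : ∀ x : Multiplicative V ⋊[φ] G, x.right = g →
      x ^ orderOf g = SemidirectProduct.inl (Multiplicative.ofAdd
        ((∑ i ∈ Finset.range (orderOf g), (ρ g) ^ i) x.left.toAdd)) := by
    intro x hx
    ext
    · have := hpow x (orderOf g)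
      rw [hx] at this
      simpa using this
    · have : (x ^ orderOf g).right = x.right ^ orderOf g := map_pow SemidirectProduct.rightHom x _
      rw [this, hx, pow_orderOf_eq_one]
      simp
  constructor
  · rintro ⟨x, hxg, hxo⟩ h0
    have h1 := hx x hxg
    rw [h0] at h1
    have h2 : x ^ orderOf g = 1 := by simpa using h1
    have h3 := orderOf_dvd_of_pow_eq_one h2
    rw [hxo] at h3
    have h4 := Nat.le_of_dvd hk h3
    have := hp.two_le
    nlinarith
  · intro h0
    obtain ⟨v, hv⟩ : ∃ v, (∑ i ∈ Finset.range (orderOf g), (ρ g) ^ i) v ≠ 0 := by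
      by_contra hcon
      push Not at hcon
      exact h0 (LinearMap.ext hcon)
    refine ⟨⟨Multiplicative.ofAdd v, g⟩, rfl, ?_⟩
    set x : Multiplicative V ⋊[φ] G := ⟨Multiplicative.ofAdd v, g⟩ with hxdef
    have h1 := hx x rfl
    have h2 : orderOf (x ^ orderOf g) = p := by
      rw [h1, orderOf_injective SemidirectProduct.inl SemidirectProduct.inl_injective,
        orderOf_ofAdd_eq_addOrderOf]
      haveI : Fact p.Prime := ⟨hp⟩
      apply addOrderOf_eq_prime
      · rw [← Nat.cast_smul_eq_nsmul F, CharP.cast_eq_zero, zero_smul]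
      · exact hv
    have h3 : orderOf g ∣ orderOf x := orderOf_map_dvd SemidirectProduct.rightHom x
    rw [orderOf_pow_of_dvd hk.ne' h3] at h2
    rw [← h2, Nat.div_mul_cancel h3]

end Cfsg.Agent.S2516
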