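import Cfsg.Statements.S2517
import Cfsg.Agent.S2362

set_option autoImplicit false
open Cfsg

namespace Cfsg.Agent.S2517

open Cfsg.Lib.Known Cfsg.Lib.Class Cfsg.Lib.Class.Orth Polynomial Cfsg.Agent.S2362

section Aux

variable {F : Type*} [Field F] [Fintype F] (p : ℕ) [Fact p.Prime] [CharP F p]
  {s : Multiset (F[X] × ℕ)} {o : ℕ}

omit [Fact p.Prime] [CharP F p] in
theorem of_dvd {N δ o' : ℕ} {d : ℤˣ} (h : OSpec F p N δ d o') (ho : o ∣ o') : OSpec F p N δ d o := by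
  obtain ⟨s, n₁, n₂, c, hs, h1, h2, h3, h4, h5, h6⟩ := h
  exact ⟨s, n₁, n₂, c, hs, h1, h2, h3, h4, h5, fun k a b c => ho.trans (h6 k a b c)⟩

omit [Fact p.Prime] [CharP F p] in
theorem le_six (h2 : (2 : F) ≠ 0) (hs : NoPM s) (hd : elDeg s ≤ 6)
    (h : ∀ k, gOrd s ∣ k → 2 ∣ k → o ∣ k) : OSpec F p 8 0 (-1) o := by
  by_cases h1 : elDeg s = 6 → tEv 1 s = -1
  · exact ⟨s, 6 - elDeg s, 2, 0, hs, by omega, even_two, fun h => by omega, fun h => h1 (by omega),
      Or.inl rfl, fun k a _ c => h k a (c two_ne_zero)⟩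
  rw [Classical.not_imp, ← Ne, Int.units_ne_iff_eq_neg, neg_neg] at h1
  obtain ⟨t, ht, a1, a2, a3, a4, a5⟩ := hs.exists_neg h2
  rcases Int.units_eq_one_or (tEv (-1) s) with h3 | h3
  · rcases a5 (by rintro rfl; simp at h1) with h4 | h4
    · exact ⟨s, 2, 0, 0, hs, by omega, Even.zero, fun _ => h3, fun h => by omega, Or.inl rfl,
        fun k a _ _ => h k a (h4.two_dvd.trans a)⟩
    · exact ⟨t, 2, 0, 0, ht, by omega, Even.zero, fun _ => a3.trans h1.2, fun h => by omega,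
        Or.inl rfl, fun k a _ _ => h k (a4 k (even_iff_two_dvd.mpr (h4.two_dvd.trans a)) a)
          (h4.two_dvd.trans a)⟩
  · exact ⟨t, 0, 2, 0, ht, by omega, even_two, fun h => by omega, fun _ => a2.trans h3,
      Or.inl rfl, fun k a _ c => h k (a4 k (even_iff_two_dvd.mpr (c two_ne_zero)) a)
        (c two_ne_zero)⟩

theorem free {θ : Ec F} (hθ : θ ≠ 0) (h2 : θ ^ 2 ≠ 1) {c : ℕ}
    (h : p ^ c + pdeg (RingHom.id F) θ ≤ 6) : OSpec F p 8 0 (-1) (orderOf θ * p ^ (c + 1)) := by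
  have hp : p.Prime := Fact.out
  have := pow_pos hp.pos c
  exact ⟨_, 6 - pdeg (RingHom.id F) θ, 2, c + 1, noPM_piece hθ h2 one_pos,
    by rw [elDeg_piece hθ]; omega, even_two, fun h => by omega, fun h => by omega,
    Or.inr (Or.inl (by simp; omega)), fun k a b _ => Nat.Coprime.mul_dvd_of_dvd_of_dvd
      ((hp.coprime_iff_not_dvd.mpr (not_char_dvd_orderOf p (orderOf_ec_pos hθ))).symm.pow_right _)
      (gOrd_piece_one hθ ▸ a) b⟩

omit [Fact p.Prime] [CharP F p] in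
theorem torus {N m : ℕ} (hN : 2 < N)
    (h : N ∣ Fintype.card F ^ m - 1 ∨ N ∣ Fintype.card F ^ m + 1) (hm : m ≠ 0) :
    ∃ θ : Ec F, θ ≠ 0 ∧ θ ^ 2 ≠ 1 ∧ orderOf θ = N ∧ pdeg (RingHom.id F) θ ≤ 2 * m := by
  obtain ⟨θ, a, h0, h2, h3, h4, h5⟩ := exists_spReal_torus hN h hm
  rw [elDeg_nsmul, elDeg_piece h0, mul_one] at h5
  exact ⟨θ, h0, h2, h3, h5 ▸ Nat.le_mul_of_pos_left _ (Nat.pos_of_ne_zero h4)⟩

/-- The square class of the discriminant. -/
noncomputable def tD (s : Multiset (F[X] × ℕ)) : ℤˣ := tEv 1 s * tEv (-1) s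

theorem tD_add {t : Multiset (F[X] × ℕ)} (hs : NoPM s) (ht : NoPM t) :
    tD (s + t) = tD s * tD t := by
  rw [tD, hs.tEv_add ht (by simp), hs.tEv_add ht (by simp), mul_mul_mul_comm, tD, tD]

theorem piece_cases (h20 : (2 : F) ≠ 0) {θ : Ec F} (hθ : θ ≠ 0) (h2 : θ ^ 2 ≠ 1) {k M : ℕ}
    (hk : pdeg (RingHom.id F) θ = 2 * k) (hM : Fintype.card F ^ k = 2 * M + 1) :
    (orderOf θ ∣ 2 * M ∧ tD (piece (RingHom.id F) θ 1) = (-1) ^ M ∧
      (tEv (-1) (piece (RingHom.id F) θ 1) = 1 ↔ orderOf θ ∣ M)) ∨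
    (orderOf θ ∣ 2 * (M + 1) ∧ tD (piece (RingHom.id F) θ 1) = (-1) ^ (M + 1) ∧
      (tEv (-1) (piece (RingHom.id F) θ 1) = 1 ↔ orderOf θ ∣ M + 1)) := by
  simp only [orderOf_dvd_iff_pow_eq_one]
  rcases (pdeg_id_dvd_iff hθ h2 k).mp (hk ▸ dvd_rfl) with h1 | h1
  · exact Or.inl ⟨mul_right_cancel₀ hθ (by rw [← pow_succ, ← hM, h1, one_mul]),
      tEv_mul_piece_plus h20 hθ h2 hk hM h1, tEv_neg_one_piece_plus h20 hθ h2 hk hM h1⟩
  · exact Or.inr ⟨by rw [show 2 * (M + 1) = 2 * M + 1 + 1 by ring, pow_succ, ← hM, h1,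
      inv_mul_cancel₀ hθ], tEv_mul_piece_minus h20 hθ h2 hk hM h1,
      tEv_neg_one_piece_minus h20 hθ h2 hk hM h1⟩

omit [Fact p.Prime] [CharP F p] in
theorem four_mem (h20 : (2 : F) ≠ 0) {M : ℕ} (hM : Fintype.card F ^ 2 = 2 * M + 1) (he : Even M)
    (h4 : 4 ≤ M) : OSpec F p 8 0 (-1) (2 * M * (M + 1)) := by
  obtain ⟨ζ, a0, a2, a3, a4⟩ := torus (F := F) (N := 2 * M) (m := 2) (by omega)
    (Or.inl (dvd_of_eq (by omega))) two_ne_zero
  obtain ⟨η, b0, b2, b3, b4⟩ := torus (F := F) (N := 2 * (M + 1)) (m := 2) (by omega)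
    (Or.inr (dvd_of_eq (by omega))) two_ne_zero
  have ha := noPM_piece a0 a2 one_pos
  have hb := noPM_piece b0 b2 one_pos
  have hs := ha.add hb
  have key : ∀ k, gOrd (piece (RingHom.id F) ζ 1 + piece (RingHom.id F) η 1) ∣ k →
      2 * M * (M + 1) ∣ k := fun k h => by
    rw [hs.1.gOrd_add_dvd_iff, gOrd_piece_one a0, gOrd_piece_one b0, a3, b3] at h
    exact (Nat.Coprime.mul_left (Nat.coprime_two_left.mpr he.add_one)
      (by simp)).mul_dvd_of_dvd_of_dvd h.1 ((dvd_mul_left _ _).trans h.2)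
  have e1 := Nat.even_iff.mp (even_pdeg_id a0 a2)
  have e2 := Nat.even_iff.mp (even_pdeg_id b0 b2)
  have hd : elDeg (piece (RingHom.id F) ζ 1 + piece (RingHom.id F) η 1) =
      pdeg (RingHom.id F) ζ + pdeg (RingHom.id F) η := elDeg_add _ _
  by_cases h : pdeg (RingHom.id F) ζ + pdeg (RingHom.id F) η ≤ 6
  · exact le_six p h20 hs (hd ▸ h) fun k a _ => key k a
  obtain ⟨-, c1, c2⟩ := (piece_cases h20 a0 a2 (k := 2) (by omega) hM).resolve_right fun h => by
    have := h.1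
    rw [a3] at this
    have := Nat.le_of_dvd two_pos ((Nat.dvd_add_right dvd_rfl).mp this)
    omega
  obtain ⟨-, d1, d2⟩ := (piece_cases h20 b0 b2 (k := 2) (by omega) hM).resolve_left fun h => by
    have := Nat.le_of_dvd (by omega) (b3 ▸ h.1)
    omega
  have c3 := Int.units_ne_iff_eq_neg.mp fun h => by
    have := Nat.le_of_dvd (by omega) (a3 ▸ c2.mp h)
    omega
  have d3 := Int.units_ne_iff_eq_neg.mp fun h => by
    have := Nat.le_of_dvd (by omega) (b3 ▸ d2.mp h)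
    omega
  rw [tD, c3, he.neg_one_pow, mul_neg_one, neg_eq_iff_eq_neg] at c1
  rw [tD, d3, he.add_one.neg_one_pow, mul_neg_one, neg_inj] at d1
  exact ⟨_, 0, 0, 0, hs, by omega, Even.zero, fun _ => by rw [ha.tEv_add hb (by simp), c3, d3]; simp,
    fun _ => by rw [ha.tEv_add hb (by simp), c1, d1]; simp, Or.inl rfl, fun k a _ _ => key k a⟩

theorem eight (hodd : Odd (Fintype.card F)) (hs : NoPM s) (hd : elDeg s = 8) (h1 : tEv 1 s = 1)
    (h3 : tEv (-1) s = 1) : OSpec F p 8 0 (-1) (gOrd s) := by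
  have hp : p.Prime := Fact.out
  have h20 := two_ne_zero_of_odd_card hodd
  have hp3 : 3 ≤ p := by have := hp.two_le; obtain ⟨a, ha⟩ := odd_char p h20; omega
  obtain ⟨m, hm⟩ := hodd
  have hm1 : 1 ≤ m := by have := Fintype.one_lt_card (α := F); omega
  obtain ⟨M, hM⟩ : ∃ M, M = 2 * (m * (m + 1)) := ⟨_, rfl⟩
  have q1 : Fintype.card F ^ 1 = 2 * m + 1 := by rw [hm, pow_one]
  have q2 : Fintype.card F ^ 2 = 2 * M + 1 := by rw [hm, hM]; ring
  have q3 : Fintype.card F ^ 3 = 2 * (2 * (2 * m ^ 3 + 3 * m ^ 2 + m) + m) + 1 := by rw [hm]; ring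
  have q4 : Fintype.card F ^ 4 = 2 * (2 * M * (M + 1)) + 1 := by rw [hm, hM]; ring
  have hMe : Even M := hM ▸ even_two_mul _
  have hM4 : 4 ≤ M := by nlinarith
  have hD : tD s = 1 := by rw [tD, h1, h3, mul_one]
  have two : ∀ θ : Ec F, θ ≠ 0 → θ ^ 2 ≠ 1 → pdeg (RingHom.id F) θ = 2 → orderOf θ ∣ 2 * M :=
    fun θ a0 a2 a3 => by
      rcases piece_cases h20 a0 a2 (k := 1) a3 q1 with h | h
      · exact h.1.trans ⟨2 * (m + 1), by rw [hM]; ring⟩
      · exact h.1.trans ⟨2 * m, by rw [hM]; ring⟩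
  by_cases hss : ∃ x ∈ s, 2 ≤ x.2
  · obtain ⟨x, hx, he⟩ := hss
    obtain ⟨θ, t, h0, h2, ht, h⟩ := hs.exists_piece_add_of_mem hx
    generalize x.2 = e at he h
    subst h
    obtain ⟨k, hk0, hk⟩ := exists_pdeg_eq h0 h2
    rw [elDeg_add, elDeg_piece h0, hk] at hd
    have hk2 : k ≤ 2 := by nlinarith
    rcases eq_or_ne t 0 with rfl | ht0
    · have key : ∀ c, p ^ c + 2 * k ≤ 6 → e ≤ p ^ (c + 1) → OSpec F p 8 0 (-1)
          (gOrd (piece (RingHom.id F) θ e + 0)) := fun c a b =>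
        of_dvd p (free p h0 h2 (hk ▸ a)) (hs.1.gOrd_dvd_mul_pow p (orderOf_ec_pos h0).ne'
          (fun θ' h => pow_eq_one_of_eig_piece_id h0 (add_zero (piece _ θ e) ▸ h)
            (pow_orderOf_eq_one θ))
          fun y hy => (snd_of_mem_piece (add_zero (piece _ θ e) ▸ hy)).trans_le b)
      rw [elDeg_zero] at hd
      obtain rfl | rfl : k = 1 ∨ k = 2 := by omega
      · rcases eq_or_ne p 3 with rfl | h
        · exact key 1 (by norm_num) (by omega)
        · exact key 0 (by norm_num) (by rw [zero_add, pow_one]; omega)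
      · exact key 0 (by norm_num) (by rw [zero_add, pow_one]; omega)
    have h4 := ht.1.1.elDeg_pos ht0
    have h5 := Nat.even_iff.mp ht.even_elDeg
    obtain rfl : k = 1 := by
      by_contra h
      obtain rfl : k = 2 := by omega
      omega
    obtain ⟨ζ, a0, a2, a3, a4⟩ := torus (F := F) (N := 2 * M) (m := 2) (by omega)
      (Or.inl (dvd_of_eq (by omega))) two_ne_zero
    refine of_dvd p (free p a0 a2 (c := 0) (by rw [pow_zero]; omega)) (a3 ▸ hs.1.gOrd_dvd_mul_pow p (by omega)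
      (fun η h => orderOf_dvd_iff_pow_eq_one.mp ?_) fun y hy => ?_)
    · rcases eig_add.mp h with h | h
      · exact orderOf_eq_of_eig_piece h0 h ▸ two θ h0 h2 hk
      have b0 := h.ne_zero ht.1
      have b2 := ht.sq_ne_one h
      obtain ⟨e', u, he', hu, rfl⟩ := ht.exists_piece_add h
      obtain ⟨k', hk0', hk'⟩ := exists_pdeg_eq b0 b2
      rcases eq_or_ne k' 1 with rfl | h6
      · exact two η b0 b2 hk'
      rw [elDeg_add, elDeg_piece b0, hk'] at hd
      obtain rfl : k' = 2 := le_antisymm (by nlinarith) (by omega)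
      obtain rfl : e' = 1 := by omega
      obtain rfl : e = 2 := by omega
      obtain rfl := hu.eq_zero_of_elDeg (by omega)
      refine ((piece_cases h20 b0 b2 hk' q2).resolve_right fun h7 => ?_).1
      rw [tD_add (noPM_piece h0 h2 two_pos) ht, add_zero, h7.2.1, hMe.add_one.neg_one_pow, tD,
        tEv_piece h0 h2 (by simp), tEv_piece h0 h2 (l := -1) (by simp), Int.units_sq,
        Int.units_sq] at hD
      exact absurd hD (by decide)
    · rw [zero_add, pow_one]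
      rcases Multiset.mem_add.mp hy with hy | hy
      · rw [snd_of_mem_piece hy]
        omega
      · have := two_mul_le_elDeg ht hy
        omega
  push Not at hss
  have key : ∀ K, (∀ θ, Eig s θ → orderOf θ ∣ K) → gOrd s ∣ K := fun K h =>
    hs.1.gOrd_dvd_of_semisimple (fun θ h' => orderOf_dvd_iff_pow_eq_one.mp (h θ h'))
      fun x hx => Nat.lt_succ_iff.mp (hss x hx)
  by_cases h6 : ∃ θ, Eig s θ ∧ pdeg (RingHom.id F) θ = 6
  · obtain ⟨θ, h, hk⟩ := h6
    have h0 := h.ne_zero hs.1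
    have h2 := hs.sq_ne_one h
    obtain ⟨e, t, he, ht, rfl⟩ := hs.exists_piece_add h
    rw [elDeg_add, elDeg_piece h0, hk] at hd
    obtain rfl : e = 1 := by omega
    obtain ⟨x, hx⟩ := Multiset.exists_mem_of_ne_zero (s := t) (by rintro rfl; simp at hd)
    obtain ⟨η, u, b0, b2, hu, h4⟩ := ht.exists_piece_add_of_mem hx
    have h5 := (ht.1.1 x hx).2.2
    generalize x.2 = e at h4 h5
    subst h4
    have h7 := two_le_pdeg_id b0 b2
    rw [elDeg_add, elDeg_piece b0] at hd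
    obtain rfl : e = 1 := by nlinarith
    obtain rfl := hu.eq_zero_of_elDeg (by omega)
    rw [tD_add (noPM_piece h0 h2 one_pos) ht, add_zero] at hD
    have fin : ∀ N, 2 < N → N ∣ Fintype.card F ^ 3 - 1 ∨ N ∣ Fintype.card F ^ 3 + 1 →
        orderOf θ ∣ N → orderOf η ∣ N → OSpec F p 8 0 (-1)
          (gOrd (piece (RingHom.id F) θ 1 + (piece (RingHom.id F) η 1 + 0))) := fun N a b c d => by
      obtain ⟨ζ, a0, a2, a3, a4⟩ := torus (F := F) a b three_ne_zero
      refine le_six p h20 (noPM_piece a0 a2 one_pos) (by rw [elDeg_piece a0]; omega) fun k h _ => ?_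
      rw [gOrd_piece_one a0, a3] at h
      rw [hs.1.gOrd_add_dvd_iff, add_zero, gOrd_piece_one h0, gOrd_piece_one b0]
      exact ⟨c.trans h, d.trans h⟩
    rcases piece_cases h20 h0 h2 (k := 3) hk q3 with c | c <;>
      rcases piece_cases h20 b0 b2 (k := 1) (by omega) q1 with d | d <;>
      rw [c.2.1, d.2.1, ← pow_add, neg_one_pow_eq_one_iff_even (by decide), Nat.even_iff] at hD
    · exact fin _ (by nlinarith [Nat.zero_le (m ^ 3), Nat.zero_le (m ^ 2)])
        (Or.inl (dvd_of_eq (by omega))) c.1 (d.1.trans ⟨4 * m ^ 2 + 6 * m + 3, by ring⟩)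
    · omega
    · omega
    · exact fin _ (by omega) (Or.inr (dvd_of_eq (by omega))) c.1
        (d.1.trans ⟨4 * m ^ 2 + 2 * m + 1, by ring⟩)
  refine of_dvd p (four_mem p h20 q2 hMe hM4) (key _ fun θ h => ?_)
  have h0 := h.ne_zero hs.1
  have h2 := hs.sq_ne_one h
  obtain ⟨k, hk0, hk⟩ := exists_pdeg_eq h0 h2
  have h7 : k ≠ 3 := by rintro rfl; exact h6 ⟨θ, h, hk⟩
  obtain ⟨e, t, he, ht, rfl⟩ := hs.exists_piece_add h
  rw [elDeg_add, elDeg_piece h0, hk] at hd
  have h8 : k ≤ 4 := by nlinarith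
  obtain rfl | rfl | rfl : k = 1 ∨ k = 2 ∨ k = 4 := by omega
  · exact (two θ h0 h2 hk).mul_right _
  · rcases piece_cases h20 h0 h2 hk q2 with c | c
    · exact c.1.mul_right _
    · exact c.1.trans ⟨M, by ring⟩
  · obtain rfl : e = 1 := by omega
    obtain rfl := ht.eq_zero_of_elDeg (by omega)
    rw [add_zero] at hD h3
    refine ((piece_cases h20 h0 h2 hk q4).resolve_right fun c => ?_).2.2.mp h3
    rw [c.2.1, neg_one_pow_eq_one_iff_even (by decide), Nat.even_iff, mul_assoc] at hD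
    omega

theorem main (hodd : Odd (Fintype.card F)) : OSpec F p 9 2 1 o ↔ OSpec F p 8 0 (-1) o := by
  have h20 := two_ne_zero_of_odd_card hodd
  have hp : p.Prime := Fact.out
  constructor
  · rintro ⟨s, n₁, n₂, c, hs, hN, he, h1, -, h3, h4⟩
    have e1 := Nat.even_iff.mp hs.even_elDeg
    have e2 := Nat.even_iff.mp he
    have e3 := pow_pos hp.pos (c - 1)
    by_cases h5 : n₁ = 1 → tEv 1 s = -1
    · exact ⟨s, n₁ - 1, n₂, c, hs, by omega, he, h1, fun h => h5 (by omega), by omega, h4⟩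
    rw [Classical.not_imp, ← Ne, Int.units_ne_iff_eq_neg, neg_neg] at h5
    obtain ⟨rfl, h5⟩ := h5
    by_cases h6 : 4 ≤ n₂
    · exact ⟨s, n₂ - 2, 2, c, hs, by omega, even_two, fun h => by omega, fun h => by omega, by omega,
        fun k a b c => h4 k a b fun _ => c two_ne_zero⟩
    obtain rfl : c = 0 := by omega
    obtain rfl | rfl : n₂ = 0 ∨ n₂ = 2 := by omega
    · exact of_dvd p (eight p hodd hs (by omega) h5 (h1 rfl))
        (h4 _ dvd_rfl (one_dvd _) fun h => absurd rfl h)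
    · exact le_six p h20 hs (by omega) fun k a b => h4 k a (one_dvd _) fun _ => b
  · rintro ⟨s, n₁, n₂, c, hs, hN, he, h1, -, h3, h4⟩
    have e1 := Nat.even_iff.mp hs.even_elDeg
    have e2 := Nat.even_iff.mp he
    have e3 := Nat.odd_iff.mp ((odd_char p h20).pow (n := c - 1))
    exact ⟨s, n₁ + 1, n₂, c, hs, by omega, he, h1, fun h => by omega, by omega, h4⟩

end Aux

/-- Let F be a finite field of odd order q, let Ω₉ be the simple orthogonal group PΩ(9, F), and let Ω₈⁻ be the commutator subgroup of the isometry group of a minus-type non-singular quadratic form on V = F⁸ (the simple group PΩ⁻(8, F), acting on its natural module V). Then Ω₉ and the semidirect product V ⋊ Ω₈⁻ have exactly the same set of element orders. -/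
theorem result {F : Type*} [Field F] [Fintype F] (hF : Odd (Fintype.card F)) (a b : F)
    (hab : ∀ z₁ z₂ : F, z₁ ^ 2 + a * z₁ * z₂ + b * z₂ ^ 2 = 0 → z₁ = 0 ∧ z₂ = 0) :
    Set.range (orderOf : Cfsg.POmega F (Cfsg.quadFormOdd 4 F) → ℕ) =
      Set.range (orderOf :
        (Multiplicative (((Fin 3 ⊕ Fin 3) ⊕ Fin 2) → F)) ⋊[
          (MulAutMultiplicative (((Fin 3 ⊕ Fin 3) ⊕ Fin 2) → F)).symm.toMonoidHom.comp
           ((DistribMulAction.toAddAut (LinearMap.GeneralLinearGroup F (((Fin 3 ⊕ Fin 3) ⊕ Fin 2) → F))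
              (((Fin 3 ⊕ Fin 3) ⊕ Fin 2) → F)).comp
            (Matrix.GeneralLinearGroup.toLin.toMonoidHom.comp
              ((Cfsg.isometryGroup F (Cfsg.quadFormMinus 3 F a b)).subtype.comp
                (Cfsg.Omega F (Cfsg.quadFormMinus 3 F a b)).subtype)))]
          ↥(Cfsg.Omega F (Cfsg.quadFormMinus 3 F a b)) → ℕ) := by
  obtain ⟨p, hc⟩ := CharP.exists F
  have : Fact p.Prime := ⟨CharP.char_is_prime F p⟩
  have h2 := two_ne_zero_of_odd_card hF
  have hd : sqs (disc (quadMinus 3 F a b)) = -1 := by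
    rw [(sqEq_disc_quadMinus 3 a b).sqs_eq, sqs_eq_neg_one_iff, Even.neg_one_pow (by decide),
      one_mul]
    exact not_isSquare_discr_of_aniso h2 hab
  ext o
  rw [mem_spec_POmega_odd_iff p hF (by omega), ← coe_quadMinus,
    mem_spec_affine_iff p h2 (quadMinus_nondegenerate 3 hab) (omegaEquiv _) fun _ _ => rfl, hd]
  simpa using main p hF

end Cfsg.Agent.S2517
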