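import Cfsg.Statements.S2518
import Cfsg.Agent.Known.G2Spec
import Cfsg.Agent.Known.PSL2Basic
import Cfsg.Agent.S1059

set_option autoImplicit false
open Cfsg

namespace Cfsg.Agent.S2518

open Cfsg.Lib.Known Cfsg.Lib.Known.GL2

theorem six_of_dvd {r s n : ℕ} (hr : r.Prime) (hs : s.Prime) (hne : r ≠ s) (h : r * s ∣ n)
    (hn : n ∈ [6, 7, 8, 9, 12, 13]) : r * s = 6 := by
  have key : ∀ n ∈ [6, 7, 8, 9, 12, 13], ∀ r < 14, ∀ s < 14, r.Prime → s.Prime → r ≠ s →
      r * s ∣ n → r * s = 6 := by decide +kernel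
  have h0 : 0 < n ∧ n < 14 := by
    simp only [List.mem_cons, List.not_mem_nil, or_false] at hn; omega
  exact key n hn r ((Nat.le_of_dvd h0.1 ((dvd_mul_right r s).trans h)).trans_lt h0.2) s
    ((Nat.le_of_dvd h0.1 ((dvd_mul_left s r).trans h)).trans_lt h0.2) hr hs hne h

/-- Let F₃ be the field with 3 elements and F₁₃ the field with 13 elements. The Chevalley group G₂(F₃) and PSL(2, F₁₃) have the same prime graph: the same prime divisors of their orders, and for distinct primes r, s an element of order rs in one iff in the other. -/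
theorem result {F : Type*} [Field F] [Fintype F] (hF : Fintype.card F = 3) {E : Type*} [Field E] [Fintype E] (hE : Fintype.card E = 13) :
    ((∀ r : ℕ, r.Prime → (r ∣ Nat.card ↥(Cfsg.Lie.chevG2.group F) ↔ r ∣ Nat.card (Matrix.ProjectiveSpecialLinearGroup (Fin 2) E))) ∧
      (∀ r s : ℕ, r.Prime → s.Prime → r ≠ s → ((∃ x : ↥(Cfsg.Lie.chevG2.group F), orderOf x = r * s) ↔ (∃ y : (Matrix.ProjectiveSpecialLinearGroup (Fin 2) E), orderOf y = r * s)))) := by
  have : Fact (Nat.Prime 3) := ⟨Nat.prime_three⟩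
  have : Fact (Nat.Prime 13) := ⟨by norm_num⟩
  have : CharP F 3 := charP_of_card_eq_prime hF
  have : CharP E 13 := charP_of_card_eq_prime hE
  have h2 : (2 : E) ≠ 0 := fun h =>
    absurd ((CharP.cast_eq_zero_iff E 13 2).1 (by exact_mod_cast h)) (by norm_num)
  refine ⟨fun r hr => ?_, fun r s hr hs hne => ⟨?_, ?_⟩⟩
  · have h1 := two_mul_card_PSL2 h2
    rw [hE] at h1
    rw [S1059.result hF, show Nat.card (PSL2 E) = 2 ^ 2 * 3 * 7 * 13 by omega,
      show 3 ^ 6 * (3 ^ 2 - 1) * (3 ^ 6 - 1) = 2 ^ 6 * 3 ^ 6 * 7 * 13 by norm_num]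
    simp only [hr.dvd_mul, hr.prime.dvd_pow_iff_dvd (show 6 ≠ 0 by norm_num),
      hr.prime.dvd_pow_iff_dvd two_ne_zero]
  · rintro ⟨x, hx⟩
    have h := orderOf_G2_dvd F 3 x
    rw [hx, hF] at h
    have h6 : r * s = 6 := by
      rcases h with h | h | h | h | h | ⟨h, -⟩ | ⟨-, h⟩ <;>
        first | exact six_of_dvd hr hs hne h (by decide) | omega
    have := isCyclic_T_SL (F := E)
    obtain ⟨g, -, hg⟩ := exists_orderOf_piSL_of_dvd (slLin E).Z_le_T (m := 6)
      (by rw [card_T_SL, hE]; decide)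
    exact ⟨_, h6 ▸ hg⟩
  · rintro ⟨y, hy⟩
    have h := orderOf_PSL2_cases 13 y
    rw [hy, hE] at h
    have h6 : r * s = 6 := by
      rcases h with h | h | h
      exacts [six_of_dvd hr hs hne h.dvd (by decide), six_of_dvd hr hs hne h (by decide),
        six_of_dvd hr hs hne h (by decide)]
    rw [h6]
    simpa [hF] using exists_orderOf_G2_mul_sub F 3

end Cfsg.Agent.S2518
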