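import Cfsg.Statements.S2519
import Cfsg.Agent.Known.G2Spec

set_option autoImplicit false
open Cfsg

namespace Cfsg.Agent.S2519

open Cfsg.Lib.Known

theorem antichain {p q : ℕ} (hp : p.Prime) (hp2 : p ≠ 2) (hpq : p ∣ q) (hodd : Odd q) (h5 : 5 ≤ q)
    {n m : ℕ} (hn : n ∈ ({p * (q + 1), p * (q - 1), q ^ 2 - 1, q ^ 2 + q + 1, q ^ 2 - q + 1, p ^ 2} : Set ℕ))
    (hm : m ∈ ({p * (q + 1), p * (q - 1), q ^ 2 - 1, q ^ 2 + q + 1, q ^ 2 - q + 1, p ^ 2} : Set ℕ))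
    (h : n ∣ m) : m = n := by
  have := Fact.mk hp
  have hp0 := hp.pos
  obtain ⟨t, rfl⟩ : ∃ t, q = t + 1 := ⟨q - 1, by omega⟩
  have e1 : (t + 1) ^ 2 - 1 = t * (t + 2) := Nat.sub_eq_of_eq_add (by ring)
  have e2 : (t + 1) ^ 2 - (t + 1) + 1 = t * t + t + 1 := by
    rw [show (t + 1) ^ 2 - (t + 1) = t * t + t from Nat.sub_eq_of_eq_add (by ring)]
  have e3 : (t + 1) ^ 2 + (t + 1) + 1 = t * t + 3 * t + 3 := by ring
  simp only [Nat.add_sub_cancel, e1, e2, e3, add_assoc t 1 1, one_add_one_eq_two] at hn hm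
  have n1 : ¬ p ∣ t := not_dvd_of_eq p hpq (.inl rfl)
  have n2 : ¬ p ∣ t + 2 := not_dvd_of_eq p hpq (.inr rfl)
  have n3 : ¬ p ∣ t * (t + 2) := by rw [hp.dvd_mul]; tauto
  have n4 : ¬ p ∣ t * t + 3 * t + 3 :=
    not_dvd_of_eq p (hpq.mul_right (t + 2)) (.inr (by ring))
  have n5 : ¬ p ∣ t * t + t + 1 := not_dvd_of_eq p (hpq.mul_right t) (.inr (by ring))
  have cp : ∀ {a b : ℕ}, ¬ p ∣ a → a ∣ p * b → a ∣ b := fun ha h =>
    ((Nat.Prime.coprime_iff_not_dvd hp).2 ha).symm.dvd_of_dvd_mul_left h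
  have cp2 : ∀ {a : ℕ}, ¬ p ∣ a → a ∣ p ^ 2 → a = 1 := fun ha h =>
    Nat.dvd_one.1 (cp ha (by rw [mul_one]; exact cp ha (by rwa [← sq])))
  have h4 : 4 ≤ t := by omega
  have h2 : 2 ∣ t := by obtain ⟨k, hk⟩ := hodd; omega
  have h44 : 4 * t ≤ t * t := Nat.mul_le_mul_right t h4
  have e4 : t * (t + 2) = t * t + 2 * t := by ring
  have h22 : 2 ∣ t * t := h2.mul_right t
  rcases hn with rfl | rfl | rfl | rfl | rfl | rfl <;>
    rcases hm with rfl | rfl | rfl | rfl | rfl | rfl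
  all_goals first
    | rfl
    | exact absurd ((dvd_mul_right _ _).trans h) ‹_›
    | exact absurd ((dvd_pow_self p two_ne_zero).trans h) ‹_›
    | (rw [sq] at h; exact absurd (Nat.dvd_of_mul_dvd_mul_left hp0 h) ‹_›)
    | (have := cp2 ‹_› ((dvd_mul_left _ _).trans h); omega)
    | (have := cp2 ‹_› h; omega)
    | (have := Nat.le_of_dvd (by omega) (cp ‹_› h); omega)
    | (have := Nat.le_of_dvd (by omega) h; omega)
    | (have := Nat.le_of_dvd (by omega) (Nat.dvd_of_mul_dvd_mul_left hp0 h); omega)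
    | (have := Nat.le_of_dvd two_pos ((Nat.dvd_add_right dvd_rfl).1
        (Nat.dvd_of_mul_dvd_mul_left hp0 h)); omega)
    | (have := (h2.mul_right _).trans h; omega)
    | (obtain ⟨k, hk⟩ := h
       have : k < 2 := by nlinarith
       interval_cases k <;> omega)

/-- Let F be a finite field of odd order q = p^a ≥ 5. The element orders of the Chevalley group G₂(F) that are maximal under divisibility are exactly p(q + 1), p(q − 1), q² − 1, q² + q + 1, q² − q + 1, together with p² when p is 3 or 5. -/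
theorem result {F : Type*} [Field F] [Fintype F] (p a : ℕ) (hp : p.Prime) (hp2 : p ≠ 2) (ha : 1 ≤ a) (hF : Fintype.card F = p ^ a) (hq5 : 5 ≤ Fintype.card F) :
    {n : ℕ | n ∈ Set.range (orderOf : ↥(Cfsg.Lie.chevG2.group F) → ℕ) ∧ ∀ m ∈ Set.range (orderOf : ↥(Cfsg.Lie.chevG2.group F) → ℕ), n ∣ m → m = n} =
      ({p * (p ^ a + 1), p * (p ^ a - 1), p ^ (2 * a) - 1, p ^ (2 * a) + p ^ a + 1, p ^ (2 * a) - p ^ a + 1} : Set ℕ) ∪
        (if p = 3 ∨ p = 5 then ({p ^ 2} : Set ℕ) else ∅) := by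
  have := Fact.mk hp
  have : CharP F p := charP_of_card_eq_prime_pow hF
  have e : p ^ (2 * a) = Fintype.card F ^ 2 := by rw [hF, ← pow_mul, mul_comm]
  have hodd : Odd (Fintype.card F) := hF ▸ (hp.odd_of_ne_two hp2).pow
  rw [e, ← hF]
  set L := ({p * (Fintype.card F + 1), p * (Fintype.card F - 1), Fintype.card F ^ 2 - 1,
      Fintype.card F ^ 2 + Fintype.card F + 1, Fintype.card F ^ 2 - Fintype.card F + 1} : Set ℕ) ∪
      (if p = 3 ∨ p = 5 then ({p ^ 2} : Set ℕ) else ∅) with hL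
  have h1 : L ⊆ Set.range (orderOf : ↥(Cfsg.Lie.chevG2.group F) → ℕ) := by
    rintro n ((rfl | rfl | rfl | rfl | rfl) | h)
    exacts [exists_orderOf_G2_mul_add F p, exists_orderOf_G2_mul_sub F p, exists_orderOf_G2_sq F p,
      exists_orderOf_G2_plus F p, exists_orderOf_G2_minus F p, by
        split_ifs at h with h'
        exacts [h ▸ exists_orderOf_G2_sq_char F p h', h.elim]]
  have h2 : ∀ g : ↥(Cfsg.Lie.chevG2.group F), ∃ m ∈ L, orderOf g ∣ m := fun g => by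
    rcases orderOf_G2_dvd F p g with h | h | h | h | h | ⟨h, -⟩ | ⟨h', h⟩
    iterate 5 exact ⟨_, .inl (by simp), h⟩
    exacts [absurd h hp2, ⟨_, .inr (by simp [h']), h⟩]
  have h3 : ∀ n ∈ L, n ∈ ({p * (Fintype.card F + 1), p * (Fintype.card F - 1),
      Fintype.card F ^ 2 - 1, Fintype.card F ^ 2 + Fintype.card F + 1,
      Fintype.card F ^ 2 - Fintype.card F + 1, p ^ 2} : Set ℕ) := by
    rintro n ((rfl | rfl | rfl | rfl | rfl) | h)
    iterate 5 simp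
    split_ifs at h
    exacts [by simp [Set.mem_singleton_iff.1 h], h.elim]
  ext n
  constructor
  · rintro ⟨⟨g, rfl⟩, h⟩
    obtain ⟨m, hm, hd⟩ := h2 g
    rwa [← h m (h1 hm) hd]
  · refine fun hn => ⟨h1 hn, ?_⟩
    rintro _ ⟨g, rfl⟩ h
    obtain ⟨m, hm, hd⟩ := h2 g
    obtain rfl := antichain hp hp2 (p_dvd_card F p) hodd hq5 (h3 n hn) (h3 m hm) (h.trans hd)
    exact Nat.dvd_antisymm hd h

end Cfsg.Agent.S2519
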