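import Cfsg.Statements.S2520
import Cfsg.Agent.Known.G2Spec

set_option autoImplicit false
open Cfsg

namespace Cfsg.Agent.S2520

open Cfsg.Lib.Known

/-- Let F be a finite field with q = 2^a ≥ 4 elements and G₂(F) the Chevalley group of type G₂ over it. Every element order of G₂(F) maximal under divisibility lies in the set {8, 12, 2(q + 1), 2(q − 1), q² − 1, q² + q + 1, q² − q + 1}, and every member of that set is an element order of G₂(F). -/
theorem result {F : Type*} [Field F] [Fintype F] (a : ℕ) (ha : 2 ≤ a) (hF : Fintype.card F = 2 ^ a) :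
    {n : ℕ | n ∈ Set.range (orderOf : ↥(Cfsg.Lie.chevG2.group F) → ℕ) ∧ ∀ m ∈ Set.range (orderOf : ↥(Cfsg.Lie.chevG2.group F) → ℕ), n ∣ m → m = n} ⊆ ({8, 12, 2 * (2 ^ a + 1), 2 * (2 ^ a - 1), 2 ^ (2 * a) - 1, 2 ^ (2 * a) + 2 ^ a + 1, 2 ^ (2 * a) - 2 ^ a + 1} : Set ℕ) ∧
    ({8, 12, 2 * (2 ^ a + 1), 2 * (2 ^ a - 1), 2 ^ (2 * a) - 1, 2 ^ (2 * a) + 2 ^ a + 1, 2 ^ (2 * a) - 2 ^ a + 1} : Set ℕ) ⊆ Set.range (orderOf : ↥(Cfsg.Lie.chevG2.group F) → ℕ) := by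
  have : Fact (Nat.Prime 2) := ⟨Nat.prime_two⟩
  have : CharP F 2 := charP_of_card_eq_prime_pow hF
  have e : 2 ^ (2 * a) = Fintype.card F ^ 2 := by rw [hF, ← pow_mul, mul_comm]
  rw [e, ← hF]
  have h2 : ({8, 12, 2 * (Fintype.card F + 1), 2 * (Fintype.card F - 1), Fintype.card F ^ 2 - 1,
      Fintype.card F ^ 2 + Fintype.card F + 1, Fintype.card F ^ 2 - Fintype.card F + 1} : Set ℕ) ⊆
      Set.range (orderOf : ↥(Cfsg.Lie.chevG2.group F) → ℕ) := by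
    rintro n (rfl | rfl | rfl | rfl | rfl | rfl | rfl)
    exacts [exists_orderOf_G2_eight F, exists_orderOf_G2_twelve F, exists_orderOf_G2_mul_add F 2,
      exists_orderOf_G2_mul_sub F 2, exists_orderOf_G2_sq F 2, exists_orderOf_G2_plus F 2,
      exists_orderOf_G2_minus F 2]
  refine ⟨?_, h2⟩
  rintro _ ⟨⟨g, rfl⟩, h⟩
  rcases orderOf_G2_dvd F 2 g with h1 | h1 | h1 | h1 | h1 | ⟨-, h1 | h1⟩ | ⟨h1, -⟩
  all_goals first
    | (rw [← h _ (h2 (by simp)) h1]; simp)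
    | omega

end Cfsg.Agent.S2520
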