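import Cfsg.Statements.S2523
import Cfsg.Agent.Chev.ThCls
import Cfsg.Agent.Chev.ThExc
-- import your own Cfsg.Agent.* helpers here

set_option autoImplicit false
open Cfsg

namespace Cfsg.Agent.S2523

open Cfsg.Lib.Chev Cfsg.Lib.Class Cfsg.Lib.Class.Orth

/-- Let F be a finite field with at least 9 elements and let G be one of PSL(n, F) (n ≥ 2), PSp(2m, F) (m ≥ 2), PΩ(2m+1, F) (m ≥ 3, here q odd), PΩ⁺(2m, F) (m ≥ 4), or the Chevalley group of type G₂, F₄, E₆, E₇ or E₈ over F. Then G is the square of one of its conjugacy classes (Thompson's conjecture on products of conjugacy classes, not his conjecture on class sizes): there is a conjugacy class C of G with C·C = G, i.e. every element of G is a product of two elements of C. -/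
theorem result {F : Type*} [Field F] [Fintype F] (hF : 9 ≤ Fintype.card F) {G : Type*} [Group G] [Finite G]
    (hG : (∃ n : ℕ, 2 ≤ n ∧ Nonempty (G ≃* Matrix.ProjectiveSpecialLinearGroup (Fin n) F)) ∨
      (∃ m : ℕ, 2 ≤ m ∧ Nonempty (G ≃* Cfsg.PSp m F)) ∨
      (∃ m : ℕ, 3 ≤ m ∧ Odd (Fintype.card F) ∧ Nonempty (G ≃* Cfsg.POmega F (Cfsg.quadFormOdd m F))) ∨
      (∃ m : ℕ, 4 ≤ m ∧ Nonempty (G ≃* Cfsg.POmega F (Cfsg.quadFormPlus m F))) ∨
      Nonempty (G ≃* ↥(Cfsg.Lie.chevG2.group F)) ∨ Nonempty (G ≃* ↥(Cfsg.Lie.chevF4.group F)) ∨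
      Nonempty (G ≃* ↥(Cfsg.Lie.chevE6.group F)) ∨ Nonempty (G ≃* ↥(Cfsg.Lie.chevE7.group F)) ∨ Nonempty (G ≃* ↥(Cfsg.Lie.chevE8.group F))) :
    ∃ c : G, ∀ g : G, ∃ x y : G, g = (x * c * x⁻¹) * (y * c * y⁻¹) := by
  have key : ∀ {D : Cfsg.Lie.ChevalleyDatum}, Core.Cert D → RootData D → ThC (D.group F) →
      Nonempty (G ≃* D.group F) → ∃ c : G, ∀ g : G, ∃ x y : G, g = (x * c * x⁻¹) * (y * c * y⁻¹) :=
    fun C R h ⟨e⟩ => h.of_surjective e.symm.toMonoidHom e.symm.surjective fun g hg => by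
      rw [Subgroup.mem_bot.1 ((C.center_eq_bot R).le hg), map_one]
  rcases hG with ⟨n, hn, ⟨e⟩⟩ | ⟨m, hm, ⟨e⟩⟩ | ⟨m, hm, h2, ⟨e⟩⟩ | ⟨m, hm, ⟨e⟩⟩ | h | h | h | h | h
  · obtain ⟨n, rfl⟩ : ∃ k, n = k + 1 := ⟨n - 1, by omega⟩
    exact (thC_SL hF (by omega)).quot e
  · obtain ⟨m, rfl⟩ : ∃ k, m = k + 2 := ⟨m - 2, by omega⟩
    exact (thC_Sp hF m).quot e
  · obtain ⟨m, rfl⟩ : ∃ k, m = k + 2 := ⟨m - 2, by omega⟩
    have h := commutator_eq_EG (quadOdd_nondegenerate (Lib.Chev.two_ne_zero_of_odd_card h2) (m + 2))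
      (not_exc_of_finrank (by simp; omega)) (by simp; omega)
    exact (thC_B hF (by omega) h).pomega h (by rw [coe_quadOdd]; exact e)
  · obtain ⟨m, rfl⟩ : ∃ k, m = k + 2 := ⟨m - 2, by omega⟩
    have h := commutator_eq_EG (quadPlus_nondegenerate (F := F) (m + 2))
      (not_exc_of_finrank (by simp; omega)) (by simp; omega)
    exact (thC_D hF (by omega) h).pomega h (by rw [coe_quadPlus]; exact e)
  exacts [key Core.certG2 rootG2 (thC_G2 hF) h, key Core.certF4 rootF4 (thC_F4 hF) h,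
    key Core.certE6 rootE6 (thC_E6 hF) h, key Core.certE7 rootE7 (thC_E7 hF) h,
    key Core.certE8 rootE8 (thC_E8 hF) h]

end Cfsg.Agent.S2523
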