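import Cfsg.Statements.S2524
import Cfsg.Agent.Known.WeilClass

set_option autoImplicit false
open Cfsg

namespace Cfsg.Agent.S2524

open Cfsg.Lib.Known Cfsg.Lib.Known.WG Cfsg.Lib.Class Cfsg.Lib.Char Module

/-- Let F be a finite field of odd order q and G = Sp(2n, F) with n ≥ 2. Then G has exactly four irreducible complex characters of degree (q^n + 1)/2 or (q^n − 1)/2 (two of each), and every other non-principal irreducible character has degree at least (q^n − 1)(q^n − q)/(2(q + 1)). -/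
theorem result {F : Type*} [Field F] [Fintype F] (hodd : Odd (Fintype.card F)) (n : ℕ) (hn : 2 ≤ n) :
    Nat.card {χ : Cfsg.IrrCharacter ↥(Matrix.symplecticGroup (Fin n) F) // (χ : ↥(Matrix.symplecticGroup (Fin n) F) → ℂ) 1 = (((Fintype.card F) ^ n + 1 : ℕ) : ℂ) / 2} = 2 ∧
    Nat.card {χ : Cfsg.IrrCharacter ↥(Matrix.symplecticGroup (Fin n) F) // (χ : ↥(Matrix.symplecticGroup (Fin n) F) → ℂ) 1 = (((Fintype.card F) ^ n - 1 : ℕ) : ℂ) / 2} = 2 ∧
    ∀ χ : Cfsg.IrrCharacter ↥(Matrix.symplecticGroup (Fin n) F),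
      (χ : ↥(Matrix.symplecticGroup (Fin n) F) → ℂ) 1 ≠ 1 →
      (χ : ↥(Matrix.symplecticGroup (Fin n) F) → ℂ) 1 ≠ (((Fintype.card F) ^ n + 1 : ℕ) : ℂ) / 2 →
      (χ : ↥(Matrix.symplecticGroup (Fin n) F) → ℂ) 1 ≠ (((Fintype.card F) ^ n - 1 : ℕ) : ℂ) / 2 →
      (((Fintype.card F) ^ n - 1 : ℕ) : ℝ) * (((Fintype.card F) ^ n - Fintype.card F : ℕ) : ℝ) / (2 * ((Fintype.card F : ℕ) + 1 : ℝ)) ≤ ‖(χ : ↥(Matrix.symplecticGroup (Fin n) F) → ℂ) 1‖ := by
  classical
  obtain ⟨k, rfl⟩ : ∃ k, n = k + 2 := ⟨n - 2, by omega⟩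
  have h2 : (2 : F) ≠ 0 := two_ne_of_odd hodd
  have hq : 3 ≤ Fintype.card F := by
    have := Fintype.one_lt_card (α := F)
    obtain ⟨m, hm⟩ := hodd
    omega
  let ψ : AddChar F ℂ := AddChar.FiniteField.primitiveChar_to_Complex F
  have hψ : ψ ≠ 1 := by
    have := AddChar.FiniteField.primitiveChar_to_Complex_isPrimitive F one_ne_zero
    rwa [AddChar.mulShift_one] at this
  obtain ⟨δ, hδ⟩ := FiniteField.exists_nonsquare (F := F) (fun h => h2 (by
    have := ringChar.spec F 2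
    rw [h] at this
    exact_mod_cast this.2 dvd_rfl))
  have hδ0 : δ ≠ 0 := by rintro rfl; exact hδ IsSquare.zero
  let e := spEquivSpB (k + 2) F
  set q := Fintype.card F
  set Q := q ^ (k + 2) with hQ
  have hQ1 : 3 * q ≤ Q := by
    calc 3 * q ≤ q * q := Nat.mul_le_mul_right _ hq
      _ = q ^ 2 := (sq q).symm
      _ ≤ Q := Nat.pow_le_pow_right (by omega) (by omega)
  let χ : ∀ d : F, ψ.mulShift d ≠ 1 → ℤˣ →
      Cfsg.IrrCharacter ↥(Matrix.symplecticGroup (Fin (k + 2)) F) := fun d hd ε =>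
    ⟨fun g => (weilPart h2 hd ε).character (e g), by
      have := nontrivial_weilSp h2 hn ε
      have := weilPart_isIrreducible (n := k + 2) h2 hd ε
      exact (isIrrCharacter_rep _).comp_equiv e⟩
  have hdeg : ∀ d hd ε, 2 * (χ d hd ε).1 1 = (Q : ℂ) + ((ε : ℤ) : ℂ) := fun d hd ε => by
    simp only [χ, map_one, Representation.char_one]
    exact_mod_cast two_mul_finrank_weilSp (n := k + 2) h2 ε
  have h1 := mulShift_ne_one hψ one_ne_zero
  have hd := mulShift_ne_one hψ hδ0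
  have tri : ∀ θ : Cfsg.IrrCharacter ↥(Matrix.symplecticGroup (Fin (k + 2)) F),
      ∃ m : ℕ, θ.1 1 = m ∧ (m = 1 ∨ (Q - 1) * (Q - q) ≤ m * (2 * (q + 1)) ∨
        ∃ ε, θ = χ 1 h1 ε ∨ θ = χ δ hd ε) := by
    rintro ⟨_, m, ρ, hρ, rfl⟩
    refine ⟨m, by simp, ?_⟩
    let σ : Representation ℂ (SpG (k + 2) F) (Fin m → ℂ) := MonoidHom.comp ρ e.symm.toMonoidHom
    have hσ : σ.IsIrreducible := by
      rw [isIrreducible_iff] at hρ ⊢
      refine ⟨hρ.1, fun W hW => hρ.2 W fun g v hv => ?_⟩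
      obtain ⟨x, rfl⟩ := e.symm.surjective g
      exact hW x v hv
    have h3 := irr_trichotomy hσ hodd h2 hψ hδ
    rw [finrank_fin_fun] at h3
    refine h3.imp_right (Or.imp_right ?_)
    rintro ⟨d, hd', hd'', ε, h⟩
    have h4 : ∀ g, ρ.character g = (weilPart h2 hd'' ε).character (e g) := fun g => by
      rw [← h]; simp [σ, Representation.character]
    refine ⟨ε, ?_⟩
    rcases hd' with rfl | rfl
    · exact .inl (Subtype.ext (funext h4))
    · exact .inr (Subtype.ext (funext h4))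
  have hcard : ∀ (ε : ℤˣ) (c : ℂ), 2 * c = (Q : ℂ) + ((ε : ℤ) : ℂ) →
      Nat.card {θ : Cfsg.IrrCharacter ↥(Matrix.symplecticGroup (Fin (k + 2)) F) // θ.1 1 = c} = 2 := by
    intro ε c hc
    have h3 : ∀ d hd, (χ d hd ε).1 1 = c := fun d hd =>
      mul_left_cancel₀ two_ne_zero ((hdeg d hd ε).trans hc.symm)
    refine Nat.card_eq_two_iff.2 ⟨⟨_, h3 1 h1⟩, ⟨_, h3 δ hd⟩, fun h => ?_, ?_⟩
    · refine weilPart_character_ne h2 hψ hn hδ h1 hd ε (funext fun g => ?_)
      obtain ⟨x, rfl⟩ := e.surjective g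
      exact congrFun (congrArg (fun θ => θ.1.1) h) x
    · refine Set.eq_univ_of_forall fun ⟨θ, hθ⟩ => ?_
      obtain ⟨m, hm, h4⟩ := tri θ
      have h5 : (2 * m : ℤ) = Q + ε := by
        rw [← hθ, hm] at hc
        exact_mod_cast hc
      rcases h4 with h4 | h4 | ⟨ε', h4⟩
      · exfalso
        rcases Int.units_eq_one_or ε with rfl | rfl <;>
          simp only [Units.val_one, Units.val_neg] at h5 <;> omega
      · exfalso
        have h6 : 2 * m ≤ Q + 1 := by
          rcases Int.units_eq_one_or ε with rfl | rfl <;>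
            simp only [Units.val_one, Units.val_neg] at h5 <;> omega
        obtain ⟨r, hr⟩ : ∃ r, Q = r + 3 * q := ⟨Q - 3 * q, by omega⟩
        rw [show Q - 1 = r + 3 * q - 1 by omega, show Q - q = r + 2 * q by omega] at h4
        obtain ⟨s, hs⟩ : ∃ s, q = s + 3 := ⟨q - 3, by omega⟩
        rw [hr] at h6
        rw [hs] at h4 h6
        rw [show r + 3 * (s + 3) - 1 = r + 3 * s + 8 by omega] at h4
        nlinarith
      · have h6 : ε' = ε := by
          have : ((ε' : ℤ) : ℂ) = ((ε : ℤ) : ℂ) := by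
            rcases h4 with rfl | rfl
            · linear_combination hc + 2 * hθ - hdeg 1 h1 ε'
            · linear_combination hc + 2 * hθ - hdeg δ hd ε'
          exact Units.ext (by exact_mod_cast this)
        subst h6
        rcases h4 with rfl | rfl
        · exact .inl rfl
        · exact .inr rfl
  have hc1 : 2 * (((Q + 1 : ℕ) : ℂ) / 2) = (Q : ℂ) + (((1 : ℤˣ) : ℤ) : ℂ) := by
    push_cast; ring
  have hc2 : 2 * (((Q - 1 : ℕ) : ℂ) / 2) = (Q : ℂ) + (((-1 : ℤˣ) : ℤ) : ℂ) := by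
    rw [Nat.cast_sub (by omega)]; simp; ring
  refine ⟨hcard 1 _ hc1, hcard (-1) _ hc2, fun θ a1 a2 a3 => ?_⟩
  obtain ⟨m, hm, h4⟩ := tri θ
  rcases h4 with h4 | h4 | ⟨ε, h4⟩
  · exact absurd (by rw [hm, h4, Nat.cast_one]) a1
  · rw [hm, Complex.norm_natCast, div_le_iff₀ (by positivity)]
    exact_mod_cast h4
  · exfalso
    have h5 : 2 * θ.1 1 = (Q : ℂ) + ((ε : ℤ) : ℂ) := by
      rcases h4 with rfl | rfl <;> exact hdeg _ _ _
    rcases Int.units_eq_one_or ε with rfl | rfl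
    · exact a2 (mul_left_cancel₀ two_ne_zero (h5.trans hc1.symm))
    · exact a3 (mul_left_cancel₀ two_ne_zero (h5.trans hc2.symm))

end Cfsg.Agent.S2524
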