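import Cfsg.Statements.S2525
import Mathlib
import Cfsg.Agent.Known.F4Prime

set_option autoImplicit false
open Cfsg

namespace Cfsg.Agent.S2525

open Cfsg.Lib.Known.WE

/-- Let F be a finite field with q = 2^n elements and G = F₄(F). For an odd prime r let e(r, q) be the multiplicative order of q modulo r. Two distinct primes r, s dividing the order of G are non-adjacent in the prime graph of G (no element of order rs) if and only if, up to swapping r and s, either r = 2 and e(s, q) ∈ {8, 12}, or r, s are both odd with k = e(r, q) < l = e(s, q) and one of: l ∈ {8, 12}; l = 6 and k ∈ {3, 4}; l = 4 and k = 3. -/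
theorem result {F : Type*} [Field F] [Fintype F] (n : ℕ) (hn : 1 ≤ n) (hF : Fintype.card F = 2 ^ n)
    (r s : ℕ) (hr : r.Prime) (hs : s.Prime) (hrs : r ≠ s) (hrG : r ∣ Nat.card ↥(Cfsg.Lie.chevF4.group F)) (hsG : s ∣ Nat.card ↥(Cfsg.Lie.chevF4.group F)) :
    (¬ ∃ x : ↥(Cfsg.Lie.chevF4.group F), orderOf x = r * s) ↔
      ((r = 2 ∧ orderOf ((Fintype.card F : ℕ) : ZMod s) ∈ ({8, 12} : Finset ℕ)) ∨ (s = 2 ∧ orderOf ((Fintype.card F : ℕ) : ZMod r) ∈ ({8, 12} : Finset ℕ)) ∨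
       (r ≠ 2 ∧ s ≠ 2 ∧
         ((orderOf ((Fintype.card F : ℕ) : ZMod r) < orderOf ((Fintype.card F : ℕ) : ZMod s) ∧ (orderOf ((Fintype.card F : ℕ) : ZMod s) ∈ ({8, 12} : Finset ℕ) ∨ (orderOf ((Fintype.card F : ℕ) : ZMod s) = 6 ∧ orderOf ((Fintype.card F : ℕ) : ZMod r) ∈ ({3, 4} : Finset ℕ)) ∨ (orderOf ((Fintype.card F : ℕ) : ZMod s) = 4 ∧ orderOf ((Fintype.card F : ℕ) : ZMod r) = 3))) ∨
          (orderOf ((Fintype.card F : ℕ) : ZMod s) < orderOf ((Fintype.card F : ℕ) : ZMod r) ∧ (orderOf ((Fintype.card F : ℕ) : ZMod r) ∈ ({8, 12} : Finset ℕ) ∨ (orderOf ((Fintype.card F : ℕ) : ZMod r) = 6 ∧ orderOf ((Fintype.card F : ℕ) : ZMod s) ∈ ({3, 4} : Finset ℕ)) ∨ (orderOf ((Fintype.card F : ℕ) : ZMod r) = 4 ∧ orderOf ((Fintype.card F : ℕ) : ZMod s) = 3)))))) := by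
  have : Fact r.Prime := ⟨hr⟩
  have : Fact s.Prime := ⟨hs⟩
  have : CharP F 2 := by
    obtain ⟨p, hp⟩ := CharP.exists F
    obtain ⟨m, hp', hm⟩ := FiniteField.card F p
    have h : 2 ∣ p ^ (m : ℕ) := by rw [← hm, hF]; exact dvd_pow_self 2 (by omega)
    obtain rfl := (Nat.prime_dvd_prime_iff_eq Nat.prime_two hp').1 (Nat.prime_two.dvd_of_dvd_pow h)
    exact hp
  by_cases h1 : r = 2
  · subst h1
    have h2 := ord_of_dvd_card_F4 2 hrs.symm hsG
    rw [adj_F4_char_iff 2 hrs.symm hrs.symm]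
    simp only [Finset.mem_insert, Finset.mem_singleton] at h2 ⊢
    simp only [true_and, hrs.symm, false_and, ne_eq, not_true_eq_false, or_false]
    omega
  by_cases h2 : s = 2
  · subst h2
    have h2 := ord_of_dvd_card_F4 2 hrs hrG
    rw [mul_comm, adj_F4_char_iff 2 hrs hrs]
    simp only [Finset.mem_insert, Finset.mem_singleton] at h2 ⊢
    simp only [true_and, hrs, false_and, ne_eq, not_true_eq_false, or_false, false_or, and_false]
    omega
  have h3 := ord_of_dvd_card_F4 2 h1 hrG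
  have h4 := ord_of_dvd_card_F4 2 h2 hsG
  rw [adj_F4_iff 2 hrs h1 h2]
  simp only [List.mem_cons, List.not_mem_nil, or_false, exists_eq_or_imp, exists_eq_left, dvd_P3,
    dvd_P1, dvd_P2 h1, dvd_P2 h2, dvd_P4 h1, dvd_P4 h2, dvd_P5 h1 (not_dvd_card 2 h1),
    dvd_P5 h2 (not_dvd_card 2 h2), h1, h2, false_and, false_or, ne_eq, not_false_eq_true, true_and]
  generalize orderOf ((Fintype.card F : ℕ) : ZMod r) = a at *
  generalize orderOf ((Fintype.card F : ℕ) : ZMod s) = b at *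
  revert a b
  decide

end Cfsg.Agent.S2525
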