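import Cfsg.Statements.S2556
import Cfsg.Agent.Known.SzAutG
import Cfsg.Agent.Known.SzCharU

set_option autoImplicit false
open Cfsg

namespace Cfsg.Agent.S2556


/-- Let S be a Sylow 2-subgroup of the Suzuki group Sz(q), q = 2ⁿ with n = 2m + 1 ≥ 3 (realised as 4 × 4 matrices over the field with q elements). Then the largest normal 2-subgroup of the automorphism group of S is elementary abelian of order 2^(n²), and the automorphism group of S has order 2^(n²) · n · (q − 1). -/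
theorem result {S : Type*} [Group S] [Finite S] (m : ℕ) (hm : 1 ≤ m)
    {F : Type*} [Field F] [Fintype F] (hF : Fintype.card F = 2 ^ (2 * m + 1))
    (P : Sylow 2 ↥(Cfsg.Lie.Sz F (2 ^ (m + 1)))) (hS : Nonempty (S ≃* ↥(P : Subgroup ↥(Cfsg.Lie.Sz F (2 ^ (m + 1)))))) :
    Cfsg.IsElementaryAbelian 2 (Cfsg.pCore 2 (MulAut S)) ∧ Nat.card ↥(Cfsg.pCore 2 (MulAut S)) = 2 ^ ((2 * m + 1) ^ 2) ∧
      Nat.card (MulAut S) = 2 ^ ((2 * m + 1) ^ 2) * ((2 * m + 1) * (2 ^ (2 * m + 1) - 1)) := by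
  obtain ⟨e⟩ := hS
  let M := Cfsg.Lib.Chev.lieSzModel hm hF
  obtain ⟨e'⟩ := M.nonempty_sylow_equiv P
  let ε := (e.trans e').symm
  let C : Cfsg.Lib.Known.SzAut.Crd (Cfsg.Lib.Chev.Tw.ofCard hF) S :=
    { e := (Cfsg.Lib.Known.SzChar.pEquiv M).trans ε.toEquiv
      mul := fun a b c d => by
        change ε (Cfsg.Lib.Known.SzChar.tp M a b) * ε (Cfsg.Lib.Known.SzChar.tp M c d)
          = ε (Cfsg.Lib.Known.SzChar.tp M _ _)
        rw [← map_mul, Cfsg.Lib.Known.SzChar.tp_mul] }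
  have h4 : 4 < Fintype.card F := by
    have := M.eight_le_card
    omega
  exact C.main hF h4 ⟨m, rfl⟩

end Cfsg.Agent.S2556
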