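import Cfsg.Statements.S2557
import Mathlib
import Cfsg.Agent.Known.W2Class
import Cfsg.Agent.S2385
import Cfsg.Agent.S2585
import Cfsg.Agent.Known.Cov2Dye

set_option autoImplicit false
open Cfsg

namespace Cfsg.Agent.S2557

open Cfsg.Lib.Known Cfsg.Lib.Class

/-- The number of conjugacy classes of Sp(2n,q), q even: for F a finite field of even order q and n ≥ 1, the number k of conjugacy classes of Sp(2n,F) satisfies q^n ≤ k ≤ 15.2·q^n. -/
theorem result {F : Type*} [Field F] [Fintype F] (heven : Even (Fintype.card F)) (n : ℕ) (hn : 1 ≤ n) :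
    Fintype.card F ^ n ≤ Nat.card (ConjClasses (Matrix.symplecticGroup (Fin n) F)) ∧
      5 * Nat.card (ConjClasses (Matrix.symplecticGroup (Fin n) F)) ≤ 76 * Fintype.card F ^ n := by
  have : CharP F 2 := charP_two_of_not_odd (Nat.not_odd_iff_even.mpr heven)
  choose Q h1 h2 using fun C : ConjClasses (Matrix.symplecticGroup (Fin n) F) =>
    S2585.result C.out
  obtain ⟨hfin, h⟩ := W2.card_le_symp CharTwo.two_eq_zero (sympBilin_nondegenerate n)
    (fun C : ConjClasses (Matrix.symplecticGroup (Fin n) F) =>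
      Matrix.toLin' (C.out : Matrix (Fin n ⊕ Fin n) (Fin n ⊕ Fin n) F)) Q
    (fun C u v => (h1 C u v).trans (sympBilin_apply _ u v).symm) h2 (fun C C' h => by
      rw [← C.out_eq, ← C'.out_eq]
      exact Quotient.sound (Sp_isConj_iff_exists.mpr h)) (n := n) (by simp [two_mul])
  refine ⟨?_, Nat.card_eq_fintype_card (α := F) ▸ h⟩
  rw [← S2385.result rfl 2 n]
  exact Finite.card_subtype_le _

end Cfsg.Agent.S2557
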