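import Cfsg.Statements.S2559
import Mathlib
import Cfsg.Agent.Known.W2Lower
import Cfsg.Agent.S2558

set_option autoImplicit false
open Cfsg

namespace Cfsg.Agent.S2559

open Cfsg.Lib.Known Cfsg.Lib.Class

/-- The number of conjugacy classes of the full orthogonal groups O⁺(2n,q) and O⁻(2n,q), q even, 2n ≥ 4: for F a finite field of even order q and n ≥ 2, the number k of conjugacy classes of the isometry group of the hyperbolic quadratic form Σ xᵢyᵢ on F^{2n}, and likewise of the elliptic form Σ xᵢyᵢ + (z₁² + a z₁z₂ + b z₂²) with anisotropic binary part, satisfies q^n/2 ≤ k ≤ 15·q^n. -/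
theorem result {F : Type*} [Field F] [Fintype F] (heven : Even (Fintype.card F)) (n : ℕ) (hn : 2 ≤ n) (a b : F) (hab : ∀ z₁ z₂ : F, z₁ ^ 2 + a * z₁ * z₂ + b * z₂ ^ 2 = 0 → z₁ = 0 ∧ z₂ = 0) :
    (Fintype.card F ^ n ≤ 2 * Nat.card (ConjClasses ↥(Cfsg.isometryGroup F (Cfsg.quadFormPlus n F))) ∧
      Nat.card (ConjClasses ↥(Cfsg.isometryGroup F (Cfsg.quadFormPlus n F))) ≤ 15 * Fintype.card F ^ n) ∧
    (Fintype.card F ^ n ≤ 2 * Nat.card (ConjClasses ↥(Cfsg.isometryGroup F (Cfsg.quadFormMinus (n - 1) F a b))) ∧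
      Nat.card (ConjClasses ↥(Cfsg.isometryGroup F (Cfsg.quadFormMinus (n - 1) F a b))) ≤ 15 * Fintype.card F ^ n) := by
  have : CharP F 2 := charP_two_of_not_odd (Nat.not_odd_iff_even.mpr heven)
  rw [← coe_quadPlus, ← coe_quadMinus, S2558.card_congr (oEquivIsom _),
    S2558.card_congr (oEquivIsom _)]
  exact ⟨W2.card_conjClasses_O (quadPlus_nondegenerate n) hn (by simp [two_mul]),
    W2.card_conjClasses_O (quadMinus_nondegenerate (n - 1) hab) hn (by simp; omega)⟩

end Cfsg.Agent.S2559
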