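import Cfsg.Statements.S2560
import Mathlib
import Cfsg.Agent.Known.OmegaClass

set_option autoImplicit false
open Cfsg

namespace Cfsg.Agent.S2560

open Cfsg.Lib.Known Cfsg.Lib.Class

/-- The number of conjugacy classes of Ω(2n+1,q), q odd, n ≥ 2: for F a finite field of odd order q, the number k of conjugacy classes of the commutator subgroup of the isometry group of the quadratic form x₀² + Σ xᵢyᵢ on F^{2n+1} satisfies q^n/2 ≤ k ≤ 7.3·q^n. -/
theorem result {F : Type*} [Field F] [Fintype F] (hodd : Odd (Fintype.card F)) (n : ℕ) (hn : 2 ≤ n) :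
    Fintype.card F ^ n ≤ 2 * Nat.card (ConjClasses ↥(Cfsg.Omega F (Cfsg.quadFormOdd n F))) ∧
      10 * Nat.card (ConjClasses ↥(Cfsg.Omega F (Cfsg.quadFormOdd n F))) ≤ 73 * Fintype.card F ^ n := by
  rw [← coe_quadOdd, card_conjClasses_mulEquiv (Orth.omegaEquiv _)]
  exact card_conjClasses_Omega_odd hodd (quadOdd_nondegenerate (two_ne_zero_of_odd hodd) n) hn
    (by simp; omega)

end Cfsg.Agent.S2560
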