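import Cfsg.Statements.S2594
import Cfsg.Agent.Known.InvTwoCard
import Cfsg.Agent.S2680

set_option autoImplicit false
open Cfsg

namespace Cfsg.Agent.S2594

open Cfsg.Lib.Known Cfsg.Lib.Class Cfsg.Lib.Class.Orth QuadraticMap Module

/-- Over a finite field with q elements, q even, an element t of Sp_2m(F) with rank(t − 1) = 1 (a symplectic transvection) has centraliser in Sp_2m(F) of order q^(2m−1) · |Sp_(2m−2)(q)| = q^(2m−1) · q^((m−1)²) · Π_(i=1)^(m−1) (q^(2i) − 1). -/
theorem result {F : Type*} [Field F] [Fintype F] [CharP F 2] {q : ℕ} (hF : Fintype.card F = q) {m : ℕ} (hm : 1 ≤ m) (t : Matrix.symplecticGroup (Fin m) F) (ht : ((t : Matrix (Fin m ⊕ Fin m) (Fin m ⊕ Fin m) F) - 1).rank = 1) : Nat.card ↥(Subgroup.centralizer ({t} : Set ↥(Matrix.symplecticGroup (Fin m) F))) = q ^ (2 * m - 1) * (q ^ ((m - 1) ^ 2) * ∏ i : Fin (m - 1), (q ^ (2 * ((i : ℕ) + 1)) - 1)) := by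
  have hB := sympBilin_nondegenerate (F := F) m
  have hA := sympBilin_isAlt (F := F) m
  have ht2 : t ^ 2 = 1 := by
    apply (spEquivSpB m F).injective
    rw [map_pow, map_one, pow_two]
    rw [rank_sub_one (spEquivSpB_apply m t)] at ht
    set g := spEquivSpB m F t
    obtain ⟨w, hw0, hw⟩ := exists_eq_span_of_finrank_eq_one ht
    have h1 : ∀ v, ∃ a : F, a • w = g.1 v - v := fun v =>
      Submodule.mem_span_singleton.1 (hw ▸ ⟨v, rfl⟩)
    have h2 : g.1 w = w := by
      obtain ⟨a, ha⟩ := h1 w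
      obtain ⟨y, hy⟩ := exists_alt_eq_one hB hw0
      obtain ⟨b, hb⟩ := h1 y
      have := mem_SpB.1 g.2 w y
      rw [eq_add_of_sub_eq ha.symm, eq_add_of_sub_eq hb.symm] at this
      simp only [map_add, map_smul, LinearMap.add_apply, LinearMap.smul_apply, hA w, hy,
        smul_eq_mul] at this
      have ha0 : a = 0 := by linear_combination this
      rw [ha0, zero_smul] at ha
      exact sub_eq_zero.1 ha.symm
    refine Subtype.ext (LinearEquiv.ext fun v => ?_)
    obtain ⟨a, ha⟩ := h1 v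
    change g.1 (g.1 v) = v
    have h3 := eq_add_of_sub_eq ha.symm
    rw [h3, map_add, map_smul, h2, h3, ← add_assoc, add_self_two F, zero_add]
  rw [Cfsg.Agent.S2680.result hF t ht2 ht odd_one]
  simp

end Cfsg.Agent.S2594
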