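import Cfsg.Statements.S2648
import Mathlib
import Cfsg.Agent.Known.SylHomo
import Cfsg.Agent.Solv.PLinearDL
import Cfsg.Agent.Char.SylEALin
import Cfsg.Agent.S0244

set_option autoImplicit false
open Cfsg

namespace Cfsg.Agent.S2648

open Cfsg.Lib.Known Cfsg.Lib.Known.SylH Cfsg.Lib.Solv Cfsg.Lib.Solv.PLin Cfsg.Lib.Class Module

theorem emb_wreath {F : Type*} [Field F] {A Q : Type*} [Group A] [Group Q] [Fintype Q] {k : ℕ}
    (hk : 0 < k) (h : Emb A (Matrix.symplecticGroup (Fin k) F)) :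
    Emb (A ≀ᵣ Q) (Matrix.symplecticGroup (Fin (Fintype.card Q * k)) F) := by
  classical
  obtain ⟨φ, hφ⟩ := h
  have : Nonempty (Fin k) := ⟨⟨0, hk⟩⟩
  let B : LinearMap.BilinForm F (Q → Fin k ⊕ Fin k → F) :=
    ∑ x : Q, (sympBilin k F).comp (LinearMap.proj x) (LinearMap.proj x)
  have hB : ∀ u v, B u v = ∑ x, sympBilin k F (u x) (v x) := fun u v => by
    simp [B, LinearMap.sum_apply]
  have hA : B.IsAlt := fun u => by
    rw [hB]; exact Finset.sum_eq_zero fun x _ => (sympBilin_isAlt k).self_eq_zero _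
  have hsep : ∀ u, (∀ v, B u v = 0) → u = 0 := fun u hu => funext fun x =>
    (sympBilin_nondegenerate k).1 _ fun y => by
      have := hu (Pi.single x y)
      rwa [hB, Finset.sum_eq_single x (fun z _ hz => by rw [Pi.single_eq_of_ne hz, map_zero]) (by simp), Pi.single_eq_same]
        at this
  have hN : B.Nondegenerate := ⟨hsep, fun y hy => hsep y fun x => by
    rw [← hA.neg_eq, hy, neg_zero]⟩
  obtain ⟨e⟩ := nonempty_SpB_equiv_symplecticGroup hN hA (m := Fintype.card Q * k) (by
    rw [finrank_pi_fintype, Finset.sum_const, finrank_symp_space, Finset.card_univ, smul_eq_mul]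
    ring)
  refine Emb.trans ?_ (Emb.of_equiv e)
  let ρ : Representation F A (Fin k ⊕ Fin k → F) :=
    (Matrix.toLinAlgEquiv' (R := F) (n := Fin k ⊕ Fin k)).toMulEquiv.toMonoidHom.comp
      ((Submonoid.subtype _).comp φ)
  have hρ : Function.Injective ρ := (Matrix.toLinAlgEquiv' (R := F)).injective.comp
    (Subtype.val_injective.comp hφ)
  let ψ := (LinearMap.GeneralLinearGroup.generalLinearEquiv F _).toMonoidHom.comp
    (wreathRep (Q := Q) ρ).toHomUnits
  refine ⟨ψ.codRestrict (SpB B) fun w => mem_SpB.2 fun u v => ?_, fun w w' h =>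
    wreathRep_injective ρ hρ (LinearMap.ext fun v => congrArg (fun z : SpB B => z.1 v) h)⟩
  rw [hB, hB, ← Equiv.sum_comp (Equiv.mulLeft w.right⁻¹) fun x => sympBilin k F (u x) (v x)]
  exact Finset.sum_congr rfl fun x _ => mem_SpB.1 (spEquivSpB k F (φ (w.left x))).2 _ _

universe u

open scoped commutatorElement

theorem emb_SL2 {F : Type*} [Field F] :
    Emb (Matrix.SpecialLinearGroup (Fin 2) F) (Matrix.symplecticGroup (Fin 1) F) := by
  let e : Fin 2 ≃ Fin 1 ⊕ Fin 1 := (finSumFinEquiv (m := 1) (n := 1)).symm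
  let φ : Matrix.SpecialLinearGroup (Fin 2) F →* Matrix (Fin 1 ⊕ Fin 1) (Fin 1 ⊕ Fin 1) F :=
    (Matrix.reindexAlgEquiv F F e).toMonoidHom.comp Matrix.SpecialLinearGroup.coeMonoidHom
  exact ⟨φ.codRestrict (Matrix.symplecticGroup (Fin 1) F) fun g => (Cfsg.Agent.S0244.result _).2
    ((Matrix.det_reindex_self e _).trans g.2), fun x y h =>
      Subtype.ext ((Matrix.reindexAlgEquiv F F e).injective (Subtype.mk.inj h))⟩

theorem exists_emb {F : Type u} [Field F] [Fintype F] (hF : Odd (Fintype.card F)) (k : ℕ) :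
    ∃ (A : Type u) (_ : Group A) (_ : Finite A), IsPGroup 2 A ∧ derivedSeries A (k + 1) ≠ ⊥ ∧
      Emb A (Matrix.symplecticGroup (Fin (2 ^ k)) F) := by
  induction k with
  | zero =>
    have h2 := two_ne_zero_of_odd_card hF
    obtain ⟨P⟩ : Nonempty (Sylow 2 (Matrix.SpecialLinearGroup (Fin 2) F)) := inferInstance
    obtain ⟨i, j, h⟩ := GL2.exists_syl2Data h2 P
    refine ⟨P.1, inferInstance, inferInstance, P.isPGroup', fun hb => ?_,
      (Emb.subgroup _).trans emb_SL2⟩
    have h3 : ⁅(⟨j, h.j_mem⟩ : P.1), (⟨i, h.i_mem⟩ : P.1)⁆ ∈ derivedSeries P.1 (0 + 1) :=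
      Subgroup.commutator_mem_commutator trivial trivial
    rw [hb, Subgroup.mem_bot, commutatorElement_eq_one_iff_mul_comm] at h3
    exact h.j_not_mem (Subgroup.mem_centralizer_singleton_iff.2 (congrArg Subtype.val h3))
  | succ k ih =>
    obtain ⟨A, _, _, hA, hd, he⟩ := ih
    refine ⟨A ≀ᵣ Multiplicative (ZMod 2), inferInstance, inferInstance, ?_,
      derivedSeries_wreath_ne_bot hd, ?_⟩
    · obtain ⟨n, hn⟩ := hA.exists_card_eq
      refine IsPGroup.of_card (n := n * 2 + 1) ?_
      rw [RegularWreathProduct.card, hn, Nat.card_congr Multiplicative.toAdd, Nat.card_zmod,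
        pow_succ 2, pow_mul]
    · have := emb_wreath (Q := Multiplicative (ZMod 2)) (by positivity) he
      rwa [Fintype.card_multiplicative, ZMod.card, ← pow_succ'] at this

/-- Let q be odd, F a field with q elements and n ≥ 1. A Sylow 2-subgroup R of the symplectic group Sp_{2n}(F) has derived length exactly k + 1, where 2^k ≤ 2n < 2^{k+1}: the (k+1)-st term of its derived series is trivial and the k-th is not. -/
theorem result {F : Type*} [Field F] [Fintype F] [DecidableEq F] (q : ℕ) (hF : Fintype.card F = q) (hq : Odd q) (n : ℕ) (hn : 1 ≤ n) (R : Sylow 2 ↥(Matrix.symplecticGroup (Fin n) F)) : derivedSeries ↥(R : Subgroup ↥(Matrix.symplecticGroup (Fin n) F)) (Nat.log 2 (2 * n) + 1) = ⊥ ∧ derivedSeries ↥(R : Subgroup ↥(Matrix.symplecticGroup (Fin n) F)) (Nat.log 2 (2 * n)) ≠ ⊥ := by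
  subst hF
  constructor
  · obtain ⟨φ, hφ⟩ := (Emb.subgroup R.1).trans (emb_sp_gl n)
    refine derivedSeries_eq_bot_of_injective (MonoidHom.ofInjective hφ).toMonoidHom
      (MonoidHom.ofInjective hφ).injective (derivedSeries_eq_bot_GL (p := 2)
        hq.not_two_dvd_nat ?_ _ (R.isPGroup'.of_equiv (MonoidHom.ofInjective hφ)))
    rw [(ZMod.natCast_eq_one_iff_odd).2 hq, orderOf_one, one_mul]
    exact Nat.lt_pow_succ_log_self one_lt_two _
  · obtain ⟨A, _, _, hA, hd, he⟩ := exists_emb hq (Nat.log 2 n)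
    obtain ⟨c, hc⟩ := Nat.exists_eq_add_of_le (Nat.pow_log_le_self 2 (show n ≠ 0 by omega))
    obtain ⟨φ, hφ⟩ : Emb A (Matrix.symplecticGroup (Fin n) F) := by
      have := (he.trans ⟨MonoidHom.inl _ _, fun _ _ h => (Prod.mk.inj h).1⟩).trans (emb_sp_prod (F := F) _ c)
      rwa [← hc] at this
    rw [mul_comm, Nat.log_mul_base one_lt_two (by omega)]
    intro h
    refine hd (derivedSeries_eq_bot_of_surjective (MonoidHom.ofInjective hφ).symm.toMonoidHom
      (MonoidHom.ofInjective hφ).symm.surjective (derivedSeries_eq_bot_of_isPGroup (p := 2)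
        (fun Q => ?_) (hA.of_equiv (MonoidHom.ofInjective hφ))))
    exact derivedSeries_eq_bot_of_surjective (R.equiv Q).toMonoidHom (R.equiv Q).surjective h

end Cfsg.Agent.S2648
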