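import Cfsg.Statements.S2897
import Cfsg.Agent.Local.CharPLocal

set_option autoImplicit false
open Cfsg

namespace Cfsg.Agent.S2897

open Cfsg.Lib.Local

/-- Let p be a prime dividing the order of the finite group G, suppose G has parabolic characteristic p, let S be a Sylow p-subgroup of G and G₁ a normal subgroup of G. If Ω₁(Z(S ∩ G₁)) is nontrivial and contained in Ω₁(Z(S)), then G₁ has parabolic characteristic p. -/
theorem result {G : Type*} [Group G] [Finite G] {p : ℕ} [Fact p.Prime] (hdiv : p ∣ Nat.card G) (hG : Cfsg.IsOfParabolicCharacteristic p G) (S : Sylow p G) (G₁ : Subgroup G) [G₁.Normal] (hne : Cfsg.omegaOne p (((S : Subgroup G) ⊓ G₁) ⊓ Subgroup.centralizer (((S : Subgroup G) ⊓ G₁ : Subgroup G) : Set G)) ≠ ⊥) (hle : Cfsg.omegaOne p (((S : Subgroup G) ⊓ G₁) ⊓ Subgroup.centralizer (((S : Subgroup G) ⊓ G₁ : Subgroup G) : Set G)) ≤ Cfsg.omegaOne p ((S : Subgroup G) ⊓ Subgroup.centralizer ((S : Subgroup G) : Set G))) : Cfsg.IsOfParabolicCharacteristic p ↥G₁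 := by
  have hS := Cfsg.Lib.Trans.isSylowIn_inf_of_normal S G₁
  rw [isOfParabolicCharacteristic_iff hS.toSylow]
  rw [isOfParabolicCharacteristic_iff S] at hG
  intro z hz hzo hzc
  rw [hS.coe_toSylow] at hz hzc
  have h1 := mem_omegaOne_center_iff.mp (hle (mem_omegaOne_center_iff.mpr
    ⟨hz, fun s hs => congrArg Subtype.val (hzc ⟨s, hs.2⟩ hs), by
      rw [← hzo]; exact congrArg Subtype.val (pow_orderOf_eq_one z)⟩))
  have h2 := hG z h1.1 (by rw [Subgroup.orderOf_coe, hzo]) h1.2.1
  have h3 : CharP p (G₁ ⊓ Subgroup.centralizer ({(z : G)} : Set G)) :=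
    h2.of_normal inf_le_right (Cfsg.Lib.Solv.le_normalizer_inf Subgroup.le_normalizer_of_normal
      Subgroup.le_normalizer)
  rw [← charP_subgroupOf_iff inf_le_left] at h3
  convert h3 using 1
  ext x
  simp [Subgroup.mem_centralizer_singleton_iff, Subgroup.mem_subgroupOf, Subtype.ext_iff]

end Cfsg.Agent.S2897
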