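import Cfsg.Statements.S2898
import Cfsg.Agent.Local.CharPLocal
import Cfsg.Agent.Local.StronglyEmb
import Cfsg.Agent.Solv.PGroupBasic

set_option autoImplicit false
open Cfsg

namespace Cfsg.Agent.S2898

open Cfsg.Lib Cfsg.Lib.Local Cfsg.Lib.Trans

/-- Let G be a finite group of even order with parabolic characteristic 2. If the centre of G ⧸ O(G) is trivial, then O(G) = 1. -/
theorem result {G : Type*} [Group G] [Finite G] (h2 : 2 ∣ Nat.card G) (hG : Cfsg.IsOfParabolicCharacteristic 2 G) [hN : (Cfsg.oddCore G).Normal] (hZ : Subgroup.center (G ⧸ Cfsg.oddCore G) = ⊥) : Cfsg.oddCore G = ⊥ := by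
  classical
  haveI : Fact (Nat.Prime 2) := ⟨Nat.prime_two⟩
  obtain ⟨S⟩ : Nonempty (Sylow 2 G) := inferInstance
  rw [isOfParabolicCharacteristic_iff S] at hG
  set O := Cfsg.oddCore G with hO
  have hOodd : (Nat.card O).Coprime 2 := Solv.coprime_card_pPrimeCore 2 G
  -- central involutions of `S` act without fixed points on `O`
  have hfpf : ∀ z ∈ (S : Subgroup G), orderOf z = 2 → (∀ s ∈ (S : Subgroup G), s * z = z * s) →
      O ⊓ Subgroup.centralizer ({z} : Set G) = ⊥ := by
    intro z hz hz2 hzc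
    have hc := hG z hz hz2 hzc
    set C := Subgroup.centralizer ({z} : Set G)
    rw [Cfsg.Lib.Local.charP_iff] at hc
    have h1 := Solv.pPrimeCore_eq_bot_of_centralizer_le hc
    have h2 := Solv.pPrimeCore_inf_le_map (p := 2) C
    rw [h1, Subgroup.map_bot] at h2
    exact le_bot_iff.1 h2
  have hSb : (S : Subgroup G) ≠ ⊥ := by
    intro e
    have := (isSylowIn_top S).eq_bot_iff.1 e
    exact this (by simpa using h2)
  obtain ⟨z, hz, hz2, hzc⟩ := exists_central_orderOf_eq S.isPGroup' hSb
  have hzz : z * z = 1 := by rw [← pow_two, ← hz2, pow_orderOf_eq_one]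
  have hinv : ∀ o ∈ O, z * o * z⁻¹ = o⁻¹ := by
    intro o ho
    have hf : MonoidHom.FixedPointFree (MulAut.conjNormal z : MulAut O) := by
      intro g hg
      have h3 : (g : G) ∈ O ⊓ Subgroup.centralizer ({z} : Set G) := by
        refine Subgroup.mem_inf.2 ⟨g.2, ?_⟩
        rw [Subgroup.mem_centralizer_singleton_iff]
        have := congrArg Subtype.val hg
        simp only [MulAut.conjNormal_apply] at this
        exact (mul_inv_eq_iff_eq_mul.1 this).symm
      rw [hfpf z hz hz2 (fun s hs => (hzc s hs).symm), Subgroup.mem_bot] at h3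
      exact Subtype.ext h3
    have hi : Function.Involutive (MulAut.conjNormal z : MulAut O) := by
      intro g
      apply Subtype.ext
      simp only [MulAut.conjNormal_apply]
      have : z⁻¹ = z := inv_eq_of_mul_eq_one_right hzz
      calc z * (z * g * z⁻¹) * z⁻¹ = (z * z) * g * (z * z)⁻¹ := by group
        _ = g := by rw [hzz]; group
    have := congrFun (hf.coe_eq_inv_of_involutive hi) ⟨o, ho⟩
    simpa using congrArg Subtype.val this
  set D := Subgroup.centralizer (O : Set G) with hD
  haveI : D.Normal := inferInstance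
  by_cases hDe : 2 ∣ Nat.card D
  · have hSD := isSylowIn_inf_of_normal S D
    have hne : (S : Subgroup G) ⊓ D ≠ ⊥ := fun e => hSD.eq_bot_iff.1 e hDe
    have hnil : Group.IsNilpotent (S : Subgroup G) := S.isPGroup'.isNilpotent
    have h4 := Solv.PG.inf_centralizer_ne_bot_of_isNilpotent hnil (N := (S : Subgroup G) ⊓ D) inf_le_left
      (Solv.PG.le_normalizer_inf Subgroup.le_normalizer Subgroup.le_normalizer_of_normal) hne
    obtain ⟨w, hw, hw2⟩ := exists_orderOf_eq_of_isPGroup (p := 2)
      (S.isPGroup'.to_le (inf_le_left.trans inf_le_left)) h4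
    have h5 := hfpf w hw.1.1 hw2 (fun s hs => hw.2 s hs)
    rw [← h5]
    refine le_antisymm (le_inf le_rfl ?_) inf_le_left
    intro o ho
    rw [Subgroup.mem_centralizer_singleton_iff]
    exact hw.1.2 o ho
  · exfalso
    have hDO : D ≤ O := Solv.le_pPrimeCore inferInstance
      ((Nat.coprime_comm.1 ((Nat.Prime.coprime_iff_not_dvd Nat.prime_two).2 hDe)))
    have hzZ : (QuotientGroup.mk z : G ⧸ O) ∈ Subgroup.center (G ⧸ O) := by
      rw [Subgroup.mem_center_iff]
      intro g
      obtain ⟨g, rfl⟩ := QuotientGroup.mk_surjective g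
      rw [← QuotientGroup.mk_mul, ← QuotientGroup.mk_mul, QuotientGroup.eq]
      apply hDO
      rw [hD, Subgroup.mem_centralizer_iff]
      intro o ho
      have e1 := hinv o ho
      have e3 := hinv (g * o * g⁻¹) (hN.conj_mem _ ho g)
      have e5 : (g * z)⁻¹ * (z * g) * o * ((g * z)⁻¹ * (z * g))⁻¹ = o := by
        calc (g * z)⁻¹ * (z * g) * o * ((g * z)⁻¹ * (z * g))⁻¹
            = z⁻¹ * g⁻¹ * (z * (g * o * g⁻¹) * z⁻¹) * g * z := by group
          _ = z⁻¹ * o⁻¹ * z := by rw [e3]; group
          _ = o := by rw [← e1]; group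
      exact (mul_inv_eq_iff_eq_mul.1 e5).symm
    rw [hZ, Subgroup.mem_bot, QuotientGroup.eq_one_iff] at hzZ
    have := Subgroup.orderOf_dvd_natCard O hzZ
    rw [hz2] at this
    exact (Nat.Prime.coprime_iff_not_dvd Nat.prime_two).1 hOodd.symm this

end Cfsg.Agent.S2898
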