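import Cfsg.Statements.S2905
import Cfsg.Agent.Local.FStarP
import Cfsg.Agent.Solv.Nilpotent

set_option autoImplicit false
open Cfsg

namespace Cfsg.Agent.S2905

open Cfsg.Lib.Local (resOf CharP charP_iff charP_top_iff)
open Cfsg.Lib.Local.MSS Cfsg.Lib.Solv Cfsg.Lib.Trans Cfsg.Lib.Trans.TJ Subgroup
open scoped commutatorElement

/-- Let P be a finite p-minimal group (a Sylow p-subgroup S is not normal and lies in a unique maximal subgroup M of P) and let F be the normal core of M. Then: every subnormal subgroup N of P contained in M satisfies N ∩ S ≤ O_p(P); if O^p(P) has a normal Sylow p-subgroup then the order of P has at most two prime divisors; every normal subgroup N of P either contains O^p(P) or is contained in F; and O^p(P)F ⧸ F is a minimal normal subgroup of P ⧸ F. -/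
theorem result {P : Type*} [Group P] [Finite P] {p : ℕ} [Fact p.Prime] (hP : Cfsg.IsPMinimal p P) (S : Sylow p P) (M : Subgroup P) (hM : IsCoatom M) (hSM : (S : Subgroup P) ≤ M) [hF : M.normalCore.Normal] : (∀ N : Subgroup P, N.IsSubnormal → N ≤ M → N ⊓ (S : Subgroup P) ≤ Cfsg.pCore p P) ∧ ((∀ T : Sylow p ↥(Cfsg.pResidual p P), (T : Subgroup ↥(Cfsg.pResidual p P)).Normal) → (Nat.card P).primeFactors.card ≤ 2) ∧ (∀ N : Subgroup P, N.Normal → Cfsg.pResidual p P ≤ N ∨ N ≤ M.normalCore) ∧ (∀ N : Subgroup P, N.Normal → M.normalCore ≤ N → N ≤ Cfsg.pResidual p P ⊔ M.normalCore → N = M.normalCore ∨ N = Cfsg.pResidual p P ⊔ M.normalCore) ∧ M.normalCore < Cfsg.pResidual p P ⊔ M.normalCore := by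
  have hS := isSylowIn_top S
  have h := uniqMax_of_existsUnique (hP S).2 hM hSM
  have h3 : ∀ N : Subgroup P, N.Normal → Cfsg.pResidual p P ≤ N ∨ N ≤ M.normalCore := by
    intro N hN
    rw [← resOf_top]
    exact (h.resOf_le_or hS le_top (top_le_normalizer N _)).imp id
      fun h1 => normal_le_normalCore.2 h1.1
  have h5 : ¬ Cfsg.pResidual p P ≤ M := fun h1 =>
    h.not_le (le_of_resOf_le_of_isSylowIn hS (resOf_top.le.trans h1) hSM)
  refine ⟨fun N hN hNM => ?_, fun hc => ?_, h3, fun N hN h1 h2 => ?_,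
    lt_of_le_not_ge le_sup_right fun h1 => h5 ((le_sup_left.trans h1).trans (normalCore_le M))⟩
  · obtain ⟨D, h1, h2, h4, h6⟩ := conj_le_or_normalizer_not_le hN hNM
    have h7 : ⊤ ≤ normalizer (D : Set P) := by
      rcases h6 with h6 | h6
      · exact top_le_normalizer _ _
      · exact (h.eq_of_not_le (hSM.trans h4) le_top h6).ge
    rw [← pCoreOf_top, inf_comm]
    exact (inf_le_inf_left _ h1).trans (h.inf_le_pCoreOf hS h2 h7)
  · set R := Cfsg.pResidual p P with hR
    set Q := Cfsg.pCoreOf p R with hQ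
    have hQn : Q.Normal := pCoreOf_normal R
    have hQS : IsSylowIn p Q R := by
      have h1 := hS.inf_normal_of_le (top_le_normalizer R _) le_top
      rwa [← pCoreOf_eq_of_isSylowIn h1 ((isPClosed_iff_of_isSylowIn h1).1 hc)] at h1
    have hQS' : Q ≤ S := hS.le_of_normal hQS.isPGroup le_top (top_le_normalizer _ _)
    by_contra hcard
    refine h5 (le_of_forall_exists_sylow_le fun q _ _ => ?_)
    by_cases hqp : q = p
    · subst hqp
      exact ⟨hQS.toSylow, hQS.map_toSylow.le.trans (hQS'.trans hSM)⟩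
    obtain ⟨U, hU⟩ := exists_isSylowIn (p := q) R
    have h1 : (normalizer (U : Set P) ⊔ Q) ⊔ R = ⊤ := by
      have := le_sup_of_isSylowIn hU (top_le_normalizer R ⊤) le_top
      rw [top_inf_eq, sup_comm] at this
      exact top_le_iff.1 (this.trans (sup_le_sup_right le_sup_left _))
    have h2 : ¬ p ∣ (normalizer (U : Set P) ⊔ Q).relIndex ⊤ := by
      rw [relIndex_top_right, index_eq_relIndex_of_sup_eq_top h1]
      exact hQS.not_dvd_relIndex_of_le le_sup_right
    obtain ⟨T, hT⟩ := exists_isSylowIn (p := p) (normalizer (U : Set P) ⊔ Q)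
    obtain ⟨x, -, hx⟩ := hS.exists_cj_eq (hT.trans le_top h2)
    have hU' : IsSylowIn q (cj x U) R := hU.cj_of_mem_normalizer (top_le_normalizer R ⊤ (mem_top x))
    have h4 : (S : Subgroup P) ≤ normalizer ((Q ⊔ cj x U : Subgroup P) : Set P) := by
      have h6 := cj_mono x hT.le
      rw [hx, cj_sup, cj_normalizer, cj_eq_of_normal x Q] at h6
      exact h6.trans (sup_le (le_normalizer_sup (top_le_normalizer _ _) le_rfl)
        (le_sup_left.trans Subgroup.le_normalizer))
    refine ⟨hU'.toSylow, hU'.map_toSylow.le.trans ?_⟩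
    rcases h.eq_or_le (X := (Q ⊔ cj x U) ⊔ S) le_sup_right le_top with h6 | h6
    · exfalso
      apply hcard
      have h7 := (card_sup_dvd_of_le_normalizer h4).trans
        (mul_dvd_mul_right (card_sup_dvd_of_le_normalizer (top_le_normalizer Q (cj x U))) _)
      rw [h6, card_top, hQS.card_eq, hU'.card_eq, hS.card_eq] at h7
      refine le_trans (Finset.card_le_card (t := {p, q}) fun r hr => ?_) Finset.card_le_two
      have hr' := Nat.prime_of_mem_primeFactors hr
      have h8 := (Nat.dvd_of_mem_primeFactors hr).trans h7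
      have hp' : p.Prime := Fact.out
      have hq' : q.Prime := Fact.out
      rw [hr'.dvd_mul, hr'.dvd_mul] at h8
      rcases h8 with (h8 | h8) | h8
      · simp [(Nat.prime_dvd_prime_iff_eq hr' hp').1 (hr'.dvd_of_dvd_pow h8)]
      · simp [(Nat.prime_dvd_prime_iff_eq hr' hq').1 (hr'.dvd_of_dvd_pow h8)]
      · simp [(Nat.prime_dvd_prime_iff_eq hr' hp').1 (hr'.dvd_of_dvd_pow h8)]
    · exact (le_sup_right.trans le_sup_left).trans h6
  · rcases h3 N hN with h4 | h4
    · exact Or.inr (le_antisymm h2 (sup_le h4 h1))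
    · exact Or.inl (le_antisymm h4 h1)

end Cfsg.Agent.S2905
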