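import Cfsg.Statements.S2906
import Cfsg.Agent.Local.FStarP
import Cfsg.Agent.Solv.CoprimeGen

set_option autoImplicit false
open Cfsg

namespace Cfsg.Agent.S2906

open Cfsg.Lib.Local (resOf CharP charP_iff charP_top_iff)
open Cfsg.Lib.Local.MSS Cfsg.Lib.Solv Cfsg.Lib.Trans Cfsg.Lib.Trans.TJ Subgroup
open scoped commutatorElement

/-- Let P be a finite p-minimal group with O_p(P) = 1, S a Sylow p-subgroup of P and K a component of P. Then O^p(P) = F*(P) = E(P) is generated by the S-conjugates of K, and the subgroup K·N_S(K) is again p-minimal. -/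
theorem result {P : Type*} [Group P] [Finite P] {p : ℕ} [Fact p.Prime] (hP : Cfsg.IsPMinimal p P) (hOp : Cfsg.pCore p P = ⊥) (S : Sylow p P) (K : Subgroup P) (hK : Cfsg.IsComponent K) : Cfsg.pResidual p P = Cfsg.generalizedFittingSubgroup P ∧ Cfsg.generalizedFittingSubgroup P = Cfsg.layer P ∧ Cfsg.layer P = ⨆ s : ↥(S : Subgroup P), K.map (MulAut.conj (s : P)).toMonoidHom ∧ Cfsg.IsPMinimal p ↥(K ⊔ ((S : Subgroup P) ⊓ Subgroup.normalizer (K : Set P))) := by
  have hS := isSylowIn_top S
  obtain ⟨-, M, h⟩ := (isPMinimal_iff_top hS).1 hP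
  have hO' : Cfsg.pCoreOf p (⊤ : Subgroup P) = ⊥ := pCoreOf_top.trans hOp
  have hKM : ∀ N : Subgroup P, N.Normal → K ≤ N → resOf p ⊤ ≤ N := by
    intro N hN hKN
    refine (h.resOf_le_or hS le_top (top_le_normalizer N _)).resolve_right fun h1 => ?_
    have h2 : N ≤ frattini P := le_frattini_iff.2 fun X hX =>
      h.le_of_isCoatom hS h1.1 hX (hOp ▸ bot_le)
    have h3 : Group.IsNilpotent (frattini P) := frattini_nilpotent
    exact IsComponent.not_le_of_isSolvable hK inferInstance (hKN.trans h2)
  have h1 : Cfsg.generalizedFittingSubgroup P ≤ resOf p ⊤ := by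
    rw [genFitting_le_iff]
    refine ⟨layer_le_iff.2 fun L hL => (le_resOf_of_commutator_eq
      (IsComponent.perfect hL)).trans (resOf_mono le_top), ?_⟩
    rw [← fittingOf_top]
    exact le_resOf_of_coprime le_top (coprime_card_fittingOf hO')
  have h2 : resOf p ⊤ ≤ Cfsg.layer P := hKM _ inferInstance (IsComponent.le_layer hK)
  have h3 : ncl K S ≤ Cfsg.layer P := ncl_le (IsComponent.le_layer hK) (top_le_normalizer _ _)
  have h4 : resOf p ⊤ ≤ ncl K S := by
    refine hKM _ (normal_of_top_le (le_of_resOf_le_of_isSylowIn hS ?_ (le_normalizer_ncl _ _)))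
      (le_ncl _ _)
    refine h2.trans (Coprime.le_normalizer_iSup fun s => ?_)
    exact IsComponent.layer_le_normalizer (IsComponent.map_conj hK s)
  have h5 : Cfsg.layer P ≤ resOf p ⊤ := (layer_le_genFitting P).trans h1
  refine ⟨resOf_top.symm.trans (le_antisymm (h2.trans (layer_le_genFitting P)) h1),
    le_antisymm (h1.trans h2) (layer_le_genFitting P), le_antisymm (h5.trans h4) h3, ?_⟩
  set S₀ := (S : Subgroup P) ⊓ normalizer (K : Set P) with hS₀
  have hKS : IsSylowIn p ((S : Subgroup P) ⊓ K) K :=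
    isSylowIn_inf_of_subnormalIn hS (SubnormalIn.top_iff.2 hK.1)
  have hSK : (S : Subgroup P) ⊓ K ≤ S₀ := inf_le_inf_left _ Subgroup.le_normalizer
  have hn : K ⊔ S₀ ≤ normalizer (K : Set P) := sup_le Subgroup.le_normalizer inf_le_right
  have hS₀p : IsPGroup p S₀ := hS.isPGroup.to_le inf_le_left
  have hS₀s : IsSylowIn p S₀ (K ⊔ S₀) := by
    refine ⟨le_sup_right, hS₀p, ?_⟩
    have := (normal_subgroupOf_iff_le_normalizer le_sup_left).2 hn
    have e := index_eq_relIndex_of_sup_eq_top (H := S₀.subgroupOf (K ⊔ S₀))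
      (N := K.subgroupOf (K ⊔ S₀)) (by
        rw [← subgroupOf_sup le_sup_right le_sup_left, sup_comm, subgroupOf_self])
    rw [relIndex, e, relIndex_subgroupOf le_sup_left]
    exact hKS.not_dvd_relIndex_of_le hSK
  have hKM' : ¬ K ≤ M := fun h6 => h.not_le
    (le_of_resOf_le_of_isSylowIn hS (h4.trans (ncl_le h6 (h.le.trans Subgroup.le_normalizer))) h.le)
  have hU : UniqMax S₀ (M ⊓ (K ⊔ S₀)) (K ⊔ S₀) := by
    refine ⟨le_inf (inf_le_left.trans h.le) le_sup_right, lt_of_le_not_ge inf_le_right
      fun h6 => hKM' (le_sup_left.trans (h6.trans inf_le_left)), fun U h6 h7 => ?_⟩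
    have e : U = (K ⊓ U) ⊔ S₀ := by
      rw [← sup_inf_assoc_of_le_normalizer' inf_le_right h6, inf_eq_right.2 h7.le]
    refine le_inf ?_ h7.le
    rw [e]
    refine sup_le ?_ (inf_le_left.trans h.le)
    rcases h.eq_or_le (X := ncl (K ⊓ U) S ⊔ S) le_sup_right le_top with h8 | h8
    · exfalso
      have h9 : K ≤ ncl (K ⊓ U) S := by
        refine (IsComponent.le_layer hK).trans (h5.trans ?_)
        rw [← h8]
        exact resOf_sup_le (le_normalizer_ncl _ _) (resOf_le_of_isPGroup hS.isPGroup _)
      have h10 : ncl (K ⊓ U) S ≤ (K ⊓ U) ⊔ centralizer (K : Set P) := by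
        refine iSup_le fun s => ?_
        by_cases hs : cj (s : P) K = K
        · have hs' : (s : P) ∈ S₀ := ⟨s.2, cj_eq_self_iff.1 hs⟩
          rw [cj_inf, hs, cj_eq_of_mem (h6 hs')]
          exact le_sup_left
        · refine (cj_mono _ inf_le_left).trans (le_sup_of_le_right ?_)
          exact commutator_eq_bot_iff_le_centralizer.1
            (IsComponent.commutator_eq_bot_of_ne (IsComponent.map_conj hK s) hK hs)
      have h11 : K ≤ (K ⊓ U) ⊔ (centralizer (K : Set P) ⊓ K) := by
        have h12 : centralizer (K : Set P) ≤ normalizer ((K ⊓ U : Subgroup P) : Set P) :=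
          (centralizer_le (SetLike.coe_subset_coe.2 inf_le_left)).trans
            (centralizer_le_normalizer _)
        rw [← sup_inf_assoc_of_le_normalizer h12 inf_le_left]
        exact le_inf (h9.trans h10) le_rfl
      have h12 := perfect_le_of_le_sup_central (IsComponent.perfect hK)
        (commutator_eq_bot_iff_le_centralizer.2 (inf_le_left.trans (centralizer_le inf_le_left)))
        (commutator_eq_bot_iff_le_centralizer.2 (inf_le_left.trans (centralizer_le inf_le_right)))
        h11
      exact h7.not_ge (sup_le (h12.trans inf_le_right) h6)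
    · exact ((le_ncl _ _).trans le_sup_left).trans h8
  refine (isPMinimal_iff hS₀s).2 ⟨fun h6 => hKM' fun x hx => ?_, _, hU⟩
  have h7 : K ⊓ S₀ = ⊥ := by
    rw [eq_bot_iff, ← hO']
    refine le_pCoreOf_of_subnormalIn ((SubnormalIn.of_le_normalizer inf_le_left
      (le_normalizer_inf Subgroup.le_normalizer (le_sup_left.trans h6))).trans
      (SubnormalIn.top_iff.2 hK.1)) (hS₀p.to_le inf_le_right)
  have h8 : S₀ ≤ centralizer (K : Set P) :=
    le_centralizer_of_disjoint inf_le_right (le_sup_left.trans h6) (by rw [inf_comm, h7])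
  have hx' : zpowers x ≤ K := zpowers_le.2 hx
  rcases hU.eq_or_le (X := zpowers x ⊔ S₀) le_sup_right (sup_le_sup_right hx' _) with h9 | h9
  · exfalso
    have h10 := sup_inf_assoc_of_le_normalizer (N := zpowers x) (H := S₀) (K := K)
      ((h8.trans (centralizer_le hx')).trans (centralizer_le_normalizer _)) hx'
    rw [h9, inf_eq_right.2 le_sup_left, inf_comm, h7, sup_bot_eq] at h10
    refine IsComponent.not_le_of_isSolvable hK (Coprime.isSolvable_zpowers x) h10.le
  · exact (h9 (mem_sup_left (mem_zpowers x))).1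

end Cfsg.Agent.S2906
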