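import Cfsg.Statements.S2907
import Cfsg.Agent.Solv.ExtraSub

set_option autoImplicit false
open Cfsg

namespace Cfsg.Agent.S2907

open Subgroup Cfsg.Lib.Solv.PG Cfsg.Lib.Trans.ES
open scoped commutatorElement

/-- Let X be a finite semi-extraspecial p-group and x an element of X outside the centre. Then the index of C_X(x) in X equals the order of Z(X), and the commutators [x, y], y ∈ X, form exactly the centre Z(X). -/
theorem result {X : Type*} [Group X] [Finite X] {p : ℕ} [Fact p.Prime] (hX : Cfsg.IsSemiExtraspecial p X) (x : X) (hx : x ∉ Subgroup.center X) : (Subgroup.centralizer ({x} : Set X)).index = Nat.card ↥(Subgroup.center X) ∧ {z : X | ∃ y : X, z = x * y * x⁻¹ * y⁻¹} = (Subgroup.center X : Set X) := by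
  have h2 : ClassTwo X := classTwo_iff.mpr hX.1.2.2.le
  have hr : (h2.homRight x).range = center X := by
    by_contra hne
    obtain ⟨M, h3, h4, -, h5⟩ := exists_le_card_eq_prime_mul (hX.1.1.to_subgroup _)
      (lt_of_le_of_ne (h2.range_homRight_le x) hne)
    obtain ⟨hn, hE⟩ := hX.2 M h4.le (Cfsg.Lib.Solv.PG.isCoatom_of_index_prime
      (by rw [show (M.subgroupOf (center X)).index = p from relIndex_eq_of_card_eq_mul h4.le h5]
          exact Fact.out))
    have h6 : (center X).map (QuotientGroup.mk' M) = center (X ⧸ M) := by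
      rw [← hE.1.2.2, ← hX.1.2.2, map_commutator_eq, QuotientGroup.range_mk', commutator_def]
    have h7 : (x : X ⧸ M) ∈ center (X ⧸ M) := by
      rw [mem_center_iff, (QuotientGroup.mk'_surjective M).forall]
      intro y
      rw [eq_comm, ← commutatorElement_eq_one_iff_mul_comm]
      exact (QuotientGroup.eq_one_iff _).mpr (h3 ⟨y, rfl⟩)
    rw [← h6, ← QuotientGroup.mk'_apply, ← mem_comap, comap_map_eq_self (by simpa using h4.le)] at h7
    exact hx h7
  refine ⟨by rw [← h2.ker_homRight, index_ker, hr], ?_⟩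
  rw [← hr]
  ext z
  exact ⟨fun ⟨y, hy⟩ => ⟨y, hy.symm⟩, fun ⟨y, hy⟩ => ⟨y, hy.symm⟩⟩

end Cfsg.Agent.S2907
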