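import Cfsg.Statements.S2908
import Cfsg.Agent.Solv.PGroupBasic
import Cfsg.Agent.Solv.CoprimeFixed
import Cfsg.Agent.Solv.CommCalc
import Cfsg.Agent.Trans.Frobenius
import Cfsg.Agent.Local.CharP

set_option autoImplicit false
open Cfsg

namespace Cfsg.Agent.S2908

open Subgroup Cfsg.Lib.Solv Cfsg.Lib.Solv.PG Cfsg.Lib.Solv.Coprime
open scoped commutatorElement

/-- Let P be a p-subgroup of a finite group, normalized by a p-subgroup A and by a subgroup B of order prime to p that commutes elementwise with A. If [P, B] ≤ [P, A], then B centralizes P. -/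
theorem result {G : Type*} [Group G] [Finite G] {p : ℕ} [Fact p.Prime] (P A B : Subgroup G) (hP : IsPGroup p ↥P) (hA : IsPGroup p ↥A) (hB : ¬ p ∣ Nat.card ↥B) (hnA : A ≤ Subgroup.normalizer (P : Set G)) (hnB : B ≤ Subgroup.normalizer (P : Set G)) (hAB : ⁅A, B⁆ = ⊥) (hcomm : ⁅P, B⁆ ≤ ⁅P, A⁆) : ⁅P, B⁆ = ⊥ := by
  have hcop : (Nat.card B).Coprime (Nat.card P) := by
    obtain ⟨k, hk⟩ := hP.exists_card_eq
    rw [hk]
    exact ((Nat.Prime.coprime_iff_not_dvd Fact.out).2 hB).symm.pow_right k
  set Q := ⁅P, B⁆ with hQ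
  set C := P ⊓ centralizer (B : Set G) with hC
  have hQP : Q ≤ P := commutator_le_left_of_le_normalizer hnB
  have hAcB : A ≤ centralizer (B : Set G) := commutator_eq_bot_iff_le_centralizer.1 hAB
  have hBcA : B ≤ centralizer (A : Set G) := le_centralizer_iff.1 hAcB
  have hAnB : A ≤ normalizer (B : Set G) := hAcB.trans (centralizer_le_normalizer _)
  have hBnA : B ≤ normalizer (A : Set G) := hBcA.trans (centralizer_le_normalizer _)
  have hS : IsPGroup p (P ⊔ A : Subgroup G) := by
    rw [sup_comm]; exact Cfsg.Lib.Local.isPGroup_sup hA hP hnA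
  have hSQ : P ⊔ A ≤ normalizer (Q : Set G) :=
    sup_le (normalizer_commutator_ge_left P B) (PG.le_normalizer_commutator hnA hAnB)
  have hBQ : B ≤ normalizer (Q : Set G) := normalizer_commutator_ge_right P B
  set M := ⁅Q, P ⊔ A⁆ with hM
  have hSM : P ⊔ A ≤ normalizer (M : Set G) := normalizer_commutator_ge_right _ _
  have hBM : B ≤ normalizer (M : Set G) :=
    PG.le_normalizer_commutator hBQ (PG.le_normalizer_sup hnB hBnA)
  have hAC : A ≤ normalizer (C : Set G) :=
    PG.le_normalizer_inf hnA (PG.le_normalizer_centralizer hAnB)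
  have h1 : ⁅P, A⁆ ≤ M ⊔ C := by
    rw [commutator_le]
    intro k hk a ha
    obtain ⟨x, hx, c, hc, rfl⟩ := exists_commutator_mul_centralizer hnB hcop
      (Or.inr (isSolvable_of_isPGroup hP)) hk
    have hca : ⁅c, a⁆ ∈ C := commutator_le_left_of_le_normalizer hAC (commutator_mem_commutator hc ha)
    have e : ⁅x * c, a⁆ = ⁅x, ⁅c, a⁆⁆ * ⁅c, a⁆ * ⁅x, a⁆ := by
      simp only [commutatorElement_def]; group
    rw [e]
    refine mul_mem (mul_mem (mem_sup_left ?_) (mem_sup_right hca)) (mem_sup_left ?_)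
    · exact commutator_mem_commutator hx (mem_sup_left hca.1)
    · exact commutator_mem_commutator hx (mem_sup_right ha)
  have h2 : ⁅M ⊔ C, B⁆ ≤ M := by
    refine commutator_sup_left_le_of_le_normalizer le_normalizer
      ((inf_le_left.trans le_sup_left).trans hSM) (commutator_le_left_of_le_normalizer hBM) ?_
    rw [commutator_eq_bot_iff_le_centralizer.2 (inf_le_right : C ≤ _)]
    exact bot_le
  have h3 : Q ≤ M := by
    rw [hQ, ← commutator_commutator hnB hcop]
    exact (commutator_mono (hcomm.trans h1) le_rfl).trans h2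
  by_contra hne
  have := commutator_lt_of_isNilpotent hS.isNilpotent (hQP.trans le_sup_left) hSQ hne
  exact this.not_ge h3

end Cfsg.Agent.S2908
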