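import Cfsg.Statements.S2909
import Cfsg.Agent.S0028
import Cfsg.Agent.Solv.CommCalc
import Cfsg.Agent.Solv.CoprimeGen
import Cfsg.Agent.Solv.Fitting

set_option autoImplicit false
open Cfsg

namespace Cfsg.Agent.S2909

open scoped commutatorElement Pointwise
open Subgroup Cfsg.Lib.Solv

/-- The dual form of the `P × Q` lemma. -/
theorem dual {G : Type*} [Group G] [Finite G] {p : ℕ} [Fact p.Prime] {E P Y : Subgroup G}
    [hn : E.Normal] (hE : IsPGroup p E) (hP : IsPGroup p P) (hY : (Nat.card Y).Coprime p)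
    (hPY : P ≤ centralizer (Y : Set G)) (h : ⁅E, Y⁆ ≤ ⁅E, P⁆) : Y ≤ centralizer (E : Set G) := by
  have hnE : ∀ A : Subgroup G, A ≤ normalizer (E : Set G) := fun A => by
    rw [normalizer_eq_top]; exact le_top
  have hcop : (Nat.card Y).Coprime (Nat.card E) := by
    obtain ⟨n, hn⟩ := hE.exists_card_eq
    exact hn ▸ hY.pow_right n
  have hsol := Coprime.isSolvable_of_isPGroup hE
  have hPY' : P ≤ normalizer (Y : Set G) := hPY.trans (centralizer_le_normalizer _)
  have hEP : IsPGroup p (E ⊔ P : Subgroup G) := hE.to_sup_of_normal_left hP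
  have hFE : ⁅E, Y⁆ ≤ E := commutator_le_left _ _
  have hF : E ⊔ P ≤ normalizer ((⁅E, Y⁆ : Subgroup G) : Set G) :=
    sup_le (left_le_normalizer_commutator _ _) (le_normalizer_commutator (hnE P) hPY')
  have hN : E ⊔ P ≤ normalizer ((⁅⁅E, Y⁆, E ⊔ P⁆ : Subgroup G) : Set G) :=
    right_le_normalizer_commutator _ _
  have hYN : Y ≤ normalizer ((⁅⁅E, Y⁆, E ⊔ P⁆ : Subgroup G) : Set G) :=
    le_normalizer_commutator (right_le_normalizer_commutator _ _) (le_normalizer_sup (hnE Y)
      ((le_centralizer_iff.mp hPY).trans (centralizer_le_normalizer _)))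
  have hC : E ⊓ centralizer (Y : Set G) ≤ E ⊔ P := inf_le_left.trans le_sup_left
  have h1 : ⁅E, P⁆ ≤ ⁅⁅E, Y⁆, E ⊔ P⁆ ⊔ (E ⊓ centralizer (Y : Set G)) := by
    refine commutator_le.mpr fun e he v hv => ?_
    obtain ⟨x, hx, c, hc, rfl⟩ := Coprime.exists_commutator_mul_centralizer (hnE Y) hcop (.inr hsol) he
    have h2 : ⁅c, v⁆ ∈ E ⊓ centralizer (Y : Set G) :=
      commutator_le_left_of_le_normalizer (le_normalizer_inf_centralizer (hnE P) hPY')
        (commutator_mem_commutator hc hv)
    rw [show ⁅x * c, v⁆ = ⁅x, ⁅c, v⁆⁆ * ⁅c, v⁆ * ⁅x, v⁆ by simp only [commutatorElement_def]; group]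
    exact mul_mem (mul_mem (mem_sup_left (commutator_mem_commutator hx (hC h2))) (mem_sup_right h2))
      (mem_sup_left (commutator_mem_commutator hx (mem_sup_right hv)))
  rw [← commutator_eq_bot_iff_le_centralizer']
  refine eq_bot_of_le_commutator_of_isNilpotent hEP.isNilpotent (hFE.trans le_sup_left) ?_
  refine (Coprime.commutator_commutator (hnE Y) hcop).ge.trans
    ((Coprime.commutator_le_of_mul_centralizer fun k hk => ?_).trans
      (commutator_le_left_of_le_normalizer hYN))
  obtain ⟨x, hx, c, hc, rfl⟩ := (mem_sup_of_le_normalizer (hC.trans hN)).mp (h1 (h hk))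
  exact ⟨x, hx, c, hc.2, rfl⟩

/-- Let p be a prime, E a normal p-subgroup of the finite group G, and U a non-cyclic elementary abelian p-subgroup of G such that either C_E(U) = C_E(u) for every nontrivial u ∈ U, or [E, U] = [E, ⟨u⟩] for every nontrivial u ∈ U. If R is a subgroup of order prime to p normalized by U, then [R, U] centralizes E. -/
theorem result {G : Type*} [Group G] [Finite G] {p : ℕ} [Fact p.Prime] (E : Subgroup G) [E.Normal] (hE : IsPGroup p ↥E) (U : Subgroup G) (hU : Cfsg.IsElementaryAbelian p U) (hnc : ¬ IsCyclic ↥U) (hcond : (∀ u ∈ U, u ≠ 1 → E ⊓ Subgroup.centralizer (U : Set G) = E ⊓ Subgroup.centralizer ({u} : Set G)) ∨ (∀ u ∈ U, u ≠ 1 → ⁅E, U⁆ = ⁅E, Subgroup.zpowers u⁆)) (R : Subgroup G) (hR : ¬ p ∣ Nat.card ↥R) (hRU : U ≤ Subgroup.normalizer (R : Set G)) : ⁅R, U⁆ ≤ Subgroup.centralizer (E : Set G) := by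
  have := hU.1
  have hUp : IsPGroup p U := fun v => ⟨1, by rw [pow_one]; exact Subtype.ext (hU.2 v v.2)⟩
  have hR' : (Nat.card R).Coprime p := ((Nat.Prime.coprime_iff_not_dvd Fact.out).mpr hR).symm
  have hnE : ∀ A : Subgroup G, A ≤ normalizer (E : Set G) := fun A => by
    rw [normalizer_eq_top]; exact le_top
  refine Coprime.commutator_le_of_forall_centralizer_singleton hnc hRU ?_ fun u hu hu1 => ?_
  · obtain ⟨n, hn⟩ := hUp.exists_card_eq
    exact hn ▸ hR'.symm.pow_left n
  have hz : centralizer ({u} : Set G) = centralizer (zpowers u : Set G) := by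
    rw [zpowers_eq_closure, centralizer_closure]
  have hUu : U ≤ normalizer (zpowers u : Set G) :=
    Coprime.le_normalizer_of_le_of_comm (zpowers_le.mpr hu)
  rw [hz]
  set X := R ⊓ centralizer (zpowers u : Set G)
  have hYX : ⁅X, U⁆ ≤ X := commutator_le_left_of_le_normalizer (le_normalizer_inf_centralizer hRU hUu)
  have hY : (Nat.card (⁅X, U⁆ : Subgroup G)).Coprime p :=
    hR'.coprime_dvd_left (card_dvd_of_le (hYX.trans inf_le_left))
  have hzp : IsPGroup p (zpowers u) := hUp.to_le (zpowers_le.mpr hu)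
  have hzY : zpowers u ≤ centralizer ((⁅X, U⁆ : Subgroup G) : Set G) :=
    le_centralizer_iff.mp (hYX.trans inf_le_right)
  have hXu : X ≤ normalizer (zpowers u : Set G) := inf_le_right.trans (centralizer_le_normalizer _)
  rcases hcond with h | h
  · refine Cfsg.Agent.S0028.result p _ _ _ hzp hY hE hzY (hnE _) (hnE _) ?_
    rw [← hz, ← h u hu hu1, ← commutator_eq_bot_iff_le_centralizer, commutator_comm]
    have h1 : ⁅U, E ⊓ centralizer (U : Set G)⁆ = ⊥ :=
      commutator_eq_bot_iff_le_centralizer'.mpr inf_le_right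
    refine commutator_commutator_eq_bot_of_rotate (by rw [h1, commutator_bot_left]) ?_
    refine eq_bot_iff.mpr ((commutator_mono (commutator_le_left_of_le_normalizer ?_) le_rfl).trans
      ((commutator_comm _ _).trans h1).le)
    rw [h u hu hu1, hz]
    exact le_normalizer_inf_centralizer (hnE _) hXu
  · refine dual hE hzp hY hzY ?_
    have hX : X ≤ normalizer ((⁅E, U⁆ : Subgroup G) : Set G) :=
      h u hu hu1 ▸ le_normalizer_commutator (hnE _) hXu
    rw [← h u hu hu1, commutator_comm]
    refine three_subgroups_le_of_le_normalizer hX (right_le_normalizer_commutator _ _)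
      (left_le_normalizer_commutator _ _) ?_ (commutator_mono (commutator_le_left _ _) le_rfl)
    rw [commutator_comm U]
    exact commutator_le_left_of_le_normalizer hX

end Cfsg.Agent.S2909
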