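import Cfsg.Statements.S2912
import Cfsg.Agent.Solv.HallHigmanRep
import Cfsg.Agent.Solv.ElemAb
import Cfsg.Agent.Trans.Extraspecial

set_option autoImplicit false
open Cfsg

namespace Cfsg.Agent.S2912

open scoped commutatorElement Pointwise
open Subgroup Module Cfsg.Lib.Solv Cfsg.Lib.Solv.HH Cfsg.Lib.Trans.ES

theorem index_le_sq {D W E : Type*} [Field D] [AddCommGroup W] [Module D W] [FiniteDimensional D W]
    [Nontrivial W] [Group E] [Finite E] (h : ClassTwo E) (σ : E →* End D W)
    (hs : ∀ z ∈ center E, ∃ c : D, σ z = c • 1) (hf : ∀ z ∈ center E, σ z = 1 → z = 1) :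
    (center E).index ≤ finrank D W ^ 2 := by
  classical
  choose! c hc using hs
  have hinj : Function.Injective fun a : D => a • (1 : End D W) := smul_left_injective D one_ne_zero
  let χ : E → E →* D := fun g =>
    { toFun := fun x => c ⁅x, g⁆
      map_one' := hinj (by
        simp only [commutatorElement_one_left, ← hc 1 (one_mem _), map_one, one_smul])
      map_mul' := fun x y => hinj (by
        simp only []
        rw [← hc _ (h _ _), h.mul_left, map_mul, hc _ (h _ _), hc _ (h _ _), smul_mul_smul_comm,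
          one_mul]) }
  have hχ : Function.Injective fun t : E ⧸ center E => χ t.out := by
    intro s t hst
    rw [← QuotientGroup.out_eq' s, ← QuotientGroup.out_eq' t, QuotientGroup.eq, mem_center_iff]
    intro x
    have h1 : σ ⁅x, s.out⁆ = σ ⁅x, t.out⁆ := by
      rw [hc _ (h _ _), hc _ (h _ _)]
      exact congrArg (· • (1 : End D W)) (DFunLike.congr_fun hst x)
    rw [← commutatorElement_eq_one_iff_mul_comm]
    refine hf _ (h _ _) ?_
    rw [h.mul_right, h.inv_right, map_mul, ← h1, ← map_mul, inv_mul_cancel, map_one]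
  have hli := (linearIndependent_monoidHom E D).comp _ hχ
  have : Fintype (E ⧸ center E) := Fintype.ofFinite _
  have key : LinearIndependent D fun t : E ⧸ center E => σ t.out := by
    rw [Fintype.linearIndependent_iff] at hli ⊢
    intro a ha t
    have hne : σ t.out ≠ 0 := fun h0 => one_ne_zero (α := End D W) (by
      rw [← map_one σ, ← mul_inv_cancel t.out, map_mul, h0, zero_mul])
    obtain ⟨φ, hφ⟩ := Module.Projective.exists_dual_ne_zero D hne
    refine (mul_eq_zero.mp (hli (fun s => a s * φ (σ s.out)) (funext fun x => ?_) t)).resolve_right hφ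
    have h1 := congrArg (fun f => φ (σ x * f * σ x⁻¹)) ha
    simp only [Finset.mul_sum, Finset.sum_mul, map_sum, mul_zero, zero_mul, map_zero] at h1
    rw [Finset.sum_apply, Pi.zero_apply, ← h1]
    refine Finset.sum_congr rfl fun s _ => ?_
    rw [mul_smul_comm, smul_mul_assoc, ← map_mul, ← map_mul,
      show x * s.out * x⁻¹ = ⁅x, s.out⁆ * s.out by rw [commutatorElement_def, inv_mul_cancel_right],
      map_mul, hc _ (h _ _), smul_mul_assoc, one_mul, map_smul, map_smul]
    simp [χ, mul_comm, mul_left_comm]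
  have := key.fintype_card_le_finrank
  rwa [finrank_linearMap, ← sq, ← Nat.card_eq_fintype_card] at this

theorem card_ge {k W E : Type*} [Field k] [AddCommGroup W] [Module k W] [Finite W] [Finite k]
    [Nontrivial W] [Group E] [Finite E] {p : ℕ} [Fact p.Prime] (h : IsPre p E) (σ : E →* End k W)
    (hσ : Irr σ) (hf : ∀ z ∈ center E, σ z = 1 → z = 1) :
    ∃ m d : ℕ, 1 ≤ m ∧ p ∣ Nat.card k ^ m - 1 ∧ (center E).index ≤ d ^ 2 ∧
      Nat.card W = Nat.card k ^ (m * d) := by
  let D := Subalgebra.centralizer k (Set.range σ)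
  have hD : ∀ (f : D) g, f.1 * σ g = σ g * f.1 := fun f g => (f.2 _ ⟨g, rfl⟩).symm
  have : Finite (End k W) := Finite.of_injective _ DFunLike.coe_injective
  have : NoZeroDivisors D := ⟨fun {a b} hab => by
    by_contra! hne
    have ha := hσ.injective (h := a.1) (fun h0 => hne.1 (Subtype.ext h0)) fun g w hw => by
      rw [← End.mul_apply, hD, End.mul_apply, hw, map_zero]
    refine hne.2 (Subtype.ext (LinearMap.ext fun w => ha ?_))
    exact (LinearMap.congr_fun (congrArg Subtype.val hab) w).trans (map_zero _).symm⟩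
  have : IsDomain D := NoZeroDivisors.to_isDomain D
  let _ : Field D := (Finite.isDomain_to_isField D).toField
  let σ' : E →* End D W :=
    { toFun := fun g =>
        { toFun := σ g
          map_add' := map_add _
          map_smul' := fun f w => (LinearMap.congr_fun (hD f g) w).symm }
      map_one' := LinearMap.ext fun w => LinearMap.congr_fun (map_one σ) w
      map_mul' := fun a b => LinearMap.ext fun w => LinearMap.congr_fun (map_mul σ a b) w }
  have hz : ∀ z ∈ center E, σ z ∈ D := by
    rintro z hz _ ⟨g, rfl⟩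
    rw [← map_mul, ← map_mul, mem_center_iff.mp hz]
  have h1 := index_le_sq h.classTwo σ' (fun z hz' => ⟨⟨σ z, hz z hz'⟩, rfl⟩)
    fun z hz' he => hf z hz' (LinearMap.ext fun w => LinearMap.congr_fun he w)
  refine ⟨finrank k D, finrank D W, finrank_pos, ?_, h1, ?_⟩
  · obtain ⟨z, hz', hz1⟩ := h.exists_center_ne_one
    have h2 : orderOf (⟨σ z, hz z hz'⟩ : D) = p := orderOf_eq_prime
      (Subtype.ext (by
        change σ z ^ p = 1
        rw [← map_pow, h.pow_eq_one_of_mem_center hz', map_one]))
      fun he => hz1 (hf z hz' (congrArg Subtype.val he))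
    have : Fintype D := Fintype.ofFinite D
    rw [← Module.natCard_eq_pow_finrank, Nat.card_eq_fintype_card, ← h2]
    refine orderOf_dvd_of_pow_eq_one (FiniteField.pow_card_sub_one_eq_one _ fun h0 => ?_)
    rw [h0, orderOf_zero] at h2
    exact (Fact.out : p.Prime).ne_zero h2.symm
  · rw [pow_mul, ← Module.natCard_eq_pow_finrank, ← Module.natCard_eq_pow_finrank]

/-- Let p and r be distinct primes, let E be an extraspecial subgroup of order p^(2w+1) of a finite group, and let A be an elementary abelian r-subgroup normalized by E on which E acts faithfully (C_E(A) = 1). If n ≥ 1 is least with p dividing rⁿ − 1 (the smallest dimension of a faithful representation of a group of order p over the field with r elements), then the order of A is at least r^(n·p^w). -/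
theorem result {G : Type*} [Group G] [Finite G] {p r : ℕ} [Fact p.Prime] [hr : Fact r.Prime] (hpr : p ≠ r) (E A : Subgroup G) (w : ℕ) (hE : Cfsg.IsExtraspecial p ↥E) (hEcard : Nat.card ↥E = p ^ (2 * w + 1)) (hA : Cfsg.IsElementaryAbelian r A) (hnorm : E ≤ Subgroup.normalizer (A : Set G)) (hfaith : E ⊓ Subgroup.centralizer (A : Set G) = ⊥) (n : ℕ) (hn : 1 ≤ n) (hdiv : p ∣ r ^ n - 1) (hmin : ∀ k : ℕ, 1 ≤ k → p ∣ r ^ k - 1 → n ≤ k) : r ^ (n * p ^ w) ≤ Nat.card ↥A := by
  have h := IsPre.of_isExtraspecial hE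
  have := ElemAb.of_isElementaryAbelian hA
  let φ : E →* MulAut A := A.normalizerMonoidHom.comp (inclusion hnorm)
  let ρ : E →* End (ZMod r) (Vec r A) := Vec.rep r φ
  have hρ : ∀ g, ρ g = 1 → g = 1 := fun g hg => Subtype.ext (mem_bot.mp (hfaith ▸ ⟨g.2, fun a ha => by
    have := congrArg Subtype.val (show φ g ⟨a, ha⟩ = ⟨a, ha⟩ from
      LinearMap.congr_fun hg (Vec.ofMul r ⟨a, ha⟩))
    exact (mul_inv_eq_iff_eq_mul.mp this).symm⟩))
  obtain ⟨z, hz, hz1⟩ := h.exists_center_ne_one
  have hinv : Inv ρ (LinearMap.range (ρ z - 1)) := by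
    rintro g _ ⟨v, rfl⟩
    refine ⟨ρ g v, ?_⟩
    rw [← End.mul_apply, ← End.mul_apply, sub_mul, mul_sub, ← map_mul, ← map_mul,
      mem_center_iff.mp hz, one_mul, mul_one]
  obtain ⟨U, hU, hUle, hU0, hirr⟩ := exists_irr_le ρ hinv fun h0 =>
    hz1 (hρ z (sub_eq_zero.mp (LinearMap.range_eq_bot.mp h0)))
  have : Nontrivial U := Submodule.nontrivial_iff_ne_bot.mpr hU0
  obtain ⟨m, d, hm, hpm, hd, hc⟩ := card_ge h (res ρ U hU) hirr fun y hy he => by
    by_contra hy1
    obtain ⟨i, -, hi⟩ := h.exists_pow_eq hy hy1 hz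
    have h1 : res ρ U hU z = 1 := by rw [← hi, map_pow, he, one_pow]
    refine hU0 (eq_bot_iff.mpr fun u hu => ?_)
    obtain ⟨v, hv⟩ := hUle hu
    have h2 : ρ z u = u := congrArg Subtype.val (LinearMap.congr_fun h1 ⟨u, hu⟩)
    have h3 : ∀ j : ℕ, (ρ z ^ j) u = u := fun j => by
      induction j with
      | zero => rfl
      | succ j ih => rw [pow_succ, End.mul_apply, h2, ih]
    have h4 : (∑ j ∈ Finset.range p, ρ z ^ j) u = 0 := by
      rw [← hv, ← End.mul_apply, geom_sum_mul, ← map_pow, h.pow_eq_one_of_mem_center hz, map_one,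
        sub_self, LinearMap.zero_apply]
    simp only [LinearMap.sum_apply, h3, Finset.sum_const, Finset.card_range] at h4
    rw [← Nat.cast_smul_eq_nsmul (ZMod r)] at h4
    refine (smul_eq_zero.mp h4).resolve_left fun h5 => hpr ?_
    exact ((Nat.prime_dvd_prime_iff_eq hr.out Fact.out).mp ((ZMod.natCast_eq_zero_iff _ _).mp h5)).symm
  rw [Nat.card_zmod] at hpm hc
  have h1 : (center E).index = (p ^ w) ^ 2 := by
    have h2 := (center E).index_mul_card
    rw [h.card_center, hEcard, pow_succ, mul_comm 2 w, pow_mul] at h2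
    exact Nat.eq_of_mul_eq_mul_right (Fact.out : p.Prime).pos h2
  rw [h1, Nat.pow_le_pow_iff_left two_ne_zero] at hd
  calc r ^ (n * p ^ w) ≤ r ^ (m * d) :=
        Nat.pow_le_pow_right hr.out.pos (Nat.mul_le_mul (hmin m hm hpm) hd)
    _ = Nat.card U := hc.symm
    _ ≤ Nat.card (Vec r A) := Nat.card_le_card_of_injective _ Subtype.val_injective

end Cfsg.Agent.S2912
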