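import Cfsg.Statements.S2922
import Cfsg.Agent.Local.CharPLocal

set_option autoImplicit false
open Cfsg

namespace Cfsg.Agent.S2922

open Cfsg.Lib.Local

/-- Let p be a prime, X a finite group, B a p-subgroup of X and C a normal subgroup of B. If N_X(C) has characteristic p (its generalized Fitting subgroup is O_p(N_X(C))), then N_X(B) and C_X(B) have characteristic p. -/
theorem result {X : Type*} [Group X] [Finite X] {p : ℕ} [Fact p.Prime] (B C : Subgroup X) (hB : IsPGroup p ↥B) (hCB : C ≤ B) (hCn : (C.subgroupOf B).Normal) (hC : Cfsg.generalizedFittingSubgroup ↥(Subgroup.normalizer (C : Set X)) = Cfsg.pCore p ↥(Subgroup.normalizer (C : Set X))) : Cfsg.generalizedFittingSubgroup ↥(Subgroup.normalizer (B : Set X)) = Cfsg.pCore p ↥(Subgroup.normalizer (B : Set X)) ∧ Cfsg.generalizedFittingSubgroup ↥(Subgroup.centralizer (B : Set X)) = Cfsg.pCore p ↥(Subgroup.centralizer (B : Set X)) := by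
  rw [← charP_iff_genFitting] at hC
  rw [← charP_iff_genFitting, ← charP_iff_genFitting]
  have h1 : CharP p (Subgroup.centralizer (B : Set X)) :=
    hC.centralizer_of_le hB ((Subgroup.normal_subgroupOf_iff_le_normalizer hCB).mp hCn)
      ((Subgroup.centralizer_le hCB).trans (Subgroup.centralizer_le_normalizer _))
  exact ⟨CharP.normalizer_of_centralizer hB h1, h1⟩

end Cfsg.Agent.S2922
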