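import Cfsg.Statements.S2925
import Cfsg.Agent.Trans.Component
import Cfsg.Agent.Trans.SylowIn
import Cfsg.Agent.Solv.Conj

set_option autoImplicit false
open Cfsg

namespace Cfsg.Agent.S2925

open Cfsg.Lib Cfsg.Lib.Trans

/-- Let K be a component of the finite group X and T a Sylow 2-subgroup of X. If some abelian normal subgroup Y of T does not normalize K, then K ⧸ Z(K) has abelian Sylow 2-subgroups. -/
theorem result {X : Type*} [Group X] [Finite X] (K : Subgroup X) (hK : Cfsg.IsComponent K) (T : Sylow 2 X) (Y : Subgroup X) (hYT : Y ≤ (T : Subgroup X)) (hYn : (Y.subgroupOf (T : Subgroup X)).Normal) (hYab : IsMulCommutative ↥Y) (hnot : ¬ Y ≤ Subgroup.normalizer (K : Set X)) (P : Sylow 2 (↥K ⧸ Subgroup.center ↥K)) : IsMulCommutative ↥(P : Subgroup (↥K ⧸ Subgroup.center ↥K)) := by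
  classical
  haveI : Fact (Nat.Prime 2) := ⟨Nat.prime_two⟩
  obtain ⟨y, hyY, hyN⟩ := SetLike.not_le_iff_exists.1 hnot
  have hL : Cfsg.IsComponent (cj y K) := IsComponent.map_conj hK y
  have hne : K ≠ cj y K := fun e => hyN (cj_eq_self_iff.1 e.symm)
  have hKL := IsComponent.commutator_eq_bot_of_ne hK hL hne
  haveI := layer_normal X
  have s1 := isSylowIn_inf_of_normal T (Cfsg.layer X)
  have s2 := s1.inf_normal_of_le (IsComponent.layer_le_normalizer hK) (IsComponent.le_layer hK)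
  set S := (T : Subgroup X) ⊓ Cfsg.layer X ⊓ K with hS
  have hYc : ∀ a ∈ (T : Subgroup X), a * y * a⁻¹ * y⁻¹ ∈ Y := by
    intro a ha
    have := hYn.conj_mem ⟨y, hYT hyY⟩ hyY ⟨a, ha⟩
    exact Y.mul_mem this (Y.inv_mem hyY)
  have hcomm : ∀ a ∈ S, ∀ b ∈ S, (a * b)⁻¹ * (b * a) ∈ Subgroup.centralizer (K : Set X) := by
    intro a ha b hb
    set a' := y * a⁻¹ * y⁻¹ with ha'
    set b' := y * b⁻¹ * y⁻¹ with hb'
    have haL : a' ∈ cj y K := conj_mem_cj.2 (K.inv_mem ha.2)
    have hbL : b' ∈ cj y K := conj_mem_cj.2 (K.inv_mem hb.2)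
    have h1 : (a * a') * (b * b') = (b * b') * (a * a') := by
      have e1 : a * a' = a * y * a⁻¹ * y⁻¹ := by rw [ha']; group
      have e2 : b * b' = b * y * b⁻¹ * y⁻¹ := by rw [hb']; group
      rw [e1, e2]
      exact congrArg Subtype.val (hYab.is_comm.comm (⟨_, hYc a ha.1.1⟩ : Y) ⟨_, hYc b hb.1.1⟩)
    have h2 : b * a' = a' * b := commute_of_commutator_eq_bot hKL hb.2 haL
    have h3 : a * b' = b' * a := commute_of_commutator_eq_bot hKL ha.2 hbL
    have h4 : (a * b)⁻¹ * (b * a) = (a' * b') * (b' * a')⁻¹ := by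
      have h5 : (a * b) * (a' * b') = (b * a) * (b' * a') := by
        calc (a * b) * (a' * b') = a * (b * a') * b' := by group
          _ = (a * a') * (b * b') := by rw [h2]; group
          _ = b * (b' * a) * a' := by rw [h1]; group
          _ = (b * a) * (b' * a') := by rw [← h3]; group
      calc (a * b)⁻¹ * (b * a) = (a * b)⁻¹ * ((b * a) * (b' * a')) * (b' * a')⁻¹ := by group
        _ = (a' * b') * (b' * a')⁻¹ := by rw [← h5]; group
    rw [h4, Subgroup.mem_centralizer_iff]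
    intro k hk
    exact commute_of_commutator_eq_bot hKL hk
      ((cj y K).mul_mem ((cj y K).mul_mem haL hbL) ((cj y K).inv_mem ((cj y K).mul_mem hbL haL)))
  have s3 := (s2.subgroupOf_top).map (QuotientGroup.mk' (Subgroup.center K))
  rw [Subgroup.map_top_of_surjective _ (QuotientGroup.mk'_surjective _)] at s3
  obtain ⟨x, -, hx⟩ := s3.exists_cj_le P.isPGroup' le_top
  rw [cj_le_iff] at hx
  refine ⟨⟨fun u v => Subtype.ext ?_⟩⟩
  obtain ⟨a, ha, hau⟩ := hx u u.2
  obtain ⟨b, hb, hbv⟩ := hx v v.2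
  have h6 : QuotientGroup.mk' (Subgroup.center K) (a * b) = QuotientGroup.mk' (Subgroup.center K) (b * a) := by
    rw [QuotientGroup.mk'_apply, QuotientGroup.mk'_apply, QuotientGroup.eq, center_eq_subgroupOf]
    exact hcomm a ha b hb
  rw [map_mul, map_mul, hau, hbv] at h6
  have h7 : x * ((u : K ⧸ Subgroup.center K) * v) * x⁻¹ = x * ((v : K ⧸ Subgroup.center K) * u) * x⁻¹ := by
    calc x * ((u : K ⧸ Subgroup.center K) * v) * x⁻¹ = (x * u * x⁻¹) * (x * v * x⁻¹) := by group
      _ = (x * v * x⁻¹) * (x * u * x⁻¹) := h6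
      _ = _ := by group
  simpa using h7

end Cfsg.Agent.S2925
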