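import Cfsg.Statements.S2928
import Cfsg.Agent.Perm.ThreeGen2

set_option autoImplicit false
open Cfsg

namespace Cfsg.Agent.S2928

open Cfsg.Lib.Perm.ThreeGen Cfsg.Lib.Perm.SymSyl Equiv Equiv.Perm MulAction in

/-- Let n ≥ 8 and let H be a subgroup of the symmetric group of degree n whose generalized Fitting subgroup F*(H) is quasisimple. If H contains a Sylow 2-subgroup of the alternating group of degree n, then F*(H) is isomorphic to an alternating group of degree m for some m ∈ {n − 3, n − 2, n − 1, n}. -/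
theorem result (n : ℕ) (hn : 8 ≤ n) (H : Subgroup (Equiv.Perm (Fin n))) (hF : Cfsg.IsQuasisimple ↥(Cfsg.generalizedFittingSubgroup ↥H)) (hS : ∃ P : Sylow 2 ↥(alternatingGroup (Fin n)), ((P : Subgroup ↥(alternatingGroup (Fin n))).map (alternatingGroup (Fin n)).subtype) ≤ H) : ∃ m : ℕ, (m = n - 3 ∨ m = n - 2 ∨ m = n - 1 ∨ m = n) ∧ Nonempty (↥(Cfsg.generalizedFittingSubgroup ↥H) ≃* ↥(alternatingGroup (Fin m))) := by
  obtain ⟨P, hP⟩ := hS
  obtain ⟨T, hT⟩ := exists_sylow_inf P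
  obtain ⟨σ, hσ⟩ := exists_mat T
  rw [hT] at hP
  have h := sc_genFitting hF
  have hd : Dbl H σ := ⟨hσ.inv, hσ.fix, fun a c ha hc => hP (dbl_mem hσ ha hc)⟩
  obtain ⟨c, hcH, hc⟩ := h.exists_threeCycle (by simpa using hn) hd
    fun h1 => hP ⟨hσ.mem σ fun _ => Or.inr rfl, h1⟩
  obtain ⟨s, h5, hs⟩ := h.exists_eq_altOn hc hcH
  have h1 := Finset.card_add_card_compl s
  rw [Fintype.card_fin] at h1
  refine ⟨s.card, ?_, ⟨(Subgroup.equivMapOfInjective _ _ H.subtype_injective).trans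
    ((MulEquiv.subgroupCongr hs).trans (altOnEquiv s))⟩⟩
  by_contra h2
  have h3 : ∀ x, σ x ∈ s ↔ x ∈ s := fun x => by
    by_cases hx : σ x = x
    · rw [hx]
    obtain ⟨b, hb1, hb2, hb⟩ := exists_pair_notMem hσ.inv hσ.fix {x, σ x} (by simp [hσ.inv])
      (Finset.card_le_two.trans (by simp; omega) |> Nat.add_le_of_le_sub (by simp; omega))
    simp only [Finset.mem_insert, Finset.mem_singleton, not_or] at hb1 hb2
    have := mem_of_normalizer (by omega) (hs ▸ h.norm (hd.mem x b hx hb)) x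
    rwa [Perm.mul_apply, swap_apply_of_ne_of_ne (Ne.symm hb1.1) (Ne.symm hb2.1),
      swap_apply_left] at this
  obtain ⟨a, ha1, ha2, ha⟩ := exists_pair_notMem hσ.inv hσ.fix s (fun x => (h3 x).mpr)
    (by simp; omega)
  obtain ⟨b, hb1, hb2, hb⟩ := exists_pair_notMem hσ.inv hσ.fix (s ∪ {a, σ a})
    (by simp +contextual [hσ.inv, h3, or_imp])
    (((Finset.card_union_le _ _).trans (add_le_add le_rfl Finset.card_le_two)).trans
      (by simp; omega) |> Nat.add_le_of_le_sub (by simp; omega))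
  simp only [Finset.mem_union, Finset.mem_insert, Finset.mem_singleton, not_or] at hb1 hb2
  refine h.notMem_centralizer (hd.mem a b ha hb)
    (dbl_ne_one ha.symm (Ne.symm hb1.2.1) (Ne.symm hb2.2.1)) (card_support_dbl _ _ _ _)
    (hs ▸ mem_centralizer_altOn fun y hy => ?_)
  rw [Perm.mul_apply, swap_apply_of_ne_of_ne (ne_of_mem_of_not_mem hy hb1.1)
    (ne_of_mem_of_not_mem hy hb2.1), swap_apply_of_ne_of_ne (ne_of_mem_of_not_mem hy ha1)
    (ne_of_mem_of_not_mem hy ha2)]

end Cfsg.Agent.S2928
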