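import Cfsg.Statements.S2929
import Cfsg.Agent.Perm.ThreeGen2

set_option autoImplicit false
open Cfsg

namespace Cfsg.Agent.S2929

open Cfsg.Lib.Perm.ThreeGen Equiv Equiv.Perm MulAction in

/-- Let n ≥ 5 and let H be a subgroup of the symmetric group of degree n whose generalized Fitting subgroup F*(H) is quasisimple. If H contains a Sylow 3-subgroup of the symmetric group, then F*(H) is isomorphic to an alternating group of degree m for some m ∈ {n − 2, n − 1, n}. -/
theorem result (n : ℕ) (hn : 5 ≤ n) (H : Subgroup (Equiv.Perm (Fin n))) (hF : Cfsg.IsQuasisimple ↥(Cfsg.generalizedFittingSubgroup ↥H)) (hS : ∃ P : Sylow 3 (Equiv.Perm (Fin n)), (P : Subgroup (Equiv.Perm (Fin n))) ≤ H) : ∃ m : ℕ, (m = n - 2 ∨ m = n - 1 ∨ m = n) ∧ Nonempty (↥(Cfsg.generalizedFittingSubgroup ↥H) ≃* ↥(alternatingGroup (Fin m))) := by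
  have : Fact (Nat.Prime 3) := ⟨Nat.prime_three⟩
  obtain ⟨P, hP⟩ := hS
  have h := sc_genFitting hF
  obtain ⟨c, hc, -⟩ := exists_threeCycle (s := Finset.univ) (x := (⟨0, by omega⟩ : Fin n))
    (by simp; omega) (Finset.mem_univ _)
  obtain ⟨g, -, hg⟩ := exists_conj_mem P le_top (Subgroup.mem_top c) (k := 1) hc.orderOf
  obtain ⟨s, h5, hs⟩ := h.exists_eq_altOn (c := g * c * g⁻¹)
    (by rw [IsThreeCycle, cycleType_conj]; exact hc) (hP hg)
  have h1 := Finset.card_add_card_compl s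
  rw [Fintype.card_fin] at h1
  refine ⟨s.card, ?_, ⟨(Subgroup.equivMapOfInjective _ _ H.subtype_injective).trans
    ((MulEquiv.subgroupCongr hs).trans (altOnEquiv s))⟩⟩
  by_contra h2
  have h3 : 3 ≤ sᶜ.card := by omega
  obtain ⟨x, hx⟩ := Finset.card_pos.mp (show 0 < sᶜ.card by omega)
  obtain ⟨d, hd, hds, -⟩ := exists_threeCycle h3 hx
  have h4 : ∀ y ∈ s, d y = y := fun y hy =>
    notMem_support.mp fun h => Finset.mem_compl.mp (hds h) hy
  obtain ⟨k, hk, hkP⟩ := exists_conj_mem P (hP.trans h.norm)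
    (Subgroup.centralizer_le_normalizer _ (hs ▸ mem_centralizer_altOn h4)) (k := 1) hd.orderOf
  refine h.notMem_centralizer (hP hkP) (by simpa using hd.ne_one)
    (by rw [card_support_conj, hd.card_support]; omega) (hs ▸ mem_centralizer_altOn fun y hy => ?_)
  rw [Perm.mul_apply, Perm.mul_apply, h4 _
    ((mem_of_normalizer (by omega) (inv_mem (hs ▸ hk)) y).mpr hy)]
  exact k.apply_symm_apply y

end Cfsg.Agent.S2929
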