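import Cfsg.Statements.S2939
import Cfsg.Agent.Solv.SylowControl

set_option autoImplicit false
open Cfsg Cfsg.Lib.Solv

namespace Cfsg.Agent.S2939

/-- Let p be a prime dividing the order of the finite group G and 𝓕 a family of subgroups of G closed under conjugation, with conjugates taken as X^g = g⁻¹Xg. Then 𝓕 controls Sylow p-intersections in G (any two distinct Sylow p-subgroups S and T with S ∩ T ≠ 1 are joined by a chain S = S₀, S₁, …, Sₙ = T of Sylow p-subgroups where, for each i, some member Xᵢ of 𝓕 meets both S_{i-1} and Sᵢ in Sylow p-subgroups of Xᵢ, satisfies S ∩ T ≤ Sᵢ ∩ Xᵢ, and contains an element xᵢ with Sᵢ^{xᵢ} = S_{i-1}) if and only if 𝓕 strongly controls p-fusion in G (whenever A is a subset of a Sylow p-subgroup S, A contains an element other than 1, and A^g ⊆ S, the element g factorises as g = y₁⋯yₙy with y ∈ N_G(S) and each yᵢ in a member Yᵢ of 𝓕 that meets S in a Sylow p-subgroup of Yᵢ, with A^{y₁⋯yᵢ} ⊆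 S ∩ Yᵢ for each i). -/
theorem result {G : Type*} [Group G] [Finite G] {p : ℕ} [Fact p.Prime] (hdiv : p ∣ Nat.card G) (𝓕 : Set (Subgroup G)) (h𝓕 : Cfsg.IsNormalSet 𝓕) : Cfsg.ControlsSylowIntersections p 𝓕 ↔ Cfsg.FamilyStronglyControlsFusion p 𝓕 := by
  rw [SC.controls_iff']
  constructor
  · rintro h S A g hA ⟨a, ha, ha1⟩ hAg
    have h1 : A ⊆ ((S : Subgroup G) ⊓ ((g • S : Sylow p G) : Subgroup G) : Subgroup G) := by
      intro b hb
      refine Subgroup.mem_inf.2 ⟨hA hb, ?_⟩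
      rw [SC.coe_smul, Cfsg.Lib.Block.mem_map_conj_iff]
      exact hAg ⟨b, hb, rfl⟩
    have h2 : (S : Subgroup G) ⊓ ((g • S : Sylow p G) : Subgroup G) ≠ ⊥ := by
      intro h0
      rw [h0] at h1
      exact ha1 (Subgroup.mem_bot.1 (h1 ha))
    obtain ⟨z, hz, h3⟩ := (h S _ h2).exists_frel h𝓕 h1
    obtain ⟨n, Y, y, h4, h5, h6⟩ := SC.frel_iff_fin.1 hz
    refine ⟨n, Y, y, z⁻¹ * g, ?_, h4, by rw [← h5, mul_inv_cancel_left], h6⟩
    refine Sylow.smul_eq_iff_mem_normalizer.1 ?_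
    rw [mul_smul, h3, inv_smul_smul]
  · intro h S T h0
    obtain ⟨g, rfl⟩ := MulAction.exists_smul_eq G S T
    obtain ⟨⟨a, ha⟩, ha1⟩ := Subgroup.ne_bot_iff_exists_ne_one.1 h0
    have h1 : conjRight g (((S : Subgroup G) ⊓ ((g • S : Sylow p G) : Subgroup G) : Subgroup G) :
        Set G) ⊆ (S : Set G) := by
      rintro _ ⟨b, hb, rfl⟩
      have := (Subgroup.mem_inf.1 hb).2
      rwa [SC.coe_smul, Cfsg.Lib.Block.mem_map_conj_iff] at this
    obtain ⟨n, Y, y, y₀, h2, h3, h4, h5⟩ := h S _ g (fun b hb => (Subgroup.mem_inf.1 hb).1)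
      ⟨a, ha, fun h => ha1 (Subtype.ext h)⟩ h1
    have h6 := SC.chain_of_frel h𝓕 (SC.frel_iff_fin.2 ⟨n, Y, y, h3, rfl, h5⟩)
    have h7 : (List.ofFn y).prod • S = g • S := by
      rw [h4, mul_smul, Sylow.smul_eq_iff_mem_normalizer.2 h2]
    rwa [h7] at h6

end Cfsg.Agent.S2939
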