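import Cfsg.Statements.S2940
import Cfsg.Agent.Solv.SylowControl

set_option autoImplicit false
open Cfsg Cfsg.Lib.Solv Cfsg.Lib.Block

namespace Cfsg.Agent.S2940

/-- Let S be a Sylow p-subgroup of the finite group G and G₁, G₂ subgroups containing S with G = G₁G₂. Then for every g ∈ G there is a Sylow p-subgroup U of G with S ∩ S^g ≤ U ≤ G₁ ∩ G₂^g (conjugates taken as X^g = g⁻¹Xg). -/
theorem result {G : Type*} [Group G] [Finite G] {p : ℕ} [Fact p.Prime] (S : Sylow p G) (G₁ G₂ : Subgroup G) (h1 : (S : Subgroup G) ≤ G₁) (h2 : (S : Subgroup G) ≤ G₂) (hfact : ∀ g : G, ∃ g₁ ∈ G₁, ∃ g₂ ∈ G₂, g = g₁ * g₂) (g : G) : ∃ U : Sylow p G, (S : Subgroup G) ⊓ Cfsg.subgroupConjRight g (S : Subgroup G) ≤ (U : Subgroup G) ∧ (U : Subgroup G) ≤ G₁ ⊓ Cfsg.subgroupConjRight g G₂ := by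
  obtain ⟨a, ha, b, hb, hab⟩ := hfact g⁻¹
  have h3 : ((a • S : Sylow p G) : Subgroup G) ≤ G₁ ⊓ Cfsg.subgroupConjRight g G₂ := by
    rw [SC.coe_smul, subgroupConjRight, hab, ← map_conj_map_conj, map_conj_eq_self_of_mem hb]
    refine le_inf ?_ (Subgroup.map_mono h2)
    rw [← map_conj_eq_self_of_mem ha]
    exact Subgroup.map_mono h1
  obtain ⟨x, hx, h4⟩ := (isSylowIn_of_sylow_le _ h3).exists_le_conj
    (Q := (S : Subgroup G) ⊓ Cfsg.subgroupConjRight g (S : Subgroup G)) S.isPGroup'.to_inf_left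
    (inf_le_inf h1 (Subgroup.map_mono h2))
  refine ⟨x • a • S, h4, ?_⟩
  rw [SC.coe_smul, ← map_conj_eq_self_of_mem hx]
  exact Subgroup.map_mono h3

end Cfsg.Agent.S2940
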