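import Cfsg.Statements.S2955
import Cfsg.Agent.Solv.SylowControl
import Cfsg.Agent.Solv.SylowChain

set_option autoImplicit false
open Cfsg Cfsg.Lib.Solv

namespace Cfsg.Agent.S2955

/-- Let p be a prime dividing the order of the finite group G and 𝓕 a conjugation-closed family of subgroups that controls Sylow p-intersections in G. Suppose the Sylow p-subgroups of G are chain-connected: any two of them are joined by a chain of Sylow p-subgroups, consecutive ones distinct with nontrivial intersection, all containing the intersection of the two ends (equivalently, the graph on the Sylow p-subgroups whose edges are the distinct pairs meeting nontrivially is connected). Then for every Sylow p-subgroup S, G is generated by N_G(S) together with the members of 𝓕 that meet S in a Sylow p-subgroup of themselves. -/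
theorem result {G : Type*} [Group G] [Finite G] (p : ℕ) [Fact p.Prime] (hdiv : p ∣ Nat.card G)
    (𝓕 : Set (Subgroup G)) (h𝓕 : Cfsg.IsNormalSet 𝓕) (hc : Cfsg.ControlsSylowIntersections p 𝓕)
    (hconn : Cfsg.IsSylowChainConnected p G) (S : Sylow p G) :
    (⨆ X ∈ Cfsg.sylowMembers p 𝓕 (S : Subgroup G), X) ⊔ Subgroup.normalizer ((S : Subgroup G) : Set G) = ⊤ := by
  set K := (⨆ X ∈ Cfsg.sylowMembers p 𝓕 (S : Subgroup G), X) ⊔
    Subgroup.normalizer ((S : Subgroup G) : Set G) with hK
  have h1 : ∀ (A : Set G) (z : G), Relation.ReflTransGen (SC.FRel p 𝓕 S A) 1 z → z ∈ K := by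
    intro A z hz
    induction hz with
    | refl => exact one_mem _
    | @tail z z' _ h ih =>
      obtain ⟨Y, hY, h2, -⟩ := h
      have h3 : Y ≤ K := (le_iSup₂_of_le (f := fun X (_ : X ∈ Cfsg.sylowMembers p 𝓕
        (S : Subgroup G)) => X) Y hY le_rfl).trans le_sup_left
      simpa using mul_mem ih (h3 h2)
  have h2 : ∀ T : Sylow p G, SylowConn S T → ∃ k ∈ K, T = k • S := by
    intro T hT
    induction hT with
    | refl => exact ⟨1, one_mem _, (one_smul _ _).symm⟩
    | @tail U V _ h ih =>
      obtain ⟨k, hk, rfl⟩ := ih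
      have h3 : (S : Subgroup G) ⊓ ((k⁻¹ • V : Sylow p G) : Subgroup G) ≠ ⊥ := by
        intro h0
        apply h
        have h4 := congrArg (Subgroup.map (MulAut.conj k).toMonoidHom) h0
        rwa [Subgroup.map_inf _ _ _ (MulAut.conj k).injective, Subgroup.map_bot, ← SC.coe_smul,
          ← SC.coe_smul, smul_inv_smul] at h4
      obtain ⟨z, hz, h4⟩ := (SC.controls_iff'.1 hc S _ h3).exists_frel h𝓕 subset_rfl
      refine ⟨k * z, mul_mem hk (h1 _ z hz), ?_⟩
      rw [mul_smul, ← h4, smul_inv_smul]
  rw [eq_top_iff]
  intro g _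
  obtain ⟨k, hk, h3⟩ := h2 (g • S) (isSylowChainConnected_iff.1 hconn _ _)
  have h4 : k⁻¹ * g ∈ K := by
    apply (le_sup_right : Subgroup.normalizer ((S : Subgroup G) : Set G) ≤ K)
    refine Sylow.smul_eq_iff_mem_normalizer.1 ?_
    rw [mul_smul, h3, inv_smul_smul]
  simpa using mul_mem hk h4

end Cfsg.Agent.S2955
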