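import Cfsg.Statements.S2956
import Cfsg.Agent.Solv.SylowControl

set_option autoImplicit false
open Cfsg Cfsg.Lib.Solv Cfsg.Lib.Block

namespace Cfsg.Agent.S2956

/-- Let p be a prime dividing the order of the finite group G, and f an assignment to every p-subgroup P of a set f(P) of subgroups of P, each normalized by N_G(P), compatible with conjugation, such that for P ≠ 1 the members of f(P) are nontrivial. Let 𝓕 be the family of the normalizers N_G(F) of the members F of f(S) over the Sylow p-subgroups S of G, and 𝓕' the family of the maximal p-local subgroups M of G that are singular for f (the corresponding family of normalizers inside M does not control Sylow p-intersections in M). Then 𝓕 ∪ 𝓕' controls Sylow p-intersections in G. -/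
theorem result {G : Type*} [Group G] [Finite G] (p : ℕ) [Fact p.Prime] (hdiv : p ∣ Nat.card G)
    (f : Subgroup G → Set (Subgroup G)) (hf : Cfsg.IsNormalizerFunctor p f)
    (hf1 : ∀ P : Subgroup G, IsPGroup p ↥P → P ≠ ⊥ → ∀ F ∈ f P, F ≠ ⊥)
    (𝓕 𝓕' : Set (Subgroup G)) (h𝓕 : 𝓕 = Cfsg.functorFamily p f ⊤)
    (h𝓕' : 𝓕' = {M | Cfsg.IsMaximalPLocal p M ∧ ¬ Cfsg.IsFunctorRegular p f M}) :
    Cfsg.ControlsSylowIntersections p (𝓕 ∪ 𝓕') := by
  subst h𝓕 h𝓕'
  set 𝓗 := Cfsg.functorFamily p f ⊤ ∪
    {M | Cfsg.IsMaximalPLocal p M ∧ ¬ Cfsg.IsFunctorRegular p f M} with h𝓗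
  have hlt : ∀ {A B : Subgroup G}, A < B → Nat.card A < Nat.card B := fun h =>
    lt_of_le_of_ne (Subgroup.card_le_of_le h.le)
      fun h' => h.ne (Subgroup.eq_of_le_of_card_ge h.le h'.ge)
  have main : ∀ D : Subgroup G, D ≠ ⊥ → ∀ S T : Sylow p G, D ≤ S → D ≤ T → SC.Chain p 𝓗 D S T := by
    intro D
    induction D using WellFoundedGT.induction with
    | ind D ih =>
    intro hD
    have big : ∀ (E : Subgroup G) (S T : Sylow p G), D < E → E ≤ S → E ≤ T →
        SC.Chain p 𝓗 D S T := fun E S T hE hS hT =>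
      (ih E hE (ne_bot_of_gt hE) S T hS hT).mono subset_rfl hE.le
    have inner : ∀ (k : ℕ) (L R : Subgroup G), IsPLocal p L → R ≤ L → IsPGroup p R →
        Nat.card G - Nat.card R = k → ∀ (P Q : Subgroup G) (S T : Sylow p G), P ≤ L → Q ≤ L →
        D < P → D < Q → P ≤ S → Q ≤ T → SC.Chain p 𝓗 D S T := by
      intro k
      induction k using Nat.strong_induction_on with
      | _ k ihk =>
      intro L R hL hRL hR hk P Q S T hPL hQL hDP hDQ hPS hQT
      obtain ⟨M, hLM, hM⟩ := Finite.exists_le_maximal (p := fun M : Subgroup G => IsPLocal p M) hL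
      have hMmax : IsMaximalPLocal p M :=
        ⟨hM.prop, fun N hN hMN => le_antisymm (hM.le_of_ge hN hMN) hMN⟩
      obtain ⟨P₁, hP₁, hPP₁⟩ := exists_isSylowIn_ge (S.isPGroup'.to_le hPS) (hPL.trans hLM)
      obtain ⟨Q₁, hQ₁, hQQ₁⟩ := exists_isSylowIn_ge (T.isPGroup'.to_le hQT) (hQL.trans hLM)
      obtain ⟨S₁, hS₁⟩ := hP₁.isPGroup.exists_le_sylow
      obtain ⟨T₁, hT₁⟩ := hQ₁.isPGroup.exists_le_sylow
      have hinf : ∀ (U : Subgroup G) (V : Sylow p G), IsSylowIn p U M → U ≤ V →
          (V : Subgroup G) ⊓ M = U := fun U V hU hV =>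
        hU.eq_of_le V.isPGroup'.to_inf_left (le_inf hV hU.le) inf_le_right
      refine (big P S S₁ hDP hPS (hPP₁.trans hS₁)).trans
        (Relation.ReflTransGen.trans ?_ (big Q T₁ T hDQ (hQQ₁.trans hT₁) hQT))
      have hDP₁ : D < P₁ := hDP.trans_le hPP₁
      have hDQ₁ : D < Q₁ := hDQ.trans_le hQQ₁
      by_cases hreg : IsFunctorRegular p f M
      · have hc := (SC.isFunctorRegular_iff hf).1 hreg P₁ Q₁ hP₁ hQ₁
          (fun h => hD (le_bot_iff.1 (h ▸ le_inf hDP₁.le hDQ₁.le)))
        have hDle : D ≤ P₁ ⊓ Q₁ := le_inf hDP₁.le hDQ₁.le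
        generalize P₁ ⊓ Q₁ = A at hc hDle
        have hlt' : ∀ U : Subgroup G, IsSylowIn p U M → D ≤ U → D < U := by
          intro U hU hDU
          refine lt_of_le_of_ne hDU fun h => ?_
          have := hlt hDP₁
          rw [h, hU.card_eq_card hP₁] at this
          exact lt_irrefl _ this
        have : ∀ U : Subgroup G, Relation.ReflTransGen (SC.FStep p f M A) P₁ U →
            D ≤ U ∧ ∀ V : Sylow p G, U ≤ V → SC.Chain p 𝓗 D S₁ V := by
          intro U hU
          induction hU with
          | refl => exact ⟨hDP₁.le, fun V hV => big P₁ S₁ V hDP₁ hS₁ hV⟩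
          | @tail U U' _ h ihU =>
            obtain ⟨hDU, ihU⟩ := ihU
            have hDU' : D ≤ U' := hDle.trans h.2.2.2
            refine ⟨hDU', fun V' hV' => ?_⟩
            obtain ⟨V, hV⟩ := h.1.isPGroup.exists_le_sylow
            refine (ihU V hV).trans ?_
            by_cases hUV : U = V
            · have h1 : U' = V' := by
                apply Subgroup.eq_of_le_of_card_ge hV'
                rw [h.2.1.card_eq_card h.1, hUV, V.card_eq_multiplicity, V'.card_eq_multiplicity]
              rw [hUV, h1] at h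
              exact Relation.ReflTransGen.single
                ((SC.step_of_fstep hf h).mono Set.subset_union_left hDle)
            · obtain ⟨hU, hU', ⟨F, hF, hF'⟩, -⟩ := h
              have hU1 : U ≠ ⊥ := ne_bot_of_gt (hlt' U hU hDU)
              have h1 := lt_inf_normalizer_of_lt V.isPGroup' (lt_of_le_of_ne hV hUV)
              have h2 : Nat.card R ≤ Nat.card U := by
                obtain ⟨x, -, hx⟩ := hU.exists_conj_le hR (hRL.trans hLM)
                rw [← card_map_conj R x]
                exact Subgroup.card_le_of_le hx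
              have h3 := hlt h1
              have h4 : Nat.card ((V : Subgroup G) ⊓ Subgroup.normalizer (U : Set G) :
                  Subgroup G) ≤ Nat.card G := Subgroup.card_le_card_group _
              exact ihk _ (by omega) (Subgroup.normalizer (F : Set G))
                ((V : Subgroup G) ⊓ Subgroup.normalizer (U : Set G))
                ⟨F, hU.isPGroup.to_le ((hf U hU.isPGroup).1 F hF).1,
                  hf1 U hU.isPGroup hU1 F hF, rfl⟩
                (inf_le_right.trans ((hf U hU.isPGroup).1 F hF).2) V.isPGroup'.to_inf_left rfl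
                U U' V V' (SC.le_normalizer_of_mem hf hU.isPGroup hF)
                (SC.le_normalizer_of_mem hf hU'.isPGroup hF') (hlt' U hU hDU) (hlt' U' hU' hDU')
                hV hV'
        exact (this Q₁ hc).2 T₁ hT₁
      · obtain ⟨x, hx, hxe⟩ := hP₁.exists_conj hQ₁
        have hMH : M ∈ 𝓗 := Or.inr ⟨hMmax, hreg⟩
        have h1 : Q₁ ≤ ((x • S₁ : Sylow p G) : Subgroup G) := by
          rw [SC.coe_smul, ← hxe]
          exact Subgroup.map_mono hS₁
        refine Relation.ReflTransGen.head (b := x • S₁) ⟨M, x, ⟨hMH, ?_⟩, ⟨hMH, ?_⟩, hx, ?_, ?_⟩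
          (big Q₁ _ T₁ hDQ₁ h1 hT₁)
        · rw [hinf P₁ S₁ hP₁ hS₁]
          exact hP₁
        · rw [hinf Q₁ _ hQ₁ h1]
          exact hQ₁
        · rw [subgroupConjRight, SC.coe_smul, map_conj_map_conj, inv_mul_cancel, map_conj_one]
        · rw [hinf Q₁ _ hQ₁ h1]
          exact hDQ₁.le
    intro S T hS hT
    by_cases hST : S = T
    · subst hST
      exact Relation.ReflTransGen.refl
    have hne : ∀ U V : Sylow p G, D ≤ U → D ≤ V → U ≠ V → D < U := by
      intro U V hU hV hUV
      refine lt_of_le_of_ne hU fun h => hUV (Sylow.ext (Subgroup.eq_of_le_of_card_ge (h ▸ hV) ?_))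
      rw [V.card_eq_multiplicity, U.card_eq_multiplicity]
    have hDp : IsPGroup p D := S.isPGroup'.to_le hS
    exact inner _ (Subgroup.normalizer (D : Set G)) ⊥ ⟨D, hDp, hD, rfl⟩ bot_le IsPGroup.of_bot rfl
      _ _ S T inf_le_right inf_le_right
      (lt_inf_normalizer_of_lt S.isPGroup' (hne S T hS hT hST))
      (lt_inf_normalizer_of_lt T.isPGroup' (hne T S hT hS (Ne.symm hST))) inf_le_left inf_le_left
  rw [SC.controls_iff']
  intro S T h
  exact main _ h S T inf_le_left inf_le_right

end Cfsg.Agent.S2956
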