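import Cfsg.Statements.S2957
import Cfsg.Agent.Solv.SylowControl
import Cfsg.Agent.S2940

set_option autoImplicit false
open Cfsg Cfsg.Lib.Solv Cfsg.Lib.Block

namespace Cfsg.Agent.S2957

/-- Let p be a prime dividing the order of the finite group G, f an equivariant assignment of a set of subgroups f(P) of P to every p-subgroup P, each normalized by N_G(P), and S a Sylow p-subgroup. If G = G₁G₂ for subgroups G₁, G₂ both containing S and both regular for f (in each Gᵢ, the family of normalizers in Gᵢ of the members of f(P), P a Sylow p-subgroup of Gᵢ, controls Sylow p-intersections), then G itself is regular for f. -/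
theorem result {G : Type*} [Group G] [Finite G] (p : ℕ) [Fact p.Prime] (hdiv : p ∣ Nat.card G)
    (f : Subgroup G → Set (Subgroup G)) (hf : Cfsg.IsNormalizerFunctor p f) (S : Sylow p G)
    (G₁ G₂ : Subgroup G) (h₁ : (S : Subgroup G) ≤ G₁) (h₂ : (S : Subgroup G) ≤ G₂)
    (hprod : ∀ g : G, ∃ g₁ ∈ G₁, ∃ g₂ ∈ G₂, g = g₁ * g₂)
    (hr₁ : Cfsg.IsFunctorRegular p f G₁) (hr₂ : Cfsg.IsFunctorRegular p f G₂) :
    Cfsg.IsFunctorRegular p f ⊤ := by
  rw [SC.isFunctorRegular_iff hf] at hr₁ hr₂ ⊢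
  have lift : ∀ (M : Subgroup G) (R : Sylow p G), (R : Subgroup G) ≤ M → ∀ A P Q : Subgroup G,
      SC.FStep p f M A P Q → SC.FStep p f ⊤ A P Q := by
    intro M R hR A P Q h
    have key : ∀ U : Subgroup G, IsSylowIn p U M → IsSylowIn p U ⊤ := fun U hU =>
      (isSylowIn_of_sylow_le R le_top).of_card_eq le_top
        (hU.card_eq_card (isSylowIn_of_sylow_le R hR)) rfl
    exact ⟨key _ h.1, key _ h.2.1, h.2.2⟩
  have conj : ∀ (g : G) (M A P Q : Subgroup G), SC.FStep p f M A P Q →
      SC.FStep p f (M.map (MulAut.conj g).toMonoidHom) (A.map (MulAut.conj g).toMonoidHom)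
        (P.map (MulAut.conj g).toMonoidHom) (Q.map (MulAut.conj g).toMonoidHom) := by
    rintro g M A P Q ⟨h1, h2, ⟨F, h3, h4⟩, h5⟩
    refine ⟨h1.map_conj g, h2.map_conj g, ⟨F.map (MulAut.conj g).toMonoidHom, ?_, ?_⟩,
      Subgroup.map_mono h5⟩
    · rw [(hf P h1.isPGroup).2 g]
      exact ⟨F, h3, rfl⟩
    · rw [(hf Q h2.isPGroup).2 g]
      exact ⟨F, h4, rfl⟩
  have hmono : ∀ (A B P Q : Subgroup G), B ≤ A → Relation.ReflTransGen (SC.FStep p f ⊤ A) P Q →
      Relation.ReflTransGen (SC.FStep p f ⊤ B) P Q := fun A B P Q hBA h =>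
    Relation.ReflTransGen.mono (fun _ _ h => ⟨h.1, h.2.1, h.2.2.1, hBA.trans h.2.2.2⟩) _ _ h
  have htop : ∀ g : G, (⊤ : Subgroup G).map (MulAut.conj g).toMonoidHom = ⊤ := fun g =>
    map_conj_eq_self_of_mem (Subgroup.mem_top g)
  have conjc : ∀ (g : G) (A P Q : Subgroup G), Relation.ReflTransGen (SC.FStep p f ⊤ A) P Q →
      Relation.ReflTransGen (SC.FStep p f ⊤ (A.map (MulAut.conj g).toMonoidHom))
        (P.map (MulAut.conj g).toMonoidHom) (Q.map (MulAut.conj g).toMonoidHom) := by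
    intro g A P Q h
    refine Relation.ReflTransGen.lift (fun U : Subgroup G => U.map (MulAut.conj g).toMonoidHom)
      (fun X Y h => ?_) _ _ h
    have := conj g ⊤ A X Y h
    rwa [htop] at this
  have main : ∀ g : G, (S : Subgroup G) ⊓ (S : Subgroup G).map (MulAut.conj g).toMonoidHom ≠ ⊥ →
      Relation.ReflTransGen (SC.FStep p f ⊤
        ((S : Subgroup G) ⊓ (S : Subgroup G).map (MulAut.conj g).toMonoidHom)) (S : Subgroup G)
        ((S : Subgroup G).map (MulAut.conj g).toMonoidHom) := by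
    intro g h0
    obtain ⟨U, hU1, hU2⟩ := Cfsg.Agent.S2940.result S G₁ G₂ h₁ h₂ hprod g⁻¹
    rw [subgroupConjRight, inv_inv] at hU1 hU2
    have c1 := hr₁ S U (isSylowIn_of_sylow_le S h₁)
      (isSylowIn_of_sylow_le U (hU2.trans inf_le_left))
      (fun h => h0 (le_bot_iff.1 (h ▸ le_inf inf_le_left hU1)))
    have c1' := hmono _ _ _ _ (le_inf inf_le_left hU1)
      (Relation.ReflTransGen.mono (fun X Y h => lift G₁ S h₁ _ X Y h) _ _ c1)
    have hU3 : (U : Subgroup G).map (MulAut.conj g⁻¹).toMonoidHom ≤ G₂ := by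
      have := Subgroup.map_mono (f := (MulAut.conj g⁻¹).toMonoidHom) (hU2.trans inf_le_right)
      rwa [map_conj_map_conj, inv_mul_cancel, map_conj_one] at this
    have hinf : ((U : Subgroup G).map (MulAut.conj g⁻¹).toMonoidHom ⊓ S).map
        (MulAut.conj g).toMonoidHom = (U : Subgroup G) ⊓ (S : Subgroup G).map (MulAut.conj g).toMonoidHom := by
      rw [Subgroup.map_inf _ _ _ (MulAut.conj g).injective, map_conj_map_conj, mul_inv_cancel,
        map_conj_one]
    have c2 := hr₂ ((U : Subgroup G).map (MulAut.conj g⁻¹).toMonoidHom) S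
      (isSylowIn_of_sylow_le (g⁻¹ • U) hU3) (isSylowIn_of_sylow_le S h₂) (by
        intro h
        rw [h, Subgroup.map_bot] at hinf
        exact h0 (le_bot_iff.1 (hinf ▸ le_inf hU1 inf_le_right)))
    have c2' := conjc g _ _ _ (Relation.ReflTransGen.mono (fun X Y h => lift G₂ S h₂ _ X Y h) _ _ c2)
    rw [hinf, map_conj_map_conj, mul_inv_cancel, map_conj_one] at c2'
    exact c1'.trans (hmono _ _ _ _ (le_inf hU1 inf_le_right) c2')
  intro P Q hP hQ h0
  obtain ⟨a, -, rfl⟩ := (isSylowIn_of_sylow_le S le_top).exists_conj hP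
  obtain ⟨b, -, rfl⟩ := (isSylowIn_of_sylow_le S le_top).exists_conj hQ
  have hinf : ((S : Subgroup G) ⊓ (S : Subgroup G).map (MulAut.conj (a⁻¹ * b)).toMonoidHom).map
      (MulAut.conj a).toMonoidHom = (S : Subgroup G).map (MulAut.conj a).toMonoidHom ⊓
        (S : Subgroup G).map (MulAut.conj b).toMonoidHom := by
    rw [Subgroup.map_inf _ _ _ (MulAut.conj a).injective, map_conj_map_conj, mul_inv_cancel_left]
  have := conjc a _ _ _ (main (a⁻¹ * b) (by
    intro h
    rw [h, Subgroup.map_bot] at hinf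
    exact h0 hinf.symm))
  rwa [hinf, map_conj_map_conj, mul_inv_cancel_left] at this

end Cfsg.Agent.S2957
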