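import Cfsg.Statements.S2958
import Cfsg.Agent.Trans.Conj

set_option autoImplicit false
open Cfsg

namespace Cfsg.Agent.S2958

open Cfsg.Lib.Trans

/-- Let X, A, B be subgroups of a group G such that G is generated by the conjugates of X and every conjugate of X is contained in A or in B. Then A = G or B = G. -/
theorem result {G : Type*} [Group G] (X A B : Subgroup G) (hgen : (⨆ g : G, X.map (MulAut.conj g).toMonoidHom) = ⊤) (hcover : ∀ g : G, X.map (MulAut.conj g).toMonoidHom ≤ A ∨ X.map (MulAut.conj g).toMonoidHom ≤ B) : A = ⊤ ∨ B = ⊤ := by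
  simp only [cj_def] at hgen hcover
  by_contra hne
  push Not at hne
  have h1 : ∃ a : G, ¬ cj a X ≤ A := by
    by_contra h
    push Not at h
    exact hne.1 (eq_top_iff.mpr (hgen ▸ iSup_le h))
  have h2 : ∃ a : G, ¬ cj a X ≤ B := by
    by_contra h
    push Not at h
    exact hne.2 (eq_top_iff.mpr (hgen ▸ iSup_le h))
  obtain ⟨a, ha⟩ := h1
  obtain ⟨b, hb⟩ := h2
  -- `D` is generated by the conjugates not in `A`; it lies in `B` and is normalized by `A`
  set D := ⨆ g : {g : G // ¬ cj g X ≤ A}, cj (g : G) X with hD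
  have hDB : D ≤ B := iSup_le fun g => (hcover g).resolve_left g.2
  have hAD : ∀ x ∈ A, cj x D ≤ D := by
    intro x hx
    rw [hD, cj_iSup, iSup_le_iff]
    rintro ⟨g, hg⟩
    rw [cj_cj]
    refine le_iSup (fun g : {g : G // ¬ cj g X ≤ A} => cj (g : G) X) ⟨x * g, fun h => hg ?_⟩
    rw [cj_mul, cj_le_iff_le_cj_inv, cj_eq_of_mem (A.inv_mem hx)] at h
    exact h
  have hAN : A ≤ Subgroup.normalizer (D : Set G) := by
    intro x hx
    rw [← cj_eq_self_iff]
    refine le_antisymm (hAD x hx) ?_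
    rw [← cj_inv_le_iff_le_cj]
    exact hAD _ (A.inv_mem hx)
  have hN : Subgroup.normalizer (D : Set G) = ⊤ := by
    rw [eq_top_iff, ← hgen, iSup_le_iff]
    intro g
    by_cases hg : cj g X ≤ A
    · exact hg.trans hAN
    · exact (le_iSup (fun g : {g : G // ¬ cj g X ≤ A} => cj (g : G) X) ⟨g, hg⟩).trans Subgroup.le_normalizer
  apply hb
  have h3 : cj a X ≤ D := le_iSup (fun g : {g : G // ¬ cj g X ≤ A} => cj (g : G) X) ⟨a, ha⟩
  have h4 : cj (b * a⁻¹) D = D := cj_eq_of_mem_normalizer (hN ▸ Subgroup.mem_top _)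
  have h5 := cj_mono (b * a⁻¹) h3
  rw [h4, cj_cj, inv_mul_cancel_right] at h5
  exact h5.trans hDB

end Cfsg.Agent.S2958
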