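import Cfsg.Statements.S2962
import Cfsg.Agent.Local.ZStarElem
import Cfsg.Agent.Local.CharP
import Cfsg.Agent.Trans.LocalTools
import Cfsg.Agent.Solv.PConstrained
import Cfsg.Agent.FT.Final
-- import your own Cfsg.Agent.* helpers here

set_option autoImplicit false
open Cfsg

namespace Cfsg.Agent.S2962

open Cfsg.Lib Cfsg.Lib.Trans Cfsg.Lib.Local Subgroup
open scoped commutatorElement

section
variable {G : Type*} [Group G]

theorem commutator_mul {a b c d : G} (h1 : c * a = a * c) (h2 : c * b = b * c) (h3 : d * a = a * d)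
    (h4 : d * b = b * d) (h5 : c * d = d * c) : ⁅a * c, b * d⁆ = ⁅a, b⁆ := by
  have e1 : a * c * (b * d) = a * b * (c * d) := by
    rw [mul_assoc, ← mul_assoc c, h2]; group
  have e2 : b * d * (a * c) = b * a * (c * d) := by
    rw [mul_assoc, ← mul_assoc d, h3, h5]; group
  calc ⁅a * c, b * d⁆ = (a * c * (b * d)) * (b * d * (a * c))⁻¹ := by
        rw [commutatorElement_def]; group
    _ = ⁅a, b⁆ := by rw [e1, e2, commutatorElement_def]; group

/-- The hypotheses of the statement. -/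
structure Hyp (N Q : Subgroup G) (t : G) : Prop where
  sup : Q ⊔ N = ⊤
  two : IsPGroup 2 Q
  inf : Q ⊓ N = ⊥
  cen : t ∈ Q ⊓ centralizer (Q : Set G)
  der : t ∈ ⁅Q, Q⁆
  fix : N ⊓ centralizer (Q : Set G) = N ⊓ centralizer ({t} : Set G)

variable {N Q : Subgroup G} [hN : N.Normal] {t : G}

theorem Hyp.cj (h : Hyp N Q t) (g : G) : Hyp N (cj g Q) (g * t * g⁻¹) where
  sup := by rw [← cj_eq_of_normal g N, ← cj_sup, h.sup, cj_top]
  two := isPGroup_cj h.two g
  inf := by rw [← cj_eq_of_normal g N, ← cj_inf, h.inf, cj_bot]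
  cen := by rw [← cj_centralizer, ← cj_inf]; exact conj_mem_cj.2 h.cen
  der := by rw [← cj_commutator]; exact conj_mem_cj.2 h.der
  fix := by
    rw [← cj_centralizer, ← cj_eq_of_normal g N, ← cj_inf, h.fix, cj_inf, cj_centralizer_set,
      Set.image_singleton]

theorem Hyp.exists_mul (h : Hyp N Q t) (g : G) : ∃ q ∈ Q, ∃ n ∈ N, q * n = g := by
  have : g ∈ ((Q ⊔ N : Subgroup G) : Set G) := by rw [h.sup]; trivial
  rwa [mul_normal] at this

omit hN in
theorem Hyp.eq_one (h : Hyp N Q t) {x : G} (h1 : x ∈ Q) (h2 : x ∈ N) : x = 1 := by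
  have : x ∈ Q ⊓ N := ⟨h1, h2⟩
  rwa [h.inf] at this

omit hN in
theorem Hyp.comm (h : Hyp N Q t) {x q : G} (h1 : x ∈ N) (h2 : x * t = t * x) (hq : q ∈ Q) :
    x * q = q * x := by
  have : x ∈ N ⊓ centralizer (Q : Set G) := h.fix ▸ ⟨h1, mem_centralizer_singleton_iff.2 h2⟩
  exact (this.2 q hq).symm

theorem Hyp.conj_mem (h : Hyp N Q t) (g : G) : t⁻¹ * (g * t * g⁻¹) ∈ N := by
  obtain ⟨q, hq, n, hn, rfl⟩ := h.exists_mul g
  have h1 : q * t = t * q := h.cen.2 q hq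
  have : t⁻¹ * (q * n * t * (q * n)⁻¹) = q * (t⁻¹ * n * t⁻¹⁻¹ * n⁻¹) * q⁻¹ := by
    calc _ = t⁻¹ * (q * t) * (t⁻¹ * n * t * n⁻¹ * q⁻¹) := by group
      _ = t⁻¹ * (t * q) * (t⁻¹ * n * t * n⁻¹ * q⁻¹) := by rw [h1]
      _ = _ := by group
  rw [this]
  exact hN.conj_mem _ (N.mul_mem (hN.conj_mem n hn _) (N.inv_mem hn)) q

variable [Finite G]

omit hN in
theorem Hyp.le_centralizer (h : Hyp N Q t) {T : Subgroup G} (hT : IsPGroup 2 T) (hTN : T ≤ N)
    (hQT : Q ≤ normalizer (T : Set G)) : T ≤ centralizer (Q : Set G) := by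
  by_contra hne
  have hmem : ∀ y ∈ Q ⊔ (T ⊓ centralizer (Q : Set G)), y ∈ T → y ∈ centralizer (Q : Set G) := by
    intro y hy hyT
    have hy' : y ∈ ((Q ⊔ (T ⊓ centralizer (Q : Set G)) : Subgroup G) : Set G) := hy
    rw [coe_mul_of_right_le_normalizer_left _ _ (inf_le_right.trans (centralizer_le_normalizer _))]
      at hy'
    obtain ⟨q, hq, c, hc, rfl⟩ := hy'
    have h1 : q = 1 := h.eq_one hq (hTN (by simpa using T.mul_mem hyT (T.inv_mem hc.1)))
    rw [h1]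
    simpa using hc.2
  have hlt : Q ⊔ (T ⊓ centralizer (Q : Set G)) < Q ⊔ T :=
    lt_of_le_of_ne (sup_le_sup_left inf_le_left Q) fun e =>
      hne fun y hy => hmem y (e ▸ mem_sup_right hy) hy
  obtain ⟨y, hy, hyP, hyN⟩ := exists_mem_normalizer_of_lt (isPGroup_sup h.two hT hQT) hlt
  have hy' : y ∈ ((Q ⊔ T : Subgroup G) : Set G) := hy
  rw [coe_mul_of_left_le_normalizer_right _ _ hQT] at hy'
  obtain ⟨q, hq, x, hx, rfl⟩ := hy'
  have hxN : x ∈ normalizer ((Q ⊔ (T ⊓ centralizer (Q : Set G)) : Subgroup G) : Set G) := by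
    simpa using mul_mem (inv_mem (le_normalizer (mem_sup_left hq))) hyN
  have hxC : x ∉ centralizer (Q : Set G) := fun hc =>
    hyP (mul_mem (mem_sup_left hq) (mem_sup_right ⟨hx, hc⟩))
  obtain ⟨k, hk⟩ := hT ⟨x, hx⟩
  have hk' : x ^ 2 ^ k ∈ centralizer (Q : Set G) := by
    rw [show x ^ 2 ^ k = 1 from congrArg Subtype.val hk]; exact one_mem _
  clear hk hyN hyP hy
  induction k generalizing x with
  | zero => exact hxC (by simpa using hk')
  | succ k ih =>
    by_cases h2 : x * x ∈ centralizer (Q : Set G)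
    swap
    · exact ih (x * x) (mul_mem hx hx) (mul_mem hxN hxN) h2
        (by rwa [← pow_two, ← pow_mul, ← pow_succ'])
    have hc : ∀ a ∈ Q, a⁻¹ * (x * a * x⁻¹) ∈ centralizer (Q : Set G) := fun a ha =>
      hmem _ (mul_mem (mem_sup_left (inv_mem ha)) (mem_normalizer_conj hxN (mem_sup_left ha))) (by
        rw [show a⁻¹ * (x * a * x⁻¹) = a⁻¹ * x * a * x⁻¹ by group]
        exact mul_mem (mem_normalizer_conj' (hQT ha) hx) (inv_mem hx))
    have hinv : ∀ a ∈ Q, x * (a⁻¹ * (x * a * x⁻¹)) * x⁻¹ = (a⁻¹ * (x * a * x⁻¹))⁻¹ := fun a ha => by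
      calc _ = x * a⁻¹ * x⁻¹ * (x * x * a * (x * x)⁻¹) := by group
        _ = _ := by rw [← h2 a ha]; group
    have hcomm : ∀ a ∈ Q, ∀ b ∈ Q, a⁻¹ * (x * a * x⁻¹) * (b⁻¹ * (x * b * x⁻¹)) =
        b⁻¹ * (x * b * x⁻¹) * (a⁻¹ * (x * a * x⁻¹)) := fun a ha b hb => by
      have e : a⁻¹ * (x * a * x⁻¹) * (b⁻¹ * (x * b * x⁻¹)) =
          (a * b)⁻¹ * (x * (a * b) * x⁻¹) := by
        calc _ = a⁻¹ * (x * a * x⁻¹) * b⁻¹ * (x * b * x⁻¹) := by group
          _ = _ := by rw [← hc a ha b⁻¹ (inv_mem hb)]; group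
      have h3 := hinv _ (mul_mem ha hb)
      rw [← e] at h3
      have h4 : (a⁻¹ * (x * a * x⁻¹))⁻¹ * (b⁻¹ * (x * b * x⁻¹))⁻¹ =
          (a⁻¹ * (x * a * x⁻¹) * (b⁻¹ * (x * b * x⁻¹)))⁻¹ := by
        rw [← h3, ← hinv a ha, ← hinv b hb]; group
      rw [← mul_inv_rev, inv_inj] at h4
      exact h4.symm
    have h3 : ⁅Q, Q⁆ ≤ centralizer ({x} : Set G) := by
      rw [commutator_le]
      intro a ha b hb
      have h4 := commutator_mul (hc a ha a ha).symm (hc a ha b hb).symm (hc b hb a ha).symm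
        (hc b hb b hb).symm (hcomm a ha b hb)
      rw [mul_inv_cancel_left, mul_inv_cancel_left, ← conjugate_commutatorElement,
        mul_inv_eq_iff_eq_mul] at h4
      exact mem_centralizer_singleton_iff.2 h4.symm
    exact hxC fun a ha =>
      (h.comm (hTN hx) (mem_centralizer_singleton_iff.1 (h3 h.der)).symm ha).symm

theorem Hyp.isolated (h : Hyp N Q t) : IsIsolated t := by
  intro g hg
  have h' := h.cj g
  set t' := g * t * g⁻¹ with ht'
  have hc : t⁻¹ * t' ∈ N := h.conj_mem g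
  have hQK : Q ≤ centralizer ({t'} : Set G) := fun q hq => by
    have h1 := h.comm hc (by rw [mul_assoc, ← hg.eq]; group) hq
    rw [mem_centralizer_singleton_iff]
    calc q * t' = q * t * (t⁻¹ * t') := by group
      _ = t * (q * (t⁻¹ * t')) := by rw [h.cen.2 q hq, mul_assoc]
      _ = t' * q := by rw [← h1]; group
  have hQK' : Trans.cj g Q ≤ centralizer ({t'} : Set G) := fun q hq =>
    mem_centralizer_singleton_iff.2 (h'.cen.2 q hq)
  obtain ⟨S, hS, hQS⟩ := exists_isSylowIn_ge h'.two hQK'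
  obtain ⟨k, hk, hkS⟩ := hS.exists_cj_le h.two hQK
  have h1 := h.cj k
  have hT := h'.le_centralizer (T := S ⊓ N) hS.isPGroup.to_inf_left inf_le_right
    fun q hq => by rw [← cj_eq_self_iff, cj_inf, cj_eq_of_mem (hQS hq), cj_eq_of_normal]
  have hkt : k * t' = t' * k := mem_centralizer_singleton_iff.1 hk
  have hφ : t'⁻¹ * (k * t * k⁻¹) ∈ N := by
    have := N.mul_mem (N.inv_mem hc) (h.conj_mem k)
    rwa [show (t⁻¹ * t')⁻¹ * (t⁻¹ * (k * t * k⁻¹)) = t'⁻¹ * (k * t * k⁻¹) by group] at this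
  have hφ' : t'⁻¹ * (k * t * k⁻¹) ∈ centralizer (Trans.cj g Q : Set G) :=
    hT ⟨(S : Subgroup G).mul_mem (S.inv_mem (hQS h'.cen.1)) (hkS h1.cen.1), hφ⟩
  have hdec : ∀ a ∈ Trans.cj k Q, ∃ q ∈ Trans.cj g Q, ∃ c ∈ centralizer (Trans.cj g Q : Set G),
      q * c = a ∧ ∀ b ∈ Trans.cj k Q, c * b = b * c := fun a ha => by
    obtain ⟨q, hq, c, hc, rfl⟩ := h'.exists_mul a
    have hcS : c ∈ S := by simpa using mul_mem (inv_mem (hQS hq)) (hkS ha)
    refine ⟨q, hq, c, hT ⟨hcS, hc⟩, rfl, fun b hb => h1.comm hc ?_ hb⟩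
    have h2 : q * (k * t * k⁻¹) = k * t * k⁻¹ * q := by
      calc q * (k * t * k⁻¹) = q * t' * (t'⁻¹ * (k * t * k⁻¹)) := by group
        _ = t' * (q * (t'⁻¹ * (k * t * k⁻¹))) := by rw [h'.cen.2 q hq, mul_assoc]
        _ = _ := by rw [hφ' q hq]; group
    have h3 := h1.cen.2 _ ha
    calc c * (k * t * k⁻¹) = q⁻¹ * (q * c * (k * t * k⁻¹)) := by group
      _ = q⁻¹ * (k * t * k⁻¹ * q) * c := by rw [h3]; group
      _ = _ := by rw [← h2]; group
  have h2 : ⁅Trans.cj k Q, Trans.cj k Q⁆ ≤ Trans.cj g Q := by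
    rw [commutator_le]
    intro a ha b hb
    obtain ⟨q, hq, c, hc, rfl, hc'⟩ := hdec a ha
    obtain ⟨r, hr, d, hd, rfl, -⟩ := hdec b hb
    rw [commutator_mul (hc q hq).symm (hc r hr).symm (hd q hq).symm (hd r hr).symm, commutatorElement_def]
    · exact mul_mem (mul_mem (mul_mem hq hr) (inv_mem hq)) (inv_mem hr)
    · have h3 := hc' _ hb
      rw [← mul_assoc, ← hc r hr, mul_assoc, mul_assoc] at h3
      exact mul_left_cancel h3
  have h3 := h'.eq_one (mul_mem (inv_mem h'.cen.1) (h2 h1.der)) hφ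
  rw [inv_mul_eq_one] at h3
  have h4 : k * t' * k⁻¹ = k * t * k⁻¹ := by rw [hkt, mul_inv_cancel_right, h3]
  simpa using h4

end

/-- Let G be a finite group with G = QN, where N is a normal subgroup of G and Q is a non-abelian 2-subgroup with Q ∩ N = 1. Suppose that some nontrivial element t of Z(Q) ∩ [Q, Q] satisfies C_N(Q) = C_N(t). Then [N, Q] is solvable of odd order. -/
theorem result {G : Type*} [Group G] [Finite G] (N Q : Subgroup G) [N.Normal] (hG : Q ⊔ N = ⊤) (hQ : IsPGroup 2 ↥Q) (hQna : ¬ IsMulCommutative ↥Q) (hdisj : Q ⊓ N = ⊥) (t : G) (ht1 : t ≠ 1) (htZ : t ∈ Q ⊓ Subgroup.centralizer (Q : Set G)) (htQ : t ∈ ⁅Q, Q⁆) (hC : N ⊓ Subgroup.centralizer (Q : Set G) = N ⊓ Subgroup.centralizer ({t} : Set G)) : Group.IsSolvable ↥⁅N, Q⁆ ∧ Odd (Nat.card ↥⁅N, Q⁆) := by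
  have h : Hyp N Q t := ⟨hG, hQ, hdisj, htZ, htQ, hC⟩
  have hp : IsPGroup 2 (zpowers t) := hQ.to_le (zpowers_le.2 htZ.1)
  obtain ⟨k, hk⟩ := IsPGroup.iff_card.1 hp
  have hZ := Iso.inZStar_two h.isolated (k := k) (by rw [← Nat.card_zpowers, hk])
  have hcop := Solv.coprime_card_pPrimeCore 2 G
  have hle : ⁅N, Q⁆ ≤ pPrimeCore 2 G := by
    rw [commutator_le]
    intro n hn q hq
    have h1 := Solv.comap_centralizer_map_of_coprime (QuotientGroup.mk' (pPrimeCore 2 G))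
      (A := zpowers t) (by rw [QuotientGroup.ker_mk', hk]; exact (hcop.symm).pow_left k)
      (Or.inl inferInstance)
    have h2 : n ∈ ((centralizer (zpowers t : Set G) ⊔ pPrimeCore 2 G : Subgroup G) : Set G) := by
      rw [QuotientGroup.ker_mk'] at h1
      rw [← h1, MonoidHom.map_zpowers, zpowers_eq_closure, centralizer_closure]
      refine mem_centralizer_singleton_iff.2 ?_
      rw [← mul_inv_eq_iff_eq_mul, ← mul_inv_eq_one, ← map_inv, ← map_inv, ← map_mul, ← map_mul,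
        ← map_mul, QuotientGroup.mk'_apply, QuotientGroup.eq_one_iff]
      exact hZ n
    rw [mul_normal] at h2
    obtain ⟨c, hc, o, ho, rfl⟩ := h2
    have hoN : o ∈ N := mem_of_coprime_of_sup_eq_top hQ hG
      (hcop.coprime_dvd_left ((pPrimeCore 2 G).orderOf_dvd_natCard ho))
    have h3 := h.comm (by simpa using mul_mem hn (inv_mem hoN)) (hc t (mem_zpowers t)).symm hq
    have h4 : ⁅c * o, q⁆ = c * (o * (q * o⁻¹ * q⁻¹)) * c⁻¹ := by
      calc ⁅c * o, q⁆ = c * o * q * o⁻¹ * (q * c)⁻¹ := by rw [commutatorElement_def]; group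
        _ = _ := by rw [← h3]; group
    change ⁅c * o, q⁆ ∈ _
    rw [h4]
    exact (pPrimeCore_normal 2 G).conj_mem _
      (mul_mem ho ((pPrimeCore_normal 2 G).conj_mem _ (inv_mem ho) q)) c
  have hodd : Odd (Nat.card ↥⁅N, Q⁆) :=
    (Nat.coprime_two_right.1 hcop).of_dvd_nat (card_dvd_of_le hle)
  exact ⟨FT.odd_order_solvable hodd, hodd⟩

end Cfsg.Agent.S2962
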