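import Cfsg.Statements.S2963
import Cfsg.Agent.Trans.MPPerm
import Cfsg.Agent.Local.PMinimal

set_option autoImplicit false
open Cfsg

namespace Cfsg.Agent.S2963

open Cfsg.Lib.Trans Cfsg.Lib.Trans.MP Cfsg.Lib.Local.MSS

/-- Let n be odd. If the symmetric group of degree n is a minimal parabolic group for the prime 2, that is, a Sylow 2-subgroup is not normal and lies in exactly one maximal subgroup, then n = 2^m + 1 for some natural number m. -/
theorem result (n : ℕ) (hn : Odd n) (h : Cfsg.IsPMinimal 2 (Equiv.Perm (Fin n))) : ∃ m : ℕ, n = 2 ^ m + 1 := by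
  obtain ⟨S⟩ : Nonempty (Sylow 2 (Equiv.Perm (Fin n))) := inferInstance
  obtain ⟨h1, M, h2⟩ := (isPMinimal_iff_top (isSylowIn_top S)).1 h
  have h3 : 2 < n := by
    by_contra h3
    obtain ⟨k, hk⟩ := hn
    obtain rfl : n = 1 := by omega
    exact h2.lt.ne (Subsingleton.elim _ _)
  obtain ⟨-, -, -, k, -, hk⟩ := perm_uniq (isSylowIn_top S) h2.lt.ne
    (fun K a b => h2.le_of_lt a (lt_top_iff_ne_top.2 b)) h3 (by rintro rfl; exact absurd hn (by decide))
  exact ⟨k, hk⟩

end Cfsg.Agent.S2963
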