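import Cfsg.Statements.S2981
import Cfsg.Agent.Trans.MPHol

set_option autoImplicit false
open Cfsg

namespace Cfsg.Agent.S2981

open Subgroup Cfsg.Lib.Solv Cfsg.Lib.Trans Cfsg.Lib.Trans.MP Cfsg.Lib.Local.MSS Cfsg.Lib.Trans.TJ

/-- The local C**(G,T)-Theorem for minimal parabolic groups. Let G be a finite p-minimal group (a Sylow p-subgroup T is not normal and lies in exactly one maximal subgroup) of characteristic p (C_G(O_p(G)) ≤ O_p(G)), and suppose G ≠ C**(G,T), the subgroup generated by C_G(Ω₁(Z(T))) and N_G(J(T)) (J(T) generated by the elementary abelian p-subgroups of T of largest order). Put V = Ω₁(Z(O_p(G))) and C = C_G(V). Then there are subgroups E₁, …, E_r of G containing C such that: J(G)TC = G and the E_i C/C form an internal direct product equal to J(G)C/C; any two of the E_i are conjugate by an element of T; V = C_V(⟨E_i⟩)·∏[V, E_i] with [V, E_i, E_j] = 1 for i ≠ j; for some n ≥ 1, each E_i/C is isomorphic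 to SL₂(pⁿ), or p = 2 and to the symmetric group of degree 2ⁿ + 1; and E_i acts on [V, E_i]/C_{[V,E_i]}(E_i) as the natural two-dimensional SL₂(pⁿ)-module, respectively as the symmetric group of degree 2ⁿ+1 on its even-weight permutation module. -/
theorem result {G : Type*} [Group G] [Finite G] {p : ℕ} [Fact p.Prime] (hmin : Cfsg.IsPMinimal p G) (hG : Subgroup.centralizer (Cfsg.pCore p G : Set G) ≤ Cfsg.pCore p G) (T : Sylow p G) (hne : Cfsg.cStarStarOf p (T : Subgroup G) ≠ ⊤) : ∃ (r : ℕ) (E : Fin r → Subgroup G), (∀ i, Subgroup.centralizer (Cfsg.omegaOneCenter p (Cfsg.pCore p G) : Set G) ≤ E i) ∧ Cfsg.thompsonSubgroup p G ⊔ (T : Subgroup G) ⊔ Subgroup.centralizer (Cfsg.omegaOneCenter p (Cfsg.pCore p G) : Set G) = ⊤ ∧ (⨆ i, E i) = Cfsg.thompsonSubgroup p G ⊔ Subgroup.centralizer (Cfsg.omegaOneCenter p (Cfsg.pCore p G) : Set G) ∧ (∀ i j, i ≠ j → ⁅E i, E j⁆ ≤ Subgroup.centralizer (Cfsg.omegaOneCenter p (Cfsg.pCore p G)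 : Set G)) ∧ (∀ i, E i ⊓ (⨆ j ∈ {j | j ≠ i}, E j) ≤ Subgroup.centralizer (Cfsg.omegaOneCenter p (Cfsg.pCore p G) : Set G)) ∧ (∀ i j, ∃ t ∈ (T : Subgroup G), (E i).map (MulAut.conj t).toMonoidHom = E j) ∧ (Cfsg.omegaOneCenter p (Cfsg.pCore p G) ⊓ Subgroup.centralizer ((⨆ i, E i : Subgroup G) : Set G)) ⊔ (⨆ i, ⁅Cfsg.omegaOneCenter p (Cfsg.pCore p G), E i⁆) = Cfsg.omegaOneCenter p (Cfsg.pCore p G) ∧ (∀ i j, i ≠ j → ⁅⁅Cfsg.omegaOneCenter p (Cfsg.pCore p G), E i⁆, E j⁆ = ⊥) ∧ ∀ i, ∃ n : ℕ, 1 ≤ n ∧ ((∃ (F : Type) (_ : Field F) (_ : Fintype F), Fintype.card F = p ^ n ∧ (∃ _ : ((Subgroup.centralizer (Cfsg.omegaOneCenter p (Cfsg.pCore p G) : Set G)).subgroupOf (E i)).Normal, Nonempty (↥(E i) ⧸ (Subgroup.centralizer (Cfsg.omegaOneCenter p (Cfsg.pCore p G) : Set G)).subgroupOf (E i) ≃* Matrix.SpecialLinearGroup (Fin 2) F)) ∧ Cfsg.ActsAsSL2OnSection F ⊤ (E i) ⁅Cfsg.omegaOneCenter p (Cfsg.pCore p G), E i⁆ (⁅Cfsg.omegaOneCenter p (Cfsg.pCore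 p G), E i⁆ ⊓ Subgroup.centralizer ((E i : Subgroup G) : Set G))) ∨ (p = 2 ∧ (∃ _ : ((Subgroup.centralizer (Cfsg.omegaOneCenter p (Cfsg.pCore p G) : Set G)).subgroupOf (E i)).Normal, Nonempty (↥(E i) ⧸ (Subgroup.centralizer (Cfsg.omegaOneCenter p (Cfsg.pCore p G) : Set G)).subgroupOf (E i) ≃* Equiv.Perm (Fin (2 ^ n + 1)))) ∧ Cfsg.ActsAsOddPermModuleOnSection (2 ^ n + 1) ⊤ (E i) ⁅Cfsg.omegaOneCenter p (Cfsg.pCore p G), E i⁆ (⁅Cfsg.omegaOneCenter p (Cfsg.pCore p G), E i⁆ ⊓ Subgroup.centralizer ((E i : Subgroup G) : Set G)))) := by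
  have hS := isSylowIn_top T
  obtain ⟨h1, M, hu⟩ := (isPMinimal_iff_top hS).1 hmin
  have hQ : pCore p G ≤ T := pCoreOf_top (p := p) (G := G) ▸ pCoreOf_le_of_isSylowIn hS
  have hZ : omegaOneCenter p (T : Subgroup G) ≤ omegaOneCenter p (pCore p G) := fun x hx => by
    obtain ⟨-, b, c⟩ := mem_omegaOne_center_iff.1 hx
    exact mem_omegaOne_center_iff.2 ⟨hG (centralizer_anti hQ b), centralizer_anti hQ b, c⟩
  have hVQ : omegaOneCenter p (pCore p G) ≤ pCore p G := (omegaOne_le _).trans inf_le_left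
  have hN : ∀ K : Subgroup G, K ≤ normalizer (omegaOneCenter p (pCore p G) : Set G) := fun K =>
    (top_le_normalizer _ K).trans (normalizer_le_normalizer_omegaOne_center _)
  have h : PM p (omegaOneCenter p (pCore p G)) ⊤ T M := ⟨ea_omegaOne_center _, hN _, hS, hu,
    hu.le_ncl_of_not_le_normalizer hS h1,
    by rw [pCoreOf_top]; exact cent_symm ((omegaOne_le _).trans inf_le_right),
    fun e => hne (eq_top_iff.2 ((resOf_sup_isSylowIn hS).ge.trans (le_sup_of_le_left (sup_le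
      (e.trans (centralizer_anti hZ)) (cent_symm ((omegaOne_le _).trans inf_le_right))))))⟩
  generalize omegaOneCenter p (pCore p G) = V at *
  obtain ⟨A, hA, hA1⟩ : ∃ A, MaxEA p (T : Subgroup G) A ∧ ¬ A ≤ centralizer (V : Set G) := by
    by_contra h2
    push Not at h2
    have h3 := le_inf (J_le _) (J_le_iff.2 h2)
    rw [h.cent_le.2, pCoreOf_top] at h3
    refine hne (eq_top_iff.2 (le_sup_of_le_right ?_))
    rw [← J_eq_of_le h3 hQ]
    exact (top_le_normalizer _ _).trans (normalizer_le_normalizer_J _)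
  obtain ⟨hc, E, hE, A₀, h2, h3⟩ := h.str le_top (hA.bestOffender h.ea (hVQ.trans hQ)) hA1
  obtain ⟨r, F, a1, a2, a3, a4, a5, a6, a7, a8, a9⟩ := hE.family hc h.pMin.sylow.le
  have e1 : ∀ i, act V (pre V (F i)) = F i := fun i => act_pre (a2 i)
  have hJ : ncl E (act V T) = act V (thompsonSubgroup p G) := by
    have n1 : act V ⊤ ≤ normalizer (act V (thompsonSubgroup p G) : Set (Hol V)) :=
      act_le_normalizer_act (top_le_normalizer _ _)
    refine le_antisymm (ncl_le ((hE.mem A₀ (h2.trans (act_mono le_top)) h3).trans (ncl_le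
      (h2.trans (act_mono (hA.le_J.trans (J_sylow_le T)))) n1)) ((act_mono le_top).trans n1)) ?_
    rw [← le_pre_iff (hN _), ← J_top, J_le_iff]
    intro B hB
    obtain ⟨b1, b2⟩ := ea_of_best act_inf_centralizer (act_mono (le_top (a := B)))
      (bestOffender_act (hN B) (hB.bestOffender h.ea le_top))
    exact (le_pre_iff (hN _)).2 (hE.off_le h.pMin hc _ (act_mono le_top) b1 b2)
  have hC : centralizer (V : Set G) ≤ ⨆ i, pre V (F i) :=
    le_iSup_of_le ⟨0, a1⟩ (centralizer_le_pre _)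
  have e2 : (⨆ i, F i) = act V (⨆ i, pre V (F i)) := by
    refine le_antisymm (iSup_le fun i => (e1 i).ge.trans (act_mono (le_iSup (fun i => pre V (F i)) i)))
      ((le_pre_iff (hN _)).1 (iSup_le fun i => pre_mono (le_iSup F i)))
  have e3 : ∀ i, emb V ⁅V, pre V (F i)⁆ = ⁅emb V V, F i⁆ := fun i => by
    rw [← commutator_emb_act (hN _) le_rfl, e1]
  have hV : ∀ K : Subgroup G, ⁅V, K⁆ ≤ V := fun K => commutator_le_left_of_le_normalizer (hN K)
  refine ⟨r, fun i => pre V (F i), fun i => centralizer_le_pre _, ?_, ?_, fun i j e => ?_,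
    fun i => ?_, fun i j => ?_, ?_, fun i j e => ?_, fun i => (TypQ.pull_act (hN _) ?_).out⟩
  · rw [← pre_act (hN _), act_sup (hN _) (hN _), ← hJ, eq_top_iff, le_pre_iff (hN _), ← hE.gen]
    exact sup_le_sup_right (le_ncl _ _) _
  · rw [← pre_act (hN _), ← hJ, ← a3, e2, pre_act (hN _), sup_eq_left.2 hC]
  · refine commutator_le.2 fun a ha b hb => (ph_eq_one (hN ⊤ (mem_top _))).1 ?_
    rw [commutatorElement_def, ph_mul (hN ⊤ (mem_top _)) (hN ⊤ (mem_top _)),
      ph_mul (hN ⊤ (mem_top _)) (hN ⊤ (mem_top _)), ph_mul (hN ⊤ (mem_top _)) (hN ⊤ (mem_top _)),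
      ph_inv (hN ⊤ (mem_top _)), ph_inv (hN ⊤ (mem_top _))]
    exact mem_bot.1 (a4 i j e ▸ commutator_mem_commutator ((mem_pre_iff (hN ⊤ (mem_top _))).1 ha)
      ((mem_pre_iff (hN ⊤ (mem_top _))).1 hb))
  · intro g hg
    refine (ph_eq_one (hN ⊤ (mem_top _))).1 (mem_bot.1 (a5 i ▸ ⟨(mem_pre_iff (hN ⊤ (mem_top _))).1
      hg.1, (mem_pre_iff (hN ⊤ (mem_top _))).1 ?_⟩))
    exact (iSup₂_le fun j hj => pre_mono (le_iSup₂_of_le j hj le_rfl) : _ ≤ pre V _) hg.2
  · obtain ⟨t', ht0, e⟩ := a6 i j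
    obtain ⟨t, ht, ht', rfl⟩ := exists_ph ht0
    refine ⟨t, ht, ?_⟩
    change cj t (pre V (F i)) = pre V (F j)
    rw [← e, ← e1 i, ← act_cj ht', e1, pre_act (hN _), eq_comm, sup_eq_left,
      ← cj_eq_of_mem_normalizer (Lib.Solv.normalizer_le_normalizer_centralizer V ht')]
    exact cj_mono t (centralizer_le_pre _)
  · refine le_antisymm (sup_le inf_le_left (iSup_le fun i => hV _)) ?_
    rw [← emb_le_emb_iff le_rfl, emb_sup inf_le_left (iSup_le fun i => hV _),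
      ← emb_inf_centralizer (hN _), ← e2]
    exact a7.ge.trans (sup_le_sup_left (iSup_le fun i => (e3 i).ge.trans
      (emb_mono (le_iSup (fun i => ⁅V, pre V (F i)⁆) i))) _)
  · rw [eq_bot_iff, ← emb_le_emb_iff ((commutator_mono (hV _) le_rfl).trans (hV _)),
      ← commutator_emb_act (hN _) (hV _), e3, e1, a8 i j e]
    exact bot_le
  · rw [e1]; exact a9 i

end Cfsg.Agent.S2981
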