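import Cfsg.Statements.S2989
import Cfsg.Agent.Trans.RankOneCL

set_option autoImplicit false
open Cfsg

namespace Cfsg.Agent.S2989

open Cfsg.Lib.Trans Cfsg.Lib.Trans.TJ Cfsg.Lib.Local Subgroup

/-- Let G be a finite group and S a Sylow p-subgroup of G in the basic pushing-up situation (G ≠ 1, C_G(O_p(G)) ≤ O_p(G), S lies in a unique maximal subgroup of G, and some quotient of G is isomorphic to PSL₂ over a field of order a power of p), and suppose that S centralizes Z(J(S)), where J(S) is generated by the abelian subgroups of S of largest order (that is, J̃(S) = C_S(Z(J(S))) = S). Call a subgroup R of S centrally large if |R|·|Z(R)| is as large as possible among subgroups of S, and let S_Φ be the subgroup generated by the Frattini subgroups Φ(Q) of those minimal centrally large subgroups Q of S whose Ω₁(Z(Q)) has the largest order among minimal centrally large subgroups. Then Z(S) or S_Φ is normal in G; and if S_Φ = 1, the minimal centrally large subgroups of S are exactly the abelian subgroups of S of largest order,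 and at least one of them is elementary abelian. -/
theorem result {G : Type*} [Group G] [Finite G] {p : ℕ} [Fact p.Prime] (S : Subgroup G) (hE : Cfsg.IsPushingUpSituation p S) (hJ : S ≤ Subgroup.centralizer (Cfsg.centerThompsonAOf S : Set G)) : ((S ⊓ Subgroup.centralizer (S : Set G)).Normal ∨ ((Cfsg.frattiniOfMinimalCLJoin p ↥S).map S.subtype).Normal) ∧ (Cfsg.frattiniOfMinimalCLJoin p ↥S = ⊥ → (∀ Q : Subgroup ↥S, Cfsg.IsMinimalCentrallyLarge Q ↔ Q ∈ Cfsg.maxAbelianSubgroups ↥S) ∧ ∃ A ∈ Cfsg.maxAbelianSubgroups ↥S, Cfsg.IsElementaryAbelian p A) := by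
  obtain ⟨M, hr⟩ := exists_rankOne_of_isPushingUpSituation hE
  refine ⟨?_, fun h => ?_⟩
  · by_cases hZ : S ⊓ centralizer (S : Set G) ≤ center G
    · exact Or.inl (normal_of_le_center hZ)
    rw [map_frattiniOfMinimalCLJoin hr.isPGroup]
    exact Or.inr (hr.mod_center_of_le hZ (by rwa [centerThompsonOf_zero])).iSup_mzIn_normal
  · obtain ⟨Q, hQ⟩ := exists_mzIn p (⊤ : Subgroup S)
    have h1 : (frattini Q).map Q.subtype ≤ frattiniOfMinimalCLJoin p S :=
      le_iSup_of_le (⟨Q, mzIn_top_iff.1 hQ⟩ : {Q : Subgroup S // IsMinimalCentrallyLarge Q ∧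
        Nat.card ↥(omegaOneCenter p Q) = maxOmegaCenterOfMinimalCL p S}) le_rfl
    rw [h, Cfsg.Lib.Solv.map_frattini_eq_commutator_sup_powerClosure (hr.isPGroup.to_subgroup Q),
      sup_le_iff, le_bot_iff, le_bot_iff, Cfsg.Lib.Solv.PG.powerClosure_eq_bot_iff] at h1
    have h2 := CD.isMulCommutative_iff_commutator.2 h1.1
    have h3 := (mzIn_top_iff.1 hQ).1
    exact ⟨CD.mcl_iff_maxAb h3.1 h2, Q, CD.maxAb_of_cl_comm h3.1 h2, h2,
      fun a ha => by simpa using h1.2 a ha⟩

end Cfsg.Agent.S2989
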