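import Cfsg.Statements.S2990
import Cfsg.Agent.Trans.RankOneCL

set_option autoImplicit false
open Cfsg

namespace Cfsg.Agent.S2990

open Cfsg.Lib.Trans Cfsg.Lib.Trans.TJ Cfsg.Lib.Local Subgroup

/-- Let G be a finite group and S a Sylow p-subgroup of G in the basic pushing-up situation (G ≠ 1, C_G(O_p(G)) ≤ O_p(G), S lies in a unique maximal subgroup of G, and some quotient of G is isomorphic to PSL₂ over a field of order a power of p), and suppose that S centralizes Z(J(S)), where J(S) is generated by the abelian subgroups of S of largest order (that is, J̃(S) = C_S(Z(J(S))) = S). Call a subgroup R of S centrally large if |R|·|Z(R)| is as large as possible among subgroups of S, let Q be a minimal centrally large subgroup of S and let S_MCL be the subgroup generated by all minimal centrally large subgroups of S. Then the derived subgroup [Q, Q] is characteristic in S; Z(S) ∩ [Q, Q] or S_MCL is normal in G; and if [Q, Q] = 1, the minimal centrally large subgroups of S are exactly the abelian subgroups of S of largest order. -/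
theorem result {G : Type*} [Group G] [Finite G] {p : ℕ} [Fact p.Prime] (S : Subgroup G) (hE : Cfsg.IsPushingUpSituation p S) (hJ : S ≤ Subgroup.centralizer (Cfsg.centerThompsonAOf S : Set G)) (Q : Subgroup ↥S) (hQ : Cfsg.IsMinimalCentrallyLarge Q) : (⁅Q, Q⁆).Characteristic ∧ (((S ⊓ Subgroup.centralizer (S : Set G)) ⊓ (⁅Q, Q⁆).map S.subtype).Normal ∨ ((Cfsg.minimalCentrallyLargeJoin ↥S).map S.subtype).Normal) ∧ (⁅Q, Q⁆ = ⊥ → ∀ R : Subgroup ↥S, Cfsg.IsMinimalCentrallyLarge R ↔ R ∈ Cfsg.maxAbelianSubgroups ↥S) := by
  obtain ⟨M, hr⟩ := exists_rankOne_of_isPushingUpSituation hE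
  refine ⟨characteristic_iff_map_eq.2 fun φ => ?_, ?_, fun h R => CD.mcl_iff_maxAb hQ.1
    (CD.isMulCommutative_iff_commutator.2 h) R⟩
  · rw [map_commutator]
    exact CD.mcl_commutator_eq (CD.mcl_map φ hQ) hQ
  by_cases hZ : S ⊓ centralizer (S : Set G) ≤ center G
  · exact Or.inl (normal_of_le_center (inf_le_left.trans hZ))
  have hm := hr.mod_center_of_le hZ (by rwa [centerThompsonOf_zero])
  by_cases hall : ∀ R, MCLIn S R → R ≤ pCore p G
  · rw [map_minimalCentrallyLargeJoin]
    exact Or.inr (hm.sSup_mclIn_normal hall)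
  push Not at hall
  obtain ⟨R, hR, hRT⟩ := hall
  refine Or.inl (normal_of_le_center (le_trans ?_
    (hm.inf_commutator_le_center (mclIn_map_subtype.2 hQ) hR hRT)))
  rw [map_commutator, ← hr.Z_eq]
  exact le_inf inf_le_right (inf_le_left.trans inf_le_left)

end Cfsg.Agent.S2990
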