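import Cfsg.Statements.S2999
import Cfsg.Agent.Trans.MPK

set_option autoImplicit false
open Cfsg

namespace Cfsg.Agent.S2999

open Subgroup Cfsg.Lib.Trans Cfsg.Lib.Trans.MP Cfsg.Lib.Gold Cfsg.Lib.Local.MSS Cfsg.Lib.Trans.TJ

/-- Let p be a prime and let P and V be subgroups of a finite group with V elementary abelian, P normalizing V and acting faithfully on it (P ∩ C(V) = 1). Suppose P is p-minimal (a Sylow p-subgroup T of P is not normal and lies in a unique maximal subgroup M of P) and A ≤ T is an elementary abelian subgroup such that: |V/C_V(A)| ≤ |A| while |A₀|·|C_V(A₀)| < |A|·|C_V(A)| for every nontrivial proper subgroup A₀ of A; [C_V(T), P] ≠ 1; and P = ⟨A, xAx⁻¹⟩ for every x ∈ P outside M. Then, with q = |A|, there is a field F with q elements such that P ≅ SL₂(F), C_V(A) = [V, A]·C_V(P), and P acts on V/C_V(P) as SL₂(F) on its natural two-dimensional module. -/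
theorem result {G : Type*} [Group G] [Finite G] {p : ℕ} [Fact p.Prime] (V P : Subgroup G) (hV : Cfsg.IsElementaryAbelian p V) (hPV : P ≤ Subgroup.normalizer (V : Set G)) (hfaith : P ⊓ Subgroup.centralizer (V : Set G) = ⊥) (hmin : Cfsg.IsPMinimal p ↥P) (T : Sylow p ↥P) (M : Subgroup ↥P) (hM : IsCoatom M) (hTM : (T : Subgroup ↥P) ≤ M) (A : Subgroup G) (hAT : A ≤ ((T : Subgroup ↥P).map P.subtype)) (hAel : Cfsg.IsElementaryAbelian p A) (hi : Nat.card ↥V ≤ Nat.card ↥A * Nat.card ↥(V ⊓ Subgroup.centralizer ((A : Subgroup G) : Set G)) ∧ ∀ A₀ : Subgroup G, A₀ ≤ A → A₀ ≠ ⊥ → A₀ ≠ A → Nat.card ↥A₀ * Nat.card ↥(V ⊓ Subgroup.centralizer ((A₀ : Subgroup G) : Set G)) < Nat.card ↥A * Nat.card ↥(V ⊓ Subgroup.centralizer ((A : Subgroup G) : Set G))) (hii : ⁅(V ⊓ Subgroup.centralizer ((((T : Subgroup ↥P).map P.subtype) : Subgroup G) : Set G)), P⁆ ≠ ⊥) (hiii : ∀ x : ↥P, x ∉ M → A ⊔ A.map (MulAut.conj (x : G)).toMonoidHom = P) : ∃ (F : Type)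 (_ : Field F) (_ : Fintype F), Fintype.card F = Nat.card ↥A ∧ Nonempty (↥P ≃* Matrix.SpecialLinearGroup (Fin 2) F) ∧ (V ⊓ Subgroup.centralizer ((A : Subgroup G) : Set G)) = ⁅V, A⁆ ⊔ (V ⊓ Subgroup.centralizer ((P : Subgroup G) : Set G)) ∧ Cfsg.ActsAsSL2OnSection F ⊤ P V (V ⊓ Subgroup.centralizer ((P : Subgroup G) : Set G)) := by
  have hT := isSylowIn_map_subtype T
  have hTM' : (T : Subgroup P).map P.subtype ≤ M.map P.subtype := map_mono hTM
  have hmem : ∀ x (hx : x ∈ P), x ∉ M.map P.subtype → A ⊔ cj x A = P := fun x hx hxM =>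
    hiii ⟨x, hx⟩ fun h => hxM ⟨_, h, rfl⟩
  have hlt : M.map P.subtype < P := by
    refine lt_of_le_of_ne (map_subtype_le _) fun e => hM.1 (eq_top_iff.2 fun x _ => ?_)
    obtain ⟨y, hy, e'⟩ := e.ge x.2
    exact (Subtype.ext e' : y = x) ▸ hy
  have hAP : A ≤ P := hAT.trans hT.le
  have hc : LConf p P (M.map P.subtype) A :=
    ⟨⟨(sup_le hAT (pCoreOf_le_of_isSylowIn hT)).trans hTM', hlt, fun X h1 h2 x hx => by
      by_contra hxM
      exact h2.not_ge ((hmem x (h2.le hx) hxM).ge.trans (sup_le (le_sup_left.trans h1)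
        (cj_le_of_mem_of_le hx (le_sup_left.trans h1))))⟩,
      fun x hx hxM => by rw [hmem x hx hxM]; exact sup_eq_left.2 (pCoreOf_le P),
      ea_isPGroup hAel⟩
  have hA : MinOff p V A := ⟨hAel, fun e => by
    obtain ⟨y, hy, hyM⟩ := hc.exists_not_mem
    have := hmem y hy hyM
    rw [e, cj_bot, sup_bot_eq] at this
    exact not_lt_bot (hlt.trans_eq this.symm), hi.1, hi.2⟩
  rw [Ne, commutator_eq_bot_iff_le_centralizer] at hii
  obtain ⟨x, hx, hxP⟩ := SetLike.not_le_iff_exists.1 hii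
  obtain ⟨g, hg, hgM, h⟩ := k_lemma hV hPV hfaith hc hA hx.1
    (centralizer_anti (sup_le hAT (pCoreOf_le_of_isSylowIn hT)) hx.2) hxP
  have h1 := h.cover
  obtain ⟨F, _, _, h2, h3, θ, ψ, h4⟩ := h.exists_sl2
  rw [hmem g hg hgM] at h1 h3 h4
  exact ⟨F, inferInstance, inferInstance, h2, h3, h1, h4.actsAs⟩

end Cfsg.Agent.S2999
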