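import Cfsg.Statements.S3003
import Cfsg.Agent.Solv.CoprimeGen
import Cfsg.Agent.Solv.Cores
import Cfsg.Agent.Solv.PGroupNormal
import Cfsg.Agent.Trans.Conj

set_option autoImplicit false
open Cfsg

namespace Cfsg.Agent.S3003

open Cfsg.Lib Cfsg.Lib.Trans

/-- Let G be a finite group, p a prime and Q a large p-subgroup of G: C_G(Q) ≤ Q and N_G(U) ≤ N_G(Q) for every nontrivial subgroup U of C_G(Q). Let Q ≤ G₁ ≤ G, let R be a subgroup of order prime to p normalized by G₁, and let U ≤ G₁ be a p-subgroup. If U contains a nontrivial element which is G₁-conjugate to an element of Z(Q), then C_R(U) = 1. In particular, if U is elementary abelian of order at least p² and every maximal subgroup of U contains a nontrivial element G₁-conjugate into Z(Q), then R = 1. -/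
theorem result {G : Type*} [Group G] [Finite G] {p : ℕ} [Fact p.Prime] (Q : Subgroup G) (hQp : IsPGroup p ↥Q) (hlarge : Cfsg.IsLarge Q) (G₁ : Subgroup G) (hQG : Q ≤ G₁) (R : Subgroup G) (hR : (Nat.card ↥R).Coprime p) (hGR : G₁ ≤ Subgroup.normalizer (R : Set G)) (U : Subgroup G) (hUG : U ≤ G₁) (hUp : IsPGroup p ↥U) : ((∃ x ∈ U, x ≠ 1 ∧ ∃ g ∈ G₁, g * x * g⁻¹ ∈ Q ⊓ Subgroup.centralizer (Q : Set G)) → R ⊓ Subgroup.centralizer (U : Set G) = ⊥) ∧ (Cfsg.IsElementaryAbelian p U → p ^ 2 ≤ Nat.card ↥U → (∀ U₀ : Subgroup G, U₀ ≤ U → IsCoatom (U₀.subgroupOf U) → ∃ x ∈ U₀, x ≠ 1 ∧ ∃ g ∈ G₁, g * x * g⁻¹ ∈ Q ⊓ Subgroup.centralizer (Q : Set G)) → R = ⊥) := by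
  classical
  have hp : p.Prime := Fact.out
  have hQR : Q ⊓ R = ⊥ := Solv.inf_eq_bot_of_isPGroup_of_coprime hQp hR
  have key : ∀ U : Subgroup G, (∃ x ∈ U, x ≠ 1 ∧ ∃ g ∈ G₁, g * x * g⁻¹ ∈ Q ⊓ Subgroup.centralizer (Q : Set G)) →
      R ⊓ Subgroup.centralizer (U : Set G) = ⊥ := by
    rintro U ⟨x, hxU, hx1, g, hg, hy⟩
    set y := g * x * g⁻¹ with hydef
    have hy1 : y ≠ 1 := fun e => hx1 (by
      have : x = g⁻¹ * y * g := by rw [hydef]; group
      rw [this, e]; group)
    set C := R ⊓ Subgroup.centralizer ({y} : Set G) with hC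
    have hCN : C ≤ Subgroup.normalizer (Q : Set G) := by
      refine inf_le_right.trans (le_trans ?_ (hlarge.2 (Subgroup.zpowers y)
        (by rw [Subgroup.zpowers_le]; exact hy.2) (by simpa using hy1)))
      intro c hc
      apply mem_normalizer_of_cj_le
      rw [cj_zpowers, conj_eq_of_mem_centralizer hc (Set.mem_singleton y)]
    have hQC : Q ≤ Subgroup.normalizer (C : Set G) := by
      refine Solv.le_normalizer_inf (hQG.trans hGR) (le_trans ?_ Subgroup.le_normalizer)
      intro q hq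
      rw [Subgroup.mem_centralizer_singleton_iff]
      exact hy.2 q hq
    have hCQ : C ⊓ Q = ⊥ := by
      rw [eq_bot_iff, ← hQR]
      exact le_inf inf_le_right (inf_le_left.trans inf_le_left)
    have h1 : C ≤ Q := (Solv.le_centralizer_of_disjoint hCN hQC hCQ).trans hlarge.1
    have h2 : C = ⊥ := by rw [← hCQ]; exact (inf_eq_left.2 h1).symm
    rw [eq_bot_iff]
    intro r hr
    have h3 : g * r * g⁻¹ ∈ C := by
      refine Subgroup.mem_inf.2 ⟨mem_normalizer_conj (hGR hg) hr.1, ?_⟩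
      rw [Subgroup.mem_centralizer_singleton_iff, hydef]
      have := hr.2 x hxU
      calc g * r * g⁻¹ * (g * x * g⁻¹) = g * (r * x) * g⁻¹ := by group
        _ = g * x * g⁻¹ * (g * r * g⁻¹) := by rw [← this]; group
    rw [h2, Subgroup.mem_bot] at h3
    rw [Subgroup.mem_bot]
    have : r = g⁻¹ * (g * r * g⁻¹) * g := by group
    rw [this, h3]; group
  refine ⟨key U, ?_⟩
  intro hU hcard hmax
  haveI := hU.1
  have hUb : U ≠ ⊥ := by
    intro e
    rw [e, Subgroup.card_bot] at hcard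
    nlinarith [hp.two_le]
  rw [eq_bot_iff]
  refine Solv.Coprime.le_of_forall_hyperplane (A := U) (p := p) hU.2 hUb (hUG.trans hGR)
    (Solv.coprime_card_of_isPGroup hUp hR) ?_
  intro B hB hBi
  refine (key B (hmax B hB ?_)).le
  exact Solv.PG.isCoatom_of_index_prime (by rw [← Subgroup.relIndex, hBi]; exact hp)

end Cfsg.Agent.S3003
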