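import Cfsg.Statements.S3008
import Cfsg.Agent.Local.CLReplace

set_option autoImplicit false
open Cfsg

namespace Cfsg.Agent.S3008

open Cfsg.Lib.Local.CD

/-- Let P be a finite p-group, with J(P) generated by its abelian subgroups of largest order and J̃(P) = C_P(Z(J(P))); call R ≤ P centrally large if |R|·|Z(R)| is as large as possible, and let P_MCL be generated by the minimal centrally large subgroups. Then: for every centrally large Q, Q·J(P) ⊇ J̃(P); some minimal centrally large subgroup of P is normalized by both J(P) and P_MCL; if P = J(P) and d(P)² = |P|·|Z(P)|, where d(P) is the largest order of an abelian subgroup, then every minimal centrally large subgroup of P is abelian; and if every minimal centrally large subgroup is abelian then J̃(P) = J(P). -/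
theorem result {p : ℕ} [Fact p.Prime] (P : Type*) [Group P] [Finite P] (hP : IsPGroup p P) : (∀ Q : Subgroup P, Cfsg.IsCentrallyLarge Q → Subgroup.centralizer ((Cfsg.thompsonSubgroupA P ⊓ Subgroup.centralizer (Cfsg.thompsonSubgroupA P : Set P) : Subgroup P) : Set P) ≤ Q ⊔ Cfsg.thompsonSubgroupA P) ∧ (∃ Q : Subgroup P, Cfsg.IsMinimalCentrallyLarge Q ∧ Cfsg.thompsonSubgroupA P ≤ Subgroup.normalizer (Q : Set P) ∧ Cfsg.minimalCentrallyLargeJoin P ≤ Subgroup.normalizer (Q : Set P)) ∧ (Cfsg.thompsonSubgroupA P = ⊤ → (∀ A ∈ Cfsg.maxAbelianSubgroups P, Nat.card ↥A ^ 2 = Nat.card P * Nat.card ↥(Subgroup.center P)) → ∀ Q : Subgroup P, Cfsg.IsMinimalCentrallyLarge Q → IsMulCommutative ↥Q) ∧ ((∀ Q : Subgroup P, Cfsg.IsMinimalCentrallyLarge Q → IsMulCommutative ↥Q) → Subgroup.centralizer ((Cfsg.thompsonSubgroupA P ⊓ Subgroup.centralizer (Cfsg.thompsonSubgroupA P : Set P) : Subgroup P) : Set P) = Cfsg.thompsonSubgroupA P) := by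
  rw [thompsonA_inf_centralizer]
  have := hP.isNilpotent
  refine ⟨fun Q hQ => centralizer_centralizer_thompsonA_le hQ,
    exists_mcl_normalized_by_thompson P, fun hJ hd Q hQ => ?_, fun h => ?_⟩
  · obtain ⟨A, hA⟩ := exists_maxAb P
    have h1 := cl_sup_thompsonA hQ.1
    rw [hJ, sup_top_eq] at h1
    have h2 : Nat.card (⊤ : Subgroup P) *
      Nat.card (Subgroup.centralizer ((⊤ : Subgroup P) : Set P)) = _ := cl_large h1
    rw [Subgroup.coe_top, Subgroup.centralizer_univ, Subgroup.card_top, ← hd A hA, pow_two] at h2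
    have h3 : IsCentrallyLarge A := (cl_of_card_le (Z := A)
      (by rw [maxAb_centralizer hA, inf_idem]) h2.ge).1
    exact ((mcl_iff_maxAb h3 hA.1 Q).mp hQ).1
  · obtain ⟨Q, hQ⟩ := exists_mcl P
    apply le_antisymm _ (le_centralizer_centralizer _)
    refine (centralizer_centralizer_thompsonA_le hQ.1).trans (sup_le ?_ le_rfl)
    exact le_thompsonA (maxAb_of_cl_comm hQ.1 (h Q hQ))

end Cfsg.Agent.S3008
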