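import Cfsg.Statements.S3009
import Cfsg.Agent.Trans.SL2Nat

set_option autoImplicit false
open Cfsg

open Subgroup Cfsg.Lib Cfsg.Lib.Solv Cfsg.Lib.Trans.SL2Nat

namespace Cfsg.Agent.S3009

/-- Let p be a prime and let G and V be subgroups of a finite group with V elementary abelian and normalized by G, and G isomorphic to SL₂(F) for a finite field F with pⁿ elements. Suppose G acts irreducibly and nontrivially on V by conjugation (no G-invariant subgroups of V other than 1 and V, and [V, G] ≠ 1), and let S be a Sylow p-subgroup of G and V₀ = C_V(S). If [V, S, S] = 1 or |V| ≤ |V₀|², then G acts on V as SL₂(F) on its natural two-dimensional module; in particular |V| = |F|². -/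
theorem result {X : Type*} [Group X] [Finite X] {p : ℕ} [Fact p.Prime] (G V : Subgroup X) (hV : Cfsg.IsElementaryAbelian p V) (hGV : G ≤ Subgroup.normalizer (V : Set X)) (F : Type) [Field F] [Fintype F] (n : ℕ) (hF : Fintype.card F = p ^ n) (hG : Nonempty (↥G ≃* Matrix.SpecialLinearGroup (Fin 2) F)) (hirr : ∀ U : Subgroup X, U ≤ V → G ≤ Subgroup.normalizer (U : Set X) → U = ⊥ ∨ U = V) (hnt : ⁅V, G⁆ ≠ ⊥) (S : Sylow p ↥G) (hyp : ⁅⁅V, (S : Subgroup ↥G).map G.subtype⁆, (S : Subgroup ↥G).map G.subtype⁆ = ⊥ ∨ Nat.card ↥V ≤ Nat.card ↥(V ⊓ Subgroup.centralizer (((S : Subgroup ↥G).map G.subtype : Subgroup X) : Set X)) ^ 2) : Cfsg.ActsAsSL2OnSection F ⊤ G V ⊥ := by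
  have := charP_of_card_eq_prime_pow hF
  obtain ⟨e, he⟩ := exists_equiv hG.some S
  let _ : CommGroup V := { (inferInstance : Group V) with mul_comm := hV.1.is_comm.comm }
  let ρ : Matrix.SpecialLinearGroup (Fin 2) F →* Module.End ℤ (Additive V) :=
    { toFun := fun g => (MonoidHom.toAdditive
        (conjAutOf V G hGV (e.symm g)).toMonoidHom).toIntLinearMap
      map_one' := by ext; simp
      map_mul' := fun g h => by ext; simp [mul_assoc] }
  have hρ : ∀ g (v : Additive V), ((ρ g v).toMul : X) = e.symm g * v.toMul * (e.symm g : X)⁻¹ :=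
    fun _ _ => rfl
  have hi : ∀ M : AddSubgroup (Additive V), (∀ g, ∀ x ∈ M, ρ g x ∈ M) → M = ⊥ ∨ M = ⊤ := fun M hM => by
    rcases hirr ((AddSubgroup.toSubgroup' M).map V.subtype) (map_subtype_le _) fun g hg =>
      mem_normalizer_of_conj_mem (by
        rintro _ ⟨v, hv, rfl⟩
        exact ⟨_, hM (e ⟨g, hg⟩) (.ofMul v) hv, (hρ (e ⟨g, hg⟩) (.ofMul v)).trans (by simp)⟩)
      with h | h
    · exact Or.inl (eq_bot_iff.2 fun v hv => Subtype.ext (h.le ⟨v.toMul, hv, rfl⟩))
    · refine Or.inr (eq_top_iff.2 fun v _ => ?_)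
      obtain ⟨w, hw, h1⟩ := h.ge v.toMul.2
      obtain rfl : Additive.ofMul w = v := congrArg Additive.ofMul (Subtype.ext h1 : w = v.toMul)
      exact hw
  have hn : ∃ g x, ρ g x ≠ x := by
    by_contra! h
    refine hnt (commutator_eq_bot_iff_le_centralizer.2 fun v hv g hg => ?_)
    have := hρ (e ⟨g, hg⟩) (.ofMul ⟨v, hv⟩)
    rw [h] at this
    simpa [mul_inv_eq_iff_eq_mul] using this.symm
  have hI : ∀ x, V0 ρ x → V1 ρ x → x = 0 := fun x h0 h1 => by
    let M : AddSubgroup (Additive V) :=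
      { carrier := {x | ∀ g, ρ g x = x}
        zero_mem' := fun _ => map_zero _
        add_mem' := fun h k g => by rw [map_add, h, k]
        neg_mem' := fun h g => by rw [map_neg, h] }
    rcases hi M fun g y hy => by rwa [hy] with h | h
    · refine h.le fun g => ?_
      exact (Class.sl2_eq_top_of_slU_slV ((MulAction.stabilizer (Module.End ℤ (Additive V))ˣ x).comap
        ρ.toHomUnits) h0 h1).ge (mem_top g)
    · obtain ⟨g, y, hy⟩ := hn
      exact absurd (h.ge (AddSubgroup.mem_top y) g) hy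
  have h0 : ∀ x, V0 ρ x ↔ (x.toMul : X) ∈ centralizer ((S : Subgroup G).map G.subtype : Set X) :=
    fun x => ⟨by
      rintro h _ ⟨s, hs, rfl⟩
      obtain ⟨b, hb⟩ := (he s).1 hs
      have := hρ (Class.slU b) x
      rw [h, hb] at this
      simpa [mul_inv_eq_iff_eq_mul] using this.symm, fun h t => Subtype.ext ((hρ _ _).trans
        (mul_inv_eq_iff_eq_mul.2 (h _ ⟨_, (he _).2 ⟨t, by simp⟩, rfl⟩)))⟩
  obtain ⟨x, hx, hx0⟩ : ∃ x, W1 ρ x ∧ x ≠ 0 := by
    rcases hyp with h | h
    · refine exists_W1_of_quad hI (fun t x => (h0 _).2 (commutator_eq_bot_iff_le_centralizer.1 h ?_)) hn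
      rw [commutator_comm]
      have := commutator_mem_commutator (mem_map_of_mem G.subtype ((he _).2 ⟨t, (e.apply_symm_apply _).symm⟩))
        x.toMul.2
      rw [commutatorElement_def] at this
      simpa [hρ, div_eq_mul_inv] using this
    · refine exists_W1_of_card hI (p := p) (fun x => Subtype.ext (hV.2 _ x.toMul.2)) (h.trans ?_) hn
      refine Nat.pow_le_pow_left (Nat.card_le_card_of_injective
        (fun v => (⟨.ofMul ⟨v.1, v.2.1⟩, (h0 _).2 v.2.2⟩ : {x // V0 ρ x})) fun v w h => ?_) _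
      exact Subtype.ext (congrArg (fun y => (y.1.toMul : X)) h)
  obtain ⟨ψ, hψ⟩ := exists_nat hI hi hx hx0
  refine ⟨hGV, bot_le, e.toMonoidHom, AddMonoidHom.toMultiplicativeRight ψ.symm.toAddMonoidHom,
    MonoidHom.range_eq_top.2 e.surjective, ψ.symm.surjective, fun u => ?_, fun g u => ?_⟩
  · rw [mem_bot, OneMemClass.coe_eq_one]
    exact ψ.symm.map_eq_zero_iff
  · refine ⟨(ρ (e g) (.ofMul u)).toMul, by simpa using hρ (e g) (.ofMul u), ?_⟩
    show ψ.symm (ρ (e g) (.ofMul u)) = (e g).1.mulVec (ψ.symm (.ofMul u))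
    rw [AddEquiv.symm_apply_eq, ← hψ, AddEquiv.apply_symm_apply]

end Cfsg.Agent.S3009
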