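import Cfsg.Statements.S3011
import Cfsg.Agent.S0200
import Cfsg.Agent.Solv.Cores

set_option autoImplicit false
open Cfsg

namespace Cfsg.Agent.S3011

open Cfsg.Lib

theorem sq_ne {G : Type*} [Group G] [Finite G] {x : G} (hx : Odd (orderOf x)) (h : x⁻¹ = x) : x = 1 := by
  have h2 : x ^ 2 = 1 := by rw [pow_two]; nth_rewrite 1 [← h]; exact inv_mul_cancel x
  have := orderOf_dvd_of_pow_eq_one h2
  exact orderOf_eq_one_iff.1 (Nat.Coprime.eq_one_of_dvd (Nat.coprime_two_right.2 hx) this)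

theorem comm_of_sq {G : Type*} [Group G] [Finite G] {x w : G} (hx : Odd (orderOf x)) (h : Commute w (x ^ 2)) :
    Commute w x := by
  have e3 : x ∈ Subgroup.zpowers (x ^ 2) := by
    rw [mem_zpowers_pow_iff]
    exact Nat.coprime_two_left.2 hx
  obtain ⟨n, hn⟩ := e3
  have := h.zpow_right n
  simp only at hn
  rwa [hn] at this

/-- Let G be a finite group and V a nontrivial elementary abelian 2-subgroup of G of order at most 4 such that, whenever an element of V inverts an element h of G of odd order, some nontrivial element of V commutes with h. Then V meets O₂(G) nontrivially. (The case of order at most 4 has a short argument from the Baer–Suzuki theorem.) -/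
theorem result {G : Type*} [Group G] [Finite G] (V : Subgroup G) (hV : Cfsg.IsElementaryAbelian 2 V) (hV1 : V ≠ ⊥) (hS : Cfsg.IsSidkiPair V) (h4 : Nat.card V ≤ 4) : V ⊓ Cfsg.pCore 2 G ≠ ⊥ := by
  classical
  haveI : Fact (Nat.Prime 2) := ⟨Nat.prime_two⟩
  intro hbot
  have hcomm : ∀ a ∈ V, ∀ b ∈ V, a * b = b * a := fun a ha b hb =>
    congrArg Subtype.val (hV.1.is_comm.comm (⟨a, ha⟩ : V) ⟨b, hb⟩)
  have hsq : ∀ a ∈ V, a * a = 1 := fun a ha => by rw [← pow_two]; exact hV.2 a ha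
  have key : ∀ v ∈ V, v ≠ 1 → ∃ h : G, h ≠ 1 ∧ Odd (orderOf h) ∧ v * h * v⁻¹ = h⁻¹ ∧
      ∃ w ∈ V, w ≠ 1 ∧ w ≠ v ∧ w * h = h * w := by
    intro v hv hv1
    obtain ⟨h, h1, h2, h3⟩ := Cfsg.Agent.S0200.result v (orderOf_eq_prime (hV.2 v hv) hv1) (by
      intro N hN hN2 hvN
      have : v ∈ V ⊓ Cfsg.pCore 2 G := ⟨hv, Solv.le_pCore hN hN2 hvN⟩
      rw [hbot] at this
      exact hv1 this)
    obtain ⟨w, hw, hw1, hwh⟩ := hS h v hv h2 h3
    refine ⟨h, h1, h2, h3, w, hw, hw1, ?_, hwh⟩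
    rintro rfl
    apply h1
    apply sq_ne h2
    rw [← h3, hwh]; group
  obtain ⟨⟨v, hv⟩, hv1⟩ := Subgroup.ne_bot_iff_exists_ne_one.1 hV1
  have hv1' : v ≠ 1 := fun e => hv1 (Subtype.ext e)
  obtain ⟨x, hx1, hxo, hvx, c, hc, hc1, hcv, hcx⟩ := key v hv hv1'
  obtain ⟨y, hy1, hyo, hcy, b, hb, hb1, hbc, hby⟩ := key c hc hc1
  -- the elements of `V`
  have hall : ∀ b ∈ V, ∀ c ∈ V, b ≠ 1 → c ≠ 1 → b ≠ c → ∀ u ∈ V, u = 1 ∨ u = b ∨ u = c ∨ u = b * c := by
    intro b hb c hc hb1 hc1 hbc u hu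
    by_contra hne
    simp only [not_or] at hne
    obtain ⟨n1, n2, n3, n4⟩ := hne
    have n5 : b * c ≠ 1 := fun e => hbc (by
      have := hsq b hb
      rw [← e] at this
      exact mul_left_cancel this)
    have n6 : b * c ≠ b := fun e => hc1 (by simpa using e)
    have n7 : b * c ≠ c := fun e => hb1 (by simpa using e)
    have hsub : ((({u, b * c, b, c, 1} : Finset G)) : Set G) ⊆ V := by
      intro t ht
      simp only [Finset.coe_insert, Finset.coe_singleton, Set.mem_insert_iff, Set.mem_singleton_iff] at ht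
      rcases ht with rfl | rfl | rfl | rfl | rfl
      exacts [hu, V.mul_mem hb hc, hb, hc, V.one_mem]
    have h5 := Set.ncard_le_ncard hsub
    rw [Set.ncard_coe_finset, Finset.card_insert_of_notMem (by simp [n1, n2, n3, n4]),
      Finset.card_insert_of_notMem (by simp [n5, n6, n7]), Finset.card_insert_of_notMem (by simp [hbc, hb1]),
      Finset.card_insert_of_notMem (by simp [hc1]), Finset.card_singleton] at h5
    have : (V : Set G).ncard = Nat.card V := rfl
    omega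
  have hbx : b * x * b⁻¹ = x⁻¹ := by
    rcases hall v hv c hc hv1' hc1 (Ne.symm hcv) b hb with e | e | e | e
    · exact absurd e hb1
    · rw [e]; exact hvx
    · exact absurd e hbc
    · rw [e, ← hvx]
      calc v * c * x * (v * c)⁻¹ = v * (c * x) * c⁻¹ * v⁻¹ := by group
        _ = v * x * v⁻¹ := by rw [hcx]; group
  have hcx' : c * x * c⁻¹ = x := by rw [hcx]; group
  have hby' : b * y * b⁻¹ = y := by rw [hby]; group
  have hbcc : b * c = c * b := hcomm b hb c hc
  -- `x` and `y` commute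
  have hxy : Commute y x := by
    have o1 : Odd (orderOf (x⁻¹ * y * x)) := by
      have := (MulAut.conj x⁻¹).orderOf_eq y
      simp only [MulAut.conj_apply, inv_inv] at this
      rwa [this]
    have o2 : c * (x⁻¹ * y * x) * c⁻¹ = (x⁻¹ * y * x)⁻¹ := by
      calc c * (x⁻¹ * y * x) * c⁻¹ = (c * x * c⁻¹)⁻¹ * (c * y * c⁻¹) * (c * x * c⁻¹) := by group
        _ = _ := by rw [hcx', hcy]; group
    obtain ⟨w, hw, hw1, hwc⟩ := hS _ c hc o1 o2
    have hwc' : w * (x⁻¹ * y * x) * w⁻¹ = x⁻¹ * y * x := by rw [hwc]; group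
    rcases hall b hb c hc hb1 hc1 hbc w hw with e | e | e | e
    · exact absurd e hw1
    · subst e
      apply comm_of_sq hxo
      have : x * y * x⁻¹ = x⁻¹ * y * x := by
        rw [← hwc']
        calc x * y * x⁻¹ = (w * x * w⁻¹)⁻¹ * (w * y * w⁻¹) * (w * x * w⁻¹) := by rw [hbx, hby']; group
          _ = _ := by group
      show y * x ^ 2 = x ^ 2 * y
      calc y * x ^ 2 = x * (x⁻¹ * y * x) * x := by simp only [pow_two]; group
        _ = x ^ 2 * y := by rw [← this]; simp only [pow_two]; group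
    · subst e
      exfalso
      rw [o2] at hwc'
      have := sq_ne o1 hwc'
      apply hy1
      calc y = x * (x⁻¹ * y * x) * x⁻¹ := by group
        _ = 1 := by rw [this]; group
    · subst e
      exfalso
      have h6 : x * y⁻¹ * x⁻¹ = x⁻¹ * y * x := by
        rw [← hwc']
        calc x * y⁻¹ * x⁻¹ = (b * (c * x * c⁻¹) * b⁻¹)⁻¹ * (b * (c * y * c⁻¹) * b⁻¹) * (b * (c * x * c⁻¹) * b⁻¹) := by
              rw [hcx', hcy, hbx]
              calc x * y⁻¹ * x⁻¹ = x * (b * y * b⁻¹)⁻¹ * x⁻¹ := by rw [hby']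
                _ = _ := by group
          _ = _ := by group
      have h7 : x ^ 2 * y⁻¹ * (x ^ 2)⁻¹ = y := by
        calc x ^ 2 * y⁻¹ * (x ^ 2)⁻¹ = x * (x * y⁻¹ * x⁻¹) * x⁻¹ := by simp only [pow_two]; group
          _ = y := by rw [h6]; group
      have h8 : Commute y ((x ^ 2) ^ 2) := by
        have h9 : x ^ 2 * y * (x ^ 2)⁻¹ = y⁻¹ := by
          rw [← inv_inj, inv_inv]; nth_rewrite 2 [← h7]; group
        show y * (x ^ 2) ^ 2 = (x ^ 2) ^ 2 * y
        calc y * (x ^ 2) ^ 2 = (x ^ 2 * (x ^ 2 * y * (x ^ 2)⁻¹) * (x ^ 2)⁻¹) * (x ^ 2) ^ 2 := by rw [h9, h7]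
          _ = _ := by group
      have h10 : Commute y (x ^ 2) := comm_of_sq (Odd.of_dvd_nat hxo (orderOf_pow_dvd 2)) h8
      apply hy1
      apply sq_ne hyo
      rw [← h7]
      have := h10.inv_left.eq
      calc (x ^ 2 * y⁻¹ * (x ^ 2)⁻¹)⁻¹ = x ^ 2 * (y⁻¹)⁻¹ * (x ^ 2)⁻¹ := by group
        _ = y := by rw [inv_inv, ← h10.eq]; group
        _ = _ := h7.symm
  have o3 : Odd (orderOf (y * x)) := Odd.of_dvd_nat (hyo.mul hxo) hxy.orderOf_mul_dvd_mul_orderOf
  have o4 : (b * c) * (y * x) * (b * c)⁻¹ = (y * x)⁻¹ := by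
    calc (b * c) * (y * x) * (b * c)⁻¹ = b * (c * y * c⁻¹) * (c * x * c⁻¹) * b⁻¹ := by group
      _ = (b * y * b⁻¹)⁻¹ * (b * x * b⁻¹) := by rw [hcy, hcx']; group
      _ = y⁻¹ * x⁻¹ := by rw [hby', hbx]
      _ = (y * x)⁻¹ := by rw [hxy.eq]; group
  obtain ⟨w, hw, hw1, hwc⟩ := hS _ _ (V.mul_mem hb hc) o3 o4
  have hwc' : w * (y * x) * w⁻¹ = y * x := by rw [hwc]; group
  rcases hall b hb c hc hb1 hc1 hbc w hw with e | e | e | e
  · exact absurd e hw1
  · subst e
    apply hx1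
    apply sq_ne hxo
    have : y * x⁻¹ = y * x := by
      rw [← hwc', ← hbx]
      calc y * (w * x * w⁻¹) = (w * y * w⁻¹) * (w * x * w⁻¹) := by rw [hby']
        _ = _ := by group
    exact mul_left_cancel this
  · subst e
    apply hy1
    apply sq_ne hyo
    have : y⁻¹ * x = y * x := by
      rw [← hwc', ← hcy]
      calc w * y * w⁻¹ * x = (w * y * w⁻¹) * (w * x * w⁻¹) := by rw [hcx']
        _ = _ := by group
    exact mul_right_cancel this
  · subst e
    rw [o4] at hwc'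
    have h11 := sq_ne o3 hwc'
    have h12 : y = x⁻¹ := eq_inv_of_mul_eq_one_left h11
    apply hy1
    apply sq_ne hyo
    rw [← hcy, h12]
    calc c * x⁻¹ * c⁻¹ = (c * x * c⁻¹)⁻¹ := by group
      _ = x⁻¹ := by rw [hcx']

end Cfsg.Agent.S3011
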