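import Cfsg.Statements.S3012
import Cfsg.Agent.Trans.Conj

set_option autoImplicit false
open Cfsg

namespace Cfsg.Agent.S3012

/-- Let G be a finite group, V a nontrivial elementary abelian 2-subgroup of G satisfying the Sidki pair condition (every odd-order element inverted by an element of V commutes with a nontrivial element of V), and K a normal subgroup of G with V ∩ K = 1. Then the image of V in G/K satisfies the Sidki pair condition in G/K. -/
theorem result {G : Type*} [Group G] [Finite G] (V K : Subgroup G) [K.Normal] (hV : Cfsg.IsElementaryAbelian 2 V) (hV1 : V ≠ ⊥) (hS : Cfsg.IsSidkiPair V) (hVK : V ⊓ K = ⊥) : Cfsg.IsSidkiPair (V.map (QuotientGroup.mk' K)) := by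
  classical
  rintro h _ ⟨v, hv, rfl⟩ hodd hinv
  obtain ⟨k, rfl⟩ := QuotientGroup.mk'_surjective K h
  have hv2 : v * v = 1 := by rw [← pow_two]; exact hV.2 v hv
  have hvi : v⁻¹ = v := inv_eq_of_mul_eq_one_right hv2
  set x := v * k⁻¹ * v⁻¹ * k with hx
  have hxi : v * x * v⁻¹ = x⁻¹ := by
    calc v * x * v⁻¹ = (v * v) * k⁻¹ * v⁻¹ * k * v⁻¹ := by rw [hx]; group
      _ = k⁻¹ * v * k * v⁻¹ := by rw [hv2, hvi]; group
      _ = x⁻¹ := by rw [hx]; group
  obtain ⟨a, m, hm, ham⟩ := Nat.exists_eq_two_pow_mul_odd (orderOf_pos x).ne'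
  have hy : Odd (orderOf (x ^ 2 ^ a)) := by
    refine Odd.of_dvd_nat hm (orderOf_dvd_of_pow_eq_one ?_)
    rw [← pow_mul, ← ham, pow_orderOf_eq_one]
  have hyi : v * x ^ 2 ^ a * v⁻¹ = (x ^ 2 ^ a)⁻¹ := by
    rw [← conj_pow, hxi, inv_pow]
  obtain ⟨w, hw, hw1, hwc⟩ := hS _ v hv hy hyi
  refine ⟨QuotientGroup.mk' K w, ⟨w, hw, rfl⟩, ?_, ?_⟩
  · intro e
    have : w ∈ V ⊓ K := ⟨hw, (QuotientGroup.eq_one_iff w).1 e⟩
    rw [hVK] at this
    exact hw1 this
  · have e1 : QuotientGroup.mk' K x = (QuotientGroup.mk' K k) ^ 2 := by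
      have : QuotientGroup.mk' K x = (QuotientGroup.mk' K v * QuotientGroup.mk' K k * (QuotientGroup.mk' K v)⁻¹)⁻¹ *
          QuotientGroup.mk' K k := by
        rw [hx]; simp only [map_mul, map_inv]; group
      rw [this, hinv, inv_inv, pow_two]
    have e2 : Commute (QuotientGroup.mk' K w) ((QuotientGroup.mk' K k) ^ 2 ^ (a + 1)) := by
      have := congrArg (QuotientGroup.mk' K) hwc
      rw [map_mul, map_mul, map_pow, e1, ← pow_mul, ← pow_succ'] at this
      exact this
    have e3 : QuotientGroup.mk' K k ∈ Subgroup.zpowers ((QuotientGroup.mk' K k) ^ 2 ^ (a + 1)) := by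
      rw [mem_zpowers_pow_iff]
      exact Nat.Coprime.pow_left _ (Nat.coprime_two_left.2 hodd)
    obtain ⟨n, hn⟩ := e3
    have := e2.zpow_right n
    simp only at hn
    rw [hn] at this
    exact this

end Cfsg.Agent.S3012
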