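import Cfsg.Statements.S3013
import Cfsg.Agent.Trans.Conj

set_option autoImplicit false
open Cfsg

namespace Cfsg.Agent.S3013

/-- Let G be a finite group and V a nontrivial elementary abelian 2-subgroup of G satisfying the Sidki pair condition. Let v ∈ V and let x be an element of odd order inverted by v, and put C = C_G(v) ∩ C_G(x), the centralizer of the dihedral subgroup generated by v and x. Then C ∩ V is nontrivial and satisfies the Sidki pair condition inside C: every odd-order element of C inverted by an element of C ∩ V commutes with a nontrivial element of C ∩ V. -/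
theorem result {G : Type*} [Group G] [Finite G] (V : Subgroup G) (hV : Cfsg.IsElementaryAbelian 2 V) (hV1 : V ≠ ⊥) (hS : Cfsg.IsSidkiPair V) (v x : G) (hv : v ∈ V) (hx : Odd (orderOf x)) (hinv : v * x * v⁻¹ = x⁻¹) (C : Subgroup G) (hC : C = Subgroup.centralizer ({v} : Set G) ⊓ Subgroup.centralizer ({x} : Set G)) : C ⊓ V ≠ ⊥ ∧ Cfsg.IsSidkiPair ((C ⊓ V).subgroupOf C) := by
  classical
  have hcomm : ∀ a ∈ V, ∀ b ∈ V, a * b = b * a := fun a ha b hb =>
    congrArg Subtype.val (hV.1.is_comm.comm (⟨a, ha⟩ : V) ⟨b, hb⟩)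
  have hmem : ∀ g, g ∈ C ↔ g * v = v * g ∧ g * x = x * g := by
    intro g
    rw [hC, Subgroup.mem_inf, Subgroup.mem_centralizer_singleton_iff, Subgroup.mem_centralizer_singleton_iff]
  refine ⟨?_, ?_⟩
  · obtain ⟨w, hw, hw1, hwx⟩ := hS x v hv hx hinv
    intro e
    have : w ∈ C ⊓ V := ⟨(hmem w).2 ⟨hcomm w hw v hv, hwx⟩, hw⟩
    rw [e] at this
    exact hw1 this
  · rintro ⟨h, hh⟩ ⟨u, huC⟩ hu hodd hui
    have huV : u ∈ V := hu.2
    have hui' : u * h * u⁻¹ = h⁻¹ := congrArg Subtype.val hui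
    have hodd' : Odd (orderOf h) := by rwa [Subgroup.orderOf_mk] at hodd
    obtain ⟨hhv, hhx⟩ := (hmem h).1 hh
    obtain ⟨huv, hux⟩ := (hmem u).1 huC
    have hc : Commute h x := hhx
    have h1 : Odd (orderOf (h * x)) :=
      Odd.of_dvd_nat (hodd'.mul hx) hc.orderOf_mul_dvd_mul_orderOf
    have h2 : (u * v) * (h * x) * (u * v)⁻¹ = (h * x)⁻¹ := by
      calc (u * v) * (h * x) * (u * v)⁻¹ = u * (v * h) * v⁻¹ * (v * x * v⁻¹) * u⁻¹ := by group
        _ = (u * h * u⁻¹) * u * (u * x)⁻¹ := by rw [hinv, ← hhv]; group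
        _ = h⁻¹ * x⁻¹ := by rw [hui', hux]; group
        _ = (h * x)⁻¹ := by rw [hhx]; group
    obtain ⟨w, hw, hw1, hwc⟩ := hS _ _ (V.mul_mem huV hv) h1 h2
    have hwu : Commute w u := hcomm w hw u huV
    have hw2 : Commute w (h * x) := hwc
    have hw3 : Commute w (h⁻¹ * x) := by
      have := (hwu.mul_right hw2).mul_right hwu.inv_right
      have e : u * (h * x) * u⁻¹ = h⁻¹ * x := by
        calc u * (h * x) * u⁻¹ = (u * h * u⁻¹) * (u * x) * u⁻¹ := by group
          _ = h⁻¹ * x := by rw [hui', hux]; group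
      rwa [e] at this
    have hw4 : Commute w (x ^ 2) := by
      have := hw3.mul_right hw2
      have e : h⁻¹ * x * (h * x) = x ^ 2 := by
        calc h⁻¹ * x * (h * x) = h⁻¹ * (x * h) * x := by group
          _ = x ^ 2 := by rw [← hhx, pow_two]; group
      rwa [e] at this
    have hw5 : Commute w x := by
      have e3 : x ∈ Subgroup.zpowers (x ^ 2) := by
        rw [mem_zpowers_pow_iff]
        exact Nat.coprime_two_left.2 hx
      obtain ⟨n, hn⟩ := e3
      have := hw4.zpow_right n
      simp only at hn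
      rwa [hn] at this
    have hw6 : Commute w h := by
      have := hw2.mul_right hw5.inv_right
      simpa using this
    have hwC : w ∈ C := (hmem w).2 ⟨hcomm w hw v hv, hw5⟩
    exact ⟨⟨w, hwC⟩, ⟨hwC, hw⟩, fun e => hw1 (congrArg Subtype.val e), Subtype.ext hw6⟩

end Cfsg.Agent.S3013
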