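import Cfsg.Statements.S3014
import Cfsg.Agent.Char.FrobWielandt
import Cfsg.Agent.Trans.Conj
import Cfsg.Agent.Solv.Conj

set_option autoImplicit false
open Cfsg

namespace Cfsg.Agent.S3014

open Cfsg.Lib Cfsg.Lib.Trans

/-- Let G be a finite group and H ≤ M ≤ G subgroups such that for every g ∈ G the subgroup generated by H and g H g⁻¹ meets M exactly in H. If H is a maximal subgroup of M and M is a maximal subgroup of G, then the normal closure of H in G meets M exactly in H. -/
theorem result {G : Type*} [Group G] [Finite G] (H M : Subgroup G) (hHM : H ≤ M) (hcl : ∀ g : G, (H ⊔ H.map (MulAut.conj g).toMonoidHom) ⊓ M = H) (hmaxH : IsCoatom (H.subgroupOf M)) (hmaxM : IsCoatom M) : Subgroup.normalClosure (H : Set G) ⊓ M = H := by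
  classical
  have hcl' : ∀ g : G, (H ⊔ cj g H) ⊓ M = H := hcl
  have hMN : M ≤ Subgroup.normalizer (H : Set G) := by
    intro m hm
    apply mem_normalizer_of_cj_le
    exact le_trans (le_inf le_sup_right (cj_le_of_mem_of_le hm hHM)) (hcl' m).le
  have easy : ∀ K : Subgroup G, K.Normal → H ≤ K → K ⊓ M = H → Subgroup.normalClosure (H : Set G) ⊓ M = H := by
    intro K hK hHK hKM
    refine le_antisymm ?_ (le_inf Subgroup.le_normalClosure hHM)
    exact le_trans (inf_le_inf_right _ (Subgroup.normalClosure_le_normal hHK)) hKM.le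
  by_cases hW : ∀ g ∉ M, ∀ x ∈ M, g * x * g⁻¹ ∈ M → x ∈ H
  · obtain ⟨K, hK, hKM, -⟩ := Char.frobenius_wielandt M H hHM
      (fun h hh n hn => mem_normalizer_conj (hMN hh) hn) hW
    exact easy K hK (hKM.ge.trans inf_le_left) hKM
  push Not at hW
  obtain ⟨g, hg, x, hx, hgx, hxH⟩ := hW
  set T := H ⊔ cj g⁻¹ H with hT
  have hxT : x ∈ Subgroup.normalizer (T : Set G) := by
    have h1 : x ∈ Subgroup.normalizer (cj g⁻¹ H : Set G) := by
      rw [← cj_normalizer, mem_cj_inv]; exact hMN hgx
    rw [← cj_eq_self_iff, hT, cj_sup, cj_eq_of_mem_normalizer (hMN hx), cj_eq_of_mem_normalizer h1]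
  have hMT : M ≤ Subgroup.normalizer (T : Set G) := by
    have h2 : H.subgroupOf M < (Subgroup.normalizer (T : Set G)).subgroupOf M := by
      refine lt_of_le_of_ne (Subgroup.comap_mono (le_sup_left.trans Subgroup.le_normalizer)) ?_
      intro e
      have : (⟨x, hx⟩ : M) ∈ H.subgroupOf M := by rw [e]; exact hxT
      exact hxH this
    have := hmaxH.2 _ h2
    rwa [Subgroup.subgroupOf_eq_top] at this
  by_cases hTM : T ≤ M
  · have h3 : T = H := (inf_eq_left.2 hTM).symm.trans (hcl' g⁻¹)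
    have h4 : g⁻¹ ∈ Subgroup.normalizer (H : Set G) := mem_normalizer_of_cj_le (le_sup_right.trans h3.le)
    have h5 : Subgroup.normalizer (H : Set G) = ⊤ :=
      hmaxM.2 _ (lt_of_le_of_ne hMN (fun e => hg (M.inv_mem_iff.1 (e.ge h4))))
    exact easy H (Subgroup.normalizer_eq_top_iff.1 h5) le_rfl (inf_eq_left.2 hHM)
  · have h5 : Subgroup.normalizer (T : Set G) = ⊤ :=
      hmaxM.2 _ (lt_of_le_of_ne hMT (fun e => hTM (Subgroup.le_normalizer.trans e.ge)))
    exact easy T (Subgroup.normalizer_eq_top_iff.1 h5) le_sup_left (hcl' g⁻¹)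

end Cfsg.Agent.S3014
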