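import Cfsg.Statements.S3015
import Cfsg.Agent.Char.FrobWielandt
import Cfsg.Agent.Local.CharP
import Cfsg.Agent.Solv.PGroupNormal

set_option autoImplicit false
open Cfsg

namespace Cfsg.Agent.S3015

open Cfsg.Lib Cfsg.Lib.Trans Cfsg.Lib.Local

/-- Let G be a finite non-abelian simple group, M a maximal subgroup of G and H a normal subgroup of M of prime index in M. Then G is generated by H together with one of its conjugates. -/
theorem result {G : Type*} [Group G] [Finite G] [IsSimpleGroup G] (hG : ¬ IsMulCommutative G) (M H : Subgroup G) (hmaxM : IsCoatom M) (hHM : H ≤ M) (hHn : (H.subgroupOf M).Normal) (hidx : (H.relIndex M).Prime) : ∃ g : G, H ⊔ H.map (MulAut.conj g).toMonoidHom = ⊤ := by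
  classical
  set p := H.relIndex M with hp
  haveI : Fact p.Prime := ⟨hidx⟩
  by_contra hcon
  have hcon' : ∀ g : G, H ⊔ cj g H ≠ ⊤ := fun g e => hcon ⟨g, e⟩
  have hmaxH : IsCoatom (H.subgroupOf M) := Solv.PG.isCoatom_of_index_prime hidx
  have hMN : M ≤ Subgroup.normalizer (H : Set G) := (Subgroup.normal_subgroupOf_iff_le_normalizer hHM).1 hHn
  have hHne : H ≠ M := fun e => hmaxH.1 (by rw [e, Subgroup.subgroupOf_self])
  have hpow : ∀ x ∈ M, x ^ p ∈ H := fun x hx => Subgroup.pow_index_mem (H.subgroupOf M) ⟨x, hx⟩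
  have hcardM : Nat.card M = p * Nat.card H := (Solv.PG.relIndex_mul_card hHM).symm
  -- a subgroup normalized by `M` and by an element outside `M` is trivial or everything
  have hnorm : ∀ K : Subgroup G, K ≤ M → M ≤ Subgroup.normalizer (K : Set G) →
      ∀ g ∉ M, g ∈ Subgroup.normalizer (K : Set G) → K = ⊥ := by
    intro K hK hMK g hg hgK
    have h5 : Subgroup.normalizer (K : Set G) = ⊤ :=
      hmaxM.2 _ (lt_of_le_of_ne hMK (fun e => hg (e.ge hgK)))
    rcases (Subgroup.normalizer_eq_top_iff.1 h5).eq_bot_or_eq_top with e | e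
    · exact e
    · exact absurd (top_le_iff.1 (e.ge.trans hK)) hmaxM.1
  have hcl : ∀ g : G, (H ⊔ cj g H) ⊓ M = H := by
    intro g
    rcases Solv.PG.eq_or_eq_of_card_eq_prime_mul hidx hcardM (L := (H ⊔ cj g H) ⊓ M)
      (le_inf le_sup_left hHM) inf_le_right with e | e
    · exact e
    exfalso
    have h1 : M ≤ H ⊔ cj g H := e.ge.trans inf_le_left
    have h2 : H ⊔ cj g H = M := by
      by_contra hne
      exact hcon' g (hmaxM.2 _ (lt_of_le_of_ne h1 (Ne.symm hne)))
    have h3 : cj g H ≤ M := le_sup_right.trans h2.le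
    have hg : g ∉ M := by
      intro hg
      rw [cj_eq_of_mem_normalizer (hMN hg), sup_idem] at h2
      exact hHne h2
    have h4 : resOf p M ≤ H := resOf_le_of_pow_mem (fun x hx => ⟨1, by simpa using hpow x hx⟩)
    have h5 : resOf p H = resOf p M := resOf_eq_of_le h4 hHM
    have h6 : cj g (resOf p M) ≤ resOf p M := by
      rw [← h5, cj_resOf, h5]; exact resOf_mono h3
    have h7 : resOf p M = ⊥ :=
      hnorm _ (resOf_le M) (le_normalizer_resOf M) g hg (mem_normalizer_of_cj_le h6)
    have hMp : IsPGroup p M := resOf_eq_bot_iff.1 h7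
    have h8 : M ≤ Subgroup.normalizer (cj g H : Set G) :=
      Solv.PG.le_normalizer_of_card_eq_prime_mul hMp h3 (by rw [card_cj]; exact hcardM)
    have h9 : cj g M ≤ Subgroup.normalizer (cj g H : Set G) := by
      rw [← cj_normalizer]; exact cj_mono g hMN
    by_cases h10 : cj g M ≤ M
    · have := hnorm M le_rfl Subgroup.le_normalizer g hg (mem_normalizer_of_cj_le h10)
      apply hHne
      rw [this] at hHM ⊢
      exact le_bot_iff.1 hHM
    · obtain ⟨y, hy, hyM⟩ := SetLike.not_le_iff_exists.1 h10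
      have := hnorm _ h3 h8 y hyM (h9 hy)
      rw [this, cj_eq_bot.1 this, sup_idem] at h2
      exact hHne ((cj_eq_bot.1 this).trans h2)
  -- Frobenius--Wielandt
  have hW : ∀ g ∉ M, ∀ x ∈ M, g * x * g⁻¹ ∈ M → x ∈ H := by
    intro g hg x hx hgx
    by_contra hxH
    have hsup : H ⊔ Subgroup.zpowers x = M := Solv.PG.sup_zpowers_eq_of_card_eq_prime_mul hidx hHM hcardM hx hxH
    set T := H ⊔ cj g⁻¹ H with hT
    have hxT : x ∈ Subgroup.normalizer (T : Set G) := by
      have h1 : x ∈ Subgroup.normalizer (cj g⁻¹ H : Set G) := by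
        rw [← cj_normalizer, mem_cj_inv]; exact hMN hgx
      rw [← cj_eq_self_iff, hT, cj_sup, cj_eq_of_mem_normalizer (hMN hx), cj_eq_of_mem_normalizer h1]
    have hMT : M ≤ Subgroup.normalizer (T : Set G) :=
      hsup.ge.trans (sup_le (le_sup_left.trans Subgroup.le_normalizer) (Subgroup.zpowers_le.2 hxT))
    by_cases hTM : T ≤ M
    · have h3 : T = H := (inf_eq_left.2 hTM).symm.trans (hcl g⁻¹)
      have h4 : g⁻¹ ∈ Subgroup.normalizer (H : Set G) := mem_normalizer_of_cj_le (le_sup_right.trans h3.le)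
      have h5 := hnorm H hHM hMN g⁻¹ (fun e => hg (M.inv_mem_iff.1 e)) h4
      rw [h5, bot_sup_eq] at hsup
      have h6 : cj g M ≤ M := by
        have : cj g (Subgroup.zpowers x) ≤ M := by rw [cj_zpowers]; exact Subgroup.zpowers_le.2 hgx
        rwa [hsup] at this
      have h7 := hnorm M le_rfl Subgroup.le_normalizer g hg (mem_normalizer_of_cj_le h6)
      exact hHne (h5.trans h7.symm)
    · have h5 : Subgroup.normalizer (T : Set G) = ⊤ :=
        hmaxM.2 _ (lt_of_le_of_ne hMT (fun e => hTM (Subgroup.le_normalizer.trans e.ge)))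
      rcases (Subgroup.normalizer_eq_top_iff.1 h5).eq_bot_or_eq_top with e | e
      · exact hTM (e.le.trans bot_le)
      · exact hcon' g⁻¹ e
  obtain ⟨K, hK, hKM, hKM', -⟩ := Char.frobenius_wielandt M H hHM
      (fun h hh n hn => mem_normalizer_conj (hMN hh) hn) hW
  rcases hK.eq_bot_or_eq_top with e | e
  · rw [e, bot_sup_eq] at hKM'
    exact hmaxM.1 hKM'
  · rw [e, top_inf_eq] at hKM
    exact hHne hKM.symm

end Cfsg.Agent.S3015
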