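import Cfsg.Statements.S3019
import Cfsg.Agent.PairSyl.Main

set_option autoImplicit false
open Cfsg

namespace Cfsg.Agent.S3019

/-- Let G be a finite group, p a prime and P a Sylow p-subgroup of G. Then G is p-solvable if and only if, for every g ∈ G, the subgroup generated by P and g P g⁻¹ is p-solvable. -/
theorem result {G : Type*} [Group G] [Finite G] {p : ℕ} [Fact p.Prime] (P : Sylow p G) : Cfsg.IsPSolvable p G ↔ ∀ g : G, Cfsg.IsPSolvable p ↥((P : Subgroup G) ⊔ (P : Subgroup G).map (MulAut.conj g).toMonoidHom) := by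
  refine ⟨fun h g => h.subgroup _, fun h => Lib.PairSyl.isPSolvable_of_hyp _ G rfl fun Q R => ?_⟩
  obtain ⟨a, rfl⟩ := MulAction.exists_smul_eq G P Q
  obtain ⟨b, rfl⟩ := MulAction.exists_smul_eq G P R
  have h1 := (h (a⁻¹ * b)).map (MulAut.conj a).toMonoidHom
  refine h1.of_le (sup_le (fun x hx => ?_) fun x hx => ?_)
  · exact ⟨a⁻¹ * x * a, Subgroup.mem_sup_left ((Lib.PairSyl.mem_smul_iff P a x).1 hx),
      by simp [mul_assoc]⟩
  · exact ⟨a⁻¹ * x * a, Subgroup.mem_sup_right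
      ⟨b⁻¹ * x * b, (Lib.PairSyl.mem_smul_iff P b x).1 hx, by simp [mul_assoc]⟩,
      by simp [mul_assoc]⟩

end Cfsg.Agent.S3019
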