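import Cfsg.Statements.S3020
import Cfsg.Agent.Trans.SylowIn
import Cfsg.Agent.Trans.NormalComplement
import Cfsg.Agent.Solv.Cores

set_option autoImplicit false
open Cfsg

namespace Cfsg.Agent.S3020

open Cfsg.Lib Cfsg.Lib.Trans

/-- Let G be a finite group, p a prime and H an abelian p-subgroup of G that is extremely closed (for every g, the subgroup generated by H and g H g⁻¹ meets N_G(H) exactly in H). Then for every g ∈ G, the subgroup T generated by H and g H g⁻¹ is the product of H with O_{p'}(T), and H meets O_{p'}(T) trivially; that is, O_{p'}(T) is a normal p-complement of H in T. -/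
theorem result {G : Type*} [Group G] [Finite G] {p : ℕ} [Fact p.Prime] (H : Subgroup G) (hHp : IsPGroup p H) (hHab : IsMulCommutative H) (hcl : Cfsg.IsExtremelyClosed H) (g : G) (T : Subgroup G) (hT : T = H ⊔ H.map (MulAut.conj g).toMonoidHom) : H ⊔ (Cfsg.pPrimeCore p ↥T).map T.subtype = T ∧ H ⊓ (Cfsg.pPrimeCore p ↥T).map T.subtype = ⊥ := by
  classical
  have hcl' : T ⊓ Subgroup.normalizer (H : Set G) = H := by rw [hT]; exact hcl g
  have hHT : H ≤ T := by rw [hT]; exact le_sup_left
  refine ⟨?_, Solv.inf_eq_bot_of_isPGroup_of_coprime hHp (Solv.coprime_card_map_pPrimeCore p T)⟩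
  have hs : IsSylowIn p H T := by
    refine isSylowIn_of_maximal hHT hHp (fun Q hQ hHQ hQT => ?_)
    by_contra hne
    have := lt_inf_normalizer hQ (lt_of_le_of_ne hHQ (fun e => hne e.ge))
    exact absurd ((inf_le_inf_right _ hQT).trans hcl'.le) (not_le_of_gt this)
  set P : Sylow p T := hs.toSylow with hP
  have hPe : (P : Subgroup T) = H.subgroupOf T := hs.coe_toSylow
  have hN : Subgroup.normalizer ((P : Subgroup T) : Set T) ≤ Subgroup.centralizer ((P : Subgroup T) : Set T) := by
    rw [hPe]
    intro t ht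
    have h1 : (t : G) ∈ Subgroup.normalizer (H : Set G) := by
      apply mem_normalizer_of_cj_le
      rw [cj_le_iff]
      intro h hh
      exact mem_normalizer_conj ht (x := ⟨h, hHT hh⟩) hh
    have h2 : (t : G) ∈ H := hcl'.le ⟨t.2, h1⟩
    intro h hh
    have h6 : (h : G) * t = t * h := congrArg Subtype.val (hHab.is_comm.comm (⟨h, hh⟩ : H) ⟨t, h2⟩)
    exact Subtype.ext h6
  have hc := MonoidHom.ker_transferSylow_isComplement' P hN
  have h3 : (MonoidHom.transferSylow P hN).ker ≤ Cfsg.pPrimeCore p T :=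
    Solv.le_pPrimeCore inferInstance (coprime_card_of_disjoint_sylow P _ hc.disjoint.eq_bot)
  have h4 : (P : Subgroup T) ⊔ Cfsg.pPrimeCore p T = ⊤ := by
    rw [eq_top_iff, ← hc.sup_eq_top, sup_comm]
    exact sup_le_sup_left h3 _
  have h5 := congrArg (Subgroup.map T.subtype) h4
  rw [Subgroup.map_sup, hs.map_toSylow, ← MonoidHom.range_eq_map, Subgroup.range_subtype] at h5
  exact h5

end Cfsg.Agent.S3020
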