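import Cfsg.Statements.S3021
import Cfsg.Agent.Trans.SylowIn

set_option autoImplicit false
open Cfsg

namespace Cfsg.Agent.S3021

open Cfsg.Lib Cfsg.Lib.Trans

/-- Let G be a finite group, p a prime and H a p-subgroup of G that is extremely closed (for every g, the subgroup generated by H and g H g⁻¹ meets N_G(H) exactly in H). Then every p-subgroup Q of G containing H has N_G(Q) ≤ N_G(H); in particular every Sylow p-subgroup P of G containing H normalizes H, and H is strongly closed in P with respect to G. -/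
theorem result {G : Type*} [Group G] [Finite G] {p : ℕ} [Fact p.Prime] (H : Subgroup G) (hHp : IsPGroup p H) (hcl : Cfsg.IsExtremelyClosed H) : (∀ Q : Subgroup G, IsPGroup p Q → H ≤ Q → Subgroup.normalizer (Q : Set G) ≤ Subgroup.normalizer (H : Set G)) ∧ ∀ P : Sylow p G, H ≤ (P : Subgroup G) → (P : Subgroup G) ≤ Subgroup.normalizer (H : Set G) ∧ Cfsg.IsStronglyClosed H (P : Subgroup G) := by
  classical
  have hcl' : ∀ g : G, (H ⊔ cj g H) ⊓ Subgroup.normalizer (H : Set G) = H := hcl
  have h1 : ∀ Q : Subgroup G, IsPGroup p Q → H ≤ Q →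
      Subgroup.normalizer (Q : Set G) ≤ Subgroup.normalizer (H : Set G) := by
    intro Q hQ hHQ g hg
    have h2 : H ⊔ cj g H ≤ Q := sup_le hHQ ((cj_mono g hHQ).trans (cj_eq_of_mem_normalizer hg).le)
    have h3 : H ⊔ cj g H = H := by
      by_contra hne
      have := lt_inf_normalizer (hQ.to_le h2) (lt_of_le_of_ne le_sup_left (Ne.symm hne))
      rw [hcl' g] at this
      exact lt_irrefl _ this
    exact mem_normalizer_of_cj_le (le_sup_right.trans h3.le)
  refine ⟨h1, fun P hP => ?_⟩
  have h4 : (P : Subgroup G) ≤ Subgroup.normalizer (H : Set G) :=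
    Subgroup.le_normalizer.trans (h1 P P.isPGroup' hP)
  refine ⟨h4, hP, fun x hx g hg => ?_⟩
  exact (hcl' g).le ⟨Subgroup.mem_sup_right (conj_mem_cj.2 hx), h4 hg⟩

end Cfsg.Agent.S3021
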