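import Cfsg.Statements.S3023
import Cfsg.Agent.Local.CharPLocal
import Cfsg.Agent.Local.PCoreOf

set_option autoImplicit false
open Cfsg

namespace Cfsg.Agent.S3023

open Cfsg.Lib.Local (resOf CharP charP_iff charP_top_iff)
open Cfsg.Lib.Local.MSS Cfsg.Lib.Solv Cfsg.Lib.Trans Cfsg.Lib.Trans.TJ Subgroup
open scoped commutatorElement

/-- Let p be a prime, G a finite group of parabolic characteristic p (every p-local subgroup containing a Sylow p-subgroup of G has characteristic p), S a Sylow p-subgroup of G and G₁ a subnormal subgroup of G. If the centre of S ∩ G₁ is nontrivial and contained in the centre of S, then G₁ has parabolic characteristic p. -/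
theorem result {G : Type*} [Group G] [Finite G] {p : ℕ} [Fact p.Prime] (hG : Cfsg.IsOfParabolicCharacteristic p G) (S : Sylow p G) (G₁ : Subgroup G) (hsn : G₁.IsSubnormal) (hne : ((S : Subgroup G) ⊓ G₁) ⊓ Subgroup.centralizer (((S : Subgroup G) ⊓ G₁ : Subgroup G) : Set G) ≠ ⊥) (hle : ((S : Subgroup G) ⊓ G₁) ⊓ Subgroup.centralizer (((S : Subgroup G) ⊓ G₁ : Subgroup G) : Set G) ≤ (S : Subgroup G) ⊓ Subgroup.centralizer ((S : Subgroup G) : Set G)) : Cfsg.IsOfParabolicCharacteristic p ↥G₁ := by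
  obtain ⟨Q, hQ⟩ := exists_sylow_eq_subgroupOf_of_isSubnormal hsn S
  rw [Cfsg.Lib.Local.isOfParabolicCharacteristic_iff Q]
  intro z hz ho hc
  rw [hQ] at hz hc
  have h1 : (z : G) ∈ ((S : Subgroup G) ⊓ G₁) ⊓
      Subgroup.centralizer (((S : Subgroup G) ⊓ G₁ : Subgroup G) : Set G) :=
    ⟨⟨hz, z.2⟩, fun s hs => congrArg Subtype.val (hc ⟨s, hs.2⟩ hs.1)⟩
  have h2 := (Cfsg.Lib.Local.isOfParabolicCharacteristic_iff S).1 hG z hz
    (by rw [orderOf_coe, ho]) (hle h1).2
  have h3 : CharP p (centralizer ({(z : G)} : Set G) ⊓ G₁) := by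
    refine h2.of_subnormalIn ?_
    simpa using (SubnormalIn.top_iff.2 hsn).inf_left (centralizer ({(z : G)} : Set G))
  rw [← Cfsg.Lib.Local.charP_subgroupOf_iff inf_le_right, inf_subgroupOf_right] at h3
  have e : (centralizer ({(z : G)} : Set G)).subgroupOf G₁ = centralizer ({z} : Set G₁) := by
    ext x
    rw [mem_subgroupOf, mem_centralizer_singleton_iff, mem_centralizer_singleton_iff,
      Subtype.ext_iff]
    rfl
  rwa [e] at h3

end Cfsg.Agent.S3023
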