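import Cfsg.Statements.S3025
import Mathlib.RingTheory.ZMod.UnitsCyclic
import Cfsg.Agent.S0016
import Cfsg.Agent.Solv.MinNormal
import Cfsg.Agent.Solv.Conj
import Cfsg.Agent.Trans.Conj

set_option autoImplicit false
open Cfsg

namespace Cfsg.Agent.S3025

open Cfsg.Lib Cfsg.Lib.Solv Cfsg.Lib.Trans

/-- Let F be a finite group and H a nontrivial subgroup of F that is contained in every nontrivial subgroup of F which H normalizes. Then F has a nontrivial normal subgroup N contained in every nontrivial normal subgroup of F (a unique minimal normal subgroup), N is simple, and one of the following holds: C_F(N) = 1; or H = N has prime order p, C_F(N) is cyclic of order a power of p, and F/C_F(N) is cyclic of order dividing p − 1; or H = N has order 2, N is central in F, and F is a generalized quaternion group. -/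
theorem result {F : Type*} [Group F] [Finite F] (H : Subgroup F) (hH : H ≠ ⊥)
    (hmin : ∀ R : Subgroup F, R ≠ ⊥ → H ≤ Subgroup.normalizer (R : Set F) → H ≤ R) :
    ∃ N : Subgroup F, N.Normal ∧ N ≠ ⊥ ∧ (∀ M : Subgroup F, M.Normal → M ≠ ⊥ → N ≤ M) ∧ IsSimpleGroup ↥N ∧
      (Subgroup.centralizer (N : Set F) = ⊥ ∨
       (H = N ∧ (Nat.card N).Prime ∧ IsCyclic ↥(Subgroup.centralizer (N : Set F)) ∧
          (∃ k : ℕ, 1 ≤ k ∧ Nat.card ↥(Subgroup.centralizer (N : Set F)) = Nat.card N ^ k) ∧
          (∃ g : F, Subgroup.centralizer (N : Set F) ⊔ Subgroup.zpowers g = ⊤) ∧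
          (Subgroup.centralizer (N : Set F)).index ∣ Nat.card N - 1) ∨
       (H = N ∧ Nat.card N = 2 ∧ Subgroup.centralizer (N : Set F) = ⊤ ∧
          ∃ k : ℕ, 1 ≤ k ∧ Nonempty (F ≃* QuaternionGroup (2 ^ k)))) := by
  classical
  haveI : Nontrivial F := by
    obtain ⟨x, hx⟩ := Subgroup.ne_bot_iff_exists_ne_one.1 hH
    exact ⟨⟨x, 1, fun e => hx (Subtype.ext e)⟩⟩
  obtain ⟨N, hN⟩ := exists_isMinNormal F
  haveI hNn := hN.normal
  have hHM : ∀ M : Subgroup F, M.Normal → M ≠ ⊥ → H ≤ M := fun M hM hMb =>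
    hmin M hMb Subgroup.le_normalizer_of_normal
  have hHN : H ≤ N := hHM N hNn hN.ne_bot
  have hNM : ∀ M : Subgroup F, M.Normal → M ≠ ⊥ → N ≤ M := fun M hM hMb =>
    hN.le_of_inf_ne_bot (fun e => hH (le_bot_iff.1 (e ▸ le_inf hHN (hHM M hM hMb))))
  have hsimple : IsSimpleGroup N := by
    haveI : Nontrivial N := (Subgroup.nontrivial_iff_ne_bot N).2 hN.ne_bot
    refine ⟨fun K hK => ?_⟩
    by_cases hKb : K = ⊥
    · exact Or.inl hKb
    right
    set K' := K.map N.subtype with hK'
    have hK'b : K' ≠ ⊥ := fun e => hKb ((Subgroup.map_eq_bot_iff_of_injective K N.subtype_injective).1 e)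
    have h1 : N ≤ Subgroup.normalizer (K' : Set F) := le_normalizer_map_subtype K
    have h2 : H ≤ K'.normalCore := by
      intro h hh g
      have h3 : H ≤ cj g⁻¹ K' := by
        refine hmin _ (fun e => hK'b (cj_eq_bot.1 e)) (hHN.trans ?_)
        rw [← cj_normalizer, ← cj_eq_of_normal g⁻¹ N]
        exact cj_mono _ h1
      exact mem_cj_inv.1 (h3 hh)
    have h4 : N ≤ K' := (hNM _ inferInstance (fun e => hH (le_bot_iff.1 (e ▸ h2)))).trans K'.normalCore_le
    rw [eq_top_iff]
    intro n _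
    obtain ⟨k, hk, e⟩ := h4 n.2
    rwa [← Subtype.ext e]
  refine ⟨N, hNn, hN.ne_bot, hNM, hsimple, ?_⟩
  set C := Subgroup.centralizer (N : Set F) with hC
  by_cases hCb : C = ⊥
  · exact Or.inl hCb
  right
  have hNC : N ≤ C := hNM C inferInstance hCb
  haveI : IsMulCommutative N := ⟨⟨fun a b => Subtype.ext (hNC b.2 a a.2)⟩⟩
  have hp : (Nat.card N).Prime := Group.is_simple_iff_prime_card.1 hsimple
  set p := Nat.card N with hpdef
  haveI : Fact p.Prime := ⟨hp⟩
  have hHeq : H = N := by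
    apply Subgroup.eq_of_le_of_card_ge hHN
    rcases (Nat.dvd_prime hp).1 (Subgroup.card_dvd_of_le hHN) with e | e
    · exact absurd (Subgroup.card_eq_one.1 e) hH
    · exact e.ge
  have hR : ∀ R : Subgroup F, R ≤ C → R ≠ ⊥ → N ≤ R := by
    intro R hRC hRb
    rw [← hHeq]
    refine hmin R hRb ?_
    rw [hHeq]
    exact (Subgroup.le_centralizer_iff.1 hRC).trans (Subgroup.centralizer_le_normalizer _)
  obtain ⟨k, hk⟩ : ∃ k, Nat.card C = p ^ k := by
    refine ⟨_, Nat.eq_prime_pow_of_unique_prime_dvd Nat.card_pos.ne' (fun {q} hq hd => ?_)⟩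
    haveI : Fact q.Prime := ⟨hq⟩
    obtain ⟨y, hy⟩ := exists_prime_orderOf_dvd_card' q hd
    have hy' : orderOf (y : F) = q := by rw [Subgroup.orderOf_coe, hy]
    have := hR (Subgroup.zpowers (y : F)) (Subgroup.zpowers_le.2 y.2) (by
      intro e
      have := Nat.card_zpowers (y : F)
      rw [e, Subgroup.card_bot, hy'] at this
      exact hq.one_lt.ne this)
    have h5 := Subgroup.card_dvd_of_le this
    rw [Nat.card_zpowers, hy'] at h5
    exact ((Nat.prime_dvd_prime_iff_eq hp hq).1 h5).symm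
  have hk1 : 1 ≤ k := by
    rcases k with _ | k
    · exact absurd (Subgroup.card_eq_one.1 hk) hCb
    · omega
  have hCp : IsPGroup p C := IsPGroup.of_card hk
  have huniq : ∀ A : Subgroup C, Nat.card A = p → A = N.subgroupOf C := by
    intro A hA
    have h1 : N ≤ A.map C.subtype := hR _ (Subgroup.map_subtype_le A) (by
      intro e
      have := card_map_subtype A
      rw [e, Subgroup.card_bot, hA] at this
      exact hp.one_lt.ne this)
    have h2 : N = A.map C.subtype := Subgroup.eq_of_le_of_card_ge h1 (by rw [card_map_subtype, hA])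
    rw [h2, Subgroup.subgroupOf, Subgroup.comap_map_eq_self_of_injective C.subtype_injective]
  set φ : F →* MulAut N := MulAut.conjNormal with hφ
  have hker : φ.ker = C := by
    ext g
    rw [MonoidHom.mem_ker, hC, Subgroup.mem_centralizer_iff]
    constructor
    · intro h n hn
      have := congrArg Subtype.val (DFunLike.congr_fun h ⟨n, hn⟩)
      simp only [hφ, MulAut.conjNormal_apply, MulAut.one_apply] at this
      exact (mul_inv_eq_iff_eq_mul.1 this).symm
    · intro h
      ext n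
      simp only [hφ, MulAut.conjNormal_apply, MulAut.one_apply]
      rw [← h n n.2]; group
  haveI hNc : IsCyclic N := isCyclic_of_prime_card hpdef.symm
  have hidx : C.index ∣ p - 1 := by
    rw [← hker, Subgroup.index_ker, ← Nat.totient_prime hp, hpdef, ← hNc.card_mulAut]
    exact Subgroup.card_subgroup_dvd_card _
  rcases Cfsg.Agent.S0016.result p hCp (fun A B hA hB => (huniq A hA).trans (huniq B hB).symm) with hc | ⟨h2, n, ⟨e⟩⟩
  swap
  · have hCt : C = ⊤ := by
      rw [h2] at hidx
      exact Subgroup.index_eq_one.1 (Nat.dvd_one.1 hidx)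
    rcases Nat.eq_zero_or_pos n with rfl | hn
    · left
      haveI := QuaternionGroup.quaternionGroup_one_isCyclic
      refine ⟨hHeq, hp, isCyclic_of_surjective e.symm e.symm.surjective, ⟨k, hk1, hk⟩, ⟨1, by rw [hCt]; simp⟩, hidx⟩
    · right
      exact ⟨hHeq, h2, hCt, n, hn, ⟨(Subgroup.topEquiv.symm.trans (MulEquiv.subgroupCongr hCt.symm)).trans e⟩⟩
  left
  refine ⟨hHeq, hp, hc, ⟨k, hk1, hk⟩, ?_, hidx⟩
  haveI : IsCyclic (ZMod (Nat.card N))ˣ := ZMod.isCyclic_units_prime hp
  haveI : IsCyclic (MulAut N) :=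
    isCyclic_of_surjective (IsCyclic.mulAutMulEquiv N).symm (IsCyclic.mulAutMulEquiv N).symm.surjective
  obtain ⟨⟨_, g, rfl⟩, hg⟩ := IsCyclic.exists_generator (α := φ.range)
  refine ⟨g, ?_⟩
  rw [eq_top_iff]
  intro x _
  obtain ⟨m, hm⟩ := hg ⟨φ x, x, rfl⟩
  have h6 : φ g ^ m = φ x := congrArg Subtype.val hm
  have h7 : x * (g ^ m)⁻¹ ∈ C := by
    rw [← hker, MonoidHom.mem_ker, map_mul, map_inv, map_zpow, h6, mul_inv_cancel]
  have : x = (x * (g ^ m)⁻¹) * g ^ m := by group
  rw [this]
  exact Subgroup.mul_mem_sup h7 (Subgroup.zpow_mem_zpowers g m)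

end Cfsg.Agent.S3025
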