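import Cfsg.Statements.S3027
import Cfsg.Agent.Solv.Subnormal
import Cfsg.Agent.Solv.Conj

set_option autoImplicit false
open Cfsg

namespace Cfsg.Agent.S3027

open Cfsg.Lib Cfsg.Lib.Solv
open scoped Pointwise

/-- Let G be a finite group and D a normal subgroup of G such that G/D is perfect (that is, G = G′D). Then among the subnormal subgroups B of G with BD = G there is a least one, and it is normal in G. -/
theorem result {G : Type*} [Group G] [Finite G] (D : Subgroup G) [D.Normal] (hperf : ⁅(⊤ : Subgroup G), (⊤ : Subgroup G)⁆ ⊔ D = ⊤) :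
    ∃ B : Subgroup G, B.Normal ∧ B ⊔ D = ⊤ ∧ ∀ B' : Subgroup G, B'.IsSubnormal → B' ⊔ D = ⊤ → B ≤ B' := by
  classical
  have hiff : ∀ X : Subgroup G, X ⊔ D = ⊤ ↔ X.map (QuotientGroup.mk' D) = ⊤ := by
    intro X
    constructor
    · intro h
      have := congrArg (Subgroup.map (QuotientGroup.mk' D)) h
      rwa [Subgroup.map_sup, Subgroup.map_top_of_surjective _ (QuotientGroup.mk'_surjective D),
        QuotientGroup.map_mk'_self, sup_bot_eq] at this
    · intro h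
      have := congrArg (Subgroup.comap (QuotientGroup.mk' D)) h
      rwa [Subgroup.comap_map_eq, QuotientGroup.ker_mk', Subgroup.comap_top] at this
  have hmono : ∀ X Y : Subgroup G, X ≤ Y → X ⊔ D = ⊤ → Y ⊔ D = ⊤ := fun X Y h hX =>
    top_le_iff.1 (hX.ge.trans (sup_le_sup_right h D))
  have hcomm : ∀ X Y : Subgroup G, X ⊔ D = ⊤ → Y ⊔ D = ⊤ → ⁅X, Y⁆ ⊔ D = ⊤ := by
    intro X Y hX hY
    have h := (hiff _).1 hperf
    rw [Subgroup.map_commutator, Subgroup.map_top_of_surjective _ (QuotientGroup.mk'_surjective D)] at h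
    rw [hiff] at hX hY ⊢
    rw [Subgroup.map_commutator, hX, hY, h]
  have hA : ∀ X Y B : Subgroup G, X ≤ Y → Y ≤ Subgroup.normalizer (X : Set G) → X ⊔ D = ⊤ →
      SubnormalIn B Y → B ⊔ D = ⊤ → (B ⊓ X) ⊔ D = ⊤ := by
    intro X Y B hXY hYX hX hB
    refine hB.induction (P := fun Z => Z ⊔ D = ⊤ → (Z ⊓ X) ⊔ D = ⊤) ?_ ?_
    · intro _; rwa [inf_eq_right.2 hXY]
    · intro Z W hZW hWZ hW ih hZ
      have h1 := ih (hmono _ _ hZW hZ)
      refine hmono _ _ ?_ (hcomm _ _ hZ h1)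
      refine le_inf (commutator_le_left_of_le_normalizer (inf_le_left.trans hWZ)) ?_
      refine le_trans (Subgroup.commutator_mono (hZW.trans hW.le) inf_le_right) ?_
      exact commutator_le_right_of_le_normalizer hYX
  have hB : ∀ B X : Subgroup G, B.IsSubnormal → X.IsSubnormal → B ⊔ D = ⊤ → X ⊔ D = ⊤ → (B ⊓ X) ⊔ D = ⊤ := by
    intro B X hB hX hBD
    refine (SubnormalIn.top_iff.2 hX).induction (P := fun Z => Z ⊔ D = ⊤ → (B ⊓ Z) ⊔ D = ⊤) ?_ ?_
    · intro _; rwa [inf_top_eq]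
    · intro Z W hZW hWZ hW ih hZ
      have h1 := ih (hmono _ _ hZW hZ)
      have h2 : SubnormalIn (B ⊓ W) W :=
        SubnormalIn.of_isSubnormal (hB.inf (SubnormalIn.top_iff.1 hW)) inf_le_right
      have := hA Z W (B ⊓ W) hZW hWZ hZ h2 h1
      rwa [inf_assoc, inf_eq_right.2 hZW] at this
  obtain ⟨B, ⟨hB1, hB2⟩, hmin⟩ := (wellFounded_lt (α := Subgroup G)).has_min
    {X : Subgroup G | X.IsSubnormal ∧ X ⊔ D = ⊤} ⟨⊤, Subgroup.IsSubnormal.top, top_sup_eq D⟩
  have hle : ∀ B' : Subgroup G, B'.IsSubnormal → B' ⊔ D = ⊤ → B ≤ B' := by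
    intro B' h1 h2
    have := hmin (B ⊓ B') ⟨hB1.inf h1, hB B B' hB1 h1 hB2 h2⟩
    exact inf_eq_left.1 (eq_of_le_of_not_lt inf_le_left this)
  refine ⟨B, ⟨fun n hn g => ?_⟩, hB2, hle⟩
  have h3 := hle (MulAut.conj g⁻¹ • B)
    (SubnormalIn.top_iff.1 ((SubnormalIn.top_iff.2 hB1).conj_smul_of_mem (Subgroup.mem_top _)))
    (by rw [← conj_smul_eq_of_mem_normalizer (g := g⁻¹) (H := D) (Subgroup.le_normalizer_of_normal (Subgroup.mem_top _)),
          ← Subgroup.smul_sup, hB2, conj_smul_top])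
  have := le_conj_smul_iff.1 h3 n hn
  simpa using this

end Cfsg.Agent.S3027
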