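import Cfsg.Statements.S3032
import Cfsg.Agent.Local.HSub

set_option autoImplicit false
open Cfsg

namespace Cfsg.Agent.S3032

open Cfsg.Lib Cfsg.Lib.Trans Cfsg.Lib.HSub Subgroup

theorem chain {G : Type*} [Group G] [Finite G] (n : ℕ) : ∀ (E : Subgroup G) [E.Normal],
    Nat.card E = n → (∀ (p : ℕ), p.Prime → ∀ P : Subgroup G, P ≤ E → IsPGroup p P →
      ¬ p ∣ P.relIndex E → ¬ IsCyclic ↥P →
      ∃ D : Subgroup G, D ≤ P ∧ 1 < Nat.card D ∧ Nat.card D < Nat.card P ∧
        ∀ F : Subgroup G, F ≤ P → (Nat.card F = Nat.card D ∨ (Nat.card D = 2 ∧ Nat.card F = 4)) →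
          ∀ g : G, F.map (MulAut.conj g).toMonoidHom ⊓ Subgroup.normalizer (F : Set G) ≤ F) →
    Solv.CycChain E := by
  induction n using Nat.strong_induction_on with
  | _ n ih =>
  intro E _ hn h
  by_cases hE1 : E = ⊥
  · rw [hE1]; exact Solv.CycChain.bot
  have hp : (Nat.card E).minFac.Prime := Nat.minFac_prime fun e => hE1 (card_eq_one.1 e)
  have hdvd := Nat.minFac_dvd (Nat.card E)
  have hmin : ∀ q : ℕ, q.Prime → q ∣ Nat.card E → (Nat.card E).minFac ≤ q := fun q hq hd =>
    Nat.minFac_le_of_dvd hq.two_le hd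
  generalize (Nat.card E).minFac = p at hp hdvd hmin
  have := Fact.mk hp
  obtain ⟨P, hP⟩ := exists_isSylowIn (p := p) E
  have hcP : Nat.card (hP.toSylow : Subgroup E) = Nat.card P := by
    rw [hP.coe_toSylow, Solv.Coprime.card_subgroupOf hP.le]
  have hcl : IsCyclic P ∨ ∃ k, 1 ≤ k ∧ p ^ (k + 1) ∣ Nat.card P ∧
      ∀ F ≤ P, (Nat.card F = p ^ k ∨ (p ^ k = 2 ∧ Nat.card F = 4)) →
        ∀ x ∈ F, ∀ g : G, g * x * g⁻¹ ∈ P → g * x * g⁻¹ ∈ F := by
    by_cases hc : IsCyclic P
    · exact Or.inl hc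
    obtain ⟨D, hD, h1, h2, h3⟩ := h p hp P hP.le hP.isPGroup hP.not_dvd hc
    obtain ⟨k, hk1, hk, hk2⟩ := exists_exp hP.isPGroup hD h1 h2
    rw [hk] at h3
    exact Or.inr ⟨k, hk1, hk2, fun F hF hFc x hx g hg =>
      closed_of_inf_le hP.isPGroup hF (h3 F hF hFc) hx hg⟩
  have hc : HasNormalPComplement p E := by
    have hG := coprime_sub_one_of_min hmin
    rcases hcl with hc | ⟨k, hk1, hk2, h3⟩
    · exact hasNormalPComplement_of_isCyclic_of_coprime hP.toSylow
        (isCyclic_of_surjective (subgroupOfEquivOfLe hP.le).symm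
          (subgroupOfEquivOfLe hP.le).symm.surjective) hG
    refine hasNormalPComplement_of_closed hG hP.toSylow hk1 (hcP ▸ hk2) fun F hF hFc x hx g hg => ?_
    obtain ⟨y, hy, e⟩ := h3 (F.map E.subtype) (hP.map_toSylow ▸ map_mono hF)
      (by rwa [card_map_of_injective E.subtype_injective]) x ⟨x, hx, rfl⟩ g hg
    rwa [show g * x * g⁻¹ = y from Subtype.ext e.symm]
  set K := (pResidual p E).map E.subtype with hK
  have hKE : K ≤ E := map_subtype_le _
  have hKc : (Nat.card K).Coprime p := by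
    rw [hK, card_map_of_injective E.subtype_injective]
    exact hasNormalPComplement_iff_coprime.1 hc
  obtain ⟨m, hm⟩ := exists_index_pResidual_eq (p := p) (G := E)
  rw [← relIndex_map_subtype, ← hK] at hm
  have hKch : Solv.CycChain K := by
    have hlt : Nat.card K < n := by
      rw [← hn]
      exact card_lt_of_lt (lt_of_le_of_ne hKE fun e =>
        coprime_iff_not_dvd'.1 hKc (by rw [e]; exact hdvd))
    refine ih _ hlt K rfl
      fun q hq Q hQ hQq hi hcyc => h q hq Q (hQ.trans hKE) hQq (fun hd => ?_) hcyc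
    rw [← relIndex_mul_relIndex Q K E hQ hKE, hm] at hd
    obtain rfl := (Nat.prime_dvd_prime_iff_eq hq hp).1
      (hq.dvd_of_dvd_pow (((Nat.Prime.dvd_mul hq).1 hd).resolve_left hi))
    have := inf_eq_bot_of_coprime_of_isPGroup hKc hQq
    rw [inf_of_le_right hQ] at this
    exact hcyc (this ▸ inferInstance)
  have hsup : K ⊔ P = E := by
    have h1 := congrArg (map E.subtype) (pResidual_sup_sylow hP.toSylow)
    rwa [Subgroup.map_sup, hP.map_toSylow, ← MonoidHom.range_eq_map, range_subtype] at h1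
  have hmap : E.map (QuotientGroup.mk' K) = P.map (QuotientGroup.mk' K) := by
    have : K.map (QuotientGroup.mk' K) = ⊥ := by
      rw [Subgroup.map_eq_bot_iff, QuotientGroup.ker_mk']
    have h1 := congrArg (map (QuotientGroup.mk' K)) hsup
    rw [Subgroup.map_sup, this, bot_sup_eq] at h1
    exact h1.symm
  refine Solv.CycChain.of_map_mk' hKch ?_
  have hnorm : (E.map (QuotientGroup.mk' K)).Normal :=
    Normal.map inferInstance _ (QuotientGroup.mk'_surjective K)
  rw [hmap] at hnorm ⊢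
  rcases hcl with hc | ⟨k, hk1, hk2, h3⟩
  · have : IsCyclic (P.map (QuotientGroup.mk' K)) :=
      isCyclic_of_surjective _ ((QuotientGroup.mk' K).subgroupMap_surjective P)
    exact Solv.CycChain.of_isCyclic _
  have h4 := (cycChain_of_closed hP.isPGroup hk1 hk2 fun F hF hFc g hg =>
    mem_normalizer_of_cj_le (cj_le_iff.2 fun x hx =>
      h3 F hF hFc x hx g (mem_normalizer_conj hg (hF hx)))).map
    (f := (QuotientGroup.mk' K).comp (normalizer (P : Set G)).subtype) (fun y => by
      obtain ⟨g, rfl⟩ := QuotientGroup.mk'_surjective K y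
      obtain ⟨e, he, a, ha, rfl⟩ := hP.frattini (g := g) (by rw [normalizer_eq_top]; trivial)
      obtain ⟨x, hx, s, hs, rfl⟩ := mem_sup_of_normal_left.1 (hsup.ge he)
      refine ⟨⟨s * a, mul_mem (le_normalizer hs) ha⟩, ?_⟩
      simp [(QuotientGroup.eq_one_iff x).2 hx])
  rwa [← map_map, subgroupOf_map_subtype, inf_of_le_left le_normalizer] at h4

/-- Let G be a finite group and E a normal subgroup with G/E supersolvable. Suppose that for every prime p and every non-cyclic Sylow p-subgroup P of E there is a subgroup D of P with 1 < |D| < |P| such that every subgroup F of P of order |D|, and also every subgroup F of P of order 4 when |D| = 2, satisfies g F g⁻¹ ∩ N_G(F) ≤ F for all g ∈ G. Then G is supersolvable. -/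
theorem result {G : Type*} [Group G] [Finite G] (E : Subgroup G) [E.Normal] (hGE : Cfsg.IsSupersolvable (G ⧸ E))
    (h : ∀ (p : ℕ), p.Prime → ∀ P : Subgroup G, P ≤ E → IsPGroup p P → ¬ p ∣ P.relIndex E → ¬ IsCyclic ↥P →
      ∃ D : Subgroup G, D ≤ P ∧ 1 < Nat.card D ∧ Nat.card D < Nat.card P ∧
        ∀ F : Subgroup G, F ≤ P → (Nat.card F = Nat.card D ∨ (Nat.card D = 2 ∧ Nat.card F = 4)) →
          ∀ g : G, F.map (MulAut.conj g).toMonoidHom ⊓ Subgroup.normalizer (F : Set G) ≤ F) :
    Cfsg.IsSupersolvable G := by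
  exact Lib.Solv.isSupersolvable_of_cycChain_of_quotient (chain _ E rfl h) hGE

end Cfsg.Agent.S3032
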