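import Cfsg.Statements.S3048
import Cfsg.Agent.Local.CharP
import Cfsg.Agent.Trans.BpBalance
import Cfsg.Agent.Trans.Isolated
import Cfsg.Agent.Solv.NilpotentHall
import Cfsg.Agent.Solv.MinCover
import Cfsg.Agent.S3012
import Cfsg.Agent.S3013

set_option autoImplicit false
universe u
open Cfsg

namespace Cfsg.Agent.S3048

open Subgroup Cfsg.Lib Cfsg.Lib.Trans Cfsg.Lib.Local

section
variable {G : Type*} [Group G]

theorem ea_of_le {V W : Subgroup G} (hV : IsElementaryAbelian 2 V) (h : W ≤ V) :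
    IsElementaryAbelian 2 W :=
  ⟨⟨⟨fun a b => Subtype.ext
    (congrArg Subtype.val (hV.1.is_comm.comm ⟨a, h a.2⟩ ⟨b, h b.2⟩) :)⟩⟩, fun a ha => hV.2 a (h ha)⟩

theorem ea_subgroupOf {W : Subgroup G} (hW : IsElementaryAbelian 2 W) (H : Subgroup G) :
    IsElementaryAbelian 2 (W.subgroupOf H) :=
  ⟨⟨⟨fun a b => Subtype.ext (Subtype.ext
    (congrArg Subtype.val (hW.1.is_comm.comm ⟨a, a.2⟩ ⟨b, b.2⟩) :))⟩⟩,
    fun a ha => Subtype.ext (hW.2 a ha)⟩

theorem ea_map {G' : Type*} [Group G'] {W : Subgroup G} (hW : IsElementaryAbelian 2 W)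
    (f : G →* G') : IsElementaryAbelian 2 (W.map f) := by
  refine ⟨?_, ?_⟩
  · have := hW.1
    infer_instance
  · rintro _ ⟨a, ha, rfl⟩
    rw [← map_pow, hW.2 a ha, map_one]

theorem exists_of_not_sidki {W H : Subgroup G} (hWH : W ≤ H) (h : ¬ IsSidkiPair (W.subgroupOf H)) :
    ∃ x ∈ H, ∃ w ∈ W, Odd (orderOf x) ∧ w * x * w⁻¹ = x⁻¹ ∧ ∀ u ∈ W, u * x = x * u → u = 1 := by
  by_contra hne
  push Not at hne
  refine h fun x w hw hx e => ?_
  obtain ⟨u, hu, hc, hu1⟩ := hne x x.2 w hw (by rwa [Subgroup.orderOf_coe])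
    (congrArg Subtype.val e)
  exact ⟨⟨u, hWH hu⟩, hu, fun e => hu1 (congrArg Subtype.val e), Subtype.ext hc⟩

theorem cent_of_mem_pCoreOf [Finite G] (hO : pCore 2 G = ⊥) {H M : Subgroup G} (hM : M.IsSubnormal)
    (hMH : M ≤ H) (hn : H ≤ normalizer (M : Set G)) :
    pCoreOf 2 H ≤ centralizer (M : Set G) := by
  rw [← commutator_eq_bot_iff_le_centralizer, eq_bot_iff, ← hO]
  refine (commutator_le_inf_of_le_normalizer ((pCoreOf_le H).trans hn)
    (hMH.trans (le_normalizer_pCoreOf H))).trans ((pCoreOf_inf_le hMH).trans ?_)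
  exact Solv.map_pCore_le_of_isSubnormal hM

end

/-- Minimal counterexample reduction for the Sidki pair problem. Let G be a finite group and V a nontrivial elementary abelian 2-subgroup satisfying the Sidki pair condition with V ∩ O₂(G) = 1. Suppose that for every finite group H of smaller order, every nontrivial elementary abelian 2-subgroup W of H satisfying the Sidki pair condition meets O₂(H) nontrivially, and that the same holds in G for every such subgroup W of order smaller than that of V. Then the generalized Fitting subgroup F*(G) is a non-abelian simple group and G = V F*(G). -/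
theorem result {G : Type u} [Group G] [Finite G] (V : Subgroup G) (hV : Cfsg.IsElementaryAbelian 2 V) (hV1 : V ≠ ⊥) (hS : Cfsg.IsSidkiPair V) (hVO : V ⊓ Cfsg.pCore 2 G = ⊥) (hminG : ∀ (H : Type u) [Group H] [Finite H] (W : Subgroup H), Nat.card H < Nat.card G → Cfsg.IsElementaryAbelian 2 W → W ≠ ⊥ → Cfsg.IsSidkiPair W → W ⊓ Cfsg.pCore 2 H ≠ ⊥) (hminV : ∀ W : Subgroup G, Nat.card W < Nat.card V → Cfsg.IsElementaryAbelian 2 W → W ≠ ⊥ → Cfsg.IsSidkiPair W → W ⊓ Cfsg.pCore 2 G ≠ ⊥) : IsSimpleGroup ↥(Cfsg.generalizedFittingSubgroup G) ∧ ¬ IsMulCommutative ↥(Cfsg.generalizedFittingSubgroup G) ∧ V ⊔ Cfsg.generalizedFittingSubgroup G = ⊤ := by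
  have : Fact (Nat.Prime 2) := ⟨Nat.prime_two⟩
  have hcomm : ∀ a ∈ V, ∀ b ∈ V, a * b = b * a := fun a ha b hb =>
    congrArg Subtype.val (hV.1.is_comm.comm ⟨a, ha⟩ ⟨b, hb⟩)
  have hsq : ∀ a ∈ V, a * a = 1 := fun a ha => by rw [← pow_two]; exact hV.2 a ha
  have hVp : IsPGroup 2 V := fun x => ⟨1, Subtype.ext (by simpa using hV.2 x x.2)⟩
  have hquot : ∀ (K : Subgroup G) [K.Normal], K ≠ ⊥ → V ⊓ K = ⊥ →
      ∃ v ∈ V, v ≠ 1 ∧ v ∈ (pCore 2 (G ⧸ K)).comap (QuotientGroup.mk' K) := by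
    intro K _ hK hVK
    have h1 := hminG (G ⧸ K) (V.map (QuotientGroup.mk' K)) (Solv.card_quotient_lt_of_ne_bot K hK)
      (ea_map hV _) (by
        rw [Ne, Subgroup.map_eq_bot_iff, QuotientGroup.ker_mk']
        exact fun h => hV1 (by rwa [inf_eq_left.2 h] at hVK))
      (S3012.result V K hV hV1 hS hVK)
    obtain ⟨_, ⟨⟨v, hv, rfl⟩, h2⟩, h3⟩ := (bot_or_exists_ne_one _).resolve_left h1
    exact ⟨v, hv, fun e => h3 (by rw [e, map_one]), h2⟩
  have hO : pCore 2 G = ⊥ := by
    by_contra hne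
    obtain ⟨v, hv, hv1, h⟩ := hquot _ hne hVO
    rw [Solv.comap_pCore_quotient _ (Solv.pCore_isPGroup 2 G)] at h
    exact hv1 (mem_bot.1 (hVO ▸ mem_inf.2 ⟨hv, h⟩))
  have hVF : ∀ v ∈ V, v ∈ fittingSubgroup G → v = 1 := fun v hv h => by
    have := Solv.le_pCore_of_le_fitting (hVp.to_le (zpowers_le.2 hv)) (zpowers_le.2 h)
    rw [hO] at this
    exact this (mem_zpowers v)
  have hsub : ∀ H W : Subgroup G, H ≠ ⊤ → W ≤ H → W ≤ V → W ≠ ⊥ → IsSidkiPair (W.subgroupOf H) →
      ∃ w ∈ W, w ≠ 1 ∧ w ∈ pCoreOf 2 H := by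
    intro H W hH hWH hWV hW hs
    have h1 := hminG H (W.subgroupOf H) (Solv.card_lt_of_ne_top hH)
      (ea_subgroupOf (ea_of_le hV hWV) H) (by
        rw [Ne, subgroupOf_eq_bot, disjoint_iff, inf_eq_left.2 hWH]; exact hW) hs
    obtain ⟨w, hw, h3⟩ := (bot_or_exists_ne_one _).resolve_left h1
    exact ⟨w, hw.1, fun e => h3 (Subtype.ext e), ⟨w, hw.2, rfl⟩⟩
  have hZ : center G = ⊥ := by
    by_contra hne
    obtain ⟨v, hv, hv1, h⟩ := hquot _ hne (eq_bot_iff.2 fun v hv =>
      hVF v hv.1 (Solv.center_le_fitting G hv.2))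
    exact hv1 (hVF v hv (Solv.le_fitting inferInstance (Solv.isNilpotent_comap_of_ker_le_center _
      (QuotientGroup.ker_mk' _).le (Solv.pCore_isPGroup 2 _).isNilpotent) h))
  have hcen : ∀ (M : Subgroup G) (w : G), M ⊔ V = ⊤ → w ∈ V → w ∈ centralizer (M : Set G) →
      w = 1 := by
    intro M w hM hw hc
    rw [← mem_bot, ← hZ, mem_center_iff]
    intro g
    have : M ⊔ V ≤ centralizer ({w} : Set G) :=
      sup_le (fun a ha => mem_centralizer_singleton_iff.2 (hc a ha))
        (fun a ha => mem_centralizer_singleton_iff.2 (hcomm a ha w hw))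
    exact mem_centralizer_singleton_iff.1 (this (hM ▸ mem_top g))
  have hnorm : ∀ M : Subgroup G, M.Normal → M ≠ ⊥ → M ⊔ V = ⊤ := by
    intro M hM hM1
    by_contra hne
    have hW : V ⊓ centralizer (M : Set G) ≠ ⊥ := by
      have hs : IsSidkiPair (V.subgroupOf (M ⊔ V)) := by
        by_contra hs
        obtain ⟨x, -, w, hw, hx, e, h⟩ := exists_of_not_sidki le_sup_right hs
        obtain ⟨u, hu, hu1, e'⟩ := hS x w hw hx e
        exact hu1 (h u hu e')
      obtain ⟨w, hw, hw1, h⟩ := hsub _ V hne le_sup_right le_rfl hV1 hs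
      exact fun e => hw1 (mem_bot.1 (e ▸ mem_inf.2 ⟨hw, cent_of_mem_pCoreOf hO hM.isSubnormal
        le_sup_left le_normalizer_of_normal h⟩))
    have hN : centralizer (M : Set G) ≠ ⊤ := fun e =>
      hM1 (eq_bot_iff.2 (hZ ▸ centralizer_eq_top_iff_subset.1 e))
    have hs : ¬ IsSidkiPair ((V ⊓ centralizer (M : Set G)).subgroupOf (centralizer (M : Set G))) := by
      intro hs
      obtain ⟨w, hw, hw1, h⟩ := hsub _ _ hN inf_le_right inf_le_left hW hs
      have := Solv.map_pCore_le_of_normal (p := 2) _ h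
      rw [hO] at this
      exact hw1 this
    obtain ⟨x, hxM, u, hu, hx, e, h⟩ := exists_of_not_sidki inf_le_right hs
    obtain ⟨h1, h2⟩ := S3013.result V hV hV1 hS u x hu.1 hx e _ rfl
    have hC : centralizer ({u} : Set G) ⊓ centralizer ({x} : Set G) ≠ ⊤ := by
      intro e'
      obtain ⟨w, hw, hw1⟩ := (bot_or_exists_ne_one _).resolve_left hW
      exact hw1 (h w hw (mem_centralizer_singleton_iff.1
        (e' ▸ mem_top w : w ∈ centralizer ({u} : Set G) ⊓ centralizer ({x} : Set G)).2))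
    obtain ⟨w, hw, hw1, h3⟩ := hsub _ _ hC inf_le_left inf_le_right h1 h2
    have h4 := cent_of_mem_pCoreOf hO hM.isSubnormal (le_inf
      (fun a ha => mem_centralizer_singleton_iff.2 (hu.2 a ha))
      (fun a ha => mem_centralizer_singleton_iff.2 (hxM a ha))) le_normalizer_of_normal h3
    exact hw1 (h w ⟨hw.2, h4⟩ (mem_centralizer_singleton_iff.1 hw.1.2))
  have hF : fittingSubgroup G = ⊥ := by
    by_contra hne
    have hM1 := Solv.PG.inf_centralizer_ne_bot_of_isNilpotent (S := fittingSubgroup G)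
      inferInstance le_rfl le_normalizer hne
    generalize hM : fittingSubgroup G ⊓ centralizer (fittingSubgroup G : Set G) = M at hM1
    have hMn : M.Normal := by rw [← hM]; infer_instance
    have hMF : M ≤ fittingSubgroup G := hM ▸ inf_le_left
    have hMc : ∀ a ∈ M, ∀ b ∈ M, a * b = b * a := fun a ha b hb => (hM ▸ hb).2 a (hMF ha)
    have hMV := hnorm M hMn hM1
    have hfix : ∀ v ∈ V, v ≠ 1 → ∀ m ∈ M, v * m = m * v → m = 1 := by
      intro v hv hv1 m hm e
      by_contra hm1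
      have hn : (M ⊓ centralizer ({v} : Set G)).Normal := by
        rw [← normalizer_eq_top_iff, eq_top_iff, ← hMV]
        refine sup_le (fun a ha => centralizer_le_normalizer _ fun b hb => hMc b hb.1 a ha) ?_
        refine Solv.le_normalizer_inf le_normalizer_of_normal (le_trans ?_ le_normalizer)
        exact fun a ha => mem_centralizer_singleton_iff.2 (hcomm a ha v hv)
      refine hv1 (hcen _ v (hnorm _ hn fun e' => hm1 (mem_bot.1 (e' ▸ mem_inf.2
        ⟨hm, mem_centralizer_singleton_iff.2 e.symm⟩))) hv fun a ha => ?_)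
      exact mem_centralizer_singleton_iff.1 ha.2
    obtain ⟨v, hv, hv1⟩ := (bot_or_exists_ne_one _).resolve_left hV1
    obtain ⟨m, hm, hm1⟩ : ∃ m ∈ M, m ≠ 1 ∧ (orderOf m).Coprime 2 := by
      by_contra hcon
      push Not at hcon
      apply hM1
      rw [eq_bot_iff, ← hO]
      refine Solv.le_pCore hMn (resOf_eq_bot_iff.1 (eq_bot_iff.2 (resOf_le_iff.2 fun a ha hc => ?_)))
      by_contra ha1
      exact hcon a ha ha1 hc
    have hinv : v * m * v⁻¹ = m⁻¹ := by
      have h1 := hMn.conj_mem m hm v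
      refine eq_inv_of_mul_eq_one_right (hfix v hv hv1 _ (mul_mem hm h1) ?_)
      have h2 := hMc _ hm _ h1
      rw [inv_eq_of_mul_eq_one_right (hsq v hv)] at h2 ⊢
      calc v * (m * (v * m * v)) = v * (v * m * v * m) := by rw [h2]
        _ = (v * v) * m * v * m := by group
        _ = m * (v * m * (v * v)) := by rw [hsq v hv]; group
        _ = _ := by group
    obtain ⟨u, hu, hu1, e⟩ := hS m v hv (Nat.coprime_two_right.1 hm1.2) hinv
    exact hm1.1 (hfix u hu hu1 m hm e)
  have hFE := genFitting_eq_layer_of_fitting_eq_bot hF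
  have : Nontrivial G := by
    obtain ⟨v, -, hv1⟩ := (bot_or_exists_ne_one _).resolve_left hV1
    exact ⟨⟨v, 1, hv1⟩⟩
  have hE : layer G ≠ ⊥ := hFE ▸ genFitting_ne_bot G
  have hEV := hnorm _ inferInstance hE
  obtain ⟨K, hK⟩ : ∃ K : Subgroup G, IsComponent K := by
    by_contra hcon
    push Not at hcon
    exact hE (layer_eq_bot_iff.2 hcon)
  have hZK : K ⊓ centralizer (K : Set G) = ⊥ := by
    rw [eq_bot_iff, ← hF]
    refine Solv.le_fitting_of_isSubnormal (isSubnormal_of_le_normalizer hK.1 inf_le_left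
      (Solv.le_normalizer_inf le_normalizer (Solv.le_normalizer_centralizer le_normalizer))) ?_
    have : IsMulCommutative (K ⊓ centralizer (K : Set G) : Subgroup G) :=
      ⟨⟨fun a b => Subtype.ext (b.2.2 a a.2.1)⟩⟩
    exact Solv.isNilpotent_of_isMulCommutative _
  have hwK : ∀ w ∈ V, w ∈ centralizer (K : Set G) → w = 1 := by
    intro w hw hc
    have h1 : K ≤ (centralizer ({w} : Set G)).normalCore := by
      intro k hk g
      obtain ⟨v, hv, e, he, rfl⟩ := (mem_sup_of_normal_right (s := V) (t := layer G)).1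
        (by rw [sup_comm, hEV]; exact mem_top g)
      have h2 := hc _ (mem_normalizer_conj (IsComponent.layer_le_normalizer hK he) hk)
      rw [mem_centralizer_singleton_iff]
      calc v * e * k * (v * e)⁻¹ * w = v * (e * k * e⁻¹) * (v⁻¹ * w) := by group
        _ = v * (e * k * e⁻¹ * w) * v⁻¹ := by rw [hcomm _ (inv_mem hv) w hw]; group
        _ = (v * w) * (e * k * e⁻¹) * v⁻¹ := by rw [h2]; group
        _ = _ := by rw [hcomm v hv w hw]; group
    refine hcen _ w (hnorm _ inferInstance fun e => IsComponent.ne_bot hK (eq_bot_iff.2 (e ▸ h1)))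
      hw fun a ha => mem_centralizer_singleton_iff.1 (normalCore_le _ ha)
  have hcc : ∀ g : G, g ∉ normalizer (K : Set G) → ∀ a ∈ K, ∀ b ∈ K,
      a * (g * b * g⁻¹) = g * b * g⁻¹ * a := fun g hg a ha b hb =>
    commute_of_commutator_eq_bot (IsComponent.commutator_eq_bot_of_ne hK
      (IsComponent.map_conj hK g) fun e => hg (cj_eq_self_iff.1 e.symm)) ha (conj_mem_cj.2 hb)
  have hone : ∀ x ∈ K, (∀ a ∈ K, a * x = x * a) → x = 1 := fun x hx h =>
    mem_bot.1 (hZK ▸ mem_inf.2 ⟨hx, h⟩)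
  have hVK : V ≤ normalizer (K : Set G) := by
    by_contra hne
    by_cases hV0 : V ⊓ normalizer (K : Set G) = ⊥
    · have hv0 : ∀ v ∈ V, v ≠ 1 → v ∉ normalizer (K : Set G) := fun v hv hv1 h =>
        hv1 (mem_bot.1 (hV0 ▸ mem_inf.2 ⟨hv, h⟩))
      obtain ⟨v, hv, hv1⟩ := (bot_or_exists_ne_one _).resolve_left hV1
      obtain ⟨x, hx, hx1, hxo⟩ : ∃ x ∈ K, x ≠ 1 ∧ (orderOf x).Coprime 2 := by
        by_contra hcon
        push Not at hcon
        apply IsComponent.ne_bot hK
        rw [eq_bot_iff, ← hO]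
        refine Solv.le_pCore_of_isSubnormal hK.1
          (resOf_eq_bot_iff.1 (eq_bot_iff.2 (resOf_le_iff.2 fun a ha hc => ?_)))
        by_contra ha1
        exact hcon a ha ha1 hc
      have hvi : v⁻¹ = v := inv_eq_of_mul_eq_one_right (hsq v hv)
      have hc : Commute x (v * x⁻¹ * v⁻¹) := hcc v (hv0 v hv hv1) x hx _ (inv_mem hx)
      have hodd : Odd (orderOf (x * (v * x⁻¹ * v⁻¹))) := by
        refine Odd.of_dvd_nat ?_ hc.orderOf_mul_dvd_mul_orderOf
        rw [orderOf_conj_eq, orderOf_inv]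
        exact (Nat.coprime_two_right.1 hxo).mul (Nat.coprime_two_right.1 hxo)
      have hinv : v * (x * (v * x⁻¹ * v⁻¹)) * v⁻¹ = (x * (v * x⁻¹ * v⁻¹))⁻¹ := by
        calc v * (x * (v * x⁻¹ * v⁻¹)) * v⁻¹ = v * x * v * x⁻¹ * (v * v)⁻¹ := by group
          _ = v * x * v⁻¹ * x⁻¹ := by rw [hsq v hv, hvi]; group
          _ = _ := by group
      obtain ⟨u, hu, hu1, e⟩ := hS _ v hv hodd hinv
      refine hx1 (hone x hx fun a ha => ?_)
      have h1 := hcc v (hv0 v hv hv1) a ha _ (inv_mem hx)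
      have h2 : a * (x * (v * x⁻¹ * v⁻¹)) = x * (v * x⁻¹ * v⁻¹) * a := by
        by_cases huv : u * v = 1
        · have h3 : u = v := by rw [← hvi]; exact eq_inv_of_mul_eq_one_left huv
          rw [h3] at e
          rw [e, mul_inv_cancel_right] at hinv
          rw [eq_one_of_odd_of_eq_inv hodd hinv, mul_one, one_mul]
        · have h3 : x * (v * x⁻¹ * v⁻¹) = u * x * u⁻¹ * (u * v * x⁻¹ * (u * v)⁻¹) := by
            calc x * (v * x⁻¹ * v⁻¹) = u * (x * (v * x⁻¹ * v⁻¹)) * u⁻¹ := by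
                  rw [e, mul_inv_cancel_right]
              _ = _ := by group
          rw [h3, ← mul_assoc, hcc u (hv0 u hu hu1) a ha x hx, mul_assoc,
            hcc _ (hv0 _ (mul_mem hu hv) huv) a ha _ (inv_mem hx), ← mul_assoc]
      rw [← mul_assoc, mul_assoc x, ← h1, ← mul_assoc x] at h2
      exact mul_right_cancel h2
    · have hH : K ⊔ (V ⊓ normalizer (K : Set G)) ≤ normalizer (K : Set G) :=
        sup_le le_normalizer inf_le_right
      have hH' : K ⊔ (V ⊓ normalizer (K : Set G)) ≠ ⊤ := fun e => hne (le_top.trans (e ▸ hH))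
      have hs : ¬ IsSidkiPair ((V ⊓ normalizer (K : Set G)).subgroupOf
          (K ⊔ (V ⊓ normalizer (K : Set G)))) := by
        intro hs
        obtain ⟨w, hw, hw1, h⟩ := hsub _ _ hH' le_sup_right inf_le_left hV0 hs
        exact hw1 (hwK w hw.1 (cent_of_mem_pCoreOf hO hK.1 le_sup_left hH h))
      obtain ⟨x, hxH, w, hw, hx, e, h⟩ := exists_of_not_sidki le_sup_right hs
      have hxK : x ∈ K := resOf_le_of_le_sup (hVp.to_le inf_le_left) inf_le_right le_rfl
        (mem_resOf hxH (Nat.coprime_two_right.2 hx))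
      obtain ⟨u, hu, hu1, e'⟩ := hS x w hw.1 hx e
      have h1 : x = 1 := hone x hxK fun a ha => by
        have := hcc u (fun hn => hu1 (h u ⟨hu, hn⟩ e')) a ha x hxK
        rwa [e', mul_inv_cancel_right] at this
      obtain ⟨y, hy, hy1⟩ := (bot_or_exists_ne_one _).resolve_left hV0
      exact hy1 (h y hy (by rw [h1, mul_one, one_mul]))
  have hKn : K.Normal := by
    rw [← normalizer_eq_top_iff, eq_top_iff, ← hEV]
    exact sup_le (IsComponent.layer_le_normalizer hK) hVK
  have hKV := hnorm K hKn (IsComponent.ne_bot hK)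
  have hEK : layer G = K := le_antisymm
    (le_of_perfect_of_le_sup (layer_perfect G) hVp hVK (hKV ▸ le_top)) (IsComponent.le_layer hK)
  rw [hFE, hEK]
  refine ⟨IsQuasisimple.isSimpleGroup_of_center_eq_bot hK.2 ?_, fun h => ?_, by rwa [sup_comm]⟩
  · rw [← map_eq_bot_iff_of_injective _ K.subtype_injective, map_subtype_center, hZK]
  · exact IsComponent.not_le_centralizer hK (le_centralizer K)

end Cfsg.Agent.S3048
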