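import Cfsg.Statements.S3049
import Cfsg.Agent.Local.IsolatedP
import Cfsg.Agent.Local.CharP
import Cfsg.Agent.Trans.SmallOrderAction
import Cfsg.Agent.Solv.NilpotentHall

set_option autoImplicit false
open Cfsg

namespace Cfsg.Agent.S3049

open Subgroup Cfsg.Lib Cfsg.Lib.Trans Cfsg.Lib.Local

theorem not_npc {G : Type*} [Group G] [Finite G] {p : ℕ} [Fact p.Prime] (hp : p ≠ 2)
    (hcore : pPrimeCore p G = ⊥) {K T : Subgroup G} (hK : IsComponent K) (hT : IsSylowIn p T K)
    (h : ∀ u ∈ T, u ^ p = 1 → ∀ k ∈ K, k * u * k⁻¹ ∈ T → k * u * k⁻¹ = u) : False := by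
  have h1 : HasNormalPComplement p K := by
    apply hasNormalPComplement_of_small_exponent hT.toSylow
    intro Q hQ hexp g hg _ _
    rw [mem_centralizer_iff]
    intro u hu
    have h2 : (u : G) ^ p = 1 := by
      rcases hexp u hu with h2 | h2
      · exact congrArg Subtype.val h2
      · exact absurd h2.1 hp
    have h3 := h u (hQ hu) h2 g g.2 (hQ ((mem_normalizer_iff.1 hg u).1 hu))
    apply Subtype.ext
    show (u : G) * g = g * u
    calc (u : G) * g = (g * u * (g : G)⁻¹) * g := by rw [h3]
      _ = _ := by group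
  obtain ⟨N, hN, hc, hq⟩ := hasNormalPComplement_iff_exists_normal.1 h1
  have hper : ⁅(⊤ : Subgroup K), (⊤ : Subgroup K)⁆ = ⊤ := IsQuasisimple.commutator_eq_top hK.2
  have h2 : (⊤ : Subgroup K) ≤ (QuotientGroup.mk' N).ker := by
    apply perfect_le_ker_of_isSolvable hper
    have := (hq.to_subgroup ((⊤ : Subgroup K).map (QuotientGroup.mk' N))).isNilpotent
    infer_instance
  rw [QuotientGroup.ker_mk', top_le_iff] at h2
  rw [h2, card_top] at hc
  have := Solv.le_pPrimeCore_of_isSubnormal hK.1 hc
  rw [hcore, le_bot_iff] at this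
  exact IsComponent.ne_bot hK this

theorem mem_sup_of_rank {G : Type*} [Group G] [Finite G] {p : ℕ} [hp : Fact p.Prime]
    (hrank : PRankLE p 2 G) {x y u : G} (hx : x ^ p = 1) (hy : orderOf y = p) (hu : u ^ p = 1)
    (hxy : x ∉ zpowers y) (h1 : x * y = y * x) (h2 : x * u = u * x) (h3 : y * u = u * y) :
    u ∈ zpowers x ⊔ zpowers y := by
  by_contra hne
  have hy' : y ^ p = 1 := by rw [← hy]; exact pow_orderOf_eq_one y
  have hcomm : ∀ a ∈ ({x, y, u} : Set G), ∀ b ∈ ({x, y, u} : Set G), a * b = b * a := by
    intro a ha b hb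
    simp only [Set.mem_insert_iff, Set.mem_singleton_iff] at ha hb
    rcases ha with rfl | rfl | rfl <;> rcases hb with rfl | rfl | rfl <;>
      first | rfl | assumption | (symm; assumption)
  have hB : IsMulCommutative (closure ({x, y, u} : Set G)) := isMulCommutative_closure hcomm
  have hexp : ∀ a ∈ closure ({x, y, u} : Set G), a ^ p = 1 := by
    intro a ha
    induction ha using closure_induction with
    | mem a ha =>
      simp only [Set.mem_insert_iff, Set.mem_singleton_iff] at ha
      rcases ha with rfl | rfl | rfl <;> assumption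
    | one => simp
    | mul a b ha hb iha ihb =>
      have : Commute a b := congrArg Subtype.val (hB.is_comm.comm ⟨a, ha⟩ ⟨b, hb⟩)
      rw [this.mul_pow, iha, ihb, one_mul]
    | inv a _ iha => rw [inv_pow, iha, inv_one]
  have hc := hrank _ hB hexp
  have hBp : IsPGroup p (closure ({x, y, u} : Set G)) := fun a =>
    ⟨1, Subtype.ext (by simpa using hexp a a.2)⟩
  have hlt1 : zpowers y < zpowers x ⊔ zpowers y :=
    lt_of_le_of_ne le_sup_right fun h => hxy (h ▸ mem_sup_left (mem_zpowers x))
  have hle : zpowers x ⊔ zpowers y ≤ closure ({x, y, u} : Set G) :=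
    sup_le (zpowers_le.2 (subset_closure (by simp))) (zpowers_le.2 (subset_closure (by simp)))
  have hlt2 : zpowers x ⊔ zpowers y < closure ({x, y, u} : Set G) :=
    lt_of_le_of_ne hle fun h => hne (h ▸ subset_closure (by simp))
  obtain ⟨a, ha⟩ := (hBp.to_le hle).exists_card_eq
  obtain ⟨b, hb⟩ := hBp.exists_card_eq
  have e1 := Trans.card_lt_of_lt hlt1
  have e2 := Trans.card_lt_of_lt hlt2
  rw [Nat.card_zpowers, hy, ha] at e1
  rw [ha, hb] at e2
  rw [hb] at hc
  have hp1 := hp.out.one_lt
  have e3 : 1 < a := by
    rw [← Nat.pow_lt_pow_iff_right hp1, pow_one]; exact e1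
  have e4 := (Nat.pow_lt_pow_iff_right hp1).1 e2
  have e5 := (Nat.pow_le_pow_iff_right hp1).1 hc
  omega

/-- Let G be a finite group and p an odd prime with O_{p'}(G) = 1. Suppose that G has p-rank at most 2 (no elementary abelian subgroup of order p³) and that some element x of order p is isolated in G (no G-conjugate of x other than x commutes with x) and not central. Then the generalized Fitting subgroup F*(G) is a non-abelian simple group. Since O_{p'}(G) = 1, such an x is not central modulo O_{p'}(G): the hypotheses describe a counterexample to the Z*_p statement in p-rank at most 2. -/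
theorem result {G : Type*} [Group G] [Finite G] {p : ℕ} [Fact p.Prime] (hp : p ≠ 2) (hcore : Cfsg.pPrimeCore p G = ⊥)
    (hrank : Cfsg.PRankLE p 2 G) (x : G) (hx : orderOf x = p) (hiso : Cfsg.IsIsolated x) (hnc : x ∉ Subgroup.center G) :
    IsSimpleGroup ↥(Cfsg.generalizedFittingSubgroup G) ∧ ¬ IsMulCommutative ↥(Cfsg.generalizedFittingSubgroup G) := by
  have hxp : IsPGroup p (zpowers x) := Local.isPGroup_zpowers_of_orderOf_eq hx
  have hF := genFitting_eq_layer_sup_pCore (p := p) hcore
  have hxO : pCore p G ≤ centralizer ({x} : Set G) :=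
    le_sup_left.trans (Iso.le_centralizer hiso (R := pCore p G ⊔ zpowers x)
      (IsPGroup.to_sup_of_normal_left (Solv.pCore_isPGroup p G) hxp)
      (mem_sup_right (mem_zpowers x)))
  obtain ⟨K, hK, hxK⟩ : ∃ K : Subgroup G, IsComponent K ∧ ¬ K ≤ centralizer ({x} : Set G) := by
    by_contra hne
    push Not at hne
    have h1 : generalizedFittingSubgroup G ≤ centralizer ({x} : Set G) := by
      rw [hF]; exact sup_le (layer_le_iff.2 hne) hxO
    have h2 : x ∈ pCore p G := by
      rw [← Solv.fitting_eq_pCore_of_pPrimeCore_eq_bot hcore]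
      apply centralizer_genFitting_le_fitting
      rw [mem_centralizer_iff]
      intro f hf
      exact mem_centralizer_singleton_iff.1 (h1 hf)
    apply hnc
    rw [mem_center_iff]
    intro g
    have h3 := Iso.conj_eq_of_mem hiso (Solv.pCore_isPGroup p G) h2
      ((inferInstance : (pCore p G).Normal).conj_mem x h2 g)
    calc g * x = g * x * g⁻¹ * g := by group
      _ = x * g := by rw [h3]
  obtain ⟨S, hS⟩ := hxp.exists_le_sylow
  have hxS : x ∈ (S : Subgroup G) := hS (mem_zpowers x)
  have hSx := Iso.le_centralizer hiso S.isPGroup' hxS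
  have hT := isSylowIn_inf_of_normal S (generalizedFittingSubgroup G)
  have hFK := IsComponent.genFitting_le_normalizer hK
  have hTK := hT.inf_normal_of_le hFK (IsComponent.le_genFitting hK)
  have hTC := hT.inf_normal (N := centralizer (K : Set G)) (Solv.le_normalizer_centralizer hFK)
  have hC : generalizedFittingSubgroup G ⊓ centralizer (K : Set G) = ⊥ := by
    have hsn : (generalizedFittingSubgroup G ⊓ centralizer (K : Set G)).IsSubnormal :=
      isSubnormal_of_le_normalizer (genFitting_normal G).isSubnormal inf_le_left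
        (Solv.le_normalizer_inf le_normalizer (Solv.le_normalizer_centralizer hFK))
    rw [eq_bot_iff, ← hcore]
    apply Solv.le_pPrimeCore_of_isSubnormal hsn
    rw [coprime_iff_not_dvd', ← hTC.eq_bot_iff]
    by_contra hne
    obtain ⟨y, hy, hyo⟩ : ∃ y ∈ (S : Subgroup G) ⊓ generalizedFittingSubgroup G ⊓
        centralizer (K : Set G), orderOf y = p := by
      have hd : p ∣ Nat.card ((S : Subgroup G) ⊓ generalizedFittingSubgroup G ⊓
          centralizer (K : Set G) : Subgroup G) := by
        obtain ⟨k, hk⟩ := hTC.isPGroup.exists_card_eq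
        rw [hk]
        refine dvd_pow_self p ?_
        rintro rfl
        exact hne (card_eq_one.1 (by simpa using hk))
      obtain ⟨y, hy⟩ := exists_prime_orderOf_dvd_card' p hd
      exact ⟨y, y.2, by rw [Subgroup.orderOf_coe, hy]⟩
    have hyK : zpowers y ≤ centralizer (K : Set G) := zpowers_le.2 hy.2
    have hxy : x * y = y * x := (mem_centralizer_singleton_iff.1 (hSx hy.1.1)).symm
    refine not_npc hp hcore hK hTK ?_
    intro u hu hup k hk hku
    have h1 : u ∈ zpowers x ⊔ zpowers y := by
      refine mem_sup_of_rank hrank (by rw [← hx]; exact pow_orderOf_eq_one x) hyo hup ?_ hxy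
        (mem_centralizer_singleton_iff.1 (hSx hu.1.1)).symm
        (mem_centralizer_iff.1 hy.2 u hu.2).symm
      intro h
      apply hxK
      intro a ha
      exact mem_centralizer_singleton_iff.2 (mem_centralizer_iff.1 (hyK h) a ha)
    have hn : zpowers y ≤ normalizer (zpowers x : Set G) := by
      refine zpowers_le.2 (centralizer_le_normalizer _ ?_)
      rw [mem_centralizer_iff]
      rintro _ ⟨j, rfl⟩
      exact (Commute.zpow_left hxy j)
    obtain ⟨a, ha, b, hb, rfl⟩ := (Trans.mem_sup_of_le_normalizer hn).1 h1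
    have hkb : k * b = b * k := mem_centralizer_iff.1 (hyK hb) k hk
    have hka : k * a * k⁻¹ = a := by
      by_cases ha1 : a = 1
      · simp [ha1]
      · have h2 : x ∈ zpowers a := by
          have := mem_zpowers_of_prime_card (G := zpowers x) (p := p)
            (by rw [Nat.card_zpowers, hx]) (g := ⟨a, ha⟩) (g' := ⟨x, mem_zpowers x⟩)
            (fun h => ha1 (congrArg Subtype.val h))
          obtain ⟨j, hj⟩ := this
          exact ⟨j, congrArg Subtype.val hj⟩
        have h3 : k * a * k⁻¹ ∈ (S : Subgroup G) := by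
          have : k * a * k⁻¹ = k * (a * b) * k⁻¹ * b⁻¹ := by
            calc k * a * k⁻¹ = k * a * k⁻¹ * (b * k) * k⁻¹ * b⁻¹ := by group
              _ = _ := by rw [← hkb]; group
          rw [this]
          exact mul_mem hku.1.1 (inv_mem (zpowers_le.2 hy.1.1 hb))
        have h4 : k * x * k⁻¹ ∈ (S : Subgroup G) := by
          obtain ⟨j, rfl⟩ := h2
          simp only
          rw [← conj_zpow]
          exact zpow_mem h3 j
        have h5 := Iso.conj_eq_of_mem hiso S.isPGroup' hxS h4
        obtain ⟨j, rfl⟩ := ha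
        simp only
        rw [← conj_zpow, h5]
    calc k * (a * b) * k⁻¹ = k * a * k⁻¹ * (k * b) * k⁻¹ := by group
      _ = _ := by rw [hka, hkb]; group
  have hFe : generalizedFittingSubgroup G = K := by
    refine le_antisymm ?_ (IsComponent.le_genFitting hK)
    refine sup_le (layer_le_iff.2 fun L hL => ?_) ?_
    · by_contra hne
      have h1 : L ≠ K := fun h => hne h.le
      apply IsComponent.ne_bot hL
      rw [eq_bot_iff, ← hC]
      exact le_inf (IsComponent.le_genFitting hL) (commutator_eq_bot_iff_le_centralizer.1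
        (IsComponent.commutator_eq_bot_of_ne hL hK h1))
    · refine le_trans ?_ (bot_le)
      rw [← hC]
      exact le_inf (fitting_le_genFitting G) (commutator_eq_bot_iff_le_centralizer.1
        (commutator_eq_bot_symm (IsComponent.commutator_fitting hK)))
  rw [hFe] at hC ⊢
  refine ⟨IsQuasisimple.isSimpleGroup_of_center_eq_bot hK.2 ?_, fun h => ?_⟩
  · rw [← map_eq_bot_iff_of_injective _ K.subtype_injective, map_subtype_center, hC]
  · exact IsComponent.not_le_centralizer hK (le_centralizer K)

end Cfsg.Agent.S3049
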