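import Cfsg.Statements.S3053
import Cfsg.Agent.Trans.HallWielandt
import Cfsg.Agent.Trans.CentralTransfer
import Cfsg.Agent.Trans.Extraspecial

set_option autoImplicit false
open Cfsg

namespace Cfsg.Agent.S3053

open scoped commutatorElement Pointwise
open Subgroup Cfsg.Lib.Trans Cfsg.Lib.Trans.ES

theorem key {E : Type*} [Group E] [Finite E] {p : ℕ} [hp : Fact p.Prime] (hp2 : p ≠ 2)
    (h : IsPre p E) (hc : Nat.card E = p ^ 3) {a : E} (ha : a ^ p ≠ 1) (σ : E ≃* E) {u : E}
    (hu : u ^ p = 1) : u⁻¹ * σ u ∈ center E := by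
  by_cases huz : u ∈ center E
  · exact mul_mem (inv_mem huz) ((MulEquivClass.apply_mem_center_iff σ).mpr huz)
  have hmul : ∀ x y : E, (x * y) ^ p = x ^ p * y ^ p := fun x y => by
    obtain ⟨k, hk⟩ := (Nat.Prime.dvd_choose_self hp.out two_ne_zero
      (lt_of_le_of_ne hp.out.two_le (Ne.symm hp2)))
    rw [h.classTwo.mul_pow, hk, pow_mul, h.pow_eq_one_of_mem_center (h.classTwo y x), one_pow,
      mul_one]
  let g : E →* E := MonoidHom.mk' (fun x => x ^ p) hmul
  have hr : g.range = center E := h.eq_center_of_le (by rintro _ ⟨x, rfl⟩; exact h.pow_mem_center x)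
    fun hb => ha (mem_bot.mp (hb ▸ ⟨a, rfl⟩))
  have hi : g.ker.index = p := by rw [index_ker, hr, h.card_center]
  have hk : Nat.card g.ker = p ^ 2 := by
    have := g.ker.index_mul_card
    rw [hi, hc, pow_succ'] at this
    exact Nat.eq_of_mul_eq_mul_left hp.out.pos this
  have hcomm := IsPGroup.isMulCommutative_of_card_eq_prime_sq hk
  obtain ⟨i, -, hai⟩ := h.exists_pow_eq (h.pow_mem_center a) ha (h.classTwo a u)
  let g' : E →* E := MonoidHom.mk' (fun x => (x ^ p) ^ i) fun x y => by
    rw [hmul, Commute.mul_pow (mem_center_iff.mp (h.pow_mem_center y) _)]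
  have hall : ∀ x : E, (x ^ p) ^ i = ⁅x, u⁆ := by
    have h1 : g.ker < g'.eqLocus (h.classTwo.homLeft u) := by
      refine lt_of_le_of_ne (fun x hx => ?_) fun he => ha (show a ∈ g.ker from he ▸ hai)
      change (x ^ p) ^ i = ⁅x, u⁆
      rw [show x ^ p = 1 from hx, one_pow, eq_comm, commutatorElement_eq_one_iff_mul_comm]
      exact congrArg Subtype.val (mul_comm' (⟨x, hx⟩ : g.ker) ⟨u, hu⟩)
    intro x
    exact show x ∈ g'.eqLocus (h.classTwo.homLeft u) from
      (isCoatom_of_index_prime hi).2 _ h1 ▸ mem_top x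
  rw [mem_center_iff]
  intro b
  obtain ⟨b, rfl⟩ := σ.surjective b
  rw [← commutatorElement_eq_one_iff_mul_comm, h.classTwo.mul_right, h.classTwo.inv_right,
    ← map_commutatorElement, ← hall, ← hall, map_pow, map_pow, inv_mul_cancel]

/-- Let p be an odd prime and G a finite group with a Sylow p-subgroup P that is extraspecial of order p³ and exponent p². Then the centre of P is strongly closed in P with respect to G: a G-conjugate of an element of Z(P) that lies in P already lies in Z(P). In particular a nontrivial central element of P is conjugate in G to no noncentral element of P. -/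
theorem result {G : Type*} [Group G] [Finite G]
    {p : ℕ} [Fact p.Prime] (hp : p ≠ 2) (P : Sylow p G) (hE : Cfsg.IsExtraspecial p ↥P)
    (hcard : Nat.card P = p ^ 3) (hexp : Monoid.exponent ↥P = p ^ 2) :
    Cfsg.IsStronglyClosed ((Subgroup.center ↥P).map (P : Subgroup G).subtype) (P : Subgroup G) := by
  have h := IsPre.of_isExtraspecial hE
  obtain ⟨a, ha⟩ : ∃ a : (P : Subgroup G), a ^ p ≠ 1 := by
    by_contra! hcon
    have h1 := Monoid.exponent_dvd_of_forall_pow_eq_one hcon
    rw [show Monoid.exponent (P : Subgroup G) = p ^ 2 from hexp] at h1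
    have h2 := Nat.le_of_dvd (Fact.out : p.Prime).pos h1
    have h3 := (Fact.out : p.Prime).two_le
    nlinarith
  refine ⟨map_subtype_le _, fun z hz g hg => ?_⟩
  set Z : Subgroup G := (center (P : Subgroup G)).map (P : Subgroup G).subtype with hZ
  have hZP : Z ≤ P := map_subtype_le _
  set N : Subgroup G := normalizer ((P : Subgroup G) : Set G) with hN
  have hlcs : (P : Subgroup G).lowerCentralSeries (p - 1) = ⊥ := by
    have h3 : 2 ≤ p - 1 := by
      have := (Fact.out : p.Prime).two_le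
      omega
    refine eq_bot_iff.mpr ((Subgroup.lowerCentralSeries_antitone _ h3).trans ?_)
    change ⁅⁅(P : Subgroup G), (P : Subgroup G)⁆, (P : Subgroup G)⁆ ≤ ⊥
    rw [le_bot_iff, commutator_eq_bot_iff_le_centralizer, commutator_le]
    intro x hx y hy w hw
    exact congrArg Subtype.val (mem_center_iff.mp (h.classTwo ⟨x, hx⟩ ⟨y, hy⟩) ⟨w, hw⟩)
  have h1 := inf_commutator_eq_of_subgroupOf_eq P le_normalizer
    (pResidual_subgroupOf_normalizer_of_class_lt P hlcs)
  have hzp : z ^ p = 1 := by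
    obtain ⟨z, hz, rfl⟩ := hz
    exact congrArg Subtype.val (h.pow_eq_one_of_mem_center hz)
  have hzc : ∀ y ∈ (P : Subgroup G), y * z = z * y := by
    obtain ⟨z, hz, rfl⟩ := hz
    exact fun y hy => congrArg Subtype.val (mem_center_iff.mp hz ⟨y, hy⟩)
  set u := g * z * g⁻¹ * z⁻¹ with hu
  have huP : u ∈ (P : Subgroup G) := mul_mem hg (inv_mem (hZP hz))
  have hup : u ^ p = 1 := by
    rw [hu, (Commute.inv_right (hzc _ hg)).mul_pow, conj_pow, inv_pow, hzp]
    simp
  have huN : u ∈ ⁅N, N⁆ :=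
    (h1.le ⟨huP, commutator_mem_commutator (mem_top g) (mem_top z)⟩).2
  suffices hs : u ∈ Z by
    have := mul_mem hs (show z ∈ Z from hz)
    rwa [hu, inv_mul_cancel_right] at this
  have hPN : (P : Subgroup G) ≤ N := le_normalizer
  have hkey : ∀ n ∈ N, ∀ v ∈ (P : Subgroup G), v ^ p = 1 → v⁻¹ * (n * v * n⁻¹) ∈ Z :=
    fun n hn v hv hvp =>
    ⟨_, key hp h hcard ha (((P : Subgroup G).normalizerMonoidHom ⟨n, hn⟩)) (u := ⟨v, hv⟩)
      (Subtype.ext hvp), rfl⟩
  have hZn : (Z.subgroupOf N).Normal := ⟨fun w hw n => by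
    have hwp : (w : G) ^ p = 1 := by
      obtain ⟨w', hw', he⟩ := hw
      exact (show (w' : G) = w from he) ▸ congrArg Subtype.val (h.pow_eq_one_of_mem_center hw')
    have := mul_mem (show (w : G) ∈ Z from hw) (hkey n n.2 w (hZP hw) hwp)
    rwa [mul_inv_cancel_left] at this⟩
  let π := QuotientGroup.mk' (Z.subgroupOf N)
  let Q : Sylow p (N ⧸ Z.subgroupOf N) := (P.subtype hPN).mapSurjective (QuotientGroup.mk'_surjective _)
  have hQ : IsMulCommutative (Q : Subgroup (N ⧸ Z.subgroupOf N)) := ⟨⟨by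
    rintro ⟨_, x, hx, rfl⟩ ⟨_, y, hy, rfl⟩
    refine Subtype.ext (commutatorElement_eq_one_iff_mul_comm.mp ?_)
    rw [← map_commutatorElement]
    exact (QuotientGroup.eq_one_iff _).mpr ⟨_, h.classTwo ⟨x, hx⟩ ⟨y, hy⟩, rfl⟩⟩⟩
  have h2 := not_dvd_card_center_inf_commutator Q hQ
  have h3 : π ⟨u, hPN huP⟩ ∈ center (N ⧸ Z.subgroupOf N) ⊓ commutator (N ⧸ Z.subgroupOf N) := by
    refine mem_inf.mpr ⟨mem_center_iff.mpr fun n => ?_, ?_⟩
    · obtain ⟨n, rfl⟩ := QuotientGroup.mk'_surjective _ n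
      rw [← mul_inv_eq_iff_eq_mul, ← map_inv, ← map_mul, ← map_mul, eq_comm]
      exact QuotientGroup.eq.mpr (hkey n n.2 u huP hup)
    · rw [← map_subtype_commutator] at huN
      obtain ⟨v, hv, he⟩ := huN
      rw [show (⟨u, hPN huP⟩ : N) = v from Subtype.ext he.symm]
      have := mem_map_of_mem π hv
      rw [_root_.commutator_def, map_commutator] at this
      exact commutator_mono le_top le_top this
  by_contra hne
  refine h2 (dvd_trans ?_ (Subgroup.orderOf_dvd_natCard _ h3))
  rw [orderOf_eq_prime (p := p) (x := π ⟨u, hPN huP⟩) (by rw [← map_pow, show (⟨u, hPN huP⟩ : N) ^ p = 1 from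
    Subtype.ext hup, map_one]) fun he => hne ((QuotientGroup.eq_one_iff (⟨u, hPN huP⟩ : N)).mp he)]

end Cfsg.Agent.S3053
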