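import Cfsg.Statements.S3054
import Cfsg.Agent.Local.ExtraP3

set_option autoImplicit false
open Cfsg

namespace Cfsg.Agent.S3054

open Subgroup Cfsg.Lib Cfsg.Lib.Trans Cfsg.Lib.Trans.ES Cfsg.Lib.Solv Cfsg.Lib.ExtraP3

/-- Let p be an odd prime and G a finite group with a Sylow p-subgroup P that is extraspecial of order p³ and exponent p. Suppose P contains three distinct subgroups A of order p² (each is elementary abelian of rank 2) such that every automorphism of A of order p is induced by conjugation by an element of G; equivalently the automorphism group induced on A by its normalizer contains the special linear group of A. Then p ≤ 13. -/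
theorem result {G : Type*} [Group G] [Finite G]
    {p : ℕ} [Fact p.Prime] (hp : p ≠ 2) (P : Sylow p G) (hE : Cfsg.IsExtraspecial p ↥P)
    (hcard : Nat.card P = p ^ 3) (hexp : Monoid.exponent ↥P = p)
    (A : Fin 3 → Subgroup G) (hA : Function.Injective A) (hAP : ∀ i, A i ≤ (P : Subgroup G))
    (hAcard : ∀ i, Nat.card ↥(A i) = p ^ 2)
    (hSL : ∀ i, ∀ φ : MulAut ↥(A i), orderOf φ = p → ∃ g : G, ∀ a : ↥(A i), (φ a : G) = g * (a : G) * g⁻¹) :
    p ≤ 13 := by
  have h := IsPre.of_isExtraspecial hE
  have hex : ∀ e : (P : Subgroup G), e ^ p = 1 := fun e => by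
    have := Monoid.pow_exponent_eq_one e
    rwa [show Monoid.exponent (P : Subgroup G) = p from hexp] at this
  obtain ⟨z, hz, hz1⟩ := h.exists_center_ne_one
  have hc : ∀ i, Nat.card ((A i).subgroupOf P) = p ^ 2 := fun i =>
    (Nat.card_congr (subgroupOfEquivOfLe (hAP i)).toEquiv).trans (hAcard i)
  choose a ha hAa using fun i => exists_plane h hcard (hc i)
  have key := sub_one_dvd P h hcard hex hz hz1 a ha (fun i j e => hA (by
    rw [← hAa, ← hAa] at e
    rw [← map_subgroupOf_eq_of_le (hAP i), e, map_subgroupOf_eq_of_le (hAP j)])) (fun i => by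
    have := IsPGroup.isMulCommutative_of_card_eq_prime_sq (hAcard i)
    have : ElemAb p (A i) := ElemAb.of_subgroup fun x hx =>
      congrArg Subtype.val (hex ⟨x, hAP i hx⟩)
    have h1 : (z : G) ∈ A i := by
      rw [← mem_subgroupOf, hAa, mem_centralizer_singleton_iff]
      exact (mem_center_iff.1 hz _).symm
    have h2 : (a i : G) ∈ A i := by
      rw [← mem_subgroupOf, hAa, mem_centralizer_singleton_iff]
    obtain ⟨τ, t1, t2, t3⟩ := exists_transvection (hAcard i) (z := ⟨z, h1⟩) (a := ⟨a i, h2⟩)
      (fun e => hz1 (Subtype.ext (congrArg (fun x : A i => (x : G)) e))) (by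
        rintro ⟨k, hk⟩
        have : z ^ k = a i := Subtype.ext (by simpa using congrArg Subtype.val hk)
        exact ha i (this ▸ zpow_mem hz k))
    obtain ⟨g, hg⟩ := hSL i τ t1
    refine ⟨g, ?_, ?_⟩
    · have := hg ⟨a i, h2⟩
      rw [t2] at this
      exact this.symm
    · have := hg ⟨z, h1⟩
      rw [t3] at this
      exact this.symm)
  have hpp : p.Prime := Fact.out
  have h16 : p ≤ 16 := by
    rcases key with k | k | k | k <;> have := Nat.le_of_dvd (by norm_num) k <;> omega
  by_contra hlt
  have : p = 14 ∨ p = 15 ∨ p = 16 := by omega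
  rcases this with rfl | rfl | rfl <;> norm_num at hpp

end Cfsg.Agent.S3054
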