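import Cfsg.Statements.S3055
import Cfsg.Agent.Local.ExtraP3

set_option autoImplicit false
open Cfsg

namespace Cfsg.Agent.S3055

open Subgroup Cfsg.Lib Cfsg.Lib.Trans Cfsg.Lib.Trans.ES Cfsg.Lib.Solv Cfsg.Lib.ExtraP3
open scoped commutatorElement

/-- Let p be an odd prime and G a finite group with a Sylow p-subgroup P that is extraspecial of order p³ and exponent p. If all nonidentity elements of P are conjugate in G, then p ≤ 7. -/
theorem result {G : Type*} [Group G] [Finite G]
    {p : ℕ} [Fact p.Prime] (hp : p ≠ 2) (P : Sylow p G) (hE : Cfsg.IsExtraspecial p ↥P)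
    (hcard : Nat.card P = p ^ 3) (hexp : Monoid.exponent ↥P = p)
    (hconj : ∀ x y : ↥P, x ≠ 1 → y ≠ 1 → ∃ g : G, g * (x : G) * g⁻¹ = (y : G)) :
    p ≤ 7 := by
  have h := IsPre.of_isExtraspecial hE
  have hex : ∀ e : (P : Subgroup G), e ^ p = 1 := fun e => by
    have := Monoid.pow_exponent_eq_one e
    rwa [show Monoid.exponent (P : Subgroup G) = p from hexp] at this
  obtain ⟨z, hz, hz1⟩ := h.exists_center_ne_one
  have hg : ∀ a : (P : Subgroup G), a ∉ center (P : Subgroup G) →
      ∃ g : G, g * a * g⁻¹ = a ∧ g * z * g⁻¹ = z * a := by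
    intro a ha
    obtain ⟨g, hg⟩ := hconj z a hz1 fun e => ha (e ▸ one_mem _)
    have hzc : ∀ y ∈ (P : Subgroup G), y * z = z * y := fun y hy =>
      congrArg Subtype.val (mem_center_iff.1 hz ⟨y, hy⟩)
    have h1 : cj g (P : Subgroup G) ≤ centralizer {(a : G)} := by
      rw [cj_le_iff]
      intro y hy
      rw [mem_centralizer_singleton_iff, ← hg]
      calc _ = g * (y * z) * g⁻¹ := by group
        _ = _ := by rw [hzc y hy]; group
    have h2 : IsSylowIn p (cj g (P : Subgroup G)) (centralizer {(a : G)}) :=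
      (((isSylowIn_top P).cj g).mono h1 (by rw [cj_top]; exact le_top))
    obtain ⟨c, hc, h3⟩ := h2.exists_cj_le (Q := zpowers (z : G))
      (P.isPGroup'.to_le (zpowers_le.2 z.2))
      (zpowers_le.2 (mem_centralizer_singleton_iff.2 (hzc _ a.2).symm))
    rw [mem_centralizer_singleton_iff] at hc
    set m := c⁻¹ * g with hm
    have ma : m * z * m⁻¹ = a := by
      calc _ = c⁻¹ * (g * z * g⁻¹) * c := by rw [hm]; group
        _ = _ := by rw [hg, mul_assoc, ← hc, inv_mul_cancel_left]
    have hw : m⁻¹ * z * m ∈ (P : Subgroup G) := by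
      have := mem_cj.1 (cj_le_iff.1 h3 _ (mem_zpowers _))
      convert this using 1
      rw [hm]; group
    have hwZ : (⟨_, hw⟩ : (P : Subgroup G)) ∉ center (P : Subgroup G) := by
      intro hw'
      have hw1 : (⟨_, hw⟩ : (P : Subgroup G)) ≠ 1 := fun e => hz1 (Subtype.ext (by
        have h4 : m⁻¹ * z * m = 1 := congrArg Subtype.val e
        calc (z : G) = m * (m⁻¹ * z * m) * m⁻¹ := by group
          _ = 1 := by rw [h4]; group))
      obtain ⟨k, -, hk⟩ := h.exists_pow_eq hw' hw1 hz
      have hk' : (m⁻¹ * z * m) ^ k = z := congrArg Subtype.val hk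
      have : z ^ k = a := Subtype.ext (by
        rw [← ma]
        conv_rhs => rw [← hk']
        have := conj_pow (a := m⁻¹) (b := (z : G)) (i := k)
        rw [inv_inv] at this
        rw [this, coe_pow]; group)
      exact ha (this ▸ pow_mem hz k)
    obtain ⟨y, hy⟩ := h.exists_comm_eq (x := (⟨_, hw⟩ : (P : Subgroup G))⁻¹)
      (fun e => hwZ ((inv_mem_iff).1 e)) hz
    have hy' : (m⁻¹ * z * m)⁻¹ * y * (m⁻¹ * z * m) * (y : G)⁻¹ = z := by
      have := congrArg Subtype.val hy
      simpa [commutatorElement_def] using this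
    refine ⟨m * y * m⁻¹, ?_, ?_⟩
    · rw [← ma]
      calc _ = m * (y * z) * (y : G)⁻¹ * m⁻¹ := by group
        _ = _ := by rw [hzc _ y.2]; group
    · rw [← ma]
      calc _ = m * ((m⁻¹ * z * m) * ((m⁻¹ * z * m)⁻¹ * y * (m⁻¹ * z * m) * (y : G)⁻¹)) * m⁻¹ := by
            group
        _ = _ := by rw [hy']; group
  obtain ⟨x, y, hxy⟩ := h.exists_pair (center_ne_top_of_isExtraspecial hE) hz
  have hne : x * y ≠ y * x := fun e =>
    hz1 (hxy ▸ commutatorElement_eq_one_iff_mul_comm.2 e)
  have hne2 : x * (x * y) ≠ x * y * x := fun e => hne (by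
    rw [mul_assoc] at e; exact mul_left_cancel e)
  have hne3 : y * (x * y) ≠ x * y * y := fun e => hne (by
    rw [← mul_assoc] at e; exact (mul_right_cancel e).symm)
  have hs : ∀ a b : (P : Subgroup G),
      (centralizer {a} : Subgroup (P : Subgroup G)) = centralizer {b} → a * b = b * a := by
    intro a b e
    rw [← mem_centralizer_singleton_iff, ← e, mem_centralizer_singleton_iff]
  have ha : ∀ i, ![x, y, x * y] i ∉ center (P : Subgroup G) := by
    intro i
    fin_cases i
    · exact fun e => hne (mem_center_iff.1 e y).symm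
    · exact fun e => hne (mem_center_iff.1 e x)
    · exact fun e => hne2 (mem_center_iff.1 e x)
  have key := sub_one_dvd P h hcard hex hz hz1 _ ha (by
    intro i j e
    have := hs _ _ e
    fin_cases i <;> fin_cases j <;>
      first
        | rfl
        | exact absurd this hne
        | exact absurd this hne.symm
        | exact absurd this hne2
        | exact absurd this hne2.symm
        | exact absurd this hne3
        | exact absurd this hne3.symm) fun i => hg _ (ha i)
  have hpp : p.Prime := Fact.out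
  have h16 : p ≤ 16 := by
    rcases key with k | k | k | k <;> have := Nat.le_of_dvd (by norm_num) k <;> omega
  by_contra hlt
  have k3 := three_dvd P h hcard hex hz hz1 hg
  have h8 : 8 ≤ p := by omega
  clear hexp hcard hex hE h hconj hg hp
  revert key k3 hpp
  interval_cases p <;> norm_num

end Cfsg.Agent.S3055
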