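import Cfsg.Statements.S3059
import Cfsg.Agent.Solv.SylowChain
import Cfsg.Agent.Solv.Cores

set_option autoImplicit false
open Cfsg Cfsg.Lib.Solv Cfsg.Lib.Local

namespace Cfsg.Agent.S3059

/-- Let p be a prime and H a strongly p-embedded subgroup of the finite group G in the classical sense: H is proper, p divides the order of H, and H ∩ gHg⁻¹ has order prime to p for every g outside H. Then for every normal subgroup N of G of order divisible by p, G = H · O^p(N), where O^p(N) is the subgroup generated by the elements of N of order prime to p. -/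
theorem result {G : Type*} [Group G] [Finite G]
    (p : ℕ) [Fact p.Prime] (H : Subgroup G) (hH : H ≠ ⊤) (hpH : p ∣ Nat.card H)
    (hse : ∀ g : G, g ∉ H → ¬ p ∣ Nat.card ↥(H ⊓ H.map (MulAut.conj g).toMonoidHom))
    (N : Subgroup G) [N.Normal] (hN : p ∣ Nat.card N) :
    H ⊔ Subgroup.closure {g : G | g ∈ N ∧ (orderOf g).Coprime p} = ⊤ := by
  have hS : SE p H := se_iff_not_dvd_inf.2 ⟨hH, hpH, hse⟩
  set L := Subgroup.closure {g : G | g ∈ N ∧ (orderOf g).Coprime p} with hL
  have hLn : L.Normal := by
    refine ⟨fun x hx g => ?_⟩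
    induction hx using Subgroup.closure_induction with
    | mem x hx =>
      exact Subgroup.subset_closure
        ⟨‹N.Normal›.conj_mem _ hx.1 g, by rw [orderOf_conj]; exact hx.2⟩
    | one => simp
    | mul x y _ _ hx hy =>
      have := mul_mem hx hy
      simpa [mul_assoc] using this
    | inv x _ hx =>
      have := inv_mem hx
      simpa [mul_assoc] using this
  obtain ⟨P, hP⟩ := hS.exists_sylow_le
  have h1 : IsPGroup p (N.map (QuotientGroup.mk' L)) := by
    rintro ⟨_, n, hn, rfl⟩
    obtain ⟨k, m, hm, hkm⟩ := Nat.exists_eq_pow_mul_and_not_dvd (orderOf_pos n).ne' p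
      (Nat.Prime.ne_one Fact.out)
    refine ⟨k, Subtype.ext ?_⟩
    change (QuotientGroup.mk' L n) ^ p ^ k = 1
    rw [← map_pow, QuotientGroup.mk'_apply, QuotientGroup.eq_one_iff]
    refine Subgroup.subset_closure ⟨pow_mem hn _, ?_⟩
    have h2 : orderOf (n ^ p ^ k) ∣ m := by
      apply orderOf_dvd_of_pow_eq_one
      rw [← pow_mul, ← hkm, pow_orderOf_eq_one]
    exact (((Nat.Prime.coprime_iff_not_dvd Fact.out).2 hm).symm).coprime_dvd_left h2
  have h2 : N.map (QuotientGroup.mk' L) ≤ (P : Subgroup G).map (QuotientGroup.mk' L) :=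
    (le_pCore (Subgroup.Normal.map inferInstance _ (QuotientGroup.mk'_surjective L)) h1).trans
      (pCore_le_sylow (P.mapSurjective (QuotientGroup.mk'_surjective L)))
  rw [Subgroup.map_le_map_iff, QuotientGroup.ker_mk'] at h2
  rw [eq_top_iff, ← se_sup_eq_top hS hN]
  exact sup_le le_sup_left (h2.trans (sup_le_sup_right hP L))

end Cfsg.Agent.S3059
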