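import Cfsg.Statements.S3062
import Cfsg.Agent.Trans.DStar

set_option autoImplicit false
open Cfsg

namespace Cfsg.Agent.S3062

open Cfsg.Lib Cfsg.Lib.Trans

/-- Let S be a finite p-group, J(S) the subgroup generated by the abelian subgroups of S of largest order and Z(J(S)) its centre. Then Z(S) ≤ D*(S) ≤ Z(J(S)), and every maximal normal abelian subgroup of S contains D*(S). -/
theorem result {S : Type*} [Group S] [Finite S] {p : ℕ} [Fact p.Prime]
    (hS : IsPGroup p S) :
    Subgroup.center S ≤ Cfsg.dStar S ∧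
    Cfsg.dStar S ≤ Cfsg.thompsonSubgroupA S ⊓ Subgroup.centralizer (Cfsg.thompsonSubgroupA S : Set S) ∧
    ∀ A : Subgroup S, A.Normal → IsMulCommutative A →
      (∀ B : Subgroup S, B.Normal → IsMulCommutative B → A ≤ B → B = A) → Cfsg.dStar S ≤ A := by
  have hT := hS.to_subgroup ⊤
  rw [← dStarOf_top]
  refine ⟨?_, ?_, fun A hA hA' hmax => ?_⟩
  · have := (dFam_center (⊤ : Subgroup S)).le_dStarOf
    rwa [top_inf_eq, Subgroup.coe_top, Subgroup.centralizer_univ] at this
  · have := dStarOf_le_centerThompsonOf hT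
    rwa [centerThompsonOf, TJ.J_top, thompsonSubgroup_zero] at this
  · have := hS.isNilpotent
    rw [← Solv.PG.centralizer_eq_of_maximal_abelian A hmax]
    exact dStarOf_le_centralizer hT.isNilpotent le_top (Subgroup.le_centralizer A)
      Subgroup.le_normalizer_of_normal

end Cfsg.Agent.S3062
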