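import Cfsg.Statements.S3063
import Cfsg.Agent.Trans.JReplElt

set_option autoImplicit false
open Cfsg

namespace Cfsg.Agent.S3063

open Cfsg.Lib Cfsg.Lib.Trans Cfsg.Lib.Trans.TJ

/-- A weak replacement Theorem for metabelian p-groups: let S be a finite p-group whose derived subgroup is abelian and A an abelian subgroup of S of largest possible order. Then the normal closure of A in S contains an abelian subgroup B of the same order as A that is normal in S. -/
theorem result {S : Type*} [Group S] [Finite S] {p : ℕ} [Fact p.Prime]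
    (hS : IsPGroup p S) (hmeta : IsMulCommutative ↥(commutator S))
    (A : Subgroup S) (hA : A ∈ Cfsg.maxAbelianSubgroups S) :
    ∃ B ∈ Cfsg.maxAbelianSubgroups S, B.Normal ∧ B ≤ Subgroup.normalClosure (A : Set S) := by
  rw [← maxElementaryAbelianSubgroups_zero] at hA ⊢
  obtain ⟨B, h1, h2, h3⟩ := (maxEA_top_iff.2 hA).exists_le_normalizer
    (N := Subgroup.normalClosure (A : Set S)) (V := commutator S ⊓ Subgroup.normalClosure (A : Set S))
    Subgroup.le_normalClosure (ea_mono ⟨hmeta, fun a _ => pow_zero a⟩ inf_le_left) inf_le_right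
    (le_inf (Subgroup.commutator_mono le_rfl le_top) (Subgroup.commutator_le_right _ _))
  exact ⟨B, maxEA_top_iff.1 h1, Subgroup.normalizer_eq_top_iff.1 (top_le_iff.1 h3), h2⟩

end Cfsg.Agent.S3063
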