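import Cfsg.Statements.S3064
import Cfsg.Agent.Local.IsolatedP
import Cfsg.Agent.Local.CharP
import Cfsg.Agent.Solv.MinNormal
import Cfsg.Agent.Char.FrobWielandt

set_option autoImplicit false
open Cfsg

namespace Cfsg.Agent.S3064

open Subgroup Cfsg.Lib Cfsg.Lib.Trans Cfsg.Lib.Local

theorem coprime_resOf_comap {G : Type*} [Group G] [Finite G] {p : ℕ} [Fact p.Prime]
    (N : Subgroup G) [N.Normal] (hN : N ≤ center G) {q : ℕ} (hq : q.Prime) (hc : Nat.card N = q)
    (H : Subgroup (G ⧸ N)) (hH : (Nat.card H).Coprime p) :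
    (Nat.card (resOf p (H.comap (QuotientGroup.mk' N)))).Coprime p := by
  set M := H.comap (QuotientGroup.mk' N) with hM
  have hNM : N ≤ M := fun z hz => by
    rw [hM, mem_comap, QuotientGroup.mk'_apply, (QuotientGroup.eq_one_iff z).mpr hz]
    exact one_mem _
  have hidx : (N.subgroupOf M).index = Nat.card H := by
    have := relIndex_ker M (QuotientGroup.mk' N)
    rw [QuotientGroup.ker_mk', hM, map_comap_eq_self_of_surjective
      (QuotientGroup.mk'_surjective _)] at this
    exact this
  have hcard : Nat.card (N.subgroupOf M) = q := by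
    rw [← hc]; exact Nat.card_congr (subgroupOfEquivOfLe hNM).toEquiv
  rw [Solv.card_map_subtype]
  by_cases hqp : q = p
  · subst hqp
    obtain ⟨K, hK⟩ := exists_right_complement'_of_coprime (N := N.subgroupOf M)
      (by rw [hcard, hidx]; exact hH.symm)
    have hKn : K.Normal := by
      refine ⟨fun k hk g => ?_⟩
      obtain ⟨⟨z, k'⟩, h⟩ := (hK.existsUnique g).exists
      have hz : (z : M) * (k' * k * (k' : M)⁻¹) = (k' * k * (k' : M)⁻¹) * z :=
        Subtype.ext ((mem_center_iff.1 (hN z.2) _).symm)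
      have : g * k * g⁻¹ = k' * k * (k' : M)⁻¹ := by
        rw [← h]
        calc (z : M) * k' * k * ((z : M) * k')⁻¹ = (z * (k' * k * (k' : M)⁻¹)) * (z : M)⁻¹ := by
              group
          _ = _ := by rw [hz]; group
      rw [this]
      exact K.mul_mem (K.mul_mem k'.2 hk) (K.inv_mem k'.2)
    have h1 : pResidual q M ≤ K :=
      pResidual_le_of_index_eq_pow K (k := 1) (by rw [hK.index_eq_card, hcard, pow_one])
    refine Nat.Coprime.coprime_dvd_left (card_dvd_of_le h1) ?_
    rw [← hK.symm.index_eq_card, hidx]; exact hH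
  · refine Nat.Coprime.coprime_dvd_left (card_subgroup_dvd_card _) ?_
    rw [← (N.subgroupOf M).card_mul_index, hcard, hidx]
    exact Nat.Coprime.mul_left ((Nat.coprime_primes hq Fact.out).2 hqp) hH

universe u in
theorem main {p : ℕ} [Fact p.Prime] (n : ℕ) : ∀ (G : Type u) [Group G] [Finite G] (x : G) (k : ℕ),
    Nat.card G ≤ n → orderOf x = p ^ k → IsIsolated x →
    (∀ H : Subgroup G, (Nat.card H).Coprime p → (∀ h ∈ H, x * h * x⁻¹ ∈ H) →
      ∀ h ∈ H, x * h = h * x) → x ∈ center G := by
  induction n with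
  | zero => intro G _ _ x k h; exact absurd h (by have := Nat.card_pos (α := G); omega)
  | succ n ih =>
  intro G _ _ x k hn ho hx hb
  have hsub : ∀ H : Subgroup G, H ≠ ⊤ → x ∈ H → ∀ g ∈ H, g * x = x * g := by
    intro H hH hxH g hg
    have h1 : Nat.card H ≤ n := by
      have := Solv.card_lt_of_ne_top hH
      omega
    have h2 := ih H ⟨x, hxH⟩ k h1 (by rw [← ho, ← Subgroup.orderOf_coe]) (Iso.subtype hx hxH) (by
      intro K hK hn h hh
      have := hb (K.map H.subtype) (by rwa [Solv.card_map_subtype])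
        (by rintro _ ⟨a, ha, rfl⟩; exact ⟨_, hn a ha, rfl⟩) h ⟨h, hh, rfl⟩
      exact Subtype.ext this)
    exact congrArg Subtype.val (mem_center_iff.1 h2 ⟨g, hg⟩)
  by_cases hZ : center G = ⊥
  · by_contra hc
    have hTI : ∀ g ∉ centralizer ({x} : Set G), ∀ d ∈ centralizer ({x} : Set G),
        g * d * g⁻¹ ∈ centralizer ({x} : Set G) → d = 1 := by
      intro g hg d hd hgd
      by_contra hd1
      have h1 : centralizer ({d} : Set G) ≠ ⊤ := by
        intro h
        apply hd1
        rw [← mem_bot, ← hZ, mem_center_iff]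
        intro a
        exact mem_centralizer_singleton_iff.1 (h ▸ mem_top a : a ∈ centralizer ({d} : Set G))
      rw [mem_centralizer_singleton_iff] at hd hgd
      have h2 : g⁻¹ * x * g⁻¹⁻¹ ∈ centralizer ({d} : Set G) := by
        rw [mem_centralizer_singleton_iff]
        calc g⁻¹ * x * g⁻¹⁻¹ * d = g⁻¹ * (x * (g * d * g⁻¹)) * g := by group
          _ = _ := by rw [← hgd]; group
      have h3 := hsub _ h1 (mem_centralizer_singleton_iff.2 hd.symm) _ h2
      exact hg (inv_mem_iff.1 (Iso.mem_centralizer_of_conj_eq (hx g⁻¹ h3.symm)))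
    obtain ⟨K, hKn, hK, -⟩ := Char.frobenius_of_TI _ hTI
    obtain ⟨P, hP⟩ := (Local.isPGroup_zpowers_of_orderOf ho).exists_le_sylow
    have h1 : (P : Subgroup G) ≤ centralizer ({x} : Set G) :=
      Iso.le_centralizer hx P.isPGroup' (hP (mem_zpowers x))
    have h2 : (Nat.card K).Coprime p := by
      rw [← hK.index_eq_card, coprime_iff_not_dvd']
      exact fun h => P.not_dvd_index (h.trans (index_dvd_of_le h1))
    have h3 : K ≤ centralizer ({x} : Set G) := fun a ha =>
      mem_centralizer_singleton_iff.2 (hb K h2 (fun h hh => hKn.conj_mem h hh x) a ha).symm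
    apply hc
    rw [mem_center_iff]
    intro g
    have h4 := hK.sup_eq_top
    rw [sup_eq_right.2 h3] at h4
    exact mem_centralizer_singleton_iff.1 (h4 ▸ mem_top g : g ∈ centralizer ({x} : Set G))
  · obtain ⟨z, hz, hz1⟩ := (center G).bot_or_exists_ne_one.resolve_left hZ
    have h0 : orderOf z ≠ 1 := fun h => hz1 (orderOf_eq_one_iff.1 h)
    obtain ⟨q, hq, hqz⟩ := Nat.exists_prime_and_dvd h0
    have hzq : orderOf (z ^ (orderOf z / q)) = q := orderOf_pow_orderOf_div (orderOf_pos z).ne' hqz
    set N := zpowers (z ^ (orderOf z / q)) with hN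
    have hNZ : N ≤ center G := zpowers_le.2 (pow_mem hz _)
    have hNn : N.Normal := ⟨fun a ha g => by
      rw [mem_center_iff.1 (hNZ ha) g, mul_inv_cancel_right]; exact ha⟩
    have hNc : Nat.card N = q := by rw [hN, Nat.card_zpowers, hzq]
    have h1 : Nat.card (G ⧸ N) ≤ n := by
      have h2 := N.card_mul_index
      have h3 := hq.two_le
      have h4 : 0 < N.index := Nat.pos_of_ne_zero index_ne_zero_of_finite
      rw [hNc] at h2
      change N.index ≤ n
      nlinarith
    have hsurj := QuotientGroup.mk'_surjective N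
    obtain ⟨j, -, hj⟩ := (Nat.dvd_prime_pow (Fact.out : p.Prime)).1
      (ho ▸ orderOf_map_dvd (QuotientGroup.mk' N) x)
    have h2 := ih (G ⧸ N) (QuotientGroup.mk' N x) j h1 hj (Iso.map_of_surjective hx ho _ hsurj) (by
      intro H hH hn h hh
      have h3 := coprime_resOf_comap N hNZ hq hNc H hH
      have h4 : (resOf p (H.comap (QuotientGroup.mk' N))).map (QuotientGroup.mk' N) = H := by
        rw [map_resOf, map_comap_eq_self_of_surjective hsurj]
        refine le_antisymm (resOf_le H) fun a ha => mem_resOf ha ?_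
        exact Nat.Coprime.coprime_dvd_left (H.orderOf_dvd_natCard ha) hH
      have h5 : x ∈ normalizer (H.comap (QuotientGroup.mk' N) : Set G) := by
        apply mem_normalizer_fintype
        intro a ha
        simpa using hn _ ha
      have h6 := normalizer_le_normalizer_resOf (p := p) _ h5
      rw [← h4] at hh
      obtain ⟨a, ha, rfl⟩ := hh
      rw [← map_mul, ← map_mul, hb _ h3 (fun b hb => (mem_normalizer_iff.1 h6 b).1 hb) a ha])
    rw [mem_center_iff]
    intro g
    have h3 : g * x * g⁻¹ * x⁻¹ ∈ N := by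
      rw [← QuotientGroup.eq_one_iff]
      have := mem_center_iff.1 h2 (QuotientGroup.mk' N g)
      simp only [QuotientGroup.mk'_apply] at this
      simp [this]
    have h4 := mem_center_iff.1 (hNZ h3) x
    have h5 : g * x * g⁻¹ = x := by
      apply hx
      show x * (g * x * g⁻¹) = g * x * g⁻¹ * x
      calc x * (g * x * g⁻¹) = x * (g * x * g⁻¹ * x⁻¹) * x := by group
        _ = g * x * g⁻¹ * x := by rw [h4]; group
    calc g * x = g * x * g⁻¹ * g := by group
      _ = x * g := by rw [h5]

/-- Let S be a Sylow p-subgroup of the finite group G and x an element of S such that (i) x is the only G-conjugate of x lying in S, and (ii) x centralizes every subgroup of order prime to p that it normalizes. Then x lies in the centre of G. -/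
theorem result {G : Type*} [Group G] [Finite G] {p : ℕ} [Fact p.Prime]
    (S : Sylow p G) (x : G) (hx : x ∈ S)
    (hU : ∀ g : G, g⁻¹ * x * g ∈ S → g⁻¹ * x * g = x)
    (hb : ∀ H : Subgroup G, (Nat.card H).Coprime p → (∀ h ∈ H, x * h * x⁻¹ ∈ H) → ∀ h ∈ H, x * h = h * x) :
    x ∈ Subgroup.center G := by
  obtain ⟨k, hk⟩ := IsPGroup.iff_orderOf.1 S.isPGroup' ⟨x, hx⟩
  have ho : orderOf x = p ^ k := by rw [← hk, ← Subgroup.orderOf_coe]
  refine main _ G x k le_rfl ho ?_ hb
  intro g hg
  have h1 : IsPGroup p (zpowers x ⊔ zpowers (g * x * g⁻¹) : Subgroup G) := by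
    refine isPGroup_sup (Local.isPGroup_zpowers_of_orderOf ho)
      (Local.isPGroup_zpowers_of_orderOf (k := k) (by rw [← ho]; exact (MulAut.conj g).orderOf_eq x)) ?_
    refine zpowers_le.2 (centralizer_le_normalizer _ ?_)
    rw [mem_centralizer_iff]
    rintro _ ⟨j, rfl⟩
    exact (hg.zpow_right j).symm
  obtain ⟨P, hP⟩ := h1.exists_le_sylow
  obtain ⟨h, rfl⟩ := MulAction.exists_smul_eq G S P
  have h2 : ∀ y, y ∈ ((h • S : Sylow p G) : Subgroup G) → h⁻¹ * y * h ∈ S := by
    intro y hy
    rw [Sylow.coe_subgroup_smul, mem_pointwise_smul_iff_inv_smul_mem] at hy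
    have h' : h⁻¹ * y * h ∈ (S : Subgroup G) := by simpa using hy
    exact h'
  have h3 := hU h (h2 x (hP (mem_sup_left (mem_zpowers x))))
  have h4 := h2 _ (hP (mem_sup_right (mem_zpowers _)))
  have h5 := hU (g⁻¹ * h) (by simpa [mul_assoc] using h4)
  calc g * x * g⁻¹ = h * ((g⁻¹ * h)⁻¹ * x * (g⁻¹ * h)) * h⁻¹ := by group
    _ = h * (h⁻¹ * x * h) * h⁻¹ := by rw [h5, h3]
    _ = x := by group

end Cfsg.Agent.S3064
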