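import Cfsg.Statements.S3067
import Cfsg.Agent.Block.CoprimeInv

set_option autoImplicit false
open Cfsg

open Cfsg.Lib.Solv Cfsg.Lib.Solv.Act Cfsg.Lib.Block.Princ

namespace Cfsg.Agent.S3067

/-- Let G be a finite non-abelian simple group, τ an involution of G, and α a nontrivial automorphism of G whose order is coprime to the order of G. Then α moves some element of the centralizer of τ: α does not fix C_G(τ) elementwise. -/
theorem result {G : Type*} [Group G] [Finite G] [IsSimpleGroup G]
    (hG : ¬ IsMulCommutative G) (τ : G) (hτ : orderOf τ = 2) (α : MulAut G) (hα : α ≠ 1)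
    (hcop : (orderOf α).Coprime (Nat.card G)) :
    ∃ c ∈ Subgroup.centralizer ({τ} : Set G), α c ≠ c := by
  by_contra hcon
  push Not at hcon
  have h := oddCore_sup_fix (φ := (Subgroup.zpowers α).subtype) (by rwa [Nat.card_zpowers]) hτ
    fun c hc a _ => by
      have h1 : α ∈ MulAction.stabilizer (MulAut G) c :=
        hcon c (Subgroup.mem_centralizer_singleton_iff.2 hc.eq)
      exact (Subgroup.zpowers_le.2 h1) a.2
  rcases (inferInstance : (pPrimeCore 2 G).Normal).eq_bot_or_eq_top with h1 | h1
  · rw [h1, bot_sup_eq] at h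
    exact hα (MulEquiv.ext fun g => mem_fix_top.1 (h ▸ Subgroup.mem_top g)
      ⟨α, Subgroup.mem_zpowers α⟩)
  · refine not_dvd_card_pPrimeCore 2 G ?_
    rw [h1, Subgroup.card_top, ← hτ]
    exact orderOf_dvd_natCard τ

end Cfsg.Agent.S3067
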