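import Cfsg.Statements.S3068
import Cfsg.Agent.Trans.JDegreeMain
import Cfsg.Agent.Trans.Tate

set_option autoImplicit false
open Cfsg

namespace Cfsg.Agent.S3068

open Cfsg.Lib Cfsg.Lib.Trans Cfsg.Lib.Trans.TJ

/-- Let p ≥ 7 be a prime, S a Sylow p-subgroup of the finite group G, J(S) the subgroup generated by the abelian subgroups of S of largest order and M = N_G(J(S)). Then G/O^p(G) ≅ M/O^p(M): the largest p-factor group of G is that of M (here O^p(X) is the subgroup generated by the elements of X of order prime to p). -/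
theorem result {G : Type*} [Group G] [Finite G] {p : ℕ} [Fact p.Prime]
    (hp : 7 ≤ p) (S : Sylow p G)
    [hn : (Cfsg.pResidual p G).Normal]
    [hm : (Cfsg.pResidual p ↥(Subgroup.normalizer (Cfsg.thompsonSubgroupAOf (S : Subgroup G) : Set G))).Normal] :
    Nonempty (G ⧸ Cfsg.pResidual p G ≃*
      ↥(Subgroup.normalizer (Cfsg.thompsonSubgroupAOf (S : Subgroup G) : Set G)) ⧸
        Cfsg.pResidual p ↥(Subgroup.normalizer (Cfsg.thompsonSubgroupAOf (S : Subgroup G) : Set G))) := by
  have hSH : (S : Subgroup G) ≤
      Subgroup.normalizer (Cfsg.thompsonSubgroupAOf (S : Subgroup G) : Set G) := by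
    rw [← thompsonSubgroupOf_zero]
    exact le_normalizer_J _
  have h := tate_of_commutator_inf_le S hSH (inf_commutator_le_of_ja hp S)
  generalize Subgroup.normalizer (Cfsg.thompsonSubgroupAOf (S : Subgroup G) : Set G) = H at *
  let f : H →* G ⧸ Cfsg.pResidual p G := (QuotientGroup.mk' _).comp H.subtype
  have hf : Function.Surjective f := by
    rw [← MonoidHom.range_eq_top, MonoidHom.range_comp, Subgroup.range_subtype, eq_top_iff,
      ← Subgroup.map_top_of_surjective _ (QuotientGroup.mk'_surjective (Cfsg.pResidual p G)),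
      Subgroup.map_le_map_iff, QuotientGroup.ker_mk', ← pResidual_sup_sylow S, sup_comm H]
    exact sup_le_sup_left hSH _
  have hk : f.ker = Cfsg.pResidual p H := by
    rw [← h, ← MonoidHom.comap_ker, QuotientGroup.ker_mk']
    rfl
  exact ⟨(QuotientGroup.quotientKerEquivOfSurjective f hf).symm.trans
    (QuotientGroup.quotientMulEquivOfEq hk)⟩

end Cfsg.Agent.S3068
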