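import Cfsg.Statements.S3070
import Cfsg.Agent.Trans.JDegreeMain
import Cfsg.Agent.S2006
import Cfsg.Agent.S2007

set_option autoImplicit false
open Cfsg

namespace Cfsg.Agent.S3070

open Cfsg.Lib Cfsg.Lib.Trans Cfsg.Lib.Trans.TJ

/-- Let p ≥ 5 be a prime, S a Sylow p-subgroup of the finite group G and J(S) the subgroup generated by the abelian subgroups of S of largest order. Then G has a normal p-complement if and only if N_G(J(S))/C_G(J(S)) is a p-group (every element of N_G(J(S)) of order prime to p centralizes J(S)). -/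
theorem result {G : Type*} [Group G] [Finite G] {p : ℕ} [Fact p.Prime]
    (hp : 5 ≤ p) (S : Sylow p G) :
    Cfsg.HasNormalPComplement p G ↔
      ∀ g ∈ Subgroup.normalizer (Cfsg.thompsonSubgroupAOf (S : Subgroup G) : Set G), (orderOf g).Coprime p →
        g ∈ Subgroup.centralizer (Cfsg.thompsonSubgroupAOf (S : Subgroup G) : Set G) := by
  rw [← thompsonSubgroupOf_zero]
  refine ⟨fun h g hg hc => mem_centralizer_of_hasNormalPComplement h
    (S.isPGroup'.to_le (J_le _)) hg hc, fun h => ?_⟩
  refine Cfsg.Agent.S2006.result jaFunctor (isCharPFunctor_jaFunctor p) S ?_ ?_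
  · rw [inducedFunctor_jaFunctor]
    refine Cfsg.Agent.S2007.result S _ (J_le _) (le_normalizer_J _) ?_ h
    obtain ⟨A, hA⟩ := exists_maxEA 0 (S : Subgroup G)
    intro x hx
    exact hA.le_J (hA.mem_of_mem_centralizer hx.1 (centralizer_anti hA.le_J hx.2) (pow_zero x))
  · intro K R _ hc T hn
    rw [inducedFunctor_jaFunctor] at hn
    obtain ⟨A, C, hA, hAT, hCn, hCT, h2, h4, -⟩ := exists_maxAbelian_chiefKilled (by omega)
      T.isPGroup' (Solv.pCore_le_sylow T)
      (not_J_le_pCore_of_not_normal (Solv.pCore_le_sylow T) hn)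
    obtain ⟨g, hg, hgT⟩ := SetLike.not_le_iff_exists.1 hAT
    refine ⟨g, hA.le hg, hgT, ?_⟩
    have hg' : g ∉ chiefCent C := fun h' => hgT (chiefCent_le_pCore hCT h2 hc h')
    rw [mem_chiefCent_iff] at hg'
    push Not at hg'
    obtain ⟨U, V, h5, h6, h7⟩ := hg'
    exact ⟨U, V, h5, h6.trans hCT, (iterCommutator_mono_right _ (Subgroup.zpowers_le.2 hg) _).trans
      (h4.mono le_rfl (by omega) U V h5 h6), h7⟩

end Cfsg.Agent.S3070
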