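import Cfsg.Statements.S3074
import Cfsg.Agent.Trans.QdSylow
import Cfsg.Agent.FT.BG4.Blackburn

set_option autoImplicit false
open Cfsg

open Cfsg.Lib Cfsg.Lib.Trans Cfsg.Lib.Trans.Qd Subgroup

namespace Cfsg.Agent.S3074

theorem aux (p : ℕ) [Fact p.Prime] (hp : p ≠ 2) (P : Sylow p (qdOver (ZMod p))) (x : P) :
    x ^ p = 1 := by
  have hc := card_sylow_qd P
  have hna := not_isMulCommutative_sylow P
  obtain ⟨s, hs, hsp, hsV⟩ := exists_mem_sylow_pow_eq_one P
  have h1 := FT.BG4.sup_zpowers_eq_of_card_le P.isPGroup' (ker_qdLin_le_sylow P)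
    (by rw [card_ker_qdLin, Nat.card_zmod, ← pow_succ']; exact hc.le) hs hsV
  have h2 : (P : Subgroup (qdOver (ZMod p))) ≤ omegaOne p (P : Subgroup (qdOver (ZMod p))) :=
    h1.ge.trans (sup_le (Solv.PG.le_omegaOne (ker_qdLin_le_sylow P)
      fun _ => pow_char_of_mem_ker p) (zpowers_le.mpr (Solv.PG.mem_omegaOne hs hsp)))
  exact Subtype.ext ((Solv.PG.mem_omegaOne_iff_of_class_two
    ((Fact.out : p.Prime).odd_of_ne_two hp)
    ((FT.BG4.p3group_center hc hna).1.ge.trans inf_le_right)).mp (h2 x.2)).2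

/-- Let p be an odd prime. A Sylow p-subgroup of Qd(p), the split extension of an elementary abelian group of order p² by SL₂(p) acting naturally, is extraspecial of order p³ and exponent p. -/
theorem result (p : ℕ) [Fact p.Prime] (hp : p ≠ 2) (P : Sylow p ↥(Cfsg.qd p)) :
    Cfsg.IsExtraspecial p ↥P ∧ Nat.card P = p ^ 3 ∧ Monoid.exponent ↥P = p := by
  have hc : Nat.card P = p ^ 3 := card_sylow_qd P
  refine ⟨FT.BG4.p3group_extraspecial hc (not_isMulCommutative_sylow P), hc, ?_⟩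
  have : Nontrivial P := Finite.one_lt_card_iff_nontrivial.mp
    (hc ▸ Nat.one_lt_pow (by norm_num) (Fact.out : p.Prime).one_lt)
  exact (Monoid.exponent_eq_prime_iff Fact.out).mpr fun g hg => orderOf_eq_prime (aux p hp P g) hg

end Cfsg.Agent.S3074
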