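import Cfsg.Statements.S3075
import Mathlib
import Cfsg.Agent.GW.Basic0

set_option autoImplicit false
open Cfsg

namespace Cfsg.Agent.S3075

/-- Let p be an odd prime and N a finite group with a normal elementary abelian subgroup A of order p² that is its own centralizer in N, such that N/A is isomorphic to SL₂(p) (over any field F with p elements). Then N splits over A: some subgroup U of N satisfies A ∩ U = 1 and AU = N. -/
theorem result {N : Type*} [Group N] [Finite N] {p : ℕ} [Fact p.Prime] (hp : p ≠ 2)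
    (A : Subgroup N) [A.Normal] (hAcomm : IsMulCommutative A) (hAcard : Nat.card A = p ^ 2) (hAexp : Monoid.exponent ↥A = p)
    (hAself : Subgroup.centralizer (A : Set N) = A)
    {F : Type*} [Field F] [Fintype F] (hF : Fintype.card F = p) (e : N ⧸ A ≃* Matrix.SpecialLinearGroup (Fin 2) F) :
    ∃ U : Subgroup N, A ⊓ U = ⊥ ∧ A ⊔ U = ⊤ := by
  classical
  have hpp : p.Prime := Fact.out
  have hodd : Odd p := hpp.odd_of_ne_two hp
  obtain ⟨k, hk⟩ := hodd
  have hAp : ∀ a ∈ A, a ^ p = 1 := by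
    intro a ha
    have h := Monoid.pow_exponent_eq_one (⟨a, ha⟩ : A)
    rw [hAexp] at h
    exact congrArg Subtype.val h
  have hcomm : ∀ a ∈ A, ∀ b ∈ A, a * b = b * a := by
    intro a ha b hb
    exact congrArg Subtype.val (hAcomm.is_comm.comm (⟨a, ha⟩ : A) ⟨b, hb⟩)
  have hsq : ∀ a ∈ A, (a ^ (k + 1)) * (a ^ (k + 1)) = a := by
    intro a ha
    rw [← pow_add, show k + 1 + (k + 1) = p + 1 by omega, pow_succ, hAp a ha, one_mul]
  have hinv1 : ∀ a ∈ A, a = a⁻¹ → a = 1 := by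
    intro a ha h
    have h2 : a ^ 2 = 1 := by rw [pow_two]; nth_rewrite 1 [h]; simp
    have := hAp a ha
    rw [hk, pow_succ, pow_mul, h2, one_pow, one_mul] at this
    exact this
  -- the element `-1`
  have : CharP F p := by
    have := FiniteField.card' F
    obtain ⟨r, hr, m, hrp, hm⟩ := this
    have : r = p := by
      rw [hF] at hm
      have h1 : r ∣ p := by rw [hm]; exact dvd_pow_self _ m.ne_zero
      exact (Nat.prime_dvd_prime_iff_eq hrp hpp).1 h1
    exact this ▸ hr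
  have h2F : (2 : F) ≠ 0 := by
    intro h
    have : (p : ℕ) ∣ 2 := (CharP.cast_eq_zero_iff F p 2).1 (by exact_mod_cast h)
    exact hp ((Nat.prime_dvd_prime_iff_eq hpp Nat.prime_two).1 this)
  let m1 : Matrix.SpecialLinearGroup (Fin 2) F := ⟨-1, by simp [Matrix.det_fin_two]⟩
  have hm1c : ∀ g : Matrix.SpecialLinearGroup (Fin 2) F, g * m1 = m1 * g := by
    intro g; apply Subtype.ext
    show g.1 * (-1) = (-1) * g.1
    simp
  have hm1sq : m1 * m1 = 1 := by
    apply Subtype.ext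
    show (-1 : Matrix (Fin 2) (Fin 2) F) * (-1) = 1
    simp
  have hm1ne : m1 ≠ 1 := by
    intro h
    have h1 := congrArg (fun g : Matrix.SpecialLinearGroup (Fin 2) F => g.1 0 0) h
    simp [m1] at h1
    apply h2F
    linear_combination -h1
  obtain ⟨z, hz⟩ := QuotientGroup.mk_surjective (e.symm m1)
  have hz' : e (z : N ⧸ A) = m1 := by rw [hz]; simp
  have hz2 : z ^ 2 ∈ A := by
    rw [← QuotientGroup.eq_one_iff]
    apply e.injective
    rw [QuotientGroup.mk_pow, map_pow, hz', map_one, pow_two, hm1sq]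
  set t := z ^ p with ht
  have ht2 : t * t = 1 := by
    rw [ht, ← pow_add, ← two_mul, pow_mul]; exact hAp _ hz2
  have hte : e (t : N ⧸ A) = m1 := by
    rw [ht, QuotientGroup.mk_pow, map_pow, hz', hk, pow_succ, pow_mul, pow_two, hm1sq, one_pow, one_mul]
  have htinv : t⁻¹ = t := inv_eq_of_mul_eq_one_right ht2
  have htA : t ∉ A := by
    intro h
    rw [(QuotientGroup.eq_one_iff t).2 h, map_one] at hte
    exact hm1ne hte.symm
  have hcen : ∀ n : N, n * t * n⁻¹ * t⁻¹ ∈ A := by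
    intro n
    rw [← QuotientGroup.eq_one_iff]
    apply e.injective
    simp only [QuotientGroup.mk_mul, QuotientGroup.mk_inv, map_mul, map_inv, hte, map_one]
    rw [hm1c]; group
  have hAn : ∀ n : N, ∀ a ∈ A, n * a * n⁻¹ ∈ A := fun n a ha => (inferInstance : A.Normal).conj_mem a ha n
  -- conjugation by `t` commutes with conjugation by `n` on `A`
  have hcc : ∀ n : N, ∀ a ∈ A, t * (n * a * n⁻¹) * t⁻¹ = n * (t * a * t⁻¹) * n⁻¹ := by
    intro n a ha
    have h1 := hcomm _ (hcen n) _ (hAn t _ (hAn n a ha))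
    calc t * (n * a * n⁻¹) * t⁻¹
        = (n * t * n⁻¹ * t⁻¹) * (t * (n * a * n⁻¹) * t⁻¹) * (n * t * n⁻¹ * t⁻¹)⁻¹ := by
          rw [h1]; group
      _ = _ := by group
  let A0 : Subgroup N :=
    { carrier := {a | a ∈ A ∧ t * a * t⁻¹ = a}
      one_mem' := ⟨A.one_mem, by group⟩
      mul_mem' := by
        rintro a b ⟨ha, ha'⟩ ⟨hb, hb'⟩
        refine ⟨A.mul_mem ha hb, ?_⟩
        calc t * (a * b) * t⁻¹ = (t * a * t⁻¹) * (t * b * t⁻¹) := by group
          _ = _ := by rw [ha', hb']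
      inv_mem' := by
        rintro a ⟨ha, ha'⟩
        refine ⟨A.inv_mem ha, ?_⟩
        calc t * a⁻¹ * t⁻¹ = (t * a * t⁻¹)⁻¹ := by group
          _ = _ := by rw [ha'] }
  let A1 : Subgroup N :=
    { carrier := {a | a ∈ A ∧ t * a * t⁻¹ = a⁻¹}
      one_mem' := ⟨A.one_mem, by group⟩
      mul_mem' := by
        rintro a b ⟨ha, ha'⟩ ⟨hb, hb'⟩
        refine ⟨A.mul_mem ha hb, ?_⟩
        calc t * (a * b) * t⁻¹ = (t * a * t⁻¹) * (t * b * t⁻¹) := by group
          _ = _ := by rw [ha', hb', hcomm a ha b hb, mul_inv_rev]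
      inv_mem' := by
        rintro a ⟨ha, ha'⟩
        refine ⟨A.inv_mem ha, ?_⟩
        calc t * a⁻¹ * t⁻¹ = (t * a * t⁻¹)⁻¹ := by group
          _ = _ := by rw [ha'] }
  have hA0n : A0.Normal := ⟨fun a ha n => ⟨hAn n a ha.1, by rw [hcc n a ha.1, ha.2]⟩⟩
  have hA1n : A1.Normal := ⟨fun a ha n => ⟨hAn n a ha.1, by rw [hcc n a ha.1, ha.2]; group⟩⟩
  have hdec : ∀ a ∈ A, ∃ a0 ∈ A0, ∃ a1 ∈ A1, a = a0 * a1 := by
    intro a ha
    set b := a ^ (k + 1) with hb
    have hbA : b ∈ A := A.pow_mem ha _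
    have hb' : t * b * t⁻¹ ∈ A := hAn t b hbA
    have htt : t * (t * b * t⁻¹) * t⁻¹ = b := by
      calc t * (t * b * t⁻¹) * t⁻¹ = (t * t) * b * (t * t)⁻¹ := by group
        _ = b := by rw [ht2]; group
    refine ⟨b * (t * b * t⁻¹), ⟨A.mul_mem hbA hb', ?_⟩, (t * b * t⁻¹)⁻¹ * b,
      ⟨A.mul_mem (A.inv_mem hb') hbA, ?_⟩, ?_⟩
    · calc t * (b * (t * b * t⁻¹)) * t⁻¹ = (t * b * t⁻¹) * (t * (t * b * t⁻¹) * t⁻¹) := by group
        _ = _ := by rw [htt, hcomm _ hb' _ hbA]
    · calc t * ((t * b * t⁻¹)⁻¹ * b) * t⁻¹ = (t * (t * b * t⁻¹) * t⁻¹)⁻¹ * (t * b * t⁻¹) := by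
            simp only [mul_inv_rev, inv_inv, mul_assoc, inv_mul_cancel_left]
        _ = _ := by rw [htt]; group
    · rw [← hsq a ha, ← hb]; group
  have hcyc : ∀ B : Subgroup N, B ≤ A → B ≠ A → IsCyclic B := by
    intro B hB hne
    have hd : Nat.card B ∣ p ^ 2 := hAcard ▸ Subgroup.card_dvd_of_le hB
    obtain ⟨i, hi, hc⟩ := (Nat.dvd_prime_pow hpp).1 hd
    have hi2 : i ≠ 2 := by
      rintro rfl
      exact hne (Subgroup.eq_of_le_of_card_ge hB (by rw [hc, hAcard]))
    have : Nat.card B ∣ p := by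
      rw [hc]
      have : i = 0 ∨ i = 1 := by omega
      rcases this with rfl | rfl <;> simp
    exact isCyclic_of_card_dvd_prime this
  have hA1 : A1 = A := by
    by_contra hne
    have hA0 : A0 ≠ A := by
      intro h
      apply htA
      rw [← hAself, Subgroup.mem_centralizer_iff]
      intro a ha
      have h1 : a ∈ A0 := h ▸ ha
      have h2 := h1.2
      calc a * t = (t * a * t⁻¹) * t := by rw [h2]
        _ = t * a := by group
    have c0 := Cfsg.Lib.GW.commutator_le_centralizer_of_isCyclic (K := A0) (A := ⊤) (B := ⊤)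
      (hcyc A0 (fun _ h => h.1) hA0) (by rw [Subgroup.normalizer_eq_top]) (by rw [Subgroup.normalizer_eq_top])
    have c1 := Cfsg.Lib.GW.commutator_le_centralizer_of_isCyclic (K := A1) (A := ⊤) (B := ⊤)
      (hcyc A1 (fun _ h => h.1) hne) (by rw [Subgroup.normalizer_eq_top]) (by rw [Subgroup.normalizer_eq_top])
    have hall : ∀ x y : N, x * y * x⁻¹ * y⁻¹ ∈ A := by
      intro x y
      have hm : x * y * x⁻¹ * y⁻¹ ∈ ⁅(⊤ : Subgroup N), (⊤ : Subgroup N)⁆ :=
        Subgroup.commutator_mem_commutator (Subgroup.mem_top x) (Subgroup.mem_top y)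
      rw [← hAself, Subgroup.mem_centralizer_iff]
      intro a ha
      obtain ⟨a0, h0, a1, h1, rfl⟩ := hdec a ha
      have e0 := Subgroup.mem_centralizer_iff.1 (c0 hm) a0 h0
      have e1 := Subgroup.mem_centralizer_iff.1 (c1 hm) a1 h1
      rw [mul_assoc, e1, ← mul_assoc, e0, mul_assoc]
    have hSL : ∀ g h : Matrix.SpecialLinearGroup (Fin 2) F, g * h = h * g := by
      intro g h
      obtain ⟨x, hx⟩ := QuotientGroup.mk_surjective (e.symm g)
      obtain ⟨y, hy⟩ := QuotientGroup.mk_surjective (e.symm h)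
      have h1 := (QuotientGroup.eq_one_iff _).2 (hall x y)
      have h2 := congrArg e h1
      simp only [QuotientGroup.mk_mul, QuotientGroup.mk_inv, map_mul, map_inv, map_one, hx, hy,
        MulEquiv.apply_symm_apply] at h2
      calc g * h = (g * h * g⁻¹ * h⁻¹) * (h * g) := by group
        _ = h * g := by rw [h2, one_mul]
    have := hSL ⟨!![1, 1; 0, 1], by simp [Matrix.det_fin_two]⟩ ⟨!![1, 0; 1, 1], by simp [Matrix.det_fin_two]⟩
    have h3 := congrArg (fun g : Matrix.SpecialLinearGroup (Fin 2) F => g.1 0 0) this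
    change (!![1, 1; 0, 1] * !![1, 0; 1, 1] : Matrix (Fin 2) (Fin 2) F) 0 0 =
      (!![1, 0; 1, 1] * !![1, 1; 0, 1] : Matrix (Fin 2) (Fin 2) F) 0 0 at h3
    simp [Matrix.mul_apply, Fin.sum_univ_two] at h3
  have hinv : ∀ a ∈ A, t * a * t⁻¹ = a⁻¹ := fun a ha => (hA1 ▸ ha : a ∈ A1).2
  refine ⟨Subgroup.centralizer {t}, ?_, ?_⟩
  · rw [eq_bot_iff]
    rintro a ⟨ha, ha'⟩
    have h1 := Subgroup.mem_centralizer_iff.1 ha' t rfl
    rw [Subgroup.mem_bot]
    apply hinv1 a ha
    rw [← hinv a ha, h1]; group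
  · rw [eq_top_iff]
    intro n _
    set a := n * t * n⁻¹ * t⁻¹ with ha
    have haA : a ∈ A := hcen n
    set b := a ^ (k + 1) with hb
    have hbA : b ∈ A := A.pow_mem haA _
    have hbb : b * b = a := hsq a haA
    have h1 : b⁻¹ * n ∈ Subgroup.centralizer ({t} : Set N) := by
      rw [Subgroup.mem_centralizer_iff]
      rintro _ rfl
      have h2 := hinv _ (A.inv_mem hbA)
      rw [inv_inv] at h2
      calc t * (b⁻¹ * n) = (t * b⁻¹ * t⁻¹) * (t * n) := by group
        _ = b⁻¹ * (b * b) * (t * n) := by rw [h2]; group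
        _ = b⁻¹ * n * t := by rw [hbb, ha]; group
    have : n = b * (b⁻¹ * n) := by group
    rw [this]
    exact Subgroup.mul_mem_sup hbA h1

end Cfsg.Agent.S3075
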