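import Cfsg.Statements.S3076
import Cfsg.Agent.Trans.SylowIn
import Cfsg.Agent.Trans.AutomizerOrder
import Cfsg.Agent.Trans.NormalComplement
import Cfsg.Agent.Solv.PLength

set_option autoImplicit false
open Cfsg

namespace Cfsg.Agent.S3076

open Subgroup Cfsg.Lib.Solv Cfsg.Lib.Trans

theorem key {M : Type*} [Group M] [Finite M] {p : ℕ} [hp : Fact p.Prime] {A S C : Subgroup M}
    [A.Normal] [C.Normal] (hS : IsSylowIn p S ⊤) (hAS : A ≤ S) (hC : C = centralizer (A : Set M)) :
    (A ≤ (pCore p (M ⧸ C)).comap (QuotientGroup.mk' C) ∧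
      ¬ p ∣ A.relIndex ((pCore p (M ⧸ C)).comap (QuotientGroup.mk' C))) ↔
      (S ⊓ C ≤ A ∧ pPrimePCore p M = A ⊔ C) := by
  have hA : IsPGroup p A := hS.isPGroup.to_le hAS
  set N := (pCore p (M ⧸ C)).comap (QuotientGroup.mk' C) with hN
  have hAN : A ≤ N := map_le_iff_le_comap.mp
    (le_pCore (Normal.map inferInstance _ (QuotientGroup.mk'_surjective _)) (hA.map _))
  have hCN : C ≤ N := le_comap_mk' _ _
  have hSC : IsSylowIn p (S ⊓ C) C := hS.inf_normal_of_le (by rw [normalizer_eq_top]) le_top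
  have hOC : pPrimeCore p M ≤ C := hC ▸ (pPrimeCore_le_centralizer_pCore p M).trans
    (centralizer_le (le_pCore inferInstance hA))
  obtain ⟨k, hk⟩ : ∃ k, C.relIndex N = p ^ k := by
    rw [hN, relIndex_comap_mk']; exact (pCore_isPGroup p _).exists_card_eq
  refine ⟨fun ⟨_, h⟩ => ?_, fun ⟨h1, h2⟩ => ⟨hAN, ?_⟩⟩
  · have hAs : IsSylowIn p A N := ⟨hAN, hA, h⟩
    have h1 : S ⊓ C ≤ A := le_sup_right.trans (hAs.eq_of_le
      (hA.to_sup_of_normal_left hS.isPGroup.to_inf_left) le_sup_left
      (sup_le hAN (inf_le_right.trans hCN))).le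
    have h2 : N ≤ A ⊔ C := relIndex_eq_one.mp (Nat.eq_one_of_dvd_coprimes
      (((Nat.Prime.coprime_iff_not_dvd hp.out).mpr h).pow_left k)
      (hk ▸ relIndex_dvd_of_le_left N le_sup_right) (relIndex_dvd_of_le_left N le_sup_left))
    refine ⟨h1, le_antisymm (le_trans (map_le_iff_le_comap.mp (le_pCore
      (Normal.map inferInstance _ (QuotientGroup.mk'_surjective _)) ?_)) h2)
      (sup_le ((le_pCore inferInstance hA).trans (pCore_le_pPrimePCore p M)) ?_)⟩
    · obtain ⟨j, hj⟩ := exists_relIndex_pPrimePCore p M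
      refine IsPGroup.of_card_dvd_pow (n := j) ?_
      rw [card_map_mk', ← hj]
      exact relIndex_dvd_of_le_left _ hOC
    · obtain ⟨Q, hQ⟩ := hSC.subgroupOf_top.exists_sylow_eq
      obtain ⟨K, hK, h3, h4⟩ := hasNormalPComplement_iff_exists_normal.mp
        (hasNormalPComplement_of_sylow_le_center Q fun x hx => mem_center_iff.mpr fun c =>
          Subtype.ext ((hC.le c.2) x (h1 (hQ.le hx))).symm)
      obtain ⟨j, hj⟩ := h4.exists_card_eq
      have h5 := le_pPrimePCore_of_relIndex hK (inferInstance : (⊤ : Subgroup C).Normal) h3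
        ((relIndex_top_right K).trans hj)
      exact fun c hc => map_pPrimePCore_le_of_normal C ⟨⟨c, hc⟩, h5 (mem_top _), rfl⟩
  · have h3 : N ≤ A ⊔ C := by
      rw [← h2, ← QuotientGroup.ker_mk' (pPrimePCore p M), ← Subgroup.map_eq_bot_iff]
      refine pCore_eq_bot_iff.mp (pCore_quotient_pPrimePCore p M) _
        (Normal.map inferInstance _ (QuotientGroup.mk'_surjective _))
        (IsPGroup.of_card_dvd_pow (n := k) ?_)
      rw [card_map_mk', ← hk]
      exact relIndex_dvd_of_le_left _ (h2 ▸ le_sup_right)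
    rw [le_antisymm h3 (sup_le hAN hCN), relIndex_sup_left]
    exact fun h => hSC.not_dvd (h.trans (relIndex_dvd_of_le_left C h1))

/-- Let P be a Sylow p-subgroup of the finite group G and H ≤ P a subgroup with N_P(H) a Sylow p-subgroup of N_G(H). Let N be the preimage in N_G(H) of O_p(N_G(H)/C_G(H)). Then H is a Sylow p-subgroup of N if and only if C_P(H) ≤ H and O_{p',p}(N_G(H)) = H·C_G(H). -/
theorem result {G : Type*} [Group G] [Finite G] {p : ℕ} [Fact p.Prime]
    (P : Sylow p G) (H : Subgroup G) (hHP : H ≤ (P : Subgroup G))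
    (hSyl : ¬ p ∣ ((P : Subgroup G) ⊓ Subgroup.normalizer (H : Set G)).relIndex (Subgroup.normalizer (H : Set G)))
    [hC : ((Subgroup.centralizer (H : Set G)).subgroupOf (Subgroup.normalizer (H : Set G))).Normal] :
    (H ≤ ((Cfsg.pCore p (↥(Subgroup.normalizer (H : Set G)) ⧸
              (Subgroup.centralizer (H : Set G)).subgroupOf (Subgroup.normalizer (H : Set G)))).comap
            (QuotientGroup.mk' _)).map (Subgroup.normalizer (H : Set G)).subtype ∧
      ¬ p ∣ H.relIndex (((Cfsg.pCore p (↥(Subgroup.normalizer (H : Set G)) ⧸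
              (Subgroup.centralizer (H : Set G)).subgroupOf (Subgroup.normalizer (H : Set G)))).comap
            (QuotientGroup.mk' _)).map (Subgroup.normalizer (H : Set G)).subtype)) ↔
    ((P : Subgroup G) ⊓ Subgroup.centralizer (H : Set G) ≤ H ∧
      (Cfsg.pPrimePCore p ↥(Subgroup.normalizer (H : Set G))).map (Subgroup.normalizer (H : Set G)).subtype =
        H ⊔ Subgroup.centralizer (H : Set G)) := by
  have hHM : H ≤ normalizer (H : Set G) := le_normalizer
  have hCM : centralizer (H : Set G) ≤ normalizer (H : Set G) := centralizer_le_normalizer _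
  have hS : IsSylowIn p ((P : Subgroup G) ⊓ normalizer (H : Set G)) (normalizer (H : Set G)) :=
    ⟨inf_le_right, P.isPGroup'.to_inf_left, hSyl⟩
  have h := key (A := H.subgroupOf (normalizer (H : Set G))) hS.subgroupOf_top
    (comap_mono (le_inf hHP hHM)) (subgroupOf_centralizer hHM)
  have e1 := map_subgroupOf_eq_of_le hHM
  refine (and_congr ?_ (not_congr ?_)).trans (h.trans (and_congr ?_ ?_))
  · rw [← map_subtype_le_map_subtype, e1]
  · rw [← relIndex_map_map_of_injective _ _ (normalizer (H : Set G)).subtype_injective, e1]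
  · exact ⟨fun h1 x hx => h1 (x := ⟨x, hCM hx.2⟩) ⟨⟨hx.1, hCM hx.2⟩, hx.2⟩,
      fun h1 x hx => h1 ⟨hx.1.1, hx.2⟩⟩
  · rw [← (map_injective (normalizer (H : Set G)).subtype_injective).eq_iff, Subgroup.map_sup, e1,
      map_subgroupOf_eq_of_le hCM]

end Cfsg.Agent.S3076
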