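import Cfsg.Statements.S3078
import Cfsg.Agent.Trans.Replacement
import Cfsg.Agent.Trans.Offender

set_option autoImplicit false
open Cfsg

namespace Cfsg.Agent.S3078

open Cfsg.Lib Cfsg.Lib.Trans Cfsg.Lib.Trans.TJ
open scoped commutatorElement

/-- A replacement Theorem for abelian subgroups of p-groups, p odd. Let G be a finite p-group with p odd, A an abelian subgroup of G, and B a subgroup of nilpotency class at most 2 with [B, B] ≤ A, such that A normalizes B but B does not normalize A. Then there is an abelian subgroup A* of G of the same order as A with A ∩ B strictly contained in A* ∩ B, A* contained in N_G(A) and in the normal closure of A, the exponent of A* dividing the exponent of A, and with the subgroup generated by the elements of order dividing p in A of order at most that of the corresponding subgroup of A* (the rank of A is at most the rank of A*). -/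
theorem result {G : Type*} [Group G] [Finite G] {p : ℕ} [Fact p.Prime] (hp : p ≠ 2) (hG : IsPGroup p G) (A B : Subgroup G) (hA : IsMulCommutative A) (hB2 : ⁅⁅B, B⁆, B⁆ = ⊥) (hBA : ⁅B, B⁆ ≤ A) (hAB : A ≤ Subgroup.normalizer (B : Set G)) (hBnA : ¬ B ≤ Subgroup.normalizer (A : Set G)) : ∃ Astar : Subgroup G, IsMulCommutative Astar ∧ Nat.card Astar = Nat.card A ∧ A ⊓ B < Astar ⊓ B ∧ Astar ≤ Subgroup.normalizer (A : Set G) ∧ Astar ≤ Subgroup.normalClosure (A : Set G) ∧ Monoid.exponent Astar ∣ Monoid.exponent A ∧ Nat.card (Cfsg.omegaOne p A) ≤ Nat.card (Cfsg.omegaOne p Astar) := by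
  have hAc : ∀ x ∈ A, ∀ y ∈ A, Commute x y := fun x hx y hy =>
    congrArg Subtype.val (hA.is_comm.comm (⟨x, hx⟩ : A) ⟨y, hy⟩)
  have hPB : A ⊔ B ≤ Subgroup.normalizer (B : Set G) := sup_le hAB Subgroup.le_normalizer
  obtain ⟨c, hc, hcN, hcA⟩ := exists_mem_normalizer_normalizer (P := A ⊔ B) (hG.to_subgroup _)
    le_sup_right hPB hBnA
  have h : ReplSetup A B c := by
    refine replSetup_of_mem_normalizer le_sup_left hAc hAB
      (comm_eq_bot_of_commute fun x hx y hy => hAc x (hBA hx) y hy) (fun x hx a ha haB => ?_) hc hcN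
    have := A.mul_mem (hBA (Subgroup.commutator_mem_commutator hx haB)) ha
    simpa [commutatorElement_def] using this
  have hM := h.replace_comm (h.commElt_comm_of_odd Fact.out hp (hG.to_subgroup _))
  have hodd : Odd p := (Fact.out : p.Prime).odd_of_ne_two hp
  refine ⟨replace A c, ⟨⟨fun x y => Subtype.ext (hM _ x.2 _ y.2).eq⟩⟩, h.card_replace, h.inf_lt hcA,
    h.replace_le_normalizer, ?_, ?_, ?_⟩
  · refine (ReplSetup.replace_le_sup A c).trans (sup_le Subgroup.le_normalClosure ?_)
    rw [cj_le_iff]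
    exact fun a ha => Subgroup.Normal.conj_mem inferInstance _ (Subgroup.le_normalClosure ha) c
  · rw [Monoid.exponent_dvd_iff_forall_pow_eq_one]
    intro x
    obtain ⟨k, hk⟩ := (hG.to_subgroup A).exists_card_eq
    have h1 : Odd (Monoid.exponent A) :=
      Odd.of_dvd_nat (hk ▸ hodd.pow) (Group.exponent_dvd_nat_card (G := A))
    exact Subtype.ext (h.pow_eq_one h1
      (fun a ha => congrArg Subtype.val (Monoid.pow_exponent_eq_one (⟨a, ha⟩ : A))) x.2)
  · have c1 : A ≤ Subgroup.centralizer (A : Set G) := fun x hx y hy => (hAc y hy x hx).eq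
    have c2 : replace A c ≤ Subgroup.centralizer (replace A c : Set G) :=
      fun x hx y hy => (hM y hy x hx).eq
    have key : (A ⊓ cj c A).relIndex (omegaOne p A) ≤
        (A ⊓ cj c A).relIndex (omegaOne p (replace A c)) := by
      refine relIndex_le_of_map (fun a => ⟨⁅(a : G), c⁆, ?_⟩) ?_
      · obtain ⟨ha, hap⟩ := (mem_omegaOne_iff c1).1 a.2
        refine mem_omegaOne_of (Subgroup.mem_sup_right (commutator_mem_commElt ha c)) ?_
        have h1 : c * (a : G)⁻¹ * c⁻¹ ∈ cj c A := conj_mem_cj.mpr (A.inv_mem ha)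
        have h2 : (c * (a : G)⁻¹ * c⁻¹) ^ p = 1 := by rw [conj_pow, inv_pow, hap]; simp
        have h3 : ⁅c * (a : G)⁻¹ * c⁻¹, (a : G)⁆ ∈ A ⊓ cj c A := by
          rw [← commutatorElement_inv]
          exact Subgroup.inv_mem _ (h.commutator_mem_inf ha (Subgroup.mem_sup_right h1))
        rw [ReplSetup.commutator_eq, mul_pow_of_odd_of_pow_commute
          (h.commute_inf h3 (Subgroup.mem_sup_left ha))
          (h.commute_inf h3 (Subgroup.mem_sup_right h1)) hodd
          (by rw [h2]; exact Commute.one_left _), hap, h2, one_mul]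
      · intro a b hab
        have ha := omegaOne_le _ a.2
        have hb := omegaOne_le _ b.2
        refine ⟨A.mul_mem (A.inv_mem ha) hb, ?_⟩
        have e : (a : G)⁻¹ * b = (c * a * c⁻¹)⁻¹ * (⁅(a : G), c⁆⁻¹ * ⁅(b : G), c⁆) *
            (c * b * c⁻¹) := by simp only [commutatorElement_def]; group
        rw [e]
        exact (cj c A).mul_mem ((cj c A).mul_mem ((cj c A).inv_mem (conj_mem_cj.2 ha)) hab.2)
          (conj_mem_cj.2 hb)
    rw [← Solv.card_inf_mul_relIndex (A ⊓ cj c A) (omegaOne p A),
      ← Solv.card_inf_mul_relIndex (A ⊓ cj c A) (omegaOne p (replace A c))]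
    refine Nat.mul_le_mul (card_le_of_le fun x hx => ⟨hx.1, ?_⟩) key
    exact mem_omegaOne_of (Subgroup.mem_sup_left hx.1) ((mem_omegaOne_iff c1).1 hx.2).2

end Cfsg.Agent.S3078
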