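import Cfsg.Statements.S3086
import Cfsg.Agent.Local.PGVMain

set_option autoImplicit false
open Cfsg

namespace Cfsg.Agent.S3086

/-- The P(G,V)-theorem. Let p be a prime, G a finite group acting faithfully and linearly on a finite vector space V over the field with p elements, and A a nontrivial elementary abelian p-subgroup of G such that |A|·|C_V(A)| ≥ |B|·|C_V(B)| for every subgroup B of A. Then A normalizes every component (subnormal quasisimple subgroup) of G. -/
theorem result {G V : Type*} [Group G] [Finite G] [AddCommGroup V] [Finite V] (p : ℕ) [Fact p.Prime] [Module (ZMod p) V]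
    (ρ : Representation (ZMod p) G V) (hρ : Function.Injective ρ)
    (A : Subgroup G) (hA : A ≠ ⊥) (hAel : Cfsg.IsElementaryAbelian p A)
    (hP : ∀ B : Subgroup G, B ≤ A →
      Nat.card ↥B * Nat.card {v : V // ∀ b ∈ B, ρ b v = v} ≤ Nat.card ↥A * Nat.card {v : V // ∀ a ∈ A, ρ a v = v}) :
    ∀ K : Subgroup G, Cfsg.IsComponent K → A ≤ Subgroup.normalizer (K : Set G) := by
  intro K hK a ha
  by_contra han
  let H := K ⊔ A
  have hK' := Cfsg.Lib.Trans.IsComponent.subgroupOf hK (le_sup_left : K ≤ H)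
  let ρ' : H →* Module.End (ZMod p) V := MonoidHom.comp ρ H.subtype
  have hfix : ∀ B : Subgroup H, Cfsg.Lib.PGV.jj ρ' B =
      Nat.card (B.map H.subtype) * Nat.card {v : V // ∀ b ∈ B.map H.subtype, ρ b v = v} := by
    intro B
    unfold Cfsg.Lib.PGV.jj
    rw [Subgroup.card_map_of_injective H.subtype_injective]
    congr 1
    exact Nat.card_congr (Equiv.subtypeEquivRight fun v =>
      ⟨fun h _ ⟨b, hb, e⟩ => e ▸ h b hb, fun h b hb => h _ ⟨b, hb, rfl⟩⟩)
  have key := Cfsg.Lib.PGV.main p (K := K.subgroupOf H) (A := A.subgroupOf H)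
    (by rw [← Subgroup.subgroupOf_sup le_sup_left le_sup_right, Subgroup.subgroupOf_self])
    (Cfsg.Lib.PGV.qs_of_isComponent hK')
    (fun x hx y hy => Subtype.ext
      (congrArg (fun z : A => (z : G)) (hAel.1.is_comm.comm (⟨x, hx⟩ : A) ⟨y, hy⟩)))
    (fun x hx => Subtype.ext (hAel.2 x hx))
    (fun x _ => Cfsg.Lib.PGV.dich_of_isComponent hK' x)
    (a := ⟨a, Subgroup.mem_sup_right ha⟩) ha (fun h => han (by
      rw [Subgroup.mem_normalizer_iff] at h ⊢
      refine fun x => ⟨fun hx => (h ⟨x, Subgroup.mem_sup_left hx⟩).mp hx, fun hx => ?_⟩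
      have hx' : x ∈ H := by
        have := H.mul_mem (H.mul_mem (H.inv_mem (Subgroup.mem_sup_right ha))
          (Subgroup.mem_sup_left hx)) (Subgroup.mem_sup_right ha)
        simpa [mul_assoc] using this
      exact (h ⟨x, hx'⟩).mpr hx)) _ V ρ' rfl (fun B hB => by
      rw [hfix, hfix, Subgroup.subgroupOf_map_subtype, inf_eq_left.mpr (le_sup_right : A ≤ H)]
      exact hP _ (Subgroup.map_le_iff_le_comap.mpr hB))
  refine Cfsg.Lib.Trans.IsComponent.ne_bot hK (eq_bot_iff.mpr fun x hx => ?_)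
  exact hρ ((key ⟨x, Subgroup.mem_sup_left hx⟩ hx).trans (map_one ρ).symm)

end Cfsg.Agent.S3086
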