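import Cfsg.Statements.S3087
import Cfsg.Agent.Local.ProdCard
import Mathlib.Algebra.Group.Subgroup.Finite
import Mathlib.Algebra.Group.TypeTags.Finite

set_option autoImplicit false
open Cfsg

namespace Cfsg.Agent.S3087

theorem addcard {V : Type*} [AddCommGroup V] [Finite V] (H K : AddSubgroup V) :
    Nat.card H * Nat.card K ≤ Nat.card ↥(H ⊔ K) * Nat.card ↥(H ⊓ K) := by
  have := Cfsg.Lib.Local.CD.card_mul_le_card_sup_mul_card_inf (AddSubgroup.toSubgroup H)
    (AddSubgroup.toSubgroup K)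
  rw [← map_sup, ← map_inf] at this
  exact this

/-- Fixed points of a subgroup. -/
def fixAdd {G V : Type*} [Group G] [AddCommGroup V] {p : ℕ} [Fact p.Prime] [Module (ZMod p) V]
    (ρ : Representation (ZMod p) G V) (B : Subgroup G) : AddSubgroup V where
  carrier := {v | ∀ b ∈ B, ρ b v = v}
  add_mem' := fun {x y} hx hy b hb => by rw [map_add, hx b hb, hy b hb]
  zero_mem' := fun b _ => map_zero _
  neg_mem' := fun {x} hx b hb => by rw [map_neg, hx b hb]

/-- Let p be a prime, G a finite group acting linearly on a finite vector space V over the field with p elements, W a G-invariant subspace, and A a subgroup of G with |A|·|C_V(A)| ≥ |B|·|C_V(B)| for every subgroup B of A. Then |A|·|C_W(A)| ≥ |B|·|C_W(B)| for every subgroup B of A that contains C_A(W); that is, the image of A in the group induced on W satisfies the same maximality condition. -/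
theorem result {G V : Type*} [Group G] [Finite G] [AddCommGroup V] [Finite V] (p : ℕ) [Fact p.Prime] [Module (ZMod p) V]
    (ρ : Representation (ZMod p) G V) (W : Submodule (ZMod p) V) (hW : ∀ g : G, ∀ w ∈ W, ρ g w ∈ W)
    (A : Subgroup G)
    (hP : ∀ B : Subgroup G, B ≤ A →
      Nat.card ↥B * Nat.card {v : V // ∀ b ∈ B, ρ b v = v} ≤ Nat.card ↥A * Nat.card {v : V // ∀ a ∈ A, ρ a v = v})
    (B : Subgroup G) (hBA : B ≤ A) (hCB : ∀ a ∈ A, (∀ w ∈ W, ρ a w = w) → a ∈ B) :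
    Nat.card ↥B * Nat.card {w : W // ∀ b ∈ B, ρ b w = w} ≤ Nat.card ↥A * Nat.card {w : W // ∀ a ∈ A, ρ a w = w} := by
  have e1 : ∀ C : Subgroup G, Nat.card {w : W // ∀ b ∈ C, ρ b w = w} =
      Nat.card ↥(W.toAddSubgroup ⊓ fixAdd ρ C) := fun C =>
    Nat.card_congr ⟨fun w => ⟨w.1.1, w.1.2, w.2⟩, fun w => ⟨⟨w.1, w.2.1⟩, w.2.2⟩,
      fun _ => rfl, fun _ => rfl⟩
  have e2 : ∀ C : Subgroup G, Nat.card {v : V // ∀ b ∈ C, ρ b v = v} =
      Nat.card ↥(fixAdd ρ C) := fun C => rfl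
  have hAB : fixAdd ρ A ≤ fixAdd ρ B := fun v hv b hb => hv b (hBA hb)
  have h1 := addcard (W.toAddSubgroup ⊓ fixAdd ρ B) (fixAdd ρ A)
  rw [inf_assoc, inf_eq_right.mpr hAB] at h1
  have h2 : Nat.card ↥(W.toAddSubgroup ⊓ fixAdd ρ B ⊔ fixAdd ρ A) ≤ Nat.card (fixAdd ρ B) :=
    AddSubgroup.card_le_of_le (sup_le inf_le_right hAB)
  have h3 := hP B hBA
  rw [e2, e2] at h3
  rw [e1, e1]
  have hpos : 0 < Nat.card (fixAdd ρ A) := Nat.card_pos
  refine Nat.le_of_mul_le_mul_right ?_ hpos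
  calc _ = Nat.card B * (Nat.card ↥(W.toAddSubgroup ⊓ fixAdd ρ B) * Nat.card (fixAdd ρ A)) := by
        ring
    _ ≤ Nat.card B * (Nat.card (fixAdd ρ B) * Nat.card ↥(W.toAddSubgroup ⊓ fixAdd ρ A)) :=
        Nat.mul_le_mul_left _ (h1.trans (Nat.mul_le_mul_right _ h2))
    _ = Nat.card B * Nat.card (fixAdd ρ B) * Nat.card ↥(W.toAddSubgroup ⊓ fixAdd ρ A) := by ring
    _ ≤ Nat.card A * Nat.card (fixAdd ρ A) * Nat.card ↥(W.toAddSubgroup ⊓ fixAdd ρ A) :=
        Nat.mul_le_mul_right _ h3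
    _ = _ := by ring

end Cfsg.Agent.S3087
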