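import Cfsg.Statements.S3117
import Cfsg.Agent.Block.PerfAut

set_option autoImplicit false
open Cfsg

namespace Cfsg.Agent.S3117

open Subgroup Cfsg.Lib.Solv Cfsg.Lib.Block.Aniso in
theorem eq_bot_of_fix {T : Type*} [Group T] [Finite T] {A : Subgroup (MulAut T)}
    (hT : IsPGroup 2 T) (hA : ⁅A, A⁆ = A) (h : ∀ φ ∈ A, ∀ x, x ^ 2 = 1 → φ x = x) : A = ⊥ := by
  let C := centralizer {x : T | x ^ 2 = 1}
  have hC : ∀ α ∈ A, ∀ x : T, x⁻¹ * α x ∈ C := fun α hα x t ht => by
    have h1 := h α hα (x * t * x⁻¹) (by rw [conj_pow, show t ^ 2 = 1 from ht]; group)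
    rw [map_mul, map_mul, h α hα t ht, map_inv] at h1
    calc t * (x⁻¹ * α x) = x⁻¹ * (x * t * x⁻¹) * α x := by group
      _ = x⁻¹ * α x * t := by rw [← h1]; group
  let f : A →* MulAut C := Coprime.restrictAut A.subtype C fun s g hg => by
    simpa using C.mul_mem hg (hC s s.2 g)
  have hA' : ⁅(⊤ : Subgroup A), (⊤ : Subgroup A)⁆ = ⊤ := map_injective A.subtype_injective (by
    rw [map_commutator, ← MonoidHom.range_eq_map, A.range_subtype, hA])
  have h1 : f.range = ⊥ := eq_bot_of_fix_omega (hT.to_subgroup C)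
    (by rw [MonoidHom.range_eq_map, ← map_commutator, hA'])
    (fun x hx => mem_center_iff.2 fun g => Subtype.ext (g.2 x (congrArg Subtype.val hx)).symm)
    (by rintro _ ⟨a, rfl⟩ x hx; exact Subtype.ext (h a a.2 x (congrArg Subtype.val hx)))
  have h2 : ∀ α ∈ A, ∀ c ∈ C, α c = c := fun α hα c hc =>
    congrArg Subtype.val (DFunLike.congr_fun (mem_bot.1 (h1.le ⟨⟨α, hα⟩, rfl⟩)) (⟨c, hc⟩ : C))
  refine eq_bot_of_odd hA fun α hα ho => MulEquiv.ext fun x => ?_
  have h3 : ∀ n : ℕ, (α ^ n) x = x * (x⁻¹ * α x) ^ n := fun n => by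
    induction n with
    | zero => simp
    | succ n ih =>
      rw [pow_succ', MulAut.mul_apply, ih, map_mul, h2 α hα _ (C.pow_mem (hC α hα x) n), pow_succ',
        ← mul_assoc, mul_inv_cancel_left]
  have h4 := h3 (orderOf α)
  rw [pow_orderOf_eq_one, MulAut.one_apply, left_eq_mul] at h4
  obtain ⟨k, hk⟩ := hT (x⁻¹ * α x)
  have h5 := (((Nat.coprime_two_right.2 ho).coprime_dvd_left
    (orderOf_dvd_of_pow_eq_one h4)).pow_right k).eq_one_of_dvd (orderOf_dvd_of_pow_eq_one hk)
  exact (inv_mul_eq_one.1 (orderOf_eq_one_iff.1 h5)).symm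

/-- If X is a finite 2-group containing exactly three involutions, then the automorphism group of X is solvable. -/
theorem result {X : Type*} [Group X] [Finite X] (h2 : IsPGroup 2 X) (h3 : Nat.card {x : X // orderOf x = 2} = 3) : Group.IsSolvable (MulAut X) := by
  have := Cfsg.Lib.Block.Princ.isSolvable_of_forall_perfect (⊤ : Subgroup (MulAut X))
    fun A _ hA => eq_bot_of_fix h2 hA fun φ hφ x hx => ?_
  · exact Group.isSolvable_of_surjective (f := (⊤ : Subgroup (MulAut X)).subtype)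
      fun x => ⟨⟨x, trivial⟩, rfl⟩
  by_cases hx1 : x = 1
  · rw [hx1, map_one]
  let f : MulAut X →* Equiv.Perm {x : X // orderOf x = 2} :=
    { toFun := fun φ => Equiv.Perm.subtypePerm φ.toEquiv fun x => by
        simp [MulEquiv.orderOf_eq]
      map_one' := rfl
      map_mul' := fun _ _ => rfl }
  have hs : Group.IsSolvable (⊤ : Subgroup (Equiv.Perm {x : X // orderOf x = 2})) := by
    refine Cfsg.Lib.Char.isSolvable_of_card_dvd (a := 1) (b := 1) Nat.prime_two Nat.prime_three _ ?_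
    rw [Subgroup.card_top, Nat.card_perm, h3]
    decide
  have h4 := Cfsg.Lib.Trans.eq_bot_of_perfect_of_le_isSolvable (L := A.map f)
    (by rw [← Subgroup.map_commutator, hA]) le_top hs
  exact congrArg Subtype.val (DFunLike.congr_fun (Subgroup.mem_bot.1
    (h4.le (Subgroup.mem_map_of_mem f hφ))) ⟨x, orderOf_eq_prime hx hx1⟩)

end Cfsg.Agent.S3117
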