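import Cfsg.Statements.S3144
import Cfsg.Agent.W8.Cover
import Cfsg.Agent.W8.StdD
import Cfsg.Agent.S1754
import Cfsg.Agent.Block.ZStar
import Cfsg.Agent.Class.FieldIso

set_option autoImplicit false
open Cfsg

namespace Cfsg.Agent.S3144

open Cfsg.Lib Cfsg.Lib.W8 Subgroup

theorem normal_of {G : Type*} [Group G] [Finite G] (hO : oddCore G = ⊥) (A : Subgroup G)
    (hA : IsStandardSubgroup A) {W : Type*} [Group W] {W0 : Subgroup W} {σ : Vec → W}
    {P : Equiv.Perm Pt → W} (F : Fr W0 σ P) (e : A ≃* W0)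
    (hout : ∀ β : MulAut W0, ∃ w : W, ∀ x : W0, (β x).1 = w * x * w⁻¹)
    (hR : ∀ R : Sylow 2 (centralizer (A : Set G)),
      IsCyclic (R : Subgroup (centralizer (A : Set G)))) : A.Normal := by
  classical
  obtain ⟨ι, hι⟩ : ∃ ι : W → G, ∀ x : W0, ι x = e.symm x :=
    ⟨fun w => if h : w ∈ W0 then e.symm ⟨w, h⟩ else 1, fun x => dif_pos x.2⟩
  have hmul : ∀ a ∈ W0, ∀ b ∈ W0, ι (a * b) = ι a * ι b := fun a ha b hb => by
    rw [hι ⟨a, ha⟩, hι ⟨b, hb⟩, ← coe_mul, ← map_mul]
    exact hι ⟨_, mul_mem ha hb⟩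
  have hinj : ∀ a ∈ W0, ι a = 1 → a = 1 := fun a ha h => congrArg Subtype.val
    ((map_eq_one_iff e.symm e.symm.injective).1 (Subtype.ext ((hι ⟨a, ha⟩).symm.trans h)))
  have hcent : ∀ {k : G}, (∀ x ∈ W0, k * ι x = ι x * k) → k ∈ centralizer (A : Set G) :=
    fun h a ha => by
      have := h _ (e ⟨a, ha⟩).2
      rw [hι, e.symm_apply_apply] at this
      exact this.symm
  have : Fact (Nat.Prime 2) := ⟨Nat.prime_two⟩
  have hN := (Agent.S1754.result A hA (ι (σ 1)) (orderOf_eq_prime (by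
    rw [sq, ← hmul _ F.one_mem _ F.one_mem, F.σ_mul_self]
    exact (hι 1).trans (by rw [map_one]; rfl))
    fun h => one_ne_zero (F.σ_inj ((hinj _ F.one_mem h).trans F.σ_zero.symm)))
    (hcent fun x hx => by rw [← hmul _ F.one_mem _ hx, ← hmul _ hx _ F.one_mem, F.cen])).1
  have h : St W0 σ P ι (ι (σ 1)) := by
    refine ⟨F, rfl, hmul, hinj, fun g hg => ?_, fun Q hQ hk => ?_⟩
    · have hg' := hN (mem_centralizer_singleton_iff.2 hg)
      obtain ⟨w, hw⟩ := hout (MulAut.congr e (A.normalizerMonoidHom ⟨g, hg'⟩))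
      refine ⟨w, fun x hx => ?_⟩
      rw [← hw ⟨x, hx⟩, hι, hι ⟨x, hx⟩]
      exact congrArg Subtype.val (e.symm_apply_apply (A.normalizerMonoidHom ⟨g, hg'⟩ _)).symm
    · have hle : Q ≤ centralizer (A : Set G) := fun k h => hcent fun x hx => St.comm_ι (hk k h) hx
      obtain ⟨R, hR'⟩ := (Trans.isPGroup_subgroupOf hQ (centralizer (A : Set G))).exists_le_sylow
      have := hR R
      have := isCyclic_of_le hR'
      exact isCyclic_of_surjective _ (subgroupOfEquivOfLe hle).surjective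
  have h1 := Block.Princ.zstar_center h.isolated hO
  refine normalizer_eq_top_iff.1 (eq_top_iff.2 fun g _ => hN ?_)
  exact mem_centralizer_singleton_iff.2 (mem_center_iff.1 h1 g)

/-- Let G be a finite group with no nontrivial normal subgroup of odd order and L a standard subgroup of G which is a double cover of the simple orthogonal group PΩ⁺ of dimension 8 over the field with 2 elements (the centre of L has order 2 and L modulo its centre is isomorphic to that group), and suppose the centralizer of L in G has cyclic Sylow 2-subgroups. Then L is normal in G. -/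
theorem result {G : Type*} [Group G] [Finite G] (hO : Cfsg.oddCore G = ⊥) (L : Subgroup G) (hL : Cfsg.IsStandardSubgroup L)
    {F : Type*} [Field F] [Fintype F] (hF : Fintype.card F = 2)
    (hZ : Nat.card ↥(Subgroup.center ↥L) = 2) (hLX : Nonempty ((↥L ⧸ Subgroup.center ↥L) ≃* Cfsg.POmega F (Cfsg.quadFormPlus 4 F)))
    (hR : ∀ R : Sylow 2 ↥(Subgroup.centralizer (L : Set G)), IsCyclic ↥(R : Subgroup ↥(Subgroup.centralizer (L : Set G)))) :
    L.Normal := by
  obtain ⟨f⟩ := Class.nonempty_ringEquiv_zmod Nat.prime_two hF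
  obtain ⟨e⟩ := hLX
  obtain ⟨e'⟩ := nonempty_equiv hL.1.1.commutator_eq_top hZ (e.trans ((Class.pOmegaEquiv f _
    (quadFormPlus 4 (ZMod 2)) fun v => by simp [quadFormPlus]).trans (Class.Orth.pomegaEquiv QQ)))
  exact normal_of hO L hL frame e' aut_eq hR

end Cfsg.Agent.S3144
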