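import Cfsg.Statements.S3149
import Cfsg.Agent.Chev.RuFour

set_option autoImplicit false
open Cfsg

namespace Cfsg.Agent.S3149

/-- Let G be a finite group with no nontrivial normal subgroup of odd order and A a standard subgroup of G which is a double cover of the Rudvalis group (the centre of A has order 2 and A modulo its centre is isomorphic to the Rudvalis group). If the centralizer of A in G has cyclic Sylow 2-subgroups, then A is normal in G. -/
theorem result {G : Type*} [Group G] [Finite G] (hO : Cfsg.oddCore G = ⊥) (A : Subgroup G) (hA : Cfsg.IsStandardSubgroup A)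
    (hZ : Nat.card ↥(Subgroup.center ↥A) = 2) (hAX : Cfsg.Spor.IsoRu (↥A ⧸ Subgroup.center ↥A))
    (hR : ∀ R : Sylow 2 ↥(Subgroup.centralizer (A : Set G)), IsCyclic ↥(R : Subgroup ↥(Subgroup.centralizer (A : Set G)))) : A.Normal := by
  obtain ⟨e⟩ := hAX
  obtain ⟨T, hT⟩ := Lib.Chev.Ru5.gd
  obtain ⟨ψ, -⟩ := Lib.HN.exists_equiv_over Lib.Spor.Ru.mult_Ru
    (π₁ := e.toMonoidHom.comp (QuotientGroup.mk' _)) (e.surjective.comp (QuotientGroup.mk'_surjective _))
    Lib.Chev.Ru5.pr_surj (by ext x; simp) Lib.Chev.Ru5.pr_ker hZ Lib.Chev.Ru5.card_DD.1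
    hA.1.1.commutator_eq_top Lib.Chev.Ru5.perf
  exact Lib.Chev.StdF.normal_of hO A hA ψ hT Lib.Chev.Ru5.aut_inner hR

end Cfsg.Agent.S3149
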