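import Cfsg.Statements.S3150
import Cfsg.Agent.CoStd.Main
import Cfsg.Agent.S1754
import Cfsg.Agent.Block.ZStar
import Cfsg.Agent.Bender.TwoRank

set_option autoImplicit false
open Cfsg

namespace Cfsg.Agent.S3150

/-- Let G be a finite group with no nontrivial normal subgroup of odd order and A a standard subgroup of G isomorphic to the automorphism group of the Leech lattice (the double cover of the first Conway group). If the centralizer of A in G has cyclic Sylow 2-subgroups, then A is normal in G. -/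
theorem result {G : Type*} [Group G] [Finite G] (hO : Cfsg.oddCore G = ⊥) (A : Subgroup G) (hA : Cfsg.IsStandardSubgroup A)
    (hAX : Nonempty (↥A ≃* ↥Cfsg.Co0)) (hR : ∀ R : Sylow 2 ↥(Subgroup.centralizer (A : Set G)), IsCyclic ↥(R : Subgroup ↥(Subgroup.centralizer (A : Set G)))) : A.Normal := by
  obtain ⟨e⟩ := hAX
  let ι : Co0 →* G := A.subtype.comp e.symm.toMonoidHom
  have hι : ∀ a : A, ι (e a) = a := fun a => congrArg Subtype.val (e.symm_apply_apply a)
  have hmem : ∀ x, ι x ∈ A := fun x => (e.symm x).2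
  have hinj : Function.Injective ι := (A.subtype_injective).comp e.symm.injective
  have hcent : ∀ {k : G}, k ∈ Subgroup.centralizer (A : Set G) ↔ ∀ x, k * ι x = ι x * k :=
    ⟨fun h x => (h _ (hmem x)).symm, fun h a ha => by rw [← show ι _ = a from hι ⟨a, ha⟩, h]⟩
  have hz : ι Lib.Spor.co0Neg ∈ Subgroup.centralizer (A : Set G) :=
    hcent.2 fun x => by rw [← map_mul, ← map_mul, Lib.Spor.co0Neg_comm]
  have ho : orderOf (ι Lib.Spor.co0Neg) = 2 :=
    orderOf_eq_prime (by rw [sq, ← map_mul, Lib.Spor.co0Neg_mul_self, map_one])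
      ((map_ne_one_iff ι hinj).2 Lib.Spor.co0Neg_ne_one)
  have hN := (S1754.result A hA _ ho hz).1
  have h : Lib.CoStd.St ι := by
    refine ⟨hinj, fun g hg => ?_, fun k hk h2 => ?_⟩
    · have hg' := hN (Subgroup.mem_centralizer_singleton_iff.2 hg)
      obtain ⟨m, hm⟩ := Lib.CoStd.aut_inner (MulAut.congr e (A.normalizerMonoidHom ⟨g, hg'⟩))
      refine ⟨m, (ι m)⁻¹ * g, fun x => ?_, by group⟩
      have h1 := congrArg ι (DFunLike.congr_fun hm x)
      rw [MulAut.conj_apply, map_mul, map_mul, map_inv] at h1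
      have h2 : g * ι x * g⁻¹ = ι m * ι x * (ι m)⁻¹ := (hι _).symm.trans h1
      calc _ = (ι m)⁻¹ * (g * ι x * g⁻¹) * g := by group
        _ = _ := by rw [h2]; group
    · by_contra! hne
      let k' : Subgroup.centralizer (A : Set G) := ⟨k, hcent.2 hk⟩
      let z' : Subgroup.centralizer (A : Set G) := ⟨_, hz⟩
      obtain ⟨-, h3, -, h4⟩ := Lib.Bender.four_group (x := k') (y := z')
        (by rw [← Subgroup.orderOf_coe]; exact orderOf_eq_prime (by rwa [sq]) hne.1)
        (by rw [← Subgroup.orderOf_coe]; exact ho) (fun e => hne.2 (congrArg Subtype.val e))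
        (Subtype.ext (hk _))
      obtain ⟨R, hR'⟩ := h4.exists_le_sylow
      have := hR R
      exact h3 (Subgroup.isCyclic_of_le hR')
  have h1 := Lib.Block.Princ.zstar_center h.isolated hO
  refine Subgroup.normalizer_eq_top_iff.1 (eq_top_iff.2 fun g _ => hN ?_)
  exact Subgroup.mem_centralizer_singleton_iff.2 (Subgroup.mem_center_iff.1 h1 g)

end Cfsg.Agent.S3150
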