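import Cfsg.Statements.S3153
import Cfsg.Agent.Local.StdCore

set_option autoImplicit false
open Cfsg

namespace Cfsg.Agent.S3153

open Cfsg.Lib Cfsg.Lib.Local Cfsg.Lib.Trans Subgroup

/-- Let X be a finite group and P a standard subgroup of X whose centralizer has 2-rank at most 1 and whose centre has odd order. Let S be a Sylow 2-subgroup of N_X(P) and t an involution of S centralizing P. Suppose some element g of X normalizes S, does not lie in S, has its square in S, and conjugates t into P·C_X(P). Then P commutes elementwise with the largest normal odd-order subgroup O(X) of X; consequently every t-invariant 2-component of X containing P is quasisimple. -/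
theorem result {X : Type*} [Group X] [Finite X] (P : Subgroup X) (hP : Cfsg.IsStandardSubgroup P)
    (hr : Cfsg.PRankLE 2 1 ↥(Subgroup.centralizer (P : Set X))) (hZ : Odd (Nat.card ↥(Subgroup.center ↥P)))
    (S : Sylow 2 ↥(Subgroup.normalizer (P : Set X))) (t : X) (ht : orderOf t = 2) (htS : t ∈ (S : Subgroup ↥(Subgroup.normalizer (P : Set X))).map (Subgroup.normalizer (P : Set X)).subtype)
    (htP : t ∈ Subgroup.centralizer (P : Set X))
    (g : X) (hgN : ∀ s ∈ (S : Subgroup ↥(Subgroup.normalizer (P : Set X))).map (Subgroup.normalizer (P : Set X)).subtype, g * s * g⁻¹ ∈ (S : Subgroup ↥(Subgroup.normalizer (P : Set X))).map (Subgroup.normalizer (P : Set X)).subtype)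
    (hgS : g ∉ (S : Subgroup ↥(Subgroup.normalizer (P : Set X))).map (Subgroup.normalizer (P : Set X)).subtype) (hg2 : g ^ 2 ∈ (S : Subgroup ↥(Subgroup.normalizer (P : Set X))).map (Subgroup.normalizer (P : Set X)).subtype)
    (hgt : g * t * g⁻¹ ∈ P ⊔ Subgroup.centralizer (P : Set X)) :
    ⁅P, Cfsg.oddCore X⁆ = ⊥ ∧
      ∀ L : Subgroup X, Cfsg.IsPComponent 2 L → P ≤ L → (∀ l ∈ L, t * l * t⁻¹ ∈ L) → Cfsg.IsQuasisimple ↥L := by
  haveI : Fact (Nat.Prime 2) := ⟨Nat.prime_two⟩
  have hS := isSylowIn_map_subtype S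
  set T := (S : Subgroup ↥(normalizer (P : Set X))).map (normalizer (P : Set X)).subtype with hT
  have hrank : ∀ c ∈ centralizer (P : Set X), orderOf c = 2 → c * t = t * c → c = t := by
    intro c hc hc2 hct
    by_contra hne
    obtain ⟨h1, h2, h3, h4⟩ := Bender.four_group hc2 ht hne hct
    have hle : closure {c, t} ≤ centralizer (P : Set X) := by
      rw [closure_le]; rintro x (rfl | rfl); exacts [hc, htP]
    have h5 := hr ((closure {c, t}).subgroupOf _) inferInstance
      (fun a ha => Subtype.ext (by rw [pow_two]; exact h3 a ha))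
    rw [Nat.card_congr (subgroupOfEquivOfLe hle).toEquiv] at h5
    apply h2
    have h6 : 1 < Nat.card (closure ({c, t} : Set X)) :=
      (one_lt_card_iff_ne_bot _).2 fun h => invol_ne_one ht (by
        rw [← mem_bot, ← h]; exact subset_closure (by simp))
    exact isCyclic_of_prime_card (p := 2) (by omega)
  -- `t` is central in `T`
  have htc : ∀ s ∈ T, s * t = t * s := by
    have hN : T ≤ normalizer (centralizer (P : Set X) : Set X) := hP.2.2.2 ▸ hS.le
    haveI := hS.isPGroup.isNilpotent
    haveI : ((centralizer (P : Set X)).subgroupOf T).Normal :=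
      ⟨fun n hn s => (mem_normalizer_iff.1 (hN s.2) n).1 hn⟩
    obtain ⟨⟨c, hcT⟩, hc, hc1, hcc⟩ := exists_mem_not_mem_conj_mul_inv_mem ⊥
      ((centralizer (P : Set X)).subgroupOf T) (fun h =>
        invol_ne_one ht (congrArg Subtype.val (mem_bot.1 (h (x := ⟨t, htS⟩) htP))))
    have hc1' : c ≠ 1 := fun h => hc1 (mem_bot.2 (Subtype.ext h))
    have hcc' : ∀ s ∈ T, Commute s c := fun s hs => by
      have := congrArg Subtype.val (mem_bot.1 (hcc ⟨s, hs⟩))
      simp only [coe_mul, coe_inv, coe_one] at this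
      rw [mul_inv_eq_one, mul_inv_eq_iff_eq_mul] at this
      exact this
    obtain ⟨k, hk⟩ := (IsPGroup.iff_orderOf.1 hS.isPGroup) ⟨c, hcT⟩
    rw [← orderOf_coe] at hk
    have hev : Even (orderOf c) := by
      rw [show orderOf c = _ from hk]
      refine Nat.even_pow.2 ⟨even_two, ?_⟩
      rintro rfl
      exact hc1' (orderOf_eq_one_iff.1 hk)
    have := hrank _ (pow_mem (show c ∈ centralizer (P : Set X) from hc) _) (orderOf_pow_half hev)
      ((hcc' t htS).pow_right _).eq.symm
    intro s hs
    rw [← this]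
    exact ((hcc' s hs).pow_right _).eq
  set u := g * t * g⁻¹ with hu
  have hu2 : orderOf u = 2 := (orderOf_of_isConj (isConj_iff.2 ⟨g, rfl⟩)).trans ht
  have hut : u * t = t * u := htc u (hgN t htS)
  have hne : u ≠ t := by
    intro h
    have h1 : g ∈ normalizer (P : Set X) := (Agent.S1754.result P hP t ht htP).1
      (mem_centralizer_singleton_iff_conj.2 h)
    have h2 : g ∈ normalizer (T : Set X) := mem_normalizer_fintype hgN
    have h3 : IsPGroup 2 (zpowers g) := by
      obtain ⟨k, hk⟩ := hS.isPGroup ⟨_, hg2⟩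
      refine IsPGroup.of_card_dvd_pow (n := k + 1) ?_
      rw [Nat.card_zpowers]
      apply orderOf_dvd_of_pow_eq_one
      rw [pow_succ', pow_mul]
      exact congrArg Subtype.val hk
    have := hS.eq_of_le (hS.isPGroup.to_sup_of_normal_left' h3 (zpowers_le.2 h2)) le_sup_left
      (sup_le hS.le (zpowers_le.2 h1))
    exact hgS (this ▸ mem_sup_right (mem_zpowers g))
  have hnc : u ∉ centralizer (P : Set X) := fun h => hne (hrank u h hu2 hut)
  obtain ⟨a, ha, c, hc, hac⟩ := (mem_sup_of_le_normalizer (centralizer_le_normalizer _)).1 hgt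
  have hcomm : Commute a c := hc a ha
  obtain ⟨m, hm⟩ := hZ
  have ha2 : (a ^ 2) ^ (2 * m + 1) = 1 := by
    have h1 : a ^ 2 * c ^ 2 = 1 := by
      rw [← hcomm.mul_pow, hac, ← hu2, pow_orderOf_eq_one]
    have h2 : a ^ 2 ∈ centralizer (P : Set X) := by
      rw [eq_inv_of_mul_eq_one_left h1]; exact inv_mem (pow_mem hc 2)
    have h3 : (⟨a ^ 2, pow_mem ha 2⟩ : P) ∈ center P :=
      mem_center_iff.2 fun p => Subtype.ext (h2 p p.2)
    have h4 := pow_card_eq_one' (x := (⟨_, h3⟩ : center P))
    rw [hm] at h4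
    simpa using congrArg (fun x : center P => ((x : P) : X)) h4
  have hupow : a ^ (2 * m + 1) * c ^ (2 * m + 1) = u := by
    rw [← hcomm.mul_pow, hac, pow_succ, pow_mul, ← hu2, pow_orderOf_eq_one, one_pow, one_mul]
  set a' := a ^ (2 * m + 1) with ha'
  set c' := c ^ (2 * m + 1) with hc'
  have ha'P : a' ∈ P := pow_mem ha _
  have hc'C : c' ∈ centralizer (P : Set X) := pow_mem hc _
  have haa : a' * a' = 1 := by rw [← pow_two, ha', ← pow_mul, mul_comm, pow_mul, ha2]
  have ha1 : a' ≠ 1 := fun h => hnc (by rw [← hupow, h, one_mul]; exact hc'C)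
  have hc'eq : c' = a' * u := by rw [← hupow, ← mul_assoc, haa, one_mul]
  have hcz : c' ∈ zpowers t := by
    by_cases h1 : c' = 1
    · rw [h1]; exact one_mem _
    · rw [hrank c' hc'C (invol_of_mul_self ?_ h1) ?_]
      · exact mem_zpowers t
      · have := invol_mul_self hu2
        rw [← hupow, mul_assoc, ← mul_assoc c', ← hc'C a' ha'P, ← mul_assoc, ← mul_assoc, haa,
          one_mul] at this
        exact this
      · rw [hc'eq, mul_assoc, hut, ← mul_assoc, htP a' ha'P, mul_assoc]
  have husup : u ∈ P ⊔ zpowers t := hupow ▸ mul_mem (mem_sup_left ha'P) (mem_sup_right hcz)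
  have hginv : g⁻¹ * t * g = u := by
    have := htc _ hg2
    calc g⁻¹ * t * g = g⁻¹ * (t * g ^ 2) * g⁻¹ := by group
      _ = u := by rw [← this, hu]; group
  have hev : ∃ a ∈ P, orderOf a = 2 := ⟨a', ha'P, invol_of_mul_self haa ha1⟩
  have hPO := std_commutator_oddCore hP ht htP hev husup (hginv ▸ husup) hnc
  refine ⟨hPO, fun L hL hPL _ => ?_⟩
  have hPC := commutator_eq_bot_iff_le_centralizer.1 hPO
  rcases IsPComponent.le_or_commutator_le hL
    (inferInstance : (centralizer (oddCore X : Set X)).Normal).isSubnormal with h | h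
  · exact (IsPComponent.isComponent_of_commutator_eq_bot hL
      (commutator_eq_bot_iff_le_centralizer.2 h)).2
  · have h1 : P ≤ oddCore X := by
      rw [← IsQuasisimple.perfect hP.1]
      exact (commutator_mono hPL hPC).trans h
    exact absurd (Bender.eq_one_of_mem_of_odd (Solv.odd_card_oddCore X) (h1 ha'P) haa) ha1

end Cfsg.Agent.S3153
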