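import Cfsg.Statements.S3155
import Mathlib.LinearAlgebra.Determinant
import Mathlib.Algebra.Module.ZMod
import Mathlib.LinearAlgebra.Dimension.Constructions

set_option autoImplicit false
open Cfsg

namespace Cfsg.Agent.S3155

/-- Let B be the direct product of three cyclic groups of order 4. Then the automorphism of B inverting every element is not the square of any automorphism of B. -/
theorem result {B : Type*} [CommGroup B] [Finite B] (hB : Nonempty (B ≃* Multiplicative (ZMod 4 × ZMod 4 × ZMod 4)))
    (τ : B ≃* B) : τ.trans τ ≠ MulEquiv.inv B := by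
  obtain ⟨e⟩ := hB
  intro h
  let f : (ZMod 4 × ZMod 4 × ZMod 4) →ₗ[ZMod 4] (ZMod 4 × ZMod 4 × ZMod 4) :=
    AddMonoidHom.toZModLinearMap 4 (MonoidHom.toAdditive.symm.symm
      ((e.symm.trans τ).trans e).toMonoidHom)
  have hf : ∀ x, f x = Multiplicative.toAdd (e (τ (e.symm (Multiplicative.ofAdd x)))) := fun _ => rfl
  have h1 : f * f = (-1 : ZMod 4) • 1 := by
    refine LinearMap.ext fun x => ?_
    have := DFunLike.congr_fun h (e.symm (Multiplicative.ofAdd x))
    simp only [MulEquiv.trans_apply, MulEquiv.inv_apply] at this
    simp [hf, this]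
  have h2 := congrArg LinearMap.det h1
  rw [map_mul, LinearMap.det_smul, map_one] at h2
  have : Fact (1 < 4) := ⟨by norm_num⟩
  rw [Module.finrank_prod, Module.finrank_prod, Module.finrank_self] at h2
  generalize LinearMap.det f = d at h2
  revert d
  decide

end Cfsg.Agent.S3155
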