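import Cfsg.Statements.S3156
import Cfsg.Agent.Rank2.Model

set_option autoImplicit false
set_option maxHeartbeats 400000
open Cfsg
open Cfsg.Lib.Rank2

namespace Cfsg.Agent.S3156

/-- If a finite group T is isomorphic to a Sylow 2-subgroup of the projective special unitary group of dimension 3 with parameter 4 (realised over the field with 16 elements), then no subgroup of the automorphism group of T is isomorphic to the symmetric group of degree 3. -/
theorem result {T : Type*} [Group T] [Finite T] (hT : (∃ (F : Type) (_ : Field F) (_ : Fintype F), Fintype.card F = 16 ∧ ∃ S : Sylow 2 (Cfsg.PSU 3 F 4), Nonempty (T ≃* ↥(S : Subgroup (Cfsg.PSU 3 F 4))))) (H : Subgroup (MulAut T)) : ¬ Nonempty (↥H ≃* Equiv.Perm (Fin 3)) := by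
  obtain ⟨F, _, _, hF, S, ⟨e⟩⟩ := hT
  obtain ⟨a, z, h, hA⟩ := (isU34_sylow hF S).of_equiv e.symm
  rintro ⟨f⟩
  let g : Equiv.Perm (Fin 3) →* MulAut T := H.subtype.comp f.symm.toMonoidHom
  have hg : Function.Injective g := Subtype.val_injective.comp f.symm.injective
  let r : Equiv.Perm (Fin 3) := finRotate 3
  let s : Equiv.Perm (Fin 3) := Equiv.swap 0 1
  have h1 : ∀ x, g r (g r (g r x)) = x := fun x => by
    rw [← MulAut.mul_apply, ← MulAut.mul_apply, ← map_mul, ← map_mul,
      show r * r * r = 1 by decide, map_one, MulAut.one_apply]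
  have h2 : ∀ x, g s (g s x) = x := fun x => by
    rw [← MulAut.mul_apply, ← map_mul, show s * s = 1 by decide, map_one, MulAut.one_apply]
  have h3 : ∀ x, g s (g r x) = g r (g r (g s x)) := fun x => by
    rw [← MulAut.mul_apply, ← MulAut.mul_apply, ← MulAut.mul_apply, ← map_mul, ← map_mul,
      ← map_mul, show s * r = r * r * s by decide]
  have h4 := h.fix_of_aniso hA (g s) fun x => by rw [h2, inv_mul_cancel]; exact one_mem _
  have h5 := h.eq_one_of_aniso hA (g r) h1 fun v hv => by
    have := h3 v
    rw [h4 v hv, h4 _ (h.apply_mem _ hv)] at this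
    exact ((g r).injective this).symm
  have h6 : g r = g 1 := by rw [map_one]; exact MulEquiv.ext h5
  exact absurd (hg h6) (by decide)

end Cfsg.Agent.S3156
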