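import Cfsg.Statements.S3157
import Cfsg.Agent.Rank2.Invol

set_option autoImplicit false
set_option maxHeartbeats 400000
open Cfsg
open Cfsg.Lib.Rank2

namespace Cfsg.Agent.S3157

/-- Let T be a non-abelian group of order 64 admitting automorphisms ρ of order 3 and x of order 2 with x ρ x⁻¹ = ρ⁻¹ (so they generate a symmetric group of degree 3), where ρ fixes only the identity. Then T is isomorphic to a Sylow 2-subgroup of the projective special linear group of dimension 3 over the field with 4 elements, and the subgroup of fixed points of x is dihedral of order 8 or quaternion of order 8. -/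
theorem result {T : Type*} [Group T] [Finite T] (hT : Nat.card T = 64) (hna : ¬ IsMulCommutative T) (ρ x : MulAut T) (hρ : orderOf ρ = 3) (hx : orderOf x = 2)
    (hxr : x * ρ * x⁻¹ = ρ⁻¹) (hfp : ∀ y : T, ρ y = y → y = 1) (C : Subgroup T) (hC : ∀ y : T, y ∈ C ↔ x y = y) :
    (∃ (F : Type) (_ : Field F) (_ : Fintype F), Fintype.card F = 4 ∧
        ∃ S : Sylow 2 (Matrix.ProjectiveSpecialLinearGroup (Fin 3) F), Nonempty (T ≃* ↥(S : Subgroup (Matrix.ProjectiveSpecialLinearGroup (Fin 3) F)))) ∧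
      (Nonempty (↥C ≃* DihedralGroup 4) ∨ Nonempty (↥C ≃* QuaternionGroup 2)) := by
  have h3 : ∀ y, ρ (ρ (ρ y)) = y := fun y => by
    rw [← MulAut.mul_apply, ← MulAut.mul_apply, ← pow_three', ← hρ, pow_orderOf_eq_one,
      MulAut.one_apply]
  have h2 : ∀ y, x (x y) = y := fun y => by
    rw [← MulAut.mul_apply, ← pow_two, ← hx, pow_orderOf_eq_one, MulAut.one_apply]
  have hτ : ∀ y, x (ρ y) = ρ (ρ (x y)) := fun y => by
    apply ρ.injective
    rw [h3, ← MulAut.mul_apply _ x, mul_inv_eq_iff_eq_mul.1 hxr, MulAut.mul_apply,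
      MulAut.apply_inv_self]
  have hF : Fpf3 ρ := ⟨IsPGroup.of_card (n := 6) hT, h3, hfp⟩
  obtain ⟨z, h⟩ := hF.exists_sp64_of_card hT (by
    by_contra hc
    push Not at hc
    exact hna ⟨⟨fun a b => (hc a b).eq⟩⟩)
  have hA : ¬ Aniso ρ z := fun hA => by
    have h4 := h.fix_of_aniso hA x fun y => by rw [h2, inv_mul_cancel]; exact one_mem _
    have := hτ z
    rw [h4 _ (apply_mem_cyc _ _), h4 _ (mem_cyc_self _ _)] at this
    exact h.ne (hfp z (ρ.injective this).symm)
  obtain rfl : C = Cfsg.Lib.Trans.fixSub x := Subgroup.ext hC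
  obtain ⟨h8, hn⟩ := h.fixSub_of_inverts x h2 hτ
  refine ⟨?_, dihedral_or_quaternion_of_card_eight h8 hn⟩
  letI : Fintype (GaloisField 2 2) := Fintype.ofFinite _
  have hc : Fintype.card (GaloisField 2 2) = 4 := by
    rw [← Nat.card_eq_fintype_card, GaloisField.card 2 2 two_ne_zero]; rfl
  exact ⟨GaloisField 2 2, inferInstance, inferInstance, hc, default,
    IsL34.nonempty_mulEquiv ⟨ρ, z, h, hA⟩ (isL34_sylow hc _)⟩

end Cfsg.Agent.S3157
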