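import Cfsg.Statements.S3162
import Cfsg.Agent.Solv.U3Sylow
import Cfsg.Agent.Solv.Cores
import Cfsg.Agent.Solv.ElemAb
import Cfsg.Agent.Known.FinFieldAut

set_option autoImplicit false
open Cfsg

namespace Cfsg.Agent.S3162

open Subgroup Cfsg.Lib.Solv Cfsg.Lib.Solv.U3 Cfsg.Lib.Rank2 Cfsg.Lib.Rank2.Heis Cfsg.Lib.Class
open scoped commutatorElement

section

variable {F : Type*} [Field F] [CharP F 2] {σ : F →+* F} {hσ : ∀ x, σ (σ x) = x} {e : F}

/-- The action on the central quotient. -/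
def phi (hσ : ∀ x, σ (σ x) = x) (he : e + σ e = 1) : MulAut (uSub σ hσ) →* Equiv.Perm F :=
  MonoidHom.toHomPerm
    { toFun := fun φ a => (φ (sec hσ he a)).1.a
      map_one' := rfl
      map_mul' := fun φ _ => funext fun _ => a_eq_of_a_eq he φ rfl }

theorem phi_apply (he : e + σ e = 1) (φ : MulAut (uSub σ hσ)) (x : uSub σ hσ) :
    phi hσ he φ x.1.a = (φ x).1.a := a_eq_of_a_eq he φ rfl

theorem mem_ker_phi (he : e + σ e = 1) {φ : MulAut (uSub σ hσ)} :
    φ ∈ (phi hσ he).ker ↔ ∀ x, (φ x).1.a = x.1.a :=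
  ⟨fun h x => by rw [← phi_apply he, MonoidHom.mem_ker.mp h]; rfl,
    fun h => Equiv.ext fun a => h (sec hσ he a)⟩

/-- The semilinear automorphisms. -/
noncomputable def semi [Finite F] (hσ : ∀ x, σ (σ x) = x) (c : Fˣ) (τ : F ≃+* F)
    (h : ∀ x, τ (σ x) = σ (τ x)) : MulAut (uSub σ hσ) :=
  MulEquiv.ofBijective (MonoidHom.mk' (fun x : uSub σ hσ =>
    (⟨⟨c * τ x.1.a, σ (c * τ x.1.a), σ c * c * τ x.1.b⟩, rfl, by
      have h1 := congrArg τ x.2.2
      rw [x.2.1, map_add, map_mul, h, h] at h1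
      simp only [map_mul, hσ]
      linear_combination (σ c * c) * h1⟩ : uSub σ hσ))
    fun x y => ext_ab (by simp [mul_add]) (by simp [x.2.1, h]; ring))
    (Finite.injective_iff_bijective.mp fun x y hxy => ext_ab
      (by simpa using congrArg (fun z : uSub σ hσ => z.1.a) hxy)
      (by simpa using congrArg (fun z : uSub σ hσ => z.1.b) hxy))

/-- The fixed field as an additive group. -/
def fixT (σ : F →+* F) : AddSubgroup F := σ.toAddMonoidHom.eqLocus (AddMonoidHom.id F)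

/-- The central automorphisms. -/
def cen (hσ : ∀ x, σ (σ x) = x) (χ : F →+ fixT σ) : MulAut (uSub σ hσ) where
  toFun x := ⟨⟨x.1.a, x.1.c, x.1.b + χ x.1.a⟩, x.2.1, by
    rw [map_add, show σ (χ x.1.a) = χ x.1.a from (χ x.1.a).2, add_add_add_comm,
      CharTwo.add_self_eq_zero, add_zero]
    exact x.2.2⟩
  invFun x := ⟨⟨x.1.a, x.1.c, x.1.b + χ x.1.a⟩, x.2.1, by
    rw [map_add, show σ (χ x.1.a) = χ x.1.a from (χ x.1.a).2, add_add_add_comm,
      CharTwo.add_self_eq_zero, add_zero]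
    exact x.2.2⟩
  left_inv x := ext_ab rfl (by simp [add_assoc, CharTwo.add_self_eq_zero])
  right_inv x := ext_ab rfl (by simp [add_assoc, CharTwo.add_self_eq_zero])
  map_mul' x y := ext_ab rfl (by simp; ring)

theorem exists_cen [Finite F] (he : e + σ e = 1) {φ : MulAut (uSub σ hσ)}
    (h : φ ∈ (phi hσ he).ker) : ∃ χ, cen hσ χ = φ := by
  rw [mem_ker_phi] at h
  have h2 : (2 : F) = 0 := CharTwo.two_eq_zero
  have hc : ∀ x, (φ x).1.c = x.1.c := fun x => by rw [(φ x).2.1, x.2.1, h]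
  have h3 : ∀ x y : uSub σ hσ, x.1.a = y.1.a → (φ x).1.b - x.1.b = (φ y).1.b - y.1.b := by
    intro x y hxy
    obtain ⟨w, hw⟩ := exists_mul_self he (x := x⁻¹ * y) (by simp [hxy])
    have h4 : φ (w * w) = w * w := by rw [map_mul, mul_self_eq he, mul_self_eq he, h]
    rw [← mul_inv_cancel_left x y, ← hw, map_mul, h4]
    simp [hc]
  refine ⟨AddMonoidHom.mk' (fun a => ⟨(φ (sec hσ he a)).1.b - (sec hσ he a).1.b, ?_⟩)
    fun a b => Subtype.ext ?_, MulEquiv.ext fun x => ext_ab (h x).symm ?_⟩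
  · have h4 := (φ (sec hσ he a)).2.2
    rw [hc, h, ← (sec hσ he a).2.2] at h4
    change σ (_ - _) = _ - _
    rw [map_sub]
    linear_combination h4 + ((sec hσ he a).1.b - (φ (sec hσ he a)).1.b) * h2
  · change _ - _ = (_ - _) + (_ - _)
    rw [h3 (sec hσ he (a + b)) (sec hσ he a * sec hσ he b) rfl, map_mul]
    simp only [coe_mul, mul_b, hc, h]
    ring
  · change x.1.b + (_ - _) = _
    rw [h3 (sec hσ he x.1.a) x rfl, add_sub_cancel]

theorem eq_one_of_scalar {ψ : MulAut (uSub σ hσ)} (he : e + σ e = 1) {k : ℕ} (hk : ψ ^ 2 ^ k = 1)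
    {μ : F} (h : ∀ x, (ψ x).1.a = μ * x.1.a) : μ = 1 := by
  have h1 : ∀ m : ℕ, ((ψ ^ m) (sec hσ he 1)).1.a = μ ^ m := fun m => by
    induction m with
    | zero => exact (pow_zero μ).symm
    | succ m ih => rw [pow_succ', MulAut.mul_apply, h, ih, pow_succ']
  have h2 := h1 (2 ^ k)
  rw [hk] at h2
  exact iterateFrobenius_inj F 2 k (by rw [map_one]; exact h2.symm)

theorem pCore_eq [Finite F] (he : e + σ e = 1) :
    pCore 2 (MulAut (uSub σ hσ)) = (phi hσ he).ker := by
  refine le_antisymm (fun φ hφ => ?_) (le_pCore inferInstance fun φ => ⟨1, Subtype.ext ?_⟩)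
  · obtain ⟨c, τ, hτ⟩ := exists_semilinear he φ
    have h1 : ∀ a, τ a = a := fun a => by
      by_cases ha : a = 0
      · rw [ha, map_zero]
      let s := semi hσ (Units.mk0 a ha) (RingEquiv.refl F) fun _ => rfl
      have hs : ∀ x, (s x).1.a = a * x.1.a := fun _ => rfl
      obtain ⟨k, hk⟩ := pCore_isPGroup 2 _ ⟨⁅φ, s⁆, commutator_le_left _ _
        (commutator_mem_commutator hφ (mem_top s))⟩
      refine (div_eq_one_iff_eq ha).mp (eq_one_of_scalar he (congrArg Subtype.val hk) fun x => ?_)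
      obtain ⟨y, rfl⟩ := (s * φ).surjective x
      rw [← MulAut.mul_apply, show ⁅φ, s⁆ * (s * φ) = φ * s by rw [commutatorElement_def]; group,
        MulAut.mul_apply, MulAut.mul_apply, hτ, hs, hs, hτ, map_mul]
      field_simp
    simp only [h1] at hτ
    obtain ⟨k, hk⟩ := pCore_isPGroup 2 _ ⟨φ, hφ⟩
    rw [eq_one_of_scalar he (congrArg Subtype.val hk) hτ] at hτ
    exact (mem_ker_phi he).mpr fun x => (hτ x).trans (one_mul _)
  · obtain ⟨χ, hχ⟩ := exists_cen he φ.2
    rw [pow_one, coe_pow, sq, ← hχ]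
    exact MulEquiv.ext fun x => (cen hσ χ).left_inv x

theorem elem_ker [Finite F] (he : e + σ e = 1) : IsElementaryAbelian 2 (phi hσ he).ker := by
  refine ⟨⟨⟨fun φ ψ => Subtype.ext ?_⟩⟩, fun φ hφ => ?_⟩
  · obtain ⟨χ, hχ⟩ := exists_cen he φ.2
    obtain ⟨χ', hχ'⟩ := exists_cen he ψ.2
    rw [coe_mul, coe_mul, ← hχ, ← hχ']
    exact MulEquiv.ext fun x => ext_ab rfl (add_right_comm _ _ _)
  · obtain ⟨χ, rfl⟩ := exists_cen he hφ
    rw [sq]
    exact MulEquiv.ext fun x => (cen hσ χ).left_inv x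

theorem card_ker [Finite F] (he : e + σ e = 1) {m n : ℕ} (h1 : Nat.card F = 2 ^ m)
    (h2 : Nat.card (fixT σ) = 2 ^ n) : Nat.card (phi hσ he).ker = 2 ^ (m * n) := by
  rw [← Nat.card_congr (Equiv.ofBijective (fun χ : F →+ fixT σ =>
    (⟨cen hσ χ, (mem_ker_phi he).mpr fun _ => rfl⟩ : (phi hσ he).ker))
    ⟨fun χ χ' h => AddMonoidHom.ext fun a => Subtype.ext (add_left_cancel
      (congrArg (fun φ : (phi hσ he).ker => (φ.1 (sec hσ he a)).1.b) h)),
    fun φ => (exists_cen he φ.2).imp fun _ h => Subtype.ext h⟩)]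
  let _ : Module (ZMod 2) F := AddCommGroup.zmodModule fun x => by
    rw [two_nsmul, CharTwo.add_self_eq_zero]
  let _ : Module (ZMod 2) (fixT σ) := AddCommGroup.zmodModule fun x => Subtype.ext (by
    rw [two_nsmul]; exact CharTwo.add_self_eq_zero _)
  have : Module.Finite (ZMod 2) F := Module.Finite.of_finite
  have : Module.Finite (ZMod 2) (fixT σ) := Module.Finite.of_finite
  rw [Module.natCard_eq_pow_finrank (K := ZMod 2), Nat.card_zmod] at h1 h2
  rw [Nat.card_congr (AddMonoidHom.toZModLinearMapEquiv 2).toEquiv,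
    Module.natCard_eq_pow_finrank (K := ZMod 2), Nat.card_zmod, Module.finrank_linearMap,
    Nat.pow_right_injective le_rfl h1, Nat.pow_right_injective le_rfl h2]

theorem card_range [Finite F] (he : e + σ e = 1) (h : ∀ (τ : F ≃+* F) x, τ (σ x) = σ (τ x)) :
    Nat.card (phi hσ he).range = Nat.card Fˣ * Nat.card (RingAut F) := by
  rw [← Nat.card_prod]
  refine (Nat.card_congr (Equiv.ofBijective (fun p : Fˣ × RingAut F =>
    (⟨_, semi hσ p.1 p.2 (h p.2), rfl⟩ : (phi hσ he).range)) ⟨fun p p' hp => ?_, ?_⟩)).symm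
  · have h1 : ∀ a, p.1 * p.2 a = p'.1 * p'.2 a := fun a =>
      congrArg (fun φ : (phi hσ he).range => φ.1 a) hp
    have h2 : p.1 = p'.1 := Units.ext (by simpa using h1 1)
    exact Prod.ext h2 (RingEquiv.ext fun a => mul_left_cancel₀ p.1.ne_zero (by rw [h1, h2]))
  · rintro ⟨_, φ, rfl⟩
    obtain ⟨c, τ, hτ⟩ := exists_semilinear he φ
    exact ⟨(c, τ), Subtype.ext (Equiv.ext fun a => (hτ (sec hσ he a)).symm)⟩

end

/-- Let S be a Sylow 2-subgroup of the special unitary group of dimension 3 with parameter q = 2^n (n ≥ 2; realised over the field with q² elements). Then the largest normal 2-subgroup of the automorphism group of S is elementary abelian of order 2^(2n²), and the automorphism group has order 2^(2n²) · 2n(q² − 1). -/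
theorem result {S : Type*} [Group S] [Finite S] (n : ℕ) (hn : 2 ≤ n) {F : Type*} [Field F] [Fintype F] (hF : Fintype.card F = 4 ^ n)
    (P : Sylow 2 ↥(Cfsg.SU 3 F (2 ^ n))) (hS : Nonempty (S ≃* ↥(P : Subgroup ↥(Cfsg.SU 3 F (2 ^ n))))) :
    Cfsg.IsElementaryAbelian 2 (Cfsg.pCore 2 (MulAut S)) ∧ Nat.card ↥(Cfsg.pCore 2 (MulAut S)) = 2 ^ (2 * n ^ 2) ∧
      Nat.card (MulAut S) = 2 ^ (2 * n ^ 2) * (2 * n * ((2 ^ n) ^ 2 - 1)) := by
  have hF' : Fintype.card F = (2 ^ n) ^ 2 := by rw [hF, ← pow_mul, mul_comm, pow_mul]; rfl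
  have hF2 : Fintype.card F = 2 ^ (2 * n) := by rw [hF, pow_mul]; rfl
  have : CharP F 2 := charP_of_card_eq_prime_pow hF2
  obtain ⟨f⟩ := hS
  obtain ⟨f'⟩ := nonempty_equiv_sylow hF' P
  let g := MulAut.congr (f'.trans f.symm)
  obtain ⟨e, he⟩ := exists_trace_one hF'
  have h1 := card_ker (hσ := frobq_frobq hF') he (Nat.card_eq_fintype_card.trans hF2)
    (Form.card_pow_eq_self hF')
  have h2 := card_range (hσ := frobq_frobq hF') he fun τ x => map_pow τ x _
  rw [Nat.card_units, Cfsg.Lib.Known.card_ringAut hF2, Nat.card_eq_fintype_card (α := F), hF'] at h2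
  rw [mul_assoc, ← sq] at h1
  have := ElemAb.of_isElementaryAbelian (elem_ker (hσ := frobq_frobq hF') he)
  rw [← map_pCore_equiv g, pCore_eq he, card_map_of_injective g.injective, ← Nat.card_congr g.toEquiv,
    ← (phi _ he).ker.index_mul_card, index_ker, h1, h2]
  exact ⟨ElemAb.iff_isElementaryAbelian.mp (ElemAb.map _ _), rfl, by ring⟩

end Cfsg.Agent.S3162
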