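import Cfsg.Statements.S3175
import Cfsg.Agent.Solv.RuTwo
import Mathlib.GroupTheory.SchurZassenhaus

set_option autoImplicit false
open Cfsg

namespace Cfsg.Agent.S3175

open Subgroup Cfsg.Lib.Solv

/-- Let G be a finite group whose Sylow 2-subgroup T has order at least 2^14 and whose upper central series has fourth term of order 16; let W be the centralizer in T of the third term, and suppose the Frattini subgroup of W has order at most 8 and lies in every subgroup of W of index at most 16. Then the normalizer of T in G has a normal 2-complement, and W is weakly closed in T with respect to G. -/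
theorem result {G : Type*} [Group G] [Finite G]
    (T : Sylow 2 G) (ha : 2 ^ 14 ≤ Nat.card ↥(T : Subgroup G))
    (hb : Nat.card ↥(Subgroup.upperCentralSeries ↥(T : Subgroup G) 4) = 16)
    (W : Subgroup ↥(T : Subgroup G))
    (hW : W = Subgroup.centralizer ((Subgroup.upperCentralSeries ↥(T : Subgroup G) 3 : Subgroup ↥(T : Subgroup G)) : Set ↥(T : Subgroup G)))
    (hc : Nat.card ↥(frattini ↥W) ≤ 8)
    (hd : ∀ U : Subgroup ↥W, U.index ≤ 16 → frattini ↥W ≤ U) :
    Cfsg.HasNormalPComplement 2 ↥(Subgroup.normalizer ((T : Subgroup G) : Set G)) ∧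
      Cfsg.IsWeaklyClosed (W.map (T : Subgroup G).subtype) (T : Subgroup G) := by
  have h : RuTwo.Hyp (T : Subgroup G) W := ⟨T.isPGroup', ha, hb, hW, hc, hd⟩
  constructor
  · set N := Subgroup.normalizer ((T : Subgroup G) : Set G) with hN
    let P : Sylow 2 N := T.subtype le_normalizer
    have hPn : (P : Subgroup N).Normal := normal_in_normalizer
    obtain ⟨K, hK⟩ := exists_right_complement'_of_coprime P.card_coprime_index
    refine ⟨P, K, ?_, hK.symm⟩
    have hodd : (Nat.card K).Coprime 2 := by
      rw [← hK.symm.index_eq_card]
      exact ((Nat.Prime.coprime_iff_not_dvd Nat.prime_two).2 P.not_dvd_index).symm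
    have h1 : K ≤ centralizer ((P : Subgroup N) : Set N) := by
      intro k hk x hx
      have h2 : (T : Subgroup G).normalizerMonoidHom k = 1 := h.eq_one_of_odd
        (hodd.of_dvd_left ((orderOf_map_dvd _ k).trans (K.orderOf_dvd_natCard hk)))
      rw [← MonoidHom.mem_ker, normalizerMonoidHom_ker] at h2
      exact Subtype.ext (h2 x hx)
    refine PG.normal_of_top_le_normalizer ?_
    rw [← hK.sup_eq_top]
    exact sup_le ((le_centralizer_iff.1 h1).trans (centralizer_le_normalizer _)) le_normalizer
  · refine ⟨map_subtype_le W, fun g hg => ?_⟩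
    set V := (W.map (T : Subgroup G).subtype).map (MulAut.conj g).toMonoidHom with hV
    have e : V.subgroupOf T ≃* W :=
      (subgroupOfEquivOfLe hg).trans
        (((W.map (T : Subgroup G).subtype).equivMapOfInjective _
          (MulAut.conj g).injective).symm.trans
            (W.equivMapOfInjective _ (T : Subgroup G).subtype_injective).symm)
    rw [← h.eq_of_equiv e, map_subgroupOf_eq_of_le hg]

end Cfsg.Agent.S3175
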