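import Cfsg.Statements.S3179
import Mathlib
import Cfsg.Agent.S1163
import Cfsg.Agent.S0280
import Cfsg.Agent.Class.PGL2Sub

set_option autoImplicit false
open Cfsg

namespace Cfsg.Agent.S3179

open Polynomial in
theorem pow_three_of_pow_nine (y : GL (Fin 5) (ZMod 2)) (hy : y ^ 9 = 1) : y ^ 3 = 1 := by
  haveI : Fact (Nat.Prime 2) := ⟨Nat.prime_two⟩
  haveI : Fact (Nat.Prime 3) := ⟨Nat.prime_three⟩
  set A : Matrix (Fin 5) (Fin 5) (ZMod 2) := y.val with hA
  have hA9 : A ^ 9 = 1 := by rw [hA, ← Units.val_pow_eq_pow_val, hy, Units.val_one]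
  have hfac : (X ^ 9 - 1 : (ZMod 2)[X]) = cyclotomic 9 (ZMod 2) * (X ^ 3 - 1) := by
    have := cyclotomic_prime_pow_mul_X_pow_sub_one (ZMod 2) 3 1
    simpa using this.symm
  have hirr : Irreducible (cyclotomic 9 (ZMod 2)) := by
    refine ZMod.irreducible_of_dvd_cyclotomic_of_natDegree (n := 9) (by norm_num) dvd_rfl ?_
    rw [natDegree_cyclotomic]
    have : Nat.totient 9 = 6 := by decide
    rw [this]
    symm
    rw [orderOf_eq_iff (by norm_num)]
    refine ⟨Units.ext (by simp; decide), fun m hm hm0 h => ?_⟩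
    have h' := congrArg Units.val h
    simp only [Units.val_pow_eq_pow_val, ZMod.coe_unitOfCoprime, Units.val_one] at h'
    revert h'
    interval_cases m <;> decide
  have hdvd : minpoly (ZMod 2) A ∣ cyclotomic 9 (ZMod 2) * (X ^ 3 - 1) := by
    rw [← hfac]
    apply minpoly.dvd
    simp [hA9]
  have hcop : IsCoprime (minpoly (ZMod 2) A) (cyclotomic 9 (ZMod 2)) := by
    rcases hirr.isCoprime_or_dvd (minpoly (ZMod 2) A) with h | h
    · exact h.symm
    · exfalso
      have h1 := natDegree_le_of_dvd (h.trans (Matrix.minpoly_dvd_charpoly A))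
        (Matrix.charpoly_monic A).ne_zero
      rw [natDegree_cyclotomic, Matrix.charpoly_natDegree_eq_dim] at h1
      revert h1; decide
  have h3 : minpoly (ZMod 2) A ∣ X ^ 3 - 1 := hcop.dvd_of_dvd_mul_left hdvd
  have h4 : aeval A (X ^ 3 - 1 : (ZMod 2)[X]) = 0 := by
    obtain ⟨c, hc⟩ := h3
    rw [hc, map_mul, minpoly.aeval, zero_mul]
  apply Units.ext
  rw [Units.val_pow_eq_pow_val, Units.val_one]
  simpa [sub_eq_zero] using h4

theorem card_GL52 : Nat.card (GL (Fin 5) (ZMod 2)) = 9999360 := by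
  haveI : Fact (Nat.Prime 2) := ⟨Nat.prime_two⟩
  rw [Matrix.card_GL_field]
  simp [Fin.prod_univ_five]

theorem exists_nine {F : Type} [Field F] [Fintype F] (hF : Fintype.card F = 2 ^ 3) :
    ∃ g : Matrix.ProjectiveSpecialLinearGroup (Fin 2) F, g ^ 9 = 1 ∧ g ^ 3 ≠ 1 := by
  classical
  have h2 : (2 : F) = 0 := by
    have := FiniteField.cast_card_eq_zero F
    rw [hF] at this
    push_cast at this
    exact pow_eq_zero_iff (n := 3) (by norm_num) |>.1 (by linear_combination this)
  obtain ⟨t, ht⟩ : ∃ t : F, t ^ 3 + t + 1 = 0 := by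
    obtain ⟨a, ha0, ha1⟩ : ∃ a : F, a ≠ 0 ∧ a ≠ 1 := by
      by_contra h
      push Not at h
      have : (Finset.univ : Finset F) ⊆ {0, 1} := fun a _ => by
        by_cases h0 : a = 0
        · simp [h0]
        · simp [h a h0]
      have h3 := (Finset.card_le_card this).trans Finset.card_le_two
      rw [Finset.card_univ, hF] at h3
      omega
    have h8 : a ^ 8 = a := by
      have := FiniteField.pow_card a
      rwa [hF] at this
    have : a * (a - 1) * ((a ^ 3 + a + 1) * ((a + 1) ^ 3 + (a + 1) + 1)) = 0 := by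
      linear_combination h8 + (a ^ 7 + a ^ 6 + a ^ 5 - 2 * a ^ 2 - a) * h2
    rcases mul_eq_zero.1 this with h | h
    · rcases mul_eq_zero.1 h with h | h
      · exact absurd h ha0
      · exact absurd (sub_eq_zero.1 h) ha1
    · rcases mul_eq_zero.1 h with h | h
      · exact ⟨_, h⟩
      · exact ⟨_, h⟩
  let M : Matrix.SpecialLinearGroup (Fin 2) F := ⟨!![0, -1; 1, t], by simp [Matrix.det_fin_two]⟩
  have hM3 : ((M ^ 3 : Matrix.SpecialLinearGroup (Fin 2) F) : Matrix (Fin 2) (Fin 2) F) =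
      !![-t, 1 - t ^ 2; t ^ 2 - 1, t ^ 3 - 2 * t] := by
    have hM : (M : Matrix (Fin 2) (Fin 2) F) = !![0, -1; 1, t] := rfl
    rw [Matrix.SpecialLinearGroup.coe_pow, hM, pow_three]
    ext i j
    fin_cases i <;> fin_cases j <;> simp [Matrix.mul_apply, Fin.sum_univ_two] <;> ring
  refine ⟨QuotientGroup.mk M, ?_, ?_⟩
  · rw [← QuotientGroup.mk_pow]
    have : M ^ 9 = 1 := by
      apply Subtype.ext
      rw [Matrix.SpecialLinearGroup.coe_pow, show 9 = 3 * 3 from rfl, pow_mul,
        ← Matrix.SpecialLinearGroup.coe_pow, hM3, pow_three, Matrix.SpecialLinearGroup.coe_one]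
      have ht3 : t ^ 3 = t + 1 := by linear_combination ht - (t + 1) * h2
      ext i j
      fin_cases i <;> fin_cases j <;> simp [Matrix.mul_apply, Fin.sum_univ_two] <;> grind
    rw [this]; rfl
  · rw [← QuotientGroup.mk_pow, Ne, QuotientGroup.eq_one_iff,
      Matrix.SpecialLinearGroup.mem_center_iff]
    rintro ⟨r, -, hr⟩
    have := congrFun (congrFun hr 1) 0
    rw [hM3] at this
    simp at this
    grind

/-- Let X be a section of the general linear group GL(5, 2), that is, a quotient of a subgroup of it. If X is isomorphic to PSL(2, 2^n) for some n ≥ 2, to a Suzuki group over the field with 2^(2m+1) elements for some m ≥ 1, or to PSU(3, 2^n) for some n ≥ 2, then X is isomorphic to PSL(2, 4). -/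
theorem result {H : Subgroup (GL (Fin 5) (ZMod 2))}
    {K : Subgroup ↥H} [K.Normal]
    (hX : (∃ (n : ℕ) (F : Type) (_ : Field F) (_ : Fintype F), 2 ≤ n ∧ Fintype.card F = 2 ^ n ∧
        Nonempty (↥H ⧸ K ≃* Matrix.ProjectiveSpecialLinearGroup (Fin 2) F)) ∨
      (∃ (m : ℕ) (F : Type) (_ : Field F) (_ : Fintype F), 1 ≤ m ∧ Fintype.card F = 2 ^ (2 * m + 1) ∧
        Nonempty (↥H ⧸ K ≃* ↥(Cfsg.Lie.Sz F (2 ^ (m + 1))))) ∨
      (∃ (n : ℕ) (F : Type) (_ : Field F) (_ : Fintype F), 2 ≤ n ∧ Fintype.card F = 4 ^ n ∧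
        Nonempty (↥H ⧸ K ≃* Cfsg.PSU 3 F (2 ^ n)))) :
    ∃ (F : Type) (_ : Field F) (_ : Fintype F), Fintype.card F = 4 ∧
      Nonempty (↥H ⧸ K ≃* Matrix.ProjectiveSpecialLinearGroup (Fin 2) F) := by
  have hdiv : Nat.card (↥H ⧸ K) ∣ 9999360 := by
    rw [← card_GL52]
    exact (Subgroup.card_quotient_dvd_card K).trans (Subgroup.card_subgroup_dvd_card H)
  have bound : ∀ n : ℕ, 2 ^ n ∣ 9999360 → n ≤ 10 := by
    intro n hn
    by_contra h
    have : 2 ^ 11 ∣ 9999360 := (pow_dvd_pow 2 (by omega)).trans hn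
    omega
  rcases hX with ⟨n, F, _, _, hn, hF, ⟨e⟩⟩ | ⟨m, F, _, _, hm, hF, ⟨e⟩⟩ | ⟨n, F, _, _, hn, hF, ⟨e⟩⟩
  · have hc := Lib.Class.gcd_mul_card_PSL2 (F := F)
    rw [← Nat.card_congr e.toEquiv, Nat.card_eq_fintype_card (α := F), hF] at hc
    have hg : Nat.gcd 2 (2 ^ n - 1) = 1 := by
      obtain ⟨k, rfl⟩ : ∃ k, n = k + 1 := ⟨n - 1, by omega⟩
      have : 0 < 2 ^ k := by positivity
      rw [← Nat.coprime_iff_gcd_eq_one, Nat.coprime_two_left, Nat.odd_iff]
      omega
    rw [hg, one_mul] at hc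
    rw [hc] at hdiv
    have h10 := bound n (((dvd_mul_right _ _).trans (dvd_mul_right _ _)).trans hdiv)
    by_cases h2 : n = 2
    · subst h2
      exact ⟨F, inferInstance, inferInstance, hF, ⟨e⟩⟩
    exfalso
    by_cases h3 : n = 3
    · subst h3
      obtain ⟨g, hg9, hg3⟩ := exists_nine hF
      obtain ⟨x, hx⟩ := QuotientGroup.mk_surjective (e.symm g)
      have h1 : ((x : GL (Fin 5) (ZMod 2)) ^ 1111040) ^ 9 = 1 := by
        rw [← pow_mul, show 1111040 * 9 = 9999360 from rfl, ← card_GL52, pow_card_eq_one']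
      have h4 := pow_three_of_pow_nine _ h1
      have h5 : x ^ (1111040 * 3) = 1 := by
        apply Subtype.ext
        rw [pow_mul]
        simpa using h4
      have h6 : g ^ (1111040 * 3) = 1 := by
        apply e.symm.injective
        rw [map_pow, ← hx, ← QuotientGroup.mk_pow, h5, map_one]; rfl
      apply hg3
      have := pow_gcd_eq_one.2 ⟨hg9, h6⟩
      simpa using this
    · interval_cases n <;> simp_all
  · exfalso
    have hc := (S1163.result hm hF).1
    rw [← Nat.card_congr e.toEquiv] at hc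
    rw [hc] at hdiv
    have h10 := bound ((2 * m + 1) * 2)
      (by rw [pow_mul]; exact ((dvd_mul_right _ _).trans (dvd_mul_right _ _)).trans hdiv)
    have : m ≤ 2 := by omega
    interval_cases m <;> simp_all
  · exfalso
    have hc := S0280.result (q := 2 ^ n) (F := F) (by rw [hF, ← pow_mul, mul_comm, pow_mul]; norm_num) 3
      (by norm_num)
    rw [← Nat.card_congr e.toEquiv] at hc
    simp only [Finset.prod_range_succ, Finset.range_zero, Finset.prod_empty] at hc
    norm_num at hc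
    obtain ⟨c, hc'⟩ := hdiv
    have hg : Nat.gcd 3 (2 ^ n + 1) ∣ 3 := Nat.gcd_dvd_left _ _
    obtain ⟨d, hd⟩ := hg
    have key : (2 ^ n) ^ 3 * ((2 ^ n) ^ 3 + 1) ∣ 3 * 9999360 := by
      have hpos : 0 < 2 ^ n + 1 := by positivity
      refine Nat.dvd_of_mul_dvd_mul_left hpos ⟨((2 ^ n) ^ 2 - 1) * (c * d), ?_⟩
      rw [hc']
      nth_rewrite 1 [hd]
      linear_combination (c * d) * hc
    have h1 : 2 ^ (n * 3) ∣ 9999360 := by
      apply Nat.Coprime.dvd_of_dvd_mul_left (m := 3)
      · exact Nat.Coprime.pow_left _ (by norm_num)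
      · rw [pow_mul]; exact (dvd_mul_right _ _).trans key
    have h10 := bound _ h1
    have : n ≤ 3 := by omega
    revert key
    interval_cases n <;> norm_num

end Cfsg.Agent.S3179
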