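import Cfsg.Statements.S3184
import Cfsg.Agent.Block.ZStarElt

set_option autoImplicit false
open Cfsg

open Cfsg Cfsg.Lib.Block Cfsg.Lib.Block.Princ Cfsg.Lib.Local Cfsg.Lib.Solv Cfsg.Lib.Trans

namespace Cfsg.Agent.S3184

theorem eq_of_cyclic {H : Type*} [Group H] [Finite H] [IsCyclic H] {a b : H} (ha : orderOf a = 2)
    (hb : orderOf b = 2) : a = b := by
  classical
  have := Fintype.ofFinite H
  have hd : 2 ∣ Fintype.card H := ha ▸ orderOf_dvd_card
  have h := IsCyclic.card_orderOf_eq_totient (α := H) hd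
  rw [Nat.totient_two, Finset.card_eq_one] at h
  obtain ⟨x, hx⟩ := h
  have h1 : a ∈ ({x} : Finset H) := by rw [← hx]; simpa using ha
  have h2 : b ∈ ({x} : Finset H) := by rw [← hx]; simpa using hb
  rw [Finset.mem_singleton] at h1 h2
  rw [h1, h2]

/-- Let G be a finite group in which the intersection of any two distinct Sylow 2-subgroups is contained in the centre of some Sylow 2-subgroup, and let S be a Sylow 2-subgroup. If C is a nontrivial cyclic characteristic subgroup of S, then the involution of C is central modulo the largest normal subgroup of odd order of G: each of its conjugates has the same image in G/O(G). -/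
theorem result {G : Type*} [Group G] [Finite G]
    (hCI : ∀ S T : Sylow 2 G, S ≠ T → ∃ U : Sylow 2 G,
      (S : Subgroup G) ⊓ (T : Subgroup G) ≤ (Subgroup.center ↥(U : Subgroup G)).map (U : Subgroup G).subtype)
    (S : Sylow 2 G) (C : Subgroup ↥(S : Subgroup G)) (hC : C ≠ ⊥) (hCc : IsCyclic ↥C) (hCh : C.Characteristic)
    (c : ↥(S : Subgroup G)) (hc : c ∈ C) (hc2 : orderOf c = 2) :
    ∀ g : G, (QuotientGroup.mk (s := Cfsg.oddCore G) (g * (c : G) * g⁻¹)) =
      QuotientGroup.mk (s := Cfsg.oddCore G) (c : G) := by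
  have hN : ∀ n ∈ Subgroup.normalizer ((S : Subgroup G) : Set G), n * (c : G) * n⁻¹ = c := by
    intro n hn
    let φ : MulAut (S : Subgroup G) := (S : Subgroup G).normalizerMonoidHom ⟨n, hn⟩
    have h1 : φ c ∈ C := by
      have := (Subgroup.characteristic_iff_map_le.1 hCh) φ
      exact this ⟨c, hc, rfl⟩
    have h2 : (⟨φ c, h1⟩ : C) = ⟨c, hc⟩ := by
      refine eq_of_cyclic ?_ ?_
      · rw [← Subgroup.orderOf_coe, MulEquiv.orderOf_eq, hc2]
      · rw [← Subgroup.orderOf_coe, hc2]
    have h3 : φ c = c := congrArg Subtype.val h2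
    exact congrArg Subtype.val h3
  have hS : ∀ s ∈ (S : Subgroup G), s * (c : G) * s⁻¹ = c := fun s hs =>
    hN s (Subgroup.le_normalizer hs)
  have hgS : ∀ g : G, ((g • S : Sylow 2 G) : Subgroup G) ≤
      Subgroup.centralizer ({g * (c : G) * g⁻¹} : Set G) := by
    intro g s hs
    rw [mem_smul_sylow_iff] at hs
    rw [mem_centralizer_singleton_iff_conj]
    calc s * (g * c * g⁻¹) * s⁻¹ = g * (g⁻¹ * s * g * c * (g⁻¹ * s * g)⁻¹) * g⁻¹ := by group
      _ = _ := by rw [hS _ hs]
  have hK1 : ∀ (g : G) (U : Sylow 2 G), (U : Subgroup G) ≤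
      Subgroup.centralizer ({g * (c : G) * g⁻¹} : Set G) →
      ∃ a : G, a • S = U ∧ a * (c : G) * a⁻¹ = g * c * g⁻¹ := by
    intro g U hU
    obtain ⟨h, hh, hle⟩ := (isSylowIn_of_sylow_le _ (hgS g)).exists_le_conj U.isPGroup' hU
    refine ⟨h * g, ?_, ?_⟩
    · apply Sylow.ext
      refine (U.is_maximal' ((h * g) • S).isPGroup' ?_)
      intro u hu
      obtain ⟨v, hv, rfl⟩ := hle hu
      have hv' : v ∈ ((g • S : Sylow 2 G) : Subgroup G) := hv
      rw [mem_smul_sylow_iff] at hv' ⊢
      convert hv' using 1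
      simp only [MulEquiv.coe_toMonoidHom, MulAut.conj_apply]
      group
    · rw [mem_centralizer_singleton_iff_conj] at hh
      rw [← hh]
      group
  have hK : ∀ (g : G) (U : Sylow 2 G), (U : Subgroup G) ≤
      Subgroup.centralizer ({g * (c : G) * g⁻¹} : Set G) → (U : Subgroup G) ≤
      Subgroup.centralizer ({(c : G)} : Set G) → g * (c : G) * g⁻¹ = c := by
    intro g U h1 h2
    obtain ⟨a, ha, ha'⟩ := hK1 g U h1
    obtain ⟨b, hb, hb'⟩ := hK1 1 U (by simpa using h2)
    have hn : b⁻¹ * a ∈ Subgroup.normalizer ((S : Subgroup G) : Set G) := by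
      refine Sylow.smul_eq_iff_mem_normalizer.1 ?_
      rw [mul_smul, ha, ← hb, inv_smul_smul]
    have := hN _ hn
    rw [← ha']
    calc a * c * a⁻¹ = b * (b⁻¹ * a * c * (b⁻¹ * a)⁻¹) * b⁻¹ := by group
      _ = c := by rw [this, hb']; group
  have hc2' : orderOf (c : G) = 2 := by rw [Subgroup.orderOf_coe, hc2]
  have hSc : (S : Subgroup G) ≤ Subgroup.centralizer ({(c : G)} : Set G) := fun s hs =>
    mem_centralizer_singleton_iff_conj.2 (hS s hs)
  have hiso : IsIsolatedInvolution (c : G) := by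
    refine isolated_of_sylow S hc2' c.2 fun g hg => ?_
    have hcd : (c : G) ∈ Subgroup.centralizer ({g * (c : G) * g⁻¹} : Set G) := by
      rw [Subgroup.mem_centralizer_singleton_iff, eq_comm, ← mul_inv_eq_iff_eq_mul]
      exact hS _ hg
    obtain ⟨h, hh, hle⟩ := (isSylowIn_of_sylow_le _ (hgS g)).exists_le_conj
      (Q := Subgroup.zpowers (c : G))
      (IsPGroup.of_card (n := 1) (by rw [Nat.card_zpowers, hc2']; rfl)) (Subgroup.zpowers_le.2 hcd)
    rw [mem_centralizer_singleton_iff_conj] at hh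
    have hd : h * g * c * (h * g)⁻¹ = g * c * g⁻¹ := by rw [← hh]; group
    have hcT : (c : G) ∈ (((h * g) • S : Sylow 2 G) : Subgroup G) := by
      obtain ⟨v, hv, hv2⟩ := hle (Subgroup.mem_zpowers _)
      have hv' : v ∈ ((g • S : Sylow 2 G) : Subgroup G) := hv
      rw [mem_smul_sylow_iff] at hv' ⊢
      rw [← hv2]
      convert hv' using 1
      simp only [MulEquiv.coe_toMonoidHom, MulAut.conj_apply]
      group
    have hdT : g * (c : G) * g⁻¹ ∈ (((h * g) • S : Sylow 2 G) : Subgroup G) := by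
      rw [mem_smul_sylow_iff, ← hd]
      convert c.2 using 1
      group
    by_cases hST : S = (h * g) • S
    · refine hK g S ?_ hSc
      rw [← hd]
      conv_lhs => rw [hST]
      exact hgS _
    · obtain ⟨U, hU⟩ := hCI S _ hST
      have key : ∀ x ∈ (S : Subgroup G) ⊓ (((h * g) • S : Sylow 2 G) : Subgroup G),
          (U : Subgroup G) ≤ Subgroup.centralizer ({x} : Set G) := by
        intro x hx u hu
        obtain ⟨y, hy, rfl⟩ := hU hx
        rw [Subgroup.mem_centralizer_singleton_iff]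
        exact congrArg Subtype.val (Subgroup.mem_center_iff.1 hy ⟨u, hu⟩)
      exact hK g U (key _ ⟨hg, hdT⟩) (key _ ⟨c.2, hcT⟩)
  intro g
  have := Subgroup.mem_center_iff.1 (zstar_quotient hiso) (QuotientGroup.mk g)
  simp only [QuotientGroup.mk_mul, QuotientGroup.mk_inv]
  rw [this]
  group

end Cfsg.Agent.S3184
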