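import Cfsg.Statements.S3195
import Cfsg.Agent.Local.BaerSuzuki
import Cfsg.Agent.Local.Dihedral
import Cfsg.Agent.Trans.Isolated
import Cfsg.Agent.Solv.Cores

set_option autoImplicit false
open Cfsg

namespace Cfsg.Agent.S3195

open Subgroup Cfsg.Lib.Local Cfsg.Lib.Trans

theorem exists_inverted {G : Type*} [Group G] [Finite G] {a : G} (ha : a * a = 1)
    (h : a ∉ pCore 2 G) : ∃ d : G, d ≠ 1 ∧ Odd (orderOf d) ∧ a * d * a⁻¹ = d⁻¹ := by
  by_contra hne
  push Not at hne
  apply h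
  have h2 : IsPGroup 2 (normalClosure ({a} : Set G)) := by
    refine baer_suzuki_elem a fun g => ?_
    set b := g * a * g⁻¹ with hb
    have hbb : b * b = 1 := by
      rw [hb]; calc g * a * g⁻¹ * (g * a * g⁻¹) = g * (a * a) * g⁻¹ := by group
        _ = 1 := by rw [ha]; group
    obtain ⟨k, m, hm, e⟩ := Nat.exists_eq_two_pow_mul_odd (orderOf_pos (a * b)).ne'
    have hinv := dih_inverts ha hbb
    have h1 : (a * b) ^ 2 ^ k = 1 := by
      by_contra h1
      refine hne _ h1 ?_ ?_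
      · refine hm.of_dvd_nat (orderOf_dvd_of_pow_eq_one ?_)
        rw [← pow_mul, ← e, pow_orderOf_eq_one]
      · rw [← inv_pow, ← hinv, conj_pow]
    rintro ⟨x, hx⟩
    obtain ⟨j, hj | hj⟩ := dih_mem_closure_form ha hbb hx
    · refine ⟨k, Subtype.ext ?_⟩
      show x ^ 2 ^ k = 1
      rw [hj, ← zpow_natCast, ← zpow_mul, mul_comm, zpow_mul, zpow_natCast, h1, one_zpow]
    · refine ⟨1, Subtype.ext ?_⟩
      show x ^ 2 ^ 1 = 1
      rw [hj, pow_one, pow_two]
      exact mul_self_mul_zpow_of_inverts ha hinv j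
  exact Cfsg.Lib.Solv.le_pCore inferInstance h2 (subset_normalClosure rfl)

theorem commute_of_sq {G : Type*} [Group G] {x d : G} (hd : Odd (orderOf d))
    (h : Commute x (d ^ 2)) : Commute x d := by
  obtain ⟨m, hm⟩ := exists_pow_sq_eq_of_odd hd
  rw [← hm, ← pow_mul, mul_comm, pow_mul]
  exact h.pow_right m

theorem not_commute_of_inv {G : Type*} [Group G] {x d : G} (hd : Odd (orderOf d)) (h1 : d ≠ 1)
    (hx : x * d * x⁻¹ = d⁻¹) : ¬ Commute x d := fun h =>
  h1 (eq_one_of_odd_of_eq_inv hd (by rw [← hx, h.eq, mul_inv_cancel_right]))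

theorem conj_eq_sq_mul {G : Type*} [Group G] {x d : G} (hx : x * d * x⁻¹ = d⁻¹) :
    d * x * d⁻¹ = d ^ 2 * x := by
  have h2 : x * d⁻¹ * x⁻¹ = d := by rw [← conj_inv, hx, inv_inv]
  calc d * x * d⁻¹ = d * (x * d⁻¹ * x⁻¹) * x := by group
    _ = d ^ 2 * x := by rw [h2, pow_two]

theorem mem_four {G : Type*} [Group G] {A : Subgroup G} (hA : IsKleinFour A) {a c u : G}
    (ha : a ∈ A) (hc : c ∈ A) (hu : u ∈ A) (ha1 : a ≠ 1) (hc1 : c ≠ 1) (hac : a ≠ c) (hu1 : u ≠ 1)
    (huc : u ≠ c) : u = a ∨ u = a * c := by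
  by_cases h : u = a
  · exact Or.inl h
  · right
    have := IsKleinFour.eq_mul_of_ne_all (G := A) (x := ⟨a, ha⟩) (y := ⟨c, hc⟩) (z := ⟨u, hu⟩)
      (fun h => ha1 (congrArg Subtype.val h)) (fun h => hc1 (congrArg Subtype.val h))
      (fun h => hac (congrArg Subtype.val h)) (fun h => hu1 (congrArg Subtype.val h))
      (fun h' => h (congrArg Subtype.val h')) (fun h => huc (congrArg Subtype.val h))
    exact congrArg Subtype.val this


/-- Let A be a Klein four-subgroup of a finite group G. If every G-conjugate of every involution of A commutes with some involution of A (its centralizer meets A nontrivially), then A meets the largest normal 2-subgroup O₂(G) nontrivially. -/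
theorem result {G : Type*} [Group G] [Finite G]
    (A : Subgroup G) (hA : IsKleinFour ↥A)
    (h : ∀ a ∈ A, a ≠ 1 → ∀ g : G, A ⊓ Subgroup.centralizer ({g * a * g⁻¹} : Set G) ≠ ⊥) :
    A ⊓ Cfsg.pCore 2 G ≠ ⊥ := by
  intro hbot
  have hsq : ∀ a ∈ A, a * a = 1 := fun a ha =>
    congrArg Subtype.val (IsKleinFour.mul_self (G := A) ⟨a, ha⟩)
  have hcomm : ∀ a ∈ A, ∀ b ∈ A, Commute a b := fun a ha b hb => by
    have h1 := hsq _ (A.mul_mem ha hb)
    have h2 : a⁻¹ = a := inv_eq_of_mul_eq_one_right (hsq a ha)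
    have h3 : b⁻¹ = b := inv_eq_of_mul_eq_one_right (hsq b hb)
    have h4 := inv_eq_of_mul_eq_one_right h1
    rw [mul_inv_rev, h2, h3] at h4
    exact h4.symm
  have hD : ∀ a ∈ A, a ≠ 1 → ∀ g : G, ∃ c ∈ A, c ≠ 1 ∧ Commute c (g * a * g⁻¹) := by
    intro a ha ha1 g
    obtain ⟨⟨c, hc⟩, hc1⟩ := Subgroup.ne_bot_iff_exists_ne_one.1 (h a ha ha1 g)
    exact ⟨c, hc.1, fun h => hc1 (Subtype.ext h), mem_centralizer_singleton_iff.1 hc.2⟩
  -- each involution inverts an odd element centralised by another involution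
  have hB : ∀ a ∈ A, a ≠ 1 → ∃ d : G, d ≠ 1 ∧ Odd (orderOf d) ∧ a * d * a⁻¹ = d⁻¹ ∧
      ∃ c ∈ A, c ≠ 1 ∧ Commute c d := by
    intro a ha ha1
    obtain ⟨d, h1, h2, h3⟩ := exists_inverted (hsq a ha) (fun hm => ha1 (by
      have : a ∈ A ⊓ pCore 2 G := ⟨ha, hm⟩
      rwa [hbot, mem_bot] at this))
    obtain ⟨c, hc, hc1, hcc⟩ := hD a ha ha1 d
    refine ⟨d, h1, h2, h3, c, hc, hc1, commute_of_sq h2 ?_⟩
    rw [conj_eq_sq_mul h3] at hcc
    have := hcc.mul_right (hcomm c hc a ha).inv_right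
    rwa [mul_inv_cancel_right] at this
  have : Nontrivial A := Finite.one_lt_card_iff_nontrivial.1 (by rw [hA.card_four]; omega)
  obtain ⟨⟨a, ha⟩, ha1⟩ := exists_ne (1 : A)
  replace ha1 : a ≠ 1 := fun h => ha1 (Subtype.ext h)
  obtain ⟨d, hd1, hd, had, c, hc, hc1, hcd⟩ := hB a ha ha1
  have hac : a ≠ c := fun h => not_commute_of_inv hd hd1 had (h ▸ hcd)
  have hinv : ∀ u ∈ A, u ≠ 1 → u ≠ c → u * d * u⁻¹ = d⁻¹ := by
    intro u hu hu1 huc
    rcases mem_four hA ha hc hu ha1 hc1 hac hu1 huc with rfl | rfl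
    · exact had
    · calc a * c * d * (a * c)⁻¹ = a * (c * d * c⁻¹) * a⁻¹ := by group
        _ = d⁻¹ := by rw [hcd.eq, mul_inv_cancel_right, had]
  -- conjugates not commuting with `c` centralise `d`
  have hC : ∀ b ∈ A, b ≠ 1 → ∀ g : G, ¬ Commute c (g * b * g⁻¹) → Commute (g * b * g⁻¹) d := by
    intro b hb hb1 g hn
    set x := g * b * g⁻¹ with hx
    have h1 : ∀ i : ℕ, Commute x (d ^ (2 * i) * a) ∨ Commute x (d ^ (2 * i) * a * c) := by
      intro i
      obtain ⟨u, hu, hu1, huc⟩ := hD b hb hb1 ((d ^ i)⁻¹ * g)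
      have e : (d ^ i)⁻¹ * g * b * ((d ^ i)⁻¹ * g)⁻¹ = (d ^ i)⁻¹ * x * d ^ i := by rw [hx]; group
      rw [e] at huc
      have h2 : Commute (d ^ i * u * (d ^ i)⁻¹) x := by
        have := huc.map (MulAut.conj (d ^ i))
        rw [MulAut.conj_apply, MulAut.conj_apply] at this
        have e2 : d ^ i * ((d ^ i)⁻¹ * x * d ^ i) * (d ^ i)⁻¹ = x := by group
        rwa [e2] at this
      have hcdi : d ^ i * c * (d ^ i)⁻¹ = c := by
        rw [← (hcd.pow_right i).eq, mul_inv_cancel_right]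
      have hne : u ≠ c := by
        rintro rfl
        rw [hcdi] at h2
        exact hn h2
      have hai : d ^ i * a * (d ^ i)⁻¹ = d ^ (2 * i) * a := by
        rw [conj_eq_sq_mul (x := a) (d := d ^ i) (by rw [← conj_pow, had, inv_pow]), ← pow_mul,
          mul_comm i 2]
      rcases mem_four hA ha hc hu ha1 hc1 hac hu1 hne with rfl | rfl
      · left; rw [← hai]; exact h2.symm
      · right
        have : d ^ i * (a * c) * (d ^ i)⁻¹ = d ^ (2 * i) * a * c := by
          rw [← hai]; conv_rhs => rw [← hcdi]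
          group
        rw [← this]; exact h2.symm
    have h2 : ∀ (i j : ℕ) (w : G), Commute x (d ^ (2 * i) * w) → Commute x (d ^ (2 * (i + j)) * w) →
        Commute x (d ^ (2 * j)) := by
      intro i j w h h'
      have := h'.mul_right h.inv_right
      have e : d ^ (2 * (i + j)) * w * (d ^ (2 * i) * w)⁻¹ = d ^ (2 * j) := by group
      rwa [e] at this
    have h3 : Commute x (d ^ (2 * 1)) → Commute x d := commute_of_sq hd
    have h4 : Commute x (d ^ (2 * 2)) → Commute x d := fun h =>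
      commute_of_sq hd (commute_of_sq (odd_orderOf_pow hd 2) (by rwa [← pow_mul]))
    simp only [mul_assoc] at h1
    rcases h1 0 with p0 | p0 <;> rcases h1 1 with p1 | p1 <;> rcases h1 2 with p2 | p2
    all_goals first
      | exact h3 (h2 0 1 _ p0 p1)
      | exact h3 (h2 1 1 _ p1 p2)
      | exact h4 (h2 0 2 _ p0 p2)
  obtain ⟨e, he1, he, hce, a', ha', ha'1, ha'e⟩ := hB c hc hc1
  have ha'c : a' ≠ c := fun h => not_commute_of_inv he he1 hce (h ▸ ha'e)
  have hw : a' * c ∈ A := A.mul_mem ha' hc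
  have hw1 : a' * c ≠ 1 := fun h => ha'c (by
    rw [← inv_eq_of_mul_eq_one_left h]; exact (inv_eq_of_mul_eq_one_right (hsq c hc)))
  have hwc : a' * c ≠ c := fun h => ha'1 (mul_eq_right.1 h)
  have hwd := hinv _ hw hw1 hwc
  have hwe : a' * c * e * (a' * c)⁻¹ = e⁻¹ := by
    calc a' * c * e * (a' * c)⁻¹ = a' * (c * e * c⁻¹) * a'⁻¹ := by group
      _ = e⁻¹ := by rw [hce, ha'e.inv_right.eq, mul_inv_cancel_right]
  have hnc : ∀ w ∈ A, ¬ Commute c (e ^ 2 * w) := fun w hw' h =>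
    not_commute_of_inv he he1 hce (commute_of_sq he (by
      have := h.mul_right (hcomm c hc w hw').inv_right
      rwa [mul_inv_cancel_right] at this))
  have h1 := hC c hc hc1 e (by rw [conj_eq_sq_mul hce]; exact hnc c hc)
  have h2 := hC _ hw hw1 e (by rw [conj_eq_sq_mul hwe]; exact hnc _ hw)
  rw [conj_eq_sq_mul hce] at h1
  rw [conj_eq_sq_mul hwe] at h2
  have h3 : Commute (e ^ 2) d := by
    have := h1.mul_left hcd.inv_left
    rwa [mul_inv_cancel_right] at this
  have h4 : Commute (a' * c) d := by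
    have := h3.inv_left.mul_left h2
    rwa [inv_mul_cancel_left] at this
  exact not_commute_of_inv hd hd1 hwd h4

end Cfsg.Agent.S3195
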