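import Cfsg.Statements.S3196
import Cfsg.Agent.Solv.Cores
import Cfsg.Agent.Solv.CoprimeBasic
import Cfsg.Agent.Solv.PGroupNormal

set_option autoImplicit false
open Cfsg

namespace Cfsg.Agent.S3196

open Subgroup Cfsg.Lib.Solv

section
variable {G : Type*} [Group G] [Finite G] {p : ℕ}

theorem eq_zpowers (hp : p.Prime) {A : Subgroup G} (hA : Nat.card A = p) {a : G} (ha : a ∈ A)
    (h1 : a ≠ 1) : zpowers a = A := by
  have h := card_dvd_of_le (zpowers_le.2 ha)
  rw [hA] at h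
  rcases (Nat.dvd_prime hp).1 h with h' | h'
  · rw [Nat.card_zpowers, orderOf_eq_one_iff] at h'
    exact (h1 h').elim
  · exact eq_of_le_of_card_ge (zpowers_le.2 ha) (by rw [hA, h'])

theorem exists_ne_one (hp : p.Prime) {A : Subgroup G} (hA : Nat.card A = p) :
    ∃ a ∈ A, a ≠ 1 := by
  by_contra h
  push Not at h
  have : A = ⊥ := (eq_bot_iff_forall A).2 h
  rw [this, card_bot] at hA
  exact hp.one_lt.ne hA

omit [Finite G] in
theorem mem_sup_comm {A B : Subgroup G} (h : B ≤ centralizer (A : Set G)) {c : G}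
    (hc : c ∈ A ⊔ B) : ∃ a ∈ A, ∃ b ∈ B, a * b = c :=
  (Coprime.mem_sup_iff (h.trans (centralizer_le_normalizer _))).1 hc

/-- two points span the line -/
theorem le_of_two (hp : p.Prime) {A B C : Subgroup G} (hB : Nat.card B = p)
    (h : B ≤ centralizer (A : Set G)) (hA : A ≤ C) {c : G} (hc : c ∈ A ⊔ B) (hcC : c ∈ C)
    (hcA : c ∉ A) : B ≤ C := by
  obtain ⟨a, ha, b, hb, rfl⟩ := mem_sup_comm h hc
  have hb1 : b ≠ 1 := by
    rintro rfl
    exact hcA (by simpa using ha)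
  rw [← eq_zpowers hp hB hb hb1, zpowers_le]
  exact (Subgroup.mul_mem_cancel_left _ (hA ha)).1 hcC

theorem card_zpowers_of_mem (hp : p.Prime) {A B : Subgroup G} (hA : Nat.card A = p)
    (hB : Nat.card B = p) (h : B ≤ centralizer (A : Set G)) {c : G} (hc : c ∈ A ⊔ B)
    (h1 : c ≠ 1) : Nat.card (zpowers c) = p := by
  obtain ⟨a, ha, b, hb, rfl⟩ := mem_sup_comm h hc
  have : Fact p.Prime := ⟨hp⟩
  rw [Nat.card_zpowers]
  refine orderOf_eq_prime ?_ h1
  have hc : Commute a b := h hb a ha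
  have h2 : a ^ p = 1 := orderOf_dvd_iff_pow_eq_one.1 (hA ▸ A.orderOf_dvd_natCard ha)
  have h3 : b ^ p = 1 := orderOf_dvd_iff_pow_eq_one.1 (hB ▸ B.orderOf_dvd_natCard hb)
  rw [hc.mul_pow, h2, h3, one_mul]

omit [Finite G] in
theorem comm_iff {X Y : Subgroup G} :
    (∀ x ∈ X, ∀ y ∈ Y, x * y = y * x) ↔ Y ≤ centralizer (X : Set G) :=
  ⟨fun h y hy x hx => h x hx y hy, fun h x hx y hy => h hy x hx⟩

theorem exists_central (hp : p.Prime) (K : Set (Subgroup G)) (hK : ∀ X ∈ K, Nat.card ↥X = p)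
    (hKc : ∀ X ∈ K, ∀ g : G, X.map (MulAut.conj g).toMonoidHom ∈ K)
    (hex : ∃ X ∈ K, ∃ Y ∈ K, X ≠ Y ∧ Y ≤ centralizer (X : Set G))
    (hl : ∀ X ∈ K, ∀ Y ∈ K, X ≠ Y → Y ≤ centralizer (X : Set G) →
      ∀ W ∈ K, ∃ c ∈ X ⊔ Y, c ≠ 1 ∧ zpowers c ∈ K ∧ c ∈ centralizer (W : Set G))
    (ha : ∀ X ∈ K, ∀ Y ∈ K, X ≠ Y → Y ≤ centralizer (X : Set G) →
      ∀ c ∈ X ⊔ Y, c ≠ 1 → zpowers c ∈ K) :
    ∃ V ∈ K, ∀ W ∈ K, W ≤ centralizer (V : Set G) := by
  classical
  have : Fact p.Prime := ⟨hp⟩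
  have hsym : ∀ {X Y : Subgroup G}, Y ≤ centralizer (X : Set G) → X ≤ centralizer (Y : Set G) :=
    fun h => le_centralizer_iff.1 h
  have hself : ∀ X ∈ K, X ≤ centralizer (X : Set G) := by
    intro X hX
    have : IsCyclic X := isCyclic_of_prime_card (hK X hX)
    intro a ha b hb
    exact congrArg Subtype.val (mul_comm' (⟨b, hb⟩ : X) ⟨a, ha⟩)
  obtain ⟨X0, hX0, Y0, hY0, hne0, hc0⟩ := hex
  let perp : Subgroup G → Set (Subgroup G) := fun W => {U | U ∈ K ∧ U ≤ centralizer (W : Set G)}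
  obtain ⟨W, hW, hmax⟩ := Set.Finite.exists_maximalFor perp K (Set.toFinite K) ⟨X0, hX0⟩
  refine ⟨W, hW, fun X hX => ?_⟩
  by_contra hXW
  -- the spanning lemma
  have hspan : ∀ V : Subgroup G, W ≤ centralizer (V : Set G) →
      (∀ U ∈ K, U ≤ centralizer (W : Set G) → U ≤ centralizer (X : Set G) →
        U ≤ centralizer (V : Set G)) →
      ∀ U ∈ K, U ≤ centralizer (W : Set G) → U ≤ centralizer (V : Set G) := by
    intro V hWV hV U hU hUW
    by_cases hUW' : W = U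
    · exact hUW' ▸ hWV
    obtain ⟨c, hc, hc1, hcK, hcX⟩ := hl W hW U hU hUW' hUW X hX
    have hcW : c ∈ centralizer (W : Set G) := (sup_le (hself W hW) hUW) hc
    refine le_of_two hp (hK U hU) hUW hWV hc
      (hV _ hcK (zpowers_le.2 hcW) (zpowers_le.2 hcX) (mem_zpowers c)) ?_
    intro hcW'
    apply hXW
    apply hsym
    rw [← eq_zpowers hp (hK W hW) hcW' hc1, zpowers_le]
    exact hcX
  have hbad : ∀ V ∈ K, (∀ U ∈ K, U ≤ centralizer (W : Set G) → U ≤ centralizer (V : Set G)) →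
      ¬ X ≤ centralizer (V : Set G) := by
    intro V hV h hXV
    have h1 : perp W ≤ perp V := fun U hU => ⟨hU.1, h U hU.1 hU.2⟩
    exact hXW (hmax hV h1 (show X ∈ perp V from ⟨hX, hXV⟩)).2
  -- a line through `X`
  obtain ⟨Y1, hY1, hne1, hc1⟩ : ∃ Y1 ∈ K, X ≠ Y1 ∧ Y1 ≤ centralizer (X : Set G) := by
    obtain ⟨c, hc, hc1, hcK, hcX⟩ := hl X0 hX0 Y0 hY0 hne0 hc0 X hX
    by_cases h : X = zpowers c
    · have hle : X ≤ X0 ⊔ Y0 := h ▸ zpowers_le.2 hc
      have h1 : X ≤ centralizer (X0 : Set G) := hle.trans (sup_le (hself _ hX0) hc0)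
      have h2 : X ≤ centralizer (Y0 : Set G) := hle.trans (sup_le (hsym hc0) (hself _ hY0))
      by_cases h' : X = X0
      · exact ⟨Y0, hY0, h' ▸ hne0, hsym h2⟩
      · exact ⟨X0, hX0, h', hsym h1⟩
    · exact ⟨_, hcK, h, zpowers_le.2 hcX⟩
  obtain ⟨y, hy, hy1, hYK, hyW⟩ := hl X hX Y1 hY1 hne1 hc1 W hW
  have hyX : y ∈ centralizer (X : Set G) := (sup_le (hself X hX) hc1) hy
  obtain ⟨x, hx, hx1⟩ := exists_ne_one hp (hK X hX)
  have hXx := eq_zpowers hp (hK X hX) hx hx1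
  have hxW : x ∉ centralizer (W : Set G) := fun h => hXW (hXx ▸ zpowers_le.2 h)
  have hxy1 : x * y ≠ 1 := by
    intro h
    apply hxW
    rw [eq_inv_of_mul_eq_one_left h]
    exact inv_mem hyW
  have hX'K : zpowers (x * y) ∈ K :=
    ha X hX Y1 hY1 hne1 hc1 _ (mul_mem (mem_sup_left hx) hy) hxy1
  -- a point `U` of `W^⊥ ∩ X^⊥` not collinear with `Y`
  obtain ⟨U, hU, hUW, hUX, hUY⟩ : ∃ U ∈ K, U ≤ centralizer (W : Set G) ∧
      U ≤ centralizer (X : Set G) ∧ ¬ U ≤ centralizer ((zpowers y : Subgroup G) : Set G) := by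
    by_contra h
    push Not at h
    exact hbad _ hYK (hspan _ (hsym (zpowers_le.2 hyW)) h) (hsym (zpowers_le.2 hyX))
  set W' := W.map (MulAut.conj x).toMonoidHom with hW'
  have hW'K : W' ∈ K := hKc W hW x
  have hconj : ∀ {c g : G}, c ∈ centralizer (W : Set G) → Commute g c →
      (∀ w ∈ W, x * w * x⁻¹ = g * w * g⁻¹) → c ∈ centralizer (W' : Set G) := by
    rintro c g hc hg he _ ⟨w, hw, rfl⟩
    change x * w * x⁻¹ * c = c * (x * w * x⁻¹)
    rw [he w hw]
    have h1 : Commute c w := (hc w hw).symm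
    exact ((hg.symm.mul_right h1).mul_right hg.symm.inv_right).symm.eq
  have hA : ∀ V ∈ K, V ≤ centralizer (W : Set G) → V ≤ centralizer (X : Set G) →
      V ≤ centralizer (W' : Set G) :=
    fun V _ h1 h2 c hc => hconj (h1 hc) (h2 hc x hx) fun _ _ => rfl
  have hUne : U ≠ W := by
    rintro rfl
    exact hXW (hsym hUX)
  have hWW' : W ≤ centralizer (W' : Set G) := by
    obtain ⟨c, hc, hc1, hcK, hcX⟩ := hl U hU W hW hUne (hsym hUW) _ hX'K
    have hcW : c ∈ centralizer (W : Set G) := (sup_le hUW (hself W hW)) hc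
    refine le_of_two hp (hK W hW) (hsym hUW) (hA U hU hUW hUX) hc
      (hconj hcW (hcX _ (mem_zpowers _)) fun w hw => ?_) ?_
    · have : y * w = w * y := (hyW w hw).symm
      rw [mul_assoc x y w, this]
      group
    · intro hcU
      apply hUY
      rw [← eq_zpowers hp (hK U hU) hcU hc1]
      apply hsym
      rw [zpowers_le]
      have h1 : x * y ∈ centralizer ((zpowers c : Subgroup G) : Set G) :=
        hsym (zpowers_le.2 hcX) (mem_zpowers _)
      have h2 : x ∈ centralizer ((zpowers c : Subgroup G) : Set G) :=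
        hsym (zpowers_le.2 (hUX hcU)) hx
      exact (Subgroup.mul_mem_cancel_left _ h2).1 h1
  have hsub := hspan W' hWW' hA
  have hne : W ≠ W' := by
    intro h
    apply hxW
    obtain ⟨w, hw, hw1⟩ := exists_ne_one hp (hK W hW)
    have hn : X ≤ normalizer (W : Set G) := by
      rw [← hXx, zpowers_le, Coprime.mem_normalizer_iff_conj_smul]
      exact h.symm
    have hXp : IsPGroup p X := IsPGroup.of_card (n := 1) (by rw [hK X hX, pow_one])
    have hWp : IsPGroup p W := IsPGroup.of_card (n := 1) (by rw [hK W hW, pow_one])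
    have hW0 : W ≠ ⊥ := fun h0 => hw1 (mem_bot.1 (h0 ▸ hw))
    obtain ⟨⟨c, hc⟩, hc1⟩ := ne_bot_iff_exists_ne_one.1 (PG.inf_centralizer_ne_bot hXp hWp hn hW0)
    have hc1' : c ≠ 1 := fun h => hc1 (Subtype.ext h)
    apply hsym (X := X) _ hx
    rw [← eq_zpowers hp (hK W hW) hc.1 hc1', zpowers_le]
    exact hc.2
  obtain ⟨c, hc, hc1, hcK, hcX⟩ := hl W hW W' hW'K hne (hsym hWW') X hX
  refine hbad _ hcK (fun V hV hVW => hsym (zpowers_le.2 ?_)) (hsym (zpowers_le.2 hcX))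
  exact (sup_le (hsym hVW) (hsym (hsub V hV hVW))) hc

end

/-- Let p be a prime and K a set of subgroups of order p of a finite group G, closed under conjugation, such that at least two distinct members of K commute elementwise, and whenever two distinct members X, Y of K commute: every subgroup of order p of the group XY they generate belongs to K, and every member W of K has centralizer meeting XY nontrivially. Then some member V of K commutes elementwise with every member of K and lies in O_p(G); in particular G is not simple. -/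
theorem result {G : Type*} [Group G] [Finite G]
    {p : ℕ} (hp : p.Prime) (K : Set (Subgroup G)) (hK : ∀ X ∈ K, Nat.card ↥X = p)
    (hKc : ∀ X ∈ K, ∀ g : G, X.map (MulAut.conj g).toMonoidHom ∈ K)
    (hex : ∃ X ∈ K, ∃ Y ∈ K, X ≠ Y ∧ ∀ x ∈ X, ∀ y ∈ Y, x * y = y * x)
    (ha : ∀ X ∈ K, ∀ Y ∈ K, X ≠ Y → (∀ x ∈ X, ∀ y ∈ Y, x * y = y * x) →
      ∀ Z : Subgroup G, Z ≤ X ⊔ Y → Nat.card ↥Z = p → Z ∈ K)
    (hb : ∀ X ∈ K, ∀ Y ∈ K, X ≠ Y → (∀ x ∈ X, ∀ y ∈ Y, x * y = y * x) →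
      ∀ W ∈ K, (X ⊔ Y) ⊓ Subgroup.centralizer (W : Set G) ≠ ⊥) :
    (∃ V ∈ K, (∀ W ∈ K, ∀ v ∈ V, ∀ w ∈ W, v * w = w * v) ∧ V ≤ Cfsg.pCore p G) ∧ ¬ IsSimpleGroup G := by
  have : Fact p.Prime := ⟨hp⟩
  have ha' : ∀ X ∈ K, ∀ Y ∈ K, X ≠ Y → Y ≤ centralizer (X : Set G) →
      ∀ c ∈ X ⊔ Y, c ≠ 1 → zpowers c ∈ K := fun X hX Y hY hne hc c hcm hc1 =>
    ha X hX Y hY hne (comm_iff.2 hc) _ (zpowers_le.2 hcm)
      (card_zpowers_of_mem hp (hK X hX) (hK Y hY) hc hcm hc1)
  obtain ⟨V, hV, hVc⟩ := exists_central hp K hK hKc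
    (by obtain ⟨X, hX, Y, hY, hne, hc⟩ := hex; exact ⟨X, hX, Y, hY, hne, comm_iff.1 hc⟩)
    (fun X hX Y hY hne hc W hW => by
      obtain ⟨⟨c, hcm⟩, hc1⟩ := ne_bot_iff_exists_ne_one.1 (hb X hX Y hY hne (comm_iff.2 hc) W hW)
      have hc1' : c ≠ 1 := fun h => hc1 (Subtype.ext h)
      exact ⟨c, hcm.1, hc1', ha' X hX Y hY hne hc c hcm.1 hc1', hcm.2⟩) ha'
  have hVO : V ≤ Cfsg.pCore p G := by
    refine le_normalClosure.trans (le_pCore inferInstance ?_)
    have hgen : ∀ a ∈ Group.conjugatesOfSet (V : Set G), ∀ b ∈ Group.conjugatesOfSet (V : Set G),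
        a * b = b * a := by
      intro a ha b hb
      obtain ⟨v, hv, hva⟩ := Group.mem_conjugatesOfSet_iff.1 ha
      obtain ⟨w, hw, hwb⟩ := Group.mem_conjugatesOfSet_iff.1 hb
      obtain ⟨g, rfl⟩ := isConj_iff.1 hva
      obtain ⟨h, rfl⟩ := isConj_iff.1 hwb
      have h1 : (g⁻¹ * h) * w * (g⁻¹ * h)⁻¹ ∈ V.map (MulAut.conj (g⁻¹ * h)).toMonoidHom :=
        ⟨w, hw, rfl⟩
      have h2 := hVc _ (hKc V hV _) h1 v hv
      calc g * v * g⁻¹ * (h * w * h⁻¹) = g * (v * ((g⁻¹ * h) * w * (g⁻¹ * h)⁻¹)) * g⁻¹ := by group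
        _ = h * w * h⁻¹ * (g * v * g⁻¹) := by rw [h2]; group
    have hcomm : ∀ a ∈ normalClosure (V : Set G), ∀ b ∈ normalClosure (V : Set G),
        a * b = b * a := by
      intro a ha b hb
      have h1 : closure (Group.conjugatesOfSet (V : Set G)) ≤
          centralizer (closure (Group.conjugatesOfSet (V : Set G)) : Set G) := by
        rw [centralizer_closure, closure_le]
        exact fun b hb a ha => hgen a ha b hb
      exact h1 hb a ha
    have hpow : ∀ a ∈ normalClosure (V : Set G), a ^ p = 1 := by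
      intro a ha
      induction ha using closure_induction with
      | mem a ha =>
        obtain ⟨v, hv, hva⟩ := Group.mem_conjugatesOfSet_iff.1 ha
        obtain ⟨g, rfl⟩ := isConj_iff.1 hva
        have h2 : v ^ p = 1 := orderOf_dvd_iff_pow_eq_one.1 (hK V hV ▸ V.orderOf_dvd_natCard hv)
        rw [conj_pow, h2, mul_one, mul_inv_cancel]
      | one => exact one_pow p
      | mul a b ha hb iha ihb =>
        have hc : Commute a b := hcomm a ha b hb
        rw [hc.mul_pow, iha, ihb, one_mul]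
      | inv a _ iha => rw [inv_pow, iha, inv_one]
    exact fun a => ⟨1, Subtype.ext (by rw [pow_one]; exact hpow a a.2)⟩
  refine ⟨⟨V, hV, fun W hW => comm_iff.2 (hVc W hW), hVO⟩, fun hs => ?_⟩
  obtain ⟨v, hv, hv1⟩ := exists_ne_one hp (hK V hV)
  have htop : Cfsg.pCore p G = ⊤ := by
    refine (Normal.eq_bot_or_eq_top (inferInstance : (Cfsg.pCore p G).Normal)).resolve_left ?_
    intro h
    exact hv1 (mem_bot.1 (h ▸ hVO hv))
  have hG : IsPGroup p G := pCore_eq_top_iff.1 htop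
  have hz : center G = ⊤ := by
    refine (Normal.eq_bot_or_eq_top (inferInstance : (center G).Normal)).resolve_left ?_
    exact (Subgroup.nontrivial_iff_ne_bot _).1 hG.center_nontrivial
  have hall : ∀ X ∈ K, X = ⊤ := by
    intro X hX
    have hn : X.Normal := ⟨fun a ha g => by
      have : g * a = a * g := mem_center_iff.1 (hz ▸ mem_top a) g
      rw [this, mul_inv_cancel_right]
      exact ha⟩
    refine hn.eq_bot_or_eq_top.resolve_left ?_
    intro h
    obtain ⟨x, hx, hx1⟩ := exists_ne_one hp (hK X hX)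
    exact hx1 (mem_bot.1 (h ▸ hx))
  obtain ⟨X, hX, Y, hY, hne, -⟩ := hex
  exact hne ((hall X hX).trans (hall Y hY).symm)

end Cfsg.Agent.S3196
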