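import Cfsg.Statements.S3200
import Cfsg.Agent.Solv.KegelWielandtB
import Cfsg.Agent.Solv.Hall

set_option autoImplicit false
open Cfsg

namespace Cfsg.Agent.S3200

open Cfsg.Lib.Solv Pointwise

/-- Let H be a finite group in which a Sylow 2-subgroup has an abelian complement (an abelian subgroup meeting it trivially whose product with it is all of H). Then H is solvable, and every subgroup and every quotient group of H again has a Sylow 2-subgroup with an abelian complement. -/
theorem result {H : Type*} [Group H] [Finite H]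
    (S : Sylow 2 H) (C : Subgroup H) (hC : IsMulCommutative ↥C) (hSC : Subgroup.IsComplement' (S : Subgroup H) C) :
    Group.IsSolvable H ∧
    (∀ L : Subgroup H, ∃ (P : Sylow 2 ↥L) (D : Subgroup ↥L), IsMulCommutative ↥D ∧ Subgroup.IsComplement' (P : Subgroup ↥L) D) ∧
    (∀ (N : Subgroup H) [N.Normal], ∃ (P : Sylow 2 (H ⧸ N)) (D : Subgroup (H ⧸ N)),
      IsMulCommutative ↥D ∧ Subgroup.IsComplement' (P : Subgroup (H ⧸ N)) D) := by
  have hcS : Nat.card C = (S : Subgroup H).index := hSC.symm.index_eq_card.symm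
  have hcC : Nat.card S = C.index := hSC.index_eq_card.symm
  have hHall : IsPiHall {2}ᶜ C := by
    refine ⟨fun p hp hd h2 => ?_, fun p hp h2 hd => h2 ?_⟩
    · obtain rfl : p = 2 := h2
      exact S.not_dvd_index (hcS ▸ hd)
    · exact (isPiHall_singleton_sylow S).1 p hp (hcC ▸ hd)
  have hs : Group.IsSolvable H := by
    refine KW.kegel_wielandt (A := S) (B := C) S.isPGroup'.isNilpotent
      (by letI : CommGroup C := { mul_comm := hC.is_comm.comm }; infer_instance) fun g => ?_
    obtain ⟨⟨a, b⟩, h, -⟩ := hSC.existsUnique g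
    exact ⟨a, a.2, b, b.2, h.symm⟩
  refine ⟨hs, fun L => ?_, fun N _ => ?_⟩
  · obtain ⟨D, hD⟩ := exists_isPiHall {2}ᶜ L
    obtain ⟨g, hg⟩ := exists_conj_le_isPiHall hHall (isPiSubgroup_map (K := D) hD.1 L.subtype)
    refine ⟨default, D, ⟨⟨fun a b => Subtype.ext (Subtype.ext ?_)⟩⟩,
      isComplement'_of_isPiHall (isPiHall_singleton_sylow _) hD⟩
    have ha := hg (Subgroup.smul_mem_pointwise_smul _ _ _ ⟨a.1, a.2, rfl⟩)
    have hb := hg (Subgroup.smul_mem_pointwise_smul _ _ _ ⟨b.1, b.2, rfl⟩)
    have := congrArg Subtype.val (hC.is_comm.comm ⟨_, ha⟩ ⟨_, hb⟩)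
    apply (MulAut.conj g).injective
    simpa using this
  · refine ⟨default, C.map (QuotientGroup.mk' N), inferInstance,
      isComplement'_of_isPiHall (isPiHall_singleton_sylow _)
        (isPiHall_map (QuotientGroup.mk'_surjective N) hHall)⟩

end Cfsg.Agent.S3200
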