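import Cfsg.Statements.S3201
import Cfsg.Agent.Solv.UniqueInvol

set_option autoImplicit false
open Cfsg

namespace Cfsg.Agent.S3201

open Subgroup Cfsg.Lib.Solv.PG

/-- Let S be a finite 2-group whose centre Z(S) has n ≥ 2 distinct maximal subgroups C₁, …, Cₙ with trivial intersection such that each quotient S/Cᵢ is a non-abelian group with exactly one involution (a generalized quaternion group). Then S is the internal direct product of an elementary abelian subgroup and a non-abelian subgroup with exactly one involution. -/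
theorem result {S : Type*} [Group S] [Finite S]
    (hS : IsPGroup 2 S) (n : ℕ) (hn : 2 ≤ n) (C : Fin n → Subgroup ↥(Subgroup.center S))
    (hCmax : ∀ i, IsCoatom (C i)) (hCinj : Function.Injective C) (hCint : ⨅ i, C i = ⊥)
    (hCq : ∀ i, ∃ (_ : ((C i).map (Subgroup.center S).subtype).Normal),
      ¬ IsMulCommutative (S ⧸ (C i).map (Subgroup.center S).subtype) ∧
      ∃! x : S ⧸ (C i).map (Subgroup.center S).subtype, orderOf x = 2) :
    ∃ E Q : Subgroup S, Cfsg.IsInternalDirectProduct E Q ⊤ ∧ Cfsg.IsElementaryAbelian 2 E ∧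
      ¬ IsMulCommutative ↥Q ∧ ∃! x : ↥Q, orderOf x = 2 := by
  have hn' : ∀ i, ((C i).map (center S).subtype).Normal := fun i => (hCq i).1
  have hsq : ∀ i, ∀ w ∈ center S, w ^ 2 ∈ (C i).map (center S).subtype := fun i w hw =>
    ⟨⟨w, hw⟩ ^ 2, pow_mem_of_index_eq_prime (hS.to_subgroup _)
      (index_eq_prime_of_isCoatom (hS.to_subgroup _) (hCmax i)) _, rfl⟩
  have hbot : ∀ g : S, (∀ i, g ∈ (C i).map (center S).subtype) → g = 1 := fun g hg => by
    have h1 : g ∈ center S := map_subtype_le _ (hg ⟨0, by omega⟩)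
    have h2 : (⟨g, h1⟩ : center S) ∈ ⨅ i, C i := mem_iInf.mpr fun i => by
      obtain ⟨y, hy, hyg⟩ := hg i
      exact (Subtype.ext hyg : y = ⟨g, h1⟩) ▸ hy
    rw [hCint, mem_bot] at h2
    exact congrArg Subtype.val h2
  have hu : ∀ i, ∀ g h : S, g ∉ (C i).map (center S).subtype → h ∉ (C i).map (center S).subtype →
      g ^ 2 ∈ (C i).map (center S).subtype → h ^ 2 ∈ (C i).map (center S).subtype →
      g⁻¹ * h ∈ (C i).map (center S).subtype := fun i g h hg hh hg2 hh2 => by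
    rw [← QuotientGroup.eq_one_iff] at hg hh hg2 hh2
    exact QuotientGroup.eq.mp
      ((hCq i).2.2.unique (orderOf_eq_prime hg2 hg) (orderOf_eq_prime hh2 hh))
  have hZ : ∀ i, ∀ g : S, g ^ 2 ∈ (C i).map (center S).subtype → g ∈ center S := fun i g hg => by
    by_cases h : g ∈ (C i).map (center S).subtype
    · exact map_subtype_le _ h
    obtain ⟨w, -, hw⟩ := SetLike.exists_of_lt (hCmax i).lt_top
    have := hu i w g (by rintro ⟨y, hy, hyw⟩; exact hw (Subtype.ext hyw ▸ hy)) h (hsq i w w.2) hg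
    simpa using mul_mem w.2 (map_subtype_le _ this)
  set i : Fin n := ⟨0, by omega⟩
  set E := (C i).map (center S).subtype with hE
  have key : ∀ g h : S, orderOf (QuotientGroup.mk' E g) = 2 ^ 2 →
      orderOf (QuotientGroup.mk' E h) = 2 ^ 2 → g ^ 2 = h ^ 2 := by
    have h1 : ∀ g : S, orderOf (QuotientGroup.mk' E g) = 2 ^ 2 → g ∉ center S ∧ g ^ 2 ∈ center S :=
      fun g hg => ⟨fun hc => by
        have h0 : QuotientGroup.mk' E g ^ 2 = 1 := (QuotientGroup.eq_one_iff _).mpr (hsq i g hc)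
        have := orderOf_dvd_of_pow_eq_one h0
        rw [hg] at this
        norm_num at this, hZ i _ ((QuotientGroup.eq_one_iff _).mp (by
          rw [← pow_mul]; exact (hg ▸ pow_orderOf_eq_one _ : QuotientGroup.mk' E g ^ 2 ^ 2 = 1)))⟩
    intro g h hg hh
    exact inv_mul_eq_one.mp (hbot _ fun j => hu j _ _ (fun h2 => (h1 g hg).1 (hZ j g h2))
      (fun h2 => (h1 h hh).1 (hZ j h h2)) (hsq j _ (h1 g hg).2) (hsq j _ (h1 h hh).2))
  obtain ⟨a, x, m, hm, ha, hx, htop, hc, h1, h2⟩ :=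
    exists_gens_of_unique_involution (hS.to_quotient E) (hCq i).2.1 (hCq i).2.2
  obtain ⟨a, rfl⟩ := QuotientGroup.mk'_surjective E a
  obtain ⟨x, rfl⟩ := QuotientGroup.mk'_surjective E x
  obtain ⟨m, rfl⟩ : ∃ k, m = k + 2 := ⟨m - 2, by omega⟩
  rw [show m + 2 - 1 = m + 1 from rfl] at h2
  have o1 := orderOf_pow_prime_pow Nat.prime_two ha (k := m + 1) (by omega)
  have o2 := orderOf_pow_prime_pow Nat.prime_two ha (k := m) (by omega)
  rw [show m + 2 - (m + 1) = 1 by omega, pow_one] at o1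
  rw [show m + 2 - m = 2 by omega, ← map_pow] at o2
  have o3 : ∀ g : S ⧸ E, g ^ 2 = QuotientGroup.mk' E a ^ 2 ^ (m + 1) → orderOf g = 2 ^ 2 :=
    fun g hg => orderOf_eq_prime_pow (by rw [pow_one, hg, ← orderOf_eq_one_iff, o1]; norm_num)
      (by
        rw [pow_succ, pow_mul, pow_one, hg]
        exact orderOf_dvd_iff_pow_eq_one.mp (by rw [o1]))
  have e1 := key _ _ (o3 _ ((sq _).trans h2)) o2
  have e2 := key (a * x) _ (o3 _ (by
    rw [map_mul, ← h2, sq, mul_assoc, ← mul_assoc _ (QuotientGroup.mk' E a),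
      mul_inv_eq_iff_eq_mul.mp h1]; group)) (o3 _ ((sq _).trans h2))
  have e3 : x * a * x⁻¹ = a⁻¹ := by
    rw [sq, sq] at e2
    calc x * a * x⁻¹ = a⁻¹ * (a * x * (a * x)) * x⁻¹ * x⁻¹ := by group
      _ = _ := by rw [e2]; group
  have e4 : Nat.card (zpowers a ⊔ zpowers x : Subgroup S) ≤ 2 ^ (m + 2 + 1) := by
    rw [card_sup_zpowers Nat.prime_two (mem_normalizer_zpowers (e3 ▸ inv_mem (mem_zpowers a)))
      (fun h => hx (by rw [← MonoidHom.map_zpowers]; exact mem_map_of_mem _ h))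
      (e1 ▸ pow_mem (npow_mem_zpowers a _) 2), pow_succ', Nat.card_zpowers]
    refine Nat.mul_le_mul_left 2 (Nat.le_of_dvd (by positivity) (orderOf_dvd_of_pow_eq_one ?_))
    rw [pow_succ, pow_succ, pow_mul, pow_mul]
    refine hbot _ fun j => hsq j _ (hZ i _ ((QuotientGroup.eq_one_iff _).mp ?_))
    rw [← pow_mul]; exact (o2 ▸ pow_orderOf_eq_one _ : QuotientGroup.mk' E _ ^ 2 ^ 2 = 1)
  set Q := zpowers a ⊔ zpowers x
  have hsurj : Function.Surjective ((QuotientGroup.mk' E).comp Q.subtype) := by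
    rw [← MonoidHom.range_eq_top, ← MonoidHom.map_range, range_subtype, Subgroup.map_sup,
      MonoidHom.map_zpowers, MonoidHom.map_zpowers, htop]
  have hbij := hsurj.bijective_of_nat_card_le (hc ▸ e4)
  let e := MulEquiv.ofBijective _ hbij
  refine ⟨E, Q, ⟨le_top, le_top, fun u hu v _ => (mem_center_iff.mp (map_subtype_le _ hu) v).symm,
    eq_bot_iff.mpr fun g hg => ?_, eq_top_iff.mpr fun g _ => ?_⟩,
    ⟨inferInstance, fun g hg => hbot _ fun j => hsq j g (map_subtype_le _ hg)⟩,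
    fun _ => (hCq i).2.1 ⟨⟨fun u v => ?_⟩⟩, ?_⟩
  · exact congrArg Subtype.val ((injective_iff_map_eq_one _).mp hbij.1 ⟨g, hg.2⟩
      ((QuotientGroup.eq_one_iff g).mpr hg.1))
  · obtain ⟨q, hq⟩ := hsurj (QuotientGroup.mk' E g)
    simpa using mul_mem (mem_sup_right q.2) (mem_sup_left (QuotientGroup.eq.mp hq) : _ ∈ E ⊔ Q)
  · obtain ⟨u, rfl⟩ := e.surjective u
    obtain ⟨v, rfl⟩ := e.surjective v
    rw [← map_mul, ← map_mul, mul_comm']
  · exact (e.toEquiv.existsUnique_congr fun g => by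
      rw [MulEquiv.toEquiv_eq_coe, EquivLike.coe_coe, MulEquiv.orderOf_eq]).mpr (hCq i).2.2

end Cfsg.Agent.S3201
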