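import Cfsg.Statements.S3202
import Cfsg.Agent.Solv.UniqueInvol

set_option autoImplicit false
open Cfsg

namespace Cfsg.Agent.S3202

open Subgroup Cfsg.Lib.Solv.PG

/-- Let S be a finite 2-group of 2-rank exactly 2 and D a maximal subgroup of the centre of S such that S/D is a non-abelian group with exactly one involution (a generalized quaternion group). Then S has a nontrivial cyclic characteristic subgroup. -/
theorem result {S : Type*} [Group S]
    [Finite S] (hS : IsPGroup 2 S) (hr2 : Cfsg.PRankLE 2 2 S) (hr1 : ¬ Cfsg.PRankLE 2 1 S)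
    (D : Subgroup ↥(Subgroup.center S)) (hD : IsCoatom D)
    (hq : ∃ (_ : (D.map (Subgroup.center S).subtype).Normal),
      ¬ IsMulCommutative (S ⧸ D.map (Subgroup.center S).subtype) ∧
      ∃! x : S ⧸ D.map (Subgroup.center S).subtype, orderOf x = 2) :
    ∃ C : Subgroup S, C ≠ ⊥ ∧ IsCyclic ↥C ∧ C.Characteristic := by
  obtain ⟨hn, hna, hu⟩ := hq
  set D' := D.map (center S).subtype with hD'
  obtain ⟨a, x, n, -, -, -, htop, -, h1, -⟩ :=
    exists_gens_of_unique_involution (hS.to_quotient D') hna hu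
  obtain ⟨a, rfl⟩ := QuotientGroup.mk'_surjective D' a
  obtain ⟨x, rfl⟩ := QuotientGroup.mk'_surjective D' x
  have h2 : D' ⊔ zpowers a = (zpowers (QuotientGroup.mk' D' a)).comap (QuotientGroup.mk' D') := by
    rw [← MonoidHom.map_zpowers, comap_map_eq, QuotientGroup.ker_mk', sup_comm]
  have h3 := commutator_eq_zpowers_of_central (map_subtype_le D) (a := a) (x := x) (by
    rw [h2]
    exact le_normalizer_comap _ (mem_normalizer_zpowers (h1 ▸ inv_mem (mem_zpowers _)))) (by
    rw [← comap_top (QuotientGroup.mk' D'), ← htop, ← MonoidHom.map_zpowers,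
      ← MonoidHom.map_zpowers, ← Subgroup.map_sup, comap_map_eq, QuotientGroup.ker_mk', sup_comm _ D',
      sup_assoc])
  refine ⟨commutator S, fun h => hna ?_, h3 ▸ inferInstance, inferInstance⟩
  have := isMulCommutative_iff_commutator_eq_bot'.mpr h
  refine ⟨⟨fun u v => ?_⟩⟩
  obtain ⟨u, rfl⟩ := QuotientGroup.mk'_surjective D' u
  obtain ⟨v, rfl⟩ := QuotientGroup.mk'_surjective D' v
  rw [← map_mul, ← map_mul, mul_comm']

end Cfsg.Agent.S3202
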