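import Cfsg.Statements.S3208
import Cfsg.Agent.Trans.SylowIn

set_option autoImplicit false
open Cfsg

namespace Cfsg.Agent.S3208

open Cfsg.Lib.Trans

/-- Let j be an involution of a finite group G, H a subgroup of G, and T a Sylow 2-subgroup of H ∩ C_G(j) containing j such that ⟨j⟩ is a characteristic subgroup of T. Then T is a Sylow 2-subgroup of H. -/
theorem result {G : Type*} [Group G] [Finite G]
    (j : G) (hj : orderOf j = 2) (H T : Subgroup G) (hT : T ≤ H ⊓ Subgroup.centralizer ({j} : Set G)) (h2 : IsPGroup 2 ↥T)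
    (hSyl : ¬ 2 ∣ T.relIndex (H ⊓ Subgroup.centralizer ({j} : Set G))) (hjT : j ∈ T)
    (hchar : ((Subgroup.zpowers j).subgroupOf T).Characteristic) :
    ¬ 2 ∣ T.relIndex H := by
  have hS : IsSylowIn 2 T (H ⊓ Subgroup.centralizer ({j} : Set G)) := ⟨hT, h2, hSyl⟩
  obtain ⟨Q, hQ, hTQ⟩ := exists_isSylowIn_ge h2 (hT.trans inf_le_left)
  by_cases hEq : T = Q
  · rw [hEq]; exact hQ.not_dvd
  exfalso
  have hlt := lt_inf_normalizer hQ.isPGroup (lt_of_le_of_ne hTQ hEq)
  refine hlt.ne (hS.eq_of_le hQ.isPGroup.to_inf_left hlt.le ?_).symm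
  refine le_inf (inf_le_left.trans hQ.le) ?_
  rintro g ⟨-, hg⟩
  have hg' : g ∈ Subgroup.normalizer (T : Set G) := hg
  have hfix := hchar.fixed (T.normalizerMonoidHom ⟨g, hg'⟩)
  have hj' : (⟨j, hjT⟩ : T) ∈ (Subgroup.zpowers j).subgroupOf T := Subgroup.mem_zpowers j
  rw [← hfix] at hj'
  have hm : g * j * g⁻¹ ∈ Subgroup.zpowers j := hj'
  rw [Subgroup.mem_centralizer_singleton_iff]
  have hj2 : j ^ 2 = 1 := by rw [← hj]; exact pow_orderOf_eq_one j
  rw [← mem_powers_iff_mem_zpowers] at hm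
  obtain ⟨n, hn⟩ := hm
  simp only at hn
  rcases Nat.even_or_odd' n with ⟨m, rfl | rfl⟩
  · rw [pow_mul, hj2, one_pow] at hn
    have : j = 1 := by
      have h3 : j = g⁻¹ * (g * j * g⁻¹) * g := by group
      rw [h3, ← hn]; group
    rw [this, orderOf_one] at hj
    omega
  · rw [pow_succ, pow_mul, hj2, one_pow, one_mul] at hn
    calc g * j = (g * j * g⁻¹) * g := by group
      _ = j * g := by rw [← hn]

end Cfsg.Agent.S3208
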