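import Cfsg.Statements.S3209
import Cfsg.Agent.Local.SL2Pair
import Cfsg.Agent.Local.InvolCount

set_option autoImplicit false
open Cfsg

namespace Cfsg.Agent.S3209

open Cfsg.Lib.Local Cfsg.Lib.Local.SL2

/-- Let L₁ ≅ SL₂(q₁) and L₂ ≅ SL₂(q₂), q₁ and q₂ odd, be elementwise-commuting subgroups of a finite group meeting in ⟨j⟩ for an involution j. Then L₁L₂ has exactly two conjugacy classes of involutions: the central involution j, and one further class (there is an involution x ≠ j in L₁L₂, and every involution of L₁L₂ other than j is conjugate to x by an element of L₁L₂). -/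
theorem result {G : Type*} [Group G] [Finite G]
    {F₁ : Type*} [Field F₁] [Fintype F₁] {F₂ : Type*} [Field F₂] [Fintype F₂]
    (hF₁ : Odd (Fintype.card F₁)) (hF₂ : Odd (Fintype.card F₂)) (L₁ L₂ : Subgroup G)
    (e₁ : ↥L₁ ≃* Matrix.SpecialLinearGroup (Fin 2) F₁) (e₂ : ↥L₂ ≃* Matrix.SpecialLinearGroup (Fin 2) F₂)
    (hc : ∀ x ∈ L₁, ∀ y ∈ L₂, x * y = y * x) (j : G) (hj : orderOf j = 2) (hm : L₁ ⊓ L₂ = Subgroup.zpowers j) :
    ∃ x ∈ L₁ ⊔ L₂, orderOf x = 2 ∧ x ≠ j ∧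
      ∀ y ∈ L₁ ⊔ L₂, orderOf y = 2 → y = j ∨ ∃ g ∈ L₁ ⊔ L₂, g * x * g⁻¹ = y := by
  have hj12 : j ∈ L₁ ⊓ L₂ := hm ▸ Subgroup.mem_zpowers j
  set a₀ : G := (e₁.symm (w F₁)).1 with ha₀
  set b₀ : G := (e₂.symm (w F₂)).1 with hb₀
  have ha₀L : a₀ ∈ L₁ := (e₁.symm (w F₁)).2
  have hb₀L : b₀ ∈ L₂ := (e₂.symm (w F₂)).2
  have h1 : a₀ * a₀ = j := sub_w_sq e₁ hF₁ hj hj12.1
  have h2 : b₀ * b₀ = j := sub_w_sq e₂ hF₂ hj hj12.2
  have hsq : ∀ a ∈ L₁, ∀ b ∈ L₂, a * b * (a * b) = a * a * (b * b) := fun a ha b hb => by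
    rw [mul_assoc, ← mul_assoc b, ← hc a ha b hb]; simp only [mul_assoc]
  have hnot : a₀ * b₀ ∉ Subgroup.zpowers j := by
    intro h
    have h3 : a₀ ∈ L₁ ⊓ L₂ :=
      ⟨ha₀L, (mul_mem_cancel_right hb₀L).1 ((Subgroup.zpowers_le.2 hj12.2) h)⟩
    rw [hm, mem_zpowers_j hj] at h3
    rcases h3 with h3 | h3 <;> rw [h3] at h1
    · exact invol_ne_one hj (by simpa using h1.symm)
    · exact invol_ne_one hj (by simpa using h1)
  refine ⟨a₀ * b₀, mul_mem (Subgroup.mem_sup_left ha₀L) (Subgroup.mem_sup_right hb₀L),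
    invol_of_mul_self (by rw [hsq _ ha₀L _ hb₀L, h1, h2, invol_mul_self hj])
      (fun h => hnot (h ▸ one_mem _)), fun h => hnot (h ▸ Subgroup.mem_zpowers j), ?_⟩
  intro y hy hy2
  obtain ⟨a, ha, b, hb, rfl⟩ := mem_sup_comm hc hy
  have h3 := invol_mul_self hy2
  rw [hsq a ha b hb] at h3
  have h4 : a * a ∈ L₁ ⊓ L₂ := Subgroup.mem_inf.2 ⟨mul_mem ha ha, by
    rw [eq_inv_of_mul_eq_one_left h3]; exact inv_mem (mul_mem hb hb)⟩
  rw [hm, mem_zpowers_j hj] at h4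
  rcases h4 with h4 | h4
  · left
    rw [h4, one_mul] at h3
    exact ((mem_zpowers_j hj).1 (mul_mem (sub_sq_one e₁ hF₁ hj hj12.1 ha h4)
      (sub_sq_one e₂ hF₂ hj hj12.2 hb h3))).resolve_left (invol_ne_one hy2)
  · right
    rw [h4, ← invol_mul_self hj, mul_right_inj] at h3
    obtain ⟨g, hg, hga⟩ := sub_conj e₁ hF₁ hj hj12.1 ha h4
    obtain ⟨k, hk, hkb⟩ := sub_conj e₂ hF₂ hj hj12.2 hb h3
    refine ⟨g * k, mul_mem (Subgroup.mem_sup_left hg) (Subgroup.mem_sup_right hk), ?_⟩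
    rw [← ha₀] at hga
    rw [← hb₀] at hkb
    calc g * k * (a₀ * b₀) * (g * k)⁻¹ = g * (k * a₀) * b₀ * k⁻¹ * g⁻¹ := by group
      _ = g * a₀ * (k * b₀ * k⁻¹) * g⁻¹ := by rw [← hc a₀ ha₀L k hk]; group
      _ = g * a₀ * (b * g⁻¹) := by rw [hkb, mul_assoc]
      _ = a * b := by rw [← hc _ (inv_mem hg) b hb, ← hga]; group

end Cfsg.Agent.S3209
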