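import Cfsg.Statements.S3213
import Mathlib

set_option autoImplicit false
open Cfsg

namespace Cfsg.Agent.S3213

open Matrix Module

theorem dec1 : ∀ a b c d : ZMod 5, a * d - b * c = 1 → !![a, b; c, d] ^ 3 = 1 → !![a, b; c, d] ≠ 1 →
    ∃ t : ZMod 5, trace (!![a, b; c, d] * (!![1, t; 0, 1] * !![a, b; c, d] * !![1, -t; 0, 1])) = -2 ∧
      (!![a, b; c, d] * (!![1, t; 0, 1] * !![a, b; c, d] * !![1, -t; 0, 1])) ^ 2 ≠ 1 := by
  decide +kernel

theorem dec2 : ∀ a b c d : ZMod 5, a * d - b * c = 1 → a + d = -2 → !![a, b; c, d] ^ 10 = 1 := by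
  decide +kernel

theorem five0 (x : SpecialLinearGroup (Fin 2) (ZMod 5)) (h3 : x ^ 3 = 1) (h1 : x ≠ 1) :
    ∃ h : SpecialLinearGroup (Fin 2) (ZMod 5),
      (x * (h * x * h⁻¹)) ^ 10 = 1 ∧ (x * (h * x * h⁻¹)) ^ 2 ≠ 1 := by
  have e := Matrix.eta_fin_two x.1
  have hd := x.2
  rw [det_fin_two] at hd
  obtain ⟨t, ht1, ht2⟩ := dec1 _ _ _ _ hd (by rw [← e]; exact congrArg Subtype.val h3)
    (by rw [← e]; exact fun h => h1 (Subtype.ext h))
  rw [← e] at ht1 ht2
  let h : SpecialLinearGroup (Fin 2) (ZMod 5) := ⟨!![1, t; 0, 1], by simp [det_fin_two]⟩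
  have hi : (h⁻¹).1 = !![1, -t; 0, 1] := by
    refine (Matrix.SpecialLinearGroup.coe_inv h).trans ?_
    simp [h, adjugate_fin_two]
  have hw : (x * (h * x * h⁻¹)).1 = x.1 * (!![1, t; 0, 1] * x.1 * !![1, -t; 0, 1]) := by
    rw [← hi]; rfl
  refine ⟨h, ?_, fun h2 => ht2 (by rw [← hw]; exact congrArg Subtype.val h2)⟩
  rw [← hw] at ht1
  generalize x * (h * x * h⁻¹) = w at ht1
  have e := Matrix.eta_fin_two w.1
  have hd := w.2
  rw [det_fin_two] at hd
  rw [trace_fin_two] at ht1
  have := dec2 _ _ _ _ hd ht1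
  rw [← e] at this
  exact Subtype.ext this

theorem five {K : Type*} [Field K] [Fintype K] (hK : Fintype.card K = 5)
    (x : SpecialLinearGroup (Fin 2) K) (hx : orderOf x = 3) :
    ∃ h : SpecialLinearGroup (Fin 2) K, (x * (h * x * h⁻¹)) ^ 10 = 1 ∧ (x * (h * x * h⁻¹)) ^ 2 ≠ 1 := by
  let e : ZMod 5 ≃+* K := ZMod.ringEquivOfPrime K Nat.prime_five hK
  let f := SpecialLinearGroup.map (n := Fin 2) (e : ZMod 5 →+* K)
  let g := SpecialLinearGroup.map (n := Fin 2) (e.symm : K →+* ZMod 5)
  have hfg : ∀ y, f (g y) = y := fun y => by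
    ext i j; simp [f, g]
  have hgf : ∀ y, g (f y) = y := fun y => by
    ext i j; simp [f, g]
  obtain ⟨h, h1, h2⟩ := five0 (g x) (by rw [← map_pow, ← hx, pow_orderOf_eq_one, map_one])
    (fun h => by
      have := hfg x
      rw [h, map_one] at this
      rw [← this, orderOf_one] at hx
      omega)
  refine ⟨f h, ?_, fun h3 => h2 ?_⟩
  · have := congrArg f h1
    simpa only [map_pow, map_mul, map_inv, map_one, hfg] using this
  · have := congrArg g h3
    simpa only [map_pow, map_mul, map_inv, map_one, hgf] using this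

section Lin

variable {F : Type*} [Field F] {V : Type*} [AddCommGroup V] [Module F V] [FiniteDimensional F V]

theorem fix_five [Fintype F] (hF : Fintype.card F = 3) (hV : finrank F V = 4) (y : Module.End F V)
    (h5 : y ^ 5 = 1) (h2 : 2 ≤ finrank F (LinearMap.ker (y - 1))) : y = 1 := by
  classical
  have : Finite V := Module.finite_of_finite F
  let _ := Fintype.ofFinite V
  have : Fact (Nat.Prime 5) := ⟨Nat.prime_five⟩
  have h := Equiv.Perm.card_fixedPoints_modEq (f := (y : V → V)) (p := 5) (n := 1) (by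
    funext v
    have := congrArg (fun z : Module.End F V => z v) h5
    have h : y (y (y (y (y v)))) = v := by simpa [pow_succ] using this
    exact h)
  have e1 : Fintype.card V = 3 ^ 4 := by rw [Module.card_eq_pow_finrank (K := F), hF, hV]
  have e2 : Fintype.card (Function.fixedPoints (y : V → V)) = 3 ^ finrank F (LinearMap.ker (y - 1)) := by
    rw [← hF, ← Nat.card_eq_fintype_card, ← Nat.card_eq_fintype_card, ← Module.natCard_eq_pow_finrank]
    refine Nat.card_congr (Equiv.subtypeEquivRight fun v => ?_)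
    simp [Function.IsFixedPt, sub_eq_zero]
  have h4 : finrank F (LinearMap.ker (y - 1)) ≤ 4 := hV ▸ Submodule.finrank_le _
  rw [e1] at h
  replace h := h.trans (by rw [e2] : _ ≡ 3 ^ finrank F (LinearMap.ker (y - 1)) [MOD 5])
  have h4' : finrank F (LinearMap.ker (y - 1)) = 4 := by
    generalize finrank F (LinearMap.ker (y - 1)) = k at h h2 h4
    interval_cases k <;> simp_all [Nat.ModEq]
  have := Submodule.eq_top_of_finrank_eq (h4'.trans hV.symm)
  rwa [LinearMap.ker_eq_top, sub_eq_zero] at this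

theorem lin (h3 : (3 : F) = 0) (hV : finrank F V = 4) (B : V →ₗ[F] V →ₗ[F] F)
    (hB : ∀ v w, B v w = -B w v) (hnd : ∀ v, (∀ w, B v w = 0) → v = 0) (g : Module.End F V)
    (hg : ∀ v w, B (g v) (g w) = B v w) (hg3 : ∀ v, g (g (g v)) = v)
    (hk : finrank F (LinearMap.ker (g - 1)) ≤ 2) :
    finrank F (LinearMap.ker (g - 1)) = 2 ∧ ∀ v w, g v = v → g w = w → B v w = 0 := by
  have h2 : (2 : F) ≠ 0 := fun h => one_ne_zero (α := F) (by linear_combination h3 - h)
  have hrn := LinearMap.finrank_range_add_finrank_ker (g - 1)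
  rw [hV] at hrn
  set T : Module.End F V := (g - 1) * (g - 1) with hT
  have hTv : ∀ v, T v = g (g v) + g v + v := by
    intro v
    have : (3 : F) • g v = 0 := by rw [h3, zero_smul]
    simp only [hT, Module.End.mul_apply, LinearMap.sub_apply, Module.End.one_apply, map_sub]
    linear_combination (norm := module) -this
  have hs : ∀ v w, B (T v) w = B v (T w) := by
    intro v w
    have a1 := hg (g (g v)) w
    have a2 := hg v (g (g w))
    rw [hg3] at a1 a2
    simp only [hTv, map_add, LinearMap.add_apply]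
    rw [← a1, ← a2]; ring
  have hs0 : ∀ v, B (T v) v = 0 := by
    intro v
    have := hs v v
    rw [hB v] at this
    have h : (2 : F) * B (T v) v = 0 := by linear_combination this
    exact (mul_eq_zero.1 h).resolve_left h2
  have hSK : LinearMap.range T ≤ LinearMap.ker (g - 1) := by
    rintro _ ⟨v, rfl⟩
    rw [LinearMap.mem_ker, LinearMap.sub_apply, Module.End.one_apply, hTv, map_add, map_add, hg3]
    abel
  have hSR : LinearMap.range T ≤ LinearMap.range (g - 1) := by
    rintro _ ⟨v, rfl⟩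
    exact ⟨_, rfl⟩
  have hT0 : T = 0 := by
    by_contra hne
    have hr0 : finrank F (LinearMap.range T) ≠ 0 := by
      rw [ne_eq, Submodule.finrank_eq_zero, LinearMap.range_eq_bot]; exact hne
    have hr1 : finrank F (LinearMap.range T) ≠ 1 := by
      intro h1
      obtain ⟨v, hv⟩ : ∃ v, T v ≠ 0 := by
        by_contra h; push Not at h; exact hne (LinearMap.ext h)
      apply hv
      apply hnd
      intro w
      have hv' : (⟨T v, v, rfl⟩ : LinearMap.range T) ≠ 0 := fun h => hv (congrArg Subtype.val h)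
      obtain ⟨c, hc⟩ := (finrank_eq_one_iff_of_nonzero' _ hv').1 h1 ⟨T w, w, rfl⟩
      have hc' : c • T v = T w := congrArg Subtype.val hc
      rw [hs, ← hc', map_smul, hB v, hs0]; simp
    have a1 := Submodule.finrank_mono hSK
    have a2 := Submodule.finrank_mono hSR
    have e1 := Submodule.eq_of_le_of_finrank_le hSK (by omega)
    have e2 := Submodule.eq_of_le_of_finrank_le hSR (by omega)
    apply hne
    ext v
    have : (g - 1) v ∈ LinearMap.ker (g - 1) := by rw [← e1, e2]; exact ⟨v, rfl⟩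
    exact this
  have hRK : LinearMap.range (g - 1) ≤ LinearMap.ker (g - 1) := by
    rintro _ ⟨v, rfl⟩
    exact congrArg (fun z : Module.End F V => z v) hT0
  have a1 := Submodule.finrank_mono hRK
  have e1 := Submodule.eq_of_le_of_finrank_le hRK (by omega)
  refine ⟨by omega, fun v w hv hw => ?_⟩
  have : w ∈ LinearMap.range (g - 1) := by
    rw [e1, LinearMap.mem_ker, LinearMap.sub_apply, hw, Module.End.one_apply, sub_self]
  obtain ⟨u, rfl⟩ := this
  rw [LinearMap.sub_apply, Module.End.one_apply, map_sub, ← hg v u, hv, sub_self]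

theorem ker_le [Fintype F] (hF : Fintype.card F = 3) (hV : finrank F V = 4) {G : Type*} [Group G]
    (ρ : G →* Module.End F V) (hρ : Function.Injective ρ) (x h : G)
    (h1 : (x * (h * x * h⁻¹)) ^ 10 = 1) (h2 : (x * (h * x * h⁻¹)) ^ 2 ≠ 1) :
    finrank F (LinearMap.ker (ρ x - 1)) ≤ 2 := by
  by_contra hk
  apply h2
  apply hρ
  rw [map_one]
  apply fix_five hF hV
  · rw [← map_pow, ← pow_mul, h1, map_one]
  have hinj : Function.Injective (ρ h) := by
    intro a b hab
    have := congrArg (ρ h⁻¹) hab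
    rwa [← Module.End.mul_apply, ← Module.End.mul_apply, ← map_mul, inv_mul_cancel, map_one] at this
  have e := (Submodule.equivMapOfInjective (ρ h) hinj (LinearMap.ker (ρ x - 1))).finrank_eq
  have hs := Submodule.finrank_sup_add_finrank_inf_eq (LinearMap.ker (ρ x - 1))
    ((LinearMap.ker (ρ x - 1)).map (ρ h))
  have h4 := Submodule.finrank_le (LinearMap.ker (ρ x - 1) ⊔ (LinearMap.ker (ρ x - 1)).map (ρ h))
  have hle : LinearMap.ker (ρ x - 1) ⊓ (LinearMap.ker (ρ x - 1)).map (ρ h) ≤
      LinearMap.ker (ρ ((x * (h * x * h⁻¹)) ^ 2) - 1) := by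
    rintro v ⟨hv, u, hu, rfl⟩
    simp only [SetLike.mem_coe, LinearMap.mem_ker, LinearMap.sub_apply, Module.End.one_apply,
      sub_eq_zero] at hv hu ⊢
    have : ρ (x * (h * x * h⁻¹)) (ρ h u) = ρ h u := by
      rw [← Module.End.mul_apply, ← map_mul, mul_assoc, inv_mul_cancel_right, map_mul, map_mul,
        Module.End.mul_apply, Module.End.mul_apply, hu, hv]
    rw [pow_two, map_mul, Module.End.mul_apply, this, this]
  have := Submodule.finrank_mono hle
  omega

end Lin

/-- Let F be the field with 3 elements and K the field with 5 elements. For every injective homomorphism φ from SL₂(K) into the symplectic group Sp₄(F) (4 × 4 matrices g with g J gᵀ = J for the standard alternating matrix J) and every element x of order 3 of SL₂(K), the vectors of F⁴ fixed by φ(x) form a 2-dimensional subspace that is totally isotropic for the alternating form defined by J. -/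
theorem result {F : Type*} [Field F] [Fintype F] (hF : Fintype.card F = 3)
    {K : Type*} [Field K] [Fintype K] (hK : Fintype.card K = 5)
    (φ : Matrix.SpecialLinearGroup (Fin 2) K →* ↥(Matrix.symplecticGroup (Fin 2) F)) (hφ : Function.Injective φ)
    (x : Matrix.SpecialLinearGroup (Fin 2) K) (hx : orderOf x = 3) :
    Module.finrank F ↥(LinearMap.ker (Matrix.toLin' ((φ x : Matrix (Fin 2 ⊕ Fin 2) (Fin 2 ⊕ Fin 2) F)) - LinearMap.id)) = 2 ∧
      ∀ v w : Fin 2 ⊕ Fin 2 → F, (φ x : Matrix (Fin 2 ⊕ Fin 2) (Fin 2 ⊕ Fin 2) F).mulVec v = v →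
        (φ x : Matrix (Fin 2 ⊕ Fin 2) (Fin 2 ⊕ Fin 2) F).mulVec w = w →
          dotProduct v ((Matrix.J (Fin 2) F).mulVec w) = 0 := by
  classical
  let ρ : SpecialLinearGroup (Fin 2) K →* Module.End F (Fin 2 ⊕ Fin 2 → F) :=
    (Matrix.toLinAlgEquiv' (R := F) (n := Fin 2 ⊕ Fin 2)).toMulEquiv.toMonoidHom.comp
      ((Matrix.symplecticGroup (Fin 2) F).subtype.comp φ)
  have hρ : Function.Injective ρ :=
    (Matrix.toLinAlgEquiv' (R := F) (n := Fin 2 ⊕ Fin 2)).injective.comp (Subtype.val_injective.comp hφ)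
  have hρv : ∀ y v, ρ y v = (φ y : Matrix (Fin 2 ⊕ Fin 2) (Fin 2 ⊕ Fin 2) F) *ᵥ v := fun _ _ => rfl
  have hV : finrank F (Fin 2 ⊕ Fin 2 → F) = 4 := by simp
  obtain ⟨h, h1, h2⟩ := five hK x hx
  have hk := ker_le hF hV ρ hρ x h h1 h2
  have h3 : (3 : F) = 0 := by
    have := FiniteField.cast_card_eq_zero F
    rw [hF] at this
    exact_mod_cast this
  have := lin h3 hV (Matrix.toLinearMap₂' F (Matrix.J (Fin 2) F)) (fun v w => by
      rw [Matrix.toLinearMap₂'_apply', Matrix.toLinearMap₂'_apply', dotProduct_mulVec, ← mulVec_transpose,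
        Matrix.J_transpose, neg_mulVec, dotProduct_comm, dotProduct_neg])
    (fun v hv => by
      have h0 : v ᵥ* Matrix.J (Fin 2) F = 0 := by
        apply dotProduct_eq_zero
        intro w
        rw [← dotProduct_mulVec, ← Matrix.toLinearMap₂'_apply', hv]
      have := congrArg (fun u => u ᵥ* Matrix.J (Fin 2) F) h0
      simpa [vecMul_vecMul, Matrix.J_squared, vecMul_neg] using this) (ρ x)
    (fun v w => by
      rw [Matrix.toLinearMap₂'_apply', Matrix.toLinearMap₂'_apply', hρv, hρv, mulVec_mulVec,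
        dotProduct_mulVec, vecMul_mulVec, ← Matrix.mul_assoc, SymplecticGroup.mem_iff'.1 (φ x).2,
        ← dotProduct_mulVec])
    (fun v => by
      rw [← Module.End.mul_apply, ← Module.End.mul_apply, ← map_mul, ← map_mul, ← pow_three', ← hx,
        pow_orderOf_eq_one, map_one, Module.End.one_apply]) hk
  refine ⟨this.1, fun v w hv hw => ?_⟩
  rw [← Matrix.toLinearMap₂'_apply']
  exact this.2 v w hv hw

end Cfsg.Agent.S3213
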