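import Cfsg.Statements.S3215
import Cfsg.Agent.Solv.FrobeniusComplement
import Cfsg.Agent.Solv.PConstrained
import Cfsg.Agent.Solv.NilpotentHall
import Cfsg.Agent.Solv.CyclicP
import Cfsg.Agent.Solv.CoprimeFixed

set_option autoImplicit false
open Cfsg

namespace Cfsg.Agent.S3215

open Subgroup Cfsg.Lib.Solv

theorem stepA {H : Type*} [Group H] [Finite H]
    (hC : centralizer (pCore 2 H : Set H) ≤ pCore 2 H)
    (hI : ∀ t : H, orderOf t = 2 → Cfsg.HasNormalPComplement 2 ↥(Subgroup.centralizer ({t} : Set H)))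
    {x y : H} (hx : Odd (orderOf x)) (hy : 2 ∣ orderOf y) (hc : Commute x y) : x = 1 := by
  set t := y ^ (orderOf y / 2) with ht
  have ht2 : orderOf t = 2 := orderOf_pow_orderOf_div (orderOf_pos y).ne' hy
  have hxt : x ∈ centralizer ({t} : Set H) := by
    rw [mem_centralizer_singleton_iff]
    exact (hc.pow_right _).eq
  obtain ⟨P, N, hN, hcomp⟩ := hI t ht2
  have hz : centralizer ((zpowers t : Subgroup H) : Set H) = centralizer ({t} : Set H) := by
    rw [zpowers_eq_closure, centralizer_closure]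
  have hP : IsPGroup 2 (zpowers t) := IsPGroup.of_card (n := 1) (by rw [Nat.card_zpowers, ht2, pow_one])
  have h1 := centralizer_pCore_le_centralizer hC hP
  rw [hz] at h1
  have h2 := pPrimeCore_eq_bot_of_centralizer_le h1
  have hNc : (Nat.card N).Coprime 2 := by
    rw [← hcomp.index_eq_card]
    exact ((Nat.Prime.coprime_iff_not_dvd Nat.prime_two).2 P.not_dvd_index).symm
  have hN0 : N = ⊥ := le_bot_iff.1 (h2 ▸ le_pPrimeCore hN hNc)
  have hle : zpowers (⟨x, hxt⟩ : centralizer ({t} : Set H)) ≤ N := by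
    apply le_of_coprime_card_index
    rw [hcomp.symm.index_eq_card, Nat.card_zpowers, ← Subgroup.orderOf_coe]
    obtain ⟨k, hk⟩ := IsPGroup.iff_card.1 P.isPGroup'
    rw [hk]
    exact (Nat.coprime_two_right.2 hx).pow_right k
  have := hle (mem_zpowers _)
  rw [hN0, mem_bot] at this
  exact congrArg Subtype.val this

theorem stepB {H : Type*} [Group H] [Finite H]
    (hC : centralizer (pCore 2 H : Set H) ≤ pCore 2 H)
    (hI : ∀ t : H, orderOf t = 2 → Cfsg.HasNormalPComplement 2 ↥(Subgroup.centralizer ({t} : Set H)))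
    {x y : H ⧸ pCore 2 H} (hx : Odd (orderOf x)) (hy : 2 ∣ orderOf y) (hc : Commute x y) :
    x = 1 := by
  obtain ⟨g, rfl⟩ := QuotientGroup.mk'_surjective (pCore 2 H) x
  obtain ⟨a, m, hm, e⟩ := Nat.exists_eq_two_pow_mul_odd (orderOf_pos g).ne'
  have hodd : Odd (orderOf (g ^ 2 ^ a)) := by
    have : orderOf (g ^ 2 ^ a) ∣ m := orderOf_dvd_of_pow_eq_one (by
      rw [← pow_mul, ← e, pow_orderOf_eq_one])
    exact hm.of_dvd_nat this
  have hcop : (Nat.card (zpowers (g ^ 2 ^ a))).Coprime (Nat.card (pCore 2 H)) := by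
    rw [Nat.card_zpowers]
    exact (coprime_card_of_isPGroup (pCore_isPGroup 2 H) (Nat.coprime_two_right.2 hodd)).symm
  have hmap := Coprime.map_mk'_centralizer (A := zpowers (g ^ 2 ^ a)) (pCore 2 H) hcop
    (Or.inl (Coprime.isSolvable_zpowers _))
  have hy' : y ∈ centralizer ((zpowers (g ^ 2 ^ a)).map (QuotientGroup.mk' (pCore 2 H)) :
      Set (H ⧸ pCore 2 H)) := by
    rw [MonoidHom.map_zpowers, zpowers_eq_closure, centralizer_closure,
      mem_centralizer_singleton_iff, map_pow]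
    exact (hc.pow_left _).symm.eq
  rw [← hmap] at hy'
  obtain ⟨c, hc1, rfl⟩ := hy'
  have h1 : g ^ 2 ^ a = 1 := stepA hC hI hodd (hy.trans (orderOf_map_dvd _ c))
    (hc1 _ (mem_zpowers _))
  have h2 : (QuotientGroup.mk' (pCore 2 H) g) ^ 2 ^ a = 1 := by rw [← map_pow, h1, map_one]
  have h3 := orderOf_dvd_of_pow_eq_one h2
  exact orderOf_eq_one_iff.1 (Nat.Coprime.eq_one_of_dvd ((Nat.coprime_two_right.2 hx).pow_right a) h3)

/-- Let H be a finite solvable group with no nontrivial normal subgroup of odd order in which the centralizer of every involution has a normal 2-complement. Let X be a Hall 2'-subgroup of H (odd order, index a power of 2) and Y = O₂(H). Then no non-identity element of X commutes with a non-identity element of Y (so for X ≠ 1 the group XY is a Frobenius group with kernel Y), every Sylow subgroup of X is cyclic, XY is normal in H, and H/XY is a cyclic 2-group. -/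
theorem result {H : Type*} [Group H] [Finite H] (hsol : Group.IsSolvable H)
    (hO : Cfsg.oddCore H = ⊥)
    (hI : ∀ t : H, orderOf t = 2 → Cfsg.HasNormalPComplement 2 ↥(Subgroup.centralizer ({t} : Set H)))
    (X : Subgroup H) (hXodd : Odd (Nat.card X)) (hXidx : ∃ k : ℕ, X.index = 2 ^ k) :
    (∀ x ∈ X, x ≠ 1 → ∀ y ∈ Cfsg.pCore 2 H, y ≠ 1 → x * y ≠ y * x) ∧
      (∀ (p : ℕ) [Fact p.Prime] (P : Sylow p ↥X), IsCyclic ↥(P : Subgroup ↥X)) ∧
      (X ⊔ Cfsg.pCore 2 H).Normal ∧
      ∀ hN : (X ⊔ Cfsg.pCore 2 H).Normal, IsCyclic (H ⧸ (X ⊔ Cfsg.pCore 2 H)) ∧ IsPGroup 2 (H ⧸ (X ⊔ Cfsg.pCore 2 H)) := by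
  have := hsol
  have hC : Subgroup.centralizer (pCore 2 H : Set H) ≤ pCore 2 H :=
    (IsPSolvable.of_isSolvable 2 H).centralizer_pCore_le hO
  have h1 : ∀ x ∈ X, x ≠ 1 → ∀ y ∈ Cfsg.pCore 2 H, y ≠ 1 → x * y ≠ y * x := by
    intro x hx hx1 y hy hy1 hc
    refine hx1 (stepA hC hI (hXodd.of_dvd_nat (X.orderOf_dvd_natCard hx)) ?_ hc)
    obtain ⟨k, hk⟩ := (IsPGroup.iff_orderOf.1 (pCore_isPGroup 2 H)) ⟨y, hy⟩
    rw [← Subgroup.orderOf_coe] at hk
    rw [hk]
    refine dvd_pow_self 2 ?_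
    rintro rfl
    exact hy1 (orderOf_eq_one_iff.1 hk)
  have hZ : IsZGroup X := by
    by_cases hY : pCore 2 H = ⊥
    · have : Subsingleton H := by
        rw [hY] at hC
        refine ⟨fun a b => ?_⟩
        have ha : a ∈ (⊥ : Subgroup H) := hC (fun z hz => by rw [mem_bot.1 hz, mul_one, one_mul])
        have hb : b ∈ (⊥ : Subgroup H) := hC (fun z hz => by rw [mem_bot.1 hz, mul_one, one_mul])
        rw [mem_bot.1 ha, mem_bot.1 hb]
      infer_instance
    · refine Fpf.isZGroup_of_odd (K := pCore 2 H) le_normalizer_of_normal hY ?_ hXodd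
      intro h hh hh1
      rw [eq_bot_iff]
      intro y hy
      by_contra hy1
      exact h1 h hh hh1 y hy.1 hy1 (mem_centralizer_singleton_iff.1 hy.2).symm
  set Y := pCore 2 H with hYdef
  set π := QuotientGroup.mk' Y with hπ
  have hπs : Function.Surjective π := QuotientGroup.mk'_surjective Y
  set F := fittingSubgroup (H ⧸ Y) with hF
  have hFodd : (Nat.card F).Coprime 2 := by
    have h := fitting_le_pCore_sup_pPrimeCore 2 (H ⧸ Y)
    rw [pCore_quotient_pCore, bot_sup_eq] at h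
    exact (coprime_card_pPrimeCore 2 _).of_dvd_left (card_dvd_of_le h)
  obtain ⟨k, hk⟩ := hXidx
  have hFX : F ≤ X.map π := by
    apply le_of_normal_of_coprime_card_index
    refine Nat.Coprime.of_dvd_right (X.index_map_dvd hπs) ?_
    rw [hk]
    exact hFodd.pow_right k
  have hZ1 : IsZGroup (X.map π) := IsZGroup.of_surjective (π.subgroupMap_surjective X)
  have hZ2 : IsZGroup F := IsZGroup.of_injective (inclusion_injective hFX)
  have hFc : IsCyclic F := inferInstance
  have hcomm : commutator (H ⧸ Y) ≤ F :=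
    (PG.commutator_le_centralizer_of_isCyclic F).trans (centralizer_fitting_le _)
  have hXn : (X.map π).Normal := by
    refine ⟨fun a ha g => ?_⟩
    have : g * a * g⁻¹ * a⁻¹ ∈ X.map π :=
      hFX (hcomm (commutator_mem_commutator (mem_top g) (mem_top a)))
    simpa using mul_mem this ha
  have hN : (X ⊔ Y).Normal := by
    have : X ⊔ Y = (X.map π).comap π := by
      rw [comap_map_eq, hπ, QuotientGroup.ker_mk']
    rw [this]
    infer_instance
  refine ⟨h1, fun p _ P => inferInstance, hN, fun _ => ?_⟩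
  have hP2 : IsPGroup 2 (H ⧸ (X ⊔ Y)) := by
    have h : Nat.card (H ⧸ (X ⊔ Y)) ∣ 2 ^ k := hk ▸ index_dvd_of_le le_sup_left
    obtain ⟨j, -, hj⟩ := (Nat.dvd_prime_pow Nat.prime_two).1 h
    exact IsPGroup.of_card hj
  refine ⟨?_, hP2⟩
  obtain ⟨T⟩ : Nonempty (Sylow 2 (H ⧸ Y)) := Sylow.nonempty
  have hTF : (T : Subgroup (H ⧸ Y)) ⊓ F = ⊥ :=
    inf_eq_bot_of_isPGroup_of_coprime T.isPGroup' hFodd
  have hTc : IsCyclic (T : Subgroup (H ⧸ Y)) := by
    by_cases hF0 : F = ⊥
    · have : Subsingleton (H ⧸ Y) := by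
        have hC' := centralizer_fitting_le (H ⧸ Y)
        rw [← hF, hF0] at hC'
        refine ⟨fun a b => ?_⟩
        have ha : a ∈ (⊥ : Subgroup _) := hC' (fun z hz => by rw [mem_bot.1 hz, mul_one, one_mul])
        have hb : b ∈ (⊥ : Subgroup _) := hC' (fun z hz => by rw [mem_bot.1 hz, mul_one, one_mul])
        rw [mem_bot.1 ha, mem_bot.1 hb]
      infer_instance
    · have : IsMulCommutative (T : Subgroup (H ⧸ Y)) := by
        refine IsMulCommutative.of_comm fun a b => Subtype.ext ?_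
        have h : (a : H ⧸ Y) * b * (a : H ⧸ Y)⁻¹ * (b : H ⧸ Y)⁻¹ ∈ (T : Subgroup (H ⧸ Y)) ⊓ F :=
          ⟨Subgroup.mul_mem _ (Subgroup.mul_mem _ (Subgroup.mul_mem _ a.2 b.2) (Subgroup.inv_mem _ a.2))
            (Subgroup.inv_mem _ b.2),
            hcomm (commutator_mem_commutator (mem_top _) (mem_top _))⟩
        rw [hTF, mem_bot] at h
        rw [coe_mul, coe_mul, ← mul_inv_eq_one, mul_inv_rev, ← mul_assoc, h]
      refine Fpf.isCyclic_of_isMulCommutative (K := F) (H := (T : Subgroup (H ⧸ Y)))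
        le_normalizer_of_normal hF0 ?_ le_rfl
      intro h hh hh1
      rw [eq_bot_iff]
      intro f hf
      refine mem_bot.2 (stepB hC hI ((Nat.coprime_two_right.1 hFodd).of_dvd_nat
        (F.orderOf_dvd_natCard hf.1)) (y := h) ?_ (mem_centralizer_singleton_iff.1 hf.2))
      obtain ⟨j, hj⟩ := (IsPGroup.iff_orderOf.1 T.isPGroup') ⟨h, hh⟩
      rw [← Subgroup.orderOf_coe] at hj
      rw [hj]
      refine dvd_pow_self 2 ?_
      rintro rfl
      exact hh1 (orderOf_eq_one_iff.1 hj)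
  let f : H ⧸ Y →* H ⧸ (X ⊔ Y) := QuotientGroup.map Y (X ⊔ Y) (MonoidHom.id H) le_sup_right
  have hf : Function.Surjective f := by
    intro z
    obtain ⟨g, rfl⟩ := QuotientGroup.mk_surjective z
    exact ⟨QuotientGroup.mk g, rfl⟩
  have htop : (⊤ : Subgroup _) = (T : Subgroup (H ⧸ Y)).map f :=
    (T.mapSurjective hf).is_maximal' (hP2.to_subgroup ⊤) le_top
  refine isCyclic_of_surjective (f.domRestrict (T : Subgroup (H ⧸ Y))) ?_
  intro z
  obtain ⟨g, hg, rfl⟩ : z ∈ (T : Subgroup (H ⧸ Y)).map f := htop ▸ mem_top z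
  exact ⟨⟨g, hg⟩, rfl⟩

end Cfsg.Agent.S3215
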