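import Cfsg.Statements.S3225
import Cfsg.Agent.Trans.TransferTools

set_option autoImplicit false
open Cfsg

namespace Cfsg.Agent.S3225

open Cfsg.Lib.Trans
open scoped commutatorElement IsMulCommutative


/-- Let G be a finite group of even order with no subgroup of index 2, S a Sylow 2-subgroup of G and M a subgroup of index 2 in S such that, for some n ≥ 1, every element of S outside M has order greater than 2^(n−1). Then every element of S of order 2ⁿ is conjugate in G to an element of M. -/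
theorem result {G : Type*} [Group G] [Finite G] (hev : Even (Nat.card G))
    (hG : ∀ H : Subgroup G, H.index ≠ 2) (S : Sylow 2 G) (M : Subgroup G) (hMS : M ≤ (S : Subgroup G)) (hM : M.relIndex (S : Subgroup G) = 2)
    (n : ℕ) (hn : 1 ≤ n) (hord : ∀ y ∈ (S : Subgroup G), y ∉ M → 2 ^ (n - 1) < orderOf y)
    (x : G) (hx : x ∈ (S : Subgroup G)) (hxn : orderOf x = 2 ^ n) :
    ∃ g : G, g * x * g⁻¹ ∈ M := by
  have hM' : (M.subgroupOf S).index = 2 := hM
  have hmul : ∀ u ∈ (S : Subgroup G), ∀ v ∈ (S : Subgroup G), (u * v ∈ M ↔ (u ∈ M ↔ v ∈ M)) :=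
    fun u hu v hv => Subgroup.mul_mem_iff_of_index_two hM' (a := ⟨u, hu⟩) (b := ⟨v, hv⟩)
  obtain ⟨a, -, ha, -⟩ := thompson_transfer_subgroup (H := (S : Subgroup G)) (T := M)
    S.not_dvd_index (by
      intro u hu v hv
      rw [commutatorElement_def, hmul _ (mul_mem (mul_mem hu hv) (inv_mem hu)) _ (inv_mem hv),
        hmul _ (mul_mem hu hv) _ (inv_mem hu), hmul _ hu _ hv, inv_mem_iff, inv_mem_iff]
      tauto)
    (fun u hu => ⟨1, by rw [pow_one, sq, hmul _ hu _ hu]⟩) x ⟨n, hxn⟩ (by
      intro m hm hm1 a ha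
      by_contra hn'
      have h1 := hord _ ha hn'
      have h2 : orderOf (a⁻¹ * x ^ m * a) = orderOf (x ^ m) := by
        simpa using (MulAut.conj a⁻¹).orderOf_eq (x ^ m)
      rw [h2] at h1
      rw [hxn] at hm
      obtain ⟨j, -, rfl⟩ := (Nat.dvd_prime_pow Nat.prime_two).mp hm
      have hj : j ≠ 0 := by rintro rfl; simp at hm1
      have h3 : orderOf (x ^ 2 ^ j) ∣ 2 ^ (n - 1) := by
        apply orderOf_dvd_of_pow_eq_one
        rw [← pow_mul, ← pow_add, ← orderOf_dvd_iff_pow_eq_one, hxn]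
        exact pow_dvd_pow 2 (by omega)
      exact absurd (Nat.le_of_dvd (by positivity) h3) (not_le.mpr h1))
    (fun a b ha hb haM hbM => by rw [hmul _ ha _ hb]; tauto)
    (by rw [pResidual_two_eq_top_iff.mpr hG, sup_top_eq]; trivial) ⊥ IsPGroup.of_bot (by simp)
  exact ⟨a⁻¹, by simpa using ha⟩

end Cfsg.Agent.S3225
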