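import Cfsg.Statements.S3228
import Cfsg.Agent.Spor.J3OrdD

set_option autoImplicit false
open Cfsg

namespace Cfsg.Agent.S3228

/-- Let G be a non-abelian simple group of order 50232960. Then the centre of a Sylow 2-subgroup S of G is cyclic, and if z is the involution of Z(S), the centralizer C_G(z) has a normal subgroup E of order 32 with C_G(z)/E ≅ A₅. -/
theorem result {G : Type*} [Group G] [Finite G] [IsSimpleGroup G]
    (hG : ¬ IsMulCommutative G) (hcard : Nat.card G = 50232960) (S : Sylow 2 G) :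
    IsCyclic ↥(Subgroup.center ↥(S : Subgroup G)) ∧
      ∀ z : G, z ∈ (S : Subgroup G) → (∀ s ∈ (S : Subgroup G), s * z = z * s) → orderOf z = 2 →
        ∃ (E : Subgroup ↥(Subgroup.centralizer ({z} : Set G))) (hE : E.Normal), Nat.card ↥E = 32 ∧
          Nonempty ((↥(Subgroup.centralizer ({z} : Set G)) ⧸ E) ≃* ↥(alternatingGroup (Fin 5))) := by
  refine ⟨?_, fun z _ h1 h2 => ⟨_, inferInstance, (Lib.Spor.J3Ord.loc hcard S h2
    fun s hs => Subgroup.mem_centralizer_singleton_iff.2 (h1 s hs)).1⟩⟩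
  have h1 : ∀ {H : Subgroup (S : Subgroup G)}, H ≤ Subgroup.center _ → Nat.card H = 2 →
      ∃ y, H = Subgroup.zpowers y ∧ orderOf (y : G) = 2 ∧
        (S : Subgroup G) ≤ Subgroup.centralizer {(y : G)} := fun {H} h1 h2 => by
    obtain ⟨⟨y, h3⟩, h4⟩ := exists_prime_orderOf_dvd_card' (G := H) 2 h2.symm.dvd
    rw [Subgroup.orderOf_mk] at h4
    exact ⟨y, (Subgroup.eq_of_le_of_card_ge (Subgroup.zpowers_le.2 h3)
      (by rw [Nat.card_zpowers, h4, h2])).symm, (Subgroup.orderOf_coe y).trans h4,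
      fun s hs => Subgroup.mem_centralizer_singleton_iff.2
        (congrArg Subtype.val (Subgroup.mem_center_iff.1 (h1 h3) ⟨s, hs⟩))⟩
  refine Lib.Solv.PG.isCyclic_of_unique_card_prime (S.isPGroup'.to_subgroup _)
    (fun H K h2 h3 h4 h5 => ?_) (.inr inferInstance)
  obtain ⟨y, rfl, h6, h7⟩ := h1 h2 h4
  obtain ⟨z, rfl, h8, h9⟩ := h1 h3 h5
  rw [Subtype.ext (Lib.Spor.J3Ord.unique hcard S h6 h8 y.2 z.2 h7 h9)]

end Cfsg.Agent.S3228
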