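import Cfsg.Statements.S3232
import Cfsg.Agent.LX.O6m

set_option autoImplicit false
open Cfsg

namespace Cfsg.Agent.S3232

open Cfsg.Lib.LX Cfsg.Lib.Local

/-- Let G be a finite group with an involution z, H = C_G(z), such that J = O₂(H) is an (internal) direct product of a group of order 2 and an extraspecial group of order 2⁹, with derived subgroup J′ = ⟨z⟩, C_H(J) ≤ J and H/J ≅ Aut(PSp₄(3)). Then G = H·O(G); or some involution z₁ ∈ Z(J) outside ⟨z⟩ generates a normal subgroup of G and G has a subgroup G₀ of index 2 containing z₁ with G₀/⟨z₁⟩ ≅ U₆(2); or G is isomorphic to the Fischer group Fi₂₂. -/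
theorem result {G : Type*} [Group G] [Finite G] (z : G) (hz : orderOf z = 2)
    {F : Type*} [Field F] [Fintype F] (hF : Fintype.card F = 3) {K : Type*} [Field K] [Fintype K] (hK : Fintype.card K = 4)
    (A E : Subgroup ↥(Subgroup.centralizer ({z} : Set G))) (hAE : Cfsg.IsInternalDirectProduct A E (Cfsg.pCore 2 ↥(Subgroup.centralizer ({z} : Set G)))) (hA : Nat.card ↥A = 2)
    (hE : Cfsg.IsExtraspecial 2 ↥E) (hEc : Nat.card ↥E = 2 ^ 9)
    (zc : ↥(Subgroup.centralizer ({z} : Set G))) (hzc : (zc : G) = z) (hJ' : ⁅(Cfsg.pCore 2 ↥(Subgroup.centralizer ({z} : Set G))), (Cfsg.pCore 2 ↥(Subgroup.centralizer ({z} : Set G)))⁆ = Subgroup.zpowers zc)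
    (hCJ : Subgroup.centralizer ((Cfsg.pCore 2 ↥(Subgroup.centralizer ({z} : Set G))) : Set ↥(Subgroup.centralizer ({z} : Set G))) ≤ Cfsg.pCore 2 ↥(Subgroup.centralizer ({z} : Set G))) [hJn : (Cfsg.pCore 2 ↥(Subgroup.centralizer ({z} : Set G))).Normal]
    (e : (↥(Subgroup.centralizer ({z} : Set G)) ⧸ Cfsg.pCore 2 ↥(Subgroup.centralizer ({z} : Set G))) ≃* MulAut (Cfsg.PSp 2 F)) :
    Subgroup.centralizer ({z} : Set G) ⊔ Cfsg.oddCore G = ⊤ ∨
      (∃ z₁ : G, orderOf z₁ = 2 ∧ z₁ ∉ Subgroup.zpowers z ∧ (∃ h₁ : z₁ ∈ Subgroup.centralizer ({z} : Set G), (⟨z₁, h₁⟩ : ↥(Subgroup.centralizer ({z} : Set G))) ∈ Cfsg.pCore 2 ↥(Subgroup.centralizer ({z} : Set G)) ∧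
          ∀ j ∈ Cfsg.pCore 2 ↥(Subgroup.centralizer ({z} : Set G)), j * ⟨z₁, h₁⟩ = ⟨z₁, h₁⟩ * j) ∧ (Subgroup.zpowers z₁).Normal ∧
        ∃ (G₀ : Subgroup G) (hz₁ : z₁ ∈ G₀), G₀.index = 2 ∧
          ∃ hn : ((Subgroup.zpowers z₁).subgroupOf G₀).Normal,
            Nonempty ((↥G₀ ⧸ (Subgroup.zpowers z₁).subgroupOf G₀) ≃* Cfsg.PSU 6 K 2)) ∨
      Cfsg.Spor.IsoFi22 G := by
  classical
  obtain ⟨a', a1, ha⟩ := (Nat.card_eq_two_iff' (1 : A)).1 hA
  have hA' : ∀ v ∈ A, v = 1 ∨ v = a' := fun v hv => (em _).imp (congrArg Subtype.val)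
    fun c => congrArg Subtype.val (ha ⟨v, hv⟩ c)
  obtain ⟨w, w1, w2, w3, -, w4, w5, w6⟩ := O6.prod_facts hAE
    (fun v hv => by rw [← pow_two, ← hA]; exact pow_card_of_mem hv) hE hEc
  obtain rfl : z = w := by
    have : zc ∈ (Subgroup.zpowers w).comap (Subgroup.subtype _) := (Subgroup.commutator_le.2 fun x hx y hy => by
      have := mul_mem (mul_mem (w3 x ⟨x, hx, rfl⟩) (w3 _ ⟨x⁻¹ * y, mul_mem (inv_mem hx) hy, rfl⟩))
        (w3 _ ⟨y⁻¹, inv_mem hy, rfl⟩)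
      simpa [Subgroup.mem_subgroupOf, commutatorElement_def, mul_assoc] using this :
        _ ≤ (Subgroup.zpowers w).comap _) (hJ'.ge (Subgroup.mem_zpowers zc))
    exact (((mem_zpowers_iff_of_orderOf_two w1).1 this).resolve_left fun c => by
      simp [← hzc, show zc = 1 from Subtype.ext c] at hz) ▸ hzc.symm
  have zz : z * z = 1 := by rw [← pow_two, ← hz, pow_orderOf_eq_one]
  set a : G := a'.1.1
  have mA : ∀ x, x ∈ A.map (Subgroup.subtype _) ↔ x = 1 ∨ x = a := fun x => ⟨fun ⟨v, hv, e⟩ =>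
    (hA' v hv).imp (fun c => e.symm.trans (congrArg Subtype.val c)) fun c => e.symm.trans (congrArg Subtype.val c),
    fun c => c.elim (· ▸ one_mem _) (· ▸ ⟨_, a'.2, rfl⟩)⟩
  have za : ∀ x, O6.Zc (qOf z) x ↔ x = 1 ∨ x = z ∨ x = a ∨ x = a * z := fun x => (w5 x).trans (by
    rw [mA, mA, mul_eq_one_iff_eq_inv, ← eq_mul_inv_iff_mul_eq, inv_eq_of_mul_eq_one_right zz]; tauto)
  have n1 : a ≠ 1 := fun c => a1 (Subtype.ext (Subtype.ext c))
  have n2 : a ≠ z := fun c => w2 ((mA z).2 (.inr c.symm))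
  obtain ⟨φ, hφ, k⟩ := O6.exists_hom hF e
  obtain ⟨U, _, _, _, L, -⟩ := O6.lc_of hz φ le_rfl (qOf_le z) (fun g _ c => (mem_qOf_coe g).2 ((k g).1 c))
    (fun g c => (k g).2 ((mem_qOf_coe g).1 c)) (fun w => (hφ w).imp fun g c => ⟨g.2, c⟩) w3 w4 w6 hCJ
    fun g _ _ x hx => by
      have c := mem_C.1 g.2
      have : g * a * (g : G)⁻¹ = a ∨ g * a * (g : G)⁻¹ = a * z := by
        rcases (za _).1 (O6.zc_conj c ((za a).2 (by simp))) with e | e | e
        · exact (n1 (conj_eq_one_iff.1 e)).elim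
        · rw [mul_inv_eq_iff_eq_mul, ← c, mul_right_inj] at e; exact (n2 e).elim
        · exact e
      rcases (za x).1 hx with rfl | rfl | rfl | rfl
      exacts [by simp, by simp [c], this, by
        rw [← conj_mul, c, mul_inv_cancel_right]; exact this.imp (congrArg (· * z)) (congrArg (· * z))]
  have T : O6.T2 L a := ⟨za, n1, n2⟩
  by_cases i : IsIsolatedInvolution z
  · exact .inl ((sup_comm _ _).trans (Lib.Bender.oddCore_sup_centralizer_of_isolated i))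
  by_cases hA : ∀ g, g * z = z * g → g * a = a * g
  · obtain ⟨b, T, hb⟩ : ∃ b, O6.T2 L b ∧ ∀ g, g * b = b * g :=
      ((T.caseA hA).resolve_left i).elim (fun c => ⟨_, T, c⟩) fun c => ⟨_, T.swap, c⟩
    exact .inr (.inl ⟨b, orderOf_eq_prime ((pow_two b).trans T.aa) T.a1, fun c =>
      ((mem_zpowers_iff_of_orderOf_two hz).1 c).elim T.a1 T.az, ⟨mem_C.2 T.cm, (mem_qOf_coe ⟨b, _⟩).1 T.zc.1,
      fun j _ => Subtype.ext (hb j)⟩, T.exists_sub hb i hK⟩)
  · push Not at hA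
    obtain ⟨h, h1, h2⟩ := hA
    exact .inr (.inr ((T.caseB h1 h2).resolve_left i))

end Cfsg.Agent.S3232
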