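import Cfsg.Statements.S3233
import Cfsg.Agent.LX.O6q

set_option autoImplicit false
open Cfsg

namespace Cfsg.Agent.S3233

open Cfsg.Lib.LX Cfsg.Lib.Local

/-- Let G be a finite group with an involution z, H = C_G(z), such that (i) J = O₂(H) is an (internal) direct product of a four-group and an extraspecial group of order 2⁹, with C_H(J) ≤ J, and (ii) H contains an element c of order 3 such that J⟨c⟩ is normal in H with H/J⟨c⟩ ≅ Aut(PSp₄(3)) and C_H(c)/⟨c, z⟩ ≅ PSp₄(3). Then G = H·O(G), or G is isomorphic to the Fischer group Fi₂₃, or G has a normal four-group V with G/V ≅ Aut(U₆(2)). -/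
theorem result {G : Type*} [Group G] [Finite G] (z : G) (hz : orderOf z = 2)
    {F : Type*} [Field F] [Fintype F] (hF : Fintype.card F = 3) {K : Type*} [Field K] [Fintype K] (hK : Fintype.card K = 4)
    (V E : Subgroup ↥(Subgroup.centralizer ({z} : Set G))) (hVE : Cfsg.IsInternalDirectProduct V E (Cfsg.pCore 2 ↥(Subgroup.centralizer ({z} : Set G)))) (hV : Nat.card ↥V = 4) (hV2 : ∀ v ∈ V, v ^ 2 = 1)
    (hE : Cfsg.IsExtraspecial 2 ↥E) (hEc : Nat.card ↥E = 2 ^ 9)
    (hCJ : Subgroup.centralizer ((Cfsg.pCore 2 ↥(Subgroup.centralizer ({z} : Set G))) : Set ↥(Subgroup.centralizer ({z} : Set G))) ≤ Cfsg.pCore 2 ↥(Subgroup.centralizer ({z} : Set G)))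
    (zc c : ↥(Subgroup.centralizer ({z} : Set G))) (hzc : (zc : G) = z) (hc : orderOf c = 3)
    [hJc : (Cfsg.pCore 2 ↥(Subgroup.centralizer ({z} : Set G)) ⊔ Subgroup.zpowers c).Normal] (e : (↥(Subgroup.centralizer ({z} : Set G)) ⧸ (Cfsg.pCore 2 ↥(Subgroup.centralizer ({z} : Set G)) ⊔ Subgroup.zpowers c)) ≃* MulAut (Cfsg.PSp 2 F))
    [hcz : ((Subgroup.zpowers c ⊔ Subgroup.zpowers zc).subgroupOf (Subgroup.centralizer ({c} : Set ↥(Subgroup.centralizer ({z} : Set G))))).Normal]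
    (e' : (↥(Subgroup.centralizer ({c} : Set ↥(Subgroup.centralizer ({z} : Set G)))) ⧸ (Subgroup.zpowers c ⊔ Subgroup.zpowers zc).subgroupOf (Subgroup.centralizer ({c} : Set ↥(Subgroup.centralizer ({z} : Set G))))) ≃* Cfsg.PSp 2 F) :
    Subgroup.centralizer ({z} : Set G) ⊔ Cfsg.oddCore G = ⊤ ∨ Cfsg.Spor.IsoFi23 G ∨
      (∃ (W : Subgroup G) (hW : W.Normal), Nat.card ↥W = 4 ∧ (∀ w ∈ W, w ^ 2 = 1) ∧
        Nonempty ((G ⧸ W) ≃* MulAut (Cfsg.PSU 6 K 2))) := by
  classical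
  obtain ⟨w, w1, w2, w3, ⟨s, hs, ss⟩, w4, w5, w6⟩ := O6.prod_facts hVE
    (fun v hv => (pow_two v).symm.trans (hV2 v hv)) hE hEc
  have c3 : c * c * c = 1 := by rw [← pow_three', ← hc, pow_orderOf_eq_one]
  have mc : ∀ x ∈ Subgroup.zpowers c, x = 1 ∨ x = c ∨ x = c * c := fun x hx => by
    rw [mem_zpowers_iff_mem_range_orderOf, hc] at hx
    simpa [Finset.range_add_one, pow_two, eq_comm, or_comm, or_assoc, or_left_comm] using hx
  have n3 : ∀ n, ¬ 3 ∣ 2 ^ n := fun n d => absurd (Nat.prime_three.dvd_of_dvd_pow d) (by decide)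
  have cJ : c ∉ pCore 2 _ := fun k => by
    obtain ⟨n, e⟩ := Lib.Solv.pCore_isPGroup 2 _ ⟨c, k⟩
    exact n3 n (hc ▸ orderOf_dvd_of_pow_eq_one (congrArg Subtype.val e))
  have zJ : zc ∈ pCore 2 _ := (mem_qOf_coe zc).1 (by rw [hzc]; exact self_mem_qOf hz)
  have fix : ∀ j ∈ qOf z, c * j * (c : G)⁻¹ = j → j = 1 ∨ j = z := by
    rintro _ ⟨j, hj, rfl⟩ k
    obtain ⟨f⟩ := Lib.Recog.U42.nonempty_psp_equiv hF
    have := Lib.Recog.U42.isSimpleGroup_P
    have sur := (e'.trans f.symm).surjective.comp (QuotientGroup.mk'_surjective _)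
    have jc : j ∈ Subgroup.centralizer {c} := mem_C.2 (Subtype.ext (mul_inv_eq_iff_eq_mul.1 k).symm)
    have b := (((inferInstance : ((pCore 2 _).subgroupOf (Subgroup.centralizer {c})).Normal).map
      ((e'.trans f.symm).toMonoidHom.comp (QuotientGroup.mk' _)) sur).eq_bot_or_eq_top.resolve_right fun t => by
        have : Fact (Nat.Prime 2) := ⟨Nat.prime_two⟩
        obtain ⟨n, e⟩ := IsPGroup.iff_card.1 ((((Lib.Solv.pCore_isPGroup 2 _).comap_subtype).map _).to_le t.ge)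
        rw [Subgroup.card_top, card_P3] at e
        exact n3 n (e ▸ by decide)).le ⟨⟨j, jc⟩, hj, rfl⟩
    have : (Subgroup.zpowers zc).Normal := ⟨fun _ ⟨n, e⟩ g => ⟨n, by
      rw [← e, (Commute.zpow_right (show g * zc = zc * g from Subtype.ext (by simpa [hzc] using mem_C.1 g.2)) n).eq,
        mul_inv_cancel_right]⟩⟩
    obtain ⟨x, hx, y, hy, rfl⟩ := Subgroup.mem_sup_of_normal_right.1 (show j ∈ _ ⊔ _ from
      (QuotientGroup.eq_one_iff (⟨j, jc⟩ : Subgroup.centralizer _)).1 ((EmbeddingLike.map_eq_one_iff (f := e'.trans f.symm)).1 b))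
    have := (mul_mem_cancel_right (Subgroup.zpowers_le.2 zJ hy)).1 hj
    rcases mc x hx with rfl | rfl | rfl
    · obtain ⟨n, rfl⟩ := hy
      exact (mem_zpowers_iff_of_orderOf_two hz).1 ⟨n, by simp [hzc]⟩
    · exact (cJ this).elim
    · exact (cJ (by simpa [eq_inv_of_mul_eq_one_left c3] using this)).elim
  obtain rfl : z = w := by
    have m := mem_zpowers_iff_of_orderOf_two w1 |>.1 (w3 _ (O6.q_conj (mem_C.1 c.2) hs))
    rw [conj_mul, ss, conj_eq_one_iff] at m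
    have n : w ≠ 1 := fun c => by simp [c] at w1
    exact ((fix w (ss ▸ mul_mem hs hs) (m.resolve_left n)).resolve_left n).symm
  obtain ⟨φ, hφ, k⟩ := O6.exists_hom hF e
  refine O6.Hy.main (c := (c : G)) (φ := φ) ⟨hz, mem_C.1 c.2, congrArg Subtype.val c3, hφ, fun g => (k g).trans
    ⟨fun m => ?_, fun m => ?_⟩, (Subgroup.card_subtype _ _).trans hV, w5, w2, w3, w4, w6, hCJ, fix⟩ hK
  · obtain ⟨y, hy, x, hx, rfl⟩ := Subgroup.mem_sup_of_normal_left.1 m
    rcases mc x hx with rfl | rfl | rfl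
    exacts [.inl ((mem_qOf_coe _).2 (by simpa using hy)), .inr (.inr ((mem_qOf_coe (y * x * (x * x))).2 (by
      rwa [mul_assoc, ← mul_assoc x, c3, mul_one]))), .inr (.inl ((mem_qOf_coe (y * (c * c) * c)).2 (by
      rwa [mul_assoc, c3, mul_one])))]
  · have mz := Subgroup.mem_sup_right (S := pCore 2 _) (Subgroup.mem_zpowers c)
    rcases m with m | m | m
    exacts [Subgroup.mem_sup_left ((mem_qOf_coe g).1 m),
      (mul_mem_cancel_right mz).1 (Subgroup.mem_sup_left ((mem_qOf_coe (g * c)).1 m)),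
      (mul_mem_cancel_right (mul_mem mz mz)).1 (Subgroup.mem_sup_left ((mem_qOf_coe (g * (c * c))).1 m))]

end Cfsg.Agent.S3233
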