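import Cfsg.Statements.S3240
import Cfsg.Agent.SCS.Main

set_option autoImplicit false
open Cfsg

namespace Cfsg.Agent.S3240

/-- Call a subgroup A of a finite group G strongly self-centralizing if C_G(a) = A for every non-identity a ∈ A. Let G be a finite non-abelian simple group with three pairwise non-conjugate strongly self-centralizing subgroups A₁, A₂, A₃ with [N_G(A₁) : A₁] = 2, [N_G(A₂) : A₂] = [N_G(A₃) : A₃] = 4, |A₁| = n₁ ≥ 5, |A₂| = n₂ > 5, |A₃| = n₃ > 5, such that |G| ≤ 3 n₁² n₂² n₃² and the Sylow r-subgroups of G are abelian for every odd prime r not dividing n₁n₂n₃. Then G is isomorphic to a Suzuki group. -/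
theorem result {G : Type*} [Group G] [Finite G] [IsSimpleGroup G] (hG : ¬ IsMulCommutative G)
    (A₁ A₂ A₃ : Subgroup G)
    (hsc : ∀ A ∈ ({A₁, A₂, A₃} : Set (Subgroup G)), ∀ a ∈ A, a ≠ 1 → Subgroup.centralizer ({a} : Set G) = A)
    (hnc : ∀ g : G, A₁.map (MulAut.conj g).toMonoidHom ≠ A₂ ∧ A₁.map (MulAut.conj g).toMonoidHom ≠ A₃ ∧ A₂.map (MulAut.conj g).toMonoidHom ≠ A₃)
    (h₁ : A₁.relIndex (Subgroup.normalizer (A₁ : Set G)) = 2) (h₂ : A₂.relIndex (Subgroup.normalizer (A₂ : Set G)) = 4)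
    (h₃ : A₃.relIndex (Subgroup.normalizer (A₃ : Set G)) = 4)
    (hn₁ : 5 ≤ Nat.card ↥A₁) (hn₂ : 5 < Nat.card ↥A₂) (hn₃ : 5 < Nat.card ↥A₃)
    (hord : Nat.card G ≤ 3 * Nat.card ↥A₁ ^ 2 * Nat.card ↥A₂ ^ 2 * Nat.card ↥A₃ ^ 2)
    (hab : ∀ r : ℕ, r.Prime → r ≠ 2 → ¬ r ∣ Nat.card ↥A₁ * Nat.card ↥A₂ * Nat.card ↥A₃ →
      ∀ P : Sylow r G, IsMulCommutative ↥(P : Subgroup G)) :
    Cfsg.Lie.IsoSuzuki G := by
  have := Fintype.ofFinite G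
  have s1 : Lib.SCS.SSC A₁ := hsc A₁ (by simp)
  have s2 : Lib.SCS.SSC A₂ := hsc A₂ (by simp)
  have s3 : Lib.SCS.SSC A₃ := hsc A₃ (by simp)
  obtain ⟨χ, δ, c, Θ, D⟩ := s1.exists_two h₁ hn₁
  exact D.isoSuzuki ⟨s2, h₂, hn₂, fun _ => s1.not_cl s2 fun g => (hnc g).1⟩
    ⟨s3, h₃, hn₃, fun _ => s1.not_cl s3 fun g => (hnc g).2.1⟩
    (fun _ => s2.not_cl s3 fun g => (hnc g).2.2) hord hG

end Cfsg.Agent.S3240
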