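import Cfsg.Statements.S3245
import Cfsg.Agent.Inst.BenderCore
import Cfsg.Agent.Inst.S0205
import Cfsg.Agent.Inst.S1136
import Cfsg.Agent.Cond.S3245

set_option autoImplicit false
open Cfsg

namespace Cfsg.Agent.S3245

/-- A finite non-abelian simple group in which all maximal 2-local subgroups are conjugate is isomorphic to L₂(2ⁿ), Sz(2ⁿ) or U₃(2ⁿ) for some n ≥ 2. -/
theorem result {G : Type*} [Group G] [Finite G] [IsSimpleGroup G] (hG : ¬ IsMulCommutative G)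
    (h1 : ∀ M M' : Subgroup G, Cfsg.IsMaximalTwoLocal M → Cfsg.IsMaximalTwoLocal M' → ∃ g : G, M' = M.map (MulAut.conj g).toMonoidHom) :
    (∃ (F : Type) (_ : Field F) (_ : Fintype F) (n : ℕ), 2 ≤ n ∧ Fintype.card F = 2 ^ n ∧
        Nonempty (G ≃* Matrix.ProjectiveSpecialLinearGroup (Fin 2) F)) ∨
      Cfsg.Lie.IsoSuzuki G ∨
      (∃ (F : Type) (_ : Field F) (_ : Fintype F) (n : ℕ), 2 ≤ n ∧ Fintype.card F = (2 ^ n) ^ 2 ∧ Nonempty (G ≃* Cfsg.PSU 3 F (2 ^ n))) := by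
  revert G hG h1
  exact @Cfsg.Agent.Gate.S3245.out Cfsg.Agent.Cond.S3245

end Cfsg.Agent.S3245
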