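import Cfsg.Statements.S3247
import Cfsg.Agent.Solv.PConstrainedLocal

set_option autoImplicit false
open Cfsg Cfsg.Lib.Solv

namespace Cfsg.Agent.S3247

/-- Let G be a finite group and p a prime; here a p-local subgroup means the normalizer of a nontrivial p-subgroup, other than G itself. If every p-local subgroup of G that is maximal among p-local subgroups is p-constrained, or if the centralizer of every element of order p of G is p-constrained, then every p-local subgroup of G is p-constrained. -/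
theorem result {G : Type*} [Group G] [Finite G] (p : ℕ) [hp : Fact p.Prime]
    (h : (∀ M : Subgroup G, (∃ T : Subgroup G, IsPGroup p ↥T ∧ T ≠ ⊥ ∧ M = Subgroup.normalizer (T : Set G)) → M ≠ ⊤ →
        (∀ M' : Subgroup G, (∃ T' : Subgroup G, IsPGroup p ↥T' ∧ T' ≠ ⊥ ∧ M' = Subgroup.normalizer (T' : Set G)) → M' ≠ ⊤ → M ≤ M' → M = M') →
        Cfsg.IsPConstrained p ↥M) ∨
      (∀ x : G, orderOf x = p → Cfsg.IsPConstrained p ↥(Subgroup.centralizer ({x} : Set G))))
    (T : Subgroup G) (hT : IsPGroup p ↥T) (hT1 : T ≠ ⊥) (hTG : Subgroup.normalizer (T : Set G) ≠ ⊤) :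
    Cfsg.IsPConstrained p ↥(Subgroup.normalizer (T : Set G)) := by
  rcases h with h | h
  · let 𝒮 : Set (Subgroup G) := {M | (∃ T' : Subgroup G, IsPGroup p T' ∧ T' ≠ ⊥ ∧
      M = Subgroup.normalizer (T' : Set G)) ∧ M ≠ ⊤}
    have hmem : Subgroup.normalizer (T : Set G) ∈ 𝒮 := ⟨⟨T, hT, hT1, rfl⟩, hTG⟩
    obtain ⟨M, hle, hM⟩ := (Set.toFinite 𝒮).exists_le_maximal hmem
    have hMc : IsPConstrained p M := h M hM.prop.1 hM.prop.2 (fun M' h1 h2 h3 =>
      le_antisymm h3 (hM.le_of_ge ⟨h1, h2⟩ h3))
    have := isPConstrained_normalizer_inf hMc hT (Subgroup.le_normalizer.trans hle)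
    rwa [inf_eq_left.2 hle] at this
  · apply isPConstrained_normalizer_of_centralizer hT
    have : Nontrivial T := (Subgroup.nontrivial_iff_ne_bot T).2 hT1
    have hZ := hT.center_nontrivial
    have hZp : IsPGroup p (Subgroup.center T) := hT.to_subgroup _
    obtain ⟨k, hk0, hk⟩ := hZp.nontrivial_iff_card.1 hZ
    obtain ⟨z, hz⟩ := exists_prime_orderOf_dvd_card' (G := Subgroup.center T) p
      (by rw [hk]; exact dvd_pow_self p hk0.ne')
    have hz' : orderOf ((z : T) : G) = p := by
      rw [Subgroup.orderOf_coe, Subgroup.orderOf_coe, hz]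
    have hTle : T ≤ Subgroup.centralizer ({((z : T) : G)} : Set G) := by
      intro t ht
      rw [Subgroup.mem_centralizer_singleton_iff]
      exact congrArg Subtype.val (Subgroup.mem_center_iff.1 z.2 ⟨t, ht⟩)
    have h1 := isPConstrained_centralizer_inf (h _ hz') hT hTle
    have h2 : Subgroup.centralizer (T : Set G) ≤ Subgroup.centralizer ({((z : T) : G)} : Set G) :=
      Subgroup.centralizer_le (Set.singleton_subset_iff.2 (z : T).2)
    rwa [inf_eq_left.2 h2] at h1

end Cfsg.Agent.S3247
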