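import Cfsg.Statements.S3260
import Cfsg.Agent.Trans.QuadStable
import Cfsg.Agent.Class.FieldIso

set_option autoImplicit false
open Cfsg

namespace Cfsg.Agent.S3260

open Cfsg.Lib Cfsg.Lib.Trans Cfsg.Lib.Trans.TJ Cfsg.Lib.QG

/-- Let p ≥ 5 be a prime, G a finite p-constrained group with Sylow p-subgroup S, and A a group of automorphisms of G of order coprime to |G| whose fixed-point subgroup has no section isomorphic to PSL₂(p). Then G = O_{p'}(G) · N_G(Z(J(S))), where J(S) is the subgroup generated by the abelian subgroups of S of largest order. -/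
theorem result {G : Type*} [Group G] [Finite G] (p : ℕ) [hp : Fact p.Prime] (hp5 : 5 ≤ p)
    (hG : Cfsg.IsPConstrained p G) (S : Sylow p G) (A : Subgroup (MulAut G)) (hA : (Nat.card ↥A).Coprime (Nat.card G))
    (C : Subgroup G) (hC : ∀ g : G, g ∈ C ↔ ∀ a ∈ A, a g = g)
    {F : Type*} [Field F] [Fintype F] (hF : Fintype.card F = p)
    (hfix : ¬ Cfsg.Involves (Matrix.ProjectiveSpecialLinearGroup (Fin 2) F) ↥C) :
    Cfsg.pPrimeCore p G ⊔ Subgroup.normalizer (Cfsg.centerThompsonAOf (S : Subgroup G) : Set G) = ⊤ := by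
  by_cases hpG : p ∣ Nat.card G
  swap
  · rw [eq_top_iff]
    exact le_sup_of_le_left (Solv.le_pPrimeCore inferInstance (by
      rw [Subgroup.card_top]; exact ((Nat.Prime.coprime_iff_not_dvd hp.out).2 hpG).symm))
  let X := G ⋊[A.subtype] A
  let i : G →* X := SemidirectProduct.inl
  have hinj : Function.Injective i := SemidirectProduct.inl_injective
  have : Finite X := Finite.of_equiv _ SemidirectProduct.equivProd.symm
  have hN : i.range.Normal := by
    rw [SemidirectProduct.range_inl_eq_ker_rightHom]; infer_instance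
  have hi : i.range.index.Coprime p := by
    rw [SemidirectProduct.range_inl_eq_ker_rightHom, Subgroup.index_ker,
      MonoidHom.range_eq_top.2 SemidirectProduct.rightHom_surjective, Subgroup.card_top]
    exact hA.coprime_dvd_right hpG
  have hcop : (Nat.card (SemidirectProduct.inr : A →* X).range).Coprime (Nat.card i.range) :=
    (hA.coprime_dvd_left (Subgroup.card_range_dvd _)).coprime_dvd_right (Subgroup.card_range_dvd _)
  have hc := isPConstrained_of_normal hi
    ((Solv.isPConstrained_congr (MonoidHom.ofInjective hinj)).1 hG)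
  have hst := stableOnNormal_of_fixed hp5 hcop hi (fun h => hfix (by
    have h1 : i.range ⊓ Subgroup.centralizer ((SemidirectProduct.inr : A →* X).range : Set X) ≤
        C.map i := by
      rintro _ ⟨⟨g, rfl⟩, hg⟩
      refine ⟨g, (hC g).2 fun a ha => hinj ?_, rfl⟩
      have := hg _ ⟨⟨a, ha⟩, rfl⟩
      rw [← mul_inv_eq_iff_eq_mul, ← map_inv] at this
      exact (SemidirectProduct.inl_aut (φ := A.subtype) ⟨a, ha⟩ g).trans this
    rw [← involves_congr_left (Class.pslEquiv (Fin 2) (ZMod.ringEquivOfPrime F hp.out hF))]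
    exact involves_trans (involves_mono h1 h) (involves_map i C))) (pPrimeCore p X)
  have h2 := zj_sup_normal (by omega) (Or.inl rfl) hc hst ((S.isPGroup'.map i).toSylow (by
    rw [Subgroup.index_map_of_injective _ hinj, hp.out.dvd_mul, not_or]
    exact ⟨S.not_dvd_index, (Nat.Prime.coprime_iff_not_dvd hp.out).1 hi.symm⟩))
  rw [IsPGroup.toSylow_coe, ← map_centerThompsonOf _ _ hinj, centerThompsonOf_zero] at h2
  have h3 : (pPrimeCore p X).comap i ⊔ centerThompsonAOf (S : Subgroup G) =
      (pPrimeCore p X ⊔ (centerThompsonAOf (S : Subgroup G)).map i).comap i := by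
    refine le_antisymm (sup_le (Subgroup.comap_mono le_sup_left)
      (Subgroup.map_le_iff_le_comap.1 le_sup_right)) fun x hx => ?_
    obtain ⟨o, ho, _, ⟨z, hz, rfl⟩, e⟩ := Subgroup.mem_sup_of_normal_left.1 hx
    rw [← inv_mul_cancel_right x z]
    refine Subgroup.mul_mem_sup ?_ hz
    rwa [Subgroup.mem_comap, map_mul, map_inv, ← e, mul_inv_cancel_right]
  have h4 : (Nat.card ((pPrimeCore p X).comap i)).Coprime p :=
    (Solv.coprime_card_pPrimeCore p X).coprime_dvd_left (Subgroup.card_comap_dvd_of_injective _ _ hinj)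
  have h5 := Solv.normalizer_sup_eq_top_of_sup_normal _ h4
    (S.isPGroup'.to_le (centerThompsonOf_zero (S : Subgroup G) ▸ centerThompsonOf_le 0 _))
    (h3 ▸ h2.comap i)
  rw [eq_top_iff, ← h5, sup_comm]
  exact sup_le_sup_right (Solv.le_pPrimeCore inferInstance h4) _

end Cfsg.Agent.S3260
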