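import Cfsg.Statements.S3264
import Cfsg.Agent.Char.Flavell
-- import your own Cfsg.Agent.* helpers here

set_option autoImplicit false
open Cfsg

namespace Cfsg.Agent.S3264

/-- Let G be a non-abelian finite simple group and X a conjugacy class of involutions of G. Form the graph on X in which two distinct involutions are joined when their product has odd order. Then this graph is connected. (By the Baer–Suzuki Theorem the graph has at least one edge; connectedness is the stronger statement.) -/
theorem result {G : Type*} [Group G] [Finite G] [IsSimpleGroup G]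
    (hG : ¬ IsMulCommutative G) (t : G) (ht : orderOf t = 2) :
    (SimpleGraph.fromRel fun x y : {x : G // IsConj t x} => Odd (orderOf (x.1 * y.1))).Connected := by
  classical
  set Γ := (SimpleGraph.fromRel fun x y : {x : G // IsConj t x} => Odd (orderOf (x.1 * y.1))) with hΓ
  have ht2 : t * t = 1 := by rw [← pow_two, ← ht, pow_orderOf_eq_one]
  have hti : t⁻¹ = t := inv_eq_of_mul_eq_one_right ht2
  have ht1 : t ≠ 1 := fun e => by rw [e, orderOf_one] at ht; omega
  let cj : G → {x : G // IsConj t x} → {x : G // IsConj t x} := fun g x =>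
    ⟨g * x.1 * g⁻¹, x.2.trans (isConj_iff.2 ⟨g, rfl⟩)⟩
  have hord : ∀ g x y : G, orderOf (g * x * g⁻¹ * (g * y * g⁻¹)) = orderOf (x * y) := by
    intro g x y
    rw [show g * x * g⁻¹ * (g * y * g⁻¹) = MulAut.conj g (x * y) by simp [mul_assoc]]
    exact MulEquiv.orderOf_eq _ _
  have hcj : ∀ g x y, Γ.Reachable x y → Γ.Reachable (cj g x) (cj g y) := by
    intro g x y h
    let φ : Γ →g Γ := ⟨cj g, fun {a b} hab => by
      rw [hΓ, SimpleGraph.fromRel_adj] at hab ⊢
      refine ⟨fun e => hab.1 (Subtype.ext ?_), ?_⟩
      · have := congrArg Subtype.val e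
        simpa [cj] using this
      · simpa only [cj, hord] using hab.2⟩
    exact h.map φ
  let t0 : {x : G // IsConj t x} := ⟨t, IsConj.refl t⟩
  have hmul : ∀ g h, cj g (cj h t0) = cj (g * h) t0 := fun g h =>
    Subtype.ext (by simp [cj, mul_assoc])
  have hone : cj 1 t0 = t0 := Subtype.ext (by simp [cj])
  let H : Subgroup G :=
    { carrier := {g | Γ.Reachable t0 (cj g t0)}
      mul_mem' := fun {g h} hg hh => by
        have := hcj g _ _ hh
        rw [hmul] at this
        exact SimpleGraph.Reachable.trans hg this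
      one_mem' := by
        change Γ.Reachable t0 (cj 1 t0)
        rw [hone]
      inv_mem' := fun {g} hg => by
        have := hcj g⁻¹ _ _ hg
        rw [hmul, inv_mul_cancel, hone] at this
        exact this.symm }
  have hnc : Subgroup.normalClosure ({t} : Set G) = ⊤ :=
    (IsSimpleGroup.eq_bot_or_eq_top_of_normal _ inferInstance).resolve_left fun e =>
      ht1 (Subgroup.mem_bot.1 (e ▸ Subgroup.subset_normalClosure (Set.mem_singleton t)))
  have hit : ∀ (k : ℕ) (d : G), t * d * t = d⁻¹ →
      (fun c : G => c * t * c⁻¹ * t⁻¹)^[k] d = d ^ 2 ^ k := by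
    intro k
    induction k with
    | zero => intro d _; simp
    | succ k ih =>
      intro d hd
      have h1 : d * t * d⁻¹ * t⁻¹ = d ^ 2 := by
        rw [← hd, hti, pow_two]
        calc d * t * (t * d * t) * t = d * (t * t) * d * (t * t) := by simp only [mul_assoc]
          _ = d * d := by rw [ht2, mul_one, mul_one]
      have h2 : t * d ^ 2 * t = (d ^ 2)⁻¹ := by
        rw [← inv_pow, ← hd, pow_two, pow_two]
        calc t * (d * d) * t = t * d * (t * t) * d * t := by rw [ht2]; simp only [mul_assoc, mul_one]
          _ = t * d * t * (t * d * t) := by simp only [mul_assoc]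
      rw [Function.iterate_succ_apply, h1, ih _ h2, ← pow_mul, pow_succ']
  have htop : H = ⊤ := by
    rw [eq_top_iff, ← Cfsg.Lib.Char.closure_iter_comm (Nat.card G + 1) _ t rfl hnc,
      Subgroup.closure_le]
    rintro _ (rfl | ⟨c, rfl⟩)
    · change Γ.Reachable t0 (cj _ t0)
      rw [show cj _ t0 = t0 from Subtype.ext (by simp [cj, t0])]
    · set d := c * t * c⁻¹ * t⁻¹ with hd
      have hd' : t * d * t = d⁻¹ := by
        rw [hd, hti]
        calc t * (c * t * c⁻¹ * t) * t = t * (c * t * c⁻¹) * (t * t) := by simp only [mul_assoc]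
          _ = (c * t * c⁻¹ * t)⁻¹ := by rw [ht2]; simp [hti, mul_assoc]
      rw [Function.iterate_succ_apply, ← hd, hit _ _ hd']
      set b := d ^ 2 ^ Nat.card G with hb
      have hb' : t * b * t = b⁻¹ := by
        rw [hb, ← inv_pow, ← hd']
        nth_rewrite 2 [← hti]
        nth_rewrite 4 [← hti]
        exact conj_pow.symm
      obtain ⟨j, m, hm, hn⟩ := Nat.exists_eq_two_pow_mul_odd (orderOf_pos d).ne'
      have hj : j ≤ Nat.card G := by
        have h1 : 2 ^ j ≤ orderOf d := Nat.le_of_dvd (orderOf_pos d) ⟨m, hn⟩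
        have h2 : orderOf d ≤ Nat.card G := orderOf_le_card
        have h3 : j < 2 ^ j := Nat.lt_two_pow_self
        omega
      have hbm : b ^ m = 1 := by
        rw [hb, ← pow_mul, ← orderOf_dvd_iff_pow_eq_one, hn]
        exact Nat.mul_dvd_mul_right (pow_dvd_pow 2 hj) m
      change Γ.Reachable t0 (cj b t0)
      by_cases e : t0 = cj b t0
      · rw [← e]
      · refine SimpleGraph.Adj.reachable ?_
        rw [hΓ, SimpleGraph.fromRel_adj]
        refine ⟨e, Or.inl ?_⟩
        change Odd (orderOf (t * (b * t * b⁻¹)))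
        rw [show t * (b * t * b⁻¹) = (t * b * t) * b⁻¹ by simp only [mul_assoc], hb', ← pow_two]
        refine hm.of_dvd_nat (orderOf_dvd_of_pow_eq_one ?_)
        rw [← pow_mul, mul_comm, pow_mul, inv_pow, hbm, inv_one, one_pow]
  rw [SimpleGraph.connected_iff_exists_forall_reachable]
  refine ⟨t0, fun x => ?_⟩
  obtain ⟨g, hg⟩ := isConj_iff.1 x.2
  have h1 : g ∈ H := htop ▸ Subgroup.mem_top g
  have h2 : cj g t0 = x := Subtype.ext hg
  rw [← h2]
  exact h1

end Cfsg.Agent.S3264
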