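import Cfsg.Statements.S3265
import Cfsg.Agent.Char.OddMatch

set_option autoImplicit false
open Cfsg

namespace Cfsg.Agent.S3265

open Cfsg.Lib.Char

open Equiv Finset Cfsg.Lib.Char.OddMatch

variable {Ω : Type*} [Fintype Ω] [DecidableEq Ω]

theorem odd_of_NS {x z : Perm Ω} (hz : ∀ w, z (z w) = w) (h : NS univ x z) :
    Odd (orderOf (x * z)) := by
  set σ := x * z
  have h1 : ∀ v, Odd (Function.minimalPeriod σ v) := fun v => by
    by_contra hv
    rw [Nat.not_odd_iff_even] at hv
    have hp : 0 < Function.minimalPeriod σ v :=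
      Function.minimalPeriod_pos_of_mem_periodicPts (σ.injective.mem_periodicPts v)
    have h2 := Function.iterate_minimalPeriod (f := σ) (x := v)
    have h3 := @Function.iterate_eq_iterate_iff_of_lt_minimalPeriod _ σ v
    set p := Function.minimalPeriod σ v
    let f : Ω → ℤ := fun w => ∑ i ∈ range p, if σ^[i] v = w then (-1) ^ i else 0
    have h4 : ∀ w, f (σ w) + f w = 0 := fun w => by
      have e1 := sum_range_succ (fun i => if σ^[i] v = σ w then (-1 : ℤ) ^ i else 0) p
      rw [sum_range_succ', h2, hv.neg_one_pow] at e1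
      simp only [Function.iterate_zero, id, pow_zero, add_left_inj, Function.iterate_succ_apply',
        σ.injective.eq_iff, pow_succ] at e1
      simp only [f]
      rw [← e1, ← sum_add_distrib]
      exact sum_eq_zero fun i _ => by split_ifs <;> simp
    have h5 := h f (fun w _ => by simpa [σ, hz] using h4 (z w)) v (mem_univ v)
    simp only [f] at h5
    rw [sum_eq_single 0 (fun i hi h0 => if_neg fun e => h0 ((h3 (mem_range.1 hi) hp).1
      (by simpa using e))) (by simp [hp.ne'])] at h5
    simp at h5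
  refine Odd.of_dvd_nat (prod_induction _ Odd (fun _ _ => Odd.mul) odd_one fun v _ => h1 v :
    Odd (∏ v, Function.minimalPeriod σ v)) (orderOf_dvd_of_pow_eq_one (Equiv.ext fun v => ?_))
  exact Function.isPeriodicPt_iff_minimalPeriod_dvd.2 (dvd_prod_of_mem _ (mem_univ v))

theorem card_Fx_add (x : Perm Ω) : (Fx univ x).card + x.support.card = Fintype.card Ω :=
  card_filter_add_card_filter_not _

theorem isConj_of_card {x z : Perm Ω} (hx : x ^ 2 = 1) (hz : z ^ 2 = 1)
    (h : x.support.card = z.support.card) : IsConj x z := by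
  have h1 := Perm.cycleType_of_pow_prime_eq_one hx
  have h2 := Perm.cycleType_of_pow_prime_eq_one hz
  rw [← Perm.sum_cycleType, ← Perm.sum_cycleType, h1, h2] at h
  simp only [Multiset.sum_replicate, smul_eq_mul] at h
  rw [Perm.isConj_iff_cycleType_eq, h1, h2, show x.cycleType.card = z.cycleType.card by omega]

theorem exists_mid (hΩ : Fintype.card Ω ≠ 4) {x y : Perm Ω} (hx : x ^ 2 = 1) (h : IsConj x y) :
    ∃ z, IsConj x z ∧ Odd (orderOf (x * z)) ∧ Odd (orderOf (y * z)) := by
  obtain ⟨g, rfl⟩ := isConj_iff.1 h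
  have h1 : ∀ w, x (x w) = w := fun w => by simpa [sq] using congrArg (· w) hx
  have h2 := card_Fx_add x
  obtain ⟨z, a, b, c, d⟩ := good univ (x := x) (y := (g * x * g⁻¹ : Perm Ω))
    (fun w _ => ⟨mem_univ _, h1 w⟩) (fun w _ => ⟨mem_univ _, by simp [h1]⟩) (by
      have := card_Fx_add (g * x * g⁻¹)
      rw [Perm.card_support_conj] at this; omega) fun h => absurd h hΩ
  have hz : Function.Involutive z := fun w => (a w (mem_univ w)).2
  refine ⟨hz.toPerm, isConj_of_card hx (Equiv.ext fun w => by simpa [sq] using hz w) ?_,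
    odd_of_NS hz c, odd_of_NS hz d⟩
  have := card_Fx_add hz.toPerm
  rw [hz.coe_toPerm] at this; omega

theorem exists_far (hΩ : 4 ≤ Fintype.card Ω) {t : Perm Ω} (ht : orderOf t = 2) :
    ∃ g : Perm Ω, (t * (g * t * g⁻¹)) ^ 2 = 1 ∧ g * t * g⁻¹ ≠ t := by
  have h1 : ∀ w, t (t w) = w := fun w => by
    simpa [ht, sq] using congrArg (· w) (pow_orderOf_eq_one t)
  obtain ⟨a, ha⟩ : ∃ a, t a ≠ a := by
    by_contra! h
    rw [show t = 1 from Equiv.ext h, orderOf_one] at ht; omega
  have := h1 a
  by_cases h : ∃ c, c ≠ a ∧ c ≠ t a ∧ t c ≠ c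
  · obtain ⟨c, h2, h3, h4⟩ := h
    have := h1 c
    refine ⟨swap (t a) c, Equiv.ext fun w => ?_, fun e => ?_⟩
    · have := h1 w
      simp only [sq, swap_inv, Perm.mul_apply, swap_apply_def, Perm.one_apply]
      grind (splits := 40)
    · have := congrArg (· a) e
      simp only [swap_inv, Perm.mul_apply, swap_apply_def] at this
      grind
  obtain ⟨c, hc, d, hd, hcd⟩ := one_lt_card.1 (show 1 < ({a, t a}ᶜ : Finset Ω).card by
    rw [card_compl]; have := card_le_two (a := a) (b := t a); omega)
  simp only [mem_compl, mem_insert, mem_singleton] at hc hd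
  push Not at h
  have := h c; have := h d
  refine ⟨swap a c * swap (t a) d, Equiv.ext fun w => ?_, fun e => ?_⟩
  · have := h w
    simp only [sq, mul_inv_rev, swap_inv, Perm.mul_apply, swap_apply_def, Perm.one_apply]
    grind (splits := 40)
  · have := congrArg (· a) e
    simp only [mul_inv_rev, swap_inv, Perm.mul_apply, swap_apply_def] at this
    grind

/-- Let n ≥ 5 and let X be a conjugacy class of involutions of the symmetric group of degree n. The graph on X joining two distinct involutions whose product has odd order is connected and has diameter exactly 2. -/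
theorem result (n : ℕ) (hn : 5 ≤ n) (t : Equiv.Perm (Fin n)) (ht : orderOf t = 2) :
    (SimpleGraph.fromRel fun x y : {x : Equiv.Perm (Fin n) // IsConj t x} =>
        Odd (orderOf (x.1 * y.1))).Connected ∧
      (SimpleGraph.fromRel fun x y : {x : Equiv.Perm (Fin n) // IsConj t x} =>
        Odd (orderOf (x.1 * y.1))).diam = 2 := by
  set Γ := SimpleGraph.fromRel fun x y : {x : Equiv.Perm (Fin n) // IsConj t x} =>
    Odd (orderOf (x.1 * y.1))
  have h2 : t ^ 2 = 1 := ht ▸ pow_orderOf_eq_one t
  have h1 : Γ.ediam ≤ 2 := SimpleGraph.ediam_le_of_edist_le fun u v => by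
    obtain ⟨z, a, b, c⟩ := exists_mid (by simp; omega) (x := u.1) (y := v.1) (by
      obtain ⟨g, e⟩ := isConj_iff.1 u.2
      rw [← e, conj_pow, h2]; simp) (u.2.symm.trans v.2)
    have e : ∀ w : {x : Equiv.Perm (Fin n) // IsConj t x}, Odd (orderOf (w.1 * z)) →
        Γ.edist w ⟨z, u.2.trans a⟩ ≤ 1 := fun w h =>
      SimpleGraph.edist_le_one_iff_adj_or_eq.2 (or_iff_not_imp_right.2 fun h' => ⟨h', Or.inl h⟩)
    refine (SimpleGraph.edist_triangle (v := ⟨z, u.2.trans a⟩)).trans ?_
    rw [SimpleGraph.edist_comm (v := v), ← one_add_one_eq_two]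
    exact add_le_add (e u b) (e v c)
  have : Nonempty {x : Equiv.Perm (Fin n) // IsConj t x} := ⟨⟨t, IsConj.refl t⟩⟩
  refine ⟨SimpleGraph.connected_of_ediam_ne_top (ne_top_of_le_ne_top (by simp) h1), ?_⟩
  obtain ⟨g, h3, h4⟩ := exists_far (by simp; omega) ht
  have h5 : orderOf (t * (g * t * g⁻¹)) = 2 := orderOf_eq_prime h3 fun e => h4 (by
    rw [eq_inv_of_mul_eq_one_right e, inv_eq_iff_mul_eq_one, ← sq, h2])
  have h6 : ¬ Γ.edist ⟨t, IsConj.refl t⟩ ⟨g * t * g⁻¹, isConj_iff.2 ⟨g, rfl⟩⟩ ≤ 1 := fun h => by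
    rcases SimpleGraph.edist_le_one_iff_adj_or_eq.1 h with ⟨-, h | h⟩ | h
    · simp only [h5] at h; exact absurd h (by decide)
    · simp only at h
      rw [← orderOf_inv, mul_inv_rev, conj_inv, (show t⁻¹ = t by
        rw [inv_eq_iff_mul_eq_one, ← sq, h2]), h5] at h
      exact absurd h (by decide)
    · exact h4 (congrArg Subtype.val h).symm
  have h7 : Γ.ediam = 2 := le_antisymm h1
    (le_trans (Order.add_one_le_of_lt (not_le.1 h6)) SimpleGraph.edist_le_ediam)
  rw [SimpleGraph.diam, h7]; rfl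

end Cfsg.Agent.S3265
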