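import Cfsg.Statements.S3266
import Cfsg.Agent.Known.PSL2InvGraph

set_option autoImplicit false
open Cfsg

namespace Cfsg.Agent.S3266

open Cfsg.Lib.Known Cfsg.Lib.Known.GL2 Matrix

/-- Let F be a finite field with at least 4 elements and let X be a conjugacy class of involutions of PSL(2, F). The graph on X joining two distinct involutions whose product has odd order is connected and has diameter exactly 2. -/
theorem result {F : Type*} [Field F] [Fintype F] (hF : 4 ≤ Fintype.card F)
    (t : Matrix.ProjectiveSpecialLinearGroup (Fin 2) F) (ht : orderOf t = 2) :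
    (SimpleGraph.fromRel fun x y : {x : Matrix.ProjectiveSpecialLinearGroup (Fin 2) F // IsConj t x} =>
        Odd (orderOf (x.1 * y.1))).Connected ∧
      (SimpleGraph.fromRel fun x y : {x : Matrix.ProjectiveSpecialLinearGroup (Fin 2) F // IsConj t x} =>
        Odd (orderOf (x.1 * y.1))).diam = 2 := by
  obtain ⟨a, b, h⟩ := exists_isFourPair_PSL (F := F) (by omega)
  have ha := orderOf_eq_prime (by rw [sq, h.sq_a]) h.a_ne
  have hb := orderOf_eq_prime (by rw [sq, h.sq_b]) h.b_ne
  refine connected_diam_two (fun u v => ?_) (a := ⟨a, isConj_of_orderOf_two_PSL ht ha⟩)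
    (b := ⟨b, isConj_of_orderOf_two_PSL ht hb⟩) (fun h' => h.ne (congrArg Subtype.val h')) ?_
  · obtain ⟨z, hz, h1, h2⟩ := exists_odd_orderOf_mul hF (orderOf_eq_of_isConj u.2 ▸ ht)
      (orderOf_eq_of_isConj v.2 ▸ ht)
    refine ⟨⟨z, isConj_of_orderOf_two_PSL ht hz⟩, or_iff_not_imp_right.2 fun h => ?_,
      or_iff_not_imp_right.2 fun h => ?_⟩
    · exact (SimpleGraph.fromRel_adj _ _ _).2 ⟨h, Or.inl h1⟩
    · exact (SimpleGraph.fromRel_adj _ _ _).2 ⟨h, Or.inl h2⟩
  · rw [SimpleGraph.fromRel_adj]
    have : orderOf (a * b) = 2 := orderOf_eq_prime (by rw [sq, h.mul_right.sq_b]) h.mul_ne_one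
    simp only [h.comm, this, or_self, not_and]
    exact fun _ => by decide

end Cfsg.Agent.S3266
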