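import Cfsg.Statements.S3269
import Cfsg.Agent.Block.ZStar
import Cfsg.Agent.Char.BSQuat
import Cfsg.Agent.Solv.Conj

set_option autoImplicit false
open Cfsg

open Cfsg.Lib.Char Cfsg.Lib.Block.Princ Cfsg.Lib.Local Cfsg.Lib.Solv Cfsg.Lib.Trans

namespace Cfsg.Agent.S3269

open scoped IsMulCommutative in
/-- an invariant finite set in an abelian subgroup has an invariant product -/
theorem exists_prod {G : Type*} [Group G] (A R : Subgroup G) [IsMulCommutative A] (N : Subgroup G)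
    (hN : N ≤ Subgroup.normalizer (A : Set G)) (O : Finset A) (z : A) (hz : z ∈ O)
    (hO : ∀ n ∈ N, ∀ x ∈ O, ∀ h, (⟨n * x * n⁻¹, h⟩ : A) ∈ O) (h2 : ∀ x ∈ O, x * x = 1)
    (hR : ∀ x ∈ O, x ≠ z → (x : G) ∈ R) :
    ∃ w ∈ A, w * w = 1 ∧ (∀ n ∈ N, n * w * n⁻¹ = w) ∧ (z : G)⁻¹ * w ∈ R := by
  classical
  refine ⟨(∏ x ∈ O, x : A), (∏ x ∈ O, x : A).2, ?_, fun n hn => ?_, ?_⟩
  · rw [← Subgroup.coe_mul, ← Finset.prod_mul_distrib, Finset.prod_eq_one h2]
    rfl
  · let φ : MulAut A := A.normalizerMonoidHom ⟨n, hN hn⟩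
    have h1 : φ (∏ x ∈ O, x) = ∏ x ∈ O, x := by
      rw [map_prod]
      have h3 : O.image φ = O := Finset.eq_of_subset_of_card_le (fun y hy => by
        obtain ⟨x, hx, rfl⟩ := Finset.mem_image.1 hy
        exact hO n hn x hx _) (Finset.card_image_of_injective _ φ.injective).ge
      conv_rhs => rw [← h3]
      rw [Finset.prod_image fun x _ y _ h => φ.injective h]
    exact congrArg Subtype.val h1
  · rw [← Finset.mul_prod_erase O _ hz, Subgroup.coe_mul, inv_mul_cancel_left]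
    exact Finset.prod_induction _ (fun x : A => (x : G) ∈ R) (fun a b => R.mul_mem) R.one_mem
      fun x hx => hR x (Finset.mem_erase.1 hx).2 (Finset.mem_erase.1 hx).1

/-- Let G be a finite group whose Sylow 2-subgroup S is an internal direct product Q × R with Q generalized quaternion (of order at least 8) and R a subgroup all of whose involutions are central in R. Then G is not simple. In particular no finite simple group has a Sylow 2-subgroup that is a direct product of one or more generalized quaternion groups. -/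
theorem result {G : Type*} [Group G] [Finite G]
    (S : Sylow 2 G) (Q R : Subgroup G) (hQR : Cfsg.IsInternalDirectProduct Q R (S : Subgroup G))
    (n : ℕ) (hn : 1 ≤ n) (eQ : ↥Q ≃* QuaternionGroup (2 ^ n))
    (hR : ∀ r ∈ R, orderOf r = 2 → ∀ s ∈ R, r * s = s * r) :
    ¬ IsSimpleGroup G := by
  intro hs
  classical
  obtain ⟨hQS, hRS, hc, hQR, hS⟩ := hQR
  obtain ⟨a, b, h⟩ := exists_qGen eQ
  have hm : 0 < 2 ^ n := by positivity
  have hm2 : 2 ≤ 2 ^ n := by
    calc 2 = 2 ^ 1 := rfl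
      _ ≤ 2 ^ n := Nat.pow_le_pow_right (by norm_num) hn
  have hz2 := h.orderOf_pow_m hm
  have hzQ : a ^ 2 ^ n ∈ Q := pow_mem h.a_mem _
  set z := a ^ 2 ^ n with hzdef
  have hRN : R ≤ Subgroup.normalizer (Q : Set G) := fun r hr =>
    Subgroup.centralizer_le_normalizer _ fun q hq => hc q hq r hr
  have hdec : ∀ s ∈ (S : Subgroup G), ∃ q ∈ Q, ∃ r ∈ R, q * r = s := fun s hs =>
    (mem_sup_of_le_normalizer hRN).1 (hS ▸ hs)
  have hSN : (S : Subgroup G) ≤ Subgroup.normalizer (Q : Set G) := by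
    rw [← hS]
    exact sup_le Subgroup.le_normalizer hRN
  have hbot : ∀ x ∈ Q, x ∈ R → x = 1 := fun x h1 h2 =>
    Subgroup.mem_bot.1 (hQR ▸ (⟨h1, h2⟩ : x ∈ Q ⊓ R))
  have hzQ' : ∀ q ∈ Q, q * z = z * q := by
    intro q hq
    have h1 : q * z * q⁻¹ ∈ Q := mul_mem (mul_mem hq hzQ) (inv_mem hq)
    rcases h.eq_of_mul_self_eq_one hm h1
      (mul_self_of_isConj (mul_self_of_orderOf_two hz2) (isConj_conj q z)) with h2 | h2
    · exact absurd (by simpa using h2) (ne_one_of_orderOf_two hz2)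
    · exact mul_inv_eq_iff_eq_mul.1 h2
  -- the involutions of `S` are central
  have hcen : ∀ x ∈ (S : Subgroup G), x * x = 1 →
      x ∈ Subgroup.centralizer ((S : Subgroup G) : Set G) := by
    intro x hx hxx s hs
    obtain ⟨q, hq, r, hr, rfl⟩ := hdec x hx
    obtain ⟨q', hq', r', hr', rfl⟩ := hdec s hs
    have h1 : q * q * (r * r) = 1 := by
      calc _ = q * (q * r) * r := by group
        _ = _ := by rw [← hxx, hc q hq r hr, ← mul_assoc q, hc q hq r hr, mul_assoc (r * q),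
          hc q hq r hr]
    have h2 : q * q = 1 := hbot _ (mul_mem hq hq) (by
      rw [eq_inv_of_mul_eq_one_left h1]; exact inv_mem (mul_mem hr hr))
    rw [h2, one_mul] at h1
    have h3 : q' * q = q * q' := by
      rcases h.eq_of_mul_self_eq_one hm hq h2 with h4 | h4
      · rw [h4, mul_one, one_mul]
      · rw [h4]; exact hzQ' q' hq'
    have h4 : r' * r = r * r' := by
      by_cases h5 : r = 1
      · rw [h5, mul_one, one_mul]
      · exact (hR r hr (orderOf_two_of_mul_self h1 h5) r' hr').symm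
    calc q' * r' * (q * r) = q' * (r' * q) * r := by group
      _ = (q' * q) * (r' * r) := by rw [← hc q hq r' hr']; group
      _ = q * (q' * r) * r' := by rw [h3, h4]; group
      _ = _ := by rw [hc q' hq' r hr]; group
  -- the conjugates of `z` under the normaliser
  have hconj : ∀ g ∈ Subgroup.normalizer ((S : Subgroup G) : Set G), g * z * g⁻¹ ≠ z →
      g * z * g⁻¹ ∈ R := by
    intro g hg hne
    by_contra hzR
    have hbot' : ∀ x ∈ Q, g * x * g⁻¹ ∈ R → x = 1 := by
      intro x hx hxR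
      by_contra hx1
      have h2 : 2 ∣ Nat.card (Subgroup.zpowers x) := by
        rcases (S.isPGroup'.to_le ((Subgroup.zpowers_le.2 hx).trans hQS)).card_eq_or_dvd with h | h
        · exact absurd (Subgroup.zpowers_eq_bot.1 (Subgroup.eq_bot_of_card_eq _ h)) hx1
        · exact h
      obtain ⟨⟨y, hy'⟩, hy⟩ := exists_prime_orderOf_dvd_card' (G := Subgroup.zpowers x) 2 h2
      rw [Subgroup.orderOf_mk] at hy
      obtain ⟨k, rfl⟩ := Subgroup.mem_zpowers_iff.1 hy'
      rcases h.eq_of_mul_self_eq_one hm (zpow_mem hx k) (mul_self_of_orderOf_two hy) with h3 | h3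
      · exact ne_one_of_orderOf_two hy h3
      · apply hzR
        rw [← hzdef] at h3
        rw [← h3, ← conj_zpow]
        exact zpow_mem hxR k
    obtain ⟨q, hq, r, hr, h1⟩ := hdec _ ((Subgroup.mem_normalizer_iff.1 hg a).1 (hQS h.a_mem))
    obtain ⟨q', hq', r', hr', h2⟩ := hdec _ ((Subgroup.mem_normalizer_iff.1 hg b).1 (hQS h.b_mem))
    have h3 : g⁻¹ * r' * g⁻¹⁻¹ ∈ (S : Subgroup G) :=
      (Subgroup.mem_normalizer_iff.1 (inv_mem hg) r').1 (hRS hr')
    have h4 := mul_mem h.a_mem ((Subgroup.mem_normalizer_iff.1 (hSN h3) _).1 (inv_mem h.a_mem))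
    have h5 : g * (a * (g⁻¹ * r' * g⁻¹⁻¹ * a⁻¹ * (g⁻¹ * r' * g⁻¹⁻¹)⁻¹)) * g⁻¹ =
        r * r' * r⁻¹ * r'⁻¹ := by
      calc _ = (g * a * g⁻¹) * r' * (g * a * g⁻¹)⁻¹ * r'⁻¹ := by group
        _ = q * (r * r' * r⁻¹) * q⁻¹ * r'⁻¹ := by rw [← h1]; group
        _ = _ := by
          rw [hc q hq _ (mul_mem (mul_mem hr hr') (inv_mem hr))]; group
    have h6 := hbot' _ h4 (h5 ▸ mul_mem (mul_mem (mul_mem hr hr') (inv_mem hr)) (inv_mem hr'))
    rw [h6, mul_one, mul_inv_cancel, eq_comm, mul_inv_eq_one, mul_inv_eq_iff_eq_mul] at h5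
    have h7 : g * (a * a) * g⁻¹ = q * q' * q⁻¹ * q'⁻¹ := by
      calc _ = g * (a * (b * a * b⁻¹)⁻¹) * g⁻¹ := by rw [h.inv, inv_inv]
        _ = (g * a * g⁻¹) * (g * b * g⁻¹) * (g * a * g⁻¹)⁻¹ * (g * b * g⁻¹)⁻¹ := by group
        _ = q * (r * q') * (r' * r⁻¹) * q⁻¹ * r'⁻¹ * q'⁻¹ := by rw [← h1, ← h2]; group
        _ = q * q' * (r * r' * r⁻¹) * q⁻¹ * r'⁻¹ * q'⁻¹ := by rw [← hc q' hq' r hr]; group
        _ = q * q' * (r' * q⁻¹) * r'⁻¹ * q'⁻¹ := by rw [h5]; group
        _ = _ := by rw [← hc _ (inv_mem hq) r' hr']; group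
    have h8 : g * z * g⁻¹ ∈ Q := by
      obtain ⟨k, rfl⟩ := Nat.exists_eq_add_of_le' hn
      rw [hzdef, pow_succ', pow_mul, pow_two, ← conj_pow, h7]
      exact pow_mem (mul_mem (mul_mem (mul_mem hq hq') (inv_mem hq)) (inv_mem hq')) _
    rcases h.eq_of_mul_self_eq_one hm h8
      (mul_self_of_isConj (mul_self_of_orderOf_two hz2) (isConj_conj g z)) with h9 | h9
    · exact ne_one_of_orderOf_two hz2 (by simpa using h9)
    · exact hne h9
  let A : Subgroup G := (S : Subgroup G) ⊓ Subgroup.centralizer ((S : Subgroup G) : Set G)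
  have hA : IsMulCommutative A := ⟨⟨fun x y => Subtype.ext (y.2.2 x x.2.1)⟩⟩
  have := Fintype.ofFinite A
  obtain ⟨w, hwA, hww, hwN, hwR⟩ := exists_prod A R
    (Subgroup.normalizer ((S : Subgroup G) : Set G))
    (fun g hg => Subgroup.mem_normalizer_fintype fun x hx => ⟨(Subgroup.mem_normalizer_iff.1 hg x).1
      hx.1, fun s hs => by
        have := hx.2 _ ((Subgroup.mem_normalizer_iff.1 (inv_mem hg) s).1 hs)
        calc s * (g * x * g⁻¹) = g * (g⁻¹ * s * g⁻¹⁻¹ * x) * g⁻¹ := by group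
          _ = _ := by rw [this]; group⟩)
    (Finset.univ.filter fun x => ∃ g ∈ Subgroup.normalizer ((S : Subgroup G) : Set G),
      g * z * g⁻¹ = x) ⟨z, hQS hzQ, hcen z (hQS hzQ) (mul_self_of_orderOf_two hz2)⟩
    (Finset.mem_filter.2 ⟨Finset.mem_univ _, 1, one_mem _, by simp⟩)
    (fun g hg x hx _ => by
      obtain ⟨-, k, hk, hkx⟩ := Finset.mem_filter.1 hx
      exact Finset.mem_filter.2 ⟨Finset.mem_univ _, g * k, mul_mem hg hk, by
        change _ = g * x * g⁻¹
        rw [← hkx]; group⟩)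
    (fun x hx => by
      obtain ⟨-, k, hk, hkx⟩ := Finset.mem_filter.1 hx
      exact Subtype.ext (mul_self_of_isConj (mul_self_of_orderOf_two hz2) (isConj_iff.2 ⟨k, hkx⟩)))
    (fun x hx hne => by
      obtain ⟨-, k, hk, hkx⟩ := Finset.mem_filter.1 hx
      rw [← hkx]
      exact hconj k hk fun h => hne (Subtype.ext (hkx.symm.trans h)))
  have hw1 : w ≠ 1 := by
    rintro rfl
    exact ne_one_of_orderOf_two hz2 (hbot z hzQ (by simpa using hwR))
  have hw2 := orderOf_two_of_mul_self hww hw1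
  have hiso := isolated_of_sylow S hw2 hwA.1 fun g hg => by
    obtain ⟨k, hk, hk'⟩ := S.conj_eq_normalizer_conj_of_mem_centralizer w g⁻¹ hwA.2 (by
      rw [inv_inv]
      exact hcen _ hg (mul_self_of_isConj hww (isConj_conj g w)))
    have := hwN _ (inv_mem hk)
    rw [inv_inv] at hk' this
    rw [hk', this]
  have hO : oddCore G = ⊥ := by
    rcases hs.eq_bot_or_eq_top_of_normal (pPrimeCore 2 G) inferInstance with h1 | h1
    · exact h1
    · refine absurd ?_ (not_dvd_card_pPrimeCore 2 G)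
      rw [h1, Subgroup.card_top, ← hw2]
      exact orderOf_dvd_natCard w
  rcases hs.eq_bot_or_eq_top_of_normal (Subgroup.center G) inferInstance with h1 | h1
  · exact hw1 (Subgroup.mem_bot.1 (h1 ▸ zstar_center hiso hO))
  · have h2 : a * a = 1 := h.mul_self_eq_one_of_commute hm2 h.a_mem rfl
      (Subgroup.mem_center_iff.1 (h1 ▸ Subgroup.mem_top b) a)
    have := orderOf_dvd_of_pow_eq_one ((pow_two a).trans h2)
    rw [h.order] at this
    have := Nat.le_of_dvd (by norm_num) this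
    omega

end Cfsg.Agent.S3269
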