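import Cfsg.Statements.S3276
import Cfsg.Agent.Local.InvolCount
import Cfsg.Agent.Trans.Connected
import Cfsg.Agent.Trans.Isolated
import Cfsg.Agent.Solv.PGroupBasic

set_option autoImplicit false
open Cfsg

namespace Cfsg.Agent.S3276

open Subgroup Cfsg.Lib.Local Cfsg.Lib.Trans Cfsg.Lib.Solv.PG

/-- Let x and y be commuting, non-conjugate involutions of a finite group G, and suppose that for every involution u commuting with x, each conjugate of y that commutes with u also commutes with y. Then the normal closure of y is a proper, normal, elementary abelian 2-subgroup of G; and if y is the only involution of that normal closure commuting with x, it has order at most 4. -/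
theorem result {G : Type*} [Group G] [Finite G] (x y : G) (hx : orderOf x = 2) (hy : orderOf y = 2)
    (hxy : Commute x y) (hnc : ¬ IsConj x y)
    (hstar : ∀ u : G, orderOf u = 2 → Commute u x → ∀ g : G, Commute (g * y * g⁻¹) u → Commute (g * y * g⁻¹) y) :
    Subgroup.normalClosure ({y} : Set G) ≠ ⊤ ∧ Cfsg.IsElementaryAbelian 2 (Subgroup.normalClosure ({y} : Set G)) ∧
      ((∀ u ∈ Subgroup.normalClosure ({y} : Set G), orderOf u = 2 → Commute u x → u = y) →
        Nat.card ↥(Subgroup.normalClosure ({y} : Set G)) ≤ 4) := by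
  have h1 : ∀ g : G, Commute (g * y * g⁻¹) y := fun g => by
    obtain ⟨z, -, hz, hxz, hyz⟩ := exists_invol_commute_of_not_isConj hx
      ((orderOf_conj_eq g y).trans hy) (fun h => hnc (h.trans (isConj_conj g y).symm))
    exact hstar z hz hxz.symm g hyz
  have h2 : ∀ a ∈ Group.conjugatesOfSet ({y} : Set G), ∀ b ∈ Group.conjugatesOfSet ({y} : Set G),
      a * b = b * a := by
    intro a ha b hb
    obtain ⟨a', ha', hca⟩ := Group.mem_conjugatesOfSet_iff.1 ha
    obtain ⟨b', hb', hcb⟩ := Group.mem_conjugatesOfSet_iff.1 hb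
    rw [Set.mem_singleton_iff] at ha' hb'
    subst ha'
    subst hb'
    obtain ⟨g, rfl⟩ := isConj_iff.1 hca
    obtain ⟨k, rfl⟩ := isConj_iff.1 hcb
    have := (h1 (k⁻¹ * g)).map (MulAut.conj k)
    simp only [MulAut.conj_apply, mul_inv_rev, inv_inv] at this
    have e : k * (k⁻¹ * g * b' * (g⁻¹ * k)) * k⁻¹ = g * b' * g⁻¹ := by group
    rw [e] at this
    exact this.eq
  have hcomm : IsMulCommutative (normalClosure ({y} : Set G)) := by
    refine isMulCommutative_of_forall fun a ha b hb => ?_
    exact (closure_induction₂ (p := fun a b _ _ => Commute a b) (fun a b ha hb => h2 a ha b hb)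
      (fun _ _ => Commute.one_left _) (fun _ _ => Commute.one_right _)
      (fun _ _ _ _ _ _ h h' => h.mul_left h') (fun _ _ _ _ _ _ h h' => h.mul_right h')
      (fun _ _ _ _ h => h.inv_left) (fun _ _ _ _ h => h.inv_right) ha hb).eq
  have hea : IsElementaryAbelian 2 (normalClosure ({y} : Set G)) := by
    refine ⟨hcomm, fun a ha => ?_⟩
    refine closure_induction (p := fun a _ => a ^ 2 = 1) (fun a ha => ?_) (one_pow _)
      (fun a b ha hb h h' => ?_) (fun a _ h => by rw [inv_pow, h, inv_one]) ha
    · obtain ⟨a', ha', hca⟩ := Group.mem_conjugatesOfSet_iff.1 ha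
      rw [Set.mem_singleton_iff] at ha'
      subst ha'
      rw [← hy, ← orderOf_eq_of_isConj hca, pow_orderOf_eq_one]
    · have : Commute a b := mul_comm_of_mem (A := normalClosure ({y} : Set G)) ha hb
      rw [this.mul_pow, h, h', one_mul]
  refine ⟨fun htop => ?_, hea, fun hu => ?_⟩
  · have hc : ∀ a b : G, a * b = b * a := fun a b =>
      mul_comm_of_mem (A := normalClosure ({y} : Set G)) (htop ▸ mem_top a) (htop ▸ mem_top b)
    have hn : (zpowers y).Normal := ⟨fun n hn g => by rwa [hc g n, mul_inv_cancel_right]⟩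
    have hxy' : x ∈ zpowers y :=
      normalClosure_le_normal (Set.singleton_subset_iff.2 (mem_zpowers y)) (htop ▸ mem_top x)
    have := eq_pow_half_of_mem_zpowers hx hxy'
    rw [hy] at this
    simp only [Nat.ofNat_pos, Nat.div_self, pow_one] at this
    exact hnc (this ▸ IsConj.refl _)
  · have h3 := card_le_card_inf_centralizer_pow hea (x := x)
      (by rw [normalizer_eq_top]; trivial) (by rw [← hx, pow_orderOf_eq_one]; exact one_mem _)
    have h4 : normalClosure ({y} : Set G) ⊓ centralizer {x} ≤ zpowers y := by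
      rintro u ⟨hu1, hu2⟩
      by_cases h0 : u = 1
      · rw [h0]; exact one_mem _
      · rw [hu u hu1 (orderOf_eq_prime (hea.2 u hu1) h0) (mem_centralizer_singleton_iff.1 hu2)]
        exact mem_zpowers y
    have h5 := Subgroup.card_le_of_le h4
    rw [Nat.card_zpowers, hy] at h5
    exact h3.trans (Nat.pow_le_pow_left h5 2)

end Cfsg.Agent.S3276
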