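import Cfsg.Statements.S3277
import Cfsg.Agent.Local.KleinDich
import Cfsg.Agent.Trans.Thompson

set_option autoImplicit false
open Cfsg

namespace Cfsg.Agent.S3277

open Cfsg.Lib.Local Cfsg.Lib.Trans Cfsg.Lib.Trans.TJ

/-- Let G be a finite group containing an involution whose centralizer is elementary abelian of order 4. If G has no normal 2-complement and no normal elementary abelian 2-subgroup of order 2 or 4, then G is isomorphic to the alternating group of degree 5 (that is, to PSL(2, 5)). -/
theorem result {G : Type*} [Group G] [Finite G] (x : G) (hx : orderOf x = 2)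
    (hC4 : Nat.card ↥(Subgroup.centralizer ({x} : Set G)) = 4) (hCe : ∀ c ∈ Subgroup.centralizer ({x} : Set G), c ^ 2 = 1)
    (hnc : ¬ Cfsg.HasNormalPComplement 2 G)
    (hne : ∀ E : Subgroup G, E.Normal → Cfsg.IsElementaryAbelian 2 E → Nat.card ↥E ≠ 2 ∧ Nat.card ↥E ≠ 4) :
    Nonempty (G ≃* ↥(alternatingGroup (Fin 5))) := by
  haveI : Fact (Nat.Prime 2) := ⟨Nat.prime_two⟩
  set V := Subgroup.centralizer ({x} : Set G) with hV
  have hmem : ∀ g, g ∈ V ↔ g * x = x * g := fun g => Subgroup.mem_centralizer_singleton_iff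
  have hexp : ∀ v ∈ V, v * v = 1 := fun v hv => by rw [← pow_two]; exact hCe v hv
  have hxV : x ∈ V := (hmem x).2 rfl
  have hx1 := invol_ne_one hx
  have hp : IsPGroup 2 V := IsPGroup.of_card (n := 2) hC4
  have hVea : IsElementaryAbelian 2 V :=
    ea_iff.2 ⟨fun a ha b hb => comm_of_mul_self hexp ha hb, hCe⟩
  have hcardc : ∀ y, IsConj x y → Nat.card (Subgroup.centralizer ({y} : Set G)) = 4 := by
    intro y hy
    obtain ⟨g, rfl⟩ := isConj_iff.1 hy
    rw [← hC4, ← card_cj g V, hV, cj_centralizer_set, Set.image_singleton]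
  have hconjC : ∀ y ∈ V, IsConj x y → ∀ g : G, g * y = y * g → g ∈ V := by
    intro y hyV hy g hg
    have : V = Subgroup.centralizer {y} := Subgroup.eq_of_le_of_card_ge
      (fun v hv => Subgroup.mem_centralizer_singleton_iff.2 (comm_of_mul_self hexp hv hyV))
      (by rw [hcardc y hy, hC4])
    rw [this]
    exact Subgroup.mem_centralizer_singleton_iff.2 hg
  obtain ⟨P, hVP⟩ := hp.exists_le_sylow
  rcases hVP.eq_or_lt with hPV | hlt
  · -- `V` is a Sylow subgroup
    obtain ⟨n, hnN, hnC⟩ : ∃ n ∈ Subgroup.normalizer ((P : Subgroup G) : Set G),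
        n ∉ Subgroup.centralizer ((P : Subgroup G) : Set G) := by
      apply SetLike.not_le_iff_exists.1
      intro hP
      exact hnc ⟨P, _, inferInstance, MonoidHom.ker_transferSylow_isComplement' P hP⟩
    have hnV : n ∉ V := fun h => hnC fun w hw => comm_of_mul_self hexp (hPV ▸ hw) h
    have hnn : n * n ∉ V := by
      intro hnn
      apply hnV
      have hp : IsPGroup 2 (Subgroup.zpowers n) := by
        refine IsPGroup.of_card_dvd_pow (n := 2) ?_
        rw [Nat.card_zpowers]
        apply orderOf_dvd_of_pow_eq_one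
        rw [← hexp _ hnn]
        norm_num [pow_succ, mul_assoc]
      have := P.is_maximal' (P.isPGroup'.to_sup_of_normal_left' hp
        (Subgroup.zpowers_le.2 hnN)) le_sup_left
      rw [hPV, ← this]
      exact Subgroup.mem_sup_right (Subgroup.mem_zpowers n)
    rw [← hPV] at hnN
    have hcj : ∀ g ∈ Subgroup.normalizer (V : Set G), g * x * g⁻¹ ∈ V := fun g hg =>
      (Subgroup.mem_normalizer_iff.1 hg x).1 hxV
    have d1 : n * x * n⁻¹ ≠ x := fun h => hnV (mem_centralizer_singleton_iff_conj.2 h)
    have d2 : n * n * x * (n * n)⁻¹ ≠ x := fun h => hnn (mem_centralizer_singleton_iff_conj.2 h)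
    have d3 : n * n * x * (n * n)⁻¹ ≠ n * x * n⁻¹ := fun h => d1 (by
      have : n * x * n⁻¹ = n⁻¹ * (n * n * x * (n * n)⁻¹) * n := by group
      rw [this, h]; group)
    have hxa : x * (n * x * n⁻¹) ≠ 1 := fun h => d1 (by
      rw [← invol_mul_self hx] at h; exact mul_left_cancel h)
    have hall : ∀ v ∈ V, v ≠ 1 → IsConj x v := by
      intro v hv hv1
      have key := fun w hw => mem_four_cases hC4 hxV (hcj n hnN) hx1 (by simpa using hx1) d1 hxa
        (v := w) hw
      rcases key v hv with h | h | h | h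
      · exact absurd h hv1
      · rw [h]
      · exact isConj_iff.2 ⟨n, h.symm⟩
      · rcases key _ (hcj _ (mul_mem hnN hnN)) with h' | h' | h' | h'
        · exact absurd (conj_eq_one_iff.1 h') hx1
        · exact absurd h' d2
        · exact absurd h' d3
        · exact isConj_iff.2 ⟨n * n, h'.trans h.symm⟩
    have hone : ∀ s : G, orderOf s = 2 → IsConj x s := by
      intro s hs
      obtain ⟨u, hsu, huP⟩ := exists_conj_mem_sylow_two P hs
      exact (hall u (hPV ▸ huP) (invol_ne_one ((orderOf_of_isConj hsu).trans hs))).trans hsu.symm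
    refine (klein_dichotomy P (hPV ▸ hC4) (hPV ▸ hexp)
      (fun s t hs ht => (hone s hs).symm.trans (hone t ht))
      (hPV ▸ fun v hv hv1 => hconjC v hv (hall v hv hv1))).resolve_left fun hN => ?_
    exact (hne V (hPV ▸ hN) hVea).2 hC4
  · exfalso
    haveI : Nontrivial P := ⟨⟨⟨x, hVP hxV⟩, 1, fun h => hx1 (congrArg Subtype.val h)⟩⟩
    haveI := P.isPGroup'.center_nontrivial
    obtain ⟨⟨⟨z, hzP⟩, hzc⟩, hz1⟩ := exists_ne (1 : Subgroup.center (P : Subgroup G))
    have hz1' : z ≠ 1 := fun h => hz1 (Subtype.ext (Subtype.ext h))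
    have hzc' : ∀ t ∈ (P : Subgroup G), t * z = z * t := fun t ht =>
      congrArg Subtype.val (Subgroup.mem_center_iff.1 hzc ⟨t, ht⟩)
    have hzV : z ∈ V := (hmem z).2 (hzc' x (hVP hxV)).symm
    have hz : orderOf z = 2 := invol_of_mul_self (hexp z hzV) hz1'
    have hxz : ¬ IsConj x z := fun h =>
      hlt.not_ge fun t ht => hconjC z hzV h t (hzc' t ht)
    have hxz' : x ≠ z := by rintro rfl; exact hxz (IsConj.refl _)
    have hzx1 : z * x ≠ 1 := fun h => hxz' (by
      rw [← invol_mul_self hz] at h; exact mul_left_cancel h)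
    have key := fun w hw => mem_four_cases hC4 hzV hxV hz1' hx1 hxz' hzx1 (v := w) hw
    obtain ⟨n, ⟨-, hnN⟩, hnV⟩ := SetLike.exists_of_lt (lt_inf_normalizer P.isPGroup' hlt)
    have hxzx : IsConj x (z * x) := by
      rcases key _ ((Subgroup.mem_normalizer_iff.1 hnN x).1 hxV) with h | h | h | h
      · exact absurd (by simpa using h) hx1
      · exact absurd (isConj_iff.2 ⟨n, h⟩) hxz
      · exact absurd (mem_centralizer_singleton_iff_conj.2 h) hnV
      · exact isConj_iff.2 ⟨n, h⟩
    have hcomm : ∀ w, IsConj z w → w * z = z * w := by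
      intro w hw
      obtain ⟨u, -, hu, hu1, hu2⟩ := exists_invol_commute_of_not_isConj hx
        ((orderOf_of_isConj hw).trans hz) (fun h => hxz (h.trans hw.symm))
      rcases key u ((hmem u).2 hu1.eq.symm) with h | h | h | h
      · exact absurd h (invol_ne_one hu)
      · rw [← h]; exact hu2.eq
      · rw [h] at hu2
        exact comm_of_mul_self hexp ((hmem w).2 hu2.eq) hzV
      · rw [h] at hu2
        exact comm_of_mul_self hexp (hconjC _ (mul_mem hzV hxV) hxzx w hu2.eq) hzV
    set E := Subgroup.normalClosure ({z} : Set G) with hE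
    have hconjset : ∀ w, w ∈ Group.conjugatesOfSet ({z} : Set G) → IsConj z w := fun w hw => by
      simpa [Group.mem_conjugatesOfSet_iff] using hw
    have hEea : IsElementaryAbelian 2 E := by
      refine ea_closure (fun a ha b hb => ?_) (fun a ha => ?_)
      · obtain ⟨g, rfl⟩ := isConj_iff.1 (hconjset a ha)
        have := hcomm (g⁻¹ * b * g) ((hconjset b hb).trans (isConj_iff.2 ⟨g⁻¹, by simp⟩))
        calc g * z * g⁻¹ * b = g * (z * (g⁻¹ * b * g)) * g⁻¹ := by group
          _ = _ := by rw [← this]; group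
      · rw [← hz, ← orderOf_of_isConj (hconjset a ha), pow_orderOf_eq_one]
    have hzE : z ∈ E := Subgroup.subset_normalClosure rfl
    have hEn : E.Normal := inferInstance
    have hcE := hne E hEn hEea
    have hnotin : ∀ y, IsConj x y → y ∉ E := by
      intro y hy hyE
      obtain ⟨g, hg⟩ := isConj_iff.1 hy.symm
      have hxE : x ∈ E := hg ▸ hEn.conj_mem y hyE g
      have hEV : E = V := by
        apply le_antisymm (fun w hw => (hmem w).2 (ea_comm hEea hw hxE))
        intro v hv
        rcases key v hv with rfl | rfl | rfl | rfl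
        exacts [one_mem _, hzE, hxE, mul_mem hzE hxE]
      exact hcE.2 (hEV ▸ hC4)
    have hfix : ∀ w ∈ E, w * x = x * w → w ∈ Subgroup.zpowers z := by
      intro w hw hc
      rcases key w ((hmem w).2 hc) with rfl | rfl | rfl | rfl
      exacts [one_mem _, Subgroup.mem_zpowers _, absurd hw (hnotin _ (IsConj.refl _)),
        absurd hw (hnotin _ hxzx)]
    have hxinv := invol_inv_eq hx
    have hE2 : ∀ w ∈ E, w * w = 1 := fun w hw => by rw [← pow_two]; exact ea_pow hEea hw
    have hmove : ∀ w ∈ E, w ∉ Subgroup.zpowers z → x * w * x⁻¹ = z * w := by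
      intro w hw hwz
      have hw' : x * w * x⁻¹ ∈ E := hEn.conj_mem w hw x
      have h1 : x * w * x⁻¹ * w ∈ Subgroup.zpowers z := by
        apply hfix _ (mul_mem hw' hw)
        rw [ea_comm hEea hw' hw, hxinv]
        calc w * (x * w * x) * x = w * x * w * (x * x) := by group
          _ = (x * x) * w * x * w := by rw [invol_mul_self hx]; group
          _ = x * ((x * w * x) * w) := by group
          _ = x * (w * (x * w * x)) := by rw [← hxinv, hxinv, ea_comm hEea (by simpa [hxinv] using hw') hw]
      have h2 : x * w * x⁻¹ * w = z := by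
        rcases key _ ((Subgroup.zpowers_le.2 hzV) h1) with h | h | h | h
        · exfalso
          apply hwz (hfix w hw _)
          rw [← hE2 w hw, mul_left_inj, mul_inv_eq_iff_eq_mul] at h
          exact h.symm
        · exact h
        · exact absurd (h ▸ mul_mem hw' hw) (hnotin _ (IsConj.refl _))
        · exact absurd (h ▸ mul_mem hw' hw) (hnotin _ hxzx)
      rw [← h2, mul_assoc (x * w * x⁻¹), hE2 w hw, mul_one]
    have hidx : IdxLeTwo (Subgroup.zpowers z) E := by
      intro s hs t ht h1 h2
      apply hfix _ (mul_mem hs ht)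
      have : x * (s * t) * x⁻¹ = s * t := by
        calc x * (s * t) * x⁻¹ = (x * s * x⁻¹) * (x * t * x⁻¹) := by group
          _ = z * (s * z) * t := by rw [hmove s hs h1, hmove t ht h2]; group
          _ = s * t := by rw [ea_comm hEea hs hzE, ← mul_assoc z, invol_mul_self hz, one_mul]
      rw [mul_inv_eq_iff_eq_mul] at this
      exact this.symm
    have hle : Subgroup.zpowers z ≤ E := Subgroup.zpowers_le.2 hzE
    rcases hidx.le_or_relIndex with h | h
    · exact hcE.1 (by rw [le_antisymm h hle, Nat.card_zpowers, hz])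
    · exact hcE.2 (by rw [← card_mul_relIndex hle, h, Nat.card_zpowers, hz])

end Cfsg.Agent.S3277
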