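import Cfsg.Statements.S3283
import Cfsg.Agent.LX.S36b
import Cfsg.Agent.LX.Pre

set_option autoImplicit false
open Cfsg

namespace Cfsg.Agent.S3283

open Cfsg.Lib.LX Cfsg.Lib.Local

/-- Let G be a finite group with an involution z whose centralizer M has Q = O₂(M) extraspecial of order 2⁹ with C_M(Q) ≤ Q, and M/Q isomorphic to S₃ × A₆ or to S₃ × S₆. Then G is not simple. -/
theorem result {G : Type*} [Group G] [Finite G] (z : G) (hz : orderOf z = 2)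
    (hQ : Cfsg.IsExtraspecial 2 ↥(Cfsg.pCore 2 ↥(Subgroup.centralizer ({z} : Set G)))) (hQ9 : Nat.card ↥(Cfsg.pCore 2 ↥(Subgroup.centralizer ({z} : Set G))) = 2 ^ 9)
    (hCQ : Subgroup.centralizer ((Cfsg.pCore 2 ↥(Subgroup.centralizer ({z} : Set G))) : Set ↥(Subgroup.centralizer ({z} : Set G))) ≤ Cfsg.pCore 2 ↥(Subgroup.centralizer ({z} : Set G)))
    (hMQ : Nonempty (↥(Subgroup.centralizer ({z} : Set G)) ⧸ Cfsg.pCore 2 ↥(Subgroup.centralizer ({z} : Set G)) ≃* (Equiv.Perm (Fin 3) × ↥(alternatingGroup (Fin 6)))) ∨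
      Nonempty (↥(Subgroup.centralizer ({z} : Set G)) ⧸ Cfsg.pCore 2 ↥(Subgroup.centralizer ({z} : Set G)) ≃* (Equiv.Perm (Fin 3) × Equiv.Perm (Fin 6)))) :
    ¬ IsSimpleGroup G := by
  have h := pre_of_pCore hz hQ hCQ
  have hq := (card_qOf z).trans hQ9
  rcases hMQ with ⟨⟨e⟩⟩ | ⟨⟨e⟩⟩ <;> obtain ⟨Φ, hΦ⟩ := Fm.exists_of_equiv rfl e
  · obtain ⟨ζ, H⟩ := exists_h36 (Φ.map ((MonoidHom.id _).prodMap (Subgroup.subtype _))
      (Function.injective_id.prodMap (Subgroup.subtype_injective _))) fun p _ h2 => by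
        obtain ⟨g, hg, k⟩ := hΦ (p.1, ⟨p.2, h2⟩)
        exact ⟨g, hg, by simp [Fm.map, k]⟩
    exact H.not_simple h hq
  · obtain ⟨ζ, H⟩ := exists_h36 Φ fun p _ _ => hΦ p
    exact H.not_simple h hq

end Cfsg.Agent.S3283
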