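import Cfsg.Statements.S3284
import Cfsg.Agent.LX.S36b
import Cfsg.Agent.LX.Pre

set_option autoImplicit false
open Cfsg

namespace Cfsg.Agent.S3284

open Cfsg.Lib.LX Cfsg.Lib.Local

/-- There is no non-abelian finite simple group with an involution z whose centralizer M has generalized Fitting subgroup Q = F*(M) extraspecial of order 2⁹ and M/Q isomorphic to the subgroup of S₃ × S₆ consisting of the pairs of permutations with equal sign (a group (3 × A₆)·2 in which an involution outside 3 × A₆ induces S₃ on the first factor and S₆ on the second). -/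
theorem result {G : Type*} [Group G] [Finite G] [IsSimpleGroup G] (hG : ¬ IsMulCommutative G) (z : G) (hz : orderOf z = 2)
    [hn : (Cfsg.generalizedFittingSubgroup ↥(Subgroup.centralizer ({z} : Set G))).Normal]
    (hQ : Cfsg.IsExtraspecial 2 ↥(Cfsg.generalizedFittingSubgroup ↥(Subgroup.centralizer ({z} : Set G)))) (hQ9 : Nat.card ↥(Cfsg.generalizedFittingSubgroup ↥(Subgroup.centralizer ({z} : Set G))) = 2 ^ 9)
    (e : (↥(Subgroup.centralizer ({z} : Set G)) ⧸ Cfsg.generalizedFittingSubgroup ↥(Subgroup.centralizer ({z} : Set G))) ≃*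
      ↥(MonoidHom.ker (Equiv.Perm.sign.comp (MonoidHom.fst (Equiv.Perm (Fin 3)) (Equiv.Perm (Fin 6))) *
          Equiv.Perm.sign.comp (MonoidHom.snd (Equiv.Perm (Fin 3)) (Equiv.Perm (Fin 6)))))) :
    False := by
  obtain ⟨h, hF⟩ := pre_of_fit hz hQ
  obtain ⟨Φ, hΦ⟩ := Fm.exists_of_equiv hF e
  obtain ⟨ζ, H⟩ := exists_h36 (Φ.map (Subgroup.subtype _) (Subgroup.subtype_injective _))
    fun p h1 h2 => by
      obtain ⟨g, hg, k⟩ := hΦ ⟨p, by simp [h1, h2]⟩
      exact ⟨g, hg, by simp [Fm.map, k]⟩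
  exact H.not_simple h (by rw [card_qOf, ← hF, hQ9]) ‹_›

end Cfsg.Agent.S3284
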