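import Cfsg.Statements.S3301
import Cfsg.Agent.LXG.F2

set_option autoImplicit false
open Cfsg

namespace Cfsg.Agent.S3301

/-- Let G be a finite group with no nontrivial 2-group quotient (O^2(G) = G), z an involution of G with H = C_G(z), and suppose E = O_2(H) is extraspecial with C_G(E) ≤ E. Then the Sylow 2-subgroups of H/[H, H] are elementary abelian: every element of 2-power order of the abelianization of H has order at most 2. -/
theorem result {G : Type*} [Group G] [Finite G] (hres : Cfsg.pResidual 2 G = ⊤) (z : G) (hz : orderOf z = 2)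
    (E : Subgroup G) (hE : E = (Cfsg.pCore 2 ↥(Subgroup.centralizer ({z} : Set G))).map (Subgroup.centralizer ({z} : Set G)).subtype)
    (hext : Cfsg.IsExtraspecial 2 ↥E) (hcent : Subgroup.centralizer (E : Set G) ≤ E) :
    ∀ q : Abelianization ↥(Subgroup.centralizer ({z} : Set G)), (∃ k : ℕ, orderOf q = 2 ^ k) → q ^ 2 = 1 := by
  subst hE
  rintro q ⟨k, hk⟩
  obtain ⟨Φ, hΦ⟩ := Lib.LX.exists_fam (Abelianization.of (G := Subgroup.centralizer ({z} : Set G)))
  obtain ⟨x, rfl⟩ : ∃ x, Abelianization.of x = q := QuotientGroup.mk_surjective q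
  obtain ⟨a, m, hm, e⟩ := Nat.exists_eq_two_pow_mul_odd (orderOf_pos x).ne'
  have := Φ.sq_eq_one hres (Lib.Local.preLX_qOf hz hext hcent) (k := a)
    (Lib.LX.mem_C.1 (x ^ m).2) (by
      rw [← Subgroup.coe_pow, ← pow_mul, mul_comm, ← e, pow_orderOf_eq_one, Subgroup.coe_one])
  rw [hΦ, map_pow, ← pow_mul, mul_comm, pow_mul] at this
  exact orderOf_eq_one_iff.1 (Nat.eq_one_of_dvd_coprimes
    ((Nat.coprime_two_right.2 hm).pow_right k) (orderOf_dvd_of_pow_eq_one this)
    (hk ▸ orderOf_pow_dvd 2))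

end Cfsg.Agent.S3301
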