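import Cfsg.Statements.S3304
import Cfsg.Agent.Ngrp.GL23Rec
import Cfsg.Agent.S3303

set_option autoImplicit false
open Cfsg

namespace Cfsg.Agent.S3304

open Subgroup Cfsg.Lib Cfsg.Lib.Trans Cfsg.Lib.Solv Cfsg.Lib.Perm Cfsg.Lib.Ngrp Cfsg.Agent.S0950

theorem eq_of_rank {G : Type*} [Group G] [Finite G] (h : PRankLE 2 1 G) (x y : G) (hx1 : x ≠ 1)
    (hy1 : y ≠ 1) (hx2 : x ^ 2 = 1) (hy2 : y ^ 2 = 1) (hc : x * y = y * x) : x = y := by
  by_contra hxy
  have h1 : ∀ a ∈ ({x, y} : Set G), ∀ b ∈ ({x, y} : Set G), a * b = b * a := by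
    rintro _ (rfl | rfl) _ (rfl | rfl)
    exacts [rfl, hc, hc.symm, rfl]
  have h2 := isMulCommutative_closure h1
  have h3 := h _ h2 fun a ha => by
    induction ha using closure_induction with
    | mem a ha => rcases ha with rfl | rfl <;> assumption
    | one => exact one_pow _
    | mul a b ha hb iha ihb =>
      rw [(show Commute a b from congrArg Subtype.val
        (mul_comm' (⟨a, ha⟩ : closure ({x, y} : Set G)) ⟨b, hb⟩)).mul_pow, iha, ihb, one_mul]
    | inv a _ iha => rw [inv_pow, iha, inv_one]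
  have h4 : ({1, x, y} : Set G) ⊆ closure {x, y} := by
    rintro _ (rfl | rfl | rfl)
    exacts [one_mem _, subset_closure (Or.inl rfl), subset_closure (Or.inr rfl)]
  have h5 := Set.ncard_le_ncard h4
  rw [Set.ncard_eq_three.2 ⟨_, _, _, hx1.symm, hy1.symm, hxy, rfl⟩, ← Nat.card_coe_set_eq] at h5
  exact absurd (h5.trans h3) (by norm_num)

/-- Let G be a finite solvable group in which the intersection of any two distinct Sylow 2-subgroups has 2-rank at most 1 (contains no Klein four-group). Write Q = G/O(G), O(G) the largest normal subgroup of odd order. Then Q has a normal Sylow 2-subgroup; or Q is isomorphic to GL(2,3); or Q has order 48, centre of order 2 with central quotient isomorphic to the symmetric group of degree 4, and generalized quaternion Sylow 2-subgroups of order 16 (the binary octahedral group). The last two are the two representation groups of the symmetric group of degree 4. -/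
theorem result {G : Type*} [Group G] [Finite G] (hs : Group.IsSolvable G)
    (hI : ∀ S T : Sylow 2 G, S ≠ T → Cfsg.PRankLE 2 1 ↥((S : Subgroup G) ⊓ (T : Subgroup G))) :
    (∃ P : Sylow 2 (G ⧸ Cfsg.oddCore G), (P : Subgroup (G ⧸ Cfsg.oddCore G)).Normal) ∨
    Nonempty ((G ⧸ Cfsg.oddCore G) ≃* GL (Fin 2) (ZMod 3)) ∨
    (Nat.card (G ⧸ Cfsg.oddCore G) = 48 ∧ Nat.card ↥(Subgroup.center (G ⧸ Cfsg.oddCore G)) = 2 ∧
      Nonempty ((G ⧸ Cfsg.oddCore G) ⧸ Subgroup.center (G ⧸ Cfsg.oddCore G) ≃* Equiv.Perm (Fin 4)) ∧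
      ∀ P : Sylow 2 (G ⧸ Cfsg.oddCore G), Nonempty (↥(P : Subgroup (G ⧸ Cfsg.oddCore G)) ≃* QuaternionGroup 4)) := by
  set K := G ⧸ oddCore G
  by_cases hN : ∃ P : Sylow 2 K, (P : Subgroup K).Normal
  · exact Or.inl hN
  right
  have h2 : ¬ IsPGroup 2 K := fun h => by
    obtain ⟨P⟩ : Nonempty (Sylow 2 K) := inferInstance
    refine hN ⟨P, ?_⟩
    rw [← P.is_maximal' (h.to_subgroup ⊤) le_top]
    infer_instance
  obtain ⟨S, T, hST⟩ : ∃ S T : Sylow 2 K, S ≠ T := by
    by_contra! h
    obtain ⟨P⟩ : Nonempty (Sylow 2 K) := inferInstance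
    have : Subsingleton (Sylow 2 K) := ⟨h⟩
    exact hN ⟨P, P.normal_of_subsingleton⟩
  obtain ⟨S', T', hne, R, hR, eR⟩ := S3305.exists_le_inf_map_eq (QuotientGroup.mk' (oddCore G))
    (QuotientGroup.mk'_surjective _) S T hST
  set F := pCore 2 K with hF
  have hC : centralizer (F : Set K) ≤ F := S3303.centralizer_pCore_quotient_le 2 hs
  have hFp : IsPGroup 2 F := pCore_isPGroup 2 K
  have hbot : ∀ r ∈ R, (r : K) = 1 → r = 1 := fun r hr h => by
    have h1 : r ∈ oddCore G ⊓ (S' : Subgroup G) := ⟨(QuotientGroup.eq_one_iff _).1 h, (hR hr).1⟩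
    rwa [inf_eq_bot_of_coprime_of_isPGroup (coprime_card_pPrimeCore 2 G) S'.isPGroup',
      mem_bot] at h1
  have hcomm : ∀ x ∈ F, ∀ y ∈ F, x ≠ 1 → y ≠ 1 → x ^ 2 = 1 → y ^ 2 = 1 → x * y = y * x →
      x = y := by
    intro x hx y hy x1 y1 x2 y2 hxy
    have hFR : F ≤ R.map (QuotientGroup.mk' (oddCore G)) :=
      eR ▸ le_inf (pCore_le_sylow S) (pCore_le_sylow T)
    obtain ⟨a, ha, rfl⟩ := hFR hx
    obtain ⟨b, hb, rfl⟩ := hFR hy
    have a2 : a ^ 2 = 1 := hbot _ (pow_mem ha 2) x2
    have b2 : b ^ 2 = 1 := hbot _ (pow_mem hb 2) y2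
    have hab : a * b = b * a := by
      rw [← mul_inv_eq_one]
      refine hbot _ (mul_mem (mul_mem ha hb) (inv_mem (mul_mem hb ha))) ?_
      rw [QuotientGroup.mk_mul, QuotientGroup.mk_inv, mul_inv_eq_one]
      exact hxy
    have := eq_of_rank (hI S' T' hne) ⟨a, hR ha⟩ ⟨b, hR hb⟩
      (fun h => x1 (by rw [show a = 1 from congrArg Subtype.val h, map_one]))
      (fun h => y1 (by rw [show b = 1 from congrArg Subtype.val h, map_one]))
      (Subtype.ext a2) (Subtype.ext b2) (Subtype.ext hab)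
    rw [show a = b from congrArg Subtype.val this]
  have hu : ∀ x y : F, x ≠ 1 → y ≠ 1 → x ^ 2 = 1 → y ^ 2 = 1 → x = y := by
    intro x y x1 y1 x2 y2
    have : Nontrivial F := ⟨x, 1, x1⟩
    have := hFp.center_nontrivial
    obtain ⟨⟨z, hz⟩, hz2⟩ := exists_prime_orderOf_dvd_card' (G := center F) 2
      ((hFp.to_subgroup _).card_eq_or_dvd.resolve_left Finite.one_lt_card.ne')
    rw [orderOf_mk, ← orderOf_coe] at hz2
    have hz1 : (z : K) ≠ 1 := by rintro h; rw [h, orderOf_one] at hz2; omega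
    have hz3 : (z : K) ^ 2 = 1 := by
      have := pow_orderOf_eq_one (z : K)
      rwa [hz2] at this
    exact Subtype.ext ((hcomm x x.2 z z.2 (fun h => x1 (Subtype.ext h)) hz1
      (congrArg Subtype.val x2) hz3 (congrArg Subtype.val (mem_center_iff.1 hz x))).trans
      (hcomm y y.2 z z.2 (fun h => y1 (Subtype.ext h)) hz1
      (congrArg Subtype.val y2) hz3 (congrArg Subtype.val (mem_center_iff.1 hz y))).symm)
  obtain ⟨e⟩ : Nonempty (F ≃* Q8) := by
    rcases isCyclic_or_quaternion_of_unique hFp hu with h | ⟨n, ⟨e⟩⟩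
    · exact absurd (S3303.isPGroup_of_aut _ hFp hC (Perm.isPGroup_mulAut_of_isCyclic hFp)) h2
    rcases n with _ | n
    · exact ⟨e⟩
    · exact absurd (S3303.isPGroup_of_aut _ hFp hC (isPGroup_mulAut_quaternion e)) h2
  let ρ : K →* MulAut Q8 := (MulAut.congr e).toMonoidHom.comp MulAut.conjNormal
  have hρ : ∀ (g : K) (q : F), ρ g (e q) = e ⟨g * q * g⁻¹, Normal.conj_mem inferInstance _ q.2 g⟩ :=
    fun g q => by
      simp only [ρ, MulEquiv.toMonoidHom_eq_coe, MonoidHom.coe_comp, MonoidHom.coe_coe,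
        Function.comp_apply, MulAut.congr_apply, MulEquiv.trans_apply, MulEquiv.symm_apply_apply]
      rfl
  have hker : ρ.ker = centralizer (F : Set K) := by
    ext g
    rw [MonoidHom.mem_ker, mem_centralizer_iff]
    constructor
    · intro h q hq
      have h1 := hρ g ⟨q, hq⟩
      rw [h, MulAut.one_apply, e.apply_eq_iff_eq] at h1
      exact (mul_inv_eq_iff_eq_mul.1 (congrArg Subtype.val h1).symm).symm
    · intro h
      ext x
      obtain ⟨q, rfl⟩ := e.surjective x
      rw [hρ, MulAut.one_apply]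
      congr 1
      exact Subtype.ext (mul_inv_eq_iff_eq_mul.2 (h q q.2).symm)
  have hsq : ∀ c ∈ ρ.ker, c * c = 1 := fun c hc =>
    (q8_mem_centralizer_iff e (hC (hker ▸ hc))).1 (hker ▸ hc)
  have hcen : center K = ρ.ker := by
    refine le_antisymm (hker ▸ center_le_centralizer _) fun c hc => mem_center_iff.2 fun g => ?_
    rw [← mul_inv_eq_iff_eq_mul]
    by_cases h1 : c = 1
    · simp [h1]
    have h2 := ρ.normal_ker.conj_mem c hc g
    exact q8_eq_of_mul_self e (hC (hker ▸ h2)) (hC (hker ▸ hc)) (by simpa using h1) h1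
      (hsq _ h2) (hsq _ hc)
  have hk2 : Nat.card ρ.ker = 2 := by
    have h1 := (center F).card_mul_index
    rw [q8_index_center e, q8_card e] at h1
    have h2 : ρ.ker = (center F).map F.subtype := by
      rw [hker]
      ext g
      constructor
      · intro h
        exact ⟨⟨g, hC h⟩, mem_center_iff.2 fun q => Subtype.ext (h q q.2), rfl⟩
      · rintro ⟨q, hq, rfl⟩ y hy
        exact congrArg Subtype.val (mem_center_iff.1 hq ⟨y, hy⟩)
    rw [h2, card_map_of_injective F.subtype_injective]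
    omega
  have hr := ρ.ker.card_mul_index
  rw [index_ker, hk2] at hr
  have hr1 := card_subgroup_dvd_card ρ.range
  rw [card_mulAut_q8] at hr1
  have h16 : 16 ∣ Nat.card K := by
    have hlt : F < S := lt_of_le_of_ne (pCore_le_sylow S) fun h => hN ⟨S, h ▸ inferInstance⟩
    obtain ⟨k, hk⟩ := IsPGroup.iff_card.1 S.isPGroup'
    have h3 := Trans.card_lt_of_lt hlt
    rw [q8_card e, hk, show 8 = 2 ^ 3 from rfl, Nat.pow_lt_pow_iff_right (by norm_num)] at h3
    exact ((pow_dvd_pow 2 (show 4 ≤ k from h3)).trans hk.symm.dvd).trans (card_subgroup_dvd_card _)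
  have h24 : Nat.card ρ.range = 24 := by
    have h3 : Nat.card K ≠ 16 := fun h => h2 (IsPGroup.of_card (n := 4) h)
    rw [← hr] at h16 h3
    have := Nat.le_of_dvd (by norm_num) hr1
    generalize Nat.card ρ.range = m at *
    interval_cases m <;> omega
  have h48 : Nat.card K = 48 := by omega
  by_cases hv : ∃ v : K, v * v = 1 ∧ v ∉ F
  · obtain ⟨v, hv, hvF⟩ := hv
    obtain ⟨f⟩ := nonempty_equiv_G48 e hC (by rw [h48]; norm_num) hv hvF
    exact Or.inl ⟨f.trans G48.equivGL⟩
  push Not at hv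
  refine Or.inr ⟨h48, hcen ▸ hk2, ?_, fun P => ?_⟩
  · obtain ⟨f⟩ := nonempty_mulAut_q8
    have hs : Function.Surjective ρ := MonoidHom.range_eq_top.1
      (eq_top_of_card_eq _ (h24.trans card_mulAut_q8.symm))
    exact ⟨(QuotientGroup.quotientMulEquivOfEq hcen).trans
      ((QuotientGroup.quotientKerEquivOfSurjective ρ hs).trans f)⟩
  · have hP : Nat.card (P : Subgroup K) = 16 := by
      rw [P.card_eq_multiplicity, h48]
      decide +kernel
    rcases isCyclic_or_quaternion_of_unique P.isPGroup' (fun x y x1 y1 x2 y2 => by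
      have hx : (x : K) * x = 1 := by rw [← pow_two]; exact congrArg Subtype.val x2
      have hy : (y : K) * y = 1 := by rw [← pow_two]; exact congrArg Subtype.val y2
      exact Subtype.ext (q8_eq_of_mul_self e (hv _ hx) (hv _ hy) (fun h => x1 (Subtype.ext h))
        (fun h => y1 (Subtype.ext h)) hx hy)) with h | ⟨n, ⟨f⟩⟩
    · have : IsCyclic F := isCyclic_of_le (pCore_le_sylow P)
      exact absurd (S3303.isPGroup_of_aut _ hFp hC (Perm.isPGroup_mulAut_of_isCyclic hFp)) h2
    · have h3 := Nat.card_congr f.toEquiv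
      rw [hP, Nat.card_eq_fintype_card, QuaternionGroup.card] at h3
      have h4 : 2 ^ (n + 1) = 2 ^ 2 := by omega
      have h5 : n = 1 := by have := Nat.pow_right_injective le_rfl h4; omega
      subst h5
      exact ⟨f⟩

end Cfsg.Agent.S3304
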