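import Cfsg.Statements.S3315
import Cfsg.Agent.Solv.U3Sylow

set_option autoImplicit false
open Cfsg

namespace Cfsg.Agent.S3315

open Subgroup Cfsg.Lib.Solv.U3 Cfsg.Lib.Rank2 Cfsg.Lib.Rank2.Heis Cfsg.Lib.Class

theorem key {F : Type*} [Field F] [Fintype F] [CharP F 2] {q : ℕ} (hF : Fintype.card F = q ^ 2)
    (φ : MulAut (uSub (frobq hF) (frobq_frobq hF))) (h : ∀ x, (φ (φ x)).1.a = x.1.a) {z}
    (hz : z ∈ center (uSub (frobq hF) (frobq_frobq hF))) : φ z = z := by
  obtain ⟨e, he⟩ := exists_trace_one hF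
  obtain ⟨c, τ, hτ⟩ := exists_semilinear he φ
  have h1 : ∀ a, c * τ c * τ (τ a) = a := fun a => by
    have := h (sec (frobq_frobq hF) he a)
    rwa [hτ, hτ, map_mul, ← mul_assoc] at this
  have h2 : c * τ c = 1 := by simpa using h1 1
  simp only [h2, one_mul] at h1
  obtain ⟨y, rfl⟩ := exists_mul_self he ((mem_center_iff_a he).mp hz)
  rw [map_mul, mul_self_eq he, mul_self_eq he, hτ]
  congr 2
  by_cases h3 : (τ : F →+* F) = RingHom.id F
  · have h4 : ∀ a, τ a = a := fun a => RingHom.congr_fun h3 a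
    rw [h4, mul_self_eq_one_iff, CharTwo.neg_eq, or_self] at h2
    rw [h2, h4, one_mul]
  · have h4 : ∀ a, τ a = frobq hF a := fun a => RingHom.congr_fun (Form.eq_frobq hF h3 h1) a
    rw [h4] at h2
    rw [h4, map_mul, frobq_frobq]
    linear_combination (frobq hF y.1.a * y.1.a) * h2

/-- Let S be a Sylow 2-subgroup of SU₃(2ⁿ), n ≥ 2 (realised over the field with 4ⁿ elements). If a finite 2-group R contains a subgroup S' of index 2 isomorphic to S, then the centre of S' is contained in the centre of R. -/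
theorem result {R : Type*} [Group R] [Finite R]
    (hR : IsPGroup 2 R) (n : ℕ) (hn : 2 ≤ n) {F : Type*} [Field F] [Fintype F] (hF : Fintype.card F = 4 ^ n)
    (P : Sylow 2 ↥(Cfsg.SU 3 F (2 ^ n))) (S' : Subgroup R) (hS : Nonempty (↥S' ≃* ↥(P : Subgroup ↥(Cfsg.SU 3 F (2 ^ n)))))
    (hidx : S'.index = 2) :
    (Subgroup.center ↥S').map S'.subtype ≤ Subgroup.center R := by
  have hF' : Fintype.card F = (2 ^ n) ^ 2 := by rw [hF, ← pow_mul, mul_comm, pow_mul]; rfl
  have : CharP F 2 := charP_of_card_eq_prime_pow (f := n * 2) (by rw [hF', pow_mul])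
  obtain ⟨e⟩ := hS
  obtain ⟨e'⟩ := nonempty_equiv_sylow hF' P
  let f := e.trans e'.symm
  have := normal_of_index_eq_two hidx
  rintro _ ⟨z, hz, rfl⟩
  refine mem_center_iff.mpr fun g => mul_inv_eq_iff_eq_mul.mp ?_
  have h1 := key hF' (MulAut.congr f (MulAut.conjNormal g)) (fun x => ?_)
    ((MulEquivClass.apply_mem_center_iff f).mpr hz)
  · simp only [MulAut.congr_apply, MulEquiv.trans_apply, MulEquiv.symm_apply_apply] at h1
    exact congrArg Subtype.val (f.injective h1)
  · obtain ⟨x, rfl⟩ := f.surjective x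
    simp only [MulAut.congr_apply, MulEquiv.trans_apply, MulEquiv.symm_apply_apply]
    have h2 : MulAut.conjNormal g (MulAut.conjNormal g x) =
        (⟨g * g, mul_self_mem_of_index_two hidx g⟩ : S') * x *
          (⟨g * g, mul_self_mem_of_index_two hidx g⟩ : S')⁻¹ :=
      Subtype.ext (by simp [mul_assoc])
    rw [h2, map_mul, map_mul, map_inv]
    simp

end Cfsg.Agent.S3315
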