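import Cfsg.Statements.S3341
import Cfsg.Agent.Block.NineSet

set_option autoImplicit false
open Cfsg

open Cfsg.Lib.Block.Nine Cfsg.Lib.Block.Tri Cfsg.Lib.Char

namespace Cfsg.Agent.S3341

/-- Let G be a finite simple group whose Sylow 3-subgroup S is elementary abelian of order 9, such that G has more than one conjugacy class of elements of order 3 and C_G(s) = S for every non-identity s in S. Then G is isomorphic to the alternating group of degree 6. -/
theorem result {G : Type*} [Group G] [Finite G] [IsSimpleGroup G]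
    (P : Sylow 3 G) (S : Subgroup G) (hSP : S = P) (hcomm : IsMulCommutative S) (hexp : ∀ a ∈ S, a ^ 3 = 1)
    (hcard : Nat.card S = 9)
    (hclasses : ∃ a b : G, orderOf a = 3 ∧ orderOf b = 3 ∧ ∀ g : G, g * a * g⁻¹ ≠ b)
    (hcent : ∀ s ∈ S, s ≠ 1 → Subgroup.centralizer ({s} : Set G) = S) :
    Nonempty (G ≃* alternatingGroup (Fin 6)) := by
  subst hSP
  haveI : Fact (Nat.Prime 3) := ⟨Nat.prime_three⟩
  have comm : ∀ a ∈ (P : Subgroup G), ∀ b ∈ (P : Subgroup G), a * b = b * a := fun a ha b hb =>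
    congrArg Subtype.val (hcomm.1.1 ⟨a, ha⟩ ⟨b, hb⟩)
  obtain ⟨a, b, ha, hb, hab⟩ := hclasses
  have key : ∀ x : G, orderOf x = 3 → ∃ y ∈ (P : Subgroup G), y ≠ 1 ∧ IsConj x y := fun x hx => by
    obtain ⟨g, hg⟩ := exists_conj_mem_of_not_dvd_index P.not_dvd_index (x := x) (k := 1)
      (by rw [pow_one, ← hx, pow_orderOf_eq_one])
    refine ⟨_, hg, fun h => ?_, isConj_iff.2 ⟨g, rfl⟩⟩
    rw [conj_eq_one_iff.1 h, orderOf_one] at hx
    omega
  obtain ⟨s, hs, hs1, has⟩ := key a ha
  obtain ⟨t, ht, ht1, hbt⟩ := key b hb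
  have hC : Subgroup.centralizer ((P : Subgroup G) : Set G) = P := le_antisymm
    ((Subgroup.centralizer_le (Set.singleton_subset_iff.2 hs)).trans (hcent s hs hs1).le)
    fun x hx y hy => comm y hy x hx
  have c := core_sylow P hcard hexp hC
  have h := emb_sylow P hcard hexp hC fun x hx hx1 => (hcent x hx hx1).le.trans Subgroup.le_normalizer
  have hN : Subgroup.normalizer (P : Set G) ≠ ⊤ := fun hN => by
    have h1 : (P : Subgroup G).Normal := Subgroup.normalizer_eq_top_iff.1 hN
    rcases h1.eq_bot_or_eq_top with h2 | h2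
    · exact hs1 (by rwa [h2] at hs)
    · have h3 : (Subgroup.zpowers s).Normal := ⟨fun x hx g => by
        rwa [comm g (h2 ▸ Subgroup.mem_top _) x (h2 ▸ Subgroup.mem_top _), mul_inv_cancel_right]⟩
      rcases h3.eq_bot_or_eq_top with h4 | h4
      · exact hs1 (Subgroup.zpowers_eq_bot.1 h4)
      · rw [h2, ← h4, Nat.card_zpowers, orderOf_eq_three (hexp s hs) hs1] at hcard
        omega
  rcases c.pm_or (fun j hj hj1 m hm => (hcent j hj fun h => hj1 (Subtype.ext h)).le
      (Subgroup.mem_centralizer_singleton_iff.2 (congrArg Subtype.val hm)))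
    (s := ⟨s, Subgroup.le_normalizer hs⟩) (t := ⟨t, Subgroup.le_normalizer ht⟩) hs
    (fun h => hs1 (congrArg Subtype.val h)) ht (fun h => ht1 (congrArg Subtype.val h)) (fun hc => by
      obtain ⟨g, hg⟩ := isConj_iff.1 (has.trans (((Subgroup.subtype _).map_isConj hc).trans hbt.symm))
      exact hab g hg) with h1 | ⟨i, hi, h1⟩
  · exact (hN ((Subgroup.range_subtype _).symm.trans (c.top_of_pm h h1))).elim
  · refine (four (h1 ▸ emb_comp h hi)).resolve_left fun h2 => hN (eq_top_iff.2 (h2.ge.trans ?_))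
    rintro _ ⟨m, rfl⟩
    exact (i m).2

end Cfsg.Agent.S3341
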