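import Cfsg.Statements.S3347
import Cfsg.Agent.Block.SmithTyrer
import Cfsg.Agent.S0075

set_option autoImplicit false
open Cfsg

open Cfsg.Lib.Block Cfsg.Lib.Block.Princ Cfsg.Lib.Block.ST Subgroup

namespace Cfsg.Agent.S3347

/-- Let G be a finite group, p an odd prime, and P an abelian, non-cyclic Sylow p-subgroup of G with [N_G(P) : C_G(P)] = 2. Then either O^p(G) is a proper subgroup of G, or G has p-length 1 (G = O_{p',p,p'}(G)). -/
theorem result {G : Type*} [Group G] [Finite G]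
    (p : ℕ) [Fact p.Prime] (hp : p ≠ 2) (P : Sylow p G) (hab : IsMulCommutative (P : Subgroup G)) (hnc : ¬ IsCyclic (P : Subgroup G))
    (hidx : ((Subgroup.centralizer ((P : Subgroup G) : Set G)).subgroupOf (Subgroup.normalizer ((P : Subgroup G) : Set G))).index = 2) :
    Cfsg.pResidual p G ≠ ⊤ ∨ Cfsg.PLengthLE p 1 G := by
  refine or_iff_not_imp_left.2 fun h => ?_
  rw [not_not] at h
  have key : ∀ n ∈ normalizer ((P : Subgroup G) : Set G),
      n ∉ centralizer ((P : Subgroup G) : Set G) → ∀ y ∈ (P : Subgroup G), n * y * n⁻¹ = y⁻¹ := by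
    intro n hn hnC y hy
    have hc : ∀ a ∈ (P : Subgroup G), ∀ b ∈ (P : Subgroup G), a * b = b * a := fun a ha b hb =>
      congrArg Subtype.val (hab.is_comm.comm (⟨a, ha⟩ : (P : Subgroup G)) ⟨b, hb⟩)
    let I : Subgroup G :=
      { carrier := {y | y ∈ (P : Subgroup G) ∧ n * y * n⁻¹ = y⁻¹}
        one_mem' := ⟨one_mem _, by simp⟩
        mul_mem' := fun {a b} ha hb => ⟨mul_mem ha.1 hb.1, by
          rw [hc a ha.1 b hb.1, mul_inv_rev, ← ha.2, ← hb.2, ← hc a ha.1 b hb.1]; group⟩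
        inv_mem' := fun {a} ha => ⟨inv_mem ha.1, by rw [← conj_inv, ha.2]⟩ }
    have h1 := Cfsg.Agent.S0075.result P hab
    rw [h, inf_top_eq] at h1
    refine (show (P : Subgroup G) ≤ I from h1.le.trans (commutator_le.2 fun x hx m hm => ?_) ) hy |>.2
    have hm' : m * x⁻¹ * m⁻¹ ∈ (P : Subgroup G) := (mem_normalizer_iff.1 hm _).1 (inv_mem hx)
    rw [commutatorElement_def, show x * m * x⁻¹ * m⁻¹ = x * (m * x⁻¹ * m⁻¹) by group]
    refine ⟨mul_mem hx hm', ?_⟩
    by_cases hmC : m ∈ centralizer ((P : Subgroup G) : Set G)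
    · rw [mem_centralizer_iff_conj.1 hmC _ (inv_mem hx)]
      simp
    · have h2 : ∀ a ∈ normalizer ((P : Subgroup G) : Set G),
          a ∉ centralizer ((P : Subgroup G) : Set G) → ∀ b ∈ normalizer ((P : Subgroup G) : Set G),
          b ∉ centralizer ((P : Subgroup G) : Set G) → ∀ w ∈ (P : Subgroup G),
          a * (b * w * b⁻¹) * a⁻¹ = w := fun a ha ha' b hb hb' w hw => by
        have := (mul_mem_iff_of_index_two hidx (a := ⟨a, ha⟩) (b := ⟨b, hb⟩)).2
          (iff_of_false ha' hb')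
        refine Eq.trans ?_ (mem_centralizer_iff_conj.1 (mem_subgroupOf.1 this) w hw)
        simp only [coe_mul]
        group
      have h3 := h2 n hn hnC m hm hmC _ (inv_mem hx)
      have h4 := h2 n hn hnC m⁻¹ (inv_mem hm) (by rwa [inv_mem_iff]) _ ((mem_normalizer_iff.1 hm _).1 hx)
      calc n * (x * (m * x⁻¹ * m⁻¹)) * n⁻¹
          = n * (m⁻¹ * (m * x * m⁻¹) * m⁻¹⁻¹) * n⁻¹ * (n * (m * x⁻¹ * m⁻¹) * n⁻¹) := by group
        _ = _ := by rw [h3, h4]; group
  refine InvSub.plength hp P hab hnc ⟨fun n hn => ?_, ?_⟩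
  · by_cases hnC : n ∈ centralizer ((P : Subgroup G) : Set G)
    · exact Or.inl (mem_centralizer_iff_conj.1 hnC)
    · exact Or.inr (key n hn hnC)
  · obtain ⟨n, hn⟩ : ∃ n : normalizer ((P : Subgroup G) : Set G),
        n ∉ (centralizer ((P : Subgroup G) : Set G)).subgroupOf _ := by
      by_contra h1
      push Not at h1
      rw [(eq_top_iff' _).2 h1, index_top] at hidx
      omega
    exact ⟨n, n.2, key n n.2 hn⟩

end Cfsg.Agent.S3347
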