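import Cfsg.Statements.S3349
import Mathlib

set_option autoImplicit false
open Cfsg

namespace Cfsg.Agent.S3349

open Subgroup


/-- Let Q be a finite extraspecial p-group and α an automorphism of Q fixing every element of some maximal abelian subgroup of Q. Then the order of α is a power of p. -/
theorem result {Q : Type*} [Group Q] [Finite Q]
    (p : ℕ) [Fact p.Prime] (hQ : Cfsg.IsExtraspecial p Q) (α : MulAut Q)
    (A : Subgroup Q) (hA : IsMulCommutative A) (hmax : ∀ B : Subgroup Q, A ≤ B → IsMulCommutative B → B = A)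
    (hfix : ∀ a ∈ A, α a = a) :
    ∃ k : ℕ, orderOf α = p ^ k := by
  have hc : ∀ a ∈ A, ∀ b ∈ A, a * b = b * a := fun a ha b hb =>
    congrArg Subtype.val (hA.is_comm.comm (⟨a, ha⟩ : A) ⟨b, hb⟩)
  have hself : ∀ x : Q, (∀ a ∈ A, a * x = x * a) → x ∈ A := by
    intro x hx
    have h1 : A ⊔ zpowers x ≤ centralizer ((A : Set Q) ∪ {x}) := by
      refine sup_le (fun a ha => ?_) (zpowers_le.2 ?_)
      · rintro b (hb | rfl)
        exacts [hc b hb a ha, (hx a ha).symm]
      · rintro b (hb | rfl)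
        exacts [hx b hb, rfl]
    rw [← centralizer_closure, Subgroup.closure_union, closure_eq, ← zpowers_eq_closure] at h1
    rw [← hmax (A ⊔ zpowers x) le_sup_left ⟨⟨fun a b => Subtype.ext (h1 b.2 a a.2)⟩⟩]
    exact mem_sup_right (mem_zpowers x)
  have hn : ∀ x : Q, ∀ a ∈ A, x * a * x⁻¹ ∈ A := by
    intro x a ha
    have h1 : x * a * x⁻¹ * a⁻¹ ∈ center Q := by
      rw [← hQ.1.2.2]; exact commutator_mem_commutator (mem_top x) (mem_top a)
    simpa using A.mul_mem (hself _ fun b _ => mem_center_iff.1 h1 b) ha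
  have h2 : ∀ x : Q, x⁻¹ * α x ∈ A := fun x => hself _ fun a ha => by
    have h3 := hfix _ (hn x a ha)
    rw [map_mul, map_mul, map_inv, hfix a ha] at h3
    calc a * (x⁻¹ * α x) = x⁻¹ * (x * a * x⁻¹) * α x := by group
      _ = x⁻¹ * α x * a := by rw [← h3]; group
  have h3 : ∀ (x : Q) (k : ℕ), (α ^ k) x = x * (x⁻¹ * α x) ^ k := by
    intro x k
    induction k with
    | zero => simp
    | succ k ih =>
      rw [pow_succ', MulAut.mul_apply, ih, map_mul, hfix _ (pow_mem (h2 x) k), pow_succ', ← mul_assoc,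
        mul_inv_cancel_left]
  obtain ⟨n, hn⟩ := IsPGroup.iff_card.1 hQ.1.1
  have h4 : α ^ p ^ n = 1 := by
    ext x; rw [h3, ← hn, pow_card_eq_one', mul_one]; rfl
  obtain ⟨k, -, hk⟩ := (Nat.dvd_prime_pow Fact.out).1 (orderOf_dvd_of_pow_eq_one h4)
  exact ⟨k, hk⟩

end Cfsg.Agent.S3349
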