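import Cfsg.Statements.S3357
import Cfsg.Agent.Perm.FCLift

set_option autoImplicit false
open Cfsg

namespace Cfsg.Agent.S3357

open Cfsg.Lib.Perm


/-- Let G be a finite group that occurs as a Frobenius complement. Then G has a faithful irreducible representation over an algebraic closure of the rationals in which no non-identity element of G has 1 as an eigenvalue: there are n ≥ 1 and an injective homomorphism ρ from G to GL(n) over that field, with no invariant subspace other than 0 and the whole space, such that for g ≠ 1 the only vector fixed by ρ(g) is 0. -/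
theorem result {G : Type*} [Group G] [Finite G]
    (hFC : ∃ (L : Type) (_ : Group L) (_ : Finite L) (H : Subgroup L), Cfsg.IsFrobeniusComplement H ∧ Nonempty (G ≃* H)) :
    ∃ (n : ℕ) (ρ : G →* GL (Fin n) (AlgebraicClosure ℚ)), 0 < n ∧ Function.Injective ρ ∧
      (∀ W : Submodule (AlgebraicClosure ℚ) (Fin n → AlgebraicClosure ℚ),
        (∀ g : G, ∀ w ∈ W, ((ρ g : GL (Fin n) (AlgebraicClosure ℚ)) : Matrix (Fin n) (Fin n) (AlgebraicClosure ℚ)).mulVec w ∈ W) → W = ⊥ ∨ W = ⊤) ∧
      ∀ g : G, g ≠ 1 → ∀ v : Fin n → AlgebraicClosure ℚ,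
        ((ρ g : GL (Fin n) (AlgebraicClosure ℚ)) : Matrix (Fin n) (Fin n) (AlgebraicClosure ℚ)).mulVec v = v → v = 0 := by
  obtain ⟨n, ρ, h1, h2⟩ := (isFC_of_exists hFC).exists_rep_charZero (AlgebraicClosure ℚ)
  let τ : G →* GL (Fin (n + 1)) (AlgebraicClosure ℚ) :=
    (LinearMap.toMatrixAlgEquiv'.toRingEquiv.toRingHom.toMonoidHom.comp ρ).toHomUnits
  have hτ : ∀ g v, (τ g : Matrix (Fin (n + 1)) (Fin (n + 1)) (AlgebraicClosure ℚ)).mulVec v =
      ρ g v := fun g v => LinearMap.toMatrix'_mulVec (ρ g) v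
  refine ⟨n + 1, τ, n.succ_pos, fun g g' e => h1.injective (LinearMap.ext fun v => ?_),
    fun W hW => h2 W fun g w hw => hτ g w ▸ hW g w hw, fun g hg v hv => ?_⟩
  · rw [← hτ, ← hτ, e]
  · by_contra hv0
    exact hg (h1.eq_one_of_apply hv0 (hτ g v ▸ hv))

end Cfsg.Agent.S3357
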