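import Cfsg.Statements.S4291
import Cfsg.Agent.Perm.FCTri

set_option autoImplicit false
open Cfsg

namespace Cfsg.Agent.S4291

open Cfsg.Lib.Perm Cfsg.Lib.Solv Subgroup
open scoped commutatorElement

theorem eq_of_isZGroup {G : Type*} [Group G] [Finite G] [IsZGroup G] {u v : G} (hu : u ≠ 1)
    (hv : v ≠ 1) (hu2 : u * u = 1) (hv2 : v * v = 1) (h : u * v = v * u) : u = v := by
  classical
  have := isMulCommutative_closure (k := {u, v}) (by
    rintro _ (rfl | rfl) _ (rfl | rfl) <;> simp [h])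
  have := isNilpotent_of_isMulCommutative (closure {u, v})
  have ho : orderOf u = 2 := orderOf_eq_prime (by rwa [pow_two]) hu
  have h1 : v ∈ zpowers u := PG.mem_of_pow_card_eq_one (A := closure {u, v})
    (zpowers_le.mpr (subset_closure (by simp))) (subset_closure (by simp))
    (by rwa [Nat.card_zpowers, ho, pow_two])
  rw [mem_zpowers_iff_mem_range_orderOf, ho] at h1
  simp only [Finset.mem_image, Finset.mem_range] at h1
  obtain ⟨k, hk, rfl⟩ := h1
  interval_cases k
  · simp at hv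
  · simp

/-- The permutation groups of degree `n` containing the alternating group have no non-trivial
normal subgroup with cyclic Sylow subgroups. -/
def Good (n : ℕ) : Prop := ∀ x : Equiv.Perm (Fin n), x ≠ 1 → ∃ g y : Equiv.Perm (Fin n),
  g ∈ alternatingGroup (Fin n) ∧ y = x * g * x⁻¹ * g⁻¹ ∧ y ≠ 1 ∧ ∃ g' u : Equiv.Perm (Fin n),
    g' ∈ alternatingGroup (Fin n) ∧ u = y * g' * y⁻¹ * g'⁻¹ ∧ u ≠ 1 ∧ u * u = 1 ∧
    ∃ h v : Equiv.Perm (Fin n), h ∈ alternatingGroup (Fin n) ∧ v = h * u * h⁻¹ ∧ u ≠ v ∧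
      u * v = v * u

/-- A product of two transpositions. -/
def t3 {n : ℕ} (a b c : Fin n) : Equiv.Perm (Fin n) := Equiv.swap a b * Equiv.swap b c

theorem t3_mem {n : ℕ} {a b c : Fin n} (h : a ≠ b) (h' : b ≠ c) :
    t3 a b c ∈ alternatingGroup (Fin n) := by
  simp [t3, h, h']

/-- The commutator with `t3 a b c`. -/
def cm {n : ℕ} (x : Equiv.Perm (Fin n)) (a b c : Fin n) : Equiv.Perm (Fin n) :=
  x * t3 a b c * x⁻¹ * (t3 a b c)⁻¹

theorem sign_cm {n : ℕ} (x : Equiv.Perm (Fin n)) (a b c : Fin n) :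
    Equiv.Perm.sign (cm x a b c) = 1 := by
  rw [cm, map_mul, map_mul, map_mul, map_inv, map_inv, mul_inv_cancel_comm, mul_inv_cancel]

theorem good_of (n : ℕ) (h : ∀ x : Equiv.Perm (Fin n), x ≠ 1 → ∃ a b c : Fin n,
    a ≠ b ∧ b ≠ c ∧ cm x a b c ≠ 1 ∧
      (cm x a b c * cm x a b c = 1 ∨ cm x a b c * cm x a b c * cm x a b c = 1))
    (h₁ : ∀ x : Equiv.Perm (Fin n), x ≠ 1 → (x * x = 1 ∨ x * x * x = 1) →
      Equiv.Perm.sign x = 1 → ∃ a b c : Fin n, a ≠ b ∧ b ≠ c ∧ cm x a b c ≠ 1 ∧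
        cm x a b c * cm x a b c = 1)
    (h' : ∀ u : Equiv.Perm (Fin n), u ≠ 1 → u * u = 1 → Equiv.Perm.sign u = 1 →
      ∃ a b c : Fin n, a ≠ b ∧ b ≠ c ∧ u ≠ t3 a b c * u * (t3 a b c)⁻¹ ∧
        u * (t3 a b c * u * (t3 a b c)⁻¹) = t3 a b c * u * (t3 a b c)⁻¹ * u) : Good n := by
  intro x hx
  obtain ⟨a, b, c, h1, h2, h3, h4⟩ := h x hx
  obtain ⟨a', b', c', h5, h6, h7, h8⟩ := h₁ _ h3 h4 (sign_cm _ _ _ _)
  obtain ⟨a'', b'', c'', h9, h10, h11⟩ := h' _ h7 h8 (sign_cm _ _ _ _)
  exact ⟨_, _, t3_mem h1 h2, rfl, h3, _, _, t3_mem h5 h6, rfl, h7, h8, _, _, t3_mem h9 h10, rfl,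
    h11⟩

set_option synthInstance.maxSize 1000 in
theorem good4 : Good 4 := good_of 4 (by decide +kernel) (by decide +kernel) (by decide +kernel)

set_option synthInstance.maxSize 1000 in
theorem good5 : Good 5 := good_of 5 (by decide +kernel) (by decide +kernel) (by decide +kernel)

variable {G : Type*} [Group G]

theorem le_ker [Finite G] {n : ℕ} (hn : Good n) (f : G →* Equiv.Perm (Fin n))
    (hf : alternatingGroup (Fin n) ≤ f.range) (M : Subgroup G) [hM : M.Normal] [IsZGroup M] :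
    M ≤ f.ker := by
  intro x hx
  by_contra h
  obtain ⟨g, y, hg, hy, -, g', u, hg', hu, h1, h2, k, v, hk, hv, h3, h4⟩ := hn (f x) h
  have : IsZGroup (M.map f) := IsZGroup.of_surjective (f.subgroupMap_surjective M)
  have hc : ∀ {z g : Equiv.Perm (Fin n)}, g ∈ alternatingGroup (Fin n) → z ∈ M.map f →
      g * z * g⁻¹ ∈ M.map f := by
    rintro _ g hg ⟨z, hz, rfl⟩
    obtain ⟨a, ha⟩ := hf hg
    exact ⟨_, hM.conj_mem _ hz a, by simp [ha]⟩
  have hc' : ∀ {z g : Equiv.Perm (Fin n)}, g ∈ alternatingGroup (Fin n) → z ∈ M.map f →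
      z * g * z⁻¹ * g⁻¹ ∈ M.map f := fun {z g} hg hz => by
    rw [mul_assoc, mul_assoc, ← mul_assoc g]
    exact mul_mem hz (hc hg (inv_mem hz))
  have h6 : u ∈ M.map f := hu ▸ hc' hg' (hy ▸ hc' hg ⟨x, hx, rfl⟩)
  have h7 : v ∈ M.map f := hv ▸ hc hk h6
  refine h3 (congrArg Subtype.val (eq_of_isZGroup (u := ⟨_, h6⟩) (v := ⟨_, h7⟩)
    (fun e => h1 (congrArg Subtype.val e)) (fun e => h1 ?_) (Subtype.ext h2) (Subtype.ext ?_)
    (Subtype.ext h4)))
  · exact conj_eq_one_iff.mp (hv.symm.trans (congrArg Subtype.val e))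
  · change v * v = 1
    rw [hv, conj_mul, h2]; simp

theorem not_commutator_le {n : ℕ} (hn : Good n) (hn' : 3 ≤ n) (f : G →* Equiv.Perm (Fin n))
    (hf : alternatingGroup (Fin n) ≤ f.range) : ¬ commutator G ≤ f.ker := by
  intro h
  have : Nontrivial (alternatingGroup (Fin n)) :=
    alternatingGroup.nontrivial_of_three_le_card (by simpa using hn')
  obtain ⟨x, hx⟩ := exists_ne (1 : alternatingGroup (Fin n))
  obtain ⟨g, u, hg, rfl, h1, -⟩ := hn x fun e => hx (Subtype.ext e)
  obtain ⟨a, ha⟩ := hf hg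
  obtain ⟨b, hb⟩ := hf x.2
  apply h1
  have := h (commutator_mem_commutator (mem_top b) (mem_top a))
  rwa [MonoidHom.mem_ker, map_commutatorElement, ha, hb] at this

theorem d2_aux : ∀ x y : DihedralGroup 2, (∀ z, z = 1 ∨ z = x ∨ z = y ∨ z = y * x) →
    x ≠ 1 ∧ y ≠ 1 ∧ y * x ≠ 1 := by decide

theorem not_isZGroup_d2 : ¬ IsZGroup (DihedralGroup 2) := fun _ =>
  absurd (eq_of_isZGroup (u := (DihedralGroup.r 1 : DihedralGroup 2))
    (v := DihedralGroup.sr 0) (by decide) (by decide) (by decide) (by decide) (by decide))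
    (by decide)

theorem d2_sq : ∀ x : DihedralGroup 2, x * x = 1 := by decide

theorem d2_comm : ∀ x y : DihedralGroup 2, x * y * x⁻¹ * y⁻¹ = 1 := by decide

theorem ker_le_ker [Finite G] (h : IsFC G) (f₁ f₂ : G →* DihedralGroup 2)
    (hf : Function.Surjective f₁) : f₁.ker ≤ f₂.ker := by
  have : Fact (Nat.Prime 2) := ⟨Nat.prime_two⟩
  let T : Sylow 2 G := default
  obtain ⟨r, s, hrs⟩ : ∃ r s : T, ∀ t : T, ∃ k : ℤ, t = r ^ k ∨ t = s * r ^ k := by
    rcases h.isCyclic_or_quaternion T.2 with hc | ⟨n, ⟨e⟩⟩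
    · obtain ⟨r, hr⟩ := hc.exists_generator
      exact ⟨r, 1, fun t => (hr t).imp fun k hk => Or.inl hk.symm⟩
    · obtain ⟨r, s, -, -, -, -, hall⟩ := PG.exists_gens_of_mulEquiv_quaternionGroup e
      exact ⟨r, s, hall⟩
  let f := f₁.prod f₂
  have hsq : ∀ x : DihedralGroup 2 × DihedralGroup 2, x ^ 2 = 1 := fun x =>
    Prod.ext (by simpa [pow_two] using d2_sq x.1) (by simpa [pow_two] using d2_sq x.2)
  have h1 : f.ker ⊔ T = ⊤ := by
    rw [eq_top_iff, ← Cfsg.Lib.Trans.pResidual_sup_sylow T]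
    exact sup_le_sup_right (Cfsg.Lib.Trans.pResidual_le_ker f fun x => ⟨1, hsq x⟩) _
  have h2 : ∀ g, f g = 1 ∨ f g = f r ∨ f g = f s ∨ f g = f s * f r := fun g => by
    obtain ⟨n, hn, t, ht, rfl⟩ := (mem_sup_of_le_normalizer (N := f.ker) (H := T)
      (Fpf.le_normalizer_of_normal' _ _)).mp (h1 ▸ mem_top g)
    have h3 : ∀ k : ℤ, f r ^ k = 1 ∨ f r ^ k = f r := fun k => by
      rw [zpow_eq_zpow_emod' k (hsq (f r)), Nat.cast_ofNat]
      rcases Int.emod_two_eq_zero_or_one k with h | h <;> simp [h]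
    obtain ⟨k, hk | hk⟩ := hrs ⟨t, ht⟩
    · rw [map_mul, hn, one_mul, show t = r ^ k from congrArg Subtype.val hk, map_zpow]
      rcases h3 k with h | h <;> simp [h]
    · rw [map_mul, hn, one_mul, show t = s * r ^ k from congrArg Subtype.val hk, map_mul, map_zpow]
      rcases h3 k with h | h <;> simp [h]
  obtain ⟨h3, h4, h5⟩ := d2_aux (f₁ r) (f₁ s) fun z => by
    obtain ⟨g, rfl⟩ := hf z
    rcases h2 g with h | h | h | h <;> simp [show f₁ g = _ from congrArg Prod.fst h, f]
  intro g hg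
  rcases h2 g with h | h | h | h
  · exact congrArg Prod.snd h
  · exact absurd ((congrArg Prod.fst h).symm.trans hg) h3
  · exact absurd ((congrArg Prod.fst h).symm.trans hg) h4
  · exact absurd ((congrArg Prod.fst h).symm.trans hg) h5

/-- The quotient map from a generalized quaternion group to the four-group. -/
def quatToD2 (n : ℕ) : QuaternionGroup (2 ^ (n + 1)) →* DihedralGroup 2 :=
  MonoidHom.mk' (fun x => match x with
    | QuaternionGroup.a i => DihedralGroup.r (ZMod.castHom (Dvd.intro _ rfl) (ZMod 2) i)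
    | QuaternionGroup.xa i => DihedralGroup.sr (ZMod.castHom (Dvd.intro _ rfl) (ZMod 2) i)) (by
      rintro (i | i) (j | j)
      · simp only [QuaternionGroup.a_mul_a, map_add, DihedralGroup.r_mul_r]
      · simp only [QuaternionGroup.a_mul_xa, map_sub, DihedralGroup.r_mul_sr]
      · simp only [QuaternionGroup.xa_mul_a, map_add, DihedralGroup.sr_mul_r]
      · simp only [QuaternionGroup.xa_mul_xa, map_sub, map_add, DihedralGroup.sr_mul_sr,
          map_natCast]
        rw [(ZMod.natCast_eq_zero_iff _ _).mpr (dvd_pow_self 2 (by omega)), zero_add])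

theorem quatToD2_surjective (n : ℕ) : Function.Surjective (quatToD2 n) := by
  rintro (i | i)
  · obtain ⟨j, rfl⟩ := ZMod.castHom_surjective (Dvd.intro (2 ^ (n + 1)) rfl) i
    exact ⟨QuaternionGroup.a j, rfl⟩
  · obtain ⟨j, rfl⟩ := ZMod.castHom_surjective (Dvd.intro (2 ^ (n + 1)) rfl) i
    exact ⟨QuaternionGroup.xa j, rfl⟩

theorem quatToD2_ker (n : ℕ) : (quatToD2 n).ker ≤ zpowers (QuaternionGroup.a 1) := by
  rintro (i | i) h
  · exact quaternion_a_mem_zpowers i
  · exact absurd h (fun h => by cases h)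

theorem alt_le_range {n : ℕ} (f : G →* alternatingGroup (Fin n)) (hf : Function.Surjective f) :
    alternatingGroup (Fin n) ≤ ((alternatingGroup (Fin n)).subtype.comp f).range := fun x hx => by
  obtain ⟨g, hg⟩ := hf ⟨x, hx⟩
  exact ⟨g, congrArg Subtype.val hg⟩


/-- Let G be a finite group that occurs as a Frobenius complement. Then G has exactly one normal subgroup N such that every Sylow subgroup of N is cyclic and the quotient of G by N is trivial or isomorphic to one of the following five groups: the Klein four-group, the alternating group of degree 4, the symmetric group of degree 4, the alternating group of degree 5, the symmetric group of degree 5. (The quotient is described by a surjective homomorphism with kernel N; the Klein four-group is written as the dihedral group of order 4.) -/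
theorem result {G : Type*} [Group G] [Finite G]
    (hFC : (∃ (L : Type) (_ : Group L) (_ : Finite L) (H : Subgroup L), Cfsg.IsFrobeniusComplement H ∧ Nonempty (G ≃* H))) :
    ∃! N : Subgroup G, N.Normal ∧ (∀ (p : ℕ) [Fact p.Prime] (P : Sylow p N), IsCyclic P) ∧
      (N = ⊤ ∨
        (∃ f : G →* DihedralGroup 2, Function.Surjective f ∧ f.ker = N) ∨
        (∃ f : G →* alternatingGroup (Fin 4), Function.Surjective f ∧ f.ker = N) ∨
        (∃ f : G →* Equiv.Perm (Fin 4), Function.Surjective f ∧ f.ker = N) ∨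
        (∃ f : G →* alternatingGroup (Fin 5), Function.Surjective f ∧ f.ker = N) ∨
        (∃ f : G →* Equiv.Perm (Fin 5), Function.Surjective f ∧ f.ker = N)) := by
  have h := isFC_of_exists hFC
  have : Fact (Nat.Prime 2) := ⟨Nat.prime_two⟩
  refine existsUnique_of_exists_of_unique ?_ ?_
  · rcases h.trichotomy with ⟨T, K, hK, hT⟩ | ⟨Q, hQ, ⟨e⟩, -, h12⟩ | ⟨L, hL, ⟨e⟩⟩
    · rcases h.isCyclic_or_quaternion T.2 with hc | ⟨n, ⟨e⟩⟩
      · have := h.isZGroup_of_isCyclic T hc
        exact ⟨⊤, inferInstance, fun p _ P => inferInstance, Or.inl rfl⟩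
      let π : G →* QuaternionGroup (2 ^ (n + 1)) :=
        (hT.symm.QuotientMulEquiv.trans e).toMonoidHom.comp (QuotientGroup.mk' K)
      have hπ : Function.Surjective π :=
        (hT.symm.QuotientMulEquiv.trans e).surjective.comp (QuotientGroup.mk'_surjective K)
      have hπK : π.ker = K := by
        rw [MonoidHom.ker_comp_of_injective _ _ (MulEquiv.injective _), QuotientGroup.ker_mk']
      let f := (quatToD2 n).comp π
      let S : Sylow 2 f.ker := default
      have hS : IsCyclic S := by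
        let θ : S →* zpowers (QuaternionGroup.a 1 : QuaternionGroup (2 ^ (n + 1))) :=
          ((π.comp f.ker.subtype).comp (S : Subgroup f.ker).subtype).codRestrict _
            fun x => quatToD2_ker n x.1.2
        refine isCyclic_of_injective θ ((injective_iff_map_eq_one θ).mpr fun x hx => ?_)
        have h1 : (x : G) ∈ K := hπK ▸ (congrArg Subtype.val hx : π x = 1)
        refine Cfsg.Lib.Trans.eq_one_of_isPGroup_of_coprime S.2 ?_
        rw [← orderOf_coe, ← orderOf_coe]
        exact (Cfsg.Lib.Trans.coprime_card_of_disjoint_sylow T K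
          (disjoint_iff.mp hT.disjoint)).coprime_dvd_left (K.orderOf_dvd_natCard h1)
      have := (h.subgroup _).isZGroup_of_isCyclic S hS
      exact ⟨f.ker, inferInstance, fun p _ P => inferInstance,
        Or.inr (Or.inl ⟨f, (quatToD2_surjective n).comp hπ, rfl⟩)⟩
    · obtain ⟨i, hi, j, hj, h1, h2, h3, -⟩ := exists_quat_of_q8 e
      have := h.isZGroup_centralizer (S := Q) hi hj h1 h2 h3
      obtain ⟨f, hf⟩ := exists_hom_of_normal_q8 Q e
      refine ⟨centralizer Q, inferInstance, fun p _ P => inferInstance, Or.inr (Or.inr ?_)⟩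
      rcases alt_or_perm f (by
        rw [hf, Nat.card_perm, Nat.card_eq_fintype_card, Fintype.card_fin]
        exact mul_dvd_mul_left 2 h12) with ⟨f', h4, h5⟩ | h4
      · exact Or.inl ⟨f', h4, h5.trans hf⟩
      · exact Or.inr (Or.inl ⟨f, h4, hf⟩)
    · obtain ⟨i, hi, j, hj, h1, h2, h3, -⟩ := exists_quat_of_SL25 e
      have := h.isZGroup_centralizer (S := L) hi hj h1 h2 h3
      obtain ⟨f, hf⟩ := exists_hom_of_normal_SL25 L e
      refine ⟨centralizer L, inferInstance, fun p _ P => inferInstance,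
        Or.inr (Or.inr (Or.inr (Or.inr ?_)))⟩
      rcases alt_or_perm f (by
        rw [hf, Nat.card_perm, Nat.card_eq_fintype_card, Fintype.card_fin]
        rcases index_centralizer_SL25 L e with h | h <;> rw [h] <;> decide) with ⟨f', h4, h5⟩ | h4
      · exact Or.inl ⟨f', h4, h5.trans hf⟩
      · exact Or.inr ⟨f, h4, hf⟩
  have key : ∀ N : Subgroup G, (N = ⊤ ∨
        (∃ f : G →* DihedralGroup 2, Function.Surjective f ∧ f.ker = N) ∨
        (∃ f : G →* alternatingGroup (Fin 4), Function.Surjective f ∧ f.ker = N) ∨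
        (∃ f : G →* Equiv.Perm (Fin 4), Function.Surjective f ∧ f.ker = N) ∨
        (∃ f : G →* alternatingGroup (Fin 5), Function.Surjective f ∧ f.ker = N) ∨
        (∃ f : G →* Equiv.Perm (Fin 5), Function.Surjective f ∧ f.ker = N)) →
      N = ⊤ ∨ (∃ f : G →* DihedralGroup 2, Function.Surjective f ∧ f.ker = N) ∨
        ∃ (n : ℕ) (f : G →* Equiv.Perm (Fin n)), Good n ∧ 3 ≤ n ∧
          alternatingGroup (Fin n) ≤ f.range ∧ f.ker = N := by
    rintro N (h | h | ⟨f, h1, h2⟩ | ⟨f, h1, h2⟩ | ⟨f, h1, h2⟩ | ⟨f, h1, h2⟩)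
    · exact Or.inl h
    · exact Or.inr (Or.inl h)
    · exact Or.inr (Or.inr ⟨4, _, good4, by norm_num, alt_le_range f h1,
        (MonoidHom.ker_comp_of_injective _ _ (subtype_injective _)).trans h2⟩)
    · exact Or.inr (Or.inr ⟨4, f, good4, by norm_num,
        le_top.trans (MonoidHom.range_eq_top.mpr h1).ge, h2⟩)
    · exact Or.inr (Or.inr ⟨5, _, good5, by norm_num, alt_le_range f h1,
        (MonoidHom.ker_comp_of_injective _ _ (subtype_injective _)).trans h2⟩)
    · exact Or.inr (Or.inr ⟨5, f, good5, by norm_num,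
        le_top.trans (MonoidHom.range_eq_top.mpr h1).ge, h2⟩)
  suffices H : ∀ N M : Subgroup G, N.Normal → M.Normal → IsZGroup N → IsZGroup M →
      (N = ⊤ ∨ (∃ f : G →* DihedralGroup 2, Function.Surjective f ∧ f.ker = N) ∨
        ∃ (n : ℕ) (f : G →* Equiv.Perm (Fin n)), Good n ∧ 3 ≤ n ∧
          alternatingGroup (Fin n) ≤ f.range ∧ f.ker = N) →
      (M = ⊤ ∨ (∃ f : G →* DihedralGroup 2, Function.Surjective f ∧ f.ker = M) ∨
        ∃ (n : ℕ) (f : G →* Equiv.Perm (Fin n)), Good n ∧ 3 ≤ n ∧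
          alternatingGroup (Fin n) ≤ f.range ∧ f.ker = M) → N ≤ M by
    rintro N M ⟨h1, h2, h3⟩ ⟨h4, h5, h6⟩
    have hN : IsZGroup N := ⟨fun p hp P => @h2 p ⟨hp⟩ P⟩
    have hM : IsZGroup M := ⟨fun p hp P => @h5 p ⟨hp⟩ P⟩
    exact le_antisymm (H N M h1 h4 hN hM (key N h3) (key M h6))
      (H M N h4 h1 hM hN (key M h6) (key N h3))
  rintro N M _ _ hN hM h1 (rfl | ⟨f, h2, rfl⟩ | ⟨n, f, h2, -, h3, rfl⟩)
  · exact le_top
  · rcases h1 with rfl | ⟨f', h3, rfl⟩ | ⟨n, f', h3, h4, h5, rfl⟩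
    · exfalso
      have : IsZGroup (DihedralGroup 2) :=
        IsZGroup.of_surjective (f := f.comp (⊤ : Subgroup G).subtype)
          (h2.comp topEquiv.surjective)
      exact not_isZGroup_d2 this
    · exact ker_le_ker h f' f h3
    · exfalso
      refine not_commutator_le h3 h4 f' h5 (le_trans ?_ (le_ker h3 f' h5 f.ker))
      rw [_root_.commutator_def, commutator_le]
      intro x _ y _
      rw [MonoidHom.mem_ker, map_commutatorElement]
      exact d2_comm _ _
  · exact le_ker h2 f h3 N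

end Cfsg.Agent.S4291
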