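import Cfsg.Statements.S3361
import Cfsg.Agent.Perm.Semilin
import Cfsg.Agent.Solv.PGroupNormal

set_option autoImplicit false
open Cfsg

namespace Cfsg.Agent.S3361

open Cfsg.Lib.Perm Cfsg.Lib.Solv Subgroup

theorem exists_index_two {G : Type*} [Group G] [Finite G] (h : HasNormalPComplement 2 G)
    (h2 : 2 ∣ Nat.card G) : ∃ N : Subgroup G, N.Normal ∧ N.index = 2 := by
  have : Fact (Nat.Prime 2) := ⟨Nat.prime_two⟩
  obtain ⟨T, K, hK, hT⟩ := h
  have hT0 : (⊥ : Subgroup T) ≠ ⊤ := fun e => T.ne_bot_of_dvd_card h2 (by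
    rw [← card_eq_one, ← card_top, ← e, card_bot])
  obtain ⟨M, -, -, hM⟩ := PG.exists_normal_index_eq_prime T.2 hT0
  let π : G →* T := hT.symm.QuotientMulEquiv.toMonoidHom.comp (QuotientGroup.mk' K)
  have := index_comap_of_surjective M (f := π)
    (hT.symm.QuotientMulEquiv.surjective.comp (QuotientGroup.mk'_surjective K))
  exact ⟨M.comap π, normal_of_index_eq_two (this.trans hM), this.trans hM⟩


/-- Let q be a prime and V a non-trivial finite vector space over the field with q elements, and let G be a finite solvable group acting faithfully and linearly on V and regularly on the non-zero vectors (transitively, with only the identity fixing a non-zero vector). Then either V can be identified with the additive group of a finite field F so that every element of G acts as x ↦ a·σ(x) (a ∈ F, σ a field automorphism), or V has 5^2, 7^2, 11^2 or 23^2 elements. Moreover, if q ≠ 2 then G has a normal subgroup of index 2, except that when V has 25 elements G may be isomorphic to SL(2,3) and when V has 121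 elements G may be isomorphic to SL(2,3) × C₅. -/
theorem result
    (q : ℕ) [Fact q.Prime] {V : Type*} [AddCommGroup V] [Module (ZMod q) V] [Finite V] [Nontrivial V]
    {G : Type*} [Group G] [Finite G] (hsol : Group.IsSolvable G)
    (ρ : G →* (V ≃ₗ[ZMod q] V)) (hρ : Function.Injective ρ)
    (htrans : ∀ v w : V, v ≠ 0 → w ≠ 0 → ∃ g : G, ρ g v = w)
    (hreg : ∀ v : V, v ≠ 0 → ∀ g : G, ρ g v = v → g = 1) :
    ((∃ (F : Type) (_ : Field F) (_ : Fintype F) (e : V ≃+ F),
        ∀ g : G, ∃ (a : F) (σ : F ≃+* F), ∀ v : V, e (ρ g v) = a * σ (e v)) ∨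
      Nat.card V ∈ ({25, 49, 121, 529} : Set ℕ)) ∧
    (q ≠ 2 → (∃ N : Subgroup G, N.Normal ∧ N.index = 2) ∨
      (Nat.card V = 25 ∧ Nonempty (G ≃* Matrix.SpecialLinearGroup (Fin 2) (ZMod 3))) ∨
      (Nat.card V = 121 ∧ Nonempty (G ≃* Matrix.SpecialLinearGroup (Fin 2) (ZMod 3) × Multiplicative (ZMod 5)))) := by
  let τ : G →* Module.End (ZMod q) V :=
    LinearEquiv.automorphismGroup.toLinearMapMonoidHom.comp ρ
  have hR : RegRep τ := fun v w hv hw => by
    obtain ⟨g, hg⟩ := htrans v w hv hw
    refine ⟨g, hg, fun g' hg' => ?_⟩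
    have := hreg v hv (g⁻¹ * g') (by
      rw [map_mul, map_inv, LinearEquiv.mul_apply, show ρ g' v = w from hg', ← hg]
      exact (ρ g).symm_apply_apply v)
    exact (inv_mul_eq_one.mp this).symm
  constructor
  · by_cases hI : NoIrrCyc τ
    · right
      simpa using hR.card_of_isSolvable hI hsol
    left
    simp only [NoIrrCyc, not_forall] at hI
    obtain ⟨A, hA, hc, hI⟩ := hI
    obtain ⟨F, _, _, e, -, -, h⟩ := exists_semilinear τ A fun W hW => by
      by_contra hcon
      push Not at hcon
      exact hI ⟨W, hcon.1, hcon.2, hW⟩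
    exact ⟨F, inferInstance, inferInstance, e, h⟩
  intro hq
  have hG := hR.card_eq
  have h2 : 2 ∣ Nat.card G := by
    rw [hG, Module.natCard_eq_pow_finrank (K := ZMod q), Nat.card_zmod]
    exact (Nat.Odd.sub_odd (((Fact.out : q.Prime).odd_of_ne_two hq).pow) odd_one).two_dvd
  rcases hR.isFC.trichotomy with h | ⟨Q, hQ, ⟨e⟩, h24, h12⟩ | ⟨L, hL, ⟨e⟩⟩
  · exact Or.inl (exists_index_two h h2)
  swap
  · exact absurd (Group.isSolvable_of_surjective (f := e.toMonoidHom) e.surjective)
      not_isSolvable_SL25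
  obtain ⟨f, hf⟩ := exists_hom_of_normal_q8 Q e
  by_cases hf' : Function.Surjective f
  · have := (index_comap_of_surjective (alternatingGroup (Fin 4)) hf').trans
      alternatingGroup.index_eq_two
    exact Or.inl ⟨_, inferInstance, this⟩
  right
  have h12' : (centralizer (Q : Set G)).index = 12 := by
    obtain ⟨c, hc⟩ := h12
    rw [hc] at h24
    rcases (Nat.dvd_prime Nat.prime_two).mp (Nat.dvd_of_mul_dvd_mul_left (by norm_num) h24)
      with rfl | rfl
    · exact hc
    · refine absurd (MonoidHom.range_eq_top.mp (eq_top_of_card_eq _ ?_)) hf'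
      rw [← index_ker, hf, hc, Nat.card_perm, Nat.card_eq_fintype_card, Fintype.card_fin]
      rfl
  obtain ⟨U, h3, h4, h5, h6⟩ := hR.exists_half (exists_quat_of_q8 e)
  have h7 := (centralizer (Q : Set G)).card_mul_index
  have h8 := card_subgroup_dvd_card Q
  rw [h12'] at h6 h7
  rw [Lib.Trans.q8_card e] at h8
  have h9 : Nat.card U = 5 ∨ Nat.card U = 11 := by
    have := Nat.le_of_dvd (by norm_num) h6
    rw [hG, h3] at h7 h8
    generalize Nat.card U = u at *
    have : u ≤ 11 := by omega
    interval_cases u <;> omega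
  have : Fact (Nat.Prime 3) := ⟨Nat.prime_three⟩
  obtain ⟨g, hg⟩ := exists_prime_orderOf_dvd_card' (G := G) 3 (by omega)
  have hgC : g ∉ centralizer (Q : Set G) := fun hc => by
    have := (centralizer (Q : Set G)).orderOf_dvd_natCard hc
    rw [hg] at this
    rcases h9 with h9 | h9 <;> rw [h9] at h3 <;> omega
  rcases h9 with h9 | h9 <;> rw [h9] at h3
  · exact Or.inl ⟨h3, nonempty_equiv_SL23 e (Fpf.mem_normalizer_of_normal Q g)
      (by rw [hg]; norm_num) hgC (by omega)⟩
  refine Or.inr ⟨h3, ?_⟩
  obtain ⟨e'⟩ := nonempty_sup_equiv_SL23 e (Fpf.mem_normalizer_of_normal Q g) hg hgC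
  have hN : Nat.card (Q ⊔ zpowers g : Subgroup G) = 24 := by
    rw [Nat.card_congr e'.toEquiv, card_SL23]
  refine nonempty_equiv_prod e' (by norm_num) (by rw [hN]; norm_num) ?_ (by omega)
  have := hR.fpf.isCyclic_of_card_eq_prime _ U h5 (by rw [h9]; norm_num)
  have : Fact (Nat.Prime 5) := ⟨by norm_num⟩
  obtain ⟨z, hz⟩ := exists_prime_orderOf_dvd_card' (G := centralizer (Q : Set G)) 5 (by omega)
  have hz' : orderOf (z : G) = 5 := by rwa [orderOf_coe]
  have := Fpf.normal_of_le_of_isCyclic (zpowers_le.mpr z.2)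
  have h10 := Lib.Trans.relIndex_centralizer_dvd (zpowers (z : G))
  rw [normalizer_eq_top, relIndex_top_right, IsCyclic.card_mulAut, Nat.card_zpowers, hz',
    Nat.totient_prime (by norm_num)] at h10
  have h11 : g ∈ centralizer (zpowers (z : G) : Set G) :=
    Lib.Trans.mem_of_pow_mem_of_coprime (pow_index_mem _ g)
      (by rw [hg]; exact Nat.Coprime.coprime_dvd_right h10 (by norm_num))
  rw [← hz']
  refine orderOf_dvd_natCard _ (zpowers_le.mp (le_centralizer_iff.mp (sup_le ?_ ?_)))
  · exact le_centralizer_iff.mp (zpowers_le.mpr z.2)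
  · exact zpowers_le.mpr h11

end Cfsg.Agent.S3361
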