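import Cfsg.Statements.S3374
import Cfsg.Agent.Known.FrobSemi
import Cfsg.Agent.Known.PSL2Sizes
import Cfsg.Agent.Trans.Qd
import Cfsg.Agent.S3359
import Cfsg.Agent.Class.PSL2MaxList

set_option autoImplicit false
open Cfsg

namespace Cfsg.Agent.S3374

open Cfsg.Lib.Known Cfsg.Lib.Known.GL2 Matrix

theorem aux {F : Type*} [Field F] [Finite F] (p : ℕ) [CharP F p] (h2 : (2 : F) ≠ 0) {g : SL2 F}
    (hg : ¬ p ∣ orderOf g) (h1 : g ≠ 1) {v : Fin 2 → F} (h : (slLin F).ρ g *ᵥ v = v) : v = 0 := by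
  by_cases hZ : g ∈ (slLin F).Z
  · rw [(mem_Z_SL.1 hZ).resolve_left h1, ρ_neg_SL, map_one, neg_mulVec, one_mulVec,
      neg_eq_iff_add_eq_zero, ← two_smul F, smul_eq_zero] at h
    exact h.resolve_left h2
  by_contra hv
  have h3 : ((slLin F).ρ g - 1).det = 0 :=
    exists_mulVec_eq_zero_iff.1 ⟨v, hv, by rw [sub_mulVec, h, one_mulVec, sub_self]⟩
  apply (slLin F).disc_ne_zero_of_not_dvd p hg hZ
  have h4 := det_SL' g
  rw [det_fin_two] at h3
  simp at h3
  rw [disc_SL, trace_fin_two, show (slLin F).ρ g 0 0 + (slLin F).ρ g 1 1 = 2 by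
    linear_combination h4 - h3]
  norm_num

/-- SL(2,5) occurs as a Frobenius complement: there is a finite group L with a subgroup H isomorphic to SL(2,5) which is a non-trivial proper subgroup meeting each conjugate gHg⁻¹ with g outside H trivially. -/
theorem result :
    ∃ (L : Type) (_ : Group L) (_ : Finite L) (H : Subgroup L),
      Cfsg.IsFrobeniusComplement H ∧ Nonempty (H ≃* Matrix.SpecialLinearGroup (Fin 2) (ZMod 5)) := by
  have : Fact (Nat.Prime 11) := ⟨by norm_num⟩
  have h2 : (2 : ZMod 11) ≠ 0 := two_ne_zero_of_charP 11 (by norm_num)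
  obtain ⟨M, hM⟩ := Lib.Class.exists_A5 (F := ZMod 11) (by rw [Nat.card_zmod]; norm_num)
  obtain ⟨A, hA⟩ := Lib.Class.exists_subgroup_psl_mulEquiv (Lib.Class.le_psl2_of_A5 hM) hM
  have hc : Nat.card (A.comap (piSL (ZMod 11))) = 120 := by
    rw [card_comap_piSL, card_Z_SL h2, Lib.Class.card_of_equiv_A5 hA]
  have hns : ¬ Group.IsSolvable (A.comap (piSL (ZMod 11))) := fun h =>
    Lib.Class.not_isSolvable_A5 (Lib.Class.isSolvable_of_equiv (hA.map MulEquiv.symm)
      (Group.isSolvable_of_surjective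
        ((piSL _).subgroupComap_surjective_of_surjective A piSL_surjective)))
  have : Nontrivial (A.comap (piSL (ZMod 11))) := Finite.one_lt_card_iff_nontrivial.1 (by omega)
  have hF := isFrobeniusComplement_range_inr
    ((Lib.Trans.Qd.natAut (ZMod 11)).comp (A.comap (piSL (ZMod 11))).subtype) fun a ha k hk =>
      Multiplicative.toAdd.injective (aux 11 h2 (g := a) (fun h => by
        have := h.trans (Subgroup.orderOf_dvd_natCard _ a.2)
        rw [hc] at this; omega) (fun h => ha (Subtype.ext h)) (congrArg Multiplicative.toAdd hk))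
  have e := MonoidHom.ofInjective (SemidirectProduct.inr_injective (φ :=
    ((Lib.Trans.Qd.natAut (ZMod 11)).comp (A.comap (piSL (ZMod 11))).subtype)))
  have hfin : Finite (Multiplicative (Fin 2 → ZMod 11) ⋊[((Lib.Trans.Qd.natAut (ZMod 11)).comp
    (A.comap (piSL (ZMod 11))).subtype)] (A.comap (piSL (ZMod 11)))) :=
    Finite.of_equiv _ SemidirectProduct.equivProd.symm
  obtain ⟨-, -, -, S, -, -, -, -, ⟨f⟩, -⟩ := S3359.result hns ⟨_, _, hfin, _, hF, ⟨e⟩⟩
  have hS : S = ⊤ := Subgroup.eq_top_of_card_eq _ (by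
    rw [hc, Nat.card_congr f.toEquiv, Lib.Perm.card_SL25])
  subst hS
  exact ⟨_, _, hfin, _, hF, ⟨e.symm.trans (Subgroup.topEquiv.symm.trans f)⟩⟩

end Cfsg.Agent.S3374
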