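import Cfsg.Statements.S3376
import Cfsg.Agent.Solv.Cores
import Cfsg.Agent.Solv.CoprimeBasic
import Cfsg.Agent.Solv.PGroupNormal
import Cfsg.Agent.Solv.ElemAb
import Mathlib.GroupTheory.Perm.Centralizer

set_option autoImplicit false
open Cfsg

namespace Cfsg.Agent.S3376

open Subgroup Cfsg.Lib.Solv

theorem cycleType_eq {σ : Equiv.Perm (Fin 9)} (h3 : σ ^ 3 = 1) (hs : ∀ i, σ i ≠ i) :
    σ.cycleType = Multiset.replicate 3 3 := by
  have : Fact (Nat.Prime 3) := ⟨Nat.prime_three⟩
  have h := Equiv.Perm.cycleType_of_pow_prime_eq_one h3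
  have h1 := σ.sum_cycleType
  have h2 : σ.support = Finset.univ := by
    ext i
    simp [hs i]
  rw [h2, h, Multiset.sum_replicate] at h1
  simp only [smul_eq_mul, Finset.card_univ, Fintype.card_fin] at h1
  rw [h, show σ.cycleType.card = 3 by omega]

theorem of_coreFree {G : Type*} [Group G] [Finite G] (hG : Nat.card G = 162) (H : Subgroup G)
    (hH : H.index = 9) (hc : H.normalCore = ⊥) {z : G} (hz : z ∈ center G) (hz3 : z ^ 3 = 1)
    (hzH : z ∉ H) {c : Equiv.Perm (Fin 9)} (h3 : c ^ 3 = 1) (hs : ∀ i, c i ≠ i) :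
    Nonempty (G ≃* centralizer ({c} : Set (Equiv.Perm (Fin 9)))) := by
  classical
  let e : (G ⧸ H) ≃ Fin 9 := Finite.equivFinOfCardEq hH
  let φ : G →* Equiv.Perm (Fin 9) :=
    (e.permCongrHom : Equiv.Perm (G ⧸ H) →* Equiv.Perm (Fin 9)).comp (MulAction.toPermHom G (G ⧸ H))
  have hφ : Function.Injective φ := by
    refine e.permCongrHom.injective.comp ?_
    rw [← MonoidHom.ker_eq_bot_iff, ← normalCore_eq_ker, hc]
  have hσ : (φ z).cycleType = c.cycleType := by
    rw [cycleType_eq h3 hs]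
    refine cycleType_eq (by rw [← map_pow, hz3, map_one]) fun i hi => hzH ?_
    obtain ⟨q, rfl⟩ := e.surjective i
    obtain ⟨g, rfl⟩ := QuotientGroup.mk_surjective q
    have h1 : (z * g : G ⧸ H) = g := by
      have : e (z • (g : G ⧸ H)) = e g := by simpa [φ] using hi
      exact e.injective this
    have h2 := QuotientGroup.eq.1 h1.symm
    rwa [← mem_center_iff.1 hz g, inv_mul_cancel_left] at h2
  obtain ⟨τ, hτ⟩ := isConj_iff.1 (Equiv.Perm.isConj_iff_cycleType_eq.2 hσ)
  let ψ : G →* Equiv.Perm (Fin 9) := (MulAut.conj τ).toMonoidHom.comp φ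
  have hψ : Function.Injective ψ := (MulAut.conj τ).injective.comp hφ
  have hle : ψ.range ≤ centralizer ({c} : Set (Equiv.Perm (Fin 9))) := by
    rintro _ ⟨g, rfl⟩
    rw [mem_centralizer_singleton_iff, ← hτ]
    change ψ g * ψ z = ψ z * ψ g
    rw [← map_mul, ← map_mul, mem_center_iff.1 hz g]
  have hcard : Nat.card (centralizer ({c} : Set (Equiv.Perm (Fin 9)))) = 162 := by
    rw [Equiv.Perm.nat_card_centralizer, cycleType_eq h3 hs]
    simp [Nat.factorial]
  have heq : ψ.range = centralizer ({c} : Set (Equiv.Perm (Fin 9))) :=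
    PG.eq_of_le_of_card_eq hle (by
      rw [hcard, ← hG]; exact (Nat.card_congr (MonoidHom.ofInjective hψ).toEquiv).symm)
  exact ⟨(MonoidHom.ofInjective hψ).trans (MulEquiv.subgroupCongr heq)⟩

/-- Let G be a group of order 162 = 3⁴·2 with Sylow 3-subgroup S and Sylow 2-subgroup T, having an elementary abelian normal subgroup J of order 27, such that Z = Z(S) has order 3, Z centralizes T, and C_S(T) ≠ S. Then G is isomorphic to the centralizer in Sym(9) of a product of three disjoint 3-cycles. -/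
theorem result {G : Type*} [Group G] [Finite G] (hG : Nat.card G = 162)
    (S : Sylow 3 G) (T : Sylow 2 G) (J : Subgroup G) [hJn : J.Normal] (hJcomm : IsMulCommutative J)
    (hJexp : ∀ a ∈ J, a ^ 3 = 1) (hJcard : Nat.card J = 27)
    (Z : Subgroup G) (hZ : Z = (S : Subgroup G) ⊓ Subgroup.centralizer ((S : Subgroup G) : Set G)) (hZcard : Nat.card Z = 3)
    (hZT : Z ≤ Subgroup.centralizer ((T : Subgroup G) : Set G))
    (hST : (S : Subgroup G) ⊓ Subgroup.centralizer ((T : Subgroup G) : Set G) ≠ S) :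
    Nonempty (G ≃* Subgroup.centralizer ({Equiv.swap (0 : Fin 9) 1 * Equiv.swap 1 2 * Equiv.swap 3 4 * Equiv.swap 4 5 * Equiv.swap 6 7 * Equiv.swap 7 8} : Set (Equiv.Perm (Fin 9)))) := by
  have hS : Nat.card (S : Subgroup G) = 81 := by
    rw [Sylow.card_eq_multiplicity, hG]; decide +kernel
  have hT : Nat.card (T : Subgroup G) = 2 := by
    rw [Sylow.card_eq_multiplicity, hG]; decide +kernel
  have hSi : (S : Subgroup G).index = 2 := PG.index_eq_of_card_eq_mul (by rw [hG, hS])
  have hSn : (S : Subgroup G).Normal := normal_of_index_eq_two hSi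
  have hJp : IsPGroup 3 J := IsPGroup.of_card (n := 3) hJcard
  have hZp : IsPGroup 3 Z := IsPGroup.of_card (n := 1) hZcard
  -- every nontrivial normal subgroup of `G` meeting `S` contains `Z`
  have hZN : ∀ N : Subgroup G, N.Normal → N ⊓ S ≠ ⊥ → Z ≤ N := by
    intro N hN h
    have h1 := PG.inf_centralizer_ne_bot S.isPGroup' (S.isPGroup'.to_inf_right (H := N))
      le_normalizer_of_normal h
    have h2 : (N ⊓ S) ⊓ centralizer ((S : Subgroup G) : Set G) ≤ Z := by
      rw [hZ]; exact inf_le_inf_right _ inf_le_right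
    have h3 := card_dvd_of_le h2
    rw [hZcard] at h3
    rcases (Nat.dvd_prime Nat.prime_three).1 h3 with h4 | h4
    · exact (h1 (card_eq_one.1 h4)).elim
    · exact (PG.eq_of_le_of_card_eq h2 (h4.trans hZcard.symm)).ge.trans
        (inf_le_left.trans inf_le_left)
  have hJS : J ≤ S := (le_pCore hJn hJp).trans (pCore_le_sylow S)
  have hZJ : Z ≤ J := by
    refine hZN J hJn ?_
    rw [inf_eq_left.2 hJS]
    intro h
    rw [h, card_bot] at hJcard
    omega
  have hST' : (S : Subgroup G) ⊔ T = ⊤ := by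
    have hd : Disjoint (S : Subgroup G) T :=
      disjoint_iff.2 (inf_eq_bot_of_coprime (by rw [hS, hT]; norm_num))
    refine eq_top_of_card_eq _ ?_
    rw [Coprime.card_sup le_normalizer_of_normal hd, hS, hT, hG]
  have hZc : Z ≤ center G := by
    rw [← centralizer_univ, ← coe_top, ← hST', le_centralizer_iff, sup_le_iff]
    exact ⟨le_centralizer_iff.1 (hZ ▸ inf_le_right), le_centralizer_iff.1 hZT⟩
  have : ElemAb 3 J := ElemAb.of_subgroup hJexp
  obtain ⟨W, hWJ, hTW, h1, h2⟩ := ElemAb.exists_complement_ambient 3 (V := J) (A := T) (U := Z)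
    (by rw [hT]; norm_num) le_normalizer_of_normal hZJ
    ((le_centralizer_iff.1 hZT).trans (centralizer_le_normalizer _))
  have hW : Nat.card W = 9 := by
    have := Coprime.card_sup (K := Z) (A := W)
      ((le_centralizer_iff.1 (hZc.trans (center_le_centralizer _))).trans
        (centralizer_le_normalizer _)) (disjoint_iff.2 h1)
    rw [h2, hJcard, hZcard] at this
    omega
  have hH : Nat.card (W ⊔ T : Subgroup G) = 18 := by
    rw [Coprime.card_sup hTW (disjoint_iff.2 (inf_eq_bot_of_coprime (by rw [hW, hT]; norm_num))),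
      hW, hT]
  have hZH : ¬ Z ≤ W ⊔ T := by
    intro h
    have := card_dvd_of_le (h2 ▸ sup_le h le_sup_left : J ≤ W ⊔ T)
    rw [hH, hJcard] at this
    omega
  have hZ0 : Z ≠ ⊥ := by
    intro h
    rw [h, card_bot] at hZcard
    omega
  obtain ⟨z, hzZ, hz⟩ := PG.exists_orderOf_eq_prime hZp hZ0
  have hzz : zpowers z = Z :=
    PG.eq_of_le_of_card_eq (zpowers_le.2 hzZ) (by rw [Nat.card_zpowers, hz, hZcard])
  refine of_coreFree hG (W ⊔ T) (PG.index_eq_of_card_eq_mul (by rw [hG, hH])) ?_ (hZc hzZ)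
    (hz ▸ pow_orderOf_eq_one z) (fun h => hZH (hzz ▸ zpowers_le.2 h)) (by decide) (by decide)
  set N := (W ⊔ (T : Subgroup G)).normalCore with hN
  have hNn : N.Normal := inferInstance
  have hNS : N ⊓ S = ⊥ := by
    by_contra h
    exact hZH ((hZN N hNn h).trans (normalCore_le _))
  by_contra hN0
  have hN2 : Nat.card N = 2 := by
    have h3 := Coprime.card_sup (K := (S : Subgroup G)) (A := N) le_normalizer_of_normal
      (disjoint_iff.2 (by rw [inf_comm, hNS]))
    have h4 := card_subgroup_dvd_card ((S : Subgroup G) ⊔ N)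
    rw [h3, hG, hS] at h4
    have h5 : Nat.card N ∣ 2 := Nat.dvd_of_mul_dvd_mul_left (by norm_num : 0 < 81) h4
    rcases (Nat.dvd_prime Nat.prime_two).1 h5 with h6 | h6
    · exact (hN0 (card_eq_one.1 h6)).elim
    · exact h6
  have hNT : N = T := PG.eq_of_le_of_card_eq
    ((le_pCore hNn (IsPGroup.of_card (n := 1) hN2)).trans (pCore_le_sylow T)) (hN2.trans hT.symm)
  apply hST
  rw [inf_eq_left, ← hNT]
  exact le_centralizer_of_disjoint le_normalizer_of_normal le_normalizer_of_normal
    (by rw [inf_comm, hNS])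

end Cfsg.Agent.S3376
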