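import Cfsg.Statements.S3389
import Cfsg.Agent.Perm.Derange
import Cfsg.Agent.Perm.MultiBasic
import Cfsg.Agent.Perm.CycleLemmas

set_option autoImplicit false
open Cfsg

namespace Cfsg.Agent.S3389

open Cfsg.Lib.Perm Cfsg.Lib.Perm.Derange MulAction
open scoped Pointwise

theorem card_modEq {G : Type*} [Group G] {Ω : Type*} [Finite Ω] [MulAction G Ω] {p : ℕ}
    (hp : p.Prime) {g : G} (hg : orderOf g = p) :
    Nat.card Ω ≡ Nat.card (fixedBy Ω g) [MOD p] := by
  have := Fact.mk hp
  have h1 := ncard_modEq_ncard_fixed hp (Subgroup.zpowers g)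
    (IsPGroup.of_card (n := 1) (by rw [Nat.card_zpowers, hg, pow_one])) (Set.univ : Set Ω)
    (Set.toFinite _) (by simp)
  rw [Set.ncard_univ] at h1
  convert h1
  rw [Nat.card_coe_set_eq]
  congr 1
  ext x
  simp only [Set.mem_univ, true_and, Set.mem_ofPred_eq]
  exact ⟨fun h k hk => (Subgroup.zpowers_le (H := stabilizer G x)).mpr h hk,
    fun h => h g (Subgroup.mem_zpowers g)⟩


/-- Let G be a finite group acting faithfully and transitively on a finite set Ω with fixity k ≥ 1: every non-identity element fixes at most k points and some non-identity element fixes exactly k points. Then |Z(G)| divides k; if k = 2 then |G| is even; and for every prime p > k dividing |G| and every point α, either p does not divide |G_α| or G_α contains a Sylow p-subgroup of G. -/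
theorem result {G : Type*} [Group G] [Finite G] {Ω : Type*} [Fintype Ω] [MulAction G Ω] [FaithfulSMul G Ω]
    (htr : MulAction.IsPretransitive G Ω) (k : ℕ) (hk : 1 ≤ k)
    (hfix : ∀ g : G, g ≠ 1 → Nat.card (MulAction.fixedBy Ω g) ≤ k) (hex : ∃ g : G, g ≠ 1 ∧ Nat.card (MulAction.fixedBy Ω g) = k) :
    Nat.card (Subgroup.center G) ∣ k ∧ (k = 2 → 2 ∣ Nat.card G) ∧
      ∀ (p : ℕ), p.Prime → k < p → p ∣ Nat.card G → ∀ α : Ω,
        ¬ p ∣ Nat.card (MulAction.stabilizer G α) ∨ ¬ p ∣ (MulAction.stabilizer G α).index := by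
  obtain ⟨g, hg1, hg⟩ := hex
  refine ⟨?_, ?_, ?_⟩
  · rw [← hg, Nat.card_coe_set_eq]
    refine dvd_ncard_of_dvd_orbits (G := Subgroup.center G) _ (fun z x hx => ?_) fun x _ => ?_
    · change g • (z : G) • x = (z : G) • x
      rw [← mul_smul, Subgroup.mem_center_iff.mp z.2, mul_smul, hx]
    · rw [Nat.card_coe_set_eq, ← index_stabilizer,
        (stabilizer (Subgroup.center G) x).eq_bot_iff_forall.mpr,
        Subgroup.index_bot]
      intro z hz
      refine Subtype.ext (eq_of_smul_eq_smul (α := Ω) fun y => ?_)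
      obtain ⟨t, rfl⟩ := exists_smul_eq G x y
      rw [← mul_smul, ← Subgroup.mem_center_iff.mp z.2, mul_smul, show (z : G) • x = x from hz]
      simp
  · rintro rfl
    by_contra hodd
    obtain ⟨p, n, hp, hpd, hn⟩ := exists_prime_order_pow hg1
    have := Fact.mk hp
    have hpG : p ∣ Nat.card G := hpd.trans (orderOf_dvd_natCard g)
    have hp2 : 2 < p := lt_of_le_of_ne hp.two_le fun h => hodd (h ▸ hpG)
    have hgn : g ^ n ≠ 1 := fun h => hp.one_lt.ne (by rw [← hn, h, orderOf_one])
    have h1 := card_modEq (Ω := Ω) hp hn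
    rw [le_antisymm (hfix _ hgn) (hg ▸ Nat.card_mono (Set.toFinite _)
      fun x hx => (stabilizer G x).pow_mem hx n)] at h1
    obtain ⟨S⟩ : Nonempty (Sylow p G) := inferInstance
    have h2 := ncard_modEq_ncard_fixed hp (S : Subgroup G) S.2 (Set.univ : Set Ω) (Set.toFinite _) (by simp)
    rw [Set.ncard_univ] at h2
    simp only [Set.mem_univ, true_and] at h2
    obtain ⟨s, hs, hs1⟩ := (Subgroup.bot_or_exists_ne_one (S : Subgroup G)).resolve_left
      (S.ne_bot_of_dvd_card hpG)
    have h3 : {x : Ω | ∀ g ∈ (S : Subgroup G), g • x = x}.ncard ≤ 2 :=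
      (Set.ncard_le_ncard (s := {x : Ω | ∀ g ∈ (S : Subgroup G), g • x = x})
        (t := fixedBy Ω s) fun x hx => hx s hs).trans (hfix s hs1)
    have h4 : {x : Ω | ∀ g ∈ (S : Subgroup G), g • x = x}.ncard = 2 :=
      (h2.symm.trans h1).eq_of_lt_of_lt (by omega) hp2
    obtain ⟨a, b, hab, h5⟩ := Set.ncard_eq_two.mp h4
    have ha : ∀ g ∈ (S : Subgroup G), g • a = a := (h5 ▸ Set.mem_insert _ _ :
      a ∈ {x : Ω | ∀ g ∈ (S : Subgroup G), g • x = x})
    have hb : ∀ g ∈ (S : Subgroup G), g • b = b := (h5 ▸ Set.mem_insert_of_mem _ rfl :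
      b ∈ {x : Ω | ∀ g ∈ (S : Subgroup G), g • x = x})
    obtain ⟨t, ht⟩ := exists_smul_eq G a b
    have hconj : ∀ (u : G) (x : Ω), (∀ g ∈ (S : Subgroup G), g • x = x) →
        ∀ g ∈ ((u • S : Sylow p G) : Subgroup G), g • u • x = u • x := by
      rintro u x hx _ ⟨g, hg, rfl⟩
      simp [mul_smul, hx g hg]
    have h6 : ((t • S : Sylow p G) : Subgroup G) ≤ stabilizer G b := ht ▸ hconj t a ha
    obtain ⟨u, hu⟩ := exists_smul_eq (stabilizer G b) ((t • S).subtype h6) (S.subtype hb)
    rw [Sylow.smul_subtype] at hu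
    have h7 : ((u : G) * t) • S = S := by
      rw [mul_smul]
      exact Sylow.subtype_injective hu
    have h8 : ((u : G) * t) • a = b := by rw [mul_smul, ht, u.2]
    have h9 : ((u : G) * t) • b = a := by
      have h10 := hconj (u * t) b hb
      rw [h7] at h10
      rcases (h5 ▸ h10 : ((u : G) * t) • b ∈ ({a, b} : Set Ω)) with h | h
      · exact h
      · exact absurd (smul_left_cancel _ (h8.trans (Eq.symm h))) hab
    obtain ⟨m, hm⟩ : Odd (Nat.card G) := Nat.not_even_iff_odd.mp fun h => hodd h.two_dvd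
    have h10 : ((u : G) * t) ^ 2 ∈ stabilizer G a := by
      rw [mem_stabilizer_iff, sq, mul_smul, h8, h9]
    have h11 := pow_mem h10 (m + 1)
    rw [← pow_mul, show 2 * (m + 1) = Nat.card G + 1 by omega, pow_succ, pow_card_eq_one',
      one_mul] at h11
    exact hab (h11.symm.trans h8)
  · intro p hp hkp _ α
    have := Fact.mk hp
    rw [or_iff_not_imp_left, not_not, index_stabilizer_of_transitive]
    intro h1 h2
    obtain ⟨x, hx⟩ := exists_prime_orderOf_dvd_card' p h1
    rw [← Subgroup.orderOf_coe] at hx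
    have h3 := (card_modEq (Ω := Ω) hp hx).dvd_iff dvd_rfl |>.mp h2
    have : Nonempty (fixedBy Ω (x : G)) := ⟨⟨α, x.2⟩⟩
    have h4 := Nat.le_of_dvd Nat.card_pos h3
    have h5 := hfix x fun h => hp.one_lt.ne (by rw [← hx, h, orderOf_one])
    omega

end Cfsg.Agent.S3389
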