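import Cfsg.Statements.S3391
import Cfsg.Agent.Chev.SuzukiMax

set_option autoImplicit false
open Cfsg

namespace Cfsg.Agent.S3391

open Cfsg.Lib.Chev

theorem conj_mem_zpowers {G : Type*} [Group G] {U : Subgroup G} (hU : IsCyclic U) {x g : G}
    (hx : x ∈ Subgroup.normalizer (U : Set G)) (hg : g ∈ U) : x⁻¹ * g * x ∈ Subgroup.zpowers g := by
  obtain ⟨n, hn⟩ := MonoidHom.map_cyclic
    (U.normalizerMonoidHom ⟨x⁻¹, (Subgroup.normalizer (U : Set G)).inv_mem hx⟩).toMonoidHom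
  have := congrArg Subtype.val (hn ⟨g, hg⟩)
  exact ⟨n, by simpa using this.symm⟩

theorem even_case {F : Type*} [Field F] [Fintype F] {τ : Tw F} {G : Type*} [Group G] (M : SzModel τ G)
    {K : Subgroup G} {u : G} (hu : u ∈ M.Z) (huK : u ∈ K)
    (h : ∀ x y, x⁻¹ * u * x ∈ K → y⁻¹ * u * y ∈ K → x ∈ K ∨ y ∈ K ∨ x⁻¹ * y ∈ K) : M.B ≤ K := by
  have h2 := τ.two
  have hsq : ∀ x, x⁻¹ * u * x ∈ K → (x ^ 2)⁻¹ * u * x ^ 2 ∈ K → x ^ 2 ∈ K := by
    intro x h1 h3
    rcases h x _ h1 h3 with h4 | h4 | h4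
    · exact K.pow_mem h4 2
    · exact h4
    · rw [sq, inv_mul_cancel_left] at h4
      exact K.pow_mem h4 2
  have hP : ∀ x ∈ M.P, x⁻¹ * u * x ∈ K := by
    intro x hx
    have := M.commute_of_mem_Zat_Pat (p := M.inf) (by rwa [M.Zat_inf]) (by rwa [M.Pat_inf] : x ∈ M.Pat M.inf)
    rwa [mul_assoc, this.eq, inv_mul_cancel_left]
  have hZ : ∀ b, M.T 0 b ∈ K := by
    intro b
    obtain ⟨a, rfl⟩ := τ.θ_mul_surj b
    have := hsq _ (hP _ (M.T_mem_P a 0)) (hP _ (M.P.pow_mem (M.T_mem_P a 0) 2))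
    rwa [M.T_sq] at this
  have hB : ∀ x ∈ M.B, x⁻¹ * u * x ∈ K := by
    intro x hx
    obtain ⟨b, hb⟩ := M.conj_mem_Z (M.B.inv_mem hx) hu
    rw [inv_inv] at hb
    exact hb ▸ hZ b
  have hD : ∀ l, M.D l ∈ K := by
    intro l
    obtain ⟨k, rfl⟩ := τ.exists_unit_sq l
    rw [map_pow]
    exact hsq _ (hB _ (M.H_le_B (M.D_mem_H k))) (hB _ (M.B.pow_mem (M.H_le_B (M.D_mem_H k)) 2))
  obtain ⟨c, d, hc, hcd⟩ : ∃ c d, c ≠ 0 ∧ M.T c d ∈ K := by
    obtain ⟨l, hl⟩ := M.exists_unit_ne_one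
    rcases h _ _ (hP _ (M.T_mem_P 1 0)) (hP _ (M.T_mem_P l 0)) with h4 | h4 | h4
    · exact ⟨_, _, one_ne_zero, h4⟩
    · exact ⟨_, _, l.ne_zero, h4⟩
    · rw [M.T_inv, M.T_mul] at h4
      exact ⟨_, _, fun h5 => hl (Units.ext (τ.add_eq_zero.mp h5).symm), h4⟩
  have hT : ∀ a b, M.T a b ∈ K := by
    intro a b
    by_cases ha : a = 0
    · exact ha ▸ hZ b
    obtain ⟨l, hl⟩ := τ.exists_unit_θ (div_ne_zero ha hc)
    have h3 := K.mul_mem (K.mul_mem (hD l) hcd) (K.inv_mem (hD l))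
    rw [M.D_conj_T, hl, div_mul_cancel₀ _ hc] at h3
    have h4 := K.mul_mem (hZ (b + a / c * (l : F) ^ 2 * d)) h3
    rw [M.T_mul] at h4
    convert h4 using 2
    · simp
    · rw [map_zero]
      grind
  intro g hg
  obtain ⟨a, b, l, rfl⟩ := M.mem_B_iff.mp hg
  exact K.mul_mem (hT a b) (hD l)

theorem main {F : Type*} [Field F] [Fintype F] {τ : Tw F} {G : Type*} [Group G] (M : SzModel τ G)
    {K : Subgroup G} (hK : K ≠ ⊤) (hne : K ≠ ⊥)
    (h : ∀ g ∈ K, g ≠ 1 → ∀ x y, x⁻¹ * g * x ∈ K → y⁻¹ * g * y ∈ K → x ∈ K ∨ y ∈ K ∨ x⁻¹ * y ∈ K) :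
    (∃ p : M.Pt, K = MulAction.stabilizer G p) ∨ ∃ a b, a ≠ b ∧ K = M.Hat a b := by
  have := M.finite
  by_cases h2 : ∃ u ∈ K, u ≠ 1 ∧ u ^ 2 = 1
  · obtain ⟨u, huK, hu1, hu2⟩ := h2
    obtain ⟨p, hp⟩ := M.exists_mem_Zat_of_sq hu2
    obtain ⟨k, rfl⟩ := M.exists_smul_inf p
    rw [← M.conjModel_Z] at hp
    have h3 := even_case _ hp huK (h u huK hu1)
    rw [M.conjModel_B] at h3
    exact Or.inl ⟨_, (((M.isCoatom_stabilizer _).le_iff.mp h3).resolve_left hK)⟩
  · push Not at h2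
    have h4 : ∀ x ∈ K, x ^ 4 = 1 → x = 1 := by
      intro x hx hx4
      by_contra hx1
      exact h2 x hx hx1 (by
        by_contra h5
        exact h2 _ (K.pow_mem hx 2) h5 (by rw [← pow_mul, hx4]))
    have := M.isZGroup_of_forall (K := K) fun p u hu _ _ hp _ hu1 _ => absurd (M.mem_Zat.mp hp).2 (h2 u hu hu1)
    obtain ⟨U, hU, hKU, g, hgK, hg1, hgU⟩ := M.exists_part_of_isSolvable (K := K) inferInstance hne
    rcases hU with ⟨p, rfl⟩ | ⟨a, b, hab, rfl⟩ | ⟨z, hz, rfl⟩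
    · exact absurd (h4 g hgK (M.mem_Pat.mp hgU).2) hg1
    · refine Or.inr ⟨a, b, hab, le_antisymm (fun x hx => ?_) fun x hx => ?_⟩
      · rcases (M.mem_normalizer_Hat hab).mp (hKU hx) with h5 | h5
        · exact M.mem_Hat.mpr h5
        · rw [h4 x hx (by rw [show x ^ 4 = (x * x) ^ 2 by rw [← sq, ← pow_mul], M.mul_self_of_swap hab h5.1 h5.2, one_pow])]
          exact Subgroup.one_mem _
      · have hodd : Odd (orderOf x) :=
          (SzModel.odd_sub_one (τ := τ)).of_dvd_nat (M.orderOf_dvd_of_mem_Hat hab hx)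
        obtain ⟨n, hn⟩ := hodd
        have hc : ∀ y ∈ M.Hat a b, y⁻¹ * g * y ∈ K := fun y hy => by
          rwa [mul_assoc, (M.commute_of_mem_Hat hab hgU hy).eq, inv_mul_cancel_left]
        have hx' : (x ^ (n + 1)) ^ 2 = x := by
          rw [← pow_mul, show (n + 1) * 2 = 2 * n + 1 + 1 by ring, pow_succ, ← hn, pow_orderOf_eq_one, one_mul]
        rcases h g hgK hg1 _ _ (hc _ ((M.Hat a b).pow_mem hx (n + 1))) (hc _ hx) with h5 | h5 | h5
        · exact hx' ▸ K.pow_mem h5 2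
        · exact h5
        · have h6 : (x ^ (n + 1))⁻¹ * x = x ^ (n + 1) := by
            rw [inv_mul_eq_iff_eq_mul, ← sq, hx']
          rw [h6] at h5
          exact hx' ▸ K.pow_mem h5 2
    · exfalso
      obtain ⟨S, hS⟩ := Sylow.exists_subgroup_card_pow_prime
        (G := Subgroup.normalizer (Subgroup.centralizer ({z} : Set G) : Set G)) 2 (n := 2)
        (by rw [hz.card_normalizer]; exact dvd_mul_right 4 _)
      have := Fintype.ofFinite S
      have h5 : ∀ s : S, ((s.1 : G))⁻¹ * g * s.1 ∈ K := fun s =>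
        (Subgroup.zpowers_le.mpr hgK) (conj_mem_zpowers hz.isCyclic_centralizer s.1.2 hgU)
      have h6 : ∀ s : S, (s.1 : G) ∈ K → s = 1 := fun s hs => Subtype.ext (Subtype.ext (h4 _ hs (by
        have h7 : s ^ 4 = 1 := by
          have := pow_card_eq_one' (x := s)
          rwa [hS] at this
        exact congrArg (fun t : S => (t.1 : G)) h7)))
      obtain ⟨x, y, t, hxy, hxt, hyt⟩ := (Fintype.two_lt_card_iff (α := S)).mp
        (by rw [← Nat.card_eq_fintype_card, hS]; norm_num)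
      rcases h g hgK hg1 _ _ (h5 (x⁻¹ * y)) (h5 (x⁻¹ * t)) with h7 | h7 | h7
      · exact hxy (inv_mul_eq_one.mp (h6 _ h7))
      · exact hxt (inv_mul_eq_one.mp (h6 _ h7))
      · have := h6 ((x⁻¹ * y)⁻¹ * (x⁻¹ * t)) h7
        exact hyt (inv_mul_eq_one.mp (by simpa using this))

/-- Let q = 2^{2m+1} ≥ 8 and let G be isomorphic to the Suzuki group Sz(q). If G acts faithfully and transitively on a finite set Ω with fixity 2 (every non-identity element fixes at most two points, and some fixes exactly two), then either |Ω| = q² + 1 and the action is 2-transitive, or |Ω| = q²(q² + 1) and the point stabilizers have order q − 1. -/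
theorem result {G : Type*} [Group G] [Finite G] (F : Type) [Field F] [Fintype F] (m : ℕ) (hm : 1 ≤ m) (hF : Fintype.card F = 2 ^ (2 * m + 1))
    (e : G ≃* ↥(Cfsg.Lie.Sz F (2 ^ (m + 1)))) {Ω : Type*} [Fintype Ω] [MulAction G Ω] [FaithfulSMul G Ω] (htr : MulAction.IsPretransitive G Ω)
    (hfix : ∀ g : G, g ≠ 1 → Nat.card (MulAction.fixedBy Ω g) ≤ 2) (hex : ∃ g : G, g ≠ 1 ∧ Nat.card (MulAction.fixedBy Ω g) = 2) :
    (Fintype.card Ω = Fintype.card F ^ 2 + 1 ∧ MulAction.IsMultiplyPretransitive G Ω 2) ∨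
    (Fintype.card Ω = Fintype.card F ^ 2 * (Fintype.card F ^ 2 + 1) ∧ ∀ α : Ω, Nat.card (MulAction.stabilizer G α) = Fintype.card F - 1) := by
  classical
  let M := (lieSzModel hm hF).ofEquiv e
  obtain ⟨g₀, hg₀, hg₀'⟩ := hex
  obtain ⟨⟨α, hα⟩, ⟨β, hβ⟩, hαβ, -⟩ := Nat.card_eq_two_iff.mp hg₀'
  have hcard : ∀ γ : Ω, Fintype.card Ω * Nat.card (MulAction.stabilizer G γ) = Nat.card G := fun γ => by
    rw [← Nat.card_eq_fintype_card, ← MulAction.index_stabilizer_of_transitive G γ, Subgroup.index_mul_card]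
  have h8 := M.eight_le_card
  rcases main M (K := MulAction.stabilizer G α) (fun h => by
      obtain ⟨x, rfl⟩ := htr.exists_smul_eq α β
      have h1 : x ∈ MulAction.stabilizer G α := h ▸ Subgroup.mem_top x
      exact hαβ (Subtype.ext h1.symm))
    (fun h => hg₀ (by
      have h1 : g₀ ∈ MulAction.stabilizer G α := hα
      rwa [h, Subgroup.mem_bot] at h1))
    (fun g hg hg1 x y hx hy => by
      have h1 : ∀ z : G, z⁻¹ * g * z ∈ MulAction.stabilizer G α → z • α ∈ MulAction.fixedBy Ω g := by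
        intro z hz
        rw [MulAction.mem_stabilizer_iff, mul_smul, mul_smul, inv_smul_eq_iff] at hz
        exact hz
      by_contra hc
      push Not at hc
      have := Fintype.ofFinite (MulAction.fixedBy Ω g)
      have h2 := hfix g hg1
      rw [Nat.card_eq_fintype_card] at h2
      refine absurd (Fintype.two_lt_card_iff.mpr ⟨⟨α, hg⟩, ⟨_, h1 x hx⟩, ⟨_, h1 y hy⟩, fun h => hc.1 ?_,
        fun h => hc.2.1 ?_, fun h => hc.2.2 ?_⟩) (not_lt.mpr h2)
      · exact (Subtype.mk.inj h).symm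
      · exact (Subtype.mk.inj h).symm
      · rw [MulAction.mem_stabilizer_iff, mul_smul, inv_smul_eq_iff]
        exact (Subtype.mk.inj h).symm) with ⟨p, hp⟩ | ⟨a, b, hab, h⟩
  · left
    refine ⟨by rw [← Nat.card_eq_fintype_card, ← MulAction.index_stabilizer_of_transitive G α, hp,
      M.index_stabilizer], ?_⟩
    have key : ∀ x y : G, x • α = y • α ↔ x • p = y • p := fun x y => by
      have h1 : y⁻¹ * x ∈ MulAction.stabilizer G α ↔ y⁻¹ * x ∈ MulAction.stabilizer G p := by rw [hp]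
      simpa only [MulAction.mem_stabilizer_iff, mul_smul, inv_smul_eq_iff] using h1
    rw [MulAction.is_two_pretransitive_iff]
    intro a b c d hab hcd
    obtain ⟨x₁, rfl⟩ := htr.exists_smul_eq α a
    obtain ⟨x₂, rfl⟩ := htr.exists_smul_eq α b
    obtain ⟨x₃, rfl⟩ := htr.exists_smul_eq α c
    obtain ⟨x₄, rfl⟩ := htr.exists_smul_eq α d
    obtain ⟨g, h1, h2⟩ := M.two_transitive (fun h => hab ((key _ _).mpr h)) (fun h => hcd ((key _ _).mpr h))
    exact ⟨g, by rw [← mul_smul, key, mul_smul, h1], by rw [← mul_smul, key, mul_smul, h2]⟩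
  · right
    have h1 := hcard α
    rw [h, M.card_Hat hab, M.card_G] at h1
    have h2 := Nat.eq_of_mul_eq_mul_right (by omega) h1
    refine ⟨h2, fun γ => ?_⟩
    have h3 := hcard γ
    rw [M.card_G, h2] at h3
    exact Nat.eq_of_mul_eq_mul_left (by positivity) h3

end Cfsg.Agent.S3391
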