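import Cfsg.Statements.S3399
import Cfsg.Agent.Pron.Main

set_option autoImplicit false
open Cfsg

namespace Cfsg.Agent.S3399

/-- Let G be a transitive permutation group of finite degree n and K a nontrivial subgroup of G that is pronormal in G (K and gKg⁻¹ are conjugate inside ⟨K, gKg⁻¹⟩ for every g ∈ G). If K fixes exactly f points, then f ≤ (n − 1)/2, that is, 2f + 1 ≤ n. -/
theorem result (n : ℕ) (G : Subgroup (Equiv.Perm (Fin n)))
    (htrans : ∀ a b : Fin n, ∃ g ∈ G, g a = b)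
    (K : Subgroup (Equiv.Perm (Fin n))) (hKG : K ≤ G) (hK : K ≠ ⊥)
    (hpro : ∀ g ∈ G, ∃ w ∈ K ⊔ K.map (MulAut.conj g).toMonoidHom,
      K.map (MulAut.conj w).toMonoidHom = K.map (MulAut.conj g).toMonoidHom) :
    2 * Nat.card {a : Fin n // ∀ k ∈ K, k a = a} + 1 ≤ n := by
  classical
  obtain ⟨⟨k, hk⟩, hk'⟩ := Subgroup.ne_bot_iff_exists_ne_one.1 hK
  obtain ⟨x, hx⟩ : ∃ x, k x ≠ x := by_contra fun e => hk' (Subtype.ext (Equiv.ext (by simpa using e)))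
  have := Cfsg.Lib.Pron.aa (n + 1) _ (Fin n) G K Finset.univ ⟨hKG, fun g hg L h1 h2 => by
    obtain ⟨w, hw, e⟩ := hpro g hg
    refine ⟨w, sup_le h1 (Subgroup.map_le_iff_le_comap.2 h2) hw, fun k => ⟨fun hk => ?_, fun hk => ?_⟩⟩
    · obtain ⟨l, hl, e'⟩ := e.ge ⟨k, hk, rfl⟩
      have : w⁻¹ * g * k * (w⁻¹ * g)⁻¹ = w⁻¹ * (g * k * g⁻¹) * w := by group
      rw [this, ← show w * l * w⁻¹ = g * k * g⁻¹ from e']
      simpa [mul_assoc] using hl
    · obtain ⟨l, hl, e'⟩ := e.le ⟨_, hk, rfl⟩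
      rwa [show k = l by simpa [mul_assoc, eq_comm] using e']⟩
    ⟨by simp, fun a _ b _ => htrans a b⟩ (by simp) ⟨x, Finset.mem_univ _, fun h => hx (h k hk)⟩
  have h1 := Cfsg.Lib.Pron.dl_eq (K := K) (Finset.univ : Finset (Fin n))
  have h2 := Cfsg.Lib.Pron.card_eq K (Finset.univ : Finset (Fin n))
  have h3 : Nat.card {a : Fin n // ∀ k ∈ K, k a = a} =
      (Finset.univ.filter (Cfsg.Lib.Pron.Fx (Ω := Fin n) K)).card :=
    Nat.subtype_card _ (by simp [Cfsg.Lib.Pron.Fx])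
  rw [Finset.card_fin] at h2
  omega

end Cfsg.Agent.S3399
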