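import Cfsg.Statements.S3410
import Cfsg.Agent.Perm.ONanCore
import Cfsg.Agent.Class.PSLSimple
import Cfsg.Agent.Trans.GenFitting
import Cfsg.Agent.Trans.Quasisimple

set_option autoImplicit false
open Cfsg

namespace Cfsg.Agent.S3410


/-- Let a finite group G act faithfully and 2-transitively on a finite set X, and let N be an abelian normal subgroup of the stabilizer of a point x which is not semiregular on the remaining points (some non-identity element of N fixes a second point). Then the generalized Fitting subgroup of G is isomorphic to PSL_n(F) for some n ≥ 3 and some finite field F. -/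
theorem result {G X : Type*} [Group G] [Finite G] [Fintype X]
    [MulAction G X] [FaithfulSMul G X] (h2 : MulAction.IsMultiplyPretransitive G X 2) (x : X)
    (N : Subgroup G) (hNle : N ≤ MulAction.stabilizer G x)
    (hNnormal : ∀ g ∈ MulAction.stabilizer G x, ∀ n ∈ N, g * n * g⁻¹ ∈ N) (hNab : IsMulCommutative N)
    (hnsr : ∃ n ∈ N, n ≠ 1 ∧ ∃ y : X, y ≠ x ∧ n • y = y) :
    ∃ (F : Type) (_ : Field F) (_ : Fintype F) (n : ℕ), 3 ≤ n ∧
      Nonempty (↥(Cfsg.generalizedFittingSubgroup G) ≃* Matrix.ProjectiveSpecialLinearGroup (Fin n) F) := by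
  obtain ⟨L, F, _, _, n, hn, hL, hC, ⟨e⟩, -⟩ := Cfsg.Lib.Perm.ONan.ab (G := G) (X := X)
    (fun a b c d => MulAction.is_two_pretransitive_iff.mp h2)
    (fun g hg => eq_of_smul_eq_smul (α := X) fun z => by rw [hg, one_smul]) x N hNle hNnormal
    (fun a ha b hb => congrArg Subtype.val (hNab.is_comm.comm (⟨a, ha⟩ : N) ⟨b, hb⟩)) hnsr
  have h1 := Cfsg.Lib.Class.PSL_isSimpleGroup (ι := Fin n) (F := F) (by simpa using hn)
  have h3 : IsSimpleGroup L := e.isSimpleGroup
  have h4 : ¬ IsMulCommutative L := fun hc => by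
    obtain ⟨a, ha⟩ := exists_ne (1 : L)
    have : (a : G) ∈ Subgroup.centralizer (L : Set G) := fun b hb =>
      congrArg Subtype.val (hc.is_comm.comm (⟨b, hb⟩ : L) a)
    rw [hC, Subgroup.mem_bot] at this
    exact ha (Subtype.ext this)
  have h : Cfsg.IsComponent L := ⟨Subgroup.Normal.isSubnormal hL,
    Cfsg.Lib.Trans.isQuasisimple_of_isSimpleGroup h4⟩
  have h5 : Cfsg.generalizedFittingSubgroup G = L := le_antisymm
    (by simpa [hC] using Cfsg.Lib.Trans.IsComponent.genFitting_le_sup_centralizer h)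
    (Cfsg.Lib.Trans.IsComponent.le_genFitting h)
  exact ⟨F, inferInstance, inferInstance, n, hn, ⟨(MulEquiv.subgroupCongr h5).trans e⟩⟩

end Cfsg.Agent.S3410
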