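import Cfsg.Statements.S3413
import Cfsg.Agent.Spor.O7920D

set_option autoImplicit false
open Cfsg

namespace Cfsg.Agent.S3413

open Subgroup Cfsg.Lib.Spor Cfsg.Lib.Spor.O7920 Cfsg.Lib.Known Cfsg.Lib.Block

theorem card_ne_one (G : Type*) [Group G] [Finite G] :
    Nat.card G = Nat.card {g : G // g ≠ 1} + 1 := by
  classical
  rw [← Nat.card_congr (Equiv.optionSubtypeNe (1 : G)), Finite.card_option]

theorem card_centralizer_eq {G : Type*} [Group G] [Finite G] (x : G) :
    Nat.card (centralizer ({x} : Set G)) =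
      Nat.card {y : {g : G // g ≠ 1} // x * y = y * x} + 1 := by
  rw [card_ne_one]
  congr 1
  exact Nat.card_congr
    { toFun := fun y => ⟨⟨y.1.1, by simpa using y.2⟩, (mem_centralizer_singleton_iff.1 y.1.2).symm⟩
      invFun := fun y => ⟨⟨y.1.1, mem_centralizer_singleton_iff.2 y.2.symm⟩, by simpa using y.1.2⟩
      left_inv := fun _ => rfl
      right_inv := fun _ => rfl }

/-- Let H be a finite group whose commuting graph (vertices the non-identity elements, two joined when they commute) is isomorphic to that of the Mathieu group M_11: there is a bijection between the non-identity elements of H and of M_11 under which two elements commute exactly when their images do. Then H ≅ M_11. -/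
theorem result {H : Type*} [Group H] [Finite H]
    (f : {h : H // h ≠ 1} ≃ {g : ↥Cfsg.Spor.M11 // g ≠ 1})
    (hf : ∀ x y : {h : H // h ≠ 1}, (x : H) * y = y * x ↔ ((f x) : ↥Cfsg.Spor.M11) * (f y) = (f y) * (f x)) :
    Nonempty (H ≃* ↥Cfsg.Spor.M11) := by
  have := Fintype.ofFinite Spor.M11
  have := MP.isSimpleGroup_M11
  have hH : Nat.card H = 7920 := by
    rw [card_ne_one, Nat.card_congr f, ← card_ne_one, MP.card_M11]
  obtain ⟨P⟩ : Nonempty (Sylow 11 H) := inferInstance
  have hP := card_syl11 hH P
  obtain ⟨x, hx, hx1, hx11⟩ := exists_gen hP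
  have h1 : Nat.card (centralizer ({x} : Set H)) =
      Nat.card (centralizer ({(f ⟨x, hx1⟩).1} : Set Spor.M11)) := by
    rw [card_centralizer_eq, card_centralizer_eq]
    congr 1
    exact Nat.card_congr (f.subtypeEquiv fun y => hf ⟨x, hx1⟩ y)
  have h2 : orderOf (f ⟨x, hx1⟩).1 ∣ 11 := by
    by_contra h
    exact not_11_dvd MP.card_M11 h (h1 ▸ hx11 ▸ dvd_card_centralizer rfl)
  rw [card_centralizer_11 MP.card_M11 (((Nat.dvd_prime (by norm_num)).1 h2).resolve_left fun e =>
    (f ⟨x, hx1⟩).2 (orderOf_eq_one_iff.1 e)), PS.centralizer_singleton_eq hP hx hx1] at h1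
  have h3 := card_normalizer_dvd hH P
  have h4 := SC.card_normalizer_mul_card_sylow P
  rw [h1] at h3
  have h5 := Nat.le_of_dvd (by norm_num) h3
  have := isSimpleGroup_of_n144 hH (by
    rcases n11_cases hH with h | h | h | h <;> rw [h, hH] at h4 <;> omega)
  exact isoM11 hH

end Cfsg.Agent.S3413
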