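import Cfsg.Statements.S3419
import Cfsg.Agent.Char.AltSpec
import Cfsg.Agent.S0003

set_option autoImplicit false
open Cfsg

namespace Cfsg.Agent.S3419

open Cfsg.Lib.Char

open Subgroup Cfsg.Lib.Char.AltSpec
open scoped IsMulCommutative

theorem small {G : Type*} [Group G] [Finite G] [Group.IsSolvable G] {p q m : ℕ} (hp : p.Prime)
    (hq : q.Prime) (hpq : p ≠ q) (h : Nat.card G = p * q ^ 2 * m) (hm : (p * q ^ 2).Coprime m)
    (h1 : ¬ q ∣ p - 1) (h2 : ∀ d ∈ (q ^ 2).divisors, d ≡ 1 [MOD p] → d = 1) :
    ∃ z : G, orderOf z = p * q := by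
  have := Fact.mk hp
  obtain ⟨H, hH⟩ := Agent.S0003.result _ _ h hm
  obtain ⟨P⟩ : Nonempty (Sylow p H) := inferInstance
  have h3 : Nat.card P = p := by
    rw [P.card_eq_multiplicity, hH, Nat.factorization_mul hp.ne_zero (pow_ne_zero _ hq.ne_zero)]
    simp [hp.factorization, hq.factorization, hpq]
  have h4 := (P : Subgroup H).card_mul_index
  rw [h3, hH, mul_right_inj' hp.ne_zero] at h4
  have h5 := h2 _ (Nat.mem_divisors.2 ⟨h4 ▸ P.card_dvd_index, pow_ne_zero _ hq.ne_zero⟩)
    (card_sylow_modEq_one p H)
  rw [P.card_eq_index_normalizer, index_eq_one] at h5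
  obtain ⟨z, hz⟩ := exists_orderOf_of_normalizer hp hq hpq h3 (by
    rw [show normalizer ((P : Subgroup H) : Set H) = ⊤ from h5, card_top, hH]
    exact (dvd_pow_self q two_ne_zero).mul_left p) h1
  exact ⟨z, (orderOf_coe z).trans hz⟩

/-- Let n ≥ 5 and let G be a finite group with the same order and the same set of element orders as the alternating group of degree n. Then G is not solvable. -/
theorem result {G : Type*} [Group G] [Finite G] (n : ℕ) (hn : 5 ≤ n)
    (hcard : Nat.card G = Nat.card ↥(alternatingGroup (Fin n)))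
    (hspec : Set.range (orderOf : G → ℕ) = Set.range (orderOf : ↥(alternatingGroup (Fin n)) → ℕ)) :
    ¬ Group.IsSolvable G := by
  intro hs
  have : Nontrivial (Fin n) := Fin.nontrivial_iff_two_le.2 (by omega)
  have h4 : 2 * Nat.card G = n.factorial := by
    rw [hcard, two_mul_nat_card_alternatingGroup, Nat.card_perm, Nat.card_eq_fintype_card,
      Fintype.card_fin]
  by_cases h6 : n = 6
  · subst h6
    exact not_exists_orderOf (p := 5) (q := 3) (by norm_num) (by norm_num) (by norm_num) (by norm_num)
      hspec (small (m := 8) (by norm_num) (by norm_num) (by norm_num)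
      (by simp [Nat.factorial] at h4; omega) (by norm_num) (by norm_num) (by decide))
  by_cases h10 : n = 10
  · subst h10
    exact not_exists_orderOf (p := 7) (q := 5) (by norm_num) (by norm_num) (by norm_num) (by norm_num)
      hspec (small (m := 10368) (by norm_num) (by norm_num) (by norm_num)
      (by simp [Nat.factorial] at h4; omega) (by norm_num) (by norm_num) (by decide))
  obtain ⟨N, H, _, -, -, a, b, -⟩ := alt_section hn hcard hspec (by
    by_cases h : 11 ≤ n
    · exact exists_primes h
    by_cases h5 : n = 5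
    · exact ⟨3, 5, by norm_num, by norm_num, by omega, by omega, hn⟩
    · exact ⟨5, 7, by norm_num, by norm_num, by omega, by omega, by omega⟩)
  exact b ⟨⟨IsSimpleGroup.comm_iff_isSolvable.2 inferInstance⟩⟩

end Cfsg.Agent.S3419
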