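import Cfsg.Statements.S3488
import Cfsg.Agent.Perm.UnitMat
import Cfsg.Agent.Perm.SmallFields
import Cfsg.Agent.Perm.SpecAlt

set_option autoImplicit false
open Cfsg

namespace Cfsg.Agent.S3488

open Cfsg.Lib.Perm Matrix

/-- The matrices with last row `(0, 0, 1)`. -/
def S (F : Type*) [Field F] : Subgroup (Matrix.SpecialLinearGroup (Fin 3) F) where
  carrier := {M | (M : Matrix (Fin 3) (Fin 3) F) 2 0 = 0 ∧ (M : Matrix (Fin 3) (Fin 3) F) 2 1 = 0 ∧
    (M : Matrix (Fin 3) (Fin 3) F) 2 2 = 1}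
  one_mem' := by simp
  mul_mem' := by
    rintro a b ⟨a0, a1, a2⟩ ⟨b0, b1, b2⟩
    simp [Matrix.mul_apply, Fin.sum_univ_three, a0, a1, a2, b0, b1, b2]
  inv_mem' := by
    rintro a ⟨a0, a1, a2⟩
    have h := a.det_coe
    rw [Matrix.det_fin_three] at h
    simp only [Set.mem_ofPred_eq, Matrix.SpecialLinearGroup.coe_inv, Matrix.adjugate_fin_three]
    simp [a0, a1, a2] at h ⊢
    exact h

/-- Transport along a field isomorphism. -/
def sEquiv {F K : Type*} [Field F] [Field K] (e : F ≃+* K) : S F ≃* S K :=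
  Cfsg.Lib.Class.subgroupEquivOfIff (Cfsg.Lib.Class.slEquiv (Fin 3) e) _ _ fun g => by
    change (e (g.1 2 0) = 0 ∧ e (g.1 2 1) = 0 ∧ e (g.1 2 2) = 1) ↔ _
    simp only [EmbeddingLike.map_eq_zero_iff, EmbeddingLike.map_eq_one_iff]
    rfl

/-- The matrix of an element. -/
def toMat : S F4 →* Matrix (Fin 3) (Fin 3) F4 := (slToMat 3 F4).comp (S F4).subtype

theorem toMat_injective : Function.Injective toMat :=
  slToMat_injective.comp (Subgroup.subtype_injective _)

theorem cubic (g : S F4) : toMat g ^ 3 = (toMat g).trace • toMat g ^ 2 +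
    (-(toMat g).trace) • toMat g + (1 : F4) • (1 : Matrix (Fin 3) (Fin 3) F4) := by
  obtain ⟨a, a0, a1, a2⟩ := g
  have h := cayley3 (a : Matrix (Fin 3) (Fin 3) F4)
  have h1 := a.det_coe
  have h2 : (a : Matrix (Fin 3) (Fin 3) F4).adjugate.trace = (a : Matrix (Fin 3) (Fin 3) F4).trace := by
    rw [Matrix.det_fin_three] at h1
    rw [Matrix.adjugate_fin_three, Matrix.trace_fin_three, Matrix.trace_fin_three]
    simp [a0, a1, a2] at h1 ⊢
    linear_combination h1
  rw [h1, h2] at h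
  exact h

theorem mem_of (M : Matrix (Fin 3) (Fin 3) F4) (h1 : M.det = 1)
    (h2 : M 2 0 = 0 ∧ M 2 1 = 0 ∧ M 2 2 = 1) {k : ℕ} (hk0 : 0 < k) (hk : M ^ k = 1)
    (hm : ∀ m < k, 0 < m → M ^ m ≠ 1) : k ∈ Set.range (orderOf : S F4 → ℕ) :=
  ⟨⟨⟨M, h1⟩, h2⟩, (orderOf_injective toMat toMat_injective _).symm.trans
    ((orderOf_eq_iff hk0).2 ⟨hk, hm⟩)⟩

theorem spec : Set.range (orderOf : S F4 → ℕ) = {m | m ∈ [1, 2, 3, 4, 5]} := by
  apply Set.Subset.antisymm
  · rintro _ ⟨g, rfl⟩
    have key : ∀ t : F4, ∃ k ∈ [3, 4, 5], (step3 t (-t) 1)^[k] (1, 0, 0) = (1, 0, 0) := by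
      decide +kernel
    obtain ⟨k, hk, hs⟩ := key _
    have h1 := pow_eq_smul_of_step3 (cubic g) hs
    rw [one_smul, ← map_pow, ← map_one toMat] at h1
    have h2 := orderOf_dvd_of_pow_eq_one (toMat_injective h1)
    have h3 : ∀ k ∈ [3, 4, 5], ∀ d ∈ Nat.divisors k, d ∈ [1, 2, 3, 4, 5] := by decide
    exact h3 k hk _ (Nat.mem_divisors.2 ⟨h2, by rintro rfl; simp at hk⟩)
  · have e3 := mem_of !![0, 1, 0; 1, 1, 0; 0, 0, 1]
      (by rw [Matrix.det_fin_three]; decide +kernel) (by decide +kernel) (k := 3) (by norm_num)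
      (by decide +kernel) (by decide +kernel)
    have e4 := mem_of !![1, 1, 0; 0, 1, 1; 0, 0, 1]
      (by rw [Matrix.det_fin_three]; decide +kernel) (by decide +kernel) (k := 4) (by norm_num)
      (by decide +kernel) (by decide +kernel)
    have e5 := mem_of !![0, 1, 0; 1, ⟨0, 1⟩, 0; 0, 0, 1]
      (by rw [Matrix.det_fin_three]; decide +kernel) (by decide +kernel) (k := 5) (by norm_num)
      (by decide +kernel) (by decide +kernel)
    intro n hn
    simp only [Set.mem_ofPred_eq, List.mem_cons, List.not_mem_nil, or_false] at hn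
    rcases hn with rfl | rfl | rfl | rfl | rfl
    all_goals first
      | exact mem_range_orderOf_of_dvd e3 (by decide)
      | exact mem_range_orderOf_of_dvd e4 (by decide)
      | exact mem_range_orderOf_of_dvd e5 (by decide)


/-- Let F be the field with four elements. The affine group F² ⋊ SL(2,F), realised as the subgroup of SL(3,F) of matrices with last row (0, 0, 1), has exactly the same set of element orders as the alternating group of degree 6 (namely {1, 2, 3, 4, 5}); so the alternating group of degree 6 is not determined by its element orders. -/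
theorem result {F : Type*} [Field F] [Fintype F] (hF : Fintype.card F = 4) :
    Set.range (orderOf : Subgroup.closure {M : Matrix.SpecialLinearGroup (Fin 3) F |
        (M : Matrix (Fin 3) (Fin 3) F) 2 0 = 0 ∧ (M : Matrix (Fin 3) (Fin 3) F) 2 1 = 0 ∧ (M : Matrix (Fin 3) (Fin 3) F) 2 2 = 1} → ℕ) =
      Set.range (orderOf : alternatingGroup (Fin 6) → ℕ) := by
  obtain ⟨e⟩ := nonempty_ringEquiv_F4 hF
  have h : Subgroup.closure {M : Matrix.SpecialLinearGroup (Fin 3) F |
      (M : Matrix (Fin 3) (Fin 3) F) 2 0 = 0 ∧ (M : Matrix (Fin 3) (Fin 3) F) 2 1 = 0 ∧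
        (M : Matrix (Fin 3) (Fin 3) F) 2 2 = 1} = S F := Subgroup.closure_eq (S F)
  rw [h, range_orderOf_congr (sEquiv e), spec, range_orderOf_alt_six]

end Cfsg.Agent.S3488
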