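import Cfsg.Statements.S3493
import Cfsg.Agent.Perm.ExtPrim
import Cfsg.Agent.Perm.SocleDer
import Cfsg.Agent.FT.Final

set_option autoImplicit false
open Cfsg

namespace Cfsg.Agent.S3493

open Cfsg.Lib.Perm Cfsg.Lib.Perm.Socle MulAction Pointwise

variable {G : Type*} [Group G] [Finite G] {Ω : Type*} [MulAction G Ω] [FaithfulSMul G Ω]
  {N T : Subgroup G}

theorem exists_invol (hT : ¬ Group.IsSolvable T) : ∃ u ∈ T, u ≠ 1 ∧ u * u = 1 := by
  have h2 : 2 ∣ Nat.card T := by
    by_contra h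
    exact hT (Cfsg.Lib.FT.odd_order_solvable (Nat.odd_iff.2 (by omega)))
  obtain ⟨u, hu⟩ := exists_prime_orderOf_dvd_card' 2 h2
  refine ⟨u, u.2, fun e => ?_, ?_⟩
  · rw [show u = 1 from Subtype.ext e, orderOf_one] at hu
    omega
  · have := pow_orderOf_eq_one u
    rw [hu, pow_two] at this
    exact congrArg Subtype.val this

theorem not_full (h : EP G Ω) (hN : MinN N) (hna : ¬ IsMulCommutative N) (hT : Factor N T) {a : Ω}
    (hH : stabilizer G a ≠ ⊥)
    (hfull : ∀ t ∈ T, ∃ c : G, (∀ s ∈ T, c * s = s * c) ∧ (t * c) • a = a) : False := by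
  have := hN.normal
  have htr := exists_smul_of_normal h.prim hN.normal hN.ne
  have hsr : ∀ t ∈ T, t • a = a → t = 1 := fun t ht ha => hT.eq_one_of_full hN htr hfull ht ha
  have hinv : ∀ t ∈ T, ∀ x : G, x • a = a → x • t • a = t • a → x • t⁻¹ • a = t⁻¹ • a := by
    intro t ht x hx hxt
    have hx' : x⁻¹ • a = a := by rw [inv_smul_eq_iff, hx]
    have h1 : (t⁻¹ * (x * t * x⁻¹)) • a = a := by
      rw [mul_smul, mul_smul, hx', mul_smul, hxt, inv_smul_smul]
    have hm : x * t * x⁻¹ ∈ MulAut.conj x • T := mem_cj.2 (by simpa [mul_assoc] using ht)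
    have hc : t * (x * t * x⁻¹) = (x * t * x⁻¹) * t := by
      by_cases he : MulAut.conj x • T = T
      · rw [he] at hm
        have := hsr _ (T.mul_mem (T.inv_mem ht) hm) h1
        rw [inv_mul_eq_one] at this
        rw [← this]
      · exact ((hT.smul x).comm hT he hm ht).symm
    have h2 : t⁻¹ * (x * t * x⁻¹) = (x * t * x⁻¹) * t⁻¹ := by
      rw [inv_mul_eq_iff_eq_mul, ← mul_assoc, hc]; group
    rw [h2, mul_smul, ← eq_inv_smul_iff] at h1
    calc x • t⁻¹ • a = (x * t * x⁻¹)⁻¹ • a := by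
          rw [show (x * t * x⁻¹)⁻¹ = x * t⁻¹ * x⁻¹ by group, mul_smul, mul_smul, hx']
      _ = t⁻¹ • a := h1.symm
  have hnot : ¬ ∀ X : Subgroup G, X ≤ stabilizer G a → X = ⊥ ∨ X = stabilizer G a := by
    intro hX
    have := Fact.mk (card_prime_of_min hH hX)
    have hcyc : IsCyclic (stabilizer G a) := isCyclic_of_prime_card rfl
    refine hT.not_comm hN hna ⟨⟨fun s s' => Subtype.ext ?_⟩⟩
    obtain ⟨c, hc, e⟩ := hfull s s.2
    obtain ⟨c', hc', e'⟩ := hfull s' s'.2
    have e2 : ((s : G) * c) * (s' * c') = (s' * c') * (s * c) :=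
      congrArg Subtype.val ((IsCyclic.isMulCommutative (α := stabilizer G a)).is_comm.comm
        ⟨_, e⟩ ⟨_, e'⟩)
    have e3 : ((s' : G) * s)⁻¹ * (s * s') = (c' * c) * (c * c')⁻¹ := by
      have f1 : ((s : G) * c) * (s' * c') = (s * s') * (c * c') := by
        rw [mul_assoc, ← mul_assoc c, hc s' s'.2]; group
      have f2 : ((s' : G) * c') * (s * c) = (s' * s) * (c' * c) := by
        rw [mul_assoc, ← mul_assoc c', hc' s s.2]; group
      rw [f1, f2] at e2
      rw [inv_mul_eq_iff_eq_mul, ← mul_assoc, ← e2]; group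
    have e4 := hT.eq_one_of_cent hN hna (T.mul_mem (T.inv_mem (T.mul_mem s'.2 s.2))
      (T.mul_mem s.2 s'.2)) (fun y hy => by
        have c1 : Commute c y := hc y hy
        have c2 : Commute c' y := hc' y hy
        rw [e3]
        exact ((c2.mul_left c1).mul_left (c1.mul_left c2).inv_left))
    rw [inv_mul_eq_one] at e4
    exact e4.symm
  have hreal : ∀ t ∈ T, ∀ s ∈ T, s * t * s⁻¹ = t⁻¹ → t * t = 1 := by
    intro t ht s hs e
    by_cases ht1 : t = 1
    · rw [ht1, mul_one]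
    obtain ⟨c, hc, hd⟩ := hfull s hs
    have hdt : (s * c) • t • a = t⁻¹ • a := by
      have : s * c * t = t⁻¹ * (s * c) := by
        rw [mul_assoc, hc t ht, ← e]; group
      rw [← mul_smul, this, mul_smul, hd]
    have := (h.smul_eq_or hH (fun e => ht1 (hsr t ht e)) hd (fun x hx hxt => by
      rw [hdt]; exact hinv t ht x hx hxt)).resolve_right hnot
    rw [hdt, inv_smul_eq_iff, ← mul_smul] at this
    exact hsr _ (T.mul_mem ht ht) this.symm
  obtain ⟨u, hu, hu1, huu⟩ := exists_invol (hT.not_isSolvable hN hna)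
  have hui : u⁻¹ = u := inv_eq_of_mul_eq_one_right huu
  have hconj : ∀ s ∈ T, u * (s * u * s⁻¹) = (s * u * s⁻¹) * u := by
    intro s hs
    have hv : s * u * s⁻¹ ∈ T := hT.conj s (hT.le hs) u hu
    have hvi : (s * u * s⁻¹)⁻¹ = s * u * s⁻¹ := by
      rw [show (s * u * s⁻¹)⁻¹ = s * u⁻¹ * s⁻¹ by group, hui]
    generalize s * u * s⁻¹ = v at hv hvi
    have := hreal (u * v) (T.mul_mem hu hv) u hu (by
      rw [mul_inv_rev, hvi, hui, ← mul_assoc, huu, one_mul])
    rw [← eq_inv_iff_mul_eq_one, mul_inv_rev, hvi, hui] at this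
    exact this
  have hcent : ∀ S : Set G, (∀ s ∈ T, ∀ x ∈ S, s * x * s⁻¹ ∈ S) →
      T ⊓ Subgroup.centralizer S = ⊥ ∨ T ⊓ Subgroup.centralizer S = T := fun S hS =>
    hT.min' hN _ inf_le_left fun t ht x hx => ⟨hT.conj t (hT.le ht) x hx.1, fun y hy => by
      have := hx.2 _ (hS t⁻¹ (T.inv_mem ht) y hy)
      calc y * (t * x * t⁻¹) = t * (t⁻¹ * y * t⁻¹⁻¹ * x) * t⁻¹ := by group
        _ = t * (x * (t⁻¹ * y * t⁻¹⁻¹)) * t⁻¹ := by rw [this]
        _ = _ := by group⟩
  rcases hcent {x | ∃ s ∈ T, x = s * u * s⁻¹} (by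
      rintro t ht _ ⟨s, hs, rfl⟩
      exact ⟨t * s, T.mul_mem ht hs, by group⟩) with e | e
  · have : u ∈ T ⊓ Subgroup.centralizer {x | ∃ s ∈ T, x = s * u * s⁻¹} := by
      refine ⟨hu, ?_⟩
      rintro _ ⟨s, hs, rfl⟩
      exact (hconj s hs).symm
    rw [e, Subgroup.mem_bot] at this
    exact hu1 this
  · refine hu1 (hT.eq_one_of_cent hN hna hu fun s hs => ?_)
    exact (inf_eq_left.1 e) hs u ⟨1, T.one_mem, by group⟩

theorem full (h : EP G Ω) (hnas : NotAS G) (hN : MinN N) (hna : ¬ IsMulCommutative N)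
    (hT : Factor N T) {a : Ω} (hH : stabilizer G a ≠ ⊥) :
    ∀ t ∈ T, ∃ c : G, (∀ s ∈ T, c * s = s * c) ∧ (t * c) • a = a := by
  have := hN.normal
  have htr := exists_smul_of_normal h.prim hN.normal hN.ne
  by_cases hTn : T.Normal
  · intro t _
    obtain ⟨c, hc, e⟩ := hT.cent_trans h.prim hnas hN hna hTn a (t⁻¹ • a)
    exact ⟨c, fun s hs => (hc s hs).symm, by rw [mul_smul, e, smul_inv_smul]⟩
  by_contra hcon
  have hQ : ∀ t ∈ T, t ∉ proj N T a → ∀ x : G, x • a = a → (∀ s ∈ T, x * s * x⁻¹ ∈ T) →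
      x • t • a = t • a := by
    intro t ht htp x hx hxn
    have hle : stabilizer G a ⊓ stabilizer G (t • a) ≤
        stabilizer G a ⊓ Subgroup.normalizer (T : Set G) := by
      refine fun y hy => ⟨hy.1, ?_⟩
      by_cases he : MulAut.conj y • T = T
      · refine Subgroup.mem_normalizer_fintype fun s hs => ?_
        rw [← he]
        exact mem_cj.2 (by simpa [mul_assoc] using hs)
      · exfalso
        have hm : y * t * y⁻¹ ∈ MulAut.conj y • T := mem_cj.2 (by simpa [mul_assoc] using ht)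
        refine htp ((proj N T a).inv_mem_iff.1 ⟨T.inv_mem ht, _, (hT.smul y).le hm,
          fun s hs => (hT.smul y).comm hT he hm hs, ?_⟩)
        have h1 : y⁻¹ • a = a := (stabilizer G a).inv_mem hy.1
        have h2 : y • t • a = t • a := hy.2
        rw [mul_smul, mul_smul, h1, mul_smul, h2, inv_smul_smul]
    rcases h.max a (t • a) _ hle inf_le_left with e | e
    · have : x ∈ stabilizer G a ⊓ Subgroup.normalizer (T : Set G) :=
        ⟨hx, Subgroup.mem_normalizer_fintype hxn⟩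
      rw [e] at this
      exact this.2
    · exfalso
      refine hTn ⟨fun s hs g => ?_⟩
      obtain ⟨n, hn, e'⟩ := htr (g • a) a
      have h1 : n * g ∈ Subgroup.normalizer (T : Set G) :=
        (inf_eq_left.1 e) (show (n * g) • a = a by rw [mul_smul, e'])
      have := hT.conj' hn ((h1 s).1 hs)
      simpa [mul_assoc] using this
  obtain ⟨t0, ht0, ht0p⟩ : ∃ t ∈ T, t ∉ proj N T a := by
    by_contra hc
    push Not at hc
    exact hcon fun t ht => by
      obtain ⟨-, c, -, hcc, e⟩ := hc t ht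
      exact ⟨c, hcc, e⟩
  have hNa : N ⊓ stabilizer G a = ⊥ := by
    refine h.eq_bot_of_le (b := t0 • a) hH (fun e => ht0p ⟨ht0, 1, N.one_mem, by simp, by simpa⟩)
      inf_le_right (fun g hg m hm => ⟨hN.normal.conj_mem m hm.1 g, ?_⟩)
      (fun m hm => hQ t0 ht0 ht0p m hm.2 (hT.conj m hm.1))
    exact (stabilizer G a).mul_mem ((stabilizer G a).mul_mem hg hm.2) ((stabilizer G a).inv_mem hg)
  have hreg : ∀ n ∈ N, n • a = a → n = 1 := fun n hn e => by
    have : n ∈ N ⊓ stabilizer G a := ⟨hn, e⟩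
    rwa [hNa, Subgroup.mem_bot] at this
  have ht1 : t0 ≠ 1 := fun e => ht0p (e ▸ (proj N T a).one_mem)
  have hQc : ∀ x : G, x • a = a → (∀ s ∈ T, x * s * x⁻¹ ∈ T) → x * t0 * x⁻¹ = t0 := by
    intro x hx hxn
    have h1 : x⁻¹ • a = a := by rw [inv_smul_eq_iff, hx]
    have := hreg _ (N.mul_mem (N.inv_mem (hT.le ht0)) (hT.le (hxn t0 ht0))) (by
      rw [mul_smul, mul_smul, h1, mul_smul, hQ t0 ht0 ht0p x hx hxn, inv_smul_smul])
    rw [inv_mul_eq_one] at this
    exact this.symm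
  let D : Set G := {y | ∃ x : G, x • a = a ∧ y = x * t0 * x⁻¹}
  have hDc : ∀ y ∈ D, y * t0 = t0 * y := by
    rintro _ ⟨x, hx, rfl⟩
    have hm : x * t0 * x⁻¹ ∈ MulAut.conj x • T := mem_cj.2 (by simpa [mul_assoc] using ht0)
    by_cases he : MulAut.conj x • T = T
    · rw [hQc x hx fun s hs => by
        rw [← he]; exact mem_cj.2 (by simpa [mul_assoc] using hs)]
    · exact (hT.smul x).comm hT he hm ht0
  have hXn : ∀ x : G, x • a = a → ∀ m ∈ N ⊓ Subgroup.centralizer D,
      x * m * x⁻¹ ∈ N ⊓ Subgroup.centralizer D := by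
    intro x hx m hm
    refine ⟨hN.normal.conj_mem m hm.1 x, ?_⟩
    rintro _ ⟨y, hy, rfl⟩
    have := hm.2 ((x⁻¹ * y) * t0 * (x⁻¹ * y)⁻¹) ⟨x⁻¹ * y, by
      rw [mul_smul, hy, inv_smul_eq_iff, hx], rfl⟩
    calc y * t0 * y⁻¹ * (x * m * x⁻¹) = x * ((x⁻¹ * y) * t0 * (x⁻¹ * y)⁻¹ * m) * x⁻¹ := by group
      _ = x * (m * ((x⁻¹ * y) * t0 * (x⁻¹ * y)⁻¹)) * x⁻¹ := by rw [this]
      _ = _ := by group
  let Y : Subgroup G :=
    { carrier := {g | ∃ m ∈ N ⊓ Subgroup.centralizer D, (m⁻¹ * g) • a = a}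
      one_mem' := ⟨1, one_mem _, by simp⟩
      mul_mem' := by
        rintro g g' ⟨m, hm, e⟩ ⟨m', hm', e'⟩
        refine ⟨m * ((m⁻¹ * g) * m' * (m⁻¹ * g)⁻¹), mul_mem hm (hXn _ e _ hm'), ?_⟩
        rw [show (m * ((m⁻¹ * g) * m' * (m⁻¹ * g)⁻¹))⁻¹ * (g * g') =
          (m⁻¹ * g) * (m'⁻¹ * g') by group, mul_smul, e', e]
      inv_mem' := by
        rintro g ⟨m, hm, e⟩
        have e' : (m⁻¹ * g)⁻¹ • a = a := by rw [inv_smul_eq_iff, e]
        refine ⟨(m⁻¹ * g)⁻¹ * m⁻¹ * (m⁻¹ * g)⁻¹⁻¹, hXn _ e' _ (inv_mem hm), ?_⟩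
        rw [show ((m⁻¹ * g)⁻¹ * m⁻¹ * (m⁻¹ * g)⁻¹⁻¹)⁻¹ * g⁻¹ = (m⁻¹ * g)⁻¹ by group, e'] }
  have ht0X : t0 ∈ N ⊓ Subgroup.centralizer D := ⟨hT.le ht0, hDc⟩
  rcases max_stabilizer h.prim a Y (fun x hx => ⟨1, one_mem _, by simpa using hx⟩) with e | e
  · have : t0 ∈ Y := ⟨t0, ht0X, by simp⟩
    rw [e] at this
    exact ht1 (hreg t0 (hT.le ht0) this)
  · refine ht1 (hT.eq_one_of_cent hN hna ht0 fun s hs => ?_)
    have : s ∈ Y := by rw [e]; trivial
    obtain ⟨m, hm, e'⟩ := this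
    have := hreg _ (N.mul_mem (N.inv_mem hm.1) (hT.le hs)) e'
    rw [inv_mul_eq_one] at this
    rw [← this]
    exact hm.2 t0 ⟨1, one_smul _ _, by group⟩

/-- An extremely primitive permutation group is of affine type or almost simple. Let a finite group G act faithfully and primitively on a finite set Ω with at least two points, in such a way that every point stabilizer acts primitively on each of its own orbits in Ω (an orbit of size one counts as primitive). Then either G has a non-trivial abelian normal subgroup whose elements other than the identity fix no point (affine type), or G has a non-abelian simple normal subgroup with trivial centralizer (almost simple). -/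
theorem result {G : Type*} [Group G] [Finite G] {Ω : Type*} [Fintype Ω] [MulAction G Ω] [FaithfulSMul G Ω] (hΩ : 2 ≤ Fintype.card Ω) (hprim : MulAction.IsPreprimitive G Ω) (hep : ∀ (α : Ω) (ω : Ω), MulAction.IsPreprimitive (MulAction.stabilizer G α) (MulAction.orbit (MulAction.stabilizer G α) ω)) :
    (∃ N : Subgroup G, N.Normal ∧ N ≠ ⊥ ∧ IsMulCommutative N ∧ ∀ ω : Ω, MulAction.stabilizer N ω = ⊥) ∨ (∃ T : Subgroup G, T.Normal ∧ IsSimpleGroup T ∧ ¬ IsMulCommutative T ∧ Subgroup.centralizer (T : Set G) = ⊥) := by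
  have : Nontrivial Ω := Fintype.one_lt_card_iff_nontrivial.1 hΩ
  have h := EP.of hprim hep
  obtain ⟨N, hN⟩ := exists_minN_top hprim
  by_cases hc : IsMulCommutative N
  · exact Or.inl ⟨N, hN.normal, hN.ne, hc, stabilizer_eq_bot_of fun n hn a ha =>
      eq_one_of_comm_normal hprim hN.normal hN.ne hc hn ha⟩
  right
  by_contra hnas
  obtain ⟨T, hT⟩ := exists_factor hN.ne
  obtain ⟨a⟩ : Nonempty Ω := inferInstance
  have hH : stabilizer G a ≠ ⊥ := by
    intro h0
    obtain ⟨u, hu, hu1, -⟩ := exists_invol (hT.not_isSolvable hN hc)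
    rcases max_stabilizer hprim a (Subgroup.zpowers u) (by rw [h0]; exact bot_le) with e | e
    · rw [h0, Subgroup.zpowers_eq_bot] at e
      exact hu1 e
    · refine hu1 (hT.eq_one_of_cent hN hc hu fun s _ => ?_)
      have : s ∈ Subgroup.zpowers u := by rw [e]; trivial
      obtain ⟨k, rfl⟩ := this
      exact (Commute.self_zpow u k).eq
  exact not_full h hN hc hT hH (full h hnas hN hc hT hH)

end Cfsg.Agent.S3493
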