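import Cfsg.Statements.S3495
import Cfsg.Agent.Perm.ExtPrim

set_option autoImplicit false
open Cfsg

namespace Cfsg.Agent.S3495

open Cfsg.Lib.Perm Cfsg.Lib.Perm.Socle MulAction in
/-- Let a finite group G act faithfully and primitively on a finite set Ω with non-trivial point stabilizers, each acting primitively on every one of its orbits (an extremely primitive group), and suppose G has an elementary abelian normal p-subgroup N acting regularly on Ω (affine type). Then every non-trivial subgroup M of a point stabilizer G_α that is normal in G_α has the same orbits on Ω as G_α, and normalizes no subgroup of N other than 1 and N. -/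
theorem result {G : Type*} [Group G] [Finite G] {Ω : Type*} [Fintype Ω] [MulAction G Ω] [FaithfulSMul G Ω] (hprim : MulAction.IsPreprimitive G Ω) (hH : ∀ α : Ω, MulAction.stabilizer G α ≠ ⊥) (hep : ∀ (α : Ω) (ω : Ω), MulAction.IsPreprimitive (MulAction.stabilizer G α) (MulAction.orbit (MulAction.stabilizer G α) ω))
    (N : Subgroup G) [N.Normal] (hNc : IsMulCommutative N) (p : ℕ) (hp : p.Prime) (hNp : ∀ n ∈ N, n ^ p = 1)
    (hNtr : MulAction.IsPretransitive N Ω) (hNreg : ∀ ω : Ω, MulAction.stabilizer N ω = ⊥) (α : Ω) (M : Subgroup G) (hM : M ≠ ⊥) (hMle : M ≤ MulAction.stabilizer G α)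
    (hMn : MulAction.stabilizer G α ≤ Subgroup.normalizer (M : Set G)) :
    (∀ ω : Ω, MulAction.orbit M ω = MulAction.orbit (MulAction.stabilizer G α) ω) ∧
    (∀ L : Subgroup G, L ≤ N → M ≤ Subgroup.normalizer (L : Set G) → L = ⊥ ∨ L = N) := by
  have h := EP.of hprim hep
  have hn : ∀ g : G, g • α = α → ∀ m ∈ M, g * m * g⁻¹ ∈ M := fun g hg m hm => (hMn hg m).1 hm
  have hreg : ∀ n ∈ N, n • α = α → n = 1 := fun n hn' ha => by
    have : (⟨n, hn'⟩ : N) ∈ stabilizer N α := ha
    rw [hNreg, Subgroup.mem_bot] at this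
    exact congrArg Subtype.val this
  refine ⟨fun ω => Set.Subset.antisymm ?_ ?_, fun L hL hML => ?_⟩
  · rintro _ ⟨m, rfl⟩
    exact ⟨⟨m, hMle m.2⟩, rfl⟩
  · rintro _ ⟨g, rfl⟩
    obtain ⟨m, hm, e⟩ := h.trans_of_ne_bot hMle hn hM ω g.2
    exact ⟨⟨m, hm⟩, e⟩
  · have hLn : L.Normal := by
      refine ⟨fun l hl g => ?_⟩
      obtain ⟨n, hn'⟩ := hNtr.exists_smul_eq (g • α) α
      have hx : ((n : G) * g) • α = α := by rw [mul_smul]; exact hn'
      obtain ⟨m, hm, e⟩ := h.trans_of_ne_bot hMle hn hM (l • α) hx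
      have hmα : m⁻¹ • α = α := (stabilizer G α).inv_mem (hMle hm)
      have hxα : ((n : G) * g)⁻¹ • α = α := (stabilizer G α).inv_mem hx
      have h1 : m * l * m⁻¹ ∈ L := (hML hm l).1 hl
      have h2 : (n : G) * g * l * ((n : G) * g)⁻¹ ∈ N := ‹N.Normal›.conj_mem _ (hL hl) _
      have h3 := hreg _ (N.mul_mem (N.inv_mem (hL h1)) h2) (by
        rw [mul_smul, inv_smul_eq_iff, mul_smul _ _ α, hxα, mul_smul _ _ α, mul_smul _ _ α, hmα,
          mul_smul _ _ α, e])
      rw [inv_mul_eq_one] at h3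
      have h4 : g * l * g⁻¹ ∈ N := ‹N.Normal›.conj_mem _ (hL hl) _
      have h5 : (n : G) * (g * l * g⁻¹) = (g * l * g⁻¹) * n :=
        congrArg Subtype.val (hNc.is_comm.comm n ⟨_, h4⟩)
      have h6 : g * l * g⁻¹ = m * l * m⁻¹ := by
        rw [h3, show (n : G) * g * l * ((n : G) * g)⁻¹ = n * (g * l * g⁻¹) * (n : G)⁻¹ by group, h5]
        group
      rw [h6]
      exact h1
    by_cases h0 : L = ⊥
    · exact Or.inl h0
    · refine Or.inr (le_antisymm hL fun n hn' => ?_)
      obtain ⟨l, hl, e⟩ := exists_smul_of_normal hprim hLn h0 α (n • α)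
      have := hreg _ (N.mul_mem (N.inv_mem hn') (hL hl)) (by rw [mul_smul, e, inv_smul_smul])
      rw [inv_mul_eq_one] at this
      rwa [this]

end Cfsg.Agent.S3495
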