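import Cfsg.Statements.S3497
import Cfsg.Agent.Perm.ExtPrimAb
import Cfsg.Agent.Solv.ElemAb
import Cfsg.Agent.Solv.Fitting

set_option autoImplicit false
open Cfsg

namespace Cfsg.Agent.S3497

open Cfsg.Lib.Perm Cfsg.Lib.Perm.Socle MulAction in
/-- Restrictions on the point stabilizer of an extremely primitive group. Let a finite group G act faithfully and primitively on a finite set Ω with point stabilizers H = G_α whose order is neither 1 nor a prime, each acting primitively on every one of its orbits. Then H has trivial center, the Fitting subgroup F(H) is an elementary abelian p-group for some prime p, and if F(H) ≠ 1 has order p ^ e then p ^ e divides the number of points minus one and H / F(H) embeds in GL_e(p) (there is a homomorphism from H to GL_e(p) with kernel exactly F(H)). -/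
theorem result {G : Type*} [Group G] [Finite G] {Ω : Type*} [Fintype Ω] [MulAction G Ω] [FaithfulSMul G Ω] (hprim : MulAction.IsPreprimitive G Ω) (hep : ∀ (α : Ω) (ω : Ω), MulAction.IsPreprimitive (MulAction.stabilizer G α) (MulAction.orbit (MulAction.stabilizer G α) ω)) (α : Ω)
    (hH1 : MulAction.stabilizer G α ≠ ⊥) (hHp : ¬ (Nat.card (MulAction.stabilizer G α)).Prime) :
    Subgroup.center (MulAction.stabilizer G α) = ⊥ ∧
    IsMulCommutative (Cfsg.fittingSubgroup (MulAction.stabilizer G α)) ∧
    ∃ p e : ℕ, p.Prime ∧ Nat.card (Cfsg.fittingSubgroup (MulAction.stabilizer G α)) = p ^ e ∧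
      (∀ x ∈ Cfsg.fittingSubgroup (MulAction.stabilizer G α), x ^ p = 1) ∧
      (Cfsg.fittingSubgroup (MulAction.stabilizer G α) ≠ ⊥ →
        p ^ e ∣ Fintype.card Ω - 1 ∧
        ∃ φ : MulAction.stabilizer G α →* GL (Fin e) (ZMod p), φ.ker = Cfsg.fittingSubgroup (MulAction.stabilizer G α)) := by
  have h := EP.of hprim hep
  have hcen : Subgroup.center (stabilizer G α) = ⊥ := by
    by_contra h0
    have hc : ∀ x ∈ Subgroup.center (stabilizer G α), ∀ y ∈ Subgroup.center (stabilizer G α),
        x * y = y * x := fun x _ y hy => Subgroup.mem_center_iff.1 hy x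
    obtain ⟨b, hb⟩ := exists_ne_of_stabilizer hH1
    have hb0 : stabilizer G α ⊓ stabilizer G b = ⊥ := by
      rw [eq_bot_iff]
      intro k hk
      refine h.eq_one_of_comm hb (map_stab_le _) (map_stab_norm _) (map_stab_ne h0) hk.1 hk.2 ?_
      rintro _ ⟨m, hm, rfl⟩
      exact congrArg Subtype.val (Subgroup.mem_center_iff.1 hm ⟨k, hk.1⟩).symm
    refine hHp (card_prime_of_min hH1 fun X hX => ?_)
    have := h.max α b X (by rw [hb0]; exact bot_le) hX
    rwa [hb0] at this
  refine ⟨hcen, ?_⟩
  by_cases hF : Cfsg.fittingSubgroup (stabilizer G α) = ⊥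
  · rw [hF]
    refine ⟨inferInstance, 2, 0, Nat.prime_two, by simp, ?_, fun h => absurd rfl h⟩
    intro x hx
    rw [Subgroup.mem_bot.1 hx, one_pow]
  obtain ⟨A, hA, hAF⟩ := exists_minN _ hF
  have := hA.normal
  have hFC := Cfsg.Lib.Solv.fitting_le_centralizer_of_minimal_normal hA.min
  have hc : ∀ x ∈ A, ∀ y ∈ A, x * y = y * x := fun x hx y hy => hFC (hAF hy) x hx
  have hCA := h.centralizer_le hA.ne hc
  have hFA : Cfsg.fittingSubgroup (stabilizer G α) = A := le_antisymm (hFC.trans hCA) hAF
  have hcomm : IsMulCommutative A := ⟨⟨fun x y => Subtype.ext (hc _ x.2 _ y.2)⟩⟩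
  obtain ⟨p, hp, hexp⟩ := exists_prime_pow_eq_one_of_minNormal A hA.ne hA.min hcomm
  have := Fact.mk hp
  have : Cfsg.Lib.Solv.ElemAb p A := Cfsg.Lib.Solv.ElemAb.of_subgroup hexp
  obtain ⟨e, he⟩ := (Cfsg.Lib.Solv.ElemAb.isPGroup p A).exists_card_eq
  rw [hFA]
  refine ⟨hcomm, p, e, hp, he, hexp, fun _ => ⟨?_, ?_⟩⟩
  · have := h.card_dvd (map_stab_le A) (map_stab_norm A) (map_stab_ne hA.ne) (map_stab_comm hc)
    rwa [Subgroup.card_map_of_injective (Subgroup.subtype_injective _), he,
      Nat.card_eq_fintype_card] at this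
  · obtain ⟨φ⟩ := Cfsg.Lib.Solv.Vec.nonempty_autEquivGL he
    refine ⟨φ.toMonoidHom.comp MulAut.conjNormal, ?_⟩
    ext x
    rw [MonoidHom.mem_ker, MonoidHom.comp_apply, MulEquiv.coe_toMonoidHom, map_eq_one_iff _ φ.injective]
    constructor
    · intro hx
      refine hCA fun m hm => ?_
      have := congrArg (fun f : MulAut A => ((f ⟨m, hm⟩ : A) : stabilizer G α)) hx
      simp only [MulAut.conjNormal_apply, MulAut.one_apply] at this
      rw [mul_inv_eq_iff_eq_mul] at this
      exact this.symm
    · intro hx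
      ext m
      rw [MulAut.conjNormal_apply, hc x hx m m.2]
      simp

end Cfsg.Agent.S3497
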