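import Cfsg.Statements.S3498
import Cfsg.Agent.S0042
import Cfsg.Agent.Solv.SylowNumber

set_option autoImplicit false
open Cfsg

namespace Cfsg.Agent.S3498

open Pointwise in
/-- A maximal subgroup of a finite almost simple group does not have prime order. Here G is almost simple in the sense that it has a non-abelian simple normal subgroup T with trivial centralizer. -/
theorem result {G : Type*} [Group G] [Finite G] (T : Subgroup G) [T.Normal] (hT : IsSimpleGroup T) (hTc : ¬ IsMulCommutative T)
    (hC : Subgroup.centralizer (T : Set G) = ⊥) (H : Subgroup G) (hmax : IsCoatom H) : ¬ (Nat.card H).Prime := by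
  intro hp
  have key : ∀ K : Subgroup G, K.Normal → K ≠ ⊥ → T ≤ K := by
    intro K hK h0
    rcases hT.eq_bot_or_eq_top_of_normal (K.subgroupOf T) inferInstance with h | h
    · refine absurd ?_ h0
      rw [eq_bot_iff, ← hC]
      intro k hk t ht
      exact (Subgroup.commute_of_normal_of_disjoint T K inferInstance hK
        (by rw [disjoint_comm]; exact Subgroup.subgroupOf_eq_bot.1 h) t k ht hk)
    · exact Subgroup.subgroupOf_eq_top.1 h
  have := Fact.mk hp
  have hH0 : H ≠ ⊥ := fun e => by
    rw [e, Subgroup.card_bot] at hp
    exact Nat.not_prime_one hp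
  have hns : ∀ K : Subgroup G, T ≤ K → ¬ Group.IsSolvable K := fun K hK hs => by
    have : Group.IsSolvable T :=
      Group.isSolvable_of_isSolvable_injective (Subgroup.inclusion_injective hK)
    exact hTc ⟨⟨IsSimpleGroup.comm_iff_isSolvable.2 this⟩⟩
  have hF : Cfsg.IsFrobeniusComplement H := by
    refine ⟨hH0, hmax.1, fun g hg => ?_⟩
    rcases Subgroup.eq_bot_or_eq_top_of_prime_card
      ((H ⊓ (MulAut.conj g • H)).subgroupOf H) with h | h
    · exact (Subgroup.subgroupOf_eq_bot.1 h).eq_bot_of_le inf_le_left
    · exfalso
      have hle : H ≤ MulAut.conj g • H := (Subgroup.subgroupOf_eq_top.1 h).trans inf_le_right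
      have hg' : g⁻¹ ∈ Subgroup.normalizer (H : Set G) :=
        Subgroup.mem_normalizer_fintype fun x hx => by
          have := hle hx
          rw [Subgroup.mem_pointwise_smul_iff_inv_smul_mem] at this
          simpa [MulAut.smul_def] using this
      have htop : Subgroup.normalizer (H : Set G) = ⊤ :=
        hmax.2 _ (lt_of_le_of_ne Subgroup.le_normalizer fun e => hg (by
          rw [← e] at hg'
          exact H.inv_mem_iff.1 hg'))
      have hn : H.Normal := Subgroup.normalizer_eq_top_iff.1 htop
      have : IsCyclic H := isCyclic_of_prime_card rfl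
      exact hns H (key H hn hH0) (Group.isSolvable_of_comm fun a b =>
        (IsCyclic.isMulCommutative (α := H)).is_comm.comm a b)
  obtain ⟨N, hN, hNn, hnil⟩ := Cfsg.Agent.S0042.result H hF
  refine hns N (key N hNn fun e => ?_) inferInstance
  obtain ⟨x, hx⟩ := Cfsg.Lib.Solv.exists_forall_not_mem_conj_smul hmax.1
  have : x ∈ (N : Set G) := by rw [hN]; exact Or.inr hx
  rw [e] at this
  apply hx 1
  rw [show x = 1 from this]
  exact one_mem _

end Cfsg.Agent.S3498
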