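import Cfsg.Statements.S3504

set_option autoImplicit false
open Cfsg

namespace Cfsg.Agent.S3504

open Equiv Equiv.Perm

theorem cycleType_eq {n : ℕ} {g : Perm (Fin n)} (hp : (orderOf g).Prime) (hg : ∀ i, g i ≠ i) :
    orderOf g ∣ n ∧ g.cycleType = Multiset.replicate (n / orderOf g) (orderOf g) := by
  obtain ⟨k, hk⟩ := cycleType_prime_order hp
  have h1 := sum_cycleType g
  rw [hk, Finset.eq_univ_of_forall fun i => mem_support.mpr (hg i)] at h1
  simp only [Multiset.sum_replicate, smul_eq_mul, Finset.card_univ, Fintype.card_fin] at h1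
  refine ⟨Dvd.intro_left _ h1, ?_⟩
  rw [Nat.div_eq_of_eq_mul_left hp.pos h1.symm]
  exact hk

theorem exists_der {n p : ℕ} (hn : 0 < n) (hp : p.Prime) (hd : p ∣ n) :
    ∃ g : Perm (Fin n), orderOf g = p ∧ ∀ i, g i ≠ i := by
  obtain ⟨k, rfl⟩ := hd
  obtain ⟨g, hg⟩ := (exists_with_cycleType_iff (Fin (p * k))
    (m := Multiset.replicate k p)).mpr ⟨by simp [mul_comm], fun a ha => by
      rw [Multiset.eq_of_mem_replicate ha]; exact hp.two_le⟩
  refine ⟨g, ?_, fun i => ?_⟩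
  · rw [← lcm_cycleType, hg]
    obtain ⟨j, rfl⟩ := Nat.exists_eq_succ_of_ne_zero (n := k) (by rintro rfl; simp at hn)
    refine Nat.dvd_antisymm (Multiset.lcm_dvd.mpr fun b hb => ?_) (Multiset.dvd_lcm (by simp))
    rw [Multiset.eq_of_mem_replicate hb]
  · rw [← mem_support, Finset.eq_univ_of_card g.support (by simp [← sum_cycleType, hg, mul_comm])]
    exact Finset.mem_univ _


/-- For n ≥ 5, the fixed-point-free permutations of prime order in the symmetric group of degree n form a single conjugacy class if and only if n is a prime power. -/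
theorem result (n : ℕ) (hn : 5 ≤ n) :
    Nat.card {c : ConjClasses (Equiv.Perm (Fin n)) // ∃ g : Equiv.Perm (Fin n), ConjClasses.mk g = c ∧ (orderOf g).Prime ∧ ∀ i : Fin n, g i ≠ i} = 1 ↔ IsPrimePow n := by
  rw [isPrimePow_iff_unique_prime_dvd, Nat.card_eq_one_iff_unique]
  constructor
  · rintro ⟨h, -⟩
    obtain ⟨p, hp⟩ := Nat.exists_prime_and_dvd (n := n) (by omega)
    refine ⟨p, hp, fun q hq => ?_⟩
    obtain ⟨g, hg, hg'⟩ := exists_der (by omega) hp.1 hp.2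
    obtain ⟨k, hk, hk'⟩ := exists_der (by omega) hq.1 hq.2
    have h1 := congrArg Subtype.val (h.elim ⟨_, g, rfl, hg ▸ hp.1, hg'⟩ ⟨_, k, rfl, hk ▸ hq.1, hk'⟩)
    rw [← hg, ← hk, ← lcm_cycleType, ← lcm_cycleType,
      isConj_iff_cycleType_eq.mp (ConjClasses.mk_eq_mk_iff_isConj.mp h1)]
  · rintro ⟨p, hp, h⟩
    obtain ⟨g, hg, hg'⟩ := exists_der (by omega) hp.1 hp.2
    refine ⟨⟨?_⟩, ⟨⟨_, g, rfl, hg ▸ hp.1, hg'⟩⟩⟩
    rintro ⟨_, a, rfl, ha, ha'⟩ ⟨_, b, rfl, hb, hb'⟩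
    refine Subtype.ext (ConjClasses.mk_eq_mk_iff_isConj.mpr (isConj_iff_cycleType_eq.mpr ?_))
    rw [(cycleType_eq ha ha').2, (cycleType_eq hb hb').2, h _ ⟨ha, (cycleType_eq ha ha').1⟩,
      h _ ⟨hb, (cycleType_eq hb hb').1⟩]

end Cfsg.Agent.S3504
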