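import Cfsg.Statements.S3508

set_option autoImplicit false
open Cfsg

namespace Cfsg.Agent.S3508

open scoped IsMulCommutative
open Polynomial in
theorem geom_sum_eq {p : ℕ} [Fact p.Prime] (k : ℕ) :
    ∑ i ∈ Finset.range (p ^ k), (X : (ZMod p)[X]) ^ i = (X - 1) ^ (p ^ k - 1) := by
  have h : (X - 1 : (ZMod p)[X]) ≠ 0 := X_sub_C_ne_zero 1
  apply mul_right_cancel₀ h
  rw [geom_sum_mul, ← pow_succ, Nat.sub_add_cancel (Nat.one_le_pow _ _ (Fact.out : p.Prime).pos),
    sub_pow_char_pow, one_pow]

theorem linear_part {p : ℕ} [Fact p.Prime] {V : Type*} [AddCommGroup V] [Module (ZMod p) V]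
    [Module.Finite (ZMod p) V] (A : Module.End (ZMod p) V) {r k : ℕ} (hA : A ^ p ^ r = 1)
    (hk : Module.finrank (ZMod p) V < p ^ k) :
    ∑ i ∈ Finset.range (p ^ k), A ^ i = 0 := by
  have h1 := congrArg (Polynomial.aeval A) (geom_sum_eq (p := p) k)
  have h2 := congrArg (Polynomial.aeval A)
    (sub_pow_char_pow (p := p) (n := r) (Polynomial.X : Polynomial (ZMod p)) 1)
  simp only [map_sum, map_pow, map_sub, Polynomial.aeval_X, map_one, hA, one_pow, sub_self] at h1 h2
  rw [h1]
  have h3 := (LinearMap.isNilpotent_iff_charpoly _).mp ⟨_, h2⟩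
  have h4 := (A - 1).aeval_self_charpoly
  rw [h3, map_pow, Polynomial.aeval_X] at h4
  exact pow_eq_zero_of_le (by omega) h4

theorem sum_eq_zero {p : ℕ} [Fact p.Prime] {M : Type*} [AddCommGroup M] [Finite M]
    [Module (ZMod p) M] {m r k : ℕ} (hcard : Nat.card M = p ^ m) (φ : M →+ M)
    (hφ : ∀ x, φ^[p ^ r] x = x) (hk : m < p ^ k) (x : M) :
    ∑ i ∈ Finset.range (p ^ k), φ^[i] x = 0 := by
  have hrank : Module.finrank (ZMod p) M = m := by
    apply Nat.pow_right_injective (Fact.out : p.Prime).two_le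
    have := Module.natCard_eq_pow_finrank (K := ZMod p) (V := M)
    rw [Nat.card_zmod] at this
    exact this.symm.trans hcard
  let A : Module.End (ZMod p) M := φ.toZModLinearMap p
  have hA : ∀ (i : ℕ) (x : M), (A ^ i) x = φ^[i] x := fun i x => Module.End.pow_apply _ _ _
  have h2 := linear_part A (r := r) (k := k) (LinearMap.ext fun x => by
    rw [hA, hφ]
    rfl) (hrank ▸ hk)
  have h3 := LinearMap.congr_fun h2 x
  rw [LinearMap.sum_apply] at h3
  simpa only [hA, LinearMap.zero_apply] using h3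

theorem prod_eq_one {p : ℕ} [Fact p.Prime] {M : Type*} [CommGroup M] [Finite M]
    (hM : ∀ x : M, x ^ p = 1) {m r k : ℕ} (hcard : Nat.card M = p ^ m) (φ : M →* M)
    (hφ : ∀ x, φ^[p ^ r] x = x) (hk : m < p ^ k) (x : M) :
    ∏ i ∈ Finset.range (p ^ k), φ^[i] x = 1 :=
  haveI : Module (ZMod p) (Additive M) := AddCommGroup.zmodModule hM
  sum_eq_zero (M := Additive M) hcard φ.toAdditive hφ hk x


/-- Let a finite group G act faithfully on a set Ω with p ^ m points (p prime) and have an elementary abelian normal p-subgroup N acting regularly on Ω (so G is a group of affine transformations of an m-dimensional space over the field with p elements). If G contains an element of order p ^ r with r ≥ 1, then p ^ (r − 1) ≤ m. In particular an element of order p ^ m forces m ≤ 2, and m ≤ 1 when p is odd. -/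
theorem result {G : Type*} [Group G] [Finite G] {Ω : Type*} [Fintype Ω] [MulAction G Ω] [FaithfulSMul G Ω] (p m : ℕ) (hp : p.Prime) (hcard : Fintype.card Ω = p ^ m)
    (N : Subgroup G) [N.Normal] (hNc : IsMulCommutative N) (hNp : ∀ n ∈ N, n ^ p = 1)
    (hNtr : MulAction.IsPretransitive N Ω) (hNreg : ∀ ω : Ω, MulAction.stabilizer N ω = ⊥)
    (g : G) (r : ℕ) (hr : 1 ≤ r) (hg : orderOf g = p ^ r) :
    p ^ (r - 1) ≤ m ∧ (r = m → m ≤ 2 ∧ (2 < p → m ≤ 1)) := by
  have := Fact.mk hp
  have h1 : p ^ (r - 1) ≤ m := by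
    by_contra! hlt
    obtain ⟨ω⟩ : Nonempty Ω := Fintype.card_pos_iff.mp (hcard ▸ pow_pos hp.pos m)
    have hN : Nat.card N = p ^ m := by
      rw [← hcard, ← Nat.card_eq_fintype_card, ← MulAction.index_stabilizer_of_transitive N ω,
        hNreg, Subgroup.index_bot]
    let φ : N →* N := (MulAut.conjNormal (H := N) g).toMonoidHom
    have hA : ∀ (i : ℕ) (x : N), (φ^[i] x : G) = g ^ i * x * (g ^ i)⁻¹ := by
      intro i x
      induction i with
      | zero => simp
      | succ i ih =>
        rw [Function.iterate_succ_apply']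
        change g * (φ^[i] x : G) * g⁻¹ = _
        rw [ih]
        group
    have h2 := prod_eq_one (fun x : N => Subtype.ext (hNp _ x.2)) hN φ (r := r) (k := r - 1)
      (fun x => Subtype.ext (by rw [hA, ← hg, pow_orderOf_eq_one]; simp)) hlt
    have h3 : ∀ (x : N) (j : ℕ), ((x : G) * g) ^ j =
        ((∏ i ∈ Finset.range j, φ^[i] x : N) : G) * g ^ j := by
      intro x j
      induction j with
      | zero => simp
      | succ j ih =>
        rw [pow_succ, ih, Finset.prod_range_succ, Subgroup.coe_mul, hA]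
        group
    have h4 : g ^ p ^ (r - 1) = 1 := by
      refine eq_of_smul_eq_smul (α := Ω) fun a => ?_
      obtain ⟨x, hx⟩ := hNtr.exists_smul_eq (g • a) a
      have h5 : ((x : G) * g) ^ p ^ (r - 1) ∈ MulAction.stabilizer G a :=
        pow_mem (by rwa [MulAction.mem_stabilizer_iff, mul_smul]) _
      rw [h3, h2] at h5
      simpa using h5
    have h5 := Nat.le_of_dvd (pow_pos hp.pos _) (hg ▸ orderOf_dvd_of_pow_eq_one h4)
    rw [Nat.pow_le_pow_iff_right hp.one_lt] at h5
    omega
  refine ⟨h1, ?_⟩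
  rintro rfl
  have h2 : ∀ q, 2 ≤ q → 2 ≤ r → q ≤ p → q * (r - 1) ≤ r := by
    intro q hq hr2 hqp
    obtain ⟨s, rfl⟩ := Nat.exists_eq_add_of_le' hr2
    have h3 : s < p ^ s := Nat.lt_pow_self hp.one_lt
    rw [show s + 2 - 1 = s + 1 from rfl, pow_succ'] at h1
    exact (Nat.mul_le_mul hqp h3).trans h1
  constructor
  · by_contra h
    have := h2 2 le_rfl (by omega) hp.two_le
    omega
  · intro h3
    by_contra h
    have := h2 3 (by omega) (by omega) h3
    omega

end Cfsg.Agent.S3508
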