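import Cfsg.Statements.S3511

set_option autoImplicit false
open Cfsg

namespace Cfsg.Agent.S3511

open UniqueFactorizationMonoid


/-- Let a finite group G act faithfully on a set Ω. If every element of G of square-free order has a regular cycle (an orbit of the cyclic group it generates with trivial stabilizer), then every element of G has a regular cycle. -/
theorem result {G : Type*} [Group G] [Finite G] {Ω : Type*} [MulAction G Ω] [FaithfulSMul G Ω]
    (h : ∀ g : G, Squarefree (orderOf g) → ∃ ω : Ω, MulAction.stabilizer (Subgroup.zpowers g) ω = ⊥) (g : G) :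
    ∃ ω : Ω, MulAction.stabilizer (Subgroup.zpowers g) ω = ⊥ := by
  have h0 : orderOf g ≠ 0 := (orderOf_pos g).ne'
  obtain ⟨m, hm⟩ : radical (orderOf g) ∣ orderOf g := radical_dvd_self
  have hm0 : m ≠ 0 := by
    rintro rfl
    exact h0 hm
  have h1 : orderOf (g ^ m) = radical (orderOf g) := by
    rw [orderOf_pow_of_dvd hm0 (Dvd.intro_left _ hm.symm)]
    exact Nat.div_eq_of_eq_mul_left (Nat.pos_of_ne_zero hm0) hm
  obtain ⟨ω, hω⟩ := h (g ^ m) (h1 ▸ squarefree_radical)
  refine ⟨ω, ?_⟩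
  by_contra hne
  obtain ⟨p, hp, hpd⟩ := Nat.exists_prime_and_dvd
    (n := Nat.card (MulAction.stabilizer (Subgroup.zpowers g) ω))
    (fun h => hne (Subgroup.card_eq_one.mp h))
  have := Fact.mk hp
  obtain ⟨⟨⟨x, hx⟩, hxω⟩, hc⟩ := exists_prime_orderOf_dvd_card' p hpd
  rw [← Subgroup.orderOf_coe, ← Subgroup.orderOf_coe] at hc
  change orderOf x = p at hc
  have h2 : x ∈ Subgroup.zpowers (g ^ m) := by
    obtain ⟨j, rfl⟩ := (mem_powers_iff_mem_zpowers.mpr hx : x ∈ Submonoid.powers g)
    have h3 : orderOf g ∣ j * p := by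
      rw [orderOf_dvd_iff_pow_eq_one, pow_mul, ← hc, pow_orderOf_eq_one]
    have h4 : p ∣ radical (orderOf g) := by
      rw [dvd_radical_iff_of_irreducible hp.prime.irreducible h0, ← hc]
      exact orderOf_pow_dvd j
    obtain ⟨r, hr⟩ := h4
    have h5 : m ∣ j := by
      rw [hm, hr, mul_comm j, mul_assoc, Nat.mul_dvd_mul_iff_left hp.pos] at h3
      exact (Dvd.intro_left r rfl).trans h3
    obtain ⟨s, rfl⟩ := h5
    exact ⟨s, by simp [pow_mul]⟩
  have h3 : (⟨x, h2⟩ : Subgroup.zpowers (g ^ m)) = 1 := (Subgroup.eq_bot_iff_forall _).mp hω _ hxω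
  rw [show x = 1 from congrArg Subtype.val h3, orderOf_one] at hc
  exact hp.one_lt.ne hc

end Cfsg.Agent.S3511
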