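import Cfsg.Statements.S3514

set_option autoImplicit false
open Cfsg

namespace Cfsg.Agent.S3514

open MulAction Subgroup

theorem relIndex_dvd {Γ : Type*} [Group Γ] [Finite Γ] (K S : Subgroup Γ) [K.Normal] :
    S.relIndex K ∣ S.index := by
  obtain ⟨t, ht⟩ := relIndex_dvd_index_of_normal K S
  have h1 := relIndex_mul_index (inf_le_left : K ⊓ S ≤ K)
  have h2 := relIndex_mul_index (inf_le_right : K ⊓ S ≤ S)
  rw [inf_relIndex_left, ht] at h1
  rw [inf_relIndex_right] at h2
  refine ⟨t, Nat.eq_of_mul_eq_mul_left (Nat.pos_of_ne_zero index_ne_zero_of_finite :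
    0 < K.relIndex S) ?_⟩
  rw [h2, ← h1]
  ring

theorem card_eq {Γ V : Type*} [Group Γ] [MulAction Γ V] (H : Subgroup Γ) (v : V) :
    Nat.card {u : V | ∃ h ∈ H, h • v = u} = (stabilizer Γ v).relIndex H := by
  rw [show {u : V | ∃ h ∈ H, h • v = u} = orbit H v from
    Set.ext fun u => ⟨fun ⟨h, h1, h2⟩ => ⟨⟨h, h1⟩, h2⟩, fun ⟨⟨h, h1⟩, h2⟩ => ⟨h, h1, h2⟩⟩,
    Nat.card_coe_set_eq, ← index_stabilizer]
  rfl


/-- Let p be a prime, V a finite vector space over the field with p elements, and H a group of linear transformations of V all of whose orbits on V have size coprime to p. (i) Every normal subgroup K of H has all its orbits on V of size coprime to p. (ii) If N is a group of linear transformations of V of order coprime to p that is normalized by H, then the group generated by N and H has all its orbits on V of size coprime to p. -/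
theorem result (p : ℕ) [Fact p.Prime] {V : Type*} [AddCommGroup V] [Module (ZMod p) V] [Finite V]
    (H : Subgroup (V ≃ₗ[ZMod p] V)) (hH : ∀ v : V, ¬ p ∣ Nat.card {u : V | ∃ h ∈ H, h v = u}) :
    (∀ K : Subgroup (V ≃ₗ[ZMod p] V), K ≤ H → H ≤ Subgroup.normalizer (K : Set (V ≃ₗ[ZMod p] V)) →
        ∀ v : V, ¬ p ∣ Nat.card {u : V | ∃ k ∈ K, k v = u}) ∧
    (∀ N : Subgroup (V ≃ₗ[ZMod p] V), ¬ p ∣ Nat.card N → H ≤ Subgroup.normalizer (N : Set (V ≃ₗ[ZMod p] V)) →
        ∀ v : V, ¬ p ∣ Nat.card {u : V | ∃ x ∈ N ⊔ H, x v = u}) := by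
  have : Finite (V ≃ₗ[ZMod p] V) := Finite.of_injective _ DFunLike.coe_injective
  simp only [← LinearEquiv.smul_def, card_eq] at hH ⊢
  constructor
  · intro K hKH hn v h
    have := normal_subgroupOf_of_le_normalizer hn
    have h1 := relIndex_dvd (K.subgroupOf H) ((stabilizer _ v).subgroupOf H)
    rw [relIndex_subgroupOf hKH] at h1
    exact hH v (h.trans h1)
  · intro N hN hn v h
    have := normal_subgroupOf_of_le_normalizer (sup_le le_normalizer hn : N ⊔ H ≤ _)
    have h1 : H.relIndex (N ⊔ H) ∣ Nat.card N := by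
      have h2 := relIndex_mul_relIndex (N ⊓ H) N (N ⊔ H) inf_le_left le_sup_left
      have h3 := relIndex_mul_relIndex (N ⊓ H) H (N ⊔ H) inf_le_right le_sup_right
      have h4 := relIndex_sup_right (H.subgroupOf (N ⊔ H)) (N.subgroupOf (N ⊔ H))
      rw [← subgroupOf_sup le_sup_right le_sup_left, sup_comm H, relIndex_subgroupOf le_rfl,
        relIndex_subgroupOf le_sup_right] at h4
      rw [← h3, h4, inf_relIndex_right, mul_comm] at h2
      rw [← Nat.eq_of_mul_eq_mul_left (Nat.pos_of_ne_zero index_ne_zero_of_finite) h2]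
      exact relIndex_dvd_card _ _
    have h2 := relIndex_mul_relIndex (stabilizer _ v ⊓ H) H (N ⊔ H) inf_le_right le_sup_right
    have h3 := relIndex_dvd_of_le_left (N ⊔ H) (inf_le_left : stabilizer _ v ⊓ H ≤ _)
    rw [← h2, inf_relIndex_right] at h3
    rcases (Nat.Prime.dvd_mul Fact.out).mp (h.trans h3) with h4 | h4
    · exact hH v h4
    · exact hN (h4.trans h1)

end Cfsg.Agent.S3514
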