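import Cfsg.Statements.S3515
import Cfsg.Agent.Perm.Closure

set_option autoImplicit false
open Cfsg

namespace Cfsg.Agent.S3515

open Cfsg.Lib.Perm

theorem cases_two : ∀ x : Fin 2 → ZMod 2,
    x = 0 ∨ x = Pi.single 0 1 ∨ x = Pi.single 1 1 ∨ x = 1 := by
  decide


/-- Every primitive affine permutation group of degree p² is 3-closed. Let p be a prime and G a group of permutations of the plane V = F_p² consisting of affine maps x ↦ Ax + b, containing all translations, and acting primitively on V. Then any permutation σ of V that agrees on every triple of points with some element of G (σ preserves every G-orbit on ordered triples) already lies in G. -/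
theorem result (p : ℕ) [Fact p.Prime] (G : Subgroup (Equiv.Perm (Fin 2 → ZMod p)))
    (haff : (G : Set (Equiv.Perm (Fin 2 → ZMod p))) ⊆ {τ : Equiv.Perm (Fin 2 → ZMod p) | ∃ (A : (Fin 2 → ZMod p) ≃ₗ[ZMod p] (Fin 2 → ZMod p)) (b : Fin 2 → ZMod p), ∀ x, τ x = A x + b})
    (htrans : ∀ b : Fin 2 → ZMod p, ∃ g ∈ G, ∀ x, g x = x + b) (hprim : MulAction.IsPreprimitive G (Fin 2 → ZMod p))
    (σ : Equiv.Perm (Fin 2 → ZMod p)) (hσ : (∀ t : Fin 3 → (Fin 2 → ZMod p), ∃ g ∈ G, ∀ i, σ (t i) = g (t i))) : σ ∈ G := by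
  obtain ⟨g, hg, h1⟩ := hσ ![0, Pi.single 0 1, Pi.single 1 1]
  have h10 : σ 0 = g 0 := h1 0
  have h11 : σ (Pi.single 0 1) = g (Pi.single 0 1) := h1 1
  have h12 : σ (Pi.single 1 1) = g (Pi.single 1 1) := h1 2
  suffices σ = g from this ▸ hg
  by_cases hp : p = 2
  · subst hp
    have h2 := cases_two
    have h3 : ∀ x, x ≠ 1 → σ x = g x := by
      intro x hx
      rcases h2 x with rfl | rfl | rfl | rfl
      exacts [h10, h11, h12, absurd rfl hx]
    ext1 x
    by_cases hx : x = 1
    · subst hx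
      obtain ⟨y, hy⟩ := g.surjective (σ 1)
      by_cases hy1 : y = 1
      · rw [← hy, hy1]
      · exact absurd (σ.injective ((h3 y hy1).trans hy)) hy1
    · exact h3 x hx
  obtain ⟨A, b, hA⟩ := affine_of_triples (K := ZMod p) (fun h => hp ((Nat.prime_dvd_prime_iff_eq
    Fact.out Nat.prime_two).mp ((ZMod.natCast_eq_zero_iff 2 p).mp h))) σ fun t => by
      obtain ⟨k, hk, h2⟩ := hσ t
      obtain ⟨A, b, hA⟩ := haff hk
      exact ⟨A, b, fun i => (h2 i).trans (hA _)⟩
  obtain ⟨B, c, hB⟩ := haff hg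
  simp only [hA, hB, map_zero, zero_add] at h10 h11 h12
  subst h10
  have : (A : (Fin 2 → ZMod p) →ₗ[ZMod p] (Fin 2 → ZMod p)) = B := by
    refine (Pi.basisFun (ZMod p) (Fin 2)).ext fun i => ?_
    fin_cases i
    · simpa using h11
    · simpa using h12
  ext1 x
  rw [hA, hB]
  exact congrArg (· + b) (LinearMap.congr_fun this x)

end Cfsg.Agent.S3515
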