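import Cfsg.Statements.S3516
import Cfsg.Agent.Perm.Closure

set_option autoImplicit false
open Cfsg

namespace Cfsg.Agent.S3516

open Cfsg.Lib.Perm


/-- Let p be an odd prime, d ≥ 3, and G a group of affine permutations x ↦ Ax + b of V = F_p^d containing all translations and all maps x ↦ Ax with A of determinant 1. Then the 3-closure of G is the full affine group: a permutation σ of V agrees on every triple of points with some element of G if and only if σ is an affine map. -/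
theorem result (p : ℕ) [Fact p.Prime] (hp : p ≠ 2) (d : ℕ) (hd : 3 ≤ d) (G : Subgroup (Equiv.Perm (Fin d → ZMod p)))
    (haff : (G : Set (Equiv.Perm (Fin d → ZMod p))) ⊆ {τ : Equiv.Perm (Fin d → ZMod p) | ∃ (A : (Fin d → ZMod p) ≃ₗ[ZMod p] (Fin d → ZMod p)) (b : Fin d → ZMod p), ∀ x, τ x = A x + b})
    (htrans : ∀ b : Fin d → ZMod p, ∃ g ∈ G, ∀ x, g x = x + b)
    (hsl : ∀ A : (Fin d → ZMod p) ≃ₗ[ZMod p] (Fin d → ZMod p), LinearMap.det (A : (Fin d → ZMod p) →ₗ[ZMod p] (Fin d → ZMod p)) = 1 → ∃ g ∈ G, ∀ x, g x = A x)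
    (σ : Equiv.Perm (Fin d → ZMod p)) :
    (∀ t : Fin 3 → (Fin d → ZMod p), ∃ g ∈ G, ∀ i, σ (t i) = g (t i)) ↔ σ ∈ {τ : Equiv.Perm (Fin d → ZMod p) | ∃ (A : (Fin d → ZMod p) ≃ₗ[ZMod p] (Fin d → ZMod p)) (b : Fin d → ZMod p), ∀ x, τ x = A x + b} := by
  constructor
  · intro hσ
    exact affine_of_triples (K := ZMod p) (fun h => hp ((Nat.prime_dvd_prime_iff_eq
      Fact.out Nat.prime_two).mp ((ZMod.natCast_eq_zero_iff 2 p).mp h))) σ fun t => by
        obtain ⟨k, hk, h2⟩ := hσ t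
        obtain ⟨A, b, hA⟩ := haff hk
        exact ⟨A, b, fun i => (h2 i).trans (hA _)⟩
  · rintro ⟨A, b, hA⟩ t
    have h1 : Submodule.span (ZMod p) (Set.range ![t 1 - t 0, t 2 - t 0]) < ⊤ := by
      apply Submodule.lt_top_of_finrank_lt_finrank
      refine (finrank_range_le_card _).trans_lt ?_
      simp only [Fintype.card_fin, Module.finrank_fin_fun]
      omega
    obtain ⟨w, -, hw⟩ := SetLike.exists_of_lt h1
    obtain ⟨f, hfw, hf⟩ := Submodule.exists_le_ker_of_notMem hw
    have hf1 : f (t 1 - t 0) = 0 := hf (Submodule.subset_span ⟨0, rfl⟩)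
    have hf2 : f (t 2 - t 0) = 0 := hf (Submodule.subset_span ⟨1, rfl⟩)
    set c := LinearMap.det (A : (Fin d → ZMod p) →ₗ[ZMod p] (Fin d → ZMod p)) with hc
    have hc0 : c ≠ 0 := (LinearEquiv.isUnit_det' A).ne_zero
    have hD : LinearMap.det (LinearMap.transvection f (((c⁻¹ - 1) / f w) • w)) = c⁻¹ := by
      rw [LinearMap.transvection.det, map_smul, smul_eq_mul, div_mul_cancel₀ _ hfw]
      ring
    let D := LinearMap.equivOfIsUnitDet (hD ▸ (inv_ne_zero hc0).isUnit)
    obtain ⟨g, hg, hg'⟩ := hsl (D ≪≫ₗ A) (by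
      rw [LinearEquiv.coe_trans, LinearMap.det_comp, LinearMap.coe_equivOfIsUnitDet, hD,
        mul_inv_cancel₀ hc0])
    obtain ⟨k, hk, hk'⟩ := htrans (σ (t 0) - g (t 0))
    refine ⟨k * g, mul_mem hk hg, fun i => ?_⟩
    have h2 : f (t i - t 0) = 0 := by
      fin_cases i
      · simp
      · exact hf1
      · exact hf2
    have h3 : D (t i - t 0) = t i - t 0 := by
      rw [LinearMap.equivOfIsUnitDet_apply, LinearMap.transvection.apply, h2, zero_smul, add_zero]
    have h4 := congrArg A h3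
    rw [Equiv.Perm.mul_apply, hk', hg', hg', hA, hA]
    simp only [map_sub, LinearEquiv.trans_apply] at h4 ⊢
    linear_combination (exp := 1) -h4

end Cfsg.Agent.S3516
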