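import Cfsg.Statements.S3517
import Cfsg.Agent.Perm.Closure

set_option autoImplicit false
open Cfsg

namespace Cfsg.Agent.S3517

open Cfsg.Lib.Perm

theorem li_pair {V : Type*} [AddCommGroup V] [Module (ZMod 2) V] {u v : V} (hu : u ≠ 0)
    (hv : v ≠ 0) (huv : u ≠ v) : LinearIndependent (ZMod 2) ![u, v] := by
  rw [LinearIndependent.pair_iff' hu]
  intro a
  rcases (by decide : ∀ a : ZMod 2, a = 0 ∨ a = 1) a with rfl | rfl
  · simpa using hv.symm
  · simpa using huv

theorem exists_one {V : Type*} [AddCommGroup V] [Module (ZMod 2) V] {u u' : V}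
    (h : u = 0 ↔ u' = 0) : ∃ A : V ≃ₗ[ZMod 2] V, A u = u' := by
  by_cases hu : u = 0
  · exact ⟨LinearEquiv.refl _ _, by rw [h.mp hu, hu, map_zero]⟩
  · obtain ⟨A, hA⟩ := exists_linearEquiv_of_linearIndependent (K := ZMod 2)
      (u := fun _ : Unit => u) (v := fun _ : Unit => u') (linearIndependent_unique_iff.mpr hu)
      (linearIndependent_unique_iff.mpr (mt h.mpr hu))
    exact ⟨A, hA ()⟩


/-- For d ≥ 3, the 3-closure of the affine group AGL_d(2) acting on F_2^d is the full symmetric group: every permutation of F_2^d agrees on every ordered triple of points with some affine map (AGL_d(2) is 3-transitive). -/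
theorem result (d : ℕ) (hd : 3 ≤ d) (σ : Equiv.Perm (Fin d → ZMod 2)) (t : Fin 3 → (Fin d → ZMod 2)) :
    ∃ (A : (Fin d → ZMod 2) ≃ₗ[ZMod 2] (Fin d → ZMod 2)) (b : Fin d → ZMod 2), ∀ i, σ (t i) = A (t i) + b := by
  have h1 : ∀ i, t i - t 0 = 0 ↔ σ (t i) - σ (t 0) = 0 := fun i => by simp [sub_eq_zero]
  obtain ⟨A, hA1, hA2⟩ : ∃ A : (Fin d → ZMod 2) ≃ₗ[ZMod 2] (Fin d → ZMod 2),
      A (t 1 - t 0) = σ (t 1) - σ (t 0) ∧ A (t 2 - t 0) = σ (t 2) - σ (t 0) := by
    by_cases hu : t 1 - t 0 = 0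
    · obtain ⟨A, hA⟩ := exists_one (h1 2)
      exact ⟨A, by rw [(h1 1).mp hu, hu, map_zero], hA⟩
    by_cases hv : t 2 - t 0 = 0
    · obtain ⟨A, hA⟩ := exists_one (h1 1)
      exact ⟨A, hA, by rw [(h1 2).mp hv, hv, map_zero]⟩
    by_cases huv : t 1 = t 2
    · obtain ⟨A, hA⟩ := exists_one (h1 1)
      exact ⟨A, hA, huv ▸ hA⟩
    obtain ⟨A, hA⟩ := exists_linearEquiv_of_linearIndependent
      (li_pair hu hv (by simpa using huv))
      (li_pair (mt (h1 1).mpr hu) (mt (h1 2).mpr hv) (by simpa using huv))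
    exact ⟨A, hA 0, hA 1⟩
  refine ⟨A, σ (t 0) - A (t 0), fun i => ?_⟩
  rw [map_sub] at hA1 hA2
  fin_cases i
  · simp
  · simp only [Fin.mk_one]
    linear_combination (exp := 1) -hA1
  · simp only [Fin.reduceFinMk]
    linear_combination (exp := 1) -hA2

end Cfsg.Agent.S3517
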