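import Cfsg.Statements.S3518
import Cfsg.Agent.Perm.PrimeDeg2

set_option autoImplicit false
open Cfsg

namespace Cfsg.Agent.S3518

open Cfsg.Lib.Perm MulAction


/-- Closures of subgroups of the one-dimensional affine group. Let p be a prime and G a group of permutations of F_p lying in the affine group AGL₁(p) = {x ↦ ax + b, a ≠ 0} and containing all translations. (1) If G is a proper subgroup of AGL₁(p), then G is 2-closed: a permutation of F_p agreeing on every ordered pair of points with some element of G lies in G. (2) Every permutation of F_p agrees on every ordered pair with some element of AGL₁(p) (the 2-closure of AGL₁(p) is the symmetric group). (3) AGL₁(p) is 3-closed: a permutation agreeing on every ordered triple with some affine map is affine. -/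
theorem result (p : ℕ) [Fact p.Prime] (G : Subgroup (Equiv.Perm (ZMod p))) (hG : G ≤ Cfsg.affineGroup (ZMod p))
    (htrans : ∀ b : ZMod p, ∃ g ∈ G, ∀ x, g x = x + b) :
    (G ≠ Cfsg.affineGroup (ZMod p) → ∀ σ : Equiv.Perm (ZMod p), (∀ t : Fin 2 → ZMod p, ∃ g ∈ G, ∀ i, σ (t i) = g (t i)) → σ ∈ G) ∧
    (∀ σ : Equiv.Perm (ZMod p), (∀ t : Fin 2 → ZMod p, ∃ g ∈ Cfsg.affineGroup (ZMod p), ∀ i, σ (t i) = g (t i))) ∧
    (∀ σ : Equiv.Perm (ZMod p), (∀ t : Fin 3 → ZMod p, ∃ g ∈ Cfsg.affineGroup (ZMod p), ∀ i, σ (t i) = g (t i)) → σ ∈ Cfsg.affineGroup (ZMod p)) := by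
  refine ⟨fun hne σ hσ => ?_, fun σ t => ?_, fun σ hσ => ?_⟩
  · let C : Subgroup (Equiv.Perm (ZMod p)) :=
      { carrier := {τ | ∀ x y, ∃ g ∈ G, τ x = g x ∧ τ y = g y}
        one_mem' := fun x y => ⟨1, one_mem _, rfl, rfl⟩
        mul_mem' := by
          intro τ ρ hτ hρ x y
          obtain ⟨g, hg, h1, h2⟩ := hρ x y
          obtain ⟨k, hk, h3, h4⟩ := hτ (ρ x) (ρ y)
          exact ⟨k * g, mul_mem hk hg, by simp [← h1, h3], by simp [← h2, h4]⟩
        inv_mem' := by
          intro τ hτ x y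
          obtain ⟨g, hg, h1, h2⟩ := hτ (τ⁻¹ x) (τ⁻¹ y)
          refine ⟨g⁻¹, inv_mem hg, ?_, ?_⟩
          · rw [Equiv.Perm.eq_inv_iff_eq, ← h1]
            simp
          · rw [Equiv.Perm.eq_inv_iff_eq, ← h2]
            simp }
    have hσC : σ ∈ C := fun x y => by
      obtain ⟨g, hg, h⟩ := hσ ![x, y]
      exact ⟨g, hg, h 0, h 1⟩
    have key : ∀ τ : Equiv.Perm (ZMod p), ∀ a b : ZMod p, (∀ x, τ x = a * x + b) →
        (∃ g ∈ G, τ 0 = g 0 ∧ τ 1 = g 1) → τ ∈ G := by
      rintro τ a b hτ ⟨g, hg, h0, h1⟩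
      obtain ⟨c, d, hc⟩ := hG hg
      simp only [hτ, hc, mul_zero, zero_add, mul_one] at h0 h1
      subst h0
      have : τ = g := Equiv.ext fun x => by rw [hτ, hc, add_right_cancel h1]
      exact this ▸ hg
    obtain ⟨c, hc, hc'⟩ := htrans 1
    rcases isAffineIn_or_two_transitive (G := C) (c := c) (fun x y => ⟨c, hc, rfl, rfl⟩)
      (e := Equiv.refl _) hc' with h | h
    · obtain ⟨a, b, hab⟩ := h σ hσC
      exact key σ a b hab (hσC 0 1)
    · refine absurd (le_antisymm hG ?_) hne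
      rintro τ ⟨a, b, hτ⟩
      obtain ⟨⟨ρ, hρ⟩, h0, h1⟩ := is_two_pretransitive_iff.mp h (zero_ne_one (α := ZMod p))
        (τ.injective.ne zero_ne_one)
      obtain ⟨g, hg, h2, h3⟩ := hρ 0 1
      exact key τ a b hτ ⟨g, hg, h0.symm.trans h2, h1.symm.trans h3⟩
  · by_cases h : t 0 = t 1
    · refine ⟨Equiv.addRight (σ (t 0) - t 0), ⟨1, σ (t 0) - t 0, by simp⟩, fun i => ?_⟩
      fin_cases i <;> simp [h]
    · have h1 : t 1 - t 0 ≠ 0 := sub_ne_zero.mpr (Ne.symm h)
      have h2 : (σ (t 1) - σ (t 0)) / (t 1 - t 0) ≠ 0 :=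
        div_ne_zero (sub_ne_zero.mpr (σ.injective.ne (Ne.symm h))) h1
      refine ⟨(Equiv.mulLeft₀ _ h2).trans
        (Equiv.addRight (σ (t 0) - (σ (t 1) - σ (t 0)) / (t 1 - t 0) * t 0)),
        ⟨Units.mk0 _ h2, _, fun x => rfl⟩, fun i => ?_⟩
      fin_cases i
      · simp
      · simp only [Fin.mk_one, Equiv.trans_apply, Equiv.mulLeft₀_apply, Equiv.coe_addRight]
        field_simp
        ring
  · obtain ⟨g, ⟨a, b, hg⟩, h⟩ := hσ ![0, 1, 0]
    refine ⟨a, b, fun x => ?_⟩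
    obtain ⟨k, ⟨c, d, hk⟩, h'⟩ := hσ ![0, 1, x]
    have h0 := (h 0).symm.trans (h' 0)
    have h1 := (h 1).symm.trans (h' 1)
    have h2 : σ x = k x := h' 2
    simp only [Matrix.cons_val_zero, Matrix.cons_val_one, hg, hk, mul_zero, zero_add,
      mul_one] at h0 h1
    subst h0
    rw [h2, hk, add_right_cancel h1]

end Cfsg.Agent.S3518
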