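import Cfsg.Statements.S3521
import Cfsg.Agent.Perm.ExtPrimAb
import Cfsg.Agent.Char.FrobWielandt
import Cfsg.Agent.S3493

set_option autoImplicit false
open Cfsg

namespace Cfsg.Agent.S3521

set_option linter.unusedSectionVars false

open Cfsg.Lib.Perm Cfsg.Lib.Perm.Socle MulAction Pointwise

section Core

variable {H V : Type*} [Group H] [Finite H] [CommGroup V] [MulDistribMulAction H V]

theorem smul_norm {x : H} {r : ℕ} {w : V} (h : x ^ r • w = w) :
    x • ∏ i ∈ Finset.range r, x ^ i • w = ∏ i ∈ Finset.range r, x ^ i • w := by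
  have h1 := Finset.prod_range_succ (fun i => x ^ i • w) r
  have h2 := Finset.prod_range_succ' (fun i => x ^ i • w) r
  rw [h1, h, pow_zero, one_smul] at h2
  rw [Finset.smul_prod', mul_right_cancel h2]
  exact Finset.prod_congr rfl fun i _ => by rw [pow_succ', mul_smul]

theorem smul_prod_sub (S : Subgroup H) [Fintype S] {s : H} (hs : s ∈ S) (w : V) :
    s • ∏ y : S, (y : H) • w = ∏ y : S, (y : H) • w := by
  rw [Finset.smul_prod']
  exact Fintype.prod_equiv (Equiv.mulLeft (⟨s, hs⟩ : S)) _ _ fun y => by simp [mul_smul]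

theorem norm_identity (S : Subgroup H) [Fintype S] {g : H} (hg : ∀ y ∈ S, Commute g y) {r : ℕ}
    (hr : r.Prime) (hS : Nat.card S = r) (w : V) :
    (∏ y : S, (y : H) • w) * ∏ y : S, ∏ i ∈ Finset.range r, (g * y) ^ i • w =
      w ^ r * ∏ i ∈ Finset.range r, g ^ i • ∏ y : S, (y : H) • w := by
  obtain ⟨k, rfl⟩ : ∃ k, r = k + 1 := ⟨r - 1, by have := hr.pos; omega⟩
  rw [Finset.prod_comm, Finset.prod_range_succ', Finset.prod_range_succ']
  have e : ∀ i ∈ Finset.range k, ∏ y : S, (g * y) ^ (i + 1) • w =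
      g ^ (i + 1) • ∏ y : S, (y : H) • w := by
    intro i hi
    have hc : (Nat.card S).Coprime (i + 1) := by
      rw [hS]
      exact (Nat.Prime.coprime_iff_not_dvd hr).2 (Nat.not_dvd_of_pos_of_lt (by omega)
        (by simpa using hi))
    rw [Finset.smul_prod']
    refine Fintype.prod_equiv (powCoprime hc) _ _ fun y => ?_
    rw [(hg y y.2).mul_pow, mul_smul]
    rfl
  rw [Finset.prod_congr rfl e]
  simp only [pow_zero, one_smul, Finset.prod_const, Finset.card_univ]
  rw [← Nat.card_eq_fintype_card, hS]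
  ac_rfl

variable (H V) in
structure Hyp : Prop where
  nt : ∃ v : V, v ≠ 1
  exp2 : ∀ v : V, v * v = 1
  faith : ∀ (h : H) (v : V), v ≠ 1 → (∀ k : H, h • k • v = k • v) → h = 1
  max : ∀ (v : V) (X : Subgroup H), stabilizer H v ≤ X → X = stabilizer H v ∨ X = ⊤

namespace Hyp

theorem trans (h : Hyp H V) {M : Subgroup H} (hM : M.Normal) (h0 : M ≠ ⊥) (v : V) (k : H) :
    ∃ m ∈ M, m • v = k • v := by
  by_cases hv : v = 1
  · exact ⟨1, M.one_mem, by simp [hv]⟩
  rcases h.max v (M ⊔ stabilizer H v) le_sup_right with e | e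
  · refine absurd ?_ h0
    rw [eq_bot_iff]
    refine fun m hm => h.faith m v hv fun x => ?_
    have : x⁻¹ * m * x⁻¹⁻¹ ∈ stabilizer H v := by
      rw [← e]; exact Subgroup.mem_sup_left (hM.conj_mem m hm _)
    rwa [mem_stabilizer_iff, inv_inv, mul_smul, mul_smul, inv_smul_eq_iff] at this
  · have : k ∈ M ⊔ stabilizer H v := by rw [e]; trivial
    obtain ⟨m, hm, x, hx, rfl⟩ := Subgroup.mem_sup_of_normal_left.1 this
    exact ⟨m, hm, by rw [mul_smul, hx]⟩

theorem eq_one_of_comm (h : Hyp H V) {M : Subgroup H} (hM : M.Normal) (h0 : M ≠ ⊥) {v : V}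
    (hv : v ≠ 1) {c : H} (hc : c • v = v) (hcm : ∀ m ∈ M, m * c = c * m) : c = 1 := by
  refine h.faith c v hv fun k => ?_
  obtain ⟨m, hm, e⟩ := h.trans hM h0 v k
  rw [← e, ← mul_smul, ← hcm m hm, mul_smul, hc]

theorem inv_eq (h : Hyp H V) (v : V) : v⁻¹ = v := inv_eq_of_mul_eq_one_right (h.exp2 v)

theorem eq_of_mul_eq_one (h : Hyp H V) {v w : V} (e : v * w = 1) : w = v := by
  rw [← h.inv_eq v]; exact (inv_eq_of_mul_eq_one_right e).symm

theorem pow_odd (h : Hyp H V) (v : V) {r : ℕ} (hr : Odd r) : v ^ r = v := by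
  obtain ⟨k, rfl⟩ := hr
  rw [pow_succ, pow_mul, pow_two, h.exp2, one_pow, one_mul]

theorem fix_invol (h : Hyp H V) {u : H} (hu : u * u = 1) : ∃ v : V, v ≠ 1 ∧ u • v = v := by
  obtain ⟨w, hw⟩ := h.nt
  by_cases e : u • w = w
  · exact ⟨w, hw, e⟩
  · refine ⟨w * u • w, fun e' => e (h.eq_of_mul_eq_one e'), ?_⟩
    rw [smul_mul', ← mul_smul, hu, one_smul, mul_comm]

theorem isSolvable_of_comm (h : Hyp H V) {M : Subgroup H} (hM : MinN M)
    (hc : IsMulCommutative M) : Group.IsSolvable H := by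
  classical
  have := hM.normal
  have hcc : ∀ x ∈ M, ∀ y ∈ M, x * y = y * x := fun x hx y hy =>
    congrArg Subtype.val (hc.is_comm.comm (⟨x, hx⟩ : M) ⟨y, hy⟩)
  have hsr : ∀ m ∈ M, ∀ v : V, m • v = v → m ≠ 1 → v = 1 := fun m hm v e h1 => by
    by_contra hv
    exact h1 (h.eq_one_of_comm hM.normal hM.ne hv e fun x hx => hcc x hx m hm)
  obtain ⟨r, hr, hexp⟩ := exists_prime_pow_eq_one_of_minNormal M hM.ne hM.min hc
  obtain ⟨⟨s, hs⟩, hs1⟩ := Subgroup.ne_bot_iff_exists_ne_one.1 hM.ne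
  replace hs1 : s ≠ 1 := fun e => hs1 (Subtype.ext e)
  have := Fact.mk hr
  have hos : orderOf s = r := orderOf_eq_prime (hexp s hs) hs1
  have hsM : Subgroup.zpowers s ≤ M := by simpa using hs
  have hMs : M ≤ Subgroup.zpowers s := by
    intro g hg
    by_contra hgs
    obtain ⟨w, hw⟩ := h.nt
    have hodd : Odd r := hr.odd_of_ne_two fun e => by
      obtain ⟨v, hv, e'⟩ := h.fix_invol (u := s) (by rw [← pow_two, ← e, hexp s hs])
      exact hv (hsr s hs v e' hs1)
    have := Fintype.ofFinite (Subgroup.zpowers s)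
    have e := norm_identity (Subgroup.zpowers s) (g := g) (fun y hy => hcc g hg y (hsM hy)) hr
      (by rw [Nat.card_zpowers, hos]) w
    rw [hsr s hs _ (smul_prod_sub _ (Subgroup.mem_zpowers s) w) hs1, h.pow_odd w hodd,
      Finset.prod_eq_one (fun y _ => hsr _ (M.mul_mem hg (hsM y.2)) _
        (smul_norm (by rw [hexp _ (M.mul_mem hg (hsM y.2)), one_smul])) (fun e => hgs (by
          rw [eq_inv_of_mul_eq_one_left e]; exact inv_mem y.2)))] at e
    simp at e
    exact hw e.symm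
  have hC : ∀ c : H, c * s = s * c → c ∈ M := by
    intro c hcs
    obtain ⟨v, hv⟩ := h.nt
    obtain ⟨m, hm, e⟩ := h.trans hM.normal hM.ne v c
    have := h.eq_one_of_comm hM.normal hM.ne hv (c := m⁻¹ * c)
      (by rw [mul_smul, ← e, inv_smul_smul]) (fun x hx => by
        obtain ⟨k, rfl⟩ := hMs hx
        have c1 : Commute c s := hcs
        have c2 : Commute m s := hcc m hm s hs
        exact ((c2.inv_left.mul_left c1).zpow_right k).symm)
    rw [inv_mul_eq_one] at this
    rwa [← this]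
  have : Group.IsSolvable M := Group.isSolvable_of_comm hc.is_comm.comm
  have : Group.IsSolvable (H ⧸ M) := by
    refine Group.isSolvable_of_comm fun x y => ?_
    obtain ⟨x, rfl⟩ := QuotientGroup.mk_surjective x
    obtain ⟨y, rfl⟩ := QuotientGroup.mk_surjective y
    rw [← QuotientGroup.mk_mul, ← QuotientGroup.mk_mul, QuotientGroup.eq]
    obtain ⟨i, hi⟩ := hMs (hM.normal.conj_mem s hs x)
    obtain ⟨j, hj⟩ := hMs (hM.normal.conj_mem s hs y)
    replace hi : s ^ i = x * s * x⁻¹ := hi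
    replace hj : s ^ j = y * s * y⁻¹ := hj
    have e1 : (x * y) * s * (x * y)⁻¹ = s ^ (i * j) := by
      rw [zpow_mul, hi, conj_zpow, hj]; group
    have e2 : (y * x) * s * (y * x)⁻¹ = s ^ (i * j) := by
      rw [mul_comm i j, zpow_mul, hj, conj_zpow, hi]; group
    apply hC
    calc (x * y)⁻¹ * (y * x) * s = (x * y)⁻¹ * ((y * x) * s * (y * x)⁻¹) * (y * x) := by group
      _ = (x * y)⁻¹ * ((x * y) * s * (x * y)⁻¹) * (y * x) := by rw [e1, e2]
      _ = _ := by group
  exact Group.isSolvable_of_ker_le_range M.subtype (QuotientGroup.mk' M) (by simp)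

variable {M T : Subgroup H}

theorem eq_one_of_fix_factor (h : Hyp H V) (hM : MinN M) (hT : Factor M T) {v : V}
    (hv : ∀ t ∈ T, t • v = v) : v = 1 := by
  by_contra hv1
  apply hT.ne
  rw [eq_bot_iff]
  refine fun t ht => h.faith t v hv1 fun k => ?_
  obtain ⟨m, hm, e⟩ := h.trans hM.normal hM.ne v k
  have := hv _ (hT.conj' hm ht)
  rwa [mul_smul, mul_smul, inv_smul_eq_iff, e] at this

/-- an element of a factor fixing an invariant nontrivial set of vectors is trivial -/
theorem eq_one_of_fix_set (h : Hyp H V) (hM : MinN M) (hT : Factor M T) {W : Set V}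
    (hW : ∀ t ∈ T, ∀ w ∈ W, t • w ∈ W) {w : V} (hw : w ∈ W) (hw1 : w ≠ 1) {s : H} (hs : s ∈ T)
    (hfix : ∀ w ∈ W, s • w = w) : s = 1 := by
  rcases hT.min' hM (T ⊓ fixingSubgroup H W) inf_le_left (fun t ht x hx =>
    ⟨hT.conj t (hT.le ht) x hx.1, (mem_fixingSubgroup_iff H).2 fun y hy => by
      rw [mul_smul, mul_smul, (mem_fixingSubgroup_iff H).1 hx.2 _ (hW _ (T.inv_mem ht) y hy),
        smul_inv_smul]⟩) with e | e
  · have : s ∈ T ⊓ fixingSubgroup H W := ⟨hs, (mem_fixingSubgroup_iff H).2 hfix⟩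
    rwa [e, Subgroup.mem_bot] at this
  · exact absurd (h.eq_one_of_fix_factor hM hT fun t ht =>
      (mem_fixingSubgroup_iff H).1 (inf_eq_left.1 e ht) w hw) hw1

theorem step1 (h : Hyp H V) (hM : MinN M) (hT : Factor M T) {v : V} (hv : v ≠ 1) {x : H}
    (hx : x ∈ T) (hx1 : x ≠ 1) (hxv : x • v = v) {t c : H} (ht : t ∈ T)
    (hc : ∀ y ∈ T, c * y = y * c) (htc : (t * c) • v = v) : t • v = v := by
  have := hM.normal
  let S : Set H := {y | y • v = v ∧ ∃ T', Factor M T' ∧ y ∈ T'}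
  rcases h.max v (Subgroup.normalizer S) (fun k hk => Subgroup.mem_normalizer_fintype (by
      rintro y ⟨hy, T', hT', hyT⟩
      exact ⟨(stabilizer H v).mul_mem ((stabilizer H v).mul_mem hk hy)
        ((stabilizer H v).inv_mem hk), _, hT'.smul k,
        mem_cj.2 (by simpa [mul_assoc] using hyT)⟩)) with e | e
  · have : t ∈ Subgroup.normalizer S := Subgroup.mem_normalizer_fintype (by
      rintro y ⟨hy, T', hT', hyT⟩
      by_cases he : T' = T
      · subst he
        refine ⟨?_, T', hT', hT'.conj t (hT'.le ht) y hyT⟩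
        have : t * y * t⁻¹ = (t * c) * y * (t * c)⁻¹ := by
          rw [mul_assoc t c, hc y hyT]; group
        rw [this]
        exact (stabilizer H v).mul_mem ((stabilizer H v).mul_mem htc hy)
          ((stabilizer H v).inv_mem htc)
      · rw [← hT'.comm hT he hyT ht, mul_inv_cancel_right]
        exact ⟨hy, T', hT', hyT⟩)
    rwa [e] at this
  · refine absurd (h.faith x v hv fun k => ?_) hx1
    have : k⁻¹ ∈ Subgroup.normalizer S := by rw [e]; trivial
    have := ((this x).1 ⟨hxv, T, hT, hx⟩).1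
    rwa [inv_inv, mul_smul, mul_smul, inv_smul_eq_iff] at this

theorem step2 (h : Hyp H V) (hM : MinN M) (hT : Factor M T) (hTn : ¬ T.Normal)
    {D : Subgroup H} (hD : D ≤ T) (hD0 : D ≠ ⊥) {g : H} (hg : g ∈ T)
    (hgn : ∀ d ∈ D, g⁻¹ * d * g ∈ D) {r : ℕ} (hr : r.Prime) (hgr : g ^ r ∈ D)
    (hdvd : r ∣ orderOf g) {w₀ : V} (hw₀ : ∀ d ∈ D, d • w₀ = w₀) : g • w₀ = w₀ := by
  classical
  have := hM.normal
  by_contra hne
  obtain ⟨g0, hg0⟩ := Factor.exists_ne hTn
  have hT' := hT.smul g0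
  have hog : orderOf (g0 * g * g0⁻¹) = orderOf g := (MulAut.conj g0).orderOf_eq g
  obtain ⟨s, hs, hos⟩ : ∃ s ∈ MulAut.conj g0 • T, orderOf s = r := by
    refine ⟨(g0 * g * g0⁻¹) ^ (orderOf g / r),
      pow_mem (mem_cj.2 (by simpa [mul_assoc] using hg)) _, ?_⟩
    rw [← hog] at hdvd ⊢
    exact orderOf_pow_orderOf_div (orderOf_pos _).ne' hdvd
  generalize MulAut.conj g0 • T = T' at hT' hg0 hs
  have hs1 : s ≠ 1 := fun e => by
    rw [e, orderOf_one] at hos
    exact hr.ne_one hos.symm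
  have hcomm : ∀ y ∈ T', ∀ t ∈ T, y * t = t * y := fun y hy t ht => hT'.comm hT hg0 hy ht
  obtain ⟨⟨x, hx⟩, hx1⟩ := Subgroup.ne_bot_iff_exists_ne_one.1 hD0
  replace hx1 : x ≠ 1 := fun e => hx1 (Subtype.ext e)
  let U : Subgroup V :=
    { carrier := {w | ∀ d ∈ D, d • w = w}
      one_mem' := fun d _ => smul_one d
      mul_mem' := fun {a b} ha hb d hd => by rw [smul_mul', ha d hd, hb d hd]
      inv_mem' := fun {a} ha d hd => by rw [smul_inv', ha d hd] }
  have hUg : ∀ w ∈ U, g • w ∈ U := fun w hw d hd => by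
    have := hw _ (hgn d hd)
    rwa [mul_smul, mul_smul, inv_smul_eq_iff] at this
  have hUT : ∀ y ∈ T', ∀ w ∈ U, y • w ∈ U := fun y hy w hw d hd => by
    rw [← mul_smul, ← hcomm y hy d (hD hd), mul_smul, hw d hd]
  have hA : ∀ u ∈ U, ∀ y ∈ T', (g * y) • u = u → g • u = u := by
    intro u hu y hy e
    by_cases hu1 : u = 1
    · rw [hu1, smul_one]
    · exact h.step1 hM hT hu1 (hD hx) hx1 (hu x hx) hg (hcomm y hy) e
  have hsg : ∀ w : V, s • g • w = g • s • w := fun w => by
    rw [← mul_smul, hcomm s hs g hg, mul_smul]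
  refine hs1 (h.eq_one_of_fix_set hM hT' (W := {a | ∃ w ∈ U, a = w * g • w}) ?_
    ⟨w₀, hw₀, rfl⟩ (fun e => hne (h.eq_of_mul_eq_one e)) hs ?_)
  · rintro y hy _ ⟨w, hw, rfl⟩
    refine ⟨y • w, hUT y hy w hw, ?_⟩
    rw [smul_mul', ← mul_smul, hcomm y hy g hg, mul_smul]
  rintro _ ⟨w, hw, rfl⟩
  rcases hr.eq_two_or_odd' with e2 | hodd
  · subst e2
    have hgg : ∀ w ∈ U, g • g • w = w := fun w hw => by rw [← mul_smul, ← pow_two, hw _ hgr]
    have hss : ∀ w : V, s • s • w = w := fun w => by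
      rw [← mul_smul, ← pow_two, ← hos, pow_orderOf_eq_one, one_smul]
    have := hA (g • w * s • w) (U.mul_mem (hUg w hw) (hUT s hs w hw)) s hs (by
      rw [mul_smul, smul_mul', hss, hsg, smul_mul', hgg _ (hUT s hs w hw), mul_comm])
    rw [smul_mul', hgg w hw] at this
    rw [smul_mul', hsg]
    have e3 : g • s • w = w * (g • w * s • w) := by
      rw [← this, ← mul_assoc, h.exp2, one_mul]
    rw [e3, mul_comm (s • w), mul_assoc, mul_assoc, h.exp2, mul_one]
  · have := Fintype.ofFinite (Subgroup.zpowers s)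
    have hsT : Subgroup.zpowers s ≤ T' := by simpa using hs
    have e := norm_identity (Subgroup.zpowers s) (g := g)
      (fun y hy => (hcomm y (hsT hy) g hg).symm) hr (by rw [Nat.card_zpowers, hos]) w
    have hPs := smul_prod_sub _ (Subgroup.mem_zpowers s) w
    have hPU : ∏ y : Subgroup.zpowers s, (y : H) • w ∈ U :=
      U.prod_mem fun y _ => hUT y (hsT y.2) w hw
    generalize ∏ y : Subgroup.zpowers s, (y : H) • w = P at e hPs hPU
    have hZ := smul_norm (hPU _ hgr)
    generalize ∏ i ∈ Finset.range r, g ^ i • P = Z at e hZ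
    have hQ : g • ∏ y : Subgroup.zpowers s, ∏ i ∈ Finset.range r, (g * y) ^ i • w =
        ∏ y : Subgroup.zpowers s, ∏ i ∈ Finset.range r, (g * y) ^ i • w := by
      rw [Finset.smul_prod']
      refine Finset.prod_congr rfl fun y _ => hA _ (U.prod_mem fun i _ => ?_) y (hsT y.2)
        (smul_norm ?_)
      · clear * - hw hUg hUT hsT
        induction i with
        | zero => simpa using hw
        | succ i ih =>
          rw [pow_succ', mul_smul, mul_smul]
          exact hUg _ (hUT _ (hsT y.2) _ ih)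
      · have hy : (y : H) ^ r = 1 := by
          obtain ⟨_, k, rfl⟩ := y
          show (s ^ k) ^ r = 1
          rw [← zpow_natCast, ← zpow_mul, mul_comm, zpow_mul, zpow_natCast, ← hos,
            pow_orderOf_eq_one, one_zpow]
        rw [Commute.mul_pow (hcomm y (hsT y.2) g hg).symm, hy, mul_one, hw _ hgr]
    generalize ∏ y : Subgroup.zpowers s, ∏ i ∈ Finset.range r, (g * y) ^ i • w = Q at e hQ
    rw [h.pow_odd w hodd] at e
    have e3 : w = P * (Q * Z) := by rw [← mul_assoc, e, mul_assoc, h.exp2, mul_one]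
    have e4 : w * g • w = P * g • P := by
      rw [e3, smul_mul', smul_mul', hQ, hZ, mul_mul_mul_comm, h.exp2 (Q * Z), mul_one]
    rw [e4, smul_mul', hsg, hPs]

theorem step3 (h : Hyp H V) (hM : MinN M) (hna : ¬ IsMulCommutative M) (hT : Factor M T) :
    T.Normal := by
  classical
  by_contra hTn
  obtain ⟨u, hu, hu1, huu⟩ := Cfsg.Agent.S3493.exists_invol (hT.not_isSolvable hM hna)
  obtain ⟨v₀, hv₀, huv⟩ := h.fix_invol huu
  obtain ⟨D, ⟨hD0, A, ⟨v, hvA, hv1⟩, hDA⟩, hmin⟩ := (wellFounded_lt (α := Subgroup H)).has_min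
    {D | D ≠ ⊥ ∧ ∃ A : Set V, (∃ v ∈ A, v ≠ 1) ∧ D = T ⊓ fixingSubgroup H A}
    ⟨T ⊓ fixingSubgroup H {v₀}, fun e => hu1 (by
      have : u ∈ T ⊓ fixingSubgroup H {v₀} := ⟨hu, (mem_fixingSubgroup_iff H).2 (by simpa)⟩
      rwa [e, Subgroup.mem_bot] at this), {v₀}, ⟨v₀, rfl, hv₀⟩, rfl⟩
  have hmem : ∀ d, d ∈ D ↔ d ∈ T ∧ ∀ a ∈ A, d • a = a := fun d => by
    rw [hDA, Subgroup.mem_inf, mem_fixingSubgroup_iff]
  have hDT : D ≤ T := fun d hd => ((hmem d).1 hd).1
  have hnorm : ∀ t ∈ T, t ∈ Subgroup.normalizer (D : Set H) → t ∈ D := by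
    intro t ht htn
    by_contra htD
    have hex : ∃ n, 0 < n ∧ t ^ n ∈ D := ⟨orderOf t, orderOf_pos t, by simp⟩
    have hn := Nat.find_spec hex
    have hn1 : Nat.find hex ≠ 1 := fun e => htD (by simpa [e] using hn.2)
    obtain ⟨r, hr, k, hk⟩ := Nat.exists_prime_and_dvd hn1
    have hk0 : 0 < k := Nat.pos_of_ne_zero fun e => by
      have := hn.1
      rw [hk, e] at this
      simp at this
    have hgD : t ^ k ∉ D := fun e => Nat.find_min hex (m := k) (by
      rw [hk]; exact lt_mul_of_one_lt_left hk0 hr.one_lt) ⟨hk0, e⟩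
    have hgr : (t ^ k) ^ r ∈ D := by rw [← pow_mul, mul_comm, ← hk]; exact hn.2
    have hdvd : r ∣ orderOf (t ^ k) := by
      by_contra hnd
      obtain ⟨m, hm⟩ := exists_pow_eq_self_of_coprime ((Nat.Prime.coprime_iff_not_dvd hr).2 hnd)
      exact hgD (hm ▸ D.pow_mem hgr m)
    refine hgD ((hmem _).2 ⟨T.pow_mem ht k, fun a ha => h.step2 hM hT hTn hDT hD0
      (T.pow_mem ht k) (fun d hd => ?_) hr hgr hdvd fun d hd => ((hmem d).1 hd).2 a ha⟩)
    simpa using ((Subgroup.inv_mem _ (Subgroup.pow_mem _ htn k)) d).1 hd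
  obtain ⟨K, hK, hc, -⟩ := Cfsg.Lib.Char.frobenius_of_TI (D.subgroupOf T) (fun t ht x hx hx' => by
    by_contra hx1
    refine ht (hnorm t t.2 (Subgroup.mem_normalizer_fintype fun d hd => ?_))
    have hfix : ∀ y : H, (∀ a ∈ A, ((t : H) * y * (t : H)⁻¹) • a = a) ↔
        ∀ a ∈ A, y • (t : H)⁻¹ • a = (t : H)⁻¹ • a := fun y =>
      forall₂_congr fun a _ => by rw [mul_smul, mul_smul, smul_eq_iff_eq_inv_smul]
    have hle : T ⊓ fixingSubgroup H (A ∪ (fun a => (t : H)⁻¹ • a) '' A) ≤ D := fun y hy =>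
      (hmem y).2 ⟨hy.1, fun a ha => (mem_fixingSubgroup_iff H).1 hy.2 a (Or.inl ha)⟩
    have hxm : (x : H) ∈ T ⊓ fixingSubgroup H (A ∪ (fun a => (t : H)⁻¹ • a) '' A) := by
      refine ⟨x.2, (mem_fixingSubgroup_iff H).2 ?_⟩
      rintro _ (ha | ⟨a, ha, rfl⟩)
      · exact ((hmem _).1 hx).2 _ ha
      · exact (hfix x).1 ((hmem _).1 hx').2 a ha
    have he := eq_of_le_of_not_lt hle (hmin _ ⟨fun e => hx1 (Subtype.ext (by
      rwa [e, Subgroup.mem_bot] at hxm)), _, ⟨v, Or.inl hvA, hv1⟩, rfl⟩)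
    rw [← he] at hd
    exact (hmem _).2 ⟨hT.conj t (hT.le t.2) d hd.1, (hfix d).2 fun a ha =>
      (mem_fixingSubgroup_iff H).1 hd.2 _ (Or.inr ⟨a, ha, rfl⟩)⟩)
  have := hT.isSimpleGroup hM
  rcases hK.eq_bot_or_eq_top with rfl | rfl
  · rw [Subgroup.isComplement'_bot_left, Subgroup.subgroupOf_eq_top] at hc
    exact hv1 (h.eq_one_of_fix_factor hM hT fun t ht => ((hmem t).1 (hc ht)).2 v hvA)
  · rw [Subgroup.isComplement'_top_left, Subgroup.subgroupOf_eq_bot, disjoint_iff,
      inf_eq_left.2 hDT] at hc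
    exact hD0 hc

theorem core (h : Hyp H V) (hs : ¬ Group.IsSolvable H) : ∃ T : Subgroup H, T.Normal ∧
    IsSimpleGroup T ∧ ¬ IsMulCommutative T ∧ Subgroup.centralizer (T : Set H) = ⊥ := by
  have h0 : (⊤ : Subgroup H) ≠ ⊥ := fun e => hs (Group.isSolvable_of_comm fun a b => by
    rw [show a = 1 from Subgroup.mem_bot.1 (e ▸ Subgroup.mem_top a), one_mul, mul_one])
  obtain ⟨M, hM, -⟩ := exists_minN ⊤ h0
  have hna : ¬ IsMulCommutative M := fun hc => hs (h.isSolvable_of_comm hM hc)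
  obtain ⟨T, hT⟩ := exists_factor hM.ne
  have hTn := h.step3 hM hna hT
  refine ⟨T, hTn, hT.isSimpleGroup hM, hT.not_comm hM hna, ?_⟩
  by_contra hC
  obtain ⟨u, hu, hu1, huu⟩ := Cfsg.Agent.S3493.exists_invol (hT.not_isSolvable hM hna)
  obtain ⟨v, hv, huv⟩ := h.fix_invol huu
  exact hu1 (h.eq_one_of_comm inferInstance hC hv huv fun m hm => (hm u hu).symm)

end Hyp

end Core

/-- Let a finite group G that is not solvable act faithfully and primitively on a finite set with p ^ d points (p prime), with a non-trivial abelian normal subgroup acting regularly (affine type) and with non-trivial point stabilizers each acting primitively on every one of its orbits (an insoluble extremely primitive group of affine type). Then p = 2; and if moreover G is not 2-transitive, then a point stabilizer is almost simple (it has a non-abelian simple normal subgroup with trivial centralizer). -/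
theorem result {G : Type*} [Group G] [Finite G] {Ω : Type*} [Fintype Ω] [MulAction G Ω] [FaithfulSMul G Ω] (p d : ℕ) (hp : p.Prime) (hcard : Fintype.card Ω = p ^ d) (hsol : ¬ Group.IsSolvable G)
    (N : Subgroup G) [N.Normal] (hN : N ≠ ⊥) (hNc : IsMulCommutative N) (hNreg : ∀ ω : Ω, MulAction.stabilizer N ω = ⊥)
    (hprim : MulAction.IsPreprimitive G Ω) (hH : ∀ α : Ω, MulAction.stabilizer G α ≠ ⊥) (hep : ∀ (α : Ω) (ω : Ω), MulAction.IsPreprimitive (MulAction.stabilizer G α) (MulAction.orbit (MulAction.stabilizer G α) ω)) (α : Ω) :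
    p = 2 ∧ (¬ MulAction.IsMultiplyPretransitive G Ω 2 → ∃ T : Subgroup (MulAction.stabilizer G α), T.Normal ∧ IsSimpleGroup T ∧ ¬ IsMulCommutative T ∧ Subgroup.centralizer (T : Set (MulAction.stabilizer G α)) = ⊥) := by
  have hep' := EP.of hprim hep
  have htr := exists_smul_of_normal hprim inferInstance hN
  have hcc : ∀ x ∈ N, ∀ y ∈ N, x * y = y * x := fun x hx y hy =>
    congrArg Subtype.val (hNc.is_comm.comm (⟨x, hx⟩ : N) ⟨y, hy⟩)
  have hreg : ∀ n ∈ N, n • α = α → n = 1 := fun n hn e => by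
    have : (⟨n, hn⟩ : N) ∈ stabilizer N α := e
    rw [hNreg, Subgroup.mem_bot] at this
    exact congrArg Subtype.val this
  have hinj : ∀ n ∈ N, ∀ m ∈ N, n • α = m • α → n = m := fun n hn m hm e => by
    have := hreg (m⁻¹ * n) (N.mul_mem (N.inv_mem hm) hn) (by rw [mul_smul, e, inv_smul_smul])
    exact (inv_mul_eq_one.1 this).symm
  have hconj : ∀ x : G, x • α = α → ∀ n : G, (x * n * x⁻¹) • α = x • n • α := fun x hx n => by
    rw [mul_smul, mul_smul, show x⁻¹ • α = α by rw [inv_smul_eq_iff, hx]]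
  have hsH : ¬ Group.IsSolvable (stabilizer G α) := fun hs => hsol (by
    have : Group.IsSolvable N := Group.isSolvable_of_comm hNc.is_comm.comm
    have : Group.IsSolvable (G ⧸ N) := Group.isSolvable_of_surjective
      (f := (QuotientGroup.mk' N).comp (stabilizer G α).subtype) (fun y => by
        obtain ⟨y, rfl⟩ := QuotientGroup.mk_surjective y
        obtain ⟨n, hn, e⟩ := htr (y • α) α
        refine ⟨⟨n * y, by rw [mem_stabilizer_iff, mul_smul, e]⟩, ?_⟩
        show ((n * y : G) : G ⧸ N) = y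
        rw [QuotientGroup.mk_mul, (QuotientGroup.eq_one_iff n).2 hn, one_mul])
    exact Group.isSolvable_of_ker_le_range N.subtype (QuotientGroup.mk' N) (by simp))
  obtain ⟨u, hu, hu1, huu⟩ := Cfsg.Agent.S3493.exists_invol hsH
  obtain ⟨n, hn, hnu⟩ : ∃ n ∈ N, n * u ≠ u * n := by
    by_contra hc
    push Not at hc
    exact hu1 (eq_one_of_comm_of_fix htr hc hu)
  have hun : u * n * u⁻¹ ∈ N := Subgroup.Normal.conj_mem inferInstance n hn u
  obtain ⟨m, hm, hm1, hmu⟩ : ∃ m ∈ N, m ≠ 1 ∧ u * m * u⁻¹ = m⁻¹ := by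
    refine ⟨n⁻¹ * (u * n * u⁻¹), N.mul_mem (N.inv_mem hn) hun, fun e => hnu ?_, ?_⟩
    · rw [inv_mul_eq_one] at e
      conv_lhs => rw [e]
      group
    · calc _ = (u * n * u⁻¹)⁻¹ * ((u * u) * n * (u * u)⁻¹) := by group
        _ = _ := by rw [huu]; group
  have hmm : m * m = 1 := by
    rcases hep'.smul_eq_or (hH α) (b := m • α) (fun e => hm1 (hreg m hm e)) hu (fun x hx e => by
      rw [← hconj x hx] at e
      have e1 := hinj _ (Subgroup.Normal.conj_mem inferInstance m hm x) _ hm e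
      rw [← hconj u hu, hmu, ← hconj x hx, show x * m⁻¹ * x⁻¹ = (x * m * x⁻¹)⁻¹ by group, e1])
      with e | e
    · rw [← hconj u hu, hmu] at e
      rw [mul_eq_one_iff_inv_eq]
      exact hinj _ (N.inv_mem hm) _ hm e
    · have := Fact.mk (card_prime_of_min (hH α) e)
      have := isCyclic_of_prime_card (α := stabilizer G α) rfl
      exact absurd (Group.isSolvable_of_comm IsCyclic.commGroup.mul_comm) hsH
  have hexp : ∀ x ∈ N, x * x = 1 := by
    let K : Subgroup G :=
      { carrier := {x | x ∈ N ∧ x * x = 1}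
        one_mem' := ⟨N.one_mem, mul_one 1⟩
        mul_mem' := fun {a b} ha hb => ⟨N.mul_mem ha.1 hb.1, by
          rw [mul_assoc, ← mul_assoc b, hcc b hb.1 a ha.1, mul_assoc, hb.2, mul_one, ha.2]⟩
        inv_mem' := fun {a} ha => ⟨N.inv_mem ha.1, by rw [← mul_inv_rev, ha.2, inv_one]⟩ }
    have hK : K.Normal := ⟨fun a ha g => ⟨Subgroup.Normal.conj_mem inferInstance a ha.1 g, by
      rw [show g * a * g⁻¹ * (g * a * g⁻¹) = g * (a * a) * g⁻¹ by group, ha.2]; group⟩⟩
    intro x hx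
    obtain ⟨k, hk, e⟩ := exists_smul_of_normal hprim hK (fun e => hm1 (by
      have : m ∈ K := ⟨hm, hmm⟩
      rwa [e, Subgroup.mem_bot] at this)) α (x • α)
    rw [← hinj k hk.1 x hx e]
    exact hk.2
  refine ⟨?_, fun _ => ?_⟩
  · have h1 : Nat.card N = p ^ d := by
      rw [← hcard, ← Nat.card_eq_fintype_card]
      refine Nat.card_eq_of_bijective (fun x : N => (x : G) • α)
        ⟨fun x y e => Subtype.ext (hinj _ x.2 _ y.2 e), fun ω => ?_⟩
      obtain ⟨k, hk, e⟩ := htr α ω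
      exact ⟨⟨k, hk⟩, e⟩
    have h2 : orderOf m = 2 := orderOf_eq_prime (by rw [pow_two, hmm]) hm1
    have h3 := Subgroup.orderOf_dvd_natCard N hm
    rw [h1, h2] at h3
    exact ((Nat.prime_dvd_prime_iff_eq Nat.prime_two hp).1 (Nat.prime_two.dvd_of_dvd_pow h3)).symm
  let _ : CommGroup N := { (inferInstance : Group N) with mul_comm := hNc.is_comm.comm }
  let _ : MulDistribMulAction (stabilizer G α) N :=
    MulDistribMulAction.compHom N ((MulAut.conjNormal (H := N)).comp (stabilizer G α).subtype)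
  have hsm : ∀ (x : stabilizer G α) (v : N), ((x • v : N) : G) • α = (x : G) • (v : G) • α :=
    fun x v => hconj x x.2 v
  have hst : ∀ (x : stabilizer G α) (v : N), x • v = v ↔ (x : G) • (v : G) • α = (v : G) • α :=
    fun x v => ⟨fun e => by rw [← hsm, e], fun e => Subtype.ext (hinj _ (x • v).2 _ v.2 (by
      rw [hsm, e]))⟩
  refine Hyp.core (V := N) ⟨⟨⟨m, hm⟩, fun e => hm1 (congrArg Subtype.val e)⟩,
    fun v => Subtype.ext (hexp v v.2), fun x v hv hx => Subtype.ext ?_, fun v X hX => ?_⟩ hsH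
  · refine hep'.manning (hH α) (b := (v : G) • α) (fun e => hv (Subtype.ext (hreg _ v.2 e))) x.2
      fun y hy => ?_
    have := (hst _ _).1 (hx ⟨y, hy⟩)
    rwa [hsm] at this
  · rcases max_stabilizer (hep α ((v : G) • α)) ⟨(v : G) • α, mem_orbit_self _⟩ X
      (fun x hx => hX ((hst x v).2 (congrArg Subtype.val hx))) with e | e
    · left
      rw [e]
      ext x
      exact ⟨fun hx => (hst x v).2 (congrArg Subtype.val hx),
        fun hx => Subtype.ext ((hst x v).1 hx)⟩
    · exact Or.inr e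

end Cfsg.Agent.S3521
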