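import Cfsg.Statements.S3532
import Cfsg.Agent.Known.FrobSemi
import Cfsg.Agent.Known.PSL2Sizes

set_option autoImplicit false
open Cfsg

namespace Cfsg.Agent.S3532

open Cfsg.Lib.Known Cfsg.Lib.Known.GL2 Matrix

theorem aux {F : Type*} [Field F] [Fintype F] (p : ℕ) [hp : Fact p.Prime] [CharP F p] :
    Set.range (orderOf : PSL2 F → ℕ) =
      {n | n ∣ p ∨ n ∣ (Fintype.card F - 1) / Nat.gcd 2 (Fintype.card F - 1) ∨
        n ∣ (Fintype.card F + 1) / Nat.gcd 2 (Fintype.card F - 1)} := by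
  ext n
  constructor
  · rintro ⟨x, rfl⟩
    exact (orderOf_PSL2_cases p x).imp_left dvd_of_eq
  · rintro (h | h | h)
    · rcases (Nat.dvd_prime hp.out).1 h with rfl | rfl
      · exact ⟨1, orderOf_one⟩
      · exact ⟨_, orderOf_piSL_Z_mul_u n (Subgroup.one_mem _) one_ne_zero⟩
    · have := isCyclic_T_SL (F := F)
      obtain ⟨g, -, hg⟩ := exists_orderOf_piSL_of_dvd (slLin F).Z_le_T (m := n) (by rwa [card_T_SL])
      exact ⟨_, hg⟩
    · obtain ⟨s, hs, -⟩ := (slLin F).exists_isEll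
      have := (slLin F).isCyclic_centralizer_ell hs
      obtain ⟨g, -, hg⟩ := exists_orderOf_piSL_of_dvd ((slLin F).isTorus_centralizer hs.disc_ne_zero).Z_le (m := n)
        (by rwa [card_centralizer_ell_SL hs])
      exact ⟨_, hg⟩

/-- Let q ≥ 4 be a prime power and L = PSL(2,q). There is a finite solvable group with the same set of element orders as L × L (so L × L is not determined by its spectrum). -/
theorem result {F : Type*} [Field F] [Fintype F] (hF : 4 ≤ Fintype.card F) :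
    ∃ (H : Type) (_ : Group H) (_ : Finite H), Group.IsSolvable H ∧
      Set.range (orderOf : H → ℕ) = Set.range (orderOf : Matrix.ProjectiveSpecialLinearGroup (Fin 2) F × Matrix.ProjectiveSpecialLinearGroup (Fin 2) F → ℕ) := by
  obtain ⟨p, hp⟩ := CharP.exists F
  have hp' := Fact.mk (CharP.char_is_prime F p)
  set r := (Fintype.card F - 1) / Nat.gcd 2 (Fintype.card F - 1) with hr
  set s := (Fintype.card F + 1) / Nat.gcd 2 (Fintype.card F - 1) with hs
  obtain ⟨h1, h2, h3⟩ : r ≠ 0 ∧ 1 < s ∧ r.Coprime s := by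
    rcases Nat.even_or_odd (Fintype.card F) with ⟨k, hk⟩ | ⟨k, hk⟩
    · obtain ⟨k, rfl⟩ : ∃ j, k = j + 1 := ⟨k - 1, by omega⟩
      rw [hk, show k + 1 + (k + 1) - 1 = 1 + 2 * k by omega, Nat.gcd_add_mul_left_right,
        Nat.gcd_one_right, Nat.div_one] at hr hs
      refine ⟨by omega, by omega, ?_⟩
      rw [hr, hs, show k + 1 + (k + 1) + 1 = 2 + (1 + 2 * k) by omega, Nat.coprime_add_self_right]
      simp
    · rw [hk, Nat.add_sub_cancel, Nat.gcd_mul_right_right] at hr hs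
      refine ⟨by omega, by omega, ?_⟩
      rw [show s = 1 + r by omega]
      simp
  obtain ⟨A, _, _, hA, eA⟩ := exists_solvable_range_orderOf h1 hp'.out.one_lt
    (((Nat.Prime.coprime_iff_not_dvd hp'.out).2 fun h => not_char_dvd_sub_one (F := F) p
      (h.trans (Nat.div_dvd_of_dvd (Nat.gcd_dvd_right _ _)))).symm)
  obtain ⟨B, _, _, hB, eB⟩ := exists_solvable_range_orderOf h1 h2 h3
  refine ⟨A × B, inferInstance, inferInstance, inferInstance, ?_⟩
  rw [range_orderOf_prod, range_orderOf_prod, eA, eB, aux p, ← hr, ← hs]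
  ext n
  simp only [Set.mem_ofPred_eq, Set.mem_union]
  constructor
  · rintro ⟨a, ha, b, hb, rfl⟩
    exact ⟨a, by tauto, b, by tauto, rfl⟩
  · rintro ⟨a, ha | ha | ha, b, hb | hb | hb, rfl⟩
    · exact ⟨_, Or.inl (Nat.lcm_dvd ha hb), 1, by simp, by simp⟩
    · exact ⟨a, Or.inl ha, b, Or.inr hb, rfl⟩
    · exact ⟨a, Or.inl ha, b, Or.inl hb, rfl⟩
    · exact ⟨b, Or.inl hb, a, Or.inr ha, Nat.lcm_comm _ _⟩
    · exact ⟨_, Or.inr (Nat.lcm_dvd ha hb), 1, by simp, by simp⟩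
    · exact ⟨a, Or.inr ha, b, Or.inl hb, rfl⟩
    · exact ⟨b, Or.inl hb, a, Or.inl ha, Nat.lcm_comm _ _⟩
    · exact ⟨b, Or.inr hb, a, Or.inl ha, Nat.lcm_comm _ _⟩
    · exact ⟨1, by simp, _, Or.inl (Nat.lcm_dvd ha hb), by simp⟩

end Cfsg.Agent.S3532
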