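import Cfsg.Statements.S3547
import Cfsg.Agent.Perm.Derange

set_option autoImplicit false
open Cfsg

namespace Cfsg.Agent.S3547

open Cfsg.Lib.Perm.Derange MulAction Finset


/-- Let G act faithfully and transitively on a finite set Ω, let D be the subgroup generated by the derangements, and let r_G and r_D be the numbers of orbits of G and of D on ordered pairs of points (the permutation ranks). Then r_D − 1 = (r_G − 1)·[G : D]. -/
theorem result {G Ω : Type*} [Group G] [Finite G] [MulAction G Ω] [FaithfulSMul G Ω] [Finite Ω]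
    (htrans : MulAction.IsPretransitive G Ω) :
    Nat.card (MulAction.orbitRel.Quotient ↥(Subgroup.closure {g : G | ∀ ω : Ω, g • ω ≠ ω}) (Ω × Ω)) - 1 =
      (Nat.card (MulAction.orbitRel.Quotient G (Ω × Ω)) - 1) * (Subgroup.closure {g : G | ∀ ω : Ω, g • ω ≠ ω}).index := by
  classical
  have := Fintype.ofFinite G
  rcases isEmpty_or_nonempty Ω with hΩ | hΩ
  · have h1 : ∀ (H : Type _) [Group H] [MulAction H Ω],
        Nat.card (orbitRel.Quotient H (Ω × Ω)) = 0 := by
      intro H _ _
      have : IsEmpty (orbitRel.Quotient H (Ω × Ω)) := ⟨fun q => q.inductionOn' fun x => hΩ.elim x.1⟩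
      exact Nat.card_of_isEmpty
    rw [h1, h1]
    simp
  have h1 := burnside G (Ω × Ω)
  rw [← sum_filter_add_sum_filter_not _ (· ∈ der G Ω), burnside_sub,
    sum_congr rfl (g := fun _ => 1) fun g hg => by
      rw [card_fixedBy_prod, der_main.2 g (mem_filter.mp hg).2], ← card_eq_sum_ones] at h1
  have h2 := card_filter_add_card_filter_not (s := univ) (· ∈ der G Ω)
  rw [card_filter_mem, card_univ, ← Nat.card_eq_fintype_card] at h2
  have h3 := (der G Ω).index_mul_card
  have h4 : ∀ (H : Type _) [Group H] [MulAction H Ω],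
      ∃ r, Nat.card (orbitRel.Quotient H (Ω × Ω)) = r + 1 := by
    intro H _ _
    have : Nonempty (orbitRel.Quotient H (Ω × Ω)) := ⟨Quotient.mk'' (Classical.arbitrary _)⟩
    exact Nat.exists_eq_add_one.mpr Nat.card_pos
  obtain ⟨r, hr⟩ := h4 G
  obtain ⟨s, hs⟩ := h4 (der G Ω)
  rw [hr, hs] at h1 ⊢
  apply Nat.eq_of_mul_eq_mul_right (Nat.card_pos (α := der G Ω))
  rw [mul_assoc, h3]
  simp only [Nat.add_sub_cancel]
  nlinarith

end Cfsg.Agent.S3547
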