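import Cfsg.Statements.S3548
import Cfsg.Agent.Perm.Derange

set_option autoImplicit false
open Cfsg

namespace Cfsg.Agent.S3548

open Cfsg.Lib.Perm.Derange MulAction Finset


/-- Let G act faithfully and transitively on a finite set with n ≥ 2 points and let D be the subgroup generated by the derangements. Then the index of D in G divides n − 1, and if it equals n − 1 then n is a prime power. -/
theorem result {G Ω : Type*} [Group G] [Finite G] [MulAction G Ω] [FaithfulSMul G Ω] [Finite Ω]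
    (htrans : MulAction.IsPretransitive G Ω) (hΩ : 2 ≤ Nat.card Ω) :
    (Subgroup.closure {g : G | ∀ ω : Ω, g • ω ≠ ω}).index ∣ Nat.card Ω - 1 ∧
    ((Subgroup.closure {g : G | ∀ ω : Ω, g • ω ≠ ω}).index = Nat.card Ω - 1 → IsPrimePow (Nat.card Ω)) := by
  have hnt : Nontrivial Ω := Finite.one_lt_card_iff_nontrivial.mp hΩ
  refine ⟨index_dvd_card_sub_one, fun h => ?_⟩
  obtain ⟨a⟩ : Nonempty Ω := inferInstance
  have hle : ∀ b, b ≠ a → orbit (stabilizer G a) b ⊆ {a}ᶜ := by
    rintro b hb _ ⟨⟨g, hg⟩, rfl⟩ h'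
    exact hb (smul_left_cancel g (h'.trans (Eq.symm hg)))
  have hc : ({a}ᶜ : Set Ω).ncard = (der G Ω).index := by
    rw [Set.ncard_compl, Set.ncard_singleton, h]
  have h1 : ∀ b, b ≠ a → (stabilizer G b).relIndex (der G Ω ⊓ stabilizer G a) = 1 ∧
      orbit (stabilizer G a) b = {a}ᶜ := by
    intro b hb
    have h2 := card_orbit_eq_mul (G := G) hb
    have h3 := Set.ncard_le_ncard (hle b hb)
    rw [Nat.card_coe_set_eq] at h2
    have h4 : 0 < (stabilizer G b).relIndex (der G Ω ⊓ stabilizer G a) :=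
      Nat.pos_of_ne_zero Subgroup.index_ne_zero_of_finite
    have h5 : 0 < (der G Ω).index := Nat.pos_of_ne_zero Subgroup.index_ne_zero_of_finite
    have h6 : (stabilizer G b).relIndex (der G Ω ⊓ stabilizer G a) = 1 := by nlinarith
    exact ⟨h6, Set.eq_of_subset_of_ncard_le (hle b hb) (by rw [h2, h6, hc, one_mul])⟩
  have h2 : ∀ d ∈ der G Ω, d • a = a → d = 1 := by
    intro d hd hda
    refine eq_of_smul_eq_smul (α := Ω) fun b => ?_
    rw [one_smul]
    by_cases hb : b = a
    · rw [hb, hda]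
    · exact Subgroup.relIndex_eq_one.mp (h1 b hb).1 ⟨hd, hda⟩
  have h3 : Nat.card (der G Ω) = Nat.card Ω := by
    have := (der_main (G := G) (Ω := Ω)).1
    rw [← index_stabilizer_of_transitive (der G Ω) a,
      ((stabilizer (der G Ω) a).eq_bot_iff_forall).mpr fun d hd => Subtype.ext (h2 d d.2 hd),
      Subgroup.index_bot]
  have h4 : ∀ d e : der G Ω, d ≠ 1 → e ≠ 1 → orderOf d = orderOf e := by
    intro d e hd he
    have hd' : (d : G) • a ≠ a := fun h' => hd (Subtype.ext (h2 d d.2 h'))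
    have he' : (e : G) • a ≠ a := fun h' => he (Subtype.ext (h2 e e.2 h'))
    obtain ⟨⟨g, hg⟩, h5⟩ : (e : G) • a ∈ orbit (stabilizer G a) ((d : G) • a) := by
      rw [(h1 _ hd').2]
      exact he'
    have h6 : (e : G)⁻¹ * (g * d * g⁻¹) = 1 := by
      refine h2 _ (mul_mem (inv_mem e.2) (der_normal.conj_mem _ d.2 g)) ?_
      rw [mul_smul, mul_smul, mul_smul, (inv_smul_eq_iff (g := g) (a := a)).mpr hg.symm,
        inv_smul_eq_iff]
      exact h5
    rw [← Subgroup.orderOf_coe, ← Subgroup.orderOf_coe, inv_mul_eq_one.mp h6]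
    exact (MulEquiv.orderOf_eq (MulAut.conj g) _).symm
  obtain ⟨p, hp, hpd⟩ := Nat.exists_prime_and_dvd (n := Nat.card (der G Ω)) (by omega)
  have := Fact.mk hp
  obtain ⟨c, hc⟩ := exists_prime_orderOf_dvd_card' p hpd
  have hc1 : c ≠ 1 := by
    rintro rfl
    rw [orderOf_one] at hc
    exact hp.one_lt.ne hc
  have h5 : IsPGroup p (der G Ω) := by
    intro d
    refine ⟨1, ?_⟩
    by_cases hd : d = 1
    · simp [hd]
    · rw [pow_one, ← hc, ← h4 d c hd hc1, pow_orderOf_eq_one]
  obtain ⟨k, hk⟩ := IsPGroup.iff_card.mp h5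
  rw [← h3, hk]
  refine hp.isPrimePow.pow ?_
  rintro rfl
  rw [pow_zero] at hk
  omega

end Cfsg.Agent.S3548
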