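import Cfsg.Statements.S3550
import Cfsg.Agent.DRG.C7
import Cfsg.Agent.FT.Final

set_option autoImplicit false
open Cfsg

namespace Cfsg.Agent.S3550

open Cfsg.Lib.Perm.Derange Cfsg.Lib.DRG MulAction

/-- Let G act faithfully and primitively on a finite set with n ≥ 2 points and suppose G has no non-trivial abelian normal subgroup (G is not of affine type). Let D be the subgroup generated by the derangements. Then the index of D in G is at most √n − 1. -/
theorem result {G Ω : Type*} [Group G] [Finite G] [MulAction G Ω] [FaithfulSMul G Ω] [Finite Ω]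
    (hprim : MulAction.IsPreprimitive G Ω) (hΩ : 2 ≤ Nat.card Ω) (hna : ∀ N : Subgroup G, N.Normal → IsMulCommutative ↥N → N = ⊥) :
    ((Subgroup.closure {g : G | ∀ ω : Ω, g • ω ≠ ω}).index : ℝ) ≤ Real.sqrt (Nat.card Ω) - 1 := by
  classical
  haveI : IsPretransitive G Ω := hprim.toIsPretransitive
  have h9 : ((der G Ω).index + 1) ^ 2 ≤ Nat.card Ω := by
    have h0 : (der G Ω).index ≠ 0 := Subgroup.index_ne_zero_of_finite
    rcases Nat.lt_or_ge (der G Ω).index 2 with hm | hm
    · have h1 : (der G Ω).index = 1 := by omega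
      rw [h1]
      exact four_le (G := G) hΩ hna
    by_contra! hsm
    obtain ⟨Q, δ, q, h⟩ := reg hΩ hm hsm
    have hQ : Q ≠ ⊥ := by
      intro hb
      have := h.toRQ.card
      rw [hb, Subgroup.card_bot] at this
      omega
    letI : Fintype (der G Ω) := Fintype.ofFinite _
    obtain ⟨e, t, ht⟩ := h.th
    letI : Fintype (Q.subgroupOf (der G Ω)) := Fintype.ofFinite _
    rcases ht.chr with hn | ho
    · have h1 : der G Ω ≤ Subgroup.normalizer (Q : Set G) :=
        (Subgroup.normal_subgroupOf_iff_le_normalizer h.le).mp hn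
      have h2 : Subgroup.normalizer (Q : Set G) = ⊤ := by
        rw [eq_top_iff, ← h.cov]
        exact sup_le inf_le_left h1
      exact hQ (hna Q (Subgroup.normalizer_eq_top_iff.mp h2)
        ⟨⟨fun a b => Subtype.ext (h.ab a a.2 b b.2)⟩⟩)
    · have h1 := not_solv hna (der_normal (G := G) (Ω := Ω)) (Cfsg.Lib.FT.odd_order_solvable ho)
      exact hQ (le_bot_iff.mp (h1 ▸ h.le))
  rw [le_sub_iff_add_le]
  apply Real.le_sqrt_of_sq_le
  exact_mod_cast h9

end Cfsg.Agent.S3550
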