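import Cfsg.Statements.S3560
import Mathlib.GroupTheory.GroupAction.MultipleTransitivity

set_option autoImplicit false
open Cfsg

namespace Cfsg.Agent.S3560

/-- Adjacency in the Hamming graph. -/
def Adj {ι A : Type*} (x y : ι → A) : Prop := ∃ i, x i ≠ y i ∧ ∀ j, j ≠ i → x j = y j

theorem Adj.symm {ι A : Type*} {x y : ι → A} (h : Adj x y) : Adj y x := by
  obtain ⟨i, hi, hj⟩ := h
  exact ⟨i, hi.symm, fun j h => (hj j h).symm⟩

/-- Automorphisms of the Hamming graph. -/
def IsAut {ι A : Type*} (τ : Equiv.Perm (ι → A)) : Prop := ∀ x y, Adj (τ x) (τ y) ↔ Adj x y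

/-- The basic automorphisms. -/
def basicAut {ι A : Type*} (s : Equiv.Perm ι) (π : ι → Equiv.Perm A) : Equiv.Perm (ι → A) where
  toFun x := fun k => π k (x (s k))
  invFun y := fun k => (π (s.symm k)).symm (y (s.symm k))
  left_inv x := by funext k; simp
  right_inv y := by funext k; simp

theorem basicAut_apply {ι A : Type*} (s : Equiv.Perm ι) (π : ι → Equiv.Perm A) (x : ι → A) (k : ι) :
    basicAut s π x k = π k (x (s k)) := rfl

theorem isAut_basicAut {ι A : Type*} (s : Equiv.Perm ι) (π : ι → Equiv.Perm A) :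
    IsAut (basicAut s π) := by
  intro x y
  constructor
  · rintro ⟨i, hi, hj⟩
    refine ⟨s i, fun h => hi (by rw [basicAut_apply, basicAut_apply, h]), fun j hji => ?_⟩
    have := hj (s.symm j) (by rintro rfl; simp at hji)
    simpa [basicAut_apply] using this
  · rintro ⟨i, hi, hj⟩
    refine ⟨s.symm i, by simpa [basicAut_apply] using hi, fun j hji => ?_⟩
    rw [basicAut_apply, basicAut_apply, hj (s j) (by rintro rfl; simp at hji)]

theorem exists_perm_pair {A : Type*} {a b c d : A} (hab : a ≠ b) (hcd : c ≠ d) :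
    ∃ π : Equiv.Perm A, π a = c ∧ π b = d := by
  classical
  refine ⟨Equiv.swap (Equiv.swap a c b) d * Equiv.swap a c, ?_, by simp⟩
  rw [Equiv.Perm.mul_apply, Equiv.swap_apply_left, Equiv.swap_apply_of_ne_of_ne _ hcd]
  intro h
  apply hab
  apply (Equiv.swap a c).injective
  rw [← h, Equiv.swap_apply_left]

theorem exists_aut_of_adj {ι A : Type*} {y y' z : ι → A} (h : Adj y y') (h' : Adj y z) :
    ∃ τ : Equiv.Perm (ι → A), IsAut τ ∧ τ y = y ∧ τ y' = z := by
  classical
  obtain ⟨i, hi, hi'⟩ := h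
  obtain ⟨j, hj, hj'⟩ := h'
  obtain ⟨π, h1, h2⟩ := exists_perm_pair hi hj
  refine ⟨basicAut (Equiv.swap i j) fun k =>
    if k = j then π else Equiv.swap (y (Equiv.swap i j k)) (y k), isAut_basicAut _ _, ?_, ?_⟩
  · funext k
    rw [basicAut_apply]
    split_ifs with hk
    · subst hk; simpa using h1
    · simp
  · funext k
    rw [basicAut_apply]
    split_ifs with hk
    · subst hk; simpa using h2
    · rw [← hi' _ (fun h => hk (by rw [Equiv.swap_apply_eq_iff] at h; simpa using h)), ← hj' k hk]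
      simp

theorem all_of_closed {ι A : Type*} [Finite ι] [Finite A] (hA : 3 ≤ Nat.card A)
    (P : (ι → A) → Prop)
    (hP : ∀ τ : Equiv.Perm (ι → A), IsAut τ → ∀ x y, τ x = x → P x → P y → P (τ y))
    {x y : ι → A} (hx : P x) (hy : P y) (hxy : x ≠ y) (z : ι → A) : P z := by
  classical
  have := Fintype.ofFinite ι
  have := Fintype.ofFinite A
  obtain ⟨i, hi⟩ := Function.ne_iff.mp hxy
  obtain ⟨v, hv1, hv2⟩ : ∃ v : A, v ≠ x i ∧ v ≠ y i := by
    by_contra hcon
    push Not at hcon
    have hsub : (Finset.univ : Finset A) ⊆ {x i, y i} := by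
      intro v _
      by_cases h : v = x i
      · simp [h]
      · simp [hcon v h]
    have := (Finset.card_le_card hsub).trans (Finset.card_le_two)
    rw [Finset.card_univ, ← Nat.card_eq_fintype_card] at this
    omega
  have hgood : P y ∧ ∃ y', Adj y y' ∧ P y' := by
    refine ⟨hy, basicAut 1 (fun k => if k = i then Equiv.swap (y i) v else 1) y, ⟨i, ?_, ?_⟩,
      hP _ (isAut_basicAut _ _) x y ?_ hx hy⟩
    · simpa [basicAut_apply] using hv2.symm
    · intro j hj
      simp [basicAut_apply, hj]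
    · funext k
      rw [basicAut_apply]
      split_ifs with hk
      · subst hk; simp [Equiv.swap_apply_of_ne_of_ne hi hv1.symm]
      · simp
  have hstep : ∀ a b : ι → A, (P a ∧ ∃ a', Adj a a' ∧ P a') → Adj a b →
      (P b ∧ ∃ b', Adj b b' ∧ P b') := by
    rintro a b ⟨ha, a', haa, ha'⟩ hab
    obtain ⟨τ, hτ, h1, h2⟩ := exists_aut_of_adj haa hab
    exact ⟨h2 ▸ hP τ hτ a a' h1 ha ha', a, hab.symm, ha⟩
  have hall : ∀ s : Finset ι, P (s.piecewise z y) ∧ ∃ a', Adj (s.piecewise z y) a' ∧ P a' := by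
    intro s
    induction s using Finset.induction_on with
    | empty => simpa using hgood
    | insert k s hk ih =>
      by_cases h : z k = y k
      · have : (insert k s).piecewise z y = s.piecewise z y := by
          funext j
          by_cases hj : j = k
          · subst hj; simp [Finset.piecewise, hk, h]
          · simp [Finset.piecewise, hj]
        rwa [this]
      · refine hstep _ _ ih ⟨k, ?_, fun j hj => ?_⟩
        · simpa [Finset.piecewise, hk] using Ne.symm h
        · simp [Finset.piecewise, hj]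
  simpa using (hall Finset.univ).1


/-- Let K be a finite group isomorphic to a direct product of r ≥ 2 groups all of the same order m ≥ 3. Then K is not a B-group: there is a primitive but not doubly transitive permutation group (on some finite set) containing a regular subgroup isomorphic to K. -/
theorem result {K : Type*} [Group K] [Finite K] {ι : Type*} [Fintype ι] (F : ι → Type*) [∀ i, Group (F i)]
    (hr : 2 ≤ Fintype.card ι) (m : ℕ) (hm : 3 ≤ m) (hcard : ∀ i, Nat.card (F i) = m) (e : K ≃* (∀ i, F i)) :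
    ∃ (n : ℕ) (G R : Subgroup (Equiv.Perm (Fin n))), R ≤ G ∧ Nonempty (↥R ≃* K) ∧
      MulAction.IsPretransitive ↥R (Fin n) ∧ (∀ a : Fin n, MulAction.stabilizer ↥R a = ⊥) ∧
      MulAction.IsPreprimitive ↥G (Fin n) ∧ ¬ MulAction.IsMultiplyPretransitive ↥G (Fin n) 2 := by
  classical
  have hfin : ∀ i, Finite (F i) := fun i => Nat.finite_of_card_ne_zero (by rw [hcard]; omega)
  have φ : ∀ i, F i ≃ Fin m := fun i => Finite.equivFinOfCardEq (hcard i)
  set n := Fintype.card (ι → Fin m)
  have ψ : (ι → Fin m) ≃ Fin n := Fintype.equivFin _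
  let G : Subgroup (Equiv.Perm (Fin n)) :=
    { carrier := {σ | ∀ a b, Adj (ψ.symm (σ a)) (ψ.symm (σ b)) ↔ Adj (ψ.symm a) (ψ.symm b)}
      one_mem' := fun a b => Iff.rfl
      mul_mem' := fun {σ τ} hσ hτ a b => (hσ _ _).trans (hτ a b)
      inv_mem' := fun {σ} hσ a b => by
        have := hσ (σ⁻¹ a) (σ⁻¹ b)
        simpa using this.symm }
  have hG : ∀ τ : Equiv.Perm (ι → Fin m), IsAut τ → ψ.permCongr τ ∈ G := by
    intro τ hτ a b
    simpa using hτ _ _
  let χ : K ≃ Fin n := (e.toEquiv.trans (Equiv.piCongrRight φ)).trans ψ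
  let ρ : K →* Equiv.Perm (Fin n) :=
    (χ.permCongrHom : Equiv.Perm K →* Equiv.Perm (Fin n)).comp (MulAction.toPermHom K K)
  have hρ : ∀ k a, ρ k (χ a) = χ (k * a) := by
    intro k a
    simp [ρ]
  have hinj : Function.Injective ρ := by
    intro k l h
    have := hρ k 1
    rw [h, hρ] at this
    simpa using this.symm
  have hRG : ρ.range ≤ G := by
    rintro _ ⟨k, rfl⟩
    have : ρ k = ψ.permCongr (basicAut 1 fun i => (φ i).permCongr (Equiv.mulLeft (e k i))) := by
      ext1 a
      obtain ⟨a, rfl⟩ := χ.surjective a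
      rw [hρ]
      simp only [χ, Equiv.trans_apply, Equiv.permCongr_apply, Equiv.symm_apply_apply]
      congr 1
      funext i
      simp [basicAut_apply]
    rw [this]
    exact hG _ (isAut_basicAut _ _)
  have hRtr : MulAction.IsPretransitive ρ.range (Fin n) := by
    refine ⟨fun a b => ?_⟩
    obtain ⟨a, rfl⟩ := χ.surjective a
    obtain ⟨b, rfl⟩ := χ.surjective b
    refine ⟨⟨ρ (b * a⁻¹), _, rfl⟩, ?_⟩
    change ρ (b * a⁻¹) (χ a) = χ b
    rw [hρ]; simp
  have hGtr : MulAction.IsPretransitive G (Fin n) := by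
    refine ⟨fun a b => ?_⟩
    obtain ⟨r, hr⟩ := hRtr.exists_smul_eq a b
    exact ⟨⟨r, hRG r.2⟩, hr⟩
  refine ⟨n, G, ρ.range, hRG, ⟨(MonoidHom.ofInjective hinj).symm⟩, hRtr, ?_, ?_, ?_⟩
  · intro a
    rw [eq_bot_iff]
    rintro ⟨_, k, rfl⟩ hk
    obtain ⟨a, rfl⟩ := χ.surjective a
    have h1 : ρ k (χ a) = χ a := hk
    rw [hρ] at h1
    have : k = 1 := by simpa using h1
    subst this
    rw [Subgroup.mem_bot]
    exact Subtype.ext (map_one ρ)
  · refine ⟨fun {B} hB => ?_⟩
    rw [MulAction.IsTrivialBlock, or_iff_not_imp_left, Set.not_subsingleton_iff]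
    rintro ⟨a, ha, b, hb, hab⟩
    rw [Set.eq_univ_iff_forall]
    intro z
    have := all_of_closed (ι := ι) (A := Fin m) (by simpa using hm) (fun x => ψ x ∈ B) ?_
      (x := ψ.symm a) (y := ψ.symm b) (by simpa using ha) (by simpa using hb)
      (ψ.symm.injective.ne hab) (ψ.symm z)
    · simpa using this
    · intro τ hτ x y hx hxB hyB
      have h1 := hB.smul_eq_of_mem (g := ⟨_, hG τ hτ⟩) hxB (by
        change ψ.permCongr τ (ψ x) ∈ B
        simpa [hx] using hxB)
      rw [← h1]
      exact ⟨ψ y, hyB, by change ψ.permCongr τ (ψ y) = _; simp⟩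
  · intro h2
    rw [MulAction.is_two_pretransitive_iff] at h2
    obtain ⟨i, j, hij⟩ := Fintype.exists_pair_of_one_lt_card (α := ι) (by omega)
    let a : Fin m := ⟨0, by omega⟩
    let b : Fin m := ⟨1, by omega⟩
    have hab : a ≠ b := by simp [a, b]
    let x : ι → Fin m := fun _ => a
    let y : ι → Fin m := fun k => if k = i then b else a
    let z : ι → Fin m := fun _ => b
    have hxy : Adj x y := ⟨i, by simpa [x, y] using hab, fun k hk => by simp [x, y, hk]⟩
    have hxz : ¬ Adj x z := by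
      rintro ⟨k, -, hk⟩
      by_cases h : i = k
      · exact hab (hk j (by rintro rfl; exact hij h))
      · exact hab (hk i h)
    have h1 : ψ x ≠ ψ y := ψ.injective.ne fun h => by
      have := congrFun h i
      exact hab (by simpa [x, y] using this)
    have h3 : ψ x ≠ ψ z := ψ.injective.ne fun h => hab (congrFun h i)
    obtain ⟨g, hg1, hg2⟩ := h2 h1 h3
    have := g.2 (ψ x) (ψ y)
    change (g : Equiv.Perm (Fin n)) (ψ x) = ψ x at hg1
    change (g : Equiv.Perm (Fin n)) (ψ y) = ψ z at hg2
    rw [hg1, hg2] at this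
    simp only [Equiv.symm_apply_apply] at this
    exact hxz (this.mpr hxy)

end Cfsg.Agent.S3560
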