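import Cfsg.Statements.S3575
import Mathlib
import Cfsg.Agent.Class.PartFix

set_option autoImplicit false
open Cfsg

namespace Cfsg.Agent.S3575

/-- Let a, b ≥ 2 and consider the symmetric group of degree a·b acting on the partitions of an (a·b)-set into b parts of size a (encoded as maps onto a b-element set all of whose fibres have a elements; a permutation fixes such a partition when it permutes the fibres). Let r be a prime dividing the number (ab)!/((a!)^b·b!) of such partitions, and let ℓ and k be the remainders of a and b modulo r. Then every permutation of order r fixes some such partition if and only if r ≤ a and one of the following holds: ℓ = 0; or k = 0 and ℓ = 1; or ℓ and k are non-zero, k·ℓ < r, and either b < r or (k + r)·ℓ ≤ k·a + r. -/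
theorem result (a b : ℕ) (ha : 2 ≤ a) (hb : 2 ≤ b) (r : ℕ) (hr : r.Prime)
    (hrd : r ∣ (a * b).factorial / (a.factorial ^ b * b.factorial)) :
    (∀ σ : Equiv.Perm (Fin (a * b)), orderOf σ = r →
        ∃ f : Fin (a * b) → Fin b, (∀ j : Fin b, Nat.card {x : Fin (a * b) // f x = j} = a) ∧
          ∃ π : Equiv.Perm (Fin b), ∀ x : Fin (a * b), f (σ x) = π (f x)) ↔
      (r ≤ a ∧ (a % r = 0 ∨ (b % r = 0 ∧ a % r = 1) ∨
        (a % r ≠ 0 ∧ b % r ≠ 0 ∧ (b % r) * (a % r) < r ∧ (b < r ∨ (b % r + r) * (a % r) ≤ (b % r) * a + r)))) := by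
  haveI : Fact r.Prime := ⟨hr⟩
  have hle : r ≤ a * b := by
    rw [← hr.dvd_factorial]
    refine hrd.trans (Nat.div_dvd_of_dvd ?_)
    have := Nat.uniformBell_mul_eq b (n := a) (by omega)
    rw [mul_comm b a] at this
    exact ⟨_, by rw [← this, mul_assoc, mul_comm]⟩
  rw [← Cfsg.Lib.Class.PartFix.all_iff ha hb hr.pos hle]
  constructor
  · intro h j hj hj'
    obtain ⟨σ, s1, s2⟩ := Cfsg.Lib.Class.PartFix.exists_perm (α := Fin (a * b)) (r := r) (j := j)
      (by simpa using hj')
    refine Cfsg.Lib.Class.PartFix.Fx.q (by omega) s1 s2 (h σ (orderOf_eq_prime s1 ?_))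
    rintro rfl
    have := Nat.mul_pos hr.pos hj
    simp only [Equiv.Perm.support_one, Finset.card_empty] at s2
    omega
  · intro h σ hσ
    have s1 : σ ^ r = 1 := hσ ▸ pow_orderOf_eq_one σ
    have s2 := Cfsg.Lib.Class.PartFix.card_support_eq s1
    refine (h _ ?_ ?_).fx (by simp) s1 s2
    · rw [Nat.one_le_iff_ne_zero]
      intro e
      rw [e, mul_zero, Equiv.Perm.card_support_eq_zero] at s2
      rw [s2, orderOf_one] at hσ
      exact hr.one_lt.ne hσ
    · exact s2 ▸ (Finset.card_le_univ _).trans (by simp)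

end Cfsg.Agent.S3575
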