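import Cfsg.Statements.S4181
import Cfsg.Agent.SylR.Main

set_option autoImplicit false
open Cfsg

namespace Cfsg.Agent.S4181

/-- Let p be a prime and G a finite group generated by its elements of p-power order, and let H be a proper subgroup of G containing a Sylow p-subgroup of G. Then 2p − 1 times the number of Sylow p-subgroups of H is at most p − 1 times the number of Sylow p-subgroups of G. -/
theorem result {G : Type*} [Group G] [Finite G] (p : ℕ) [Fact p.Prime] (hgen : Subgroup.closure {g : G | ∃ k : ℕ, orderOf g = p ^ k} = ⊤)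
    (H : Subgroup G) (hH : H ≠ ⊤) (P : Sylow p G) (hP : (P : Subgroup G) ≤ H) :
    (2 * p - 1) * Nat.card (Sylow p ↥H) ≤ (p - 1) * Nat.card (Sylow p G) := by
  classical
  have hp2 := (Fact.out : p.Prime).two_le
  have hK : SylR.KK p (⊤ : Subgroup G) := by
    refine ⟨⟨P, le_top⟩, ?_⟩
    rw [← hgen, Subgroup.closure_le]
    rintro g ⟨k, hk⟩
    have h1 : IsPGroup p (Subgroup.zpowers g) :=
      IsPGroup.of_card (n := k) (by rw [Nat.card_zpowers, hk])
    obtain ⟨Q, hQ⟩ := h1.exists_le_sylow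
    have h2 : (Q : Subgroup G) ≤ SylR.gen p (Subgroup.closure {g : G | ∃ k : ℕ, orderOf g = p ^ k}) :=
      SylR.le_gen p (by rw [hgen]; exact le_top)
    exact h2 (hQ (Subgroup.mem_zpowers g))
  have h := SylR.II_of_KK p ⊤ hK H (fun h => hH (top_le_iff.1 h))
  unfold SylR.rr at h
  rw [top_inf_eq] at h
  have e1 : SylR.nu p (⊤ : Subgroup G) ≤ Nat.card (Sylow p G) := by
    unfold SylR.nu
    rw [← Nat.card_eq_finsetCard]
    exact Nat.card_le_card_of_injective Subtype.val Subtype.val_injective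
  have e2 : Nat.card (Sylow p ↥H) ≤ SylR.nu p H := by
    unfold SylR.nu
    rw [← Nat.card_eq_finsetCard]
    apply Nat.card_le_card_of_surjective
      (fun Q : SylR.S p H => Q.1.subtype ((SylR.mem_S p).1 Q.2))
    intro R
    obtain ⟨y, hy⟩ := MulAction.exists_smul_eq H (P.subtype hP) R
    rw [Sylow.smul_subtype] at hy
    exact ⟨⟨y • P, (SylR.mem_S p).2 (Sylow.smul_le hP y)⟩, hy⟩
  have h3 : (2 * p - 1) * SylR.nu p H ≤ (p - 1) * SylR.nu p (⊤ : Subgroup G) := by
    zify [show 1 ≤ p by omega, show 1 ≤ 2 * p by omega]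
    linarith
  calc (2 * p - 1) * Nat.card (Sylow p ↥H) ≤ (2 * p - 1) * SylR.nu p H := Nat.mul_le_mul_left _ e2
    _ ≤ (p - 1) * SylR.nu p (⊤ : Subgroup G) := h3
    _ ≤ (p - 1) * Nat.card (Sylow p G) := Nat.mul_le_mul_left _ e1

end Cfsg.Agent.S4181
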