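import Cfsg.Statements.S3580
import Cfsg.Agent.S4181

set_option autoImplicit false
open Cfsg

namespace Cfsg.Agent.S3580

open MulAction Finset

open Classical in
theorem orb {R Ω : Type*} [Group R] [MulAction R Ω] [Fintype Ω] {p : ℕ} [hp : Fact p.Prime]
    (hR : IsPGroup p R) : p * Nat.card (orbitRel.Quotient R Ω) ≤
      (p - 1) * #{ω : Ω | ∀ r : R, r • ω = ω} + Nat.card Ω := by
  have := Fintype.ofFinite (orbitRel.Quotient R Ω)
  let mk : Ω → orbitRel.Quotient R Ω := Quotient.mk''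
  rw [Nat.card_eq_fintype_card, Nat.card_eq_fintype_card, ← card_univ, ← card_univ,
    card_eq_sum_card_fiberwise (f := mk) (s := univ) (t := univ) fun _ _ => mem_coe.2 (mem_univ _),
    card_eq_sum_card_fiberwise (f := mk) (s := {ω : Ω | ∀ r : R, r • ω = ω}) (t := univ)
      fun _ _ => mem_coe.2 (mem_univ _), mul_sum, ← sum_add_distrib, mul_comm, ← smul_eq_mul,
    ← sum_const]
  refine sum_le_sum fun o _ => ?_
  induction o using Quotient.inductionOn' with | _ a => ?_
  have e : #{ω : Ω | mk ω = Quotient.mk'' a} = Nat.card (orbit R a) := by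
    rw [← Fintype.card_subtype, ← Nat.card_eq_fintype_card]
    exact Nat.card_congr (Equiv.subtypeEquivRight fun ω => Quotient.eq''.trans orbitRel_apply)
  obtain ⟨k, hk⟩ := hR.card_orbit a
  rw [e, hk]
  rcases k with _ | k
  · have h1 : 1 ≤ #{ω ∈ ({ω : Ω | ∀ r : R, r • ω = ω} : Finset Ω) | mk ω = Quotient.mk'' a} := by
      refine card_pos.2 ⟨a, mem_filter.2 ⟨mem_filter.2 ⟨mem_univ _, fun r => ?_⟩, rfl⟩⟩
      have := (Nat.card_eq_one_iff_unique.1 hk).1
      exact congrArg Subtype.val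
        (Subsingleton.elim (⟨r • a, mem_orbit a r⟩ : orbit R a) ⟨a, mem_orbit_self a⟩)
    have := Nat.mul_le_mul_left (p - 1) h1
    have := hp.out.pos
    rw [pow_zero]
    omega
  · exact le_add_left (Nat.le_self_pow k.succ_ne_zero p)

open Classical in
theorem fix {K Ω : Type*} [Group K] [Finite K] [MulAction K Ω] [Fintype Ω] {p a b : ℕ}
    [hp : Fact p.Prime] (h : ∀ H : Subgroup K, H ≠ ⊤ → ∀ Q : Sylow p K, (Q : Subgroup K) ≤ H →
      a * Nat.card (Sylow p H) ≤ b * Nat.card (Sylow p K)) (hn : ∀ ω : Ω, stabilizer K ω ≠ ⊤)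
    (P : Sylow p K) : a * #{ω : Ω | (P : Subgroup K) ≤ stabilizer K ω} ≤ b * Nat.card Ω := by
  have := Fintype.ofFinite (Sylow p K)
  have e1 : ∀ Q : Sylow p K, #{ω : Ω | (Q : Subgroup K) ≤ stabilizer K ω} =
      #{ω : Ω | (P : Subgroup K) ≤ stabilizer K ω} := fun Q => by
    obtain ⟨g, rfl⟩ := exists_smul_eq K P Q
    refine card_nbij' (g⁻¹ • ·) (g • ·) (fun ω hω => ?_) (fun ω hω => ?_) (fun ω _ => by simp)
      fun ω _ => by simp
    · simp only [coe_filter, mem_univ, true_and, Set.mem_setOf_eq] at hω ⊢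
      intro x hx
      have := hω (Subgroup.smul_mem_pointwise_smul x (MulAut.conj g) _ hx)
      rw [mem_stabilizer_iff] at this ⊢
      rw [eq_inv_smul_iff, smul_smul, smul_smul]
      exact this
    · simp only [coe_filter, mem_univ, true_and, Set.mem_setOf_eq] at hω ⊢
      rintro _ ⟨x, hx, rfl⟩
      have := mem_stabilizer_iff.1 (hω hx)
      simp [mem_stabilizer_iff, mul_smul, this]
  have e2 : ∀ ω : Ω, a * #{Q : Sylow p K | (Q : Subgroup K) ≤ stabilizer K ω} ≤
      b * Nat.card (Sylow p K) := fun ω => by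
    rcases eq_empty_or_nonempty {Q : Sylow p K | (Q : Subgroup K) ≤ stabilizer K ω} with
      e | ⟨Q, hQ⟩
    · simp [e]
    · refine (Nat.mul_le_mul_left a ?_).trans (h _ (hn ω) Q (mem_filter.1 hQ).2)
      rw [← Fintype.card_subtype, ← Nat.card_eq_fintype_card]
      exact Nat.card_le_card_of_injective (fun R => R.1.subtype R.2) fun _ _ e =>
        Subtype.ext (Sylow.subtype_injective e)
  have e3 : ∑ Q : Sylow p K, #{ω : Ω | (Q : Subgroup K) ≤ stabilizer K ω} =
      ∑ ω : Ω, #{Q : Sylow p K | (Q : Subgroup K) ≤ stabilizer K ω} := by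
    simp only [card_filter]
    exact sum_comm
  simp only [e1] at e3
  rw [sum_const, card_univ, ← Nat.card_eq_fintype_card, smul_eq_mul] at e3
  refine Nat.le_of_mul_le_mul_left ?_ (Nat.card_pos (α := Sylow p K))
  rw [mul_left_comm, e3, mul_sum]
  refine (sum_le_sum fun ω _ => e2 ω).trans ?_
  rw [sum_const, card_univ, ← Nat.card_eq_fintype_card, smul_eq_mul]
  exact le_of_eq (by ring)

/-- Let G act faithfully and transitively on a finite set Ω, let p be an odd prime dividing the order of G and P a Sylow p-subgroup of G. Then the number of orbits of P on Ω is at most (p/(2p − 1))·(number of points). -/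
theorem result {G Ω : Type*} [Group G] [Finite G] [MulAction G Ω] [FaithfulSMul G Ω] [Finite Ω]
    (htrans : MulAction.IsPretransitive G Ω) (p : ℕ) [Fact p.Prime] (hp2 : p ≠ 2) (hpG : p ∣ Nat.card G)
    (P : Sylow p G) :
    (2 * p - 1) * Nat.card (MulAction.orbitRel.Quotient ↥(P : Subgroup G) Ω) ≤ p * Nat.card Ω := by
  classical
  have := Fintype.ofFinite Ω
  have hp : p.Prime := Fact.out
  set K := Subgroup.closure {g : G | ∃ k : ℕ, orderOf g = p ^ k} with hK
  have hN : K.Normal := ⟨fun n hn g => by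
    refine Subgroup.closure_induction (p := fun n _ => g * n * g⁻¹ ∈ K) ?_ ?_ ?_ ?_ hn
    · rintro x ⟨k, hk⟩
      exact Subgroup.subset_closure ⟨k, by
        rw [← hk]; exact (MulAut.conj g).orderOf_eq x⟩
    · simp
    · intro x y _ _ hx hy
      simpa [mul_assoc] using mul_mem hx hy
    · intro x _ hx
      simpa [mul_assoc] using inv_mem hx⟩
  have hP : (P : Subgroup G) ≤ K := fun x hx => Subgroup.subset_closure (by
    obtain ⟨k, hk⟩ := IsPGroup.iff_orderOf.1 P.isPGroup' ⟨x, hx⟩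
    exact ⟨k, by rwa [Subgroup.orderOf_mk] at hk⟩)
  have hgen : Subgroup.closure {g : K | ∃ k : ℕ, orderOf g = p ^ k} = ⊤ := by
    rw [← Subgroup.closure_preimage_eq_top {g : G | ∃ k : ℕ, orderOf g = p ^ k}]
    congr 1
    ext g
    exact exists_congr fun k => by rw [← Subgroup.orderOf_coe]; rfl
  have hn : ∀ ω : Ω, stabilizer K ω ≠ ⊤ := fun ω e => by
    obtain ⟨x, hx⟩ := exists_prime_orderOf_dvd_card' p hpG
    have hxK : x ∈ K := Subgroup.subset_closure ⟨1, by rw [hx, pow_one]⟩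
    have : x = 1 := eq_of_smul_eq_smul (α := Ω) fun ω' => by
      obtain ⟨g, rfl⟩ := exists_smul_eq G ω ω'
      have h0 : (⟨_, hN.conj_mem' x hxK g⟩ : K) ∈ stabilizer K ω := e ▸ Subgroup.mem_top _
      have h1 : (g⁻¹ * x * g) • ω = ω := h0
      rw [one_smul, smul_smul]
      conv_rhs => rw [← h1, smul_smul]
      congr 1
      group
    rw [this, orderOf_one] at hx
    exact hp.one_lt.ne hx
  have h1 := fix (fun H hH Q hQ => Cfsg.Agent.S4181.result p hgen H hH Q hQ) hn (P.subtype hP)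
  have h2 := orb (Ω := Ω) P.isPGroup'
  have e : #{ω : Ω | ((P.subtype hP : Sylow p K) : Subgroup K) ≤ stabilizer K ω} =
      #{ω : Ω | ∀ r : (P : Subgroup G), r • ω = ω} := by
    congr 1
    ext ω
    simp only [mem_filter, mem_univ, true_and]
    exact ⟨fun h r => h (x := ⟨r, hP r.2⟩) r.2, fun h x hx => h ⟨x, hx⟩⟩
  rw [e] at h1
  obtain ⟨m, rfl⟩ : ∃ m, p = m + 1 := ⟨p - 1, by have := hp.pos; omega⟩
  rw [show 2 * (m + 1) - 1 = 2 * m + 1 by omega] at h1 ⊢
  rw [Nat.add_sub_cancel] at h1 h2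
  refine Nat.le_of_mul_le_mul_left ?_ (Nat.succ_pos m)
  nlinarith [Nat.mul_le_mul_left (2 * m + 1) h2, Nat.mul_le_mul_left m h1]

end Cfsg.Agent.S3580
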