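import Cfsg.Statements.S3592
import Cfsg.Agent.Spor.O7920D

set_option autoImplicit false
open Cfsg

namespace Cfsg.Agent.S3592

open Subgroup Cfsg.Lib.Spor Cfsg.Lib.Spor.O7920 Cfsg.Lib.Known Cfsg.Lib.Block

theorem eleven_dvd {G : Type*} [Group G] [Fintype G] [IsSimpleGroup G] (hG : Nat.card G = 7920)
    {n : ℕ} (hn : ¬ n ∣ 11) : 11 ∣ Nat.card {g : G // orderOf g = n} := by
  classical
  have := Fintype.ofFinite (ConjClasses G)
  have h := Cfsg.Lib.Char.sum_eq_sum_conjClasses (G := G)
    fun C : ConjClasses G => if orderOf C.out = n then 1 else 0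
  have h1 : ∀ g : G, orderOf (ConjClasses.mk g).out = orderOf g := fun g =>
    (orderOf_of_isConj (ConjClasses.mk_eq_mk_iff_isConj.1 (Quotient.out_eq _))).symm
  simp only [h1] at h
  rw [Nat.card_eq_fintype_card, Fintype.card_subtype, Finset.card_filter, h]
  refine Finset.dvd_sum fun C _ => ?_
  split_ifs with hC
  · have h2 := (centralizer ({C.out} : Set G)).card_mul_index
    have h3 := not_11_dvd hG (y := C.out) (hC ▸ hn)
    rw [mul_one, Nat.cast_id]
    exact ((Nat.Prime.dvd_mul (by norm_num)).1 (by rw [h2, hG]; norm_num)).resolve_left h3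
  · simp

/-- Let M be the Mathieu group M₁₁ (order 7920). If a finite group G has the same order as M and the same set of values of the function 'number of elements of order n' (taken over the element orders n that occur), then G is isomorphic to M. -/
theorem result {G : Type*} [Group G] [Finite G]
    (hcard : Nat.card G = Nat.card ↥Cfsg.Spor.M11)
    (hnse : {c : ℕ | 0 < c ∧ ∃ n : ℕ, c = Nat.card {g : G // orderOf g = n}} =
      {c : ℕ | 0 < c ∧ ∃ n : ℕ, c = Nat.card {g : ↥Cfsg.Spor.M11 // orderOf g = n}}) :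
    Nonempty (G ≃* ↥Cfsg.Spor.M11) := by
  have := Fintype.ofFinite Spor.M11
  have := MP.isSimpleGroup_M11
  rw [MP.card_M11] at hcard
  obtain ⟨P⟩ : Nonempty (Sylow 11 G) := inferInstance
  obtain ⟨Q⟩ : Nonempty (Sylow 11 Spor.M11) := inferInstance
  have h1 := SC.card_orderOf_eq_prime P (card_syl11 hcard P)
  have h2 := SC.card_orderOf_eq_prime Q (card_syl11 MP.card_M11 Q)
  have h3 := n11_cases hcard
  rw [n11_of_simple MP.card_M11] at h2
  obtain ⟨-, n, hn⟩ := hnse.le (show Nat.card {g : G // orderOf g = 11} ∈ _ from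
    ⟨by omega, 11, rfl⟩)
  have := isSimpleGroup_of_n144 hcard (by
    by_cases h : n ∣ 11
    · rcases (Nat.dvd_prime (by norm_num)).1 h with rfl | rfl
      · simp only [orderOf_eq_one_iff, Nat.card_unique] at hn
        omega
      · omega
    · have := eleven_dvd MP.card_M11 h
      omega)
  exact isoM11 hcard

end Cfsg.Agent.S3592
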