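import Cfsg.Statements.S3595
import Cfsg.Agent.Spor.O10200960B

set_option autoImplicit false
open Cfsg

namespace Cfsg.Agent.S3595

open Cfsg.Lib.Spor Cfsg.Lib.Spor.O10200960

/-- Let M be the Mathieu group M₂₃ (order 10200960). If a finite group G has the same order as M and the same set of values of the function 'number of elements of order n' (taken over the element orders n that occur), then G is isomorphic to M. -/
theorem result {G : Type*} [Group G] [Finite G]
    (hcard : Nat.card G = Nat.card ↥Cfsg.Spor.M23)
    (hnse : {c : ℕ | 0 < c ∧ ∃ n : ℕ, c = Nat.card {g : G // orderOf g = n}} =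
      {c : ℕ | 0 < c ∧ ∃ n : ℕ, c = Nat.card {g : ↥Cfsg.Spor.M23 // orderOf g = n}}) :
    Nonempty (G ≃* ↥Cfsg.Spor.M23) := by
  have := MP.isSimpleGroup_M23
  obtain ⟨L, Y, θ, δ, ε, h⟩ := blk23 MP.card_M23
  have := Mo.isSimpleGroup_of_nse h (by norm_num) (by norm_num) (by norm_num) (by norm_num) ord
    MP.card_M23 (by decide +kernel) hcard hnse
  exact isoM23 (hcard.trans MP.card_M23)

end Cfsg.Agent.S3595
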