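import Cfsg.Statements.S3599
import Cfsg.Agent.Perm.Spectrum

set_option autoImplicit false
open Cfsg

namespace Cfsg.Agent.S3599

open Cfsg.Lib.Perm

/-- the solutions of `x ^ p = 1` are closed under multiplication -/
def PN (p : ℕ) (Q : Type*) [Group Q] : Prop := ∀ x y : Q, x ^ p = 1 → y ^ p = 1 → (x * y) ^ p = 1

theorem exists_frob {p q : ℕ} (hp : p.Prime) (hq : q.Prime) (hpq : p ≠ q) :
    ∃ (F : Type) (_ : Group F) (_ : Finite F),
      (∀ x : F, orderOf x = 1 ∨ orderOf x = p ∨ orderOf x = q) ∧ (∃ x : F, orderOf x = p) ∧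
      (∃ x : F, orderOf x = q) ∧ PN p F := by
  have := Fact.mk hp
  have := Fact.mk hq
  have hq1 : q - 1 ≠ 0 := by have := hq.two_le; omega
  let K := GaloisField p (q - 1)
  have hd : q ∣ Nat.card Kˣ := by
    rw [Nat.card_units, GaloisField.card p _ hq1]
    refine (Nat.modEq_iff_dvd' (Nat.one_le_pow _ _ hp.pos)).1 ?_
    have := Nat.ModEq.pow_totient ((Nat.coprime_primes hp hq).2 hpq)
    rw [Nat.totient_prime hq] at this
    exact this.symm
  obtain ⟨z, hz⟩ := exists_prime_orderOf_dvd_card' q hd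
  let ρ := Representation.ofDistribMulAction K (Subgroup.zpowers z) K
  have hV : ∀ v : K, p • v = 0 := fun v => by simp
  have hC : ∀ g : Subgroup.zpowers z, g = 1 ∨ orderOf g = q := fun g => by
    have h1 := orderOf_dvd_natCard g
    rw [Nat.card_zpowers, hz, Nat.dvd_prime hq, orderOf_eq_one_iff] at h1
    exact h1
  have key : ∀ x : Aff ρ, (x.right = 1 ∧ (orderOf x = 1 ∨ orderOf x = p)) ∨ orderOf x = q := by
    intro x
    rcases hC x.right with h | h
    · refine Or.inl ⟨h, ?_⟩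
      rcases orderOf_aff_of_exp ρ hp hV x with ⟨-, h'⟩ | ⟨-, h'⟩ <;> rw [h', h, orderOf_one]
      · exact Or.inl rfl
      · exact Or.inr (one_mul p)
    · rcases orderOf_aff_of_exp ρ hp hV x with ⟨-, h'⟩ | ⟨h'', -⟩
      · exact Or.inr (h'.trans h)
      · exfalso
        have h1 := apply_repNorm ρ (pow_orderOf_eq_one x.right) x.left.toAdd
        change ((x.right : Kˣ) : K) * _ = _ at h1
        have h2 : x.right = 1 := Subtype.ext (Units.ext ((mul_eq_right₀ h'').1 h1))
        rw [h2, orderOf_one] at h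
        exact hq.one_lt.ne h
  refine ⟨Aff ρ, inferInstance, inferInstance, fun x => ?_,
    ⟨SemidirectProduct.inl (Multiplicative.ofAdd 1), ?_⟩,
    ⟨SemidirectProduct.inr ⟨z, Subgroup.mem_zpowers z⟩, ?_⟩, fun x y hx hy => ?_⟩
  · rcases key x with ⟨-, h | h⟩ | h
    · exact Or.inl h
    · exact Or.inr (Or.inl h)
    · exact Or.inr (Or.inr h)
  · rw [orderOf_injective _ SemidirectProduct.inl_injective, orderOf_ofAdd_eq_addOrderOf,
      addOrderOf_eq_prime (hV 1) one_ne_zero]
  · rw [orderOf_injective _ SemidirectProduct.inr_injective, Subgroup.orderOf_mk, hz]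
  · have k2 : ∀ x : Aff ρ, x ^ p = 1 → x.right = 1 := fun x hx => by
      rcases key x with ⟨h, -⟩ | h
      · exact h
      · exact absurd ((Nat.prime_dvd_prime_iff_eq hq hp).1 (h ▸ orderOf_dvd_of_pow_eq_one hx))
          hpq.symm
    rcases key (x * y) with ⟨-, h | h⟩ | h
    · rw [orderOf_eq_one_iff.1 h, one_pow]
    · exact orderOf_dvd_iff_pow_eq_one.1 h.dvd
    · have h1 : (x * y).right = 1 := by rw [SemidirectProduct.mul_right, k2 x hx, k2 y hy, one_mul]
      rcases orderOf_aff_of_exp ρ hp hV (x * y) with ⟨-, h'⟩ | ⟨-, h'⟩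
      · rw [h1, orderOf_one] at h'
        rw [orderOf_eq_one_iff.1 h', one_pow]
      · rw [h1, orderOf_one, one_mul] at h'
        exact orderOf_dvd_iff_pow_eq_one.1 h'.dvd

theorem PN.of_surjective {p m : ℕ} (hp : p.Prime) (hm : m.Coprime p) {Q R : Type*} [Group Q]
    [Group R] (h : PN p Q) (he : ∀ x : Q, x ^ (m * p) = 1) (f : Q →* R)
    (hf : Function.Surjective f) : PN p R := by
  obtain ⟨u, -, hu⟩ := Nat.exists_mul_mod_eq_one_of_coprime hm hp.one_lt
  have key : ∀ x : R, x ^ p = 1 → ∃ y : Q, y ^ p = 1 ∧ f y = x := fun x hx => by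
    obtain ⟨y, rfl⟩ := hf x
    refine ⟨y ^ (m * u), ?_, ?_⟩
    · rw [← pow_mul, mul_right_comm, pow_mul, he, one_pow]
    · rw [map_pow, ← Nat.div_add_mod (m * u) p, hu, pow_add, pow_mul, hx, one_pow, one_mul, pow_one]
  intro x y hx hy
  obtain ⟨x', hx', rfl⟩ := key x hx
  obtain ⟨y', hy', rfl⟩ := key y hy
  rw [← map_mul, ← map_pow, h x' y' hx' hy', map_one]

theorem PN.orderOf_mul {p q : ℕ} (hp : p.Prime) (hq : q.Prime) (hpq : p ≠ q) {Q : Type*} [Group Q]
    (h1 : PN p Q) (h2 : PN q Q) {x y : Q} (hx : orderOf x = p) (hy : orderOf y = q) :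
    orderOf (x * y) = p * q := by
  have hxp : x ^ p = 1 := hx ▸ pow_orderOf_eq_one x
  have hyq : y ^ q = 1 := hy ▸ pow_orderOf_eq_one y
  have e1 := h1 x (y * x⁻¹ * y⁻¹) hxp (by rw [conj_pow, inv_pow, hxp]; simp)
  have e2 := h2 (x * y * x⁻¹) y⁻¹ (by rw [conj_pow, hyq]; simp) (by rw [inv_pow, hyq, inv_one])
  have hc := (Nat.coprime_primes hp hq).2 hpq
  have e3 : x * y * x⁻¹ * y⁻¹ = 1 :=
    (pow_eq_one_iff_of_coprime hc).1 ⟨by simpa only [mul_assoc] using e1, e2⟩
  have e4 : Commute x y := by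
    rw [mul_inv_eq_one, mul_inv_eq_iff_eq_mul] at e3
    exact e3
  rw [e4.orderOf_mul_eq_mul_orderOf_of_coprime (by rwa [hx, hy]), hx, hy]


/-- A finite group is critical with respect to a set Ω of natural numbers when its set of element orders is Ω while no proper section H/N (H a subgroup, N normal in H, (H, N) ≠ (whole group, 1)) has Ω as its set of element orders. Let s ≥ 1 and let p(j,0), p(j,1) (j < s) be 2s pairwise distinct primes, and let Ω be the set of all products c(0)·…·c(s−1) with each c(j) ∈ {1, p(j,0), p(j,1)}. Then there are 2^s pairwise non-isomorphic finite groups critical with respect to Ω. -/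
theorem result (s : ℕ) (hs : 1 ≤ s) (p : Fin s → Fin 2 → ℕ)
    (hp : ∀ j i, (p j i).Prime) (hinj : ∀ j i j' i', p j i = p j' i' → j = j' ∧ i = i') :
    ∃ (G : Fin (2 ^ s) → Type) (_ : ∀ a, Group (G a)) (_ : ∀ a, Fintype (G a)),
      (∀ a b, a ≠ b → ¬ Nonempty (G a ≃* G b)) ∧
      ∀ a, Set.range (orderOf : (G a) → ℕ) = {m : ℕ | ∃ c : Fin s → ℕ, (∀ j, c j = 1 ∨ c j = p j 0 ∨ c j = p j 1) ∧ m = ∏ j, c j} ∧
      ∀ (H : Subgroup (G a)) (N : Subgroup ↥H) [N.Normal], (H ≠ ⊤ ∨ N ≠ ⊥) → Set.range (orderOf : (↥H ⧸ N) → ℕ) ≠ {m : ℕ | ∃ c : Fin s → ℕ, (∀ j, c j = 1 ∨ c j = p j 0 ∨ c j = p j 1) ∧ m = ∏ j, c j} := by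
  classical
  set Ω := {m : ℕ | ∃ c : Fin s → ℕ, (∀ j, c j = 1 ∨ c j = p j 0 ∨ c j = p j 1) ∧ m = ∏ j, c j}
    with hΩ
  have hne : ∀ j (i : Fin 2), p j i ≠ p j i.rev := fun j i e => by
    have := (hinj _ _ _ _ e).2
    revert this
    fin_cases i <;> decide
  have hdvd : ∀ (c : Fin s → ℕ), (∀ j, c j = 1 ∨ c j = p j 0 ∨ c j = p j 1) → ∀ j i j',
      p j i ∣ c j' → j = j' ∧ c j' = p j i := fun c hc j i j' h => by
    rcases hc j' with e | e | e
    · rw [e] at h
      exact absurd (Nat.dvd_one.1 h) (hp j i).one_lt.ne'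
    · have := (Nat.prime_dvd_prime_iff_eq (hp _ _) (hp _ _)).1 (e ▸ h)
      exact ⟨(hinj _ _ _ _ this).1, e.trans this.symm⟩
    · have := (Nat.prime_dvd_prime_iff_eq (hp _ _) (hp _ _)).1 (e ▸ h)
      exact ⟨(hinj _ _ _ _ this).1, e.trans this.symm⟩
  have hcop : ∀ (c : Fin s → ℕ), (∀ j, c j = 1 ∨ c j = p j 0 ∨ c j = p j 1) → ∀ j j', j ≠ j' →
      (c j).Coprime (c j') := fun c hc j j' hjj => by
    rcases hc j with e | e | e <;> rw [e]
    · exact Nat.coprime_one_left _
    · exact (Nat.Prime.coprime_iff_not_dvd (hp _ _)).2 fun h => hjj (hdvd c hc _ _ _ h).1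
    · exact (Nat.Prime.coprime_iff_not_dvd (hp _ _)).2 fun h => hjj (hdvd c hc _ _ _ h).1
  have hsq : ∀ n ∈ Ω, ∀ j i, ∃ m : ℕ, m.Coprime (p j i) ∧ n ∣ m * p j i := by
    rintro _ ⟨c, hc, rfl⟩ j i
    rw [← Finset.prod_erase_mul _ _ (Finset.mem_univ j)]
    have h1 : (∏ k ∈ Finset.univ.erase j, c k).Coprime (p j i) := Nat.Coprime.prod_left fun k hk =>
      ((Nat.Prime.coprime_iff_not_dvd (hp _ _)).2 fun h =>
        (Finset.mem_erase.1 hk).1 (hdvd c hc _ _ _ h).1.symm).symm
    by_cases h : p j i ∣ c j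
    · exact ⟨_, h1, by rw [(hdvd c hc _ _ _ h).2]⟩
    · refine ⟨_ * c j, Nat.Coprime.mul_left h1
        ((Nat.Prime.coprime_iff_not_dvd (hp _ _)).2 h).symm, dvd_mul_right _ _⟩
  have hpΩ : ∀ j i, p j i ∈ Ω := fun j i => by
    refine ⟨Function.update (fun _ => 1) j (p j i), fun k => ?_, ?_⟩
    · by_cases hk : k = j
      · subst hk
        rw [Function.update_self]
        fin_cases i
        · exact Or.inr (Or.inl rfl)
        · exact Or.inr (Or.inr rfl)
      · rw [Function.update_of_ne hk]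
        exact Or.inl rfl
    · rw [Finset.prod_update_of_mem (Finset.mem_univ j)]
      simp
  have hpq : ∀ j i, p j i * p j i.rev ∉ Ω := by
    rintro j i ⟨c, hc, h⟩
    obtain ⟨k, -, hk⟩ := (hp j i).prime.exists_mem_finset_dvd (h ▸ dvd_mul_right _ _)
    obtain ⟨l, -, hl⟩ := (hp j i.rev).prime.exists_mem_finset_dvd (h ▸ dvd_mul_left _ _)
    obtain ⟨rfl, h1⟩ := hdvd c hc _ _ _ hk
    obtain ⟨rfl, h2⟩ := hdvd c hc _ _ _ hl
    exact hne _ _ (h1.symm.trans h2)
  have ex : ∀ a : Fin s → Fin 2, ∃ n, ∃ (Q : Type) (_ : Group Q) (_ : Finite Q), Nat.card Q = n ∧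
      Set.range (orderOf : Q → ℕ) = Ω ∧ ∀ j, PN (p j (a j)) Q := fun a => by
    choose F _ _ h1 h2 h3 h4 using fun j => exists_frob (hp j (a j)) (hp j (a j).rev) (hne j (a j))
    have h1' : ∀ j (x : F j), orderOf x = 1 ∨ orderOf x = p j 0 ∨ orderOf x = p j 1 := by
      intro j x
      have := h1 j x
      generalize a j = i at this
      fin_cases i
      · exact this
      · exact this.imp_right Or.symm
    have hord : ∀ g : ∀ j, F j, orderOf g = ∏ j, orderOf (g j) := fun g => by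
      rw [Pi.orderOf, Finset.lcm_eq_prod]
      exact fun j _ k _ hjk => hcop (fun j => orderOf (g j)) (fun j => h1' j _) j k hjk
    refine ⟨_, ∀ j, F j, inferInstance, inferInstance, rfl, ?_, fun j x y hx hy => ?_⟩
    · ext n
      constructor
      · rintro ⟨g, rfl⟩
        exact ⟨_, fun j => h1' j _, hord g⟩
      · rintro ⟨c, hc, rfl⟩
        have : ∀ j, ∃ x : F j, orderOf x = c j := fun j => by
          have e2 := h2 j
          have e3 := h3 j
          rcases hc j with e | e | e <;> rw [e]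
          · exact ⟨1, orderOf_one⟩
          · generalize a j = i at e2 e3
            fin_cases i
            · exact e2
            · exact e3
          · generalize a j = i at e2 e3
            fin_cases i
            · exact e3
            · exact e2
        choose g hg using this
        exact ⟨g, by rw [hord]; exact Finset.prod_congr rfl fun j _ => hg j⟩
    · funext k
      by_cases hk : k = j
      · subst hk
        exact h4 k _ _ (congrFun hx k) (congrFun hy k)
      · have key : ∀ x : ∀ j, F j, x ^ p j (a j) = 1 → x k = 1 := fun x hx => by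
          have e1 : orderOf (x k) ∣ p j (a j) := orderOf_dvd_of_pow_eq_one (congrFun hx k)
          rcases (Nat.dvd_prime (hp _ _)).1 e1 with e | e
          · exact orderOf_eq_one_iff.1 e
          · exact absurd (hdvd (fun j => orderOf (x j)) (fun j => h1' j _) _ _ k e.symm.dvd).1.symm hk
        change (x k * y k) ^ _ = 1
        rw [key x hx, key y hy, one_mul, one_pow]
  choose Q _ _ hc hs hP using fun a => Nat.find_spec (ex a)
  let e : Fin (2 ^ s) ≃ (Fin s → Fin 2) := finFunctionFinEquiv.symm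
  refine ⟨fun a => Q (e a), inferInstance, fun a => Fintype.ofFinite _, ?_, fun a => ⟨hs _, ?_⟩⟩
  · rintro a b hab ⟨φ⟩
    obtain ⟨j, hj⟩ := Function.ne_iff.1 (e.injective.ne hab)
    have h1 : e b j = (e a j).rev := by
      revert hj
      generalize e a j = i, e b j = k
      fin_cases i <;> fin_cases k <;> decide
    have h2 : PN (p j (e a j).rev) (Q (e a)) := fun x y hx hy => φ.injective (by
      have := hP (e b) j (φ x) (φ y)
      rw [h1, ← map_mul, ← map_pow, ← map_pow, ← map_pow, hx, hy, map_one] at this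
      rw [this rfl rfl, map_one])
    obtain ⟨x, hx⟩ : p j (e a j) ∈ Set.range (orderOf : Q (e a) → ℕ) := hs _ ▸ hpΩ _ _
    obtain ⟨y, hy⟩ : p j (e a j).rev ∈ Set.range (orderOf : Q (e a) → ℕ) := hs _ ▸ hpΩ _ _
    exact hpq j (e a j) (hs (e a) ▸ ⟨x * y, PN.orderOf_mul (hp _ _) (hp _ _) (hne _ _) (hP _ j) h2
      hx hy⟩)
  · intro H N _ hHN hsp
    refine Nat.find_min (ex (e a)) (m := Nat.card (H ⧸ N)) ?_
      ⟨H ⧸ N, inferInstance, inferInstance, rfl, hsp, fun j => ?_⟩
    · rw [← hc]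
      have h1 := Subgroup.card_eq_card_quotient_mul_card_subgroup N
      have h2 := H.card_le_card_group
      have h3 : 0 < Nat.card (H ⧸ N) := Nat.card_pos
      have h4 : 0 < Nat.card N := Nat.card_pos
      rcases hHN with h | h
      · have := h2.lt_of_ne fun e => h (Subgroup.eq_top_of_card_eq H e)
        nlinarith
      · have := (Subgroup.one_lt_card_iff_ne_bot N).2 h
        nlinarith
    · have h1 : ∀ x : H, ∃ m : ℕ, m.Coprime (p j (e a j)) ∧ orderOf x ∣ m * p j (e a j) :=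
        fun x => hsq _ (hs (e a) ▸ ⟨x, (Subgroup.orderOf_coe x)⟩) j _
      choose m hm1 hm2 using h1
      have := Fintype.ofFinite H
      refine PN.of_surjective (m := ∏ x, m x) (hp _ _) (Nat.Coprime.prod_left fun x _ => hm1 x)
        (fun (x y : H) hx hy => Subtype.ext (show ((x : Q (e a)) * y) ^ p j (e a j) = 1 from
          hP (e a) j x y (congrArg Subtype.val hx) (congrArg Subtype.val hy))) (fun x => orderOf_dvd_iff_pow_eq_one.1 ((hm2 x).trans
            (mul_dvd_mul_right (Finset.dvd_prod_of_mem _ (Finset.mem_univ x)) _)))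
        (QuotientGroup.mk' N) (QuotientGroup.mk'_surjective N)

end Cfsg.Agent.S3599
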