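import Cfsg.Statements.S3619
import Cfsg.Agent.Perm.JordanSet

set_option autoImplicit false
open Cfsg

namespace Cfsg.Agent.S3619

open Cfsg.Lib.Perm MulAction Finset
open scoped Pointwise


/-- Let G act faithfully on a finite set in such a way that every non-trivial normal subgroup of G is transitive (G is quasiprimitive). Let Γ be a subset with more than one point and not the whole set, such that the pointwise stabilizer of the complement of Γ acts transitively on Γ (a Jordan set). If that pointwise stabilizer acts primitively on Γ, then G is k-fold transitive where k is one more than the number of points outside Γ (the Jordan set is a trivial one). -/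
theorem result {G Ω : Type*} [Group G] [Finite G] [MulAction G Ω] [FaithfulSMul G Ω] [Finite Ω]
    (hqp : ∀ N : Subgroup G, N.Normal → N ≠ ⊥ → MulAction.IsPretransitive ↥N Ω)
    (Γ : Set Ω) (hΓ1 : 1 < Γ.ncard) (hΓ2 : Γ.ncard < Nat.card Ω)
    (hJ : MulAction.IsPretransitive ↥(fixingSubgroup G Γᶜ) ↥(SubMulAction.ofFixingSubgroup G Γᶜ))
    (hJp : MulAction.IsPreprimitive ↥(fixingSubgroup G Γᶜ) ↥(SubMulAction.ofFixingSubgroup G Γᶜ)) :
    MulAction.IsMultiplyPretransitive G Ω (Nat.card Ω - Γ.ncard + 1) := by
  classical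
  have := Fintype.ofFinite Ω
  have hA := jset_of_pretrans hJ
  have hprim : IsPreprimitive G Ω := by
    by_contra hG
    obtain ⟨M, π, -, equi, -, -, fib, sat, x, hx, y, hy, hxy⟩ := hA.exists_blocks hqp
      (by rwa [← Set.ncard_eq_toFinset_card Γ])
      (by rwa [← Set.ncard_eq_toFinset_card Γ, ← Nat.card_eq_fintype_card]) hG
    have mem : ∀ z ∈ Γ.toFinite.toFinset, z ∈ SubMulAction.ofFixingSubgroup G Γᶜ := fun z hz => by
      simpa [SubMulAction.mem_ofFixingSubgroup_iff] using hz
    have hB : IsBlock (fixingSubgroup G Γᶜ)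
        {z : SubMulAction.ofFixingSubgroup G Γᶜ | π z = π x} := by
      rw [isBlock_iff_smul_eq_of_nonempty]
      rintro g ⟨_, ⟨u, hu, rfl⟩, hv⟩
      have e : (g : G) • π x = π x := by
        rw [← show π u = π x from hu, ← equi, show π u = π x from hu]; exact hv
      ext w
      rw [Set.mem_smul_set_iff_inv_smul_mem]
      change π ((g : G)⁻¹ • (w : Ω)) = π x ↔ π w = π x
      rw [equi, inv_smul_eq_iff, e]
    obtain ⟨z, hz, e⟩ := fib x
    rcases hJp.isTrivialBlock_of_isBlock hB with h | h
    · exact hz (congrArg Subtype.val (h (x := ⟨z, mem z (sat x z e.symm hx)⟩) e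
        (y := ⟨x, mem x hx⟩) rfl))
    · exact hxy (h.ge (Set.mem_univ ⟨y, mem y hy⟩)).symm
  have hc := Set.ncard_add_ncard_compl Γ
  have h4 := hprim.isMultiplyPreprimitive (s := Γᶜ) (n := Γᶜ.ncard - 1) (by omega) (by omega) hJp
  rw [show Nat.card Ω - Γ.ncard + 1 = Γᶜ.ncard - 1 + 2 by omega]
  exact h4.isMultiplyPretransitive

end Cfsg.Agent.S3619
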