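import Cfsg.Statements.S3620
import Cfsg.Agent.Perm.JordanSet

set_option autoImplicit false
open Cfsg

namespace Cfsg.Agent.S3620

open Cfsg.Lib.Perm MulAction Finset
open scoped Pointwise

theorem card_fib {G Ω S : Type*} [Group G] [MulAction G Ω] [MulAction G S] [Fintype Ω]
    [DecidableEq S] [IsPretransitive G S] (π : Ω → S) (equi : ∀ (g : G) x, π (g • x) = g • π x)
    (s : S) (T : Finset S) :
    (univ.filter fun x => π x ∈ T).card = T.card * (univ.filter fun x => π x = s).card := by
  classical
  rw [← sum_card_fiberwise_eq_card_filter, ← smul_eq_mul, ← sum_const]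
  refine sum_congr rfl fun t _ => ?_
  obtain ⟨g, rfl⟩ := exists_smul_eq G s t
  rw [← card_smul_finset g (univ.filter fun x => π x = s)]
  congr 1
  ext x
  simp [← inv_smul_mem_iff, equi, inv_smul_eq_iff]


/-- Let G act faithfully on a finite set in such a way that every non-trivial normal subgroup of G is transitive (G is quasiprimitive). Let Γ be a subset with more than one point and fewer than half of the points, such that the pointwise stabilizer of the complement of Γ acts transitively on Γ. Then G induces every even permutation of the set (G is the alternating or the symmetric group). -/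
theorem result {G Ω : Type*} [Group G] [Finite G] [MulAction G Ω] [FaithfulSMul G Ω] [Fintype Ω] [DecidableEq Ω]
    (hqp : ∀ N : Subgroup G, N.Normal → N ≠ ⊥ → MulAction.IsPretransitive ↥N Ω)
    (Γ : Set Ω) (hΓ1 : 1 < Γ.ncard) (hΓ2 : 2 * Γ.ncard < Fintype.card Ω)
    (hJ : MulAction.IsPretransitive ↥(fixingSubgroup G Γᶜ) ↥(SubMulAction.ofFixingSubgroup G Γᶜ)) :
    ∀ σ : Equiv.Perm Ω, Equiv.Perm.sign σ = 1 → ∃ x : G, (MulAction.toPerm x : Equiv.Perm Ω) = σ := by
  classical
  have hA := jset_of_pretrans hJ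
  rw [Set.ncard_eq_toFinset_card Γ] at hΓ1 hΓ2
  set A := Γ.toFinite.toFinset
  have hprim : IsPreprimitive G Ω := by
    by_contra hG
    obtain ⟨M, π, prim, equi, surj, faith, fib, sat, x, hx, y, hy, hxy⟩ :=
      hA.exists_blocks hqp hΓ1 (by omega) hG
    have := Fintype.ofFinite (G ⧸ M)
    have hB : JSet G (A.image π) := by
      intro _ h1 _ h2
      obtain ⟨u, hu, rfl⟩ := mem_image.1 h1
      obtain ⟨w, hw, rfl⟩ := mem_image.1 h2
      obtain ⟨g, hg, rfl⟩ := hA u hu w hw
      refine ⟨g, fun z hz => ?_, (equi _ _).symm⟩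
      obtain ⟨z, rfl⟩ := surj z
      rw [← equi, hg z fun h => hz (mem_image_of_mem _ h)]
    have memB : ∀ z, π z ∈ A.image π ↔ z ∈ A := fun z => ⟨fun h => by
      obtain ⟨u, hu, e⟩ := mem_image.1 h
      exact sat u z e hu, mem_image_of_mem _⟩
    have c1 := card_fib π equi (π x) (A.image π)
    have c2 := card_fib π equi (π x) univ
    simp only [memB, filter_mem_eq_inter, univ_inter, mem_univ, filter_true, card_univ] at c1 c2
    have c3 : 2 * (A.image π).card < Fintype.card (G ⧸ M) := by
      rw [c1, c2, ← mul_assoc] at hΓ2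
      exact lt_of_mul_lt_mul_right hΓ2 (Nat.zero_le _)
    have c4 : 1 < (A.image π).card :=
      one_lt_card.2 ⟨_, mem_image_of_mem _ hx, _, mem_image_of_mem _ hy, hxy⟩
    have ht := multTrans_of_alt_le (hB.marggraf prim c4 c3)
    set B := A.image π with hBd
    have hxB : π x ∈ B := mem_image_of_mem _ hx
    obtain ⟨T, hT, hTc⟩ := exists_subset_card_eq (s := Bᶜ) (n := B.card - 1) (by
      have := card_add_card_compl B; omega)
    have hxT : π x ∉ T := fun h => mem_compl.1 (hT h) hxB
    obtain ⟨g, hg⟩ := exists_smul_finset_eq ht (by omega) (S := B) (T := insert (π x) T) (by omega)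
      (by rw [card_insert_of_notMem hxT]; omega)
    obtain ⟨t, htT⟩ := card_pos.1 (show 0 < T.card by omega)
    obtain ⟨w, rfl⟩ := surj t
    have memg : ∀ z, z ∈ g • A ↔ π z ∈ insert (π x) T := fun z => by
      rw [← hg, ← inv_smul_mem_iff, ← inv_smul_mem_iff, ← equi, memB]
    obtain ⟨x', hx', e⟩ := fib x
    obtain ⟨u, hu, eu⟩ := hA x hx x' (sat x x' e.symm hx)
    obtain ⟨v, hv, ev⟩ := hA.smul g x ((memg x).2 (mem_insert_self _ _)) w
      ((memg w).2 (mem_insert_of_mem htT))
    have hux : u • π x = π x := by rw [← equi, eu, e]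
    have hu' : ∀ q ∈ insert (π x) T, u • q = q := fun q hq => by
      rcases mem_insert.1 hq with rfl | hq
      · exact hux
      · obtain ⟨z, rfl⟩ := surj q
        rw [← equi, hu z fun h => mem_compl.1 (hT hq) ((memB z).2 h)]
    have hv' : ∀ q ∉ insert (π x) T, v • q = q := fun q hq => by
      obtain ⟨z, rfl⟩ := surj q
      rw [← equi, hv z fun h => hq ((memg z).1 h)]
    have hc : (v * u)⁻¹ * (u * v) = 1 := faith _ fun q => by
      rw [mul_smul, inv_smul_eq_iff, mul_smul, mul_smul]
      by_cases hq : q ∈ insert (π x) T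
      · rw [hu' q hq, hu' _ (smul_mem_of_fix hv' hq)]
      · rw [hv' q hq, hv' _ fun h => hq (by rwa [smul_left_cancel u (hu' (u • q) h)] at h)]
    have h5 := congrArg (· • x) (inv_mul_eq_one.1 hc)
    simp only [mul_smul] at h5
    rw [eu, ev, hu w fun h => mem_compl.1 (hT htT) ((memB w).2 h), ← ev] at h5
    exact hx' (smul_left_cancel v h5)
  intro σ hσ
  exact hA.marggraf hprim hΓ1 hΓ2 (Equiv.Perm.mem_alternatingGroup.2 hσ)

end Cfsg.Agent.S3620
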