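import Cfsg.Statements.S3627
import Mathlib
import Cfsg.Agent.Known.J1Spec

set_option autoImplicit false
open Cfsg

namespace Cfsg.Agent.S3627

open Cfsg.Lib.Known.J1Spec

set_option synthInstance.maxSize 4000
set_option maxRecDepth 10000

theorem range_eq {H : Type*} [Group H] [Finite H]
    (h1 : ∀ g : H, ∃ p ∈ [2, 3, 5, 7, 11, 19], orderOf g ∣ 43890 / p)
    (h2 : ∀ p ∈ [2, 3, 5, 7, 11, 19], ∃ g : H, orderOf g = 43890 / p) :
    Set.range (orderOf : H → ℕ) = {d | ∃ p ∈ [2, 3, 5, 7, 11, 19], d ∣ 43890 / p} := by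
  ext d
  refine ⟨by rintro ⟨g, rfl⟩; exact h1 g, fun ⟨p, hp, hd⟩ => ?_⟩
  obtain ⟨g, hg⟩ := h2 p hp
  exact ⟨_, orderOf_pow_div (hg ▸ hd)⟩

/-- The coefficient ring. -/
abbrev R := ZMod 7 × ZMod 7 × ZMod 7 × ZMod 11 × ZMod 11 × ZMod 11 × ZMod 19 × ZMod 19

/-- The acting group. -/
abbrev K := ZMod 2 × ZMod 2 × ZMod 3 × ZMod 5

/-- The action. -/
def chi (k : K) : R := ((-1) ^ k.1.val, (-1) ^ (k.1.val + k.2.1.val), 2 ^ k.2.2.1.val,
  (-1) ^ k.2.1.val, (-1) ^ (k.1.val + k.2.1.val), 3 ^ k.2.2.2.val, (-1) ^ k.2.1.val, (-1) ^ k.1.val)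

theorem chi_add : ∀ k l : K, chi (k + l) = chi k * chi l := by decide +kernel

theorem chi_zero : chi 0 = 1 := by decide +kernel

/-- The semidirect product. -/
def Aff (N : ℕ) : Type := (Fin N → R) × K

instance instGroupAff (N : ℕ) : Group (Aff N) :=
  @Group.ofLeftAxioms _ ⟨fun a b => (a.1 + chi a.2 • b.1, a.2 + b.2)⟩
    ⟨fun a => (-(chi (-a.2) • a.1), -a.2)⟩ ⟨(0, 0)⟩
    (fun a b c => Prod.ext (by
      change a.1 + chi a.2 • b.1 + chi (a.2 + b.2) • c.1 = a.1 + chi a.2 • (b.1 + chi b.2 • c.1)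
      rw [chi_add, mul_smul, smul_add, add_assoc]) (add_assoc _ _ _))
    (fun a => Prod.ext (by
      change 0 + chi 0 • a.1 = a.1
      rw [chi_zero, one_smul, zero_add]) (zero_add _))
    (fun a => Prod.ext (neg_add_cancel _) (neg_add_cancel _))

instance instFintypeAff (N : ℕ) : Fintype (Aff N) := inferInstanceAs (Fintype ((Fin N → R) × K))

theorem aff_pow {N : ℕ} (a : Aff N) (n : ℕ) :
    a ^ n = ((∑ i ∈ Finset.range n, chi a.2 ^ i) • a.1, n • a.2) := by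
  induction n with
  | zero => exact Prod.ext (zero_smul _ _).symm (zero_smul _ _).symm
  | succ n ih =>
    rw [pow_succ', ih]
    refine Prod.ext ?_ (succ_nsmul' _ _).symm
    change a.1 + chi a.2 • ((∑ i ∈ Finset.range n, chi a.2 ^ i) • a.1) = _
    rw [Finset.sum_range_succ', pow_zero, add_smul, one_smul, add_comm, smul_smul, Finset.mul_sum]
    simp only [pow_succ']

theorem upper : ∀ k : K, ∃ x ∈ [(2, 15, 1463), (3, 10, 1463), (5, 6, 1463), (7, 30, 209),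
    (11, 30, 133), (19, 30, 77)], x.2.1 • k = 0 ∧
      ((x.2.2 : ℕ) : R) * ∑ i ∈ Finset.range x.2.1, chi k ^ i = 0 := by decide +kernel

theorem lower : ∀ p ∈ [2, 3, 5, 7, 11, 19], ∃ x ∈ ([((1, 0, 0, 1, 0, 0, 1, 0), (0, 0, 1, 1)),
    ((0, 0, 1, 1, 0, 0, 1, 0), (1, 0, 0, 1)), ((1, 0, 0, 0, 0, 1, 0, 1), (0, 1, 1, 0)),
    ((0, 0, 0, 1, 0, 0, 1, 0), (1, 0, 1, 1)), ((1, 0, 0, 0, 0, 0, 0, 1), (0, 1, 1, 1)),
    ((0, 1, 0, 0, 1, 0, 0, 0), (1, 1, 1, 1))] : List (R × K)), chi x.2 * x.1 = x.1 ∧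
      (43890 / p) • x = 0 ∧ ∀ r ∈ [2, 3, 5, 7, 11, 19], r ≠ p → (43890 / p / r) • x ≠ 0 := by
  decide +kernel

theorem mem_of_prime {p r : ℕ} (hp : p ∈ [2, 3, 5, 7, 11, 19]) (hr : r.Prime)
    (h : r ∣ 43890 / p) : r ∈ [2, 3, 5, 7, 11, 19] ∧ r ≠ p := by
  have h1 : r ∣ 2 * 3 * 5 * 7 * 11 * 19 := h.trans (Nat.div_dvd_of_dvd
    ((by decide : ∀ p ∈ [2, 3, 5, 7, 11, 19], p ∣ 43890) p hp))
  simp only [hr.dvd_mul, Nat.prime_dvd_prime_iff_eq hr (by norm_num : Nat.Prime 2),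
    Nat.prime_dvd_prime_iff_eq hr (by norm_num : Nat.Prime 3),
    Nat.prime_dvd_prime_iff_eq hr (by norm_num : Nat.Prime 5),
    Nat.prime_dvd_prime_iff_eq hr (by norm_num : Nat.Prime 7),
    Nat.prime_dvd_prime_iff_eq hr (by norm_num : Nat.Prime 11),
    Nat.prime_dvd_prime_iff_eq hr (by norm_num : Nat.Prime 19)] at h1
  refine ⟨by simp only [List.mem_cons]; tauto, ?_⟩
  rintro rfl
  exact (by decide : ∀ r ∈ [2, 3, 5, 7, 11, 19], ¬ r ∣ 43890 / r) r hp h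

/-- Let J be the first Janko group. Then there are finite groups of arbitrarily large order with exactly the same set of element orders as J × J × J × J. -/
theorem result (N : ℕ) : ∃ (H : Type) (_ : Group H) (_ : Fintype H), N < Fintype.card H ∧
      Set.range (orderOf : H → ℕ) = Set.range (orderOf : ↥Cfsg.Spor.J1 × ↥Cfsg.Spor.J1 × ↥Cfsg.Spor.J1 × ↥Cfsg.Spor.J1 → ℕ) := by
  refine ⟨Aff (N + 1), inferInstance, inferInstance, ?_, (range_eq (fun g => ?_) fun p hp => ?_).trans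
    (range_eq (fun g => ?_) fun p hp => ?_).symm⟩
  · rw [show Fintype.card (Aff (N + 1)) = Fintype.card ((Fin (N + 1) → R) × K) from rfl,
      Fintype.card_prod, Fintype.card_fun, Fintype.card_fin]
    exact ((Nat.lt_succ_self N).trans (Nat.lt_pow_self Fintype.one_lt_card)).trans_le
      (Nat.le_mul_of_pos_right _ Fintype.card_pos)
  · obtain ⟨x, hx, h1, h2⟩ := upper g.2
    obtain ⟨h3, h4⟩ := (by decide : ∀ x ∈ [(2, 15, 1463), (3, 10, 1463), (5, 6, 1463), (7, 30, 209),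
      (11, 30, 133), (19, 30, 77)], x.1 ∈ [2, 3, 5, 7, 11, 19] ∧ 43890 / x.1 = x.2.1 * x.2.2) x hx
    refine ⟨x.1, h3, orderOf_dvd_of_pow_eq_one ?_⟩
    rw [h4, pow_mul, aff_pow, aff_pow]
    simp only [h1, chi_zero, one_pow, Finset.sum_const, Finset.card_range, nsmul_eq_mul, mul_one,
      smul_smul, h2, zero_smul, smul_zero]
    rfl
  · obtain ⟨x, -, h1, h2, h3⟩ := lower p hp
    have key : ∀ n : ℕ, (show Aff (N + 1) from (fun _ => x.1, x.2)) ^ n = 1 ↔ n • x = 0 := fun n => by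
      have h4 : ∀ i : ℕ, chi x.2 ^ i * x.1 = x.1 := fun i => by
        induction i with
        | zero => simp
        | succ i ih => rw [pow_succ, mul_assoc, h1, ih]
      have h5 : (∑ i ∈ Finset.range n, chi x.2 ^ i) * x.1 = n • x.1 := by
        simp [Finset.sum_mul, h4]
      rw [aff_pow]
      exact ⟨fun h => Prod.ext (h5.symm.trans (congrFun (congrArg Prod.fst h) 0))
        (congrArg Prod.snd h :), fun h => Prod.ext (funext fun _ => h5.trans (congrArg Prod.fst h))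
          (congrArg Prod.snd h :)⟩
    exact ⟨_, orderOf_eq_of_pow_and_pow_div_prime 
      ((by decide : ∀ p ∈ [2, 3, 5, 7, 11, 19], 0 < 43890 / p) p hp) ((key _).mpr h2)
      fun r hr h => mt (key _).mp (h3 r (mem_of_prime hp hr h).1 (mem_of_prime hp hr h).2)⟩
  · rw [Prod.orderOf, Prod.orderOf, Prod.orderOf]
    exact (by decide +kernel : ∀ a ∈ [1, 2, 3, 5, 6, 7, 10, 11, 15, 19],
      ∀ b ∈ [1, 2, 3, 5, 6, 7, 10, 11, 15, 19], ∀ c ∈ [1, 2, 3, 5, 6, 7, 10, 11, 15, 19],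
      ∀ d ∈ [1, 2, 3, 5, 6, 7, 10, 11, 15, 19], ∃ p ∈ [2, 3, 5, 7, 11, 19],
        Nat.lcm a (Nat.lcm b (Nat.lcm c d)) ∣ 43890 / p) _ (orderOf_dvd _) _ (orderOf_dvd _)
      _ (orderOf_dvd _) _ (orderOf_dvd _)
  · obtain ⟨a, ha, b, hb, c, hc, d, hd, h⟩ := (by decide +kernel : ∀ p ∈ [2, 3, 5, 7, 11, 19],
      ∃ a ∈ [6, 7, 10, 11, 15, 19], ∃ b ∈ [6, 7, 10, 11, 15, 19], ∃ c ∈ [6, 7, 10, 11, 15, 19],
      ∃ d ∈ [6, 7, 10, 11, 15, 19], Nat.lcm a (Nat.lcm b (Nat.lcm c d)) = 43890 / p) p hp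
    obtain ⟨a, rfl⟩ := exists_orderOf a ha
    obtain ⟨b, rfl⟩ := exists_orderOf b hb
    obtain ⟨c, rfl⟩ := exists_orderOf c hc
    obtain ⟨d, rfl⟩ := exists_orderOf d hd
    exact ⟨(a, b, c, d), by rw [Prod.orderOf, Prod.orderOf, Prod.orderOf, h]⟩

end Cfsg.Agent.S3627
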