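import Cfsg.Statements.S3662
import Cfsg.Agent.Perm.SpecFpf
import Cfsg.Agent.Perm.SmallFields
import Cfsg.Agent.Chev.RepG2
import Cfsg.Agent.Chev.CartanKer
import Cfsg.Agent.S1059

set_option autoImplicit false
open Cfsg

namespace Cfsg.Agent.S3662

open Cfsg.Lib.Perm Cfsg.Lib.Chev Cfsg.Lib.Chev.Core Cfsg.Lie Matrix

/-- The matrix of a root element on the octonions. -/
noncomputable def X (K : Type*) [CommRing K] (r : ℕ) (t : K) : Matrix (Fin 8) (Fin 8) K :=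
  rtabG2.finCoding.mat K r t

theorem gC_map {K L : Type*} [CommRing K] [CommRing L] (φ : K →+* L) (t : K) {P : RTab}
    (l : List (ℕ × ℕ × ℤ)) (a : Fin P.d) :
    gC (P.finCoding.bv L) (φ t) l a = φ (gC (P.finCoding.bv K) t l a) := by
  induction l with
  | nil => simp [gC]
  | cons c l ih =>
    rw [gC_cons, gC_cons, Pi.add_apply, Pi.add_apply, map_add, ih]
    simp [RTab.Coding.bv, apply_ite φ]

theorem X_map {K L : Type*} [CommRing K] [CommRing L] (φ : K →+* L) (r : ℕ) (t : K) :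
    X L r (φ t) = (X K r t).map φ := by
  ext a b
  exact gC_map φ t (P := rtabG2) (rtabG2.col r b) a

/-- The six nonzero weights. -/
def ι : Fin 6 → Fin 8 := ![1, 2, 3, 4, 5, 6]

/-- The matrix fixes the identity and the trace. -/
def Good {K : Type*} [CommRing K] (A : Matrix (Fin 8) (Fin 8) K) : Prop :=
  (∀ i, A i 0 + A i 7 = (1 : Matrix (Fin 8) (Fin 8) K) i 0 + (1 : Matrix (Fin 8) (Fin 8) K) i 7) ∧
  (∀ j, A 0 j + A 7 j = (1 : Matrix (Fin 8) (Fin 8) K) 0 j + (1 : Matrix (Fin 8) (Fin 8) K) 7 j)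

theorem Good.mul {K : Type*} [CommRing K] {A B : Matrix (Fin 8) (Fin 8) K} (hA : Good A)
    (hB : Good B) : Good (A * B) := by
  refine ⟨fun i => ?_, fun j => ?_⟩
  · rw [← hA.1 i, Matrix.mul_apply, Matrix.mul_apply, ← Finset.sum_add_distrib]
    simp only [← mul_add, hB.1]
    simp [mul_add, Finset.sum_add_distrib, Matrix.one_apply]
  · rw [← hB.2 j, Matrix.mul_apply, Matrix.mul_apply, ← Finset.sum_add_distrib]
    simp only [← add_mul, hA.2]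
    simp [add_mul, Finset.sum_add_distrib, Matrix.one_apply]

theorem Good.sub_mul {K : Type*} [CommRing K] [CharP K 2] {A B : Matrix (Fin 8) (Fin 8) K}
    (hA : Good A) (hB : Good B) :
    (A * B).submatrix ι ι = A.submatrix ι ι * B.submatrix ι ι := by
  ext i j
  have h1 : A (ι i) 0 + A (ι i) 7 = 0 := by
    rw [hA.1]; fin_cases i <;> simp [ι, Matrix.one_apply]
  have h2 : B 0 (ι j) + B 7 (ι j) = 0 := by
    rw [hB.2]; fin_cases j <;> simp [ι, Matrix.one_apply]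
  have h3 : (2 : K) = 0 := CharTwo.two_eq_zero
  simp only [Matrix.submatrix_apply, Matrix.mul_apply, Fin.sum_univ_eight, Fin.sum_univ_six]
  change _ = A (ι i) 1 * B 1 (ι j) + A (ι i) 2 * B 2 (ι j) + A (ι i) 3 * B 3 (ι j) +
    A (ι i) 4 * B 4 (ι j) + A (ι i) 5 * B 5 (ι j) + A (ι i) 6 * B 6 (ι j)
  linear_combination B 7 (ι j) * h1 + A (ι i) 0 * h2 - A (ι i) 0 * B 7 (ι j) * h3

theorem Good.map {K L : Type*} [CommRing K] [CommRing L] (φ : K →+* L)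
    {A : Matrix (Fin 8) (Fin 8) K} (hA : Good A) : Good (A.map φ) := by
  refine ⟨fun i => ?_, fun j => ?_⟩
  · have := congrArg φ (hA.1 i)
    simpa [Matrix.one_apply, apply_ite φ] using this
  · have := congrArg φ (hA.2 j)
    simpa [Matrix.one_apply, apply_ite φ] using this

theorem good_X : ∀ r < 12, ∀ t : F4, Good (X F4 r t) := by
  unfold Good
  decide +kernel

/-- The six-dimensional matrices. -/
noncomputable def Y (r : ℕ) (t : F4) : Matrix (Fin 6) (Fin 6) F4 := (X F4 r t).submatrix ι ι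

theorem exists_rep {F : Type*} [Field F] [Fintype F] [CharP F 2] (φ : F4 →+* F)
    (hφ : Function.Surjective φ) :
    ∃ f : chevG2.group F →* Matrix (Fin 6) (Fin 6) F,
      ∀ r < 12, ∀ t, f (xG chevG2 F r (φ t)) = φ.mapMatrix (Y r t) := by
  obtain ⟨ρ, hρ⟩ := certG2.exists_hom rootG2 (repG2.stRelN repG2.P.finCoding F rootG2)
    (fun c hc => by
      have := Subgroup.card_eq_one.mp (card_ker_cartanHom_G2 Fˣ)
      rw [this, Subgroup.mem_bot] at hc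
      rw [hc, map_one])
  let ρ' : chevG2.group F →* Matrix (Fin 8) (Fin 8) F := (Units.coeHom _).comp ρ
  have hρ' : ∀ r < 12, ∀ t, ρ' (xG chevG2 F r (φ t)) = (X F4 r t).map φ := by
    intro r hr t
    rw [← X_map]
    exact congrArg Units.val (hρ r hr (φ t))
  have hg : ∀ g, Good (ρ' g) := by
    intro g
    have hm : g ∈ Subgroup.closure {g | ∃ r t, r < chevG2.nroots ∧ g = xG chevG2 F r t} := by
      rw [certG2.closure_xG_eq_top rootG2]; trivial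
    rw [← Subgroup.mem_toSubmonoid, Subgroup.closure_toSubmonoid_of_finite] at hm
    induction hm using Submonoid.closure_induction with
    | mem x hx =>
      obtain ⟨r, t, hr, rfl⟩ := hx
      obtain ⟨t, rfl⟩ := hφ t
      rw [hρ' r hr]
      exact (good_X r hr t).map φ
    | one => rw [map_one]; exact ⟨fun _ => rfl, fun _ => rfl⟩
    | mul x y _ _ hx hy => rw [map_mul]; exact hx.mul hy
  refine ⟨⟨⟨fun g => (ρ' g).submatrix ι ι, ?_⟩, fun g h => ?_⟩, fun r hr t => ?_⟩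
  · rw [map_one]
    exact Matrix.submatrix_one ι (by decide)
  · simp only [map_mul]
    exact (hg g).sub_mul (hg h)
  · change (ρ' _).submatrix ι ι = _
    rw [hρ' r hr]
    rfl

/-- A generator of the field. -/
abbrev w : F4 := ⟨0, 1⟩
/-- Its square. -/
abbrev v : F4 := ⟨1, 1⟩

/-- An explicit matrix. -/
def m1 : Matrix (Fin 6) (Fin 6) F4 := !![1, 0, 0, 0, 0, 0; 0, 1, 0, 0, 0, 0; 1, 0, 1, 0, 0, 0; 0, 0, 0, 1, 0, 1; 0, 0, 0, 0, 1, 0; 0, 0, 0, 0, 0, 1]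
theorem y0_1 : Y 0 1 = m1 := by decide +kernel
/-- An explicit matrix. -/
def m2 : Matrix (Fin 6) (Fin 6) F4 := !![1, 0, 0, 0, 0, 0; 0, 1, 0, 0, 0, 0; 0, 0, 1, 0, 0, 1; 0, 1, 0, 1, 0, 0; 1, 0, 0, 0, 1, 0; 0, 0, 0, 0, 0, 1]
theorem y2_1 : Y 2 1 = m2 := by decide +kernel
/-- An explicit matrix. -/
def m3 : Matrix (Fin 6) (Fin 6) F4 := !![1, 0, 0, 0, 0, 0; 0, 1, 0, 0, 0, 0; 1, 0, 1, 0, 0, 1; 0, 1, 0, 1, 0, 1; 1, 0, 0, 0, 1, 0; 0, 0, 0, 0, 0, 1]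
theorem e1 : m1 * m2 = m3 := by decide +kernel
/-- An explicit matrix. -/
def m4 : Matrix (Fin 6) (Fin 6) F4 := !![1, 0, 1, 0, 0, 0; 0, 1, 0, 0, 0, 0; 0, 0, 1, 0, 0, 0; 0, 0, 0, 1, 0, 0; 0, 0, 0, 0, 1, 0; 0, 0, 0, 1, 0, 1]
theorem y11_1 : Y 11 1 = m4 := by decide +kernel
/-- An explicit matrix. -/
def m5 : Matrix (Fin 6) (Fin 6) F4 := !![1, 0, 1, 0, 0, 0; 0, 1, 0, 0, 0, 0; 1, 0, 0, 1, 0, 1; 0, 1, 0, 0, 0, 1; 1, 0, 1, 0, 1, 0; 0, 0, 0, 1, 0, 1]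
theorem e2 : m3 * m4 = m5 := by decide +kernel
theorem w6 : Y 0 1 * Y 2 1 * Y 11 1 = m5 := by rw [y0_1, y2_1, y11_1, e1, e2]
/-- An explicit matrix. -/
def m6 : Matrix (Fin 6) (Fin 6) F4 := !![0, 0, 1, 1, 0, 1; 0, 1, 0, 0, 0, 0; 1, 1, 1, 1, 0, 0; 0, 1, 0, 1, 0, 1; 1, 0, 0, 1, 1, 1; 0, 1, 0, 1, 0, 0]
theorem e3 : m5 * m5 = m6 := by decide +kernel
theorem p6_2 : m5 ^ 2 = m6 := by rw [pow_two, e3]
/-- An explicit matrix. -/
def m7 : Matrix (Fin 6) (Fin 6) F4 := !![1, 1, 0, 0, 0, 1; 0, 1, 0, 0, 0, 0; 0, 0, 1, 1, 0, 0; 0, 0, 0, 1, 0, 0; 0, 1, 0, 1, 1, 0; 0, 0, 0, 0, 0, 1]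
theorem e4 : m6 * m5 = m7 := by decide +kernel
theorem p6_3 : m5 ^ 3 = m7 := by rw [pow_succ, p6_2, e4]
/-- An explicit matrix. -/
def m8 : Matrix (Fin 6) (Fin 6) F4 := !![1, 1, 1, 1, 0, 1; 0, 1, 0, 0, 0, 0; 1, 1, 0, 1, 0, 0; 0, 1, 0, 0, 0, 1; 1, 0, 1, 0, 1, 1; 0, 0, 0, 1, 0, 1]
theorem e5 : m7 * m5 = m8 := by decide +kernel
theorem p6_4 : m5 ^ 4 = m8 := by rw [pow_succ, p6_3, e5]
/-- An explicit matrix. -/
def m9 : Matrix (Fin 6) (Fin 6) F4 := !![0, 0, 1, 0, 0, 1; 0, 1, 0, 0, 0, 0; 1, 0, 1, 0, 0, 1; 0, 1, 0, 1, 0, 1; 1, 0, 0, 0, 1, 0; 0, 1, 0, 1, 0, 0]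
theorem e6 : m8 * m5 = m9 := by decide +kernel
theorem p6_5 : m5 ^ 5 = m9 := by rw [pow_succ, p6_4, e6]
theorem e7 : m9 * m5 = 1 := by decide +kernel
theorem p6_6 : m5 ^ 6 = 1 := by rw [pow_succ, p6_5, e7]
/-- An explicit matrix. -/
def m10 : Matrix (Fin 6) (Fin 6) F4 := !![1, 0, 0, 0, w, 0; 0, 1, 0, w, 0, 0; 0, 0, 1, 0, 0, 0; 0, 0, 0, 1, 0, 0; 0, 0, 0, 0, 1, 0; 0, 0, v, 0, 0, 1]
theorem y9_2 : Y 9 w = m10 := by decide +kernel
/-- An explicit matrix. -/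
def m11 : Matrix (Fin 6) (Fin 6) F4 := !![1, 0, 0, 0, w, 0; 0, 1, 0, w, 0, 0; 1, 0, w, 0, w, 1; 0, 1, v, v, 0, 1; 1, 0, 0, 0, v, 0; 0, 0, v, 0, 0, 1]
theorem e8 : m3 * m10 = m11 := by decide +kernel
theorem w10 : Y 0 1 * Y 2 1 * Y 9 w = m11 := by rw [y0_1, y2_1, y9_2, e1, e8]
/-- An explicit matrix. -/
def m12 : Matrix (Fin 6) (Fin 6) F4 := !![v, 0, 0, 0, v, 0; 0, v, 1, v, 0, w; 1, 0, 0, 0, 0, v; v, w, 0, 0, 1, 1; w, 0, 0, 0, 0, 0; v, 0, w, 0, 1, w]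
theorem e9 : m11 * m11 = m12 := by decide +kernel
theorem p10_2 : m11 ^ 2 = m12 := by rw [pow_two, e9]
/-- An explicit matrix. -/
def m13 : Matrix (Fin 6) (Fin 6) F4 := !![0, 0, 0, 0, v, 0; 1, 0, 1, v, w, 0; 1, 0, w, 0, w, v; w, w, v, v, w, 1; w, 0, 0, 0, v, 0; 0, 0, w, 0, 1, 0]
theorem e10 : m12 * m11 = m13 := by decide +kernel
theorem p10_3 : m11 ^ 3 = m13 := by rw [pow_succ, p10_2, e10]
/-- An explicit matrix. -/
def m14 : Matrix (Fin 6) (Fin 6) F4 := !![v, 0, 0, 0, w, 0; w, v, 0, w, 1, w; 1, 0, 1, 0, 0, 1; v, 1, 0, 1, v, 1; 1, 0, 0, 0, 1, 0; v, 0, v, 0, 0, w]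
theorem e11 : m13 * m11 = m14 := by decide +kernel
theorem p10_4 : m11 ^ 4 = m14 := by rw [pow_succ, p10_3, e11]
/-- An explicit matrix. -/
def m15 : Matrix (Fin 6) (Fin 6) F4 := !![1, 0, 0, 0, 0, 0; v, 1, 0, 0, 0, 0; 0, 0, 1, 0, 0, 0; 0, 0, 0, 1, v, 0; 0, 0, 0, 0, 1, 0; 0, 0, 0, 0, 0, 1]
theorem e12 : m14 * m11 = m15 := by decide +kernel
theorem p10_5 : m11 ^ 5 = m15 := by rw [pow_succ, p10_4, e12]
/-- An explicit matrix. -/
def m16 : Matrix (Fin 6) (Fin 6) F4 := !![1, 0, 0, 0, w, 0; v, 1, 0, w, 1, 0; 1, 0, w, 0, w, 1; v, 1, v, v, w, 1; 1, 0, 0, 0, v, 0; 0, 0, v, 0, 0, 1]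
theorem e13 : m15 * m11 = m16 := by decide +kernel
theorem p10_6 : m11 ^ 6 = m16 := by rw [pow_succ, p10_5, e13]
/-- An explicit matrix. -/
def m17 : Matrix (Fin 6) (Fin 6) F4 := !![v, 0, 0, 0, v, 0; w, v, 1, v, w, w; 1, 0, 0, 0, 0, v; w, w, 0, 0, 1, 1; w, 0, 0, 0, 0, 0; v, 0, w, 0, 1, w]
theorem e14 : m16 * m11 = m17 := by decide +kernel
theorem p10_7 : m11 ^ 7 = m17 := by rw [pow_succ, p10_6, e14]
/-- An explicit matrix. -/
def m18 : Matrix (Fin 6) (Fin 6) F4 := !![0, 0, 0, 0, v, 0; 1, 0, 1, v, 0, 0; 1, 0, w, 0, w, v; v, w, v, v, 0, 1; w, 0, 0, 0, v, 0; 0, 0, w, 0, 1, 0]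
theorem e15 : m17 * m11 = m18 := by decide +kernel
theorem p10_8 : m11 ^ 8 = m18 := by rw [pow_succ, p10_7, e15]
/-- An explicit matrix. -/
def m19 : Matrix (Fin 6) (Fin 6) F4 := !![v, 0, 0, 0, w, 0; 0, v, 0, w, 0, w; 1, 0, 1, 0, 0, 1; 0, 1, 0, 1, 0, 1; 1, 0, 0, 0, 1, 0; v, 0, v, 0, 0, w]
theorem e16 : m18 * m11 = m19 := by decide +kernel
theorem p10_9 : m11 ^ 9 = m19 := by rw [pow_succ, p10_8, e16]
theorem e17 : m19 * m11 = 1 := by decide +kernel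
theorem p10_10 : m11 ^ 10 = 1 := by rw [pow_succ, p10_9, e17]
/-- An explicit matrix. -/
def m20 : Matrix (Fin 6) (Fin 6) F4 := !![1, 0, 0, 0, 0, 1; 0, 1, 0, 0, 0, 0; 0, 0, 1, 1, 0, 0; 0, 0, 0, 1, 0, 0; 0, 1, 0, 0, 1, 0; 0, 0, 0, 0, 0, 1]
theorem y4_1 : Y 4 1 = m20 := by decide +kernel
/-- An explicit matrix. -/
def m21 : Matrix (Fin 6) (Fin 6) F4 := !![1, 0, 0, 0, 0, 1; 0, 1, 0, 0, 0, 0; 1, 0, 1, 1, 0, 1; 0, 0, 0, 1, 0, 1; 0, 1, 0, 0, 1, 0; 0, 0, 0, 0, 0, 1]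
theorem e18 : m1 * m20 = m21 := by decide +kernel
/-- An explicit matrix. -/
def m22 : Matrix (Fin 6) (Fin 6) F4 := !![1, 0, 0, 0, 1, 0; 0, 1, 0, 1, 0, 0; 0, 0, 1, 0, 0, 0; 0, 0, 0, 1, 0, 0; 0, 0, 0, 0, 1, 0; 0, 0, 1, 0, 0, 1]
theorem y9_1 : Y 9 1 = m22 := by decide +kernel
/-- An explicit matrix. -/
def m23 : Matrix (Fin 6) (Fin 6) F4 := !![1, 0, 1, 0, 1, 1; 0, 1, 0, 1, 0, 0; 1, 0, 0, 1, 1, 1; 0, 0, 1, 1, 0, 1; 0, 1, 0, 1, 1, 0; 0, 0, 1, 0, 0, 1]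
theorem e19 : m21 * m22 = m23 := by decide +kernel
theorem w7 : Y 0 1 * Y 4 1 * Y 9 1 = m23 := by rw [y0_1, y4_1, y9_1, e18, e19]
/-- An explicit matrix. -/
def m24 : Matrix (Fin 6) (Fin 6) F4 := !![0, 1, 0, 0, 1, 1; 0, 1, 1, 0, 0, 1; 1, 1, 1, 0, 0, 1; 1, 0, 0, 0, 1, 1; 0, 0, 1, 1, 1, 1; 1, 0, 1, 1, 1, 0]
theorem e20 : m23 * m23 = m24 := by decide +kernel
theorem p7_2 : m23 ^ 2 = m24 := by rw [pow_two, e20]
/-- An explicit matrix. -/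
def m25 : Matrix (Fin 6) (Fin 6) F4 := !![0, 0, 1, 0, 1, 1; 1, 1, 1, 0, 1, 0; 0, 1, 0, 0, 0, 1; 1, 1, 0, 1, 0, 0; 1, 1, 0, 1, 0, 1; 0, 1, 0, 1, 1, 1]
theorem e21 : m24 * m23 = m25 := by decide +kernel
theorem p7_3 : m23 ^ 3 = m25 := by rw [pow_succ, p7_2, e21]
/-- An explicit matrix. -/
def m26 : Matrix (Fin 6) (Fin 6) F4 := !![1, 1, 1, 0, 0, 0; 0, 0, 1, 1, 1, 0; 0, 1, 1, 1, 0, 1; 1, 1, 0, 0, 1, 0; 1, 1, 1, 0, 1, 1; 0, 0, 0, 1, 1, 0]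
theorem e22 : m25 * m23 = m26 := by decide +kernel
theorem p7_4 : m23 ^ 4 = m26 := by rw [pow_succ, p7_3, e22]
/-- An explicit matrix. -/
def m27 : Matrix (Fin 6) (Fin 6) F4 := !![0, 1, 1, 0, 0, 0; 1, 1, 1, 1, 0, 0; 1, 1, 0, 1, 1, 1; 1, 0, 1, 0, 0, 1; 0, 0, 0, 1, 1, 1; 0, 1, 1, 0, 1, 1]
theorem e23 : m26 * m23 = m27 := by decide +kernel
theorem p7_5 : m23 ^ 5 = m27 := by rw [pow_succ, p7_4, e23]
/-- An explicit matrix. -/
def m28 : Matrix (Fin 6) (Fin 6) F4 := !![1, 1, 0, 0, 1, 1; 0, 1, 0, 1, 0, 1; 1, 0, 1, 1, 0, 1; 0, 0, 0, 1, 0, 1; 0, 1, 0, 0, 1, 0; 1, 0, 1, 1, 0, 0]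
theorem e24 : m27 * m23 = m28 := by decide +kernel
theorem p7_6 : m23 ^ 6 = m28 := by rw [pow_succ, p7_5, e24]
theorem e25 : m28 * m23 = 1 := by decide +kernel
theorem p7_7 : m23 ^ 7 = 1 := by rw [pow_succ, p7_6, e25]
/-- An explicit matrix. -/
def m29 : Matrix (Fin 6) (Fin 6) F4 := !![1, w, 0, 0, 0, 0; 0, 1, 0, 0, 0, 0; 0, 0, 1, 0, 0, 0; 0, 0, 0, 1, 0, 0; 0, 0, 0, w, 1, 0; 0, 0, 0, 0, 0, 1]
theorem y6_2 : Y 6 w = m29 := by decide +kernel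
/-- An explicit matrix. -/
def m30 : Matrix (Fin 6) (Fin 6) F4 := !![1, w, 0, 0, 0, 0; 0, 1, 0, 0, 0, 0; 1, w, 1, 0, 0, 1; 0, 1, 0, 1, 0, 1; 1, w, 0, w, 1, 0; 0, 0, 0, 0, 0, 1]
theorem e26 : m3 * m29 = m30 := by decide +kernel
/-- An explicit matrix. -/
def m31 : Matrix (Fin 6) (Fin 6) F4 := !![1, 0, 0, 0, 0, 0; 0, 1, w, 0, 0, 0; 0, 0, 1, 0, 0, 0; 0, 0, 0, 1, 0, 0; 0, 0, 0, 0, 1, 0; 0, 0, 0, 0, w, 1]
theorem y10_2 : Y 10 w = m31 := by decide +kernel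
/-- An explicit matrix. -/
def m32 : Matrix (Fin 6) (Fin 6) F4 := !![1, w, v, 0, 0, 0; 0, 1, w, 0, 0, 0; 1, w, w, 0, w, 1; 0, 1, w, 1, w, 1; 1, w, v, w, 1, 0; 0, 0, 0, 0, w, 1]
theorem e27 : m30 * m31 = m32 := by decide +kernel
theorem w13 : Y 0 1 * Y 2 1 * Y 6 w * Y 10 w = m32 := by rw [y0_1, y2_1, y6_2, y10_2, e1, e26, e27]
/-- An explicit matrix. -/
def m33 : Matrix (Fin 6) (Fin 6) F4 := !![w, 1, 1, 0, 1, v; w, w, 1, 0, v, w; 1, 0, w, v, v, v; 0, 0, w, w, 1, w; v, 1, 1, 0, v, 1; w, v, 1, v, 0, 1]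
theorem e28 : m32 * m32 = m33 := by decide +kernel
theorem p13_2 : m32 ^ 2 = m33 := by rw [pow_two, e28]
/-- An explicit matrix. -/
def m34 : Matrix (Fin 6) (Fin 6) F4 := !![w, w, w, w, w, w; 0, w, w, 1, w, v; 0, v, v, w, 0, w; v, v, v, 0, w, w; 1, v, 0, 1, v, 0; v, 1, v, v, 1, v]
theorem e29 : m33 * m32 = m34 := by decide +kernel
theorem p13_3 : m32 ^ 3 = m34 := by rw [pow_succ, p13_2, e29]
/-- An explicit matrix. -/
def m35 : Matrix (Fin 6) (Fin 6) F4 := !![w, v, v, 1, 1, w; 0, v, v, w, w, 0; v, 0, v, w, 1, v; w, 0, v, v, 0, 1; w, 1, w, 0, 1, 1; 1, 0, v, 1, 0, v]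
theorem e30 : m34 * m32 = m35 := by decide +kernel
theorem p13_4 : m32 ^ 4 = m35 := by rw [pow_succ, p13_3, e30]
/-- An explicit matrix. -/
def m36 : Matrix (Fin 6) (Fin 6) F4 := !![0, w, 0, v, 1, 0; 1, v, w, 1, 0, 1; 1, 0, v, 0, w, w; 1, 1, 1, v, w, 1; 1, v, v, w, 0, v; w, w, 0, 1, w, 1]
theorem e31 : m35 * m32 = m36 := by decide +kernel
theorem p13_5 : m32 ^ 5 = m36 := by rw [pow_succ, p13_4, e31]
/-- An explicit matrix. -/
def m37 : Matrix (Fin 6) (Fin 6) F4 := !![1, v, 1, 1, 0, v; v, v, v, 1, v, w; 0, 0, v, v, 0, 1; w, 1, v, 0, v, v; w, w, 0, w, v, w; 0, v, 1, w, w, 0]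
theorem e32 : m36 * m32 = m37 := by decide +kernel
theorem p13_6 : m32 ^ 6 = m37 := by rw [pow_succ, p13_5, e32]
/-- An explicit matrix. -/
def m38 : Matrix (Fin 6) (Fin 6) F4 := !![0, w, w, 1, 1, v; v, v, w, 0, v, 0; v, w, 0, v, w, 1; w, w, 0, 1, v, 0; 1, w, v, v, v, 0; v, 0, 1, 1, v, v]
theorem e33 : m37 * m32 = m38 := by decide +kernel
theorem p13_7 : m32 ^ 7 = m38 := by rw [pow_succ, p13_6, e33]
/-- An explicit matrix. -/
def m39 : Matrix (Fin 6) (Fin 6) F4 := !![v, w, 1, v, 1, 0; w, 0, w, 1, 0, w; 1, v, 1, 0, 1, w; 1, 1, w, 0, 1, 1; 1, v, w, w, v, 0; 1, v, 0, 0, w, v]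
theorem e34 : m38 * m32 = m39 := by decide +kernel
theorem p13_8 : m32 ^ 8 = m39 := by rw [pow_succ, p13_7, e34]
/-- An explicit matrix. -/
def m40 : Matrix (Fin 6) (Fin 6) F4 := !![v, 0, 1, 1, w, w; 0, 1, 0, 1, w, 1; 1, 1, v, w, 0, v; w, w, 1, w, 0, v; 0, 1, 0, v, v, 0; v, w, v, v, v, v]
theorem e35 : m39 * m32 = m40 := by decide +kernel
theorem p13_9 : m32 ^ 9 = m40 := by rw [pow_succ, p13_8, e35]
/-- An explicit matrix. -/
def m41 : Matrix (Fin 6) (Fin 6) F4 := !![0, 1, v, w, 1, w; w, v, 1, w, w, 0; w, 0, v, w, v, w; v, 1, v, w, 0, 0; v, v, 1, w, w, v; v, 0, v, w, w, v]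
theorem e36 : m40 * m32 = m41 := by decide +kernel
theorem p13_10 : m32 ^ 10 = m41 := by rw [pow_succ, p13_9, e36]
/-- An explicit matrix. -/
def m42 : Matrix (Fin 6) (Fin 6) F4 := !![w, 0, v, 0, 0, v; 1, v, 0, 1, v, v; w, 1, 1, v, w, v; 0, v, w, w, w, 1; 0, 1, v, 1, w, 0; w, 1, 1, 1, 1, w]
theorem e37 : m41 * m32 = m42 := by decide +kernel
theorem p13_11 : m32 ^ 11 = m42 := by rw [pow_succ, p13_10, e37]
/-- An explicit matrix. -/
def m43 : Matrix (Fin 6) (Fin 6) F4 := !![1, w, 0, 0, 0, 0; w, 1, w, 0, 0, w; 1, 0, 1, 0, 0, 1; 0, 1, 0, 1, 0, 1; 1, w, 0, w, 1, w; w, v, 0, v, w, w]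
theorem e38 : m42 * m32 = m43 := by decide +kernel
theorem p13_12 : m32 ^ 12 = m43 := by rw [pow_succ, p13_11, e38]
theorem e39 : m43 * m32 = 1 := by decide +kernel
theorem p13_13 : m32 ^ 13 = 1 := by rw [pow_succ, p13_12, e39]
theorem n6_2 : m5 ^ 2 ≠ 1 := by rw [p6_2]; decide +kernel
theorem n6_3 : m5 ^ 3 ≠ 1 := by rw [p6_3]; decide +kernel
theorem n10_2 : m11 ^ 2 ≠ 1 := by rw [p10_2]; decide +kernel
theorem n10_5 : m11 ^ 5 ≠ 1 := by rw [p10_5]; decide +kernel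
/-- An explicit matrix. -/
def m44 : Matrix (Fin 6) (Fin 6) F4 := !![1, 1, 1, 0, 0, 0; 0, 1, 0, 0, 1, 0; 0, 0, 0, 0, 0, 1; 0, 1, 0, 0, 0, 0; 1, 0, 0, 1, 0, 0; 0, 0, 0, 1, 0, 1]
theorem b7 : m44 * (m23 - 1) = 1 := by decide +kernel
/-- An explicit matrix. -/
def m45 : Matrix (Fin 6) (Fin 6) F4 := !![w, 0, 1, 1, 0, 0; v, 1, 0, 0, 0, 0; 0, v, 0, 0, 0, 0; w, 0, v, v, v, 0; 0, 0, 0, 0, 0, v; v, 0, 0, 1, 0, 1]
theorem b13 : m45 * (m32 - 1) = 1 := by decide +kernel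

/-- The prime graph of a finite group has the prime divisors of its order as vertices, two distinct primes p, q being joined when the group has an element of order pq; two groups have the same prime graph when they have the same prime divisors and the same joined pairs. Let F be the field with 4 elements and L the Chevalley group of type G₂ over F. There are finite groups of arbitrarily large order with the same prime graph as L. -/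
theorem result {F : Type*} [Field F] [Fintype F] (hF : Fintype.card F = 4) (N : ℕ) :
    ∃ (H : Type) (_ : Group H) (_ : Finite H), N < Nat.card H ∧
      ((∀ p : ℕ, p.Prime → (p ∣ Nat.card ↥(Cfsg.Lie.chevG2.group F) ↔ p ∣ Nat.card H)) ∧
      (∀ p q : ℕ, p.Prime → q.Prime → p ≠ q → ((∃ g : ↥(Cfsg.Lie.chevG2.group F), orderOf g = p * q) ↔ (∃ g : H, orderOf g = p * q)))) := by
  classical
  obtain ⟨e⟩ := nonempty_ringEquiv_F4 hF
  let φ : F4 →+* F := e.symm.toRingHom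
  have : CharP F 2 := charP_of_injective_ringHom (algebraMap (ZMod 2) F4 |> φ.comp).injective 2
  obtain ⟨f, hf⟩ := exists_rep φ e.symm.surjective
  have hinj : Function.Injective (φ.mapMatrix : Matrix (Fin 6) (Fin 6) F4 →+* _) :=
    Matrix.map_injective φ.injective
  have hc : Nat.card (chevG2.group F) = 2 ^ 12 * 3 ^ 3 * 5 ^ 2 * 7 * 13 := by
    rw [Cfsg.Agent.S1059.result hF]; norm_num
  have g6 : f (xG chevG2 F 0 (φ 1) * xG chevG2 F 2 (φ 1) * xG chevG2 F 11 (φ 1)) = φ.mapMatrix m5 := by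
    simp only [map_mul]
    rw [hf 0 (by norm_num), hf 2 (by norm_num), hf 11 (by norm_num), ← w6]
    simp only [map_mul]
  have g10 : f (xG chevG2 F 0 (φ 1) * xG chevG2 F 2 (φ 1) * xG chevG2 F 9 (φ w)) = φ.mapMatrix m11 := by
    simp only [map_mul]
    rw [hf 0 (by norm_num), hf 2 (by norm_num), hf 9 (by norm_num), ← w10]
    simp only [map_mul]
  have g7 : f (xG chevG2 F 0 (φ 1) * xG chevG2 F 4 (φ 1) * xG chevG2 F 9 (φ 1)) = φ.mapMatrix m23 := by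
    simp only [map_mul]
    rw [hf 0 (by norm_num), hf 4 (by norm_num), hf 9 (by norm_num), ← w7]
    simp only [map_mul]
  have g13 : f (xG chevG2 F 0 (φ 1) * xG chevG2 F 2 (φ 1) * xG chevG2 F 6 (φ w) * xG chevG2 F 10 (φ w)) = φ.mapMatrix m32 := by
    simp only [map_mul]
    rw [hf 0 (by norm_num), hf 2 (by norm_num), hf 6 (by norm_num), hf 10 (by norm_num), ← w13]
    simp only [map_mul]
  have hne : ∀ (A : Matrix (Fin 6) (Fin 6) F4) (k : ℕ), A ^ k ≠ 1 → φ.mapMatrix A ^ k ≠ 1 :=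
    fun A k h e => h (hinj (by rw [map_pow, e, map_one]))
  have heq : ∀ (A : Matrix (Fin 6) (Fin 6) F4) (k : ℕ), A ^ k = 1 → φ.mapMatrix A ^ k = 1 :=
    fun A k h => by rw [← map_pow, h, map_one]
  have hB : ∀ A B : Matrix (Fin 6) (Fin 6) F4, B * (A - 1) = 1 →
      φ.mapMatrix B * (φ.mapMatrix A - 1) = 1 := fun A B h => by
    rw [← map_one φ.mapMatrix, ← map_sub, ← map_mul, h]
  obtain ⟨H, _, _, hN, hH⟩ := exists_large_samePrimeGraph_of_rep (matRep f) Nat.prime_two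
    (nsmul_fun_eq_zero_of_charP 2) (by rw [hc]; norm_num) (fun g v hp hp2 hv hgv => by
      have hd := orderOf_dvd_natCard g
      rw [hc] at hd
      have h5 : orderOf g = 2 ∨ orderOf g = 3 ∨ orderOf g = 5 ∨ orderOf g = 7 ∨ orderOf g = 13 := by
        simp only [hp.dvd_mul, hp.prime.dvd_pow_iff_dvd (by norm_num : (12 : ℕ) ≠ 0),
          hp.prime.dvd_pow_iff_dvd (by norm_num : (3 : ℕ) ≠ 0),
          hp.prime.dvd_pow_iff_dvd (by norm_num : (2 : ℕ) ≠ 0),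
          Nat.prime_dvd_prime_iff_eq hp Nat.prime_two, Nat.prime_dvd_prime_iff_eq hp Nat.prime_three,
          Nat.prime_dvd_prime_iff_eq hp Nat.prime_five,
          Nat.prime_dvd_prime_iff_eq hp (by norm_num : Nat.Prime 7),
          Nat.prime_dvd_prime_iff_eq hp (by norm_num : Nat.Prime 13)] at hd
        tauto
      rcases h5 with h | h | h | h | h
      · exact absurd h hp2
      · rw [h]
        exact exists_orderOf_eq_of_map f _ Nat.prime_three Nat.prime_two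
          (by rw [g6]; exact heq _ _ p6_6) (by rw [g6]; exact hne _ _ n6_3)
          (by rw [g6]; exact hne _ _ n6_2)
      · rw [h]
        exact exists_orderOf_eq_of_map f _ Nat.prime_five Nat.prime_two
          (by rw [g10]; exact heq _ _ p10_10) (by rw [g10]; exact hne _ _ n10_5)
          (by rw [g10]; exact hne _ _ n10_2)
      · exact absurd (fpf_matRep f (by norm_num : Nat.Prime 7) (by rw [hc]; norm_num)
          (by rw [g7]; exact heq _ _ p7_7) (by rw [g7]; exact hB _ _ b7) h hgv) hv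
      · exact absurd (fpf_matRep f (by norm_num : Nat.Prime 13) (by rw [hc]; norm_num)
          (by rw [g13]; exact heq _ _ p13_13) (by rw [g13]; exact hB _ _ b13) h hgv) hv) N
  exact ⟨H, inferInstance, inferInstance, by rwa [Nat.card_eq_fintype_card], hH⟩


end Cfsg.Agent.S3662
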