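import Cfsg.Statements.S3663
import Cfsg.Agent.Perm.SpecFpf
import Cfsg.Agent.Perm.UnitMat
import Cfsg.Agent.Perm.FastF2
import Cfsg.Agent.Class.HermSimple

set_option autoImplicit false
open Cfsg

namespace Cfsg.Agent.S3663

open Cfsg.Lib.Perm Matrix

/-- Elements of the field with sixteen elements by their codes. -/
abbrev e (n : ℕ) : T16 := T16.c n

/-- The field automorphism of order two. -/
def σ : T16 →+* T16 where
  toFun x := x ^ 4
  map_one' := by decide +kernel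
  map_mul' := by decide +kernel
  map_zero' := by decide +kernel
  map_add' := by decide +kernel

/-- The column space. -/
abbrev V3 : Type := Fin 3 → T16

/-- Nonzero isotropic vectors. -/
def Iso (x : V3) : Prop := x ≠ 0 ∧ hermForm 3 T16 4 x x = 0

instance instDecIso (x : V3) : Decidable (Iso x) := by unfold Iso hermForm; infer_instance

theorem star4 (x : T16) : σ x = x ^ 4 := rfl

theorem σσ (x : T16) : σ (σ x) = x := by revert x; decide +kernel

theorem herm_eq (u v : V3) :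
    hermForm 3 T16 4 u v = u 0 * v 0 ^ 4 + u 1 * v 1 ^ 4 + u 2 * v 2 ^ 4 := by
  simp [hermForm, Fin.sum_univ_three]

theorem herm_add_left (u u' v : V3) :
    hermForm 3 T16 4 (u + u') v = hermForm 3 T16 4 u v + hermForm 3 T16 4 u' v := by
  simp only [herm_eq, Pi.add_apply]; ring

theorem herm_smul_left (c : T16) (u v : V3) :
    hermForm 3 T16 4 (c • u) v = c * hermForm 3 T16 4 u v := by
  simp only [herm_eq, Pi.smul_apply, smul_eq_mul]; ring

theorem herm_smul_right (c : T16) (u v : V3) :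
    hermForm 3 T16 4 u (c • v) = c ^ 4 * hermForm 3 T16 4 u v := by
  simp only [herm_eq, Pi.smul_apply, smul_eq_mul]; ring

theorem herm_add_right (u v v' : V3) :
    hermForm 3 T16 4 u (v + v') = hermForm 3 T16 4 u v + hermForm 3 T16 4 u v' := by
  simp only [herm_eq, Pi.add_apply, ← star4, map_add]; ring

theorem herm_symm (u v : V3) : hermForm 3 T16 4 v u = hermForm 3 T16 4 u v ^ 4 := by
  rw [← star4]
  simp only [herm_eq, ← star4, map_add, map_mul, σσ]; ring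

theorem Iso.smul {x : V3} (hx : Iso x) {c : T16} (hc : c ≠ 0) : Iso (c • x) :=
  ⟨smul_ne_zero hc hx.1, by rw [herm_smul_left, herm_smul_right, hx.2]; simp⟩

theorem Iso.add {u v : V3} (hu : Iso u) (hv : Iso v) (h : hermForm 3 T16 4 u v = 1) {t : T16}
    (ht : t + t ^ 4 = 0) : Iso (v + t • u) ∧ hermForm 3 T16 4 u (v + t • u) = 1 := by
  have h1 : hermForm 3 T16 4 u (v + t • u) = 1 := by
    rw [herm_add_right, herm_smul_right, h, hu.2]; simp
  refine ⟨⟨fun h0 => ?_, ?_⟩, h1⟩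
  · rw [h0, herm_eq] at h1
    simp at h1
  · rw [herm_add_left, herm_smul_left, h1, herm_add_right, herm_smul_right, hv.2, herm_symm u v, h]
    linear_combination ht

/-- Functions on the isotropic points whose sum over each hyperbolic line vanishes. -/
def W : Submodule (ZMod 5) (V3 → ZMod 5) where
  carrier := {f | (∀ (c : T16) x, c ≠ 0 → Iso x → f (c • x) = f x) ∧ ∀ u v, Iso u → Iso v →
    hermForm 3 T16 4 u v = 1 →
      f u + f (v + e 0 • u) + f (v + e 1 • u) + f (v + e 2 • u) + f (v + e 3 • u) = 0}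
  zero_mem' := ⟨fun _ _ _ _ => rfl, fun _ _ _ _ _ => by simp⟩
  add_mem' := fun {f g} hf hg => ⟨fun c x hc hx => by simp [hf.1 c x hc hx, hg.1 c x hc hx],
    fun u v hu hv h => by
      simp only [Pi.add_apply]
      linear_combination hf.2 u v hu hv h + hg.2 u v hu hv h⟩
  smul_mem' := fun a f hf => ⟨fun c x hc hx => by simp [hf.1 c x hc hx],
    fun u v hu hv h => by
      simp only [Pi.smul_apply, smul_eq_mul]
      linear_combination a * hf.2 u v hu hv h⟩

/-- Functions constant on the isotropic points. -/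
def C : Submodule (ZMod 5) (V3 → ZMod 5) where
  carrier := {f | ∃ κ, ∀ x, Iso x → f x = κ}
  zero_mem' := ⟨0, fun _ _ => rfl⟩
  add_mem' := fun ⟨a, ha⟩ ⟨b, hb⟩ => ⟨a + b, fun x hx => by simp [ha x hx, hb x hx]⟩
  smul_mem' := fun c _ ⟨a, ha⟩ => ⟨c * a, fun x hx => by simp [ha x hx]⟩

/-- The permutation representation on functions. -/
def ρ₀ : Representation (ZMod 5) (SU 3 T16 4) (V3 → ZMod 5) where
  toFun g := LinearMap.funLeft _ _ fun x => suToMat 3 T16 4 g⁻¹ *ᵥ x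
  map_one' := by ext f x; simp
  map_mul' g h := by ext f x; simp [Matrix.mulVec_mulVec]

theorem ρ₀_apply (g : SU 3 T16 4) (f : V3 → ZMod 5) (x : V3) :
    ρ₀ g f x = f (suToMat 3 T16 4 g⁻¹ *ᵥ x) := rfl

theorem herm_su (g : SU 3 T16 4) (u v : V3) :
    hermForm 3 T16 4 (suToMat 3 T16 4 g *ᵥ u) (suToMat 3 T16 4 g *ᵥ v) = hermForm 3 T16 4 u v :=
  g.2 u v

theorem Iso.su {x : V3} (hx : Iso x) (g : SU 3 T16 4) : Iso (suToMat 3 T16 4 g *ᵥ x) := by
  refine ⟨fun h => hx.1 ?_, by rw [herm_su, hx.2]⟩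
  have := congrArg (suToMat 3 T16 4 g⁻¹ *ᵥ ·) h
  simpa [Matrix.mulVec_mulVec, ← map_mul] using this

theorem W_le (g : SU 3 T16 4) : W ≤ W.comap (ρ₀ g) := fun f hf =>
  ⟨fun c x hc hx => by rw [ρ₀_apply, ρ₀_apply, Matrix.mulVec_smul, hf.1 c _ hc (hx.su _)],
    fun u v hu hv h => by
      simp only [ρ₀_apply, Matrix.mulVec_add, Matrix.mulVec_smul]
      exact hf.2 _ _ (hu.su _) (hv.su _) (by rw [herm_su, h])⟩

theorem C_le (g : SU 3 T16 4) :
    C.comap W.subtype ≤ (C.comap W.subtype).comap (ρ₀.subrepresentation W W_le g) :=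
  fun _ ⟨κ, h⟩ => ⟨κ, fun x hx => h _ (hx.su g⁻¹)⟩

/-- The twelve-dimensional module. -/
def ρ : Representation (ZMod 5) (SU 3 T16 4) (W ⧸ C.comap W.subtype) :=
  (ρ₀.subrepresentation W W_le).quotient _ C_le

/-- The discrete logarithm modulo five. -/
def ℓ (x : T16) : ZMod 5 :=
  ([0, 0, 0, 0, 1, 4, 2, 3, 1, 3, 4, 2, 1, 2, 3, 4] : List (ZMod 5)).getD (Fin.val x) 0

/-- Logarithm of the first argument unless it vanishes. -/
def φ (α β : T16) : ZMod 5 := if α = 0 then ℓ β else ℓ α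

theorem φ_congr {α β γ : T16} (h : α = 0 → γ * β ^ 4 = 1) : φ α β = φ α γ := by
  have : ∀ γ β : T16, γ * β ^ 4 = 1 → ℓ β = ℓ γ := by decide +kernel
  unfold φ
  split_ifs with h0
  · exact this _ _ (h h0)
  · rfl

theorem φ_block {a b : V3} (hab : ∀ x, Iso x → hermForm 3 T16 4 x a = 0 →
    x = hermForm 3 T16 4 x b • a) {u v : V3} (hu : Iso u) (hv : Iso v)
    (h : hermForm 3 T16 4 u v = 1) (ψ : V3 → ZMod 5)
    (hψ : ∀ x, ψ x = φ (hermForm 3 T16 4 x a) (hermForm 3 T16 4 x b)) :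
    ψ u + ψ (v + e 0 • u) + ψ (v + e 1 • u) + ψ (v + e 2 • u) + ψ (v + e 3 • u) = 0 := by
  have h1 : ψ u = φ (hermForm 3 T16 4 u a) (hermForm 3 T16 4 v a) := by
    rw [hψ]
    refine φ_congr fun h0 => ?_
    rw [mul_comm, ← herm_smul_right, ← hab u hu h0, herm_symm, h, one_pow]
  have h2 : ∀ t : T16, t + t ^ 4 = 0 → ψ (v + t • u) =
      φ (hermForm 3 T16 4 v a + t * hermForm 3 T16 4 u a) (hermForm 3 T16 4 u a) := by
    intro t ht
    rw [hψ, ← herm_smul_left, ← herm_add_left]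
    refine φ_congr fun h0 => ?_
    rw [mul_comm, ← herm_smul_right, ← hab _ (hu.add hv h ht).1 h0, (hu.add hv h ht).2]
  rw [h1, h2 _ (by decide +kernel), h2 _ (by decide +kernel), h2 _ (by decide +kernel),
    h2 _ (by decide +kernel)]
  generalize hermForm 3 T16 4 u a = α, hermForm 3 T16 4 v a = β
  revert α β
  decide +kernel

/-- A nonconstant function of the code. -/
def f₀ (x : V3) : ZMod 5 :=
  φ (hermForm 3 T16 4 x ![1, 1, 0]) (hermForm 3 T16 4 x ![0, 1, 1]) -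
    φ (hermForm 3 T16 4 x ![0, 1, 1]) (hermForm 3 T16 4 x ![1, 1, 0])

theorem f₀_mem : f₀ ∈ W := by
  refine ⟨fun c x hc _ => ?_, fun u v hu hv h => ?_⟩
  · simp only [f₀, herm_smul_left]
    generalize hermForm 3 T16 4 x ![1, 1, 0] = α, hermForm 3 T16 4 x ![0, 1, 1] = β
    revert c α β
    decide +kernel
  · have k : ∀ a b c : T16, a + b = 0 → a * a ^ 4 + b * b ^ 4 + c * c ^ 4 = 0 →
        a = b ∧ c = 0 := by decide +kernel
    have h1 := φ_block (a := ![1, 1, 0]) (b := ![0, 1, 1]) (fun x hx h0 => by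
      obtain ⟨h2, h3⟩ := k (x 0) (x 1) (x 2) (by simpa [herm_eq] using h0) (herm_eq x x ▸ hx.2)
      ext1 i
      fin_cases i <;> simp [herm_eq, h2, h3]) hu hv h _ fun _ => rfl
    have h2 := φ_block (a := ![0, 1, 1]) (b := ![1, 1, 0]) (fun x hx h0 => by
      obtain ⟨h2, h3⟩ := k (x 1) (x 2) (x 0) (by simpa [herm_eq] using h0)
        (by linear_combination hx.2 - herm_eq x x)
      ext1 i
      fin_cases i <;> simp [herm_eq, h2, h3]) hu hv h _ fun _ => rfl
    simp only [f₀]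
    linear_combination h1 - h2

instance instNontrivial : Nontrivial (W ⧸ C.comap W.subtype) := by
  refine Submodule.Quotient.nontrivial_iff.2 fun h => ?_
  obtain ⟨κ, hκ⟩ : (⟨f₀, f₀_mem⟩ : W) ∈ C.comap W.subtype := h ▸ Submodule.mem_top
  exact absurd ((hκ ![1, 1, 0] (by decide +kernel)).trans (hκ ![e 1, e 15, e 9] (by decide +kernel)).symm)
    (by decide +kernel)

/-- Elements of `SU`. -/
def el (M : Matrix (Fin 3) (Fin 3) T16) (h1 : M.det = 1) (h2 : Mᵀ * M.map σ = 1) :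
    SU 3 T16 4 := ⟨⟨M, h1⟩, (mem_SU_iff_mul σ star4 ⟨M, h1⟩).2 h2⟩

theorem pow_el (g : SU 3 T16 4) {M : Matrix (Fin 3) (Fin 3) T16} (hM : suToMat 3 T16 4 g = M)
    (k : ℕ) : suToMat 3 T16 4 g ^ k =
      ((step3 M.trace (-σ M.trace) 1)^[k] (1, 0, 0)).1 • 1 +
      ((step3 M.trace (-σ M.trace) 1)^[k] (1, 0, 0)).2.1 • M +
      ((step3 M.trace (-σ M.trace) 1)^[k] (1, 0, 0)).2.2 • (M * M) := by
  subst hM
  rw [← pow_two]
  exact pow_eq_step3 (x := suToMat 3 T16 4 g) (cubic_of_mem_SU σ star4 g.2) k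

/-- The matrix of order thirteen. -/
def A : Matrix (Fin 3) (Fin 3) T16 := !![e 0, e 0, e 13; e 9, e 12, e 0; e 6, e 3, e 0]

/-- The element of order thirteen. -/
def a : SU 3 T16 4 := el A (by rw [Matrix.det_fin_three]; decide +kernel) (by decide +kernel)

/-- The isotropic points, by orbits. -/
def y : Fin 5 → Fin 13 → V3 :=
  ![![![e 0, e 1, e 1], ![e 1, e 15, e 9], ![e 1, e 15, e 4], ![e 1, e 12, e 9], ![e 1, e 3, e 7], ![e 1, e 3, e 12], ![e 1, e 11, e 7], ![e 1, e 14, e 0], ![e 0, e 1, e 13], ![e 1, e 6, e 4], ![e 1, e 0, e 10], ![e 1, e 11, e 12], ![e 1, e 1, e 0]],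
    ![![e 0, e 1, e 8], ![e 1, e 7, e 11], ![e 1, e 11, e 6], ![e 1, e 10, e 0], ![e 0, e 1, e 14], ![e 1, e 12, e 3], ![e 1, e 9, e 12], ![e 1, e 6, e 11], ![e 1, e 0, e 14], ![e 1, e 9, e 6], ![e 1, e 12, e 4], ![e 1, e 11, e 2], ![e 1, e 8, e 0]],
    ![![e 0, e 1, e 10], ![e 1, e 2, e 5], ![e 1, e 12, e 11], ![e 1, e 4, e 15], ![e 1, e 2, e 9], ![e 1, e 6, e 9], ![e 1, e 0, e 13], ![e 1, e 5, e 7], ![e 1, e 4, e 7], ![e 1, e 12, e 5], ![e 1, e 5, e 6], ![e 1, e 11, e 15], ![e 1, e 13, e 0]],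
    ![![e 1, e 0, e 1], ![e 1, e 4, e 2], ![e 1, e 15, e 11], ![e 1, e 2, e 11], ![e 1, e 7, e 5], ![e 1, e 3, e 2], ![e 1, e 9, e 15], ![e 1, e 15, e 5], ![e 1, e 7, e 3], ![e 1, e 5, e 15], ![e 1, e 3, e 6], ![e 1, e 4, e 6], ![e 1, e 6, e 3]],
    ![![e 1, e 0, e 8], ![e 1, e 3, e 15], ![e 1, e 5, e 2], ![e 1, e 5, e 12], ![e 1, e 9, e 2], ![e 1, e 7, e 9], ![e 1, e 4, e 12], ![e 1, e 7, e 4], ![e 1, e 9, e 7], ![e 1, e 2, e 3], ![e 1, e 2, e 4], ![e 1, e 15, e 3], ![e 1, e 6, e 5]]]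

/-- Scalars. -/
def s : Fin 5 → Fin 13 → T16 :=
  ![![e 13, e 3, e 9, e 3, e 2, e 7, e 2, e 6, e 10, e 9, e 8, e 7, e 5],
    ![e 14, e 5, e 15, e 11, e 1, e 11, e 7, e 5, e 1, e 15, e 9, e 6, e 15],
    ![e 8, e 4, e 5, e 12, e 3, e 3, e 10, e 2, e 2, e 4, e 15, e 12, e 14],
    ![e 13, e 6, e 5, e 5, e 4, e 6, e 12, e 4, e 11, e 12, e 15, e 15, e 11],
    ![e 14, e 12, e 6, e 7, e 6, e 3, e 7, e 9, e 2, e 11, e 9, e 11, e 4]]

theorem hy : ∀ j i, Iso (y j i) ∧ s j i ≠ 0 ∧ A *ᵥ y j i = s j i • y j (i + 1) := by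
  decide +kernel

theorem cover {x : V3} (hx : Iso x) : ∃ j i, ∃ c : T16, c ≠ 0 ∧ x = c • y j i := by
  have k1 : ∀ b c : T16, 1 + b * b ^ 4 + c * c ^ 4 = 0 → ∃ j i, y j i = ![1, b, c] := by
    decide +kernel
  have k2 : ∀ c : T16, 1 + c * c ^ 4 = 0 → ∃ j i, y j i = ![0, 1, c] := by decide +kernel
  have h := herm_eq x x ▸ hx.2
  by_cases h0 : x 0 = 0
  · have h1 : x 1 ≠ 0 := fun h1 => hx.1 (by
      have h2 : x 2 = 0 := by simpa [h0, h1] using h
      ext1 i
      fin_cases i <;> simp [h0, h1, h2])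
    obtain ⟨j, i, hj⟩ := k2 (x 2 / x 1) (by
      rw [h0] at h; field_simp; linear_combination h)
    refine ⟨j, i, x 1, h1, ?_⟩
    rw [hj]
    ext1 i
    fin_cases i <;> simp [h0, mul_div_cancel₀, h1]
  · obtain ⟨j, i, hj⟩ := k1 (x 1 / x 0) (x 2 / x 0) (by field_simp; linear_combination h)
    refine ⟨j, i, x 0, h0, ?_⟩
    rw [hj]
    ext1 i
    fin_cases i <;> simp [h0, mul_div_cancel₀]

theorem const_of_fixed {f : V3 → ZMod 5} (hf : f ∈ W) {κ : ZMod 5}
    (h : ∀ x, Iso x → f (A *ᵥ x) - f x = κ) : f ∈ C := by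
  have h1 : ∀ j i, f (y j (i + 1)) = f (y j i) + κ := fun j i => by
    rw [← h _ (hy j i).1, (hy j i).2.2, hf.1 _ _ (hy j i).2.1 (hy j _).1]; ring
  have h2 : κ = 0 := by
    have h3 := Equiv.sum_comp (Equiv.addRight (1 : Fin 13)) fun i => f (y 0 i)
    simp only [Equiv.coe_addRight, h1, Finset.sum_add_distrib, Finset.sum_const, Finset.card_univ,
      Fintype.card_fin, add_eq_left] at h3
    revert h3; generalize κ = κ; revert κ; decide
  have h3 : ∀ j i, f (y j i) = f (y j 0) := fun j i => by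
    induction i using Fin.induction with
    | zero => rfl
    | succ i ih => rw [← ih, ← Fin.coeSucc_eq_succ, h1, h2, add_zero]
  have h4 : ∀ j i (c : T16), c ≠ 0 → f (c • y j i) = f (y j 0) := fun j i c hc => by
    rw [hf.1 _ _ hc (hy j i).1, h3]
  have blk : ∀ j0 i0 (c0 : T16) j1 i1 (c1 : T16) j2 i2 (c2 : T16) j3 i3 (c3 : T16) j4 i4
      (c4 : T16), (c0 ≠ 0 ∧ c1 ≠ 0 ∧ c2 ≠ 0 ∧ c3 ≠ 0 ∧
      c4 ≠ 0 ∧ hermForm 3 T16 4 (c0 • y j0 i0) (c1 • y j1 i1) = 1 ∧
      c1 • y j1 i1 + e 0 • c0 • y j0 i0 = c1 • y j1 i1 ∧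
      c1 • y j1 i1 + e 1 • c0 • y j0 i0 = c2 • y j2 i2 ∧
      c1 • y j1 i1 + e 2 • c0 • y j0 i0 = c3 • y j3 i3 ∧
      c1 • y j1 i1 + e 3 • c0 • y j0 i0 = c4 • y j4 i4) →
      f (y j0 0) + f (y j1 0) + f (y j2 0) + f (y j3 0) + f (y j4 0) = 0 := by
    intro j0 i0 c0 j1 i1 c1 j2 i2 c2 j3 i3 c3 j4 i4 c4 ⟨n0, n1, n2, n3, n4, e0, e1, e2, e3, e4⟩
    have := hf.2 _ _ ((hy j0 i0).1.smul n0) ((hy j1 i1).1.smul n1) e0
    rwa [e1, e2, e3, e4, h4 _ _ _ n0, h4 _ _ _ n1, h4 _ _ _ n2, h4 _ _ _ n3, h4 _ _ _ n4] at this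
  have b0 := blk 0 0 (e 1) 1 0 (e 6) 2 0 (e 7) 1 4 (e 4) 0 8 (e 5) (by decide +kernel)
  have b1 := blk 0 0 (e 1) 3 0 (e 1) 0 12 (e 1) 4 9 (e 1) 3 5 (e 1) (by decide +kernel)
  have b2 := blk 0 0 (e 1) 4 0 (e 10) 1 12 (e 10) 1 10 (e 10) 4 6 (e 10) (by decide +kernel)
  have b3 := blk 0 0 (e 1) 0 10 (e 8) 1 3 (e 8) 3 7 (e 8) 3 9 (e 8) (by decide +kernel)
  have lin : ∀ a b c d x : ZMod 5, a + b + c + b + a = 0 → a + d + a + x + d = 0 → a + x + b + b + x = 0 → a + a + b + d + d = 0 →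
      b = a ∧ c = a ∧ d = a ∧ x = a := by decide +kernel
  obtain ⟨l1, l2, l3, l4⟩ := lin _ _ _ _ _ b0 b1 b2 b3
  refine ⟨f (y 0 0), fun x hx => ?_⟩
  obtain ⟨j, i, c, hc, rfl⟩ := cover hx
  rw [h4 _ _ _ hc]
  fin_cases j
  exacts [rfl, l1, l2, l3, l4]

theorem card_su : Nat.card (SU 3 T16 4) = 62400 := by
  have h := Cfsg.Lib.Class.Form.card_SU (F := T16) (q := 4) T16.card 3 (by norm_num)
  have h2 : Cfsg.Lib.Class.Form.guOrder 4 3 = 312000 := by decide +kernel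
  omega

theorem fpf {g : SU 3 T16 4} (hg : orderOf g = 13) {v : W ⧸ C.comap W.subtype} (hv : ρ g v = v) :
    v = 0 := by
  refine fpf_of_sq_not_dvd ρ (by norm_num) (by rw [card_su]; norm_num) (g₀ := a⁻¹) ?_
    (fun v hv => ?_) hg hv
  · have : a ^ 13 = 1 := suToMat_injective (by
      rw [map_pow, pow_el a (M := A) rfl, map_one]; decide +kernel)
    rw [← map_pow, inv_pow, this, inv_one, map_one]
  · obtain ⟨f, rfl⟩ := Submodule.Quotient.mk_surjective _ v
    obtain ⟨κ, hκ⟩ := (Submodule.Quotient.eq _).1 hv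
    exact (Submodule.Quotient.mk_eq_zero _).2 (const_of_fixed f.2 (κ := κ) fun x hx => by
      have := hκ x hx
      rwa [map_sub, Pi.sub_apply, show W.subtype (ρ₀.subrepresentation W W_le a⁻¹ f) x =
        ρ₀ a⁻¹ f x from rfl, ρ₀_apply, inv_inv] at this)

instance instFiniteQ : Finite (W ⧸ C.comap W.subtype) :=
  Finite.of_surjective _ (Submodule.Quotient.mk_surjective _)

theorem large (N : ℕ) : ∃ (H : Type) (_ : Group H) (_ : Fintype H), N < Fintype.card H ∧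
    SamePrimeGraph (SU 3 T16 4) H := by
  refine exists_large_samePrimeGraph_of_rep ρ (p := 5) (by norm_num) (fun v => ?_)
    (by rw [card_su]; norm_num) (fun g v hp h5 hv0 hv => ?_) N
  · rw [← Nat.cast_smul_eq_nsmul (ZMod 5)]
    exact zero_smul (ZMod 5) v
  · have hd := orderOf_dvd_natCard g
    rw [card_su, show 62400 = 2 ^ 6 * 3 * 5 ^ 2 * 13 by norm_num] at hd
    have : orderOf g = 2 ∨ orderOf g = 3 ∨ orderOf g = 13 := by
      simp only [hp.dvd_mul] at hd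
      rcases hd with ((h | h) | h) | h
      · exact Or.inl ((Nat.prime_dvd_prime_iff_eq hp (by norm_num)).1 (hp.dvd_of_dvd_pow h))
      · exact Or.inr (Or.inl ((Nat.prime_dvd_prime_iff_eq hp (by norm_num)).1 h))
      · exact absurd ((Nat.prime_dvd_prime_iff_eq hp (by norm_num)).1 (hp.dvd_of_dvd_pow h)) h5
      · exact Or.inr (Or.inr ((Nat.prime_dvd_prime_iff_eq hp (by norm_num)).1 h))
    rcases this with h | h | h
    · rw [h]
      refine exists_orderOf_eq_of_map (suToMat 3 T16 4) (el !![e 0, e 8, e 0; e 8, e 0, e 0; e 0, e 0, e 14]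
        (by rw [Matrix.det_fin_three]; decide +kernel) (by decide +kernel)) (by norm_num)
        (by norm_num) ?_ ?_ ?_ <;> rw [pow_el _ rfl] <;> decide +kernel
    · rw [h]
      refine exists_orderOf_eq_of_map (suToMat 3 T16 4) (el !![e 0, e 11, e 2; e 0, e 6, e 3; e 14, e 0, e 0]
        (by rw [Matrix.det_fin_three]; decide +kernel) (by decide +kernel)) (by norm_num)
        (by norm_num) ?_ ?_ ?_ <;> rw [pow_el _ rfl] <;> decide +kernel
    · exact absurd (fpf h hv) hv0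


/-- The prime graph of a finite group has the prime divisors of its order as vertices, two distinct primes p, q being joined when the group has an element of order pq; two groups have the same prime graph when they have the same prime divisors and the same joined pairs. Let F be the field with 16 elements and L = PSU(3,4) realised over F. There are finite groups of arbitrarily large order with the same prime graph as L. -/
theorem result {F : Type*} [Field F] [Fintype F] (hF : Fintype.card F = 16) (N : ℕ) :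
    ∃ (H : Type) (_ : Group H) (_ : Finite H), N < Nat.card H ∧
      ((∀ p : ℕ, p.Prime → (p ∣ Nat.card (Cfsg.PSU 3 F 4) ↔ p ∣ Nat.card H)) ∧
      (∀ p q : ℕ, p.Prime → q.Prime → p ≠ q → ((∃ g : (Cfsg.PSU 3 F 4), orderOf g = p * q) ↔ (∃ g : H, orderOf g = p * q)))) := by
  obtain ⟨e⟩ := T16.nonempty_ringEquiv hF
  obtain ⟨H, _, _, h1, h2⟩ := large N
  have hz : Subgroup.center (SU 3 T16 4) = ⊥ :=
    Subgroup.card_eq_one.1 (Cfsg.Lib.Class.Form.card_center_SU (F := T16) (q := 4) T16.card 3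
      (by norm_num))
  have e' : PSU 3 F 4 ≃* SU 3 T16 4 := (Cfsg.Lib.Class.psuEquiv 3 4 e).trans
    ((QuotientGroup.quotientMulEquivOfEq hz).trans QuotientGroup.quotientBot)
  have : Finite (PSU 3 F 4) := Finite.of_equiv _ e'.symm.toEquiv
  exact ⟨H, inferInstance, inferInstance, by rwa [Nat.card_eq_fintype_card],
    (samePrimeGraph_of_range_eq (range_orderOf_congr e')).trans h2⟩

end Cfsg.Agent.S3663
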