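import Cfsg.Statements.S3682
import Cfsg.Agent.Perm.TW

set_option autoImplicit false
open Cfsg

namespace Cfsg.Agent.S3682

open Subgroup Cfsg.Lib.Perm Cfsg.Lib.Solv Cfsg.Lib.Trans Cfsg.Lib.Local MulAction


/-- Wielandt's bound toward the Sims conjecture. Let a finite group G act faithfully and primitively on a set Ω, let a and b be points, and suppose the orbit of b under the stabilizer of a has length d ≥ 2. Then there are a prime p and a normal p-subgroup P of the stabilizer of a, all of whose elements fix b, such that the index of P in the stabilizer of a divides d! · ((d - 1)!)^d. -/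
theorem result {G Ω : Type*} [Group G] [Finite G] [MulAction G Ω] [FaithfulSMul G Ω] [Finite Ω]
    (hprim : MulAction.IsPreprimitive G Ω) (a b : Ω) (d : ℕ) (hd : Nat.card (MulAction.orbit (MulAction.stabilizer G a) b) = d) (h2 : 2 ≤ d) :
    ∃ p : ℕ, p.Prime ∧ ∃ P : Subgroup (MulAction.stabilizer G a), P.Normal ∧ IsPGroup p P ∧ (∀ g : P, ((g : MulAction.stabilizer G a) : G) • b = b) ∧
      P.index ∣ Nat.factorial d * (Nat.factorial (d - 1)) ^ d := by
  have h := primPair_stabilizer hprim (a := a) (b := b) (by omega)
  rw [card_orbit_stabilizer] at hd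
  subst hd
  by_cases h0 : coreIn (stabilizer G a) (coreIn (stabilizer G b) (stabilizer G a)) = ⊥ ∨
      coreIn (stabilizer G b) (coreIn (stabilizer G a) (stabilizer G b)) = ⊥
  · refine ⟨2, Nat.prime_two, ⊥, inferInstance, IsPGroup.of_bot, ?_, ?_⟩
    · rintro ⟨g, rfl⟩; simp
    · rw [index_bot]; exact h.card_dvd h0
  · rw [not_or] at h0
    obtain ⟨p, hp, h1, -⟩ := h.thompson_wielandt h0.1 h0.2
    refine ⟨p, hp, (coreIn (stabilizer G a) (coreIn (stabilizer G b) (stabilizer G a))).subgroupOf _,
      normal_subgroupOf_of_le_normalizer (le_normalizer_coreIn _ _), h1.comap_subtype,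
      fun g => coreIn_le_left _ _ (coreIn_le_right _ _ g.2), ?_⟩
    have := relIndex_core₂_dvd (stabilizer G a) (stabilizer G b)
    rwa [h.relIndex_eq] at this

end Cfsg.Agent.S3682
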