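import Cfsg.Statements.S3683
import Cfsg.Agent.Perm.TW

set_option autoImplicit false
open Cfsg

namespace Cfsg.Agent.S3683

open Subgroup Cfsg.Lib.Perm Cfsg.Lib.Solv Cfsg.Lib.Trans Cfsg.Lib.Local MulAction


/-- Let a finite group G act faithfully and primitively on a set Ω, and suppose the stabilizer of a point a fixes a second point b ≠ a (a suborbit of length 1 other than {a}). Then the stabilizer of a is trivial and G is cyclic of prime order. -/
theorem result {G Ω : Type*} [Group G] [Finite G] [MulAction G Ω] [FaithfulSMul G Ω] [Finite Ω]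
    (hprim : MulAction.IsPreprimitive G Ω) (a b : Ω) (hab : a ≠ b) (hfix : ∀ g : G, g • a = a → g • b = b) :
    MulAction.stabilizer G a = ⊥ ∧ IsCyclic G ∧ (Nat.card G).Prime := by
  have : Nontrivial Ω := ⟨a, b, hab⟩
  have hco := IsPreprimitive.isCoatom_stabilizer_of_isPreprimitive G a
  obtain ⟨g, rfl⟩ := exists_smul_eq G a b
  have h1 : stabilizer G a = ⊥ := by
    by_contra h0
    have h2 := normalizer_le_of_isCoatom hco (normalCore_stabilizer_eq_bot a) _ h0 le_rfl
      le_normalizer
    have h3 : stabilizer G a = cj g (stabilizer G a) :=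
      eq_of_le_of_card_ge (stabilizer_smul_eq_cj g a ▸ hfix) (card_cj g _).le
    exact hab (h2 (cj_eq_self_iff.1 h3.symm)).symm
  rw [h1] at hco
  have hnt : Nontrivial G := by
    by_contra hn
    rw [not_nontrivial_iff_subsingleton] at hn
    exact hco.1 (Subsingleton.elim _ _)
  obtain ⟨p, hp, hd⟩ := Nat.exists_prime_and_dvd (Finite.one_lt_card (α := G)).ne'
  have := Fact.mk hp
  obtain ⟨x, hx⟩ := exists_prime_orderOf_dvd_card' p hd
  have h4 : zpowers x = ⊤ := hco.2 _ (bot_lt_iff_ne_bot.2 fun e => by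
    rw [zpowers_eq_bot] at e
    rw [e, orderOf_one] at hx
    exact hp.one_lt.ne hx)
  have h5 : Nat.card G = p := by rw [← card_top, ← h4, Nat.card_zpowers, hx]
  exact ⟨h1, isCyclic_of_prime_card h5, h5 ▸ hp⟩

end Cfsg.Agent.S3683
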