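import Cfsg.Statements.S3684
import Cfsg.Agent.Perm.TW
import Cfsg.Agent.Local.Dihedral

set_option autoImplicit false
open Cfsg

namespace Cfsg.Agent.S3684

open Subgroup Cfsg.Lib.Perm Cfsg.Lib.Solv Cfsg.Lib.Trans Cfsg.Lib.Local MulAction


/-- Let a finite group G act faithfully and primitively on a set Ω, and suppose the stabilizer of a point a has an orbit of length 2. Then the stabilizer of a has order 2 and G is isomorphic to the dihedral group of order 2p for some prime p. -/
theorem result {G Ω : Type*} [Group G] [Finite G] [MulAction G Ω] [FaithfulSMul G Ω] [Finite Ω]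
    (hprim : MulAction.IsPreprimitive G Ω) (a b : Ω) (h2 : Nat.card (MulAction.orbit (MulAction.stabilizer G a) b) = 2) :
    Nat.card (MulAction.stabilizer G a) = 2 ∧ ∃ p : ℕ, p.Prime ∧ Nonempty (G ≃* DihedralGroup p) := by
  have h := primPair_stabilizer hprim (a := a) (b := b) (by omega)
  have : Nontrivial Ω := ⟨a, b, fun e => h.ne (e ▸ rfl)⟩
  have hco := IsPreprimitive.isCoatom_stabilizer_of_isPreprimitive G a
  rw [card_orbit_stabilizer] at h2
  set H := stabilizer G a with hH
  set K := stabilizer G b with hK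
  have nrm : ∀ H K : Subgroup G, K.relIndex H = 2 → H ≤ normalizer ((H ⊓ K : Subgroup G) : Set G) := by
    intro H K e
    rw [← normal_subgroupOf_iff_le_normalizer inf_le_left, inf_subgroupOf_left]
    exact normal_of_index_eq_two e
  have hT : H ⊓ K = ⊥ := h.eq_bot inf_le_left (nrm H K h2)
    (inf_comm K H ▸ nrm K H (h.relIndex_eq.trans h2))
  have c1 : Nat.card H = 2 := by
    have := card_inf_mul_relIndex K H
    rwa [inf_comm, hT, card_bot, one_mul, h2, eq_comm] at this
  have gen : ∀ H : Subgroup G, Nat.card H = 2 → ∃ s : G, orderOf s = 2 ∧ zpowers s = H := by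
    intro H e
    obtain ⟨s, hs⟩ := exists_prime_orderOf_dvd_card' (G := H) 2 e.symm.dvd
    refine ⟨s, by rw [orderOf_coe, hs], eq_of_le_of_card_ge (zpowers_le.2 s.2) ?_⟩
    rw [Nat.card_zpowers, orderOf_coe, hs, e]
  obtain ⟨s, hs, es⟩ := gen H c1
  obtain ⟨t, ht, et⟩ := gen K (h.card_eq.trans c1)
  have hs2 : s * s = 1 := by rw [← pow_two, ← hs, pow_orderOf_eq_one]
  have ht2 : t * t = 1 := by rw [← pow_two, ← ht, pow_orderOf_eq_one]
  have htop : closure {s, t} = ⊤ := by
    refine hco.2 _ (lt_of_le_of_ne ?_ fun e => h.not_le ?_)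
    · rw [← es, zpowers_le]; exact subset_closure (by simp)
    · rw [e, ← et, zpowers_le]; exact subset_closure (by simp)
  obtain ⟨e⟩ := dih_closure_mulEquiv hs ht
  have e' : G ≃* DihedralGroup (orderOf (s * t)) :=
    (topEquiv.symm.trans (MulEquiv.subgroupCongr htop.symm)).trans e
  refine ⟨c1, orderOf (s * t), ?_, ⟨e'⟩⟩
  have hc : Nat.card G = 2 * orderOf (s * t) := by
    rw [Nat.card_congr e'.toEquiv, DihedralGroup.nat_card]
  have hn1 : orderOf (s * t) ≠ 1 := fun e => by
    rw [orderOf_eq_one_iff, ← hs2, mul_right_inj] at e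
    exact h.ne (by rw [← es, ← et, e])
  obtain ⟨p, hp, k, hk⟩ := Nat.exists_prime_and_dvd hn1
  have hk0 : k ≠ 0 := by rintro rfl; exact (orderOf_pos _).ne' hk
  have ho : orderOf ((s * t) ^ k) = p := by
    rw [orderOf_pow' _ hk0, hk, Nat.gcd_mul_left_left, Nat.mul_div_cancel _ (Nat.pos_of_ne_zero hk0)]
  have hsi : s⁻¹ = s := inv_eq_of_mul_eq_one_left hs2
  have hti : t⁻¹ = t := inv_eq_of_mul_eq_one_left ht2
  have n1 : s ∈ normalizer (zpowers ((s * t) ^ k) : Set G) := by
    refine mem_normalizer_of_conj_mem ?_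
    rintro _ ⟨j, rfl⟩
    have e1 : s * (s * t) * s⁻¹ = (s * t)⁻¹ := by
      rw [← mul_assoc, hs2, one_mul, mul_inv_rev, hsi, hti]
    simp only [← conj_zpow, ← conj_pow, e1, inv_pow, inv_zpow]
    exact inv_mem ⟨j, rfl⟩
  have n2 : (zpowers ((s * t) ^ k)).Normal := by
    rw [← normalizer_eq_top_iff, eq_top_iff, ← htop, closure_le]
    rintro x (hx | hx)
    · exact hx ▸ n1
    · rw [Set.mem_singleton_iff.1 hx]
      have n3 : s * t ∈ normalizer (zpowers ((s * t) ^ k) : Set G) :=
        centralizer_le_normalizer _ (by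
          rintro _ ⟨j, rfl⟩
          exact (((Commute.refl (s * t)).pow_left k).zpow_left j).eq)
      simpa using mul_mem (inv_mem n1) n3
  have h3 : H ⊔ zpowers ((s * t) ^ k) = ⊤ := by
    refine hco.2 _ (lt_of_le_of_ne le_sup_left fun e => ?_)
    have h4 : zpowers ((s * t) ^ k) ≤ H.normalCore := normal_le_normalCore.2 (e ▸ le_sup_right)
    rw [normalCore_stabilizer_eq_bot, le_bot_iff, zpowers_eq_bot] at h4
    rw [h4, orderOf_one] at ho
    exact hp.one_lt.ne ho
  have h5 := card_sup_dvd_of_le_normalizer (H := H) (N := zpowers ((s * t) ^ k))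
    (le_normalizer_of_normal)
  rw [sup_comm, h3, card_top, hc, c1, Nat.card_zpowers, ho, mul_comm p] at h5
  have h6 := Nat.dvd_of_mul_dvd_mul_left two_pos h5
  rw [(Nat.dvd_prime hp).1 h6 |>.resolve_left hn1]
  exact hp

end Cfsg.Agent.S3684
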