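import Cfsg.Statements.S3687
import Mathlib
import Cfsg.Agent.Class.SubAlt

set_option autoImplicit false
open Cfsg

namespace Cfsg.Agent.S3687

open Subgroup Equiv Cfsg.Lib.Perm Cfsg.Lib.Class.SubAlt MulAction

/-- Let a finite group G act faithfully and primitively on a set Ω, let a and b be points such that the orbit Δ of b under the stabilizer H of a has d ≥ 6 elements, and suppose that the permutation group induced by H on Δ contains the alternating group of Δ (the image of H in the symmetric group of Δ has index at most 2) while H does not act faithfully on Δ. Then either H induces exactly the alternating group of Δ and H is isomorphic to the direct product of the alternating groups of degrees d and d - 1; or H induces the full symmetric group of Δ and H is isomorphic to one of: the direct product of the symmetric groups of degrees d and d - 1, the direct product of the symmetric group of degree d with the alternating group of degree d - 1, or the subgroup of the direct product of the symmetric groups of degrees d and d - 1 consisting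 of the pairs of permutations with equal signs. -/
theorem result {G Ω : Type*} [Group G] [Finite G] [MulAction G Ω] [FaithfulSMul G Ω] [Finite Ω]
    (hprim : MulAction.IsPreprimitive G Ω) (a b : Ω) (d : ℕ) (hd : Nat.card (MulAction.orbit (MulAction.stabilizer G a) b) = d) (h6 : 6 ≤ d)
    (halt : (MulAction.toPermHom (MulAction.stabilizer G a) (MulAction.orbit (MulAction.stabilizer G a) b)).range.index ≤ 2)
    (hunf : ¬ Function.Injective (MulAction.toPermHom (MulAction.stabilizer G a) (MulAction.orbit (MulAction.stabilizer G a) b))) :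
    ((MulAction.toPermHom (MulAction.stabilizer G a) (MulAction.orbit (MulAction.stabilizer G a) b)).range.index = 2 ∧
      Nonempty (MulAction.stabilizer G a ≃* alternatingGroup (Fin d) × alternatingGroup (Fin (d - 1)))) ∨
    ((MulAction.toPermHom (MulAction.stabilizer G a) (MulAction.orbit (MulAction.stabilizer G a) b)).range = ⊤ ∧
      (Nonempty (MulAction.stabilizer G a ≃* Equiv.Perm (Fin d) × Equiv.Perm (Fin (d - 1))) ∨
       Nonempty (MulAction.stabilizer G a ≃* Equiv.Perm (Fin d) × alternatingGroup (Fin (d - 1))) ∨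
       Nonempty (MulAction.stabilizer G a ≃* ((Equiv.Perm.sign.comp (MonoidHom.fst (Equiv.Perm (Fin d)) (Equiv.Perm (Fin (d - 1))))) *
         (Equiv.Perm.sign.comp (MonoidHom.snd (Equiv.Perm (Fin d)) (Equiv.Perm (Fin (d - 1)))))).ker))) := by
  classical

  obtain ⟨n, rfl⟩ : ∃ n, d = n + 1 := ⟨d - 1, by omega⟩
  have P := primPair_stabilizer hprim (a := a) (b := b) (by omega)
  have hd' := hd
  rw [card_orbit_stabilizer] at hd'
  have h5 : 5 ≤ Fintype.card (Fin n) := by rw [Fintype.card_fin]; omega
  have hk : (toPermHom (stabilizer G a) (orbit (stabilizer G a) b)).ker =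
      (coreIn (stabilizer G a) (stabilizer G b)).subgroupOf (stabilizer G a) := by
    ext x
    rw [MonoidHom.mem_ker, mem_subgroupOf, mem_coreIn]
    constructor
    · intro h
      refine ⟨x.2, fun m hm => ?_⟩
      have := congrArg Subtype.val (Equiv.congr_fun h ⟨_, mem_orbit b (⟨m, hm⟩⁻¹ : stabilizer G a)⟩)
      change (x : G) • m⁻¹ • b = m⁻¹ • b at this
      rw [mem_stabilizer_iff, mul_smul, mul_smul, this, smul_inv_smul]
    · rintro ⟨-, h⟩
      ext ⟨_, m, rfl⟩
      have := h _ (inv_mem m.2)
      rw [mem_stabilizer_iff, inv_inv, mul_smul, mul_smul, inv_smul_eq_iff] at this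
      exact this
  have hc : (toPermHom (stabilizer G a) (orbit (stabilizer G a) b)).range.index *
      (coreIn (stabilizer G a) (stabilizer G b)).relIndex (stabilizer G a) = (n + 1).factorial := by
    rw [relIndex, ← hk, index_ker, index_mul_card, Nat.card_perm, hd]
  have h0 : coreIn (stabilizer G a) (stabilizer G b) ≠ ⊥ := fun e => hunf (by
    rw [← MonoidHom.ker_eq_bot_iff, hk, e, bot_subgroupOf])
  have c1 := two_mul_card_alt (card_option h5)
  rw [Fintype.card_option, Fintype.card_fin] at c1
  have c0 : 0 < Nat.card (alternatingGroup (Option (Fin n))) := Nat.card_pos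
  have hd2 : (stabilizer G b).relIndex (stabilizer G a) = Fintype.card (Fin n) + 1 := by
    rw [hd', Fintype.card_fin]
  obtain ⟨s, S⟩ := exists_side h5 hd2 (by
    by_contra hn
    nlinarith)
  obtain ⟨u, C, pu, hAC, fC, hC, fA, hs⟩ := exists_prod h5 P S h0 hd2
  have fH := S.full
  have sph := S.ph
  have hA := coreIn_le_left (stabilizer G a) (stabilizer G b)
  generalize (toPermHom (stabilizer G a) (orbit (stabilizer G a) b)).range = R0 at *
  clear hk S hunf
  generalize coreIn (stabilizer G a) (stabilizer G b) = A at *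
  have hr := sph.relIndex_eq le_rfl
  set H := stabilizer G a
  let e := (finSuccEquiv n).symm
  let Φ : H →* Perm (Fin (n + 1)) × Perm (Fin n) :=
    (e.permCongrHom.toMonoidHom.comp (sph.hom le_rfl)).prod (pu.hom le_rfl)
  have h1 : ∀ x : H, Φ x = (e.permCongr (s x), u x) := fun x => rfl
  have hi : Function.Injective Φ := by
    rw [injective_iff_map_eq_one]
    intro x hx
    rw [h1, Prod.mk_eq_one] at hx
    have : (x : G) ∈ A ⊓ C := ⟨(sph.ker x x.2).1 (e.permCongr.injective (hx.1.trans (by
      ext; simp))), (pu.ker x x.2).1 hx.2⟩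
    exact Subtype.ext (mem_bot.1 (hAC ▸ this))
  have hle : (alternatingGroup (Fin (n + 1))).prod (alternatingGroup (Fin n)) ≤ Φ.range := by
    rintro ⟨σ, τ⟩ ⟨hσ, hτ⟩
    obtain ⟨c, hc, e1⟩ := fC (e.symm.permCongr σ) (by
      rw [Perm.mem_alternatingGroup, Perm.sign_permCongr]; exact hσ)
    obtain ⟨y, hy, e2⟩ := fA τ hτ
    refine ⟨⟨c * y, mul_mem (hC hc) (hA hy)⟩, ?_⟩
    rw [h1]
    simp only
    rw [sph.mul _ (hC hc) _ (hA hy), pu.mul _ (hC hc) _ (hA hy), (sph.ker y (hA hy)).2 hy,
      (pu.ker c (hC hc)).2 hc, e1, e2, mul_one, one_mul]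
    congr 1
    ext; simp
  have E := MonoidHom.ofInjective hi
  by_cases hh : ∀ x ∈ H, Perm.sign (s x) = 1
  · left
    have e1 : (sph.hom le_rfl).range = alternatingGroup _ := by
      refine le_antisymm (fun σ hσ => ?_) fun σ hσ => (sph.mem_range le_rfl).2 (fH σ hσ)
      obtain ⟨y, hy, rfl⟩ := (sph.mem_range le_rfl).1 hσ
      exact hh y hy
    have e2 : Φ.range = (alternatingGroup (Fin (n + 1))).prod (alternatingGroup (Fin n)) := by
      refine le_antisymm ?_ hle
      rintro _ ⟨x, rfl⟩
      exact ⟨(Perm.sign_permCongr e _).trans (hh x x.2), hs hh x x.2⟩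
    rw [e1] at hr
    rw [hr, ← c1] at hc
    exact ⟨Nat.eq_of_mul_eq_mul_right c0 hc,
      ⟨E.trans ((MulEquiv.subgroupCongr e2).trans (Subgroup.prodEquiv _ _))⟩⟩
  · right
    push Not at hh
    obtain ⟨x, hx, ho⟩ := hh
    rw [eq_top_of_odd (fun σ hσ => (sph.mem_range le_rfl).2 (fH σ hσ))
      ((sph.mem_range le_rfl).2 ⟨x, hx, rfl⟩) ho, card_top, Nat.card_perm, Nat.card_eq_fintype_card,
      Fintype.card_option, Fintype.card_fin] at hr
    rw [hr] at hc
    refine ⟨index_eq_one.1 (Nat.eq_of_mul_eq_mul_right (Nat.factorial_pos _)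
      (hc.trans (one_mul _).symm)), ?_⟩
    rcases range_cases hle (x := Φ ⟨x, hx⟩) ⟨_, rfl⟩
      (fun h => ho ((Perm.sign_permCongr e _).symm.trans h)) with e2 | e2 | e2
    · exact Or.inl ⟨E.trans ((MulEquiv.subgroupCongr e2).trans topEquiv)⟩
    · exact Or.inr (Or.inl ⟨E.trans ((MulEquiv.subgroupCongr e2).trans ((Subgroup.prodEquiv _ _).trans
        (topEquiv.prodCongr (MulEquiv.refl _))))⟩)
    · exact Or.inr (Or.inr ⟨E.trans (MulEquiv.subgroupCongr e2)⟩)

end Cfsg.Agent.S3687
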