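import Cfsg.Statements.S3693
import Cfsg.Agent.Perm.TW

set_option autoImplicit false
open Cfsg

namespace Cfsg.Agent.S3693

open Subgroup Cfsg.Lib.Perm Cfsg.Lib.Solv Cfsg.Lib.Trans Cfsg.Lib.Local MulAction


/-- Let a finite group G act faithfully and primitively on a set Ω, let a and b be points such that the orbit Δ of b under the stabilizer H of a has length d ≥ 2, and consider the permutation group induced on Δ by the elements of H fixing b. If that induced group has trivial Fitting subgroup (no non-trivial nilpotent normal subgroup), then the two-point stabilizer of a and b has trivial Fitting subgroup and the order of H divides d! · ((d - 1)!)^d. -/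
theorem result {G Ω : Type*} [Group G] [Finite G] [MulAction G Ω] [FaithfulSMul G Ω] [Finite Ω]
    (hprim : MulAction.IsPreprimitive G Ω) (a b : Ω) (d : ℕ) (hd : Nat.card (MulAction.orbit (MulAction.stabilizer G a) b) = d) (h2 : 2 ≤ d)
    (hF : Cfsg.fittingSubgroup ↥(((MulAction.stabilizer G b).subgroupOf (MulAction.stabilizer G a)).map (MulAction.toPermHom (MulAction.stabilizer G a) (MulAction.orbit (MulAction.stabilizer G a) b))) = ⊥) :
    Cfsg.fittingSubgroup ↥(MulAction.stabilizer G a ⊓ MulAction.stabilizer G b) = ⊥ ∧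
      Nat.card (MulAction.stabilizer G a) ∣ Nat.factorial d * (Nat.factorial (d - 1)) ^ d := by
  have h := primPair_stabilizer hprim (a := a) (b := b) (by omega)
  rw [card_orbit_stabilizer] at hd
  subst hd
  set H := stabilizer G a with hH
  set K := stabilizer G b with hK
  set φ := toPermHom H (orbit H b) with hφ
  have hker : ∀ x : H, φ x = 1 → (x : G) ∈ coreIn H K := by
    intro x hx
    refine mem_coreIn.2 ⟨x.2, fun m hm => ?_⟩
    have h1 := congrArg Subtype.val
      (DFunLike.congr_fun hx ⟨(⟨m, hm⟩⁻¹ : H) • b, mem_orbit b _⟩)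
    change (x : G) • m⁻¹ • b = m⁻¹ • b at h1
    rw [hK, mem_stabilizer_iff, mul_smul, mul_smul, h1, smul_inv_smul]
  have hO : ∀ (p : ℕ) [Fact p.Prime], pCoreOf p (H ⊓ K) = ⊥ := by
    intro p _
    have h1 : pCoreOf p (H ⊓ K) ≤ coreIn H K := by
      intro x hx
      have hxH : x ∈ H := (MSS.pCoreOf_le _ hx).1
      refine hker ⟨x, hxH⟩ ?_
      have h2 : (pCoreOf p (K.subgroupOf H)).map φ ≤ ⊥ := by
        refine (MSS.map_pCoreOf_le _ φ).trans ((map_pCore_le_fittingOf p _).trans ?_)
        rw [fittingOf, hF, Subgroup.map_bot]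
      refine h2 (mem_map_of_mem φ ?_)
      rw [← inf_subgroupOf_left, MSS.pCoreOf_subgroupOf inf_le_left]
      exact hx
    have hA : coreIn H K ≤ H ⊓ K := le_inf (coreIn_le_left _ _) (coreIn_le_right _ _)
    have h2 : pCoreOf p (H ⊓ K) ≤ pCoreOf p H :=
      (MSS.pCoreOf_le_pCoreOf_of_le h1 hA).trans
        (MSS.pCoreOf_le_of_normal (coreIn_le_left _ _) (le_normalizer_coreIn _ _))
    by_contra h0
    have h3 : pCoreOf p (H ⊓ K) = pCoreOf p (coreIn H K) :=
      le_antisymm (MSS.pCoreOf_le_pCoreOf_of_le h1 hA)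
        (MSS.pCoreOf_le_of_normal hA (inf_le_left.trans (le_normalizer_coreIn _ _)))
    have hN : normalizer (pCoreOf p (H ⊓ K) : Set G) ≤ H := h.left _ h0
      ((MSS.pCoreOf_le _).trans inf_le_left)
      (h3 ▸ MSS.le_normalizer_pCoreOf (le_normalizer_coreIn _ _))
    set D := pCoreOf p (H ⊓ K) with hD
    have hDK : D ≤ K := (MSS.pCoreOf_le _).trans inf_le_right
    have hn : D ≤ normalizer (pCoreOf p K : Set G) := hDK.trans (MSS.self_le_normalizer_pCoreOf K)
    have hS : IsPGroup p (pCoreOf p K ⊔ D : Subgroup G) :=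
      isPGroup_sup' (MSS.isPGroup_pCoreOf K) (MSS.isPGroup_pCoreOf _) hn
    have h4 : pCoreOf p K ≤ D := by
      by_contra hlt
      have hlt' : D < pCoreOf p K ⊔ D :=
        lt_of_le_of_ne le_sup_right fun e => hlt (e ▸ le_sup_left)
      have hnil := hS.isNilpotent
      have h5 := Group.normalizerCondition_of_isNilpotent (D.subgroupOf (pCoreOf p K ⊔ D)) (by
        rw [lt_top_iff_ne_top, Ne, subgroupOf_eq_top]; exact hlt'.not_ge)
      obtain ⟨x, hx1, hx2⟩ := SetLike.exists_of_lt h5
      rw [← subgroupOf_normalizer_eq le_sup_right] at hx1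
      obtain ⟨u, hu, v, hv, e⟩ := (Cfsg.Lib.Solv.mem_sup_of_le_normalizer hn).1 x.2
      apply hx2
      rw [mem_subgroupOf, ← e]
      refine mul_mem ?_ hv
      have hu' : u ∈ H := by
        have : u = x * v⁻¹ := by rw [← e]; group
        rw [this]
        exact H.mul_mem (hN hx1) (H.inv_mem (MSS.pCoreOf_le _ hv).1)
      exact MSS.pCoreOf_inf_le inf_le_right ⟨hu, hu', MSS.pCoreOf_le _ hu⟩
    have h6 := h.symm.pCoreOf_eq_bot_of_le (h4.trans h2)
    exact h0 (le_bot_iff.1 (h2.trans (h.pCoreOf_eq_bot_iff.1 h6).le))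
  constructor
  · rw [← map_eq_bot_iff_of_injective _ (H ⊓ K).subtype_injective]
    exact le_bot_iff.1 (fittingOf_le_of_forall_pCore_le fun p _ => (hO p).le)
  · refine h.card_dvd ?_
    by_contra h0
    rw [not_or] at h0
    obtain ⟨p, hp, h1, -⟩ := h.thompson_wielandt h0.1 h0.2
    have := Fact.mk hp
    refine h0.1 (le_bot_iff.1 (le_trans ?_ (hO p).le))
    exact MSS.le_pCoreOf (le_inf (coreIn_le_left _ _) ((coreIn_le_right _ _).trans
      (coreIn_le_left _ _))) (inf_le_left.trans (le_normalizer_coreIn _ _)) h1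

end Cfsg.Agent.S3693
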