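import Cfsg.Statements.S3696
import Cfsg.Agent.Known.SmallSimple
import Mathlib.Analysis.MeanInequalities

set_option autoImplicit false
open Cfsg

namespace Cfsg.Agent.S3696

open Cfsg.Lib.Known MulAction

theorem amgm (s : Multiset ℕ) : s.prod * s.card ^ s.card ≤ s.sum ^ s.card := by
  induction s using Quotient.inductionOn with
  | h l =>
    simp only [Multiset.quot_mk_to_coe, Multiset.prod_coe, Multiset.coe_card, Multiset.sum_coe]
    rcases Nat.eq_zero_or_pos l.length with h0 | h0
    · rw [List.length_eq_zero_iff.1 h0]; simp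
    have h1 := Real.geom_mean_le_arith_mean (Finset.univ : Finset (Fin l.length)) (fun _ => 1)
      (fun i => (l[i] : ℝ)) (fun _ _ => zero_le_one) (by simpa using h0)
      (fun _ _ => Nat.cast_nonneg _)
    simp only [Real.rpow_one, Finset.sum_const, Finset.card_univ, Fintype.card_fin, nsmul_eq_mul,
      mul_one, one_mul] at h1
    rw [← Nat.cast_prod, ← Nat.cast_sum] at h1
    have e1 : ∏ i : Fin l.length, l[i] = l.prod := Fin.prod_univ_getElem l
    have e2 : ∑ i : Fin l.length, l[i] = l.sum := Fin.sum_univ_getElem l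
    rw [e1, e2] at h1
    have h2 := pow_le_pow_left₀ (by positivity) h1 l.length
    rw [Real.rpow_inv_natCast_pow (Nat.cast_nonneg _) h0.ne', div_pow,
      le_div_iff₀ (by positivity)] at h2
    exact_mod_cast h2

theorem sum_le_prod (t : Multiset ℕ) (h : ∀ x ∈ t, 2 ≤ x) : t.sum ≤ t.prod := by
  induction t using Multiset.induction_on with
  | empty => simp
  | cons a t ih =>
    have h1 := ih fun x hx => h x (Multiset.mem_cons_of_mem hx)
    have h2 := h a (Multiset.mem_cons_self _ _)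
    rw [Multiset.sum_cons, Multiset.prod_cons]
    rcases t.empty_or_exists_mem with rfl | ⟨b, hb⟩
    · simp
    · have h3 := Multiset.single_le_sum (fun _ _ => Nat.zero_le _) b hb
      have h4 := h b (Multiset.mem_cons_of_mem hb)
      have := Nat.add_le_mul h2 (show 2 ≤ t.prod by omega)
      omega

/-- The elements of order dividing `p`. -/
def om {G : Type*} [Group G] (A : Subgroup G) (hab : ∀ a ∈ A, ∀ b ∈ A, a * b = b * a) (p : ℕ) :
    Subgroup G where
  carrier := {g | g ∈ A ∧ g ^ p = 1}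
  one_mem' := ⟨A.one_mem, one_pow _⟩
  mul_mem' := fun {a b} ha hb => ⟨A.mul_mem ha.1 hb.1, by
    rw [Commute.mul_pow (hab a ha.1 b hb.1), ha.2, hb.2, mul_one]⟩
  inv_mem' := fun {a} ha => ⟨A.inv_mem ha.1, by rw [inv_pow, ha.2, inv_one]⟩

theorem aux {Ω : Type*} [Finite Ω] {p : ℕ} (hp : p.Prime) (m : ℕ) :
    ∀ (A : Subgroup (Equiv.Perm Ω)) (hab : ∀ a ∈ A, ∀ b ∈ A, a * b = b * a), IsPGroup p A →
      Nat.card A = m → ∀ S : Set Ω, (∀ g ∈ A, ∀ x ∉ S, g x = x) → ∀ k,
        Nat.card (om A hab p) = p ^ k →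
        ∃ s : Multiset ℕ, s.card = k ∧ s.prod = m ∧ s.sum ≤ S.ncard := by
  have := Fact.mk hp
  induction m using Nat.strong_induction_on with
  | h m ih =>
    intro A hab hA hm S hS k hk
    have hle : om A hab p ≤ A := fun g hg => hg.1
    by_cases h0 : k = 0
    · refine ⟨0, h0.symm, ?_, by simp⟩
      rw [h0, pow_zero] at hk
      by_contra h
      obtain ⟨n, hn⟩ := hA.exists_card_eq
      obtain ⟨z, hz⟩ := exists_prime_orderOf_dvd_card' (G := A) p (by
        rw [hn]
        refine dvd_pow_self p fun e => h ?_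
        rw [← hm, hn, e]; rfl)
      have h1 := Subgroup.orderOf_dvd_natCard (om A hab p) (x := z) ⟨z.2, by
        rw [← hz, ← Subgroup.orderOf_coe, pow_orderOf_eq_one]⟩
      rw [hk, Subgroup.orderOf_coe, hz, Nat.dvd_one] at h1
      exact hp.ne_one h1
    obtain ⟨z, hz, hz1⟩ : ∃ z ∈ om A hab p, z ≠ 1 := by
      by_contra h
      push Not at h
      rw [show om A hab p = ⊥ from eq_bot_iff.2 h, Subgroup.card_bot, eq_comm, Nat.pow_eq_one] at hk
      exact hk.elim hp.ne_one h0
    obtain ⟨ω, hω⟩ : ∃ ω, z ω ≠ ω := by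
      by_contra h
      push Not at h
      exact hz1 (Equiv.ext h)
    let B := stabilizer (Equiv.Perm Ω) ω ⊓ A
    have hBA : B ≤ A := inf_le_right
    have habB : ∀ a ∈ B, ∀ b ∈ B, a * b = b * a := fun a ha b hb => hab a ha.2 b hb.2
    have h1 := card_inf_mul_relIndex (stabilizer (Equiv.Perm Ω) ω) A
    have h2 := card_inf_mul_relIndex (stabilizer (Equiv.Perm Ω) ω) (om A hab p)
    have h3 : stabilizer (Equiv.Perm Ω) ω ⊓ om A hab p = om B habB p := by
      ext g
      exact and_assoc.symm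
    have h4 : (stabilizer (Equiv.Perm Ω) ω).relIndex A = (orbit A ω).ncard :=
      index_stabilizer A ω
    obtain ⟨a, ha⟩ := hA.card_orbit ω
    rw [Nat.card_coe_set_eq] at ha
    obtain ⟨k', hk'⟩ := ((hA.to_le hBA).to_le (show om B habB p ≤ B from fun g hg => hg.1)).exists_card_eq
    have h5 : (stabilizer (Equiv.Perm Ω) ω).relIndex (om A hab p) ≤ p ^ a := by
      rw [← ha, ← h4]
      exact Subgroup.relIndex_le_of_le_right hle Subgroup.index_ne_zero_of_finite
    have h6 : (stabilizer (Equiv.Perm Ω) ω).relIndex (om A hab p) ≠ 1 := fun e =>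
      hω (Subgroup.relIndex_eq_one.1 e hz)
    rw [h3, hk, hk'] at h2
    have h7 : k ≤ k' + a := by
      rw [← Nat.pow_le_pow_iff_right hp.one_lt, pow_add, ← h2]
      exact Nat.mul_le_mul_left _ h5
    have h8 : k' < k := by
      rw [← Nat.pow_lt_pow_iff_right hp.one_lt, ← h2]
      refine lt_mul_of_one_lt_right (pow_pos hp.pos _) ?_
      have : (stabilizer (Equiv.Perm Ω) ω).relIndex (om A hab p) ≠ 0 :=
        Subgroup.index_ne_zero_of_finite
      omega
    rw [h4, ha, hm] at h1
    have h9 : orbit A ω ⊆ S := by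
      rintro _ ⟨g, rfl⟩
      by_contra h
      have e1 := hS z hz.1 _ h
      change z (g.1 ω) = g.1 ω at e1
      rw [← Equiv.Perm.mul_apply, hab z hz.1 g g.2, Equiv.Perm.mul_apply] at e1
      exact hω (g.1.injective e1)
    obtain ⟨s, hs1, hs2, hs3⟩ := ih (Nat.card B) (by
        rw [← h1]
        exact lt_mul_of_one_lt_right Nat.card_pos (Nat.one_lt_pow (by omega) hp.one_lt))
      B habB (hA.to_le hBA) rfl (S \ orbit A ω) (fun g hg x hx => by
        by_cases e : x ∈ S
        · obtain ⟨c, rfl⟩ : x ∈ orbit A ω := by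
            by_contra h; exact hx ⟨e, h⟩
          change g (c.1 ω) = c.1 ω
          rw [← Equiv.Perm.mul_apply, hab g hg.2 c c.2, Equiv.Perm.mul_apply,
            show g ω = ω from hg.1]
        · exact hS g hg.2 x e) k' hk'
    obtain ⟨d, rfl⟩ : ∃ d, k = k' + (d + 1) := ⟨k - k' - 1, by omega⟩
    obtain ⟨c, rfl⟩ : ∃ c, a = c + 1 + d := ⟨a - 1 - d, by omega⟩
    have e1 : (p ^ (c + 1) ::ₘ Multiset.replicate d p).prod = p ^ (c + 1 + d) := by
      rw [Multiset.prod_cons, Multiset.prod_replicate, ← pow_add]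
    have e2 := sum_le_prod (p ^ (c + 1) ::ₘ Multiset.replicate d p) (fun x hx => by
      rcases Multiset.mem_cons.1 hx with rfl | hx
      · exact Nat.one_lt_pow (by omega) hp.one_lt
      · rw [Multiset.eq_of_mem_replicate hx]; exact hp.two_le)
    refine ⟨s + (p ^ (c + 1) ::ₘ Multiset.replicate d p), by simp [hs1, add_assoc], ?_, ?_⟩
    · rw [Multiset.prod_add, e1, hs2, h1]
    · rw [Multiset.sum_add, ← Set.ncard_sdiff_add_ncard_of_subset h9, ha]
      omega

/-- Let p be a prime, Ω a finite set with n ≥ p elements, and A an abelian p-subgroup of the symmetric group on Ω whose elements of order dividing p number p^k (so k is the rank of A). Then |A| · k^k ≤ n^k, that is, |A| ≤ (n/k)^k. -/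
theorem result {Ω : Type*} [Fintype Ω] [DecidableEq Ω]
    (p : ℕ) (hp : p.Prime) (hn : p ≤ Fintype.card Ω) (A : Subgroup (Equiv.Perm Ω)) (hA : IsPGroup p A) (hab : IsMulCommutative A)
    (k : ℕ) (hk : Nat.card {x : A // x ^ p = 1} = p ^ k) :
    Nat.card A * k ^ k ≤ Fintype.card Ω ^ k := by
  have hab' : ∀ a ∈ A, ∀ b ∈ A, a * b = b * a := fun a ha b hb =>
    congrArg Subtype.val (hab.1.1 ⟨a, ha⟩ ⟨b, hb⟩)
  obtain ⟨s, rfl, h2, h3⟩ := aux hp _ A hab' hA rfl Set.univ (fun _ _ _ h => (h trivial).elim) k (by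
    rw [← hk]
    exact Nat.card_congr ⟨fun x => ⟨⟨x.1, x.2.1⟩, Subtype.ext x.2.2⟩,
      fun x => ⟨x.1.1, x.1.2, congrArg Subtype.val x.2⟩, fun _ => rfl, fun _ => rfl⟩)
  rw [Set.ncard_univ, Nat.card_eq_fintype_card] at h3
  rw [← h2]
  exact (amgm s).trans (Nat.pow_le_pow_left h3 _)

end Cfsg.Agent.S3696
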