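import Cfsg.Statements.S3703
import Cfsg.Agent.Perm.GK
import Cfsg.Agent.S0035
import Cfsg.Agent.S0042
import Cfsg.Agent.Solv.Frobenius

set_option autoImplicit false
open Cfsg

namespace Cfsg.Agent.S3703

open Subgroup Cfsg.Lib.Perm Cfsg.Lib.Solv
open scoped Pointwise


/-- Let N be a normal subgroup of the finite group G such that G/N is a Frobenius group with kernel F and cyclic complement H, where the order of F is coprime to that of N and F is not contained in the image of C_G(N) in G/N. Then G has an element of order p·#H for some prime p dividing the order of N. (A standard tool in recognising groups by their element orders.) -/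
theorem result {G : Type*} [Group G] [Finite G] (N : Subgroup G) [N.Normal]
    (Fb Hb : Subgroup (G ⧸ N)) [Fb.Normal] (hHb : Cfsg.IsFrobeniusComplement Hb) (hker : Cfsg.frobeniusKernel Hb = (Fb : Set (G ⧸ N)))
    (hcyc : IsCyclic Hb) (hcop : (Nat.card Fb).Coprime (Nat.card N))
    (hnot : ¬ Fb ≤ (Subgroup.centralizer (N : Set G)).map (QuotientGroup.mk' N)) :
    ∃ p : ℕ, p.Prime ∧ p ∣ Nat.card N ∧ ∃ g : G, orderOf g = p * Nat.card Hb := by
  obtain ⟨N₁, e₁, -, hc⟩ := Cfsg.Agent.S0035.result Hb hHb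
  obtain ⟨N₂, e₂, -, hnil⟩ := Cfsg.Agent.S0042.result Hb hHb
  obtain rfl : N₁ = Fb := SetLike.coe_injective (e₁.trans hker)
  obtain rfl : N₂ = N₁ := SetLike.coe_injective (e₂.trans hker)
  have hfpf := (isMalnormal_of_isFrobeniusComplement hHb).fpf_of_disjoint (disjoint_iff.1 hc.disjoint)
  set π := QuotientGroup.mk' N with hπ
  have hU : N.relIndex (N₂.comap π) = Nat.card N₂ := by
    have := card_mul_relIndex_of_le (QuotientGroup.le_comap_mk' N N₂)
    rw [card_comap_mk', mul_comm] at this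
    exact Nat.eq_of_mul_eq_mul_right Nat.card_pos this
  obtain ⟨F, hFU, hsup, hdis, hcard⟩ := exists_complement_ambient N (N₂.comap π)
    (QuotientGroup.le_comap_mk' N N₂) le_normalizer_of_normal (hU ▸ hcop.symm)
  rw [hU] at hcard
  have hFN : F ≤ normalizer (N : Set G) := le_normalizer_of_normal
  have hcop' : (Nat.card F).Coprime (Nat.card N) := hcard ▸ hcop
  have hsol : Group.IsSolvable F := by
    refine Group.isSolvable_of_isSolvable_injective
      (f := (π.comp F.subtype).codRestrict N₂ fun x => hFU x.2) ((injective_iff_map_eq_one _).2 ?_)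
    intro x hx
    exact Subtype.ext (disjoint_def.1 hdis ((QuotientGroup.eq_one_iff _).1 (congrArg Subtype.val hx)) x.2)
  have hnc : ¬ N ≤ centralizer (F : Set G) := fun h => hnot (by
    rw [← map_comap_eq_self_of_surjective (QuotientGroup.mk'_surjective N) N₂, ← hsup,
      Subgroup.map_sup, QuotientGroup.map_mk'_self, bot_sup_eq]
    exact map_mono (le_centralizer_iff.1 h))
  obtain ⟨q, hq, P₀, h1, h2, h3, h4⟩ : ∃ (q : ℕ) (_ : Fact q.Prime) (P : Subgroup G), P ≤ N ∧
      IsPGroup q P ∧ F ≤ normalizer (P : Set G) ∧ ¬ P ≤ centralizer (F : Set G) := by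
    by_contra hn
    push Not at hn
    exact hnc (Coprime.le_of_forall_invariant_pgroup_le hFN hcop' (Or.inl hsol)
      fun q hq P => hn q hq P)
  obtain ⟨P, h5, hPN, hP, hi, hFP⟩ := Coprime.exists_le_invariant_sylow' hFN hcop' (Or.inl hsol)
    h1 h2 h3
  obtain ⟨⟨g, hg⟩, hgen⟩ := hcyc.exists_generator
  have hn : orderOf g = Nat.card Hb := by
    rw [← orderOf_eq_card_of_forall_mem_zpowers hgen, orderOf_mk]
  obtain ⟨h₀, rfl⟩ := QuotientGroup.mk'_surjective N g
  obtain ⟨k, hk, e⟩ := Coprime.exists_conj_eq hFN hcop' (Or.inl hsol) (B := MulAut.conj h₀ • F)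
    (by rw [hsup, ← Normal.conj_smul_eq_self h₀ (N₂.comap π)]; exact conj_smul_mono _ hFU)
    (card_conj_smul _ _)
  have hF1 : k⁻¹ * h₀ ∈ normalizer (F : Set G) := by
    rw [mem_normalizer_iff_conj_smul_eq, conj_mul_smul, ← e, conj_inv_smul_conj_smul]
  obtain ⟨c, ⟨hcN, hcF⟩, e'⟩ := Coprime.invariant_sylow_conj' hFN hcop' (Or.inl hsol) hPN hP hi hFP
    (Q := MulAut.conj (k⁻¹ * h₀) • P)
    (by rw [← Normal.conj_smul_eq_self (k⁻¹ * h₀) N]; exact conj_smul_mono _ hPN)
    (hP.map _) (by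
      rw [← Normal.conj_smul_eq_self (k⁻¹ * h₀) N]
      exact (Cfsg.Lib.Trans.relIndex_cj _ P N).symm ▸ hi) (by
      rw [← conj_smul_eq_of_mem_normalizer hF1]
      exact (conj_smul_mono _ hFP).trans (Cfsg.Lib.Trans.cj_normalizer _ P).le)
  set h := c⁻¹ * (k⁻¹ * h₀) with hh
  have hhP : h ∈ normalizer (P : Set G) := by
    rw [mem_normalizer_iff_conj_smul_eq, conj_mul_smul, ← e', conj_inv_smul_conj_smul]
  have hhF : h ∈ normalizer (F : Set G) := mul_mem (inv_mem (centralizer_le_normalizer _ hcF)) hF1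
  have one : ∀ v ∈ N, π v = 1 := fun v hv => (QuotientGroup.eq_one_iff _).2 hv
  have hπh : π h = π h₀ := by simp [hh, one c hcN, one k hk]
  by_cases hpow : ∀ v ∈ P, (v * h) ^ Nat.card Hb = 1
  · have := hP.isNilpotent
    refine absurd (h5.trans (GK.le_centralizer_of_pow_eq_one hFP hhP hhF Nat.card_pos hpow
      (fun i hi hi' => Fpf.inf_centralizer_eq_bot_iff.2 fun f hf hc => disjoint_def.1 hdis
        ((QuotientGroup.eq_one_iff _).1 ?_) hf) (hcop'.coprime_dvd_right (card_dvd_of_le hPN)))) h4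
    refine Fpf.eq_one_of_commute (hfpf (π h₀ ^ i) (pow_mem hg i)
      (pow_ne_one_of_lt_orderOf hi.ne' (hn ▸ hi'))) (hFU hf) ?_
    rw [← hπh, ← map_pow]
    exact (map_mul π _ _).symm.trans ((congrArg π hc).trans (map_mul π _ _))
  · push Not at hpow
    obtain ⟨v, hv, hne⟩ := hpow
    have e1 : π (v * h) = π h₀ := by rw [map_mul, one v (hPN hv), one_mul, hπh]
    refine GK.exists_orderOf_of_pow_mem (hn ▸ e1 ▸ orderOf_map_dvd π _) ?_ hne
    rw [← QuotientGroup.eq_one_iff]
    change π _ = 1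
    rw [map_pow, e1, ← hn, pow_orderOf_eq_one]

end Cfsg.Agent.S3703
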