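import Cfsg.Statements.S3758
import Cfsg.Agent.Ngrp.ZC
import Cfsg.Agent.Inst.S0217
import Cfsg.Agent.Fus.EssTau
import Cfsg.Agent.Char.BSLocal
import Cfsg.Agent.Rank2.QWFrame

set_option autoImplicit false
open Cfsg

namespace Cfsg.Agent.S3758
open Subgroup Cfsg.Lib.Ngrp Cfsg.Lib.Trans Cfsg.Lib.Local Cfsg.Lib.Local.JC

/-- Let G be a finite group of even order in which every 2-local subgroup is solvable and C_G(Ω₁(Z(S))) ≤ N_G(S) for every Sylow 2-subgroup S, and suppose O_{2'}(G) = 1 = O₂(G). Fix a Sylow 2-subgroup S, put Z = Ω₁(Z(S)), H = O²(G) (generated by the elements of odd order) and R = S ∩ H. Then one of the following holds: H has a strongly embedded subgroup; R is dihedral (of order at least 4) or semidihedral; Z ∩ R has order 2 and is weakly closed in R with respect to H; or Z has order 4 and is exactly the subgroup generated by the involutions of R. -/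
theorem result {G : Type*} [Group G] [Finite G] (heven : Even (Nat.card G)) (hN : ∀ L : Subgroup G, Cfsg.IsTwoLocal L → Group.IsSolvable L) (hZ : ∀ S : Sylow 2 G, Subgroup.centralizer (Cfsg.omegaOne 2 ((S : Subgroup G) ⊓ Subgroup.centralizer ((S : Subgroup G) : Set G)) : Set G) ≤ Subgroup.normalizer ((S : Subgroup G) : Set G)) (hO' : Cfsg.pPrimeCore 2 G = ⊥) (hO : Cfsg.pCore 2 G = ⊥) (S : Sylow 2 G) : (∃ M : Subgroup ↥(Cfsg.pResidual 2 G), Cfsg.IsStronglyEmbedded M) ∨ ((∃ n : ℕ, 2 ≤ n ∧ Nonempty (↥((S : Subgroup G) ⊓ Cfsg.pResidual 2 G) ≃* DihedralGroup n)) ∨ Cfsg.IsQuasiDihedral ↥((S : Subgroup G) ⊓ Cfsg.pResidual 2 G)) ∨ (Nat.card ↥(Cfsg.omegaOne 2 ((S : Subgroup G) ⊓ Subgroup.centralizer ((S : Subgroup G) : Set G)) ⊓ Cfsg.pResidual 2 G) = 2 ∧ ∀ h ∈ Cfsg.pResidual 2 G, ∀ z ∈ Cfsg.omegaOne 2 ((S : Subgroup G) ⊓ Subgroup.centralizer ((S : Subgroup G) : Set G)) ⊓ Cfsg.pResidual 2 G, h * z * h⁻¹ ∈ (S :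 Subgroup G) → h * z * h⁻¹ ∈ Cfsg.omegaOne 2 ((S : Subgroup G) ⊓ Subgroup.centralizer ((S : Subgroup G) : Set G))) ∨ (Nat.card ↥(Cfsg.omegaOne 2 ((S : Subgroup G) ⊓ Subgroup.centralizer ((S : Subgroup G) : Set G))) = 4 ∧ Cfsg.omegaOne 2 ((S : Subgroup G) ⊓ Cfsg.pResidual 2 G) = Cfsg.omegaOne 2 ((S : Subgroup G) ⊓ Subgroup.centralizer ((S : Subgroup G) : Set G))) := by
  rcases zc_cases heven (solvC_of_twoLocal hN) S (hZ S) hO' hO with ⟨M, h⟩ | h | h | h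
  · exact Or.inl ⟨M, isStronglyEmbedded_iff_se.2 h⟩
  · exact Or.inr (Or.inr (Or.inl h))
  · exact Or.inr (Or.inr (Or.inr h))
  rcases zn_dich hO hZ (ah_of_charP (even_iff_two_dvd.2 (res_even heven hO' hO))
    (fun D => charP_inf_of_type h le_sup_left) hN) with ⟨M, h⟩ | ⟨R, T, W, V, d, d', h⟩
  · exact Or.inl ⟨M, isStronglyEmbedded_iff_se.2 h⟩
  refine Or.inr (Or.inl ?_)
  have hR := isSylowIn_inf_of_normal S (pResidual 2 G)
  let e : R ≃* ((S : Subgroup G) ⊓ pResidual 2 G : Subgroup G) :=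
    (R.equiv hR.toSylow).trans (subgroupOfEquivOfLe hR.le)
  have h8 : 8 ≤ Nat.card R := h.card ▸ Subgroup.card_le_of_le h.le
  have hW := h.W_le.trans h.le
  have c4 : Nat.card (W.subgroupOf R) = 4 := by rw [card_subgroupOf_of_le hW, h.jW.card]
  rcases Lib.Fus.Ess.two_maxClass_of_selfCent R.isPGroup' (X := W.subgroupOf R)
    (fun e => by rw [e, card_top] at c4; omega) (Or.inl c4)
    (by rw [centralizer_subgroupOf hW, h.cent_eq]; exact comap_mono inf_le_right)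
    with ⟨m, ⟨f⟩⟩ | ⟨m, ⟨f⟩⟩ | h1
  · refine Or.inl ⟨m, ?_, ⟨e.symm.trans f⟩⟩
    rw [Nat.card_congr f.toEquiv, DihedralGroup.nat_card] at h8
    omega
  · obtain ⟨w, hw, w1⟩ := (Subgroup.bot_or_exists_ne_one _).resolve_left h.jW.fd.ne_bot
    have hv := mem_normalizer_conj h.jW.nd hw
    exact absurd (Lib.Char.quat_eq_of_commute R f (ea_sq h.jW.ea hv) (ea_sq h.jW.ea hw)
      (Geo.conj_ne_one w1) w1 (ea_comm h.jW.ea hv hw)) (h.jW.fd.conj_ne hw w1)
  · exact Or.inr (Lib.Rank2.isQuasiDihedral_of_equiv e h1)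

end Cfsg.Agent.S3758
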