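import Cfsg.Statements.S3776
import Cfsg.Agent.Shaw.Top
import Cfsg.Agent.Solv.FrattiniP

set_option autoImplicit false
open Cfsg

namespace Cfsg.Agent.S3776


/-- Let G be a finite non-abelian 2-group with more than one involution admitting a solvable group of automorphisms that permutes its involutions transitively. Then the derived subgroup, the Frattini subgroup and the centre of G coincide and consist exactly of the elements x with x² = 1. -/
theorem result {G : Type*} [Group G] [Finite G] (hG : IsPGroup 2 G) (hna : ¬ IsMulCommutative G) (htwo : ∃ x y : G, x ≠ y ∧ x ≠ 1 ∧ x ^ 2 = 1 ∧ y ≠ 1 ∧ y ^ 2 = 1) (hY : ∃ Y : Subgroup (MulAut G), Group.IsSolvable Y ∧ ∀ x y : G, x ≠ 1 → x ^ 2 = 1 → y ≠ 1 → y ^ 2 = 1 → ∃ a ∈ Y, a x = y) : commutator G = frattini G ∧ frattini G = Subgroup.center G ∧ ∀ x : G, x ∈ Subgroup.center G ↔ x ^ 2 = 1 := by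
  classical
  have := Fact.mk Nat.prime_two
  obtain ⟨Y, hs, ht⟩ := hY
  obtain ⟨x₁, y₁, hxy, hx₁, hx₁', hy₁, hy₁'⟩ := htwo
  have : Nontrivial G := ⟨x₁, y₁, hxy⟩
  have := hG.center_nontrivial
  obtain ⟨⟨c, hc⟩, hc1⟩ := exists_ne (1 : Subgroup.center G)
  obtain ⟨m, hm1, hm2⟩ := Cfsg.Lib.Shaw.exists_pow_invol (hG.to_subgroup ⊤) (x := c) trivial
    fun e => hc1 (Subtype.ext e)
  have hcen : ∀ z : G, z * z = 1 → ∀ x, z * x = x * z := fun z hz x => by
    by_cases hz1 : z = 1
    · rw [hz1, one_mul, mul_one]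
    obtain ⟨a, -, rfl⟩ := ht (c ^ m) z hm1 (by rw [pow_two, hm2]) hz1 (by rw [pow_two, hz])
    obtain ⟨y, rfl⟩ := a.surjective x
    rw [← map_mul, ← map_mul,
      Subgroup.mem_center_iff.1 ((Subgroup.center G).pow_mem hc m) y]
  let Z : Subgroup G :=
    { carrier := {x | x * x = 1}
      one_mem' := mul_one 1
      mul_mem' := fun {x y} hx hy => by
        change x * y * (x * y) = 1
        rw [mul_assoc, ← mul_assoc y, hcen y hy x, mul_assoc, hy, mul_one, hx]
      inv_mem' := fun {x} hx => by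
        change x⁻¹ * x⁻¹ = 1
        rw [← mul_inv_rev, hx, inv_one] }
  have hbig : 2 < Nat.card Z := by
    have := Fintype.ofFinite Z
    have h1 : ({1, ⟨x₁, (pow_two x₁).symm.trans hx₁'⟩, ⟨y₁, (pow_two y₁).symm.trans hy₁'⟩} :
        Finset Z).card = 3 := Finset.card_eq_three.2 ⟨_, _, _,
      fun e => hx₁ (congrArg Subtype.val e).symm, fun e => hy₁ (congrArg Subtype.val e).symm,
      fun e => hxy (congrArg Subtype.val e), rfl⟩
    rw [Nat.card_eq_fintype_card]
    exact lt_of_lt_of_le (by omega) (h1 ▸ Finset.card_le_univ _)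
  obtain ⟨ξ, F, _, _, _, hF, h⟩ := Cfsg.Lib.Shaw.exists_HS hG (Z := Z) (fun _ => Iff.rfl) hcen hbig
    Y hs fun x hx y hy hx1 hy1 => ht x y hx1 ((pow_two x).trans hx) hy1 ((pow_two y).trans hy)
  have hn : ¬ ∀ u ∈ (⊤ : Subgroup G), ∀ v ∈ (⊤ : Subgroup G), u * v = v * u :=
    fun h => hna ⟨⟨fun u v => h u trivial v trivial⟩⟩
  have hsq := h.sq_mem hF hn
  have hZ : Subgroup.center G = Z := le_antisymm
    (fun z hz => h.center hsq hn trivial fun x _ => (Subgroup.mem_center_iff.1 hz x).symm)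
    fun z hz => Subgroup.mem_center_iff.2 fun x => (hcen z hz x).symm
  have h1 : Z ≤ commutator G := by
    push Not at hn
    obtain ⟨u, -, v, -, huv⟩ := hn
    refine h.Z_le_of_ne le_top (fun x hx => ?_) (x := u * v * u⁻¹ * v⁻¹)
      (Subgroup.commutator_mem_commutator (Subgroup.mem_top u) (Subgroup.mem_top v)) fun e =>
        huv (commutatorElement_eq_one_iff_mul_comm.1 e)
    exact (Subgroup.characteristic_iff_le_comap.1 inferInstance ξ) hx
  have h2 : commutator G ≤ Z := Subgroup.commutator_le.2 fun u _ v _ => by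
    simpa only [Cfsg.Lib.Shaw.cm, commutatorElement_def, inv_inv, mul_assoc] using
      Cfsg.Lib.Shaw.cm_mem_of_sq hsq (x := u⁻¹) (y := v⁻¹) trivial trivial
  have h3 : frattini G ≤ Z := (Cfsg.Lib.Solv.frattini_le_iff_of_isPGroup hG Z).2
    ⟨h2, fun x => (pow_two x).symm ▸ hsq x trivial⟩
  have h4 : commutator G ≤ frattini G :=
    ((Cfsg.Lib.Solv.frattini_le_iff_of_isPGroup hG _).1 le_rfl).1
  refine ⟨le_antisymm h4 (h3.trans h1), hZ ▸ le_antisymm h3 (h1.trans h4), fun x => ?_⟩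
  rw [hZ, pow_two]
  rfl

end Cfsg.Agent.S3776
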