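import Cfsg.Statements.S3797
import Cfsg.Agent.Solv.OneInvC
import Cfsg.Agent.FT.PLength

set_option autoImplicit false
open Cfsg

namespace Cfsg.Agent.S3797

open Cfsg.Lib Cfsg.Lib.Solv Cfsg.Lib.Solv.OneInv Subgroup

/-- Let G be a finite solvable group of even order whose Sylow 2-subgroups contain more than one involution, and suppose all involutions of G are conjugate. Then G has 2-length at most 1, and a Sylow 2-subgroup S of G is either homocyclic (a direct product of cyclic groups of one common order) or a non-abelian 2-group with more than one involution admitting a solvable group of automorphisms transitive on its involutions. -/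
theorem result {G : Type*} [Group G] [Finite G] (hG : Group.IsSolvable G) (heven : Even (Nat.card G)) (S : Sylow 2 G) (htwo : ∃ x y : G, x ∈ (S : Subgroup G) ∧ y ∈ (S : Subgroup G) ∧ x ≠ y ∧ x ≠ 1 ∧ x ^ 2 = 1 ∧ y ≠ 1 ∧ y ^ 2 = 1) (hconj : ∀ x y : G, x ≠ 1 → x ^ 2 = 1 → y ≠ 1 → y ^ 2 = 1 → IsConj x y) : Cfsg.PLengthLE 2 1 G ∧ ((∃ m r : ℕ, Nonempty (↥(S : Subgroup G) ≃* (Fin r → Multiplicative (ZMod (2 ^ m))))) ∨ (¬ IsMulCommutative (S : Subgroup G) ∧ ∃ Y : Subgroup (MulAut ↥(S : Subgroup G)), Group.IsSolvable Y ∧ ∀ x y : ↥(S : Subgroup G), x ≠ 1 → x ^ 2 = 1 → y ≠ 1 → y ^ 2 = 1 → ∃ a ∈ Y, a x = y)) := by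
  let f := QuotientGroup.mk' (pPrimeCore 2 G)
  have hf : Function.Surjective f := QuotientGroup.mk'_surjective _
  have hinj : ∀ (P : Sylow 2 G), ∀ x ∈ (P : Subgroup G), f x = 1 → x = 1 := fun P x hx e =>
    (FT.pl_inf_eq_bot (K := pPrimeCore 2 G) FT.pl_coprime_pPrimeCore P.2).le
      (mem_inf.2 ⟨(QuotientGroup.eq_one_iff x).1 e, hx⟩)
  have hlift : ∀ y : G ⧸ pPrimeCore 2 G, y ≠ 1 → y ^ 2 = 1 → ∃ x, x ≠ 1 ∧ x ^ 2 = 1 ∧ f x = y := by
    intro y hy hy2
    have h1 : IsPGroup 2 (zpowers y) := by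
      rintro ⟨_, j, rfl⟩
      refine ⟨1, Subtype.ext ?_⟩
      change (y ^ j) ^ 2 ^ 1 = 1
      rw [pow_one, ← zpow_natCast, ← zpow_mul, mul_comm, zpow_mul, zpow_natCast, hy2, one_zpow]
    obtain ⟨Q, hQ⟩ := h1.exists_le_sylow
    obtain ⟨P, rfl⟩ := Sylow.mapSurjective_surjective hf 2 Q
    obtain ⟨x, hx, rfl⟩ := hQ (mem_zpowers y)
    exact ⟨x, fun e => hy (by rw [e, map_one]),
      hinj P _ (pow_mem hx 2) (by rw [map_pow, hy2]), rfl⟩
  have hc : ∀ x y : G ⧸ pPrimeCore 2 G, x ≠ 1 → x ^ 2 = 1 → y ≠ 1 → y ^ 2 = 1 → IsConj x y := by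
    intro x y hx hx2 hy hy2
    obtain ⟨a, ha, ha2, rfl⟩ := hlift x hx hx2
    obtain ⟨b, hb, hb2, rfl⟩ := hlift y hy hy2
    exact f.map_isConj (hconj a b ha ha2 hb hb2)
  obtain ⟨x, y, hx, hy, hxy, hx1, hx2, hy1, hy2⟩ := htwo
  have hO := pPrimeCore_quotient_pPrimeCore 2 G
  obtain ⟨V, hV⟩ := exists_bas hO hc (x := f x) (y := f y)
    (fun e => hxy (mul_inv_eq_one.1 (hinj S _ (mul_mem hx (inv_mem hy))
      (by rw [map_mul, e, map_inv, mul_inv_cancel]))))
    (fun e => hx1 (hinj S x hx e)) (by rw [← map_pow, hx2, map_one])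
    (fun e => hy1 (hinj S y hy e)) (by rw [← map_pow, hy2, map_one])
  have hN := hV.normal hO (S.mapSurjective hf)
  have hN' : ((S : Subgroup G).map f).Normal := hN
  let e : (S : Subgroup G) ≃* (S : Subgroup G).map f := MulEquiv.ofBijective (f.subgroupMap S)
    ⟨(injective_iff_map_eq_one _).2 fun a ha =>
      Subtype.ext (hinj S a a.2 (congrArg Subtype.val ha)), f.subgroupMap_surjective _⟩
  let θ : G ⧸ pPrimeCore 2 G →* MulAut (S : Subgroup G) :=
    (MulAut.congr e).symm.toMonoidHom.comp MulAut.conjNormal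
  have hθ : ∀ a b : (S : Subgroup G), a ≠ 1 → a ^ 2 = 1 → b ≠ 1 → b ^ 2 = 1 →
      ∃ α ∈ θ.range, α a = b := fun a b ha ha2 hb hb2 => by
    obtain ⟨g, hg⟩ := isConj_iff.1 (hconj a b (fun e => ha (Subtype.ext e))
      (congrArg Subtype.val ha2) (fun e => hb (Subtype.ext e)) (congrArg Subtype.val hb2))
    refine ⟨_, ⟨f g, rfl⟩, e.injective ?_⟩
    change e (e.symm (MulAut.conjNormal (f g) (e a))) = _
    rw [e.apply_symm_apply]
    refine Subtype.ext ?_
    change f g * f a * (f g)⁻¹ = f b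
    rw [← hg, map_mul, map_mul, map_inv]
  refine ⟨FT.plength_one_of_quotient_coprime _ FT.pl_coprime_pPrimeCore
    (FT.plength_one_of_normal_sylow (S.mapSurjective hf)), ?_⟩
  by_cases hab : IsMulCommutative (S : Subgroup G)
  · exact Or.inl (homocyclic S.2 fun a b ha ha2 hb hb2 =>
      (hθ a b ha ha2 hb hb2).imp fun _ h => h.2)
  · exact Or.inr ⟨hab, θ.range, Group.isSolvable_of_surjective θ.rangeRestrict_surjective, hθ⟩

end Cfsg.Agent.S3797
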