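import Cfsg.Statements.S3802
import Cfsg.Agent.Solv.Subnormal

set_option autoImplicit false
open Cfsg

namespace Cfsg.Agent.S3802

open Cfsg.Lib.Solv

/-- Let G be a finite group, M a maximal subgroup of G and N a subnormal subgroup of G contained in M. Then N is contained in every conjugate of M, that is, N lies in the core of M in G. -/
theorem result {G : Type*} [Group G] [Finite G] (M N : Subgroup G) (hM : IsCoatom M) (hN : N.IsSubnormal) (hNM : N ≤ M) :
    N ≤ Subgroup.normalCore M := by
  obtain ⟨D, hND, hDM, hMD, hD⟩ := conj_le_or_normalizer_not_le hN hNM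
  have hDn : D.Normal := by
    rcases hD with hD | hD
    · exact hD
    · rw [← Subgroup.normalizer_eq_top_iff]
      exact hM.2 _ (lt_of_le_of_ne hMD fun h => hD h.ge)
  exact hND.trans (Subgroup.normal_le_normalCore.2 hDM)

end Cfsg.Agent.S3802
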