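import Cfsg.Statements.S3803
import Cfsg.Agent.Solv.CoprimeFixed
import Cfsg.Agent.Solv.Cores
import Cfsg.Agent.Solv.CyclicP
import Cfsg.Agent.Solv.FrattiniP
import Cfsg.Agent.Solv.PGroupNormal
import Cfsg.Agent.Trans.SmallOrderAction

set_option autoImplicit false
open Cfsg

namespace Cfsg.Agent.S3803

open Subgroup Cfsg.Lib.Solv

theorem key {X : Type*} [Group X] [Finite X] {R A : Subgroup X} (hR : IsPGroup 2 R)
    (hA : Odd (Nat.card A)) (hAR : A ≤ normalizer (R : Set X))
    (h : ∀ M ≤ R, Nat.card R = 2 * Nat.card M → A ≤ normalizer (M : Set X)) :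
    A ≤ centralizer (R : Set X) := by
  refine Coprime.le_centralizer_of_commutator_le_frattini hAR
    (coprime_card_of_isPGroup (hR.to_subgroup _) (Nat.coprime_two_right.2 hA)).symm ?_
  rw [commutator_le]
  intro r hr a ha
  have h1 := conj_mem_of_mem_normalizer (hAR ha) (inv_mem hr)
  refine ⟨⟨r, hr⟩ * ⟨_, h1⟩, mem_frattini_iff.2 fun M hM => ?_, by
    simp [commutatorElement_def, mul_assoc]⟩
  have hi := index_eq_of_isCoatom_of_isPGroup hR hM
  have h2 := h (M.map R.subtype) (map_subtype_le _)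
    (by rw [card_map_subtype, ← hi, index_mul_card]) ha
  rw [mul_mem_iff_of_index_two hi, ← inv_mem_iff,
    ← mem_map_iff_mem R.subtype_injective, ← mem_map_iff_mem R.subtype_injective]
  exact mem_normalizer_iff.1 h2 _


/-- Let P be a 2-subgroup and A a subgroup of odd order of a finite group, with A normalizing P. Let D ≤ P with 1 < |D| < |P|. If every subgroup of P of order |D|, and also every subgroup of P of order 4 in case |D| = 2, is normalized by A, then A centralizes P. -/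
theorem result {X : Type*} [Group X] [Finite X] (P A D : Subgroup X) (hP : IsPGroup 2 P) (hA : Odd (Nat.card A))
    (hAP : A ≤ Subgroup.normalizer (P : Set X)) (hDP : D ≤ P) (hD1 : 1 < Nat.card D) (hD2 : Nat.card D < Nat.card P)
    (hinv : ∀ E : Subgroup X, E ≤ P → (Nat.card E = Nat.card D ∨ (Nat.card D = 2 ∧ Nat.card E = 4)) → A ≤ Subgroup.normalizer (E : Set X)) :
    A ≤ Subgroup.centralizer (P : Set X) := by
  have hcyc : ∀ x ∈ P, A ≤ normalizer (zpowers x : Set X) → ∀ a ∈ A, x * a = a * x :=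
    fun x hx h a ha => key (hP.to_le (zpowers_le.2 hx)) hA h
      (fun M hM _ => h.trans (PG.normalizer_le_normalizer_of_isCyclic hM)) ha x (mem_zpowers x)
  refine Lib.Trans.le_centralizer_of_fix_small_order hP hAP (Nat.coprime_two_right.2 hA)
    fun x hx hx4 => ?_
  have h4 : orderOf x ∣ 2 ^ 2 := orderOf_dvd_of_pow_eq_one (by
    rcases hx4 with h | ⟨-, h⟩
    · rw [sq, pow_mul, h, one_pow]
    · exact h)
  obtain ⟨i, hi, hi'⟩ := (Nat.dvd_prime_pow Nat.prime_two).1 h4
  obtain ⟨e, he⟩ := (hP.to_le hDP).exists_card_eq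
  obtain ⟨n, hn⟩ := hP.exists_card_eq
  rw [he] at hD1 hD2 hinv
  rw [hn, Nat.pow_lt_pow_iff_right (by norm_num)] at hD2
  have he0 : e ≠ 0 := by rintro rfl; simp at hD1
  have hz := zpowers_le.2 hx
  by_cases hie : e < i
  · refine hcyc x hx (hinv _ hz (Or.inr ?_))
    obtain ⟨rfl, rfl⟩ : e = 1 ∧ i = 2 := by omega
    exact ⟨rfl, by rw [Nat.card_zpowers, hi']; rfl⟩
  have hex : ∀ (R : Subgroup X) (k : ℕ), IsPGroup 2 R → x ∈ R → i ≤ k → 2 ^ k ≤ Nat.card R →
      ∃ E : Subgroup X, x ∈ E ∧ E ≤ R ∧ Nat.card E = 2 ^ k := fun R k hR hxR hik hk => by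
    have hc : 2 ^ (k - i) * Nat.card (zpowers x) = 2 ^ k := by
      rw [Nat.card_zpowers, hi', ← pow_add, Nat.sub_add_cancel hik]
    obtain ⟨E, h1, h2, -, h3⟩ := PG.exists_invariant_card_eq (P := ⊥) IsPGroup.of_bot hR bot_le
      bot_le (zpowers_le.2 hxR) (k - i) (hc ▸ hk)
    exact ⟨E, h1 (mem_zpowers x), h2, h3.trans hc⟩
  obtain ⟨R, hxR, hRP, hR⟩ := hex P (e + 1) hP hx (by omega)
    (hn ▸ Nat.pow_le_pow_right (by norm_num) hD2)
  have hmax : ∀ M ≤ R, Nat.card R = 2 * Nat.card M → A ≤ normalizer (M : Set X) :=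
    fun M hM h => hinv M (hM.trans hRP) (Or.inl (by rw [hR, pow_succ] at h; omega))
  by_cases hc : IsCyclic R
  · obtain ⟨E, hxE, hER, hE⟩ := hex R e (hP.to_le hRP) hxR (by omega)
      (hR ▸ Nat.pow_le_pow_right (by norm_num) e.le_succ)
    have : IsCyclic E := isCyclic_of_le hER
    exact hcyc x hx ((hinv E (hER.trans hRP) (Or.inl hE)).trans
      (PG.normalizer_le_normalizer_of_isCyclic (zpowers_le.2 hxE)))
  · refine fun a ha => key (hP.to_le hRP) hA (fun b hb => mem_normalizer_of_conj_mem fun r hr => ?_)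
      hmax ha x hxR
    obtain ⟨M, h1, h2, -, h3⟩ := PG.exists_le_card_eq_prime_mul (hP.to_le hRP)
      (lt_of_le_of_ne (zpowers_le.2 hr) fun h => hc (PG.isCyclic_of_zpowers_eq h))
    exact h2.le (conj_mem_of_mem_normalizer (hmax M h2.le h3 hb) (h1 (mem_zpowers r)))

end Cfsg.Agent.S3803
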