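import Cfsg.Statements.S3815
import Cfsg.Agent.Solv.Cores

set_option autoImplicit false
open Cfsg

namespace Cfsg.Agent.S3815

open Cfsg.Lib.Solv

/-- Let G be a finite group, p a prime and d ∈ G an element of order prime to p. If dg has order prime to p for every element g ∈ G of order prime to p, then d ∈ O_{p'}(G). -/
theorem result {G : Type*} [Group G] [Finite G] {p : ℕ} [Fact p.Prime]
    (d : G) (hd : (orderOf d).Coprime p)
    (h : ∀ g : G, (orderOf g).Coprime p → (orderOf (d * g)).Coprime p) :
    d ∈ Cfsg.pPrimeCore p G := by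
  let D : Subgroup G :=
    { carrier := {x | ∀ g : G, (orderOf g).Coprime p → (orderOf (x * g)).Coprime p}
      one_mem' := fun g hg => by simpa using hg
      mul_mem' := fun {a b} ha hb g hg => by
        rw [mul_assoc]; exact ha _ (hb g hg)
      inv_mem' := fun {a} ha => by
        have h1 : ∀ n : ℕ, ∀ g : G, (orderOf g).Coprime p → (orderOf (a ^ n * g)).Coprime p := by
          intro n
          induction n with
          | zero => intro g hg; simpa using hg
          | succ n ih => intro g hg; rw [pow_succ', mul_assoc]; exact ha _ (ih g hg)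
        have h2 : a⁻¹ = a ^ (orderOf a - 1) := by
          rw [inv_eq_iff_mul_eq_one, ← pow_succ', Nat.sub_add_cancel (orderOf_pos a),
            pow_orderOf_eq_one]
        rw [h2]
        exact h1 _ }
  have hD : D.Normal := ⟨fun x hx y g hg => by
    have h1 := hx (y⁻¹ * g * y) (by
      have := (MulAut.conj y⁻¹).orderOf_eq g
      simp only [MulAut.conj_apply, inv_inv] at this
      rwa [this])
    have h2 := (MulAut.conj y).orderOf_eq (x * (y⁻¹ * g * y))
    simp only [MulAut.conj_apply] at h2
    have h3 : y * x * y⁻¹ * g = y * (x * (y⁻¹ * g * y)) * y⁻¹ := by group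
    rwa [h3, h2]⟩
  refine le_pPrimeCore hD ?_ (show d ∈ D from h)
  rw [← isPiNum_compl_singleton_iff Fact.out, isPiNum_card_subgroup_iff_orderOf]
  intro g hg
  rw [isPiNum_compl_singleton_iff Fact.out]
  simpa using hg 1 (by simp)

end Cfsg.Agent.S3815
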