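import Cfsg.Statements.S3818
-- import your own Cfsg.Agent.* helpers here
import Cfsg.Agent.Solv.HalfFixB

set_option autoImplicit false
open Cfsg

namespace Cfsg.Agent.S3818

/-- Let G be a finite solvable group and P a subgroup of G of prime order p > 3 whose conjugates generate G. Let V be a faithful irreducible representation of G over a field of positive characteristic, finite-dimensional. Then the subspace of V fixed by P has dimension less than half the dimension of V. -/
theorem result {G : Type*} [Group G] [Finite G] [Group.IsSolvable G]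
    {p : ℕ} [Fact p.Prime] (hp : 3 < p) (P : Subgroup G) (hP : Nat.card P = p) (hgen : Subgroup.normalClosure (P : Set G) = ⊤)
    {k : Type*} [Field k] (ℓ : ℕ) [Fact ℓ.Prime] [CharP k ℓ]
    {V : Type*} [AddCommGroup V] [Module k V] [FiniteDimensional k V]
    (ρ : Representation k G V) [ρ.IsIrreducible] (hfaith : Function.Injective ρ) :
    2 * Module.finrank k ↥(⨅ g : ↥P, LinearMap.ker (ρ (g : G) - LinearMap.id)) < Module.finrank k V := by
  have : Nontrivial P := by
    rw [← Finite.one_lt_card_iff_nontrivial, hP]; omega
  obtain ⟨x, hx1⟩ := exists_ne (1 : P)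
  have hx : (x : G) ^ p = 1 := by
    rw [← hP, ← Subgroup.coe_pow, pow_card_eq_one', Subgroup.coe_one]
  have h1 : Subgroup.normalClosure ({(x : G)} : Set G) = ⊤ := by
    rw [eq_top_iff, ← hgen]
    refine Subgroup.normalClosure_le_normal fun y hy => ?_
    obtain ⟨k, hk⟩ := mem_zpowers_of_prime_card hP hx1 (g' := ⟨y, hy⟩)
    have h2 : y = (x : G) ^ k := (congrArg Subtype.val hk).symm
    rw [h2]
    exact Subgroup.zpow_mem _ (Subgroup.subset_normalClosure (Set.mem_singleton _)) _
  have h2 := Cfsg.Lib.Solv.HalfFix.half (G := G) (K := k) (V := V) hp ℓ x ρ hx h1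
    (fun U hU => by
      rcases eq_bot_or_eq_top (⟨U, fun g _ hv => hU g _ hv⟩ : Subrepresentation ρ) with h | h
      · exact Or.inl (congrArg Subrepresentation.toSubmodule h)
      · exact Or.inr (congrArg Subrepresentation.toSubmodule h))
    (fun h => hx1 (Subtype.ext (hfaith (h.trans (map_one ρ).symm))))
  exact lt_of_le_of_lt (Nat.mul_le_mul_left _ (Submodule.finrank_mono (iInf_le _ x))) h2

end Cfsg.Agent.S3818
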