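import Cfsg.Statements.S3819
import Cfsg.Agent.FT.BG1.Coprime
import Cfsg.Agent.FT.Img

set_option autoImplicit false
open Cfsg

namespace Cfsg.Agent.S3819

open Pointwise Cfsg.Lib.Solv Cfsg.Lib.FT

theorem core {G : Type*} [Group G] [Finite G] {q : ℕ} [hq : Fact q.Prime] {H P : Subgroup G}
    (hPH : P ≤ 𝐍 H) (hc : (Nat.card H).Coprime (Nat.card P)) (hPs : Group.IsSolvable P)
    (hs : Group.IsSolvable (⁅H, P⁆ : Subgroup G)) {z : G} (hzH : z ∈ H) (hzP : z ∈ 𝐂 P)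
    (hz : PiElt {q} z) (h1 : piCoreOf ({q}ᶜ : Set ℕ) H = ⊥) :
    ⁅piCoreOf ({q}ᶜ : Set ℕ) (H ⊓ 𝐂₁ z), P⁆ = ⊥ ∧
      piCoreOf ({q}ᶜ : Set ℕ) (H ⊓ 𝐂₁ z) ⊓ piCoreOf ({q}ᶜ : Set ℕ) (H ⊓ 𝐂 P) = ⊥ := by
  set X := piCoreOf ({q}ᶜ : Set ℕ) (H ⊓ 𝐂₁ z) with hX
  set K : Subgroup G := ⁅H, P⁆ with hK
  have hKH : K ⊲ H := ⟨commg_subl.2 hPH, commg_norml H P⟩
  have hK1 : piCoreOf ({q}ᶜ : Set ℕ) K = ⊥ := le_bot_iff.1 (h1 ▸ pcore_normal_le _ hKH)
  set Q := piCoreOf {q} K with hQ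
  have hQK : Q ≤ K := pcore_sub _ _
  have hHQ : H ≤ 𝐍 Q := norms_pcore _ hKH.norm
  have hXs : X ≤ H ⊓ 𝐂₁ z := pcore_sub _ _
  have hXH : X ≤ H := hXs.trans inf_le_left
  have hXp : IsPiSubgroup ({q}ᶜ : Set ℕ) X := pcore_pgroup _ _
  have hQp : IsPiSubgroup {q} Q := pcore_pgroup _ _
  set R := Subgroup.zpowers z with hR
  have hRH : R ≤ H := by simpa [hR] using hzH
  have hXR : X ≤ 𝐂 R := by rw [hR, cent_zpowers]; exact hXs.trans inf_le_right
  have hTp : IsPiSubgroup {q} (Q ⊔ R) := pgroupY (hRH.trans hHQ) hQp (pgroup_zpowers.2 hz)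
  have hTH : Q ⊔ R ≤ H := sup_le (hQK.trans hKH.le) hRH
  have hXT : X ≤ 𝐍 (Q ⊔ R) := normsY (hXH.trans hHQ) (cents_norm hXR)
  have hXCT : X ≤ 𝐂 (Q ⊔ R) := by
    apply coprime_nil_faithful_cent_stab hXT (pnat_coprime hTp hXp)
      (pgroup_nil (pgroup_iff.1 hTp))
    have hRle : R ≤ (Q ⊔ R) ⊓ 𝐂 X := le_inf le_sup_right (centsC.1 hXR)
    refine le_trans (inf_le_inf_left _ (centS hRle)) (le_inf inf_le_left ?_)
    apply TI_cents
    · refine le_trans ?_ (pcore_normal _ (H ⊓ 𝐂₁ z)).norm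
      rw [hR, cent_zpowers]
      exact inf_le_inf_right _ hTH
    · exact normsI hXT (norms_cent (cents_norm hXR))
    · exact pgroup_TI (pgroupS inf_le_left hTp) hXp
  have hXQ : X ≤ 𝐂 Q := hXCT.trans (centS le_sup_left)
  have hCQ : K ⊓ 𝐂 Q ≤ Q := solvable_cent_pcore_le hs hK1
  have hXK : X ≤ 𝐂 K := by
    apply stable_factor_cent hXQ _ (pnat_coprime hQp hXp)
    refine le_trans (le_inf ?_ ?_) hCQ
    · exact commg_subl.2 (hXH.trans hKH.norm)
    · exact (commgSS le_rfl hXQ).trans (commg_subr.2 (norms_cent (hKH.le.trans hHQ)))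
  constructor
  · have hPX : P ≤ 𝐍 X :=
      norms_pcore _ (normsI hPH (norms_cent1 (le_cent1_iff.2 hzP)))
    have h2 : ⁅X, P⁆ ≤ X := commg_subl.2 hPX
    have h3 : ⁅X, P⁆ ≤ Q :=
      le_trans (le_inf (commgSS hXH le_rfl) (h2.trans hXQ)) hCQ
    exact le_bot_iff.1 ((le_inf h3 h2).trans (pgroup_TI hQp hXp).le)
  · have hW : piCoreOf ({q}ᶜ : Set ℕ) (H ⊓ 𝐂 P) ⊓ 𝐂 K ⊲ H := by
      refine ⟨inf_le_left.trans ((pcore_sub _ _).trans inf_le_left), ?_⟩
      have := coprime_cent_prod hPH hc (Or.inl hPs)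
      rw [← this]
      refine sup_le (cents_norm (centsC.1 inf_le_right)) ?_
      rw [this]
      exact normsI (pcore_normal _ _).norm (norms_cent (inf_le_left.trans hKH.norm))
    have := pcore_max (pgroupS inf_le_left (pcore_pgroup _ _)) hW
    rw [h1] at this
    refine le_bot_iff.1 (le_trans ?_ this)
    exact le_inf inf_le_right (inf_le_left.trans hXK)

/-- Let G be a finite group with Sylow p-subgroup P and H = O_{p'}(G), and suppose G = PH and the commutator subgroup [H, P] is solvable. Let q be a prime and z an element of q-power order of C_H(P). Then (O_{q'}(C_H(z)) ∩ O_{q'}(C_H(P))) · [O_{q'}(C_H(z)), P] ≤ O_{q'}(H). -/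
theorem result {G : Type*} [Group G] [Finite G] {p : ℕ} [Fact p.Prime]
    (P : Sylow p G) (hPH : Cfsg.pPrimeCore p G ⊔ (P : Subgroup G) = ⊤)
    (hsol : Group.IsSolvable ↥⁅Cfsg.pPrimeCore p G, (P : Subgroup G)⁆)
    {q : ℕ} [Fact q.Prime] (z : G) (hzH : z ∈ Cfsg.pPrimeCore p G) (hzP : z ∈ Subgroup.centralizer ((P : Subgroup G) : Set G))
    (hz : ∃ k : ℕ, orderOf z = q ^ k) :
    ((Cfsg.pPrimeCore q ↥(Cfsg.pPrimeCore p G ⊓ Subgroup.centralizer ({z} : Set G))).map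
        (Cfsg.pPrimeCore p G ⊓ Subgroup.centralizer ({z} : Set G)).subtype ⊓
      (Cfsg.pPrimeCore q ↥(Cfsg.pPrimeCore p G ⊓ Subgroup.centralizer ((P : Subgroup G) : Set G))).map
        (Cfsg.pPrimeCore p G ⊓ Subgroup.centralizer ((P : Subgroup G) : Set G)).subtype) ⊔
    ⁅(Cfsg.pPrimeCore q ↥(Cfsg.pPrimeCore p G ⊓ Subgroup.centralizer ({z} : Set G))).map
        (Cfsg.pPrimeCore p G ⊓ Subgroup.centralizer ({z} : Set G)).subtype, (P : Subgroup G)⁆ ≤
    (Cfsg.pPrimeCore q ↥(Cfsg.pPrimeCore p G)).map (Cfsg.pPrimeCore p G).subtype := by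

  have hqp : q.Prime := Fact.out
  rw [← p'core_eq_map, ← p'core_eq_map, ← p'core_eq_map]
  set H := pPrimeCore p G with hH
  have hHn : H.Normal := inferInstance
  have hHp : IsPiSubgroup ({p}ᶜ : Set ℕ) H := by
    rw [hH, pPrimeCore_eq_piCore, ← pcore_top]; exact pcore_pgroup _ _
  have hPp : IsPGroup p (P : Subgroup G) := P.isPGroup'
  have hc : (Nat.card H).Coprime (Nat.card (P : Subgroup G)) :=
    (pgroup_coprime_p'group hPp hHp).symm
  have hN : (piCoreOf ({q}ᶜ : Set ℕ) H).Normal :=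
    normal_top_iff.1 (pcore_normal_trans _ (normal_top_iff.2 hHn))
  set N := piCoreOf ({q}ᶜ : Set ℕ) H with hNd
  let f := QuotientGroup.mk' N
  have hker : f.ker = N := QuotientGroup.ker_mk' N
  have hNH : N ≤ H := pcore_sub _ _
  have hNp : IsPiSubgroup ({q}ᶜ : Set ℕ) N := pcore_pgroup _ _
  have hzq : PiElt {q} z := by
    obtain ⟨k, hk⟩ := hz
    rw [← pgroup_zpowers, pgroup_iff]
    exact IsPGroup.of_card (n := k) (by rw [Nat.card_zpowers, hk])
  have hPH' : (P : Subgroup G) ≤ 𝐍 H := (normal_top_iff.2 hHn).norm.trans' le_top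
  have e1 : (H ⊓ 𝐂 (P : Subgroup G)).map f = H.map f ⊓ 𝐂 ((P : Subgroup G).map f) :=
    coprime_map_cent f hPH' (coprimeSg inf_le_left hc) (Or.inl (pgroup_sol hPp))
  have e2 : (H ⊓ 𝐂₁ z).map f = H.map f ⊓ 𝐂₁ (f z) := by
    have := coprime_map_cent f (A := Subgroup.zpowers z) (H := H)
      ((normal_top_iff.2 hHn).norm.trans' le_top)
      (by
        rw [hker]
        exact p'nat_coprime (pgroupS inf_le_right hNp) (pgroup_zpowers.2 hzq))
      (Or.inl (abelian_sol (abelian_zpowers z)))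
    rwa [MonoidHom.map_zpowers, cent_zpowers, cent_zpowers] at this
  have h1 : piCoreOf ({q}ᶜ : Set ℕ) (H.map f) = ⊥ := by
    have h3 : (piCoreOf ({q}ᶜ : Set ℕ) (H.map f)).comap f ⊲ H := by
      refine ⟨?_, ?_⟩
      · refine (Subgroup.comap_mono (pcore_sub _ _)).trans ?_
        rw [Subgroup.comap_map_eq, hker]
        exact sup_le le_rfl hNH
      · rw [normsP]
        intro a ha h hh
        simp only [Subgroup.mem_comap, map_mul, map_inv] at hh ⊢
        exact normsP.1 (pcore_normal _ (H.map f)).norm _ (Subgroup.mem_map_of_mem f ha) _ hh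
    have h4 : IsPiSubgroup ({q}ᶜ : Set ℕ) ((piCoreOf ({q}ᶜ : Set ℕ) (H.map f)).comap f) := by
      have := pgroup_pre (f := f.comp (⊤ : Subgroup G).subtype) (π := ({q}ᶜ : Set ℕ))
        (X := piCoreOf ({q}ᶜ : Set ℕ) (H.map f))
        (pgroupS (by
          intro x hx
          obtain ⟨_, hx⟩ := mem_pre.1 hx
          rw [← hker]
          exact hx) hNp) (pcore_pgroup _ _)
      refine pgroupS ?_ this
      intro x hx
      exact mem_pre.2 ⟨Subgroup.mem_top x, hx⟩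
    have h5 := pcore_max h4 h3
    rw [eq_bot_iff]
    intro x hx
    obtain ⟨y, rfl⟩ := QuotientGroup.mk'_surjective N x
    exact (QuotientGroup.eq_one_iff y).2 (h5 hx)
  have hsol' : Group.IsSolvable (⁅H.map f, (P : Subgroup G).map f⁆ : Subgroup (G ⧸ N)) := by
    rw [← Subgroup.map_commutator]
    have := hsol
    exact Group.isSolvable_of_surjective (f.subgroupMap_surjective _)
  have hPs' : Group.IsSolvable ((P : Subgroup G).map f) := pgroup_sol (hPp.map f)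
  have hc' : (Nat.card (H.map f)).Coprime (Nat.card ((P : Subgroup G).map f)) :=
    (pgroup_coprime_p'group (hPp.map f) (pgroup_map f hHp)).symm
  have hzq' : PiElt {q} (f z) := by
    rw [← pgroup_zpowers, ← MonoidHom.map_zpowers]
    exact pgroup_map f (pgroup_zpowers.2 hzq)
  obtain ⟨c1, c2⟩ := core (norms_map hPH' f) hc' hPs' hsol' (Subgroup.mem_map_of_mem f hzH)
    (cents_map (le_refl (𝐂 (P : Subgroup G))) f (Subgroup.mem_map_of_mem f hzP)) hzq' h1
  have m1 := pcore_map_le f ({q}ᶜ : Set ℕ) (H ⊓ 𝐂₁ z)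
  have m2 := pcore_map_le f ({q}ᶜ : Set ℕ) (H ⊓ 𝐂 (P : Subgroup G))
  rw [e2] at m1
  rw [e1] at m2
  rw [← hker, ← Subgroup.map_eq_bot_iff, Subgroup.map_sup, Subgroup.map_commutator, eq_bot_iff]
  refine sup_le ?_ ?_
  · exact (Subgroup.map_inf_le _ _ _).trans ((inf_le_inf m1 m2).trans c2.le)
  · exact (commgSS m1 le_rfl).trans c1.le

end Cfsg.Agent.S3819
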