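import Cfsg.Statements.S3821
import Cfsg.Agent.Solv.Pronormal

set_option autoImplicit false
open Cfsg

namespace Cfsg.Agent.S3821

open Cfsg.Lib.Solv
open scoped Pointwise

/-- Let A be a normal subgroup of the finite group G and H a subgroup of A. Then H is pronormal in G (H and gHg⁻¹ conjugate inside ⟨H, gHg⁻¹⟩ for every g ∈ G) if and only if H is pronormal in A and G = A · N_G(H). -/
theorem result {G : Type*} [Group G] [Finite G] (A H : Subgroup G) [A.Normal] (hHA : H ≤ A) :
    Cfsg.IsPronormal H ↔ (Cfsg.IsPronormal (H.subgroupOf A) ∧ A ⊔ Subgroup.normalizer (H : Set G) = ⊤) := by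
  rw [isPronormal_subgroupOf_iff hHA]
  constructor
  · intro h
    refine ⟨(pronormalIn_top_iff.2 h).mono le_top, top_le_iff.1 fun g _ => ?_⟩
    obtain ⟨b, hb, n, hn, rfl⟩ := (pronormalIn_top_iff.2 h).exists_mul hHA (Subgroup.mem_top g)
      (Subgroup.le_normalizer_of_normal (Subgroup.mem_top g))
    exact Subgroup.mul_mem_sup hb hn
  · rintro ⟨h1, h2⟩
    rw [isPronormal_iff]
    intro g
    obtain ⟨a, ha, n, hn, rfl⟩ := Subgroup.mem_sup_of_normal_left.1 (h2 ▸ Subgroup.mem_top g)
    rw [conj_mul_smul, conj_smul_eq_of_mem_normalizer hn]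
    exact h1 a ha

end Cfsg.Agent.S3821
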