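import Cfsg.Statements.S3822
-- import your own Cfsg.Agent.* helpers here
import Cfsg.Agent.Solv.HalfFixC
import Cfsg.Agent.Solv.FrobeniusComplement

set_option autoImplicit false
open Cfsg

namespace Cfsg.Agent.S3822

open Subgroup Cfsg.Lib.Solv

/-- Let G be a finite group and P a subgroup of prime order p > 3. Consider the solvable subgroups A of G of the form A = ⟨P, aPa⁻¹⟩ for some a ∈ A, and let A be maximal under inclusion among them. Then for every nilpotent subgroup V of G normalized by A, the subgroup F(A)V generated by the Fitting subgroup of A and V is nilpotent. -/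
theorem result {G : Type*} [Group G] [Finite G]
    {p : ℕ} [Fact p.Prime] (hp : 3 < p) (P : Subgroup G) (hP : Nat.card P = p) (A : Subgroup G)
    (hA : Group.IsSolvable ↥A ∧ ∃ a ∈ A, A = P ⊔ P.map (MulAut.conj a).toMonoidHom)
    (hmax : ∀ B : Subgroup G, A ≤ B → Group.IsSolvable ↥B → (∃ b ∈ B, B = P ⊔ P.map (MulAut.conj b).toMonoidHom) → B = A)
    (V : Subgroup G) (hV : Group.IsNilpotent ↥V) (hAV : A ≤ Subgroup.normalizer (V : Set G)) :
    Group.IsNilpotent ↥((Cfsg.fittingSubgroup ↥A).map A.subtype ⊔ V) := by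
  obtain ⟨hsol, a, ha, hAa⟩ := hA
  have : Nontrivial P := by
    rw [← Finite.one_lt_card_iff_nontrivial, hP]; omega
  obtain ⟨x₀, hx1⟩ := exists_ne (1 : P)
  have hx : (x₀ : G) ^ p = 1 := by
    rw [← hP, ← Subgroup.coe_pow, pow_card_eq_one', Subgroup.coe_one]
  have hPx : P = zpowers (x₀ : G) := by
    refine le_antisymm (fun y hy => ?_) (zpowers_le.2 x₀.2)
    obtain ⟨k, hk⟩ := mem_zpowers_of_prime_card hP hx1 (g' := ⟨y, hy⟩)
    exact ⟨k, congrArg Subtype.val hk⟩
  generalize (x₀ : G) = x at hx hPx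
  clear hx1 x₀
  subst hPx
  have hz : ∀ b : G, (zpowers x).map (MulAut.conj b).toMonoidHom = zpowers (b * x * b⁻¹) :=
    fun b => MonoidHom.map_zpowers _ _
  simp only [hz] at hAa hmax
  set F := (Cfsg.fittingSubgroup ↥A).map A.subtype with hF
  have hFA : F ≤ A := map_subtype_le _
  have hAF : A ≤ normalizer (F : Set G) := fun b hb => mem_normalizer_of_conj_mem (by
    rintro _ ⟨f, hf, rfl⟩
    exact ⟨_, (fitting_normal A).conj_mem f hf ⟨b, hb⟩, rfl⟩)
  have hFn : Group.IsNilpotent F := isNilpotent_map _ _ inferInstance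
  by_contra hn
  obtain ⟨W, ⟨h1, h2, h3⟩, hmin⟩ := (wellFounded_lt (α := Subgroup G)).has_min
    {W | W ≤ V ∧ A ≤ normalizer (W : Set G) ∧ ¬ Group.IsNilpotent ↥(F ⊔ W)} ⟨V, le_rfl, hAV, hn⟩
  have hWn := isNilpotent_of_le h1 hV
  have hsolv : Group.IsSolvable ↥(W ⊔ A) :=
    Fpf.isSolvable_sup_of_le_normalizer h2 inferInstance hsol
  have hAle : A ≤ W ⊔ A := le_sup_right
  have hWle : W ≤ W ⊔ A := le_sup_left
  have hxA : x ∈ A := hAa ▸ mem_sup_left (mem_zpowers x)
  have hinj := map_injective (f := (W ⊔ A).subtype) (W ⊔ A).subtype_injective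
  have hm : ∀ L ≤ W ⊔ A, (L.subgroupOf (W ⊔ A)).map (W ⊔ A).subtype = L := fun L hL =>
    map_subgroupOf_eq_of_le hL
  obtain ⟨b, hb⟩ := HalfFix.gen_top hp ↥(W ⊔ A) hsolv (A.subgroupOf _) (W.subgroupOf _)
    (F.subgroupOf _) ⟨x, hAle hxA⟩ (⟨a, hAle ha⟩ * ⟨x, hAle hxA⟩ * ⟨a, hAle ha⟩⁻¹)
    (normal_subgroupOf_of_le_normalizer (sup_le le_normalizer h2))
    ((isNilpotent_map_subtype_iff _).1 (by rwa [hm W hWle]))
    (hinj (by rw [Subgroup.map_sup, hm A hAle, hm W hWle, ← MonoidHom.range_eq_map,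
      range_subtype, sup_comm]))
    (Subtype.ext hx) (isConj_iff.2 ⟨_, rfl⟩)
    (hinj (by
      rw [Subgroup.map_sup, hm A hAle, MonoidHom.map_zpowers, MonoidHom.map_zpowers]
      exact hAa))
    (fun _ h => hFA h)
    (fun c hc => mem_normalizer_of_conj_mem fun f hf =>
      conj_mem_of_mem_normalizer (g := (c : G)) (x := (f : G)) (H := F) (hAF hc) hf)
    ((isNilpotent_map_subtype_iff _).1 (by rwa [hm F (hFA.trans hAle)]))
    (fun h => h3 (by
      have := (isNilpotent_map_subtype_iff _).2 h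
      rwa [Subgroup.map_sup, hm F (hFA.trans hAle), hm W hWle] at this))
    (fun W' hW' hlt => by
      have h4 : W'.map (W ⊔ A).subtype < W :=
        ((map_subtype_lt_map_subtype).2 hlt).trans_eq (hm W hWle)
      by_contra h5
      refine hmin _ ⟨h4.le.trans h1, fun c hc => mem_normalizer_of_conj_mem ?_, fun h6 => h5 ?_⟩ h4
      · rintro _ ⟨w, hw, rfl⟩
        exact ⟨_, hW'.conj_mem w hw ⟨c, hAle hc⟩, rfl⟩
      · rw [← isNilpotent_map_subtype_iff, Subgroup.map_sup, hm F (hFA.trans hAle)]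
        exact h6)
  have h4 := congrArg (Subgroup.map (W ⊔ A).subtype) hb
  rw [Subgroup.map_sup, MonoidHom.map_zpowers, MonoidHom.map_zpowers, ← MonoidHom.range_eq_map,
    range_subtype] at h4
  have h5 := hmax (W ⊔ A) hAle hsolv ⟨b, b.2, h4.symm⟩
  have h6 : W ≤ A := h5 ▸ hWle
  have h7 : W ≤ F := by
    rw [← map_subgroupOf_eq_of_le h6]
    exact map_mono (le_fitting (normal_subgroupOf_of_le_normalizer h2)
      ((isNilpotent_map_subtype_iff _).1 (by rwa [map_subgroupOf_eq_of_le h6])))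
  rw [sup_eq_left.2 h7] at h3
  exact h3 hFn

end Cfsg.Agent.S3822
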