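import Cfsg.Statements.S3823
import Cfsg.Agent.Inst.PGO
import Cfsg.Agent.Cond.S3823

set_option autoImplicit false
open Cfsg

namespace Cfsg.Agent.S3823

/-- The prime graph of a finite group G has the prime divisors of the order of G as vertices, two distinct primes p, q being joined when G contains commuting elements of orders p and q. Let Δ be the connected component of an odd prime r dividing the order of G, and suppose Δ does not contain 2 and is not all of π(G). Then Δ is a clique: any two distinct primes in Δ are joined. -/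
theorem result {G : Type*} [Group G] [Finite G]
    (r : ℕ) (hr : r.Prime) (hrG : r ∣ Nat.card G)
    (h2 : ¬ Relation.ReflTransGen (fun p q : ℕ => p.Prime ∧ q.Prime ∧ p ≠ q ∧ ∃ x y : G, orderOf x = p ∧ orderOf y = q ∧ Commute x y) r 2)
    (hproper : ∃ s : ℕ, s.Prime ∧ s ∣ Nat.card G ∧ ¬ Relation.ReflTransGen (fun p q : ℕ => p.Prime ∧ q.Prime ∧ p ≠ q ∧ ∃ x y : G, orderOf x = p ∧ orderOf y = q ∧ Commute x y) r s) :
    ∀ p q : ℕ, Relation.ReflTransGen (fun p q : ℕ => p.Prime ∧ q.Prime ∧ p ≠ q ∧ ∃ x y : G, orderOf x = p ∧ orderOf y = q ∧ Commute x y) r p → Relation.ReflTransGen (fun p q : ℕ => p.Prime ∧ q.Prime ∧ p ≠ q ∧ ∃ x y : G, orderOf x = p ∧ orderOf y = q ∧ Commute x y) r q → p ≠ q →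
      ∃ x y : G, orderOf x = p ∧ orderOf y = q ∧ Commute x y := by
  revert G r hr hrG h2 hproper
  exact @Cfsg.Agent.Gate.S3823.out Cfsg.Agent.Cond.S3823

end Cfsg.Agent.S3823
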