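import Cfsg.Statements.S3825
import Cfsg.Agent.Solv.ElemAb
import Cfsg.Agent.Solv.Conj
import Mathlib.GroupTheory.FixedPointFree

set_option autoImplicit false
open Cfsg

namespace Cfsg.Agent.S3825

open Cfsg.Lib.Solv
open scoped commutatorElement

/-- Let U be a subgroup of a finite group H and w an involution of H normalizing U and commuting with exactly two elements of U, the identity and y. If V is a non-cyclic elementary abelian 2-subgroup of U containing y which is normal in U and invariant under w, then V is a Sylow 2-subgroup of U, V has order 4, and U/V is abelian. -/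
theorem result {H : Type*} [Group H] [Finite H] (U : Subgroup H) (w : H) (hw : orderOf w = 2)
    (hwU : w ∈ Subgroup.normalizer (U : Set H)) (y : H) (hy : y ≠ 1) (hyU : y ∈ U)
    (hfix : ∀ u ∈ U, w * u * w⁻¹ = u ↔ (u = 1 ∨ u = y))
    (V : Subgroup H) (hVU : V ≤ U) (hVn : (V.subgroupOf U).Normal) (hVw : ∀ v ∈ V, w * v * w⁻¹ ∈ V)
    (hVe : Cfsg.IsElementaryAbelian 2 V) (hVc : ¬ IsCyclic ↥V) (hyV : y ∈ V) :
    ¬ 2 ∣ V.relIndex U ∧ Nat.card ↥V = 4 ∧ ⁅U, U⁆ ≤ V := by
  have hw2 : w * w = 1 := by rw [← pow_two, ← hw, pow_orderOf_eq_one]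
  have hwi : w⁻¹ = w := inv_eq_of_mul_eq_one_right hw2
  have hww : ∀ u : H, w * (w * u * w⁻¹) * w⁻¹ = u := fun u => by
    calc w * (w * u * w⁻¹) * w⁻¹ = (w * w) * u * (w * w)⁻¹ := by group
      _ = u := by rw [hw2]; group
  have hwU' : ∀ u ∈ U, w * u * w⁻¹ ∈ U := fun u hu => (Subgroup.mem_normalizer_iff.mp hwU u).mp hu
  have hδ : ∀ u : H, u⁻¹ * (w * u * w⁻¹) ∈ V →
      u⁻¹ * (w * u * w⁻¹) = 1 ∨ u⁻¹ * (w * u * w⁻¹) = y := by
    intro u hu
    refine (hfix _ (hVU hu)).mp ?_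
    have h1 := hVe.2 _ hu
    rw [pow_two] at h1
    calc w * (u⁻¹ * (w * u * w⁻¹)) * w⁻¹ = (w * u * w⁻¹)⁻¹ * (w * (w * u * w⁻¹) * w⁻¹) := by group
      _ = (u⁻¹ * (w * u * w⁻¹))⁻¹ := by rw [hww]; group
      _ = _ := inv_eq_of_mul_eq_one_right h1
  have hE := ElemAb.of_isElementaryAbelian hVe
  have hy2 : orderOf y = 2 := orderOf_eq_prime (hVe.2 y hyV) hy
  have hzp : ∀ z : H, z = 1 ∨ z = y → z ∈ Subgroup.zpowers y := by
    rintro z (rfl | rfl)
    · exact one_mem _
    · exact Subgroup.mem_zpowers _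
  obtain ⟨v, hvV, hvy⟩ : ∃ v ∈ V, v ∉ Subgroup.zpowers y := by
    by_contra hcon
    push Not at hcon
    exact hVc (isCyclic_of_injective _ (Subgroup.inclusion_injective
      (show V ≤ Subgroup.zpowers y from hcon)))
  have hv : v⁻¹ * (w * v * w⁻¹) = y := by
    refine (hδ v (V.mul_mem (V.inv_mem hvV) (hVw v hvV))).resolve_left fun h => hvy ?_
    exact hzp _ ((hfix v (hVU hvV)).mp (inv_mul_eq_one.mp h).symm)
  have hfpf : ∀ u ∈ U, u⁻¹ * (w * u * w⁻¹) ∈ V → u ∈ V := by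
    intro u hu h
    have hzV : Subgroup.zpowers y ≤ V := Subgroup.zpowers_le.mpr hyV
    rcases hδ u h with h1 | h1
    · exact hzV (hzp _ ((hfix u hu).mp (inv_mul_eq_one.mp h1).symm))
    · have h2 : w * (u * v⁻¹) * w⁻¹ = u * v⁻¹ := by
        calc w * (u * v⁻¹) * w⁻¹ = u * (u⁻¹ * (w * u * w⁻¹)) * (v⁻¹ * (w * v * w⁻¹))⁻¹ * v⁻¹ := by
              group
          _ = _ := by rw [h1, hv]; group
      have := hzV (hzp _ ((hfix _ (U.mul_mem hu (U.inv_mem (hVU hvV)))).mp h2))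
      exact (V.mul_mem_cancel_right (V.inv_mem hvV)).mp this
  let α : U →* U :=
    { toFun := fun u => ⟨w * u * w⁻¹, hwU' u u.2⟩
      map_one' := Subtype.ext (by simp)
      map_mul' := fun a b => Subtype.ext (by simp [mul_assoc]) }
  let β : U ⧸ V.subgroupOf U →* U ⧸ V.subgroupOf U :=
    QuotientGroup.map _ _ α fun u hu => hVw u hu
  have hβ : MonoidHom.FixedPointFree β := by
    intro q hq
    obtain ⟨u, rfl⟩ := QuotientGroup.mk_surjective q
    rw [QuotientGroup.eq_one_iff]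
    have h1 : u⁻¹ * α u ∈ V.subgroupOf U := QuotientGroup.eq.mp hq.symm
    exact hfpf u u.2 h1
  have hβ2 : Function.Involutive β := by
    intro q
    obtain ⟨u, rfl⟩ := QuotientGroup.mk_surjective q
    exact congrArg QuotientGroup.mk (Subtype.ext (hww u) : α (α u) = u)
  refine ⟨?_, ?_, ?_⟩
  · have := hβ.odd_card_of_involutive hβ2
    exact Nat.two_dvd_ne_zero.mpr (Nat.odd_iff.mp this)
  · let δ : V →* H :=
      { toFun := fun v => (v : H)⁻¹ * (w * v * w⁻¹)
        map_one' := by simp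
        map_mul' := fun a b => by
          have h1 : (a : H) * b = b * a := congrArg Subtype.val (hE.comm a b)
          have h2 : (w * a * w⁻¹) * (b : H)⁻¹ = (b : H)⁻¹ * (w * a * w⁻¹) :=
            congrArg Subtype.val (hE.comm ⟨_, hVw a a.2⟩ b⁻¹)
          calc ((a * b : V) : H)⁻¹ * (w * (a * b : V) * w⁻¹)
              = (b * a : H)⁻¹ * (w * (a * b) * w⁻¹) := by rw [Subgroup.coe_mul, h1]
            _ = (a : H)⁻¹ * ((b : H)⁻¹ * (w * a * w⁻¹)) * (w * b * w⁻¹) := by group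
            _ = _ := by rw [← h2]; group }
    have h1 : Nat.card δ.range ≤ 2 := by
      rw [← hy2, ← Nat.card_zpowers]
      refine Subgroup.card_le_of_le ?_
      rintro _ ⟨a, rfl⟩
      exact hzp _ (hδ a (V.mul_mem (V.inv_mem a.2) (hVw a a.2)))
    have h2 : Nat.card δ.ker ≤ 2 := by
      rw [← hy2, ← Nat.card_zpowers, ← card_map_subtype]
      refine Subgroup.card_le_of_le ?_
      rintro _ ⟨a, ha, rfl⟩
      exact hzp _ ((hfix a (hVU a.2)).mp (inv_mul_eq_one.mp ha).symm)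
    have h3 := δ.ker.card_mul_index
    rw [Subgroup.index_ker] at h3
    have h4 : Nat.card V ≤ 4 := h3 ▸ Nat.mul_le_mul h2 h1
    obtain ⟨j, hj⟩ := IsPGroup.iff_card.mp (ElemAb.isPGroup 2 V)
    rw [hj] at h4 ⊢
    rcases j with _ | _ | _ | j
    · exact absurd (isCyclic_of_card_dvd_prime (p := 2) (by simp [hj])) hVc
    · exact absurd (isCyclic_of_card_dvd_prime (p := 2) (by simp [hj])) hVc
    · rfl
    · have : 0 < 2 ^ j := by positivity
      omega
  · rw [Subgroup.commutator_le]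
    intro a ha b hb
    have := hβ.commute_all_of_involutive hβ2 ((⟨a, ha⟩ : U) : U ⧸ V.subgroupOf U)
      ((⟨b, hb⟩ : U) : U ⧸ V.subgroupOf U)
    rw [← commutatorElement_eq_one_iff_commute] at this
    have h1 : ((⁅(⟨a, ha⟩ : U), ⟨b, hb⟩⁆ : U) : U ⧸ V.subgroupOf U) = 1 := this
    rw [QuotientGroup.eq_one_iff] at h1
    exact h1

end Cfsg.Agent.S3825
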