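import Cfsg.Statements.S3835
import Mathlib
import Cfsg.Agent.Trans.QdSylow
import Cfsg.Agent.Trans.Involves

set_option autoImplicit false
open Cfsg

open Cfsg.Lib Cfsg.Lib.Trans Cfsg.Lib.Trans.Qd Cfsg.Lib.Trans.Quad Matrix

namespace Cfsg.Agent.S3835

theorem comm_of_pgroup {p : ℕ} [hp : Fact p.Prime] {G X : Type*} [Group G] [Finite G] [Finite X]
    [MulAction G X] (hG : IsPGroup p G) (hX : Nat.card X < p ^ 2) (x y : G) (a : X) :
    (x * y) • a = (y * x) • a := by
  obtain ⟨k, hk⟩ := hG.index (MulAction.stabilizer G a)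
  have h1 : (MulAction.stabilizer G a).index ≤ Nat.card X := by
    rw [MulAction.index_stabilizer]
    exact Set.ncard_le_card _
  have hk2 : k < 2 := by
    by_contra h
    have := Nat.pow_le_pow_right hp.out.pos (not_lt.1 h)
    omega
  have hN : (MulAction.stabilizer G a).Normal := by
    rcases (by omega : k = 0 ∨ k = 1) with rfl | rfl
    · rw [pow_zero, Subgroup.index_eq_one] at hk
      rw [hk]; infer_instance
    · apply Subgroup.normal_of_index_eq_minFac_card
      obtain ⟨m, hm⟩ := hG.exists_card_eq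
      have hm0 : m ≠ 0 := by
        rintro rfl
        have := (MulAction.stabilizer G a).index_dvd_card
        rw [hk, hm, pow_zero, pow_one, Nat.dvd_one] at this
        exact hp.out.one_lt.ne' this
      rw [hk, hm, pow_one, hp.out.pow_minFac hm0]
  have hc : IsCyclic (G ⧸ MulAction.stabilizer G a) := by
    apply isCyclic_of_card_dvd_prime (p := p)
    rw [← Subgroup.index_eq_card, hk]
    rcases (by omega : k = 0 ∨ k = 1) with rfl | rfl <;> simp
  have h2 : ((y * x : G) : G ⧸ MulAction.stabilizer G a) = ((x * y : G) : G ⧸ MulAction.stabilizer G a) := by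
    rw [QuotientGroup.mk_mul, QuotientGroup.mk_mul]
    exact (IsCyclic.isMulCommutative (α := G ⧸ MulAction.stabilizer G a)).is_comm.comm _ _
  rw [QuotientGroup.eq, MulAction.mem_stabilizer_iff, mul_smul, inv_smul_eq_iff] at h2
  exact h2

theorem not_involves {p : ℕ} [Fact p.Prime] {n : ℕ} (h : n < p ^ 2) :
    ¬ Cfsg.Involves ↥(Cfsg.qd p) ↥(alternatingGroup (Fin n)) := by
  intro hi
  obtain ⟨P⟩ : Nonempty (Sylow p (alternatingGroup (Fin n))) := inferInstance
  refine not_isMulCommutative_sylow (qdSylow p) (sylow_comm_of_involves hi P ?_ _)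
  refine ⟨⟨fun x y => ?_⟩⟩
  apply Subtype.ext
  apply Subtype.ext
  ext a
  have := comm_of_pgroup (X := Fin n) P.isPGroup' (by simpa using h) x y a
  exact congrArg Fin.val this

/-- The affine action of `Qd`. -/
noncomputable def aff (F : Type*) [Field F] : qdOver F →* Equiv.Perm (Fin 2 → F) :=
  MonoidHom.toHomPerm
    { toFun := fun M x => vec M + (qdLin F M).1 *ᵥ x
      map_one' := by
        funext x
        rw [← mk_zero_one, vec_mk, qdLin_mk]
        simp
        rfl
      map_mul' := by
        intro M N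
        obtain ⟨v, g, rfl⟩ := exists_mk M
        obtain ⟨w, h, rfl⟩ := exists_mk N
        funext x
        simp only [mk_mul, vec_mk, qdLin_mk, mul_mulVec, add_assoc]
        rw [← Matrix.mulVec_add]
        rfl }

theorem aff_apply {F : Type*} [Field F] (M : qdOver F) (x : Fin 2 → F) :
    aff F M x = vec M + (qdLin F M).1 *ᵥ x := rfl

theorem aff_injective {F : Type*} [Field F] : Function.Injective (aff F) := by
  rw [injective_iff_map_eq_one]
  intro M hM
  obtain ⟨v, g, rfl⟩ := exists_mk M
  have h : ∀ x, v + g.1 *ᵥ x = x := by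
    intro x
    have := congrArg (fun σ : Equiv.Perm (Fin 2 → F) => σ x) hM
    simpa [aff_apply] using this
  have hv : v = 0 := by simpa using h 0
  rw [← mk_zero_one, mk_inj]
  refine ⟨hv, Subtype.ext ?_⟩
  subst hv
  have h0 := h ![1, 0]
  have h1 := h ![0, 1]
  have a0 := congrFun h0 0
  have a1 := congrFun h0 1
  have b0 := congrFun h1 0
  have b1 := congrFun h1 1
  simp at a0 a1 b0 b1
  ext i j
  fin_cases i <;> fin_cases j <;> simp [a0, a1, b0, b1]

theorem eq_one_of_odd {p : ℕ} [hp : Fact p.Prime] (hp2 : p ≠ 2) (χ : qdOver (ZMod p) →* ℤˣ)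
    (M : qdOver (ZMod p)) : χ M = 1 := by
  have hodd : Odd p := hp.out.odd_of_ne_two hp2
  have key : ∀ M : qdOver (ZMod p), M ^ p = 1 → χ M = 1 := by
    intro M hM
    have h1 : χ M ^ p = 1 := by rw [← map_pow, hM, map_one]
    rcases Int.units_eq_one_or (χ M) with h | h
    · exact h
    · rw [h, hodd.neg_one_pow] at h1
      exact absurd h1 (by decide)
  obtain ⟨v, g, rfl⟩ := exists_mk M
  have h1 : mk v g = qdTr (ZMod p) (Multiplicative.ofAdd v) * qdSec (ZMod p) g := by
    rw [qdTr_mul_qdSec]; rfl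
  rw [h1, map_mul, key _ (pow_char_of_mem_ker p (by rw [MonoidHom.mem_ker, qdLin_qdTr])), one_mul]
  have h2 : (χ.comp (qdSec (ZMod p))).ker = ⊤ := by
    rw [eq_top_iff, ← closure_upT_loT_eq_top, Subgroup.closure_le]
    rintro _ (rfl | rfl)
    · exact key _ (by rw [← map_pow, upT_pow_char, map_one])
    · exact key _ (by rw [← map_pow, loT_pow_char, map_one])
  have h3 : g ∈ (χ.comp (qdSec (ZMod p))).ker := h2 ▸ Subgroup.mem_top g
  exact h3

/-- Let p be an odd prime and n a natural number. The alternating group of degree n has a subgroup isomorphic to Qd(p) (the natural semidirect product of an elementary abelian group of order p² by SL₂(p)) if and only if n ≥ p²; and if n < p² then Qd(p) is not even involved in it. -/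
theorem result {p : ℕ} [Fact p.Prime] (hp : p ≠ 2) (n : ℕ) : ((∃ H : Subgroup (alternatingGroup (Fin n)), Nonempty (↥H ≃* ↥(Cfsg.qd p))) ↔ p ^ 2 ≤ n) ∧ (n < p ^ 2 → ¬ Cfsg.Involves ↥(Cfsg.qd p) ↥(alternatingGroup (Fin n))) := by
  classical
  refine ⟨⟨fun ⟨H, ⟨e⟩⟩ => ?_, fun h => ?_⟩, not_involves⟩
  · by_contra h
    exact not_involves (not_le.1 h)
      (involves_of_injective (H.subtype.comp e.symm.toMonoidHom)
        (H.subtype_injective.comp e.symm.injective))
  · have hc : Fintype.card (Fin 2 → ZMod p) ≤ Fintype.card (Fin n) := by simpa using h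
    obtain ⟨ι⟩ := Function.Embedding.nonempty_of_card_le hc
    let φ : qdOver (ZMod p) →* Equiv.Perm (Fin n) := (Equiv.Perm.viaEmbeddingHom ι).comp (aff (ZMod p))
    have hφ : Function.Injective φ := (Equiv.Perm.viaEmbeddingHom_injective ι).comp aff_injective
    have hm : ∀ M, φ M ∈ alternatingGroup (Fin n) := fun M =>
      Equiv.Perm.mem_alternatingGroup.2 (eq_one_of_odd hp (Equiv.Perm.sign.comp φ) M)
    let ψ : qdOver (ZMod p) →* alternatingGroup (Fin n) := φ.codRestrict _ hm
    have hψ : Function.Injective ψ := fun a b hab => hφ (congrArg Subtype.val hab)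
    exact ⟨ψ.range, ⟨(MonoidHom.ofInjective hψ).symm⟩⟩

end Cfsg.Agent.S3835
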