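import Cfsg.Statements.S3836
import Cfsg.Agent.Solv.Cores

set_option autoImplicit false
open Cfsg Cfsg.Lib.Solv

namespace Cfsg.Agent.S3836

/-- Let G be a finite group that is p-stable in the normalizer form: for every p-subgroup Q and every x ∈ N_G(Q) with [Q, x, x] = 1, the image of x in N_G(Q)/C_G(Q) lies in O_p(N_G(Q)/C_G(Q)). Then every subgroup of G is p-stable in the same sense. -/
theorem result {G : Type*} [Group G] [Finite G] {p : ℕ} [Fact p.Prime] (hst : Cfsg.IsNormalizerPStable p G) (H : Subgroup G) : Cfsg.IsNormalizerPStable p ↥H := by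
  intro P hP g hg hcomm
  set P' : Subgroup G := P.map H.subtype with hP'
  have hmemN : ∀ x : H, x ∈ Subgroup.normalizer (P : Set H) → (x : G) ∈ Subgroup.normalizer (P' : Set G) := by
    intro x hx
    have := Subgroup.le_normalizer_map (H := P) H.subtype ⟨x, hx, rfl⟩
    exact this
  let φ : Subgroup.normalizer (P : Set H) →* Subgroup.normalizer (P' : Set G) :=
    ((H.subtype.comp (Subgroup.normalizer (P : Set H)).subtype).codRestrict _ fun x => hmemN x.1 x.2)
  have hker : ∀ x, x ∈ (Subgroup.centralizer (P : Set H)).subgroupOf (Subgroup.normalizer (P : Set H)) ↔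
      φ x ∈ (Subgroup.centralizer (P' : Set G)).subgroupOf (Subgroup.normalizer (P' : Set G)) := by
    intro x
    simp only [Subgroup.mem_subgroupOf, Subgroup.mem_centralizer_iff, SetLike.mem_coe]
    constructor
    · rintro h _ ⟨y, hy, rfl⟩
      exact congrArg Subtype.val (h y hy)
    · intro h y hy
      exact Subtype.ext (h y ⟨y, hy, rfl⟩)
  let ψ := QuotientGroup.map ((Subgroup.centralizer (P : Set H)).subgroupOf (Subgroup.normalizer (P : Set H)))
    ((Subgroup.centralizer (P' : Set G)).subgroupOf (Subgroup.normalizer (P' : Set G))) φ (fun x hx => (hker x).1 hx)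
  have hψ : Function.Injective ψ := by
    rw [injective_iff_map_eq_one]
    intro y hy
    obtain ⟨x, rfl⟩ := QuotientGroup.mk_surjective y
    rw [QuotientGroup.eq_one_iff]
    apply (hker x).2
    rw [← QuotientGroup.eq_one_iff]
    exact hy
  have hcomm' : ⁅⁅P', Subgroup.zpowers (g : G)⁆, Subgroup.zpowers (g : G)⁆ = ⊥ := by
    have h1 : Subgroup.zpowers (g : G) = (Subgroup.zpowers g).map H.subtype := by
      rw [MonoidHom.map_zpowers]; rfl
    rw [h1, hP', ← Subgroup.map_commutator, ← Subgroup.map_commutator, hcomm, Subgroup.map_bot]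
  have key := hst P' (hP.map _) g (hmemN g hg) hcomm'
  have hle : (pCore p _).comap ψ ≤ pCore p _ :=
    le_pCore inferInstance ((pCore_isPGroup p _).comap_of_injective ψ hψ)
  exact hle key

end Cfsg.Agent.S3836
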