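import Cfsg.Statements.S3838
import Cfsg.Agent.Trans.Tate
import Cfsg.Agent.Solv.Conj

set_option autoImplicit false
open Cfsg

namespace Cfsg.Agent.S3838

open Cfsg.Lib.Trans Cfsg.Lib.Solv Subgroup

theorem aux {G : Type*} [Group G] [Finite G] {p : ℕ} [Fact p.Prime] (P : Sylow p G)
    (hN : Cfsg.HasNormalPComplement p ↥(Subgroup.normalizer ((P : Subgroup G) : Set G)))
    (Q : Subgroup G) [Q.Normal] (h1 : ⁅(P : Subgroup G), (P : Subgroup G)⁆ ≤ Q)
    (h2 : Q ≤ (frattini ↥(P : Subgroup G)).map (P : Subgroup G).subtype) :
    Cfsg.HasNormalPComplement p G := by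
  apply hasNormalPComplement_of_quotient_of_inf_le_frattini P Q (inf_le_left.trans h2)
  have hQP : Q ≤ P := h2.trans (map_subtype_le _)
  apply hasNormalPComplement_of_abelian_sylow_of_normalizer
    (P.mapSurjective (QuotientGroup.mk'_surjective Q))
  · rw [← le_centralizer_iff_isMulCommutative, ← commutator_eq_bot_iff_le_centralizer,
      Sylow.coe_mapSurjective, ← map_commutator, Subgroup.map_eq_bot_iff, QuotientGroup.ker_mk']
    exact h1
  · refine hasNormalPComplement_of_le ?_ (hasNormalPComplement_map (QuotientGroup.mk' Q) hN)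
    intro x hx
    obtain ⟨g, rfl⟩ := QuotientGroup.mk'_surjective Q x
    apply mem_map_of_mem
    have h3 := le_normalizer_comap (QuotientGroup.mk' Q) (mem_comap.mpr hx)
    rwa [Sylow.coe_mapSurjective, comap_map_eq, QuotientGroup.ker_mk', sup_eq_left.mpr hQP] at h3


/-- Let G be a finite group with Sylow p-subgroup P such that N_G(P) has a normal p-complement. Then N_G(Q) has a normal p-complement for every subgroup Q with [P, P] ≤ Q ≤ Φ(P). -/
theorem result {G : Type*} [Group G] [Finite G] {p : ℕ} [Fact p.Prime] (P : Sylow p G) (hN : Cfsg.HasNormalPComplement p ↥(Subgroup.normalizer ((P : Subgroup G) : Set G))) (Q : Subgroup G) (h1 : (commutator ↥(P : Subgroup G)).map (P : Subgroup G).subtype ≤ Q) (h2 : Q ≤ (frattini ↥(P : Subgroup G)).map (P : Subgroup G).subtype) : Cfsg.HasNormalPComplement p ↥(Subgroup.normalizer (Q : Set G)) := by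
  rw [Subgroup.map_subtype_commutator] at h1
  have hQP : Q ≤ P := h2.trans (map_subtype_le _)
  have hPN : (P : Subgroup G) ≤ normalizer (Q : Set G) := by
    intro x hx
    apply mem_normalizer_of_conj_mem
    intro y hy
    have := h1 (commutator_mem_commutator hx (hQP hy))
    have h4 := mul_mem this hy
    simpa [commutatorElement_def] using h4
  set N := normalizer (Q : Set G)
  apply aux (P.subtype hPN) _ (Q.subgroupOf N)
  · intro x hx
    have := h1 (by
      have h5 := mem_map_of_mem N.subtype hx
      rwa [map_commutator, Sylow.coe_subtype, subgroupOf_map_subtype, inf_eq_left.mpr hPN] at h5)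
    exact this
  · intro x hx
    have h3 := map_frattini_map_subtype_of_injective ((P : Subgroup G).subgroupOf N)
      N.subtype_injective
    rw [subgroupOf_map_subtype, inf_eq_left.mpr hPN] at h3
    have h4 := h2 hx
    rw [← h3] at h4
    exact (mem_map_iff_mem N.subtype_injective).mp h4
  · rw [Sylow.coe_subtype, ← subgroupOf_normalizer_eq hPN, ← inf_subgroupOf_right,
      hasNormalPComplement_subgroupOf_iff inf_le_right]
    exact hasNormalPComplement_of_le inf_le_left hN

end Cfsg.Agent.S3838
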