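import Cfsg.Statements.S3839
import Cfsg.Agent.Trans.FrobeniusRadical

set_option autoImplicit false
open Cfsg

namespace Cfsg.Agent.S3839

open Cfsg.Lib.Trans Subgroup
open scoped commutatorElement


/-- A Frobenius normal p-complement criterion relative to a strongly closed subgroup. Let G be a finite group, S a Sylow p-subgroup and D a subgroup of S strongly closed in S with respect to G. Then G has a normal p-complement if and only if N_G(U) has a normal p-complement for every subgroup U of D with C_D(U) ≤ U. -/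
theorem result {G : Type*} [Group G] [Finite G] {p : ℕ} [Fact p.Prime] (S : Sylow p G) (D : Subgroup G) (hD : Cfsg.IsStronglyClosed D (S : Subgroup G)) : Cfsg.HasNormalPComplement p G ↔ ∀ U : Subgroup G, U ≤ D → D ⊓ Subgroup.centralizer (U : Set G) ≤ U → Cfsg.HasNormalPComplement p ↥(Subgroup.normalizer (U : Set G)) := by
  refine ⟨fun h U _ _ => hasNormalPComplement_subgroup h _, fun h => ?_⟩
  apply hasNormalPComplement_of_radical S
  intro T hT _ hr g hg hc
  have hU : normalizer (T : Set G) ≤ normalizer ((T ⊓ D : Subgroup G) : Set G) := by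
    intro n hn
    apply mem_normalizer_fintype
    intro x hx
    have := mem_normalizer_conj hn hx.1
    exact ⟨this, hD.2 x hx.2 n (hT this)⟩
  have hSD : (S : Subgroup G) ≤ normalizer (D : Set G) := fun s hs =>
    mem_normalizer_fintype fun x hx => hD.2 x hx s (mul_mem (mul_mem hs (hD.1 hx)) (inv_mem hs))
  have h1 := hr (chainStabilizer T (T ⊓ D) hU) (fun x hx => hx.1.1)
    (normalizer_le_normalizer_chainStabilizer hU)
    (fun x hx hxc => mem_centralizer_of_mem_chainStabilizer
      (S.isPGroup'.to_le (inf_le_left.trans hT)) hx hxc)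
  set C := D ⊓ centralizer ((T ⊓ D : Subgroup G) : Set G)
  have hTC : T ≤ normalizer (C : Set G) :=
    Cfsg.Lib.Solv.le_normalizer_inf (hT.trans hSD)
      (Cfsg.Lib.Solv.le_normalizer_centralizer (le_normalizer.trans hU))
  have h2 : C ≤ T := by
    by_contra hne
    have hlt : T < C ⊔ T := right_lt_sup.mpr hne
    obtain ⟨x, ⟨hx1, hx2⟩, hx3⟩ := SetLike.exists_of_lt (lt_inf_normalizer
      (S.isPGroup'.to_le (sup_le (inf_le_left.trans hD.1) hT)) hlt)
    obtain ⟨c, hc, t, ht, rfl⟩ := (Cfsg.Lib.Solv.Coprime.mem_sup_iff hTC).mp hx1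
    have hcN : c ∈ normalizer (T : Set G) := by
      simpa using (normalizer (T : Set G)).mul_mem hx2 (inv_mem (le_normalizer ht))
    refine hx3 (mul_mem (h1 ⟨hD.1 hc.1, ⟨hcN, hc.2⟩, fun y hy => ⟨?_, ?_⟩⟩) ht)
    · exact T.mul_mem (mem_normalizer_conj hcN hy) (inv_mem hy)
    · have := D.mul_mem hc.1 (mem_normalizer_conj (hSD (hT hy)) (D.inv_mem hc.1))
      simpa [commutatorElement_def, mul_assoc] using this
  exact mem_centralizer_of_hasNormalPComplement_subgroup
    (h (T ⊓ D) inf_le_right (le_inf h2 inf_le_left)) (S.isPGroup'.to_le hT)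
    (le_normalizer.trans hU) (hU hg) hg hc

end Cfsg.Agent.S3839
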