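import Cfsg.Statements.S3859
import Cfsg.Agent.Solv.SylowNumber
import Cfsg.Agent.Solv.CommCalc
import Cfsg.Agent.Solv.CoprimeFixed
import Cfsg.Agent.Trans.SylowIn
import Cfsg.Agent.Trans.Quasisimple

set_option autoImplicit false
open Cfsg

namespace Cfsg.Agent.S3859

open Cfsg.Lib.Solv
open scoped Pointwise

open Cfsg.Lib.Trans

theorem normalizer_ne_top {G : Type*} [Group G] [Finite G] (T : Subgroup G) [T.Normal]
    (hT : IsSimpleGroup T) (hna : ¬ IsMulCommutative T) {r : ℕ} [Fact r.Prime] (R : Sylow r G)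
    (hR0 : (R : Subgroup G) ⊓ T ≠ ⊥) :
    Subgroup.normalizer (((R : Subgroup G) ⊓ T : Subgroup G) : Set G) ≠ ⊤ := by
  intro h
  have hq : IsQuasisimple T := isQuasisimple_of_isSimpleGroup hna
  haveI : ((R : Subgroup G) ⊓ T).Normal := Subgroup.normalizer_eq_top_iff.1 h
  rcases hT.eq_bot_or_eq_top_of_normal (((R : Subgroup G) ⊓ T).subgroupOf T) inferInstance with h | h
  · exact hR0 (by rwa [Subgroup.subgroupOf_eq_bot, disjoint_iff, inf_assoc, inf_idem] at h)
  · rw [Subgroup.subgroupOf_eq_top] at h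
    exact IsQuasisimple.not_le_of_isSolvable hq
      (Coprime.isSolvable_of_isPGroup R.isPGroup') (h.trans inf_le_left)

/-- Let G be a finite group with a normal non-abelian simple subgroup T whose centralizer is trivial (G almost simple with socle T), r a prime and R a Sylow r-subgroup of G meeting T nontrivially. If R lies in exactly one maximal subgroup of G, then G/T is an r-group. -/
theorem result {G : Type*} [Group G] [Finite G] (T : Subgroup G) [T.Normal] (hT : IsSimpleGroup T) (hna : ¬ IsMulCommutative T)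
    (hC : Subgroup.centralizer (T : Set G) = ⊥) {r : ℕ} [Fact r.Prime] (R : Sylow r G) (hR0 : (R : Subgroup G) ⊓ T ≠ ⊥)
    (huniq : ∃! M : Subgroup G, IsCoatom M ∧ (R : Subgroup G) ≤ M) : IsPGroup r (G ⧸ T) := by
  obtain ⟨M, -, hM⟩ := huniq
  have hRN : (R : Subgroup G) ≤
      Subgroup.normalizer (((R : Subgroup G) ⊓ T : Subgroup G) : Set G) :=
    le_normalizer_inf Subgroup.le_normalizer (by rw [Subgroup.normalizer_eq_top]; exact le_top)
  have htop : (R : Subgroup G) ⊔ T = ⊤ := by
    by_contra hne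
    obtain ⟨M1, hM1, h1⟩ := (eq_top_or_exists_le_coatom _).resolve_left hne
    obtain ⟨M2, hM2, h2⟩ := (eq_top_or_exists_le_coatom _).resolve_left
      (normalizer_ne_top T hT hna R hR0)
    have e1 := hM M1 ⟨hM1, le_sup_left.trans h1⟩
    have e2 := hM M2 ⟨hM2, hRN.trans h2⟩
    refine hM1.1 (eq_top_iff.2 fun g _ => ?_)
    obtain ⟨k, hk, n, hn, rfl⟩ := (isSylowIn_inf_of_normal R T).frattini (g := g)
      (by rw [Subgroup.normalizer_eq_top]; trivial)
    exact M1.mul_mem (h1 (Subgroup.mem_sup_right hk)) (e1.trans e2.symm ▸ h2 hn)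
  have h1 := R.isPGroup'.map (QuotientGroup.mk' T)
  have h2 : (R : Subgroup G).map (QuotientGroup.mk' T) = ⊤ := by
    rw [← Subgroup.map_top_of_surjective _ (QuotientGroup.mk'_surjective T), ← htop,
      Subgroup.map_sup, le_iff_map_mk'_eq_bot.1 (le_refl T), sup_bot_eq]
  rw [h2] at h1
  exact h1.of_equiv Subgroup.topEquiv

end Cfsg.Agent.S3859
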