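import Cfsg.Statements.S3858
import Cfsg.Agent.S3859

set_option autoImplicit false
open Cfsg

namespace Cfsg.Agent.S3858

open Cfsg.Lib.Solv
open scoped Pointwise

/-- Let G be a finite group with a normal non-abelian simple subgroup T whose centralizer is trivial (G almost simple with socle T), r a prime and R a Sylow r-subgroup of G meeting T nontrivially. Then R lies in exactly one maximal subgroup of G if and only if G has exactly one conjugacy class of maximal subgroups whose index is prime to r. -/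
theorem result {G : Type*} [Group G] [Finite G] (T : Subgroup G) [T.Normal] (hT : IsSimpleGroup T) (hna : ¬ IsMulCommutative T)
    (hC : Subgroup.centralizer (T : Set G) = ⊥) {r : ℕ} [Fact r.Prime] (R : Sylow r G) (hR0 : (R : Subgroup G) ⊓ T ≠ ⊥) :
    (∃! M : Subgroup G, IsCoatom M ∧ (R : Subgroup G) ≤ M) ↔
      ((∃ M : Subgroup G, IsCoatom M ∧ ¬ r ∣ M.index) ∧
        ∀ M₁ M₂ : Subgroup G, IsCoatom M₁ → ¬ r ∣ M₁.index → IsCoatom M₂ → ¬ r ∣ M₂.index → ∃ g : G, M₂ = M₁.map (MulAut.conj g).toMonoidHom) := by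
  open Cfsg.Lib.Trans in
  have hsyl : ∀ M : Subgroup G, ¬ r ∣ M.index → ∃ g : G, (R : Subgroup G) ≤ MulAut.conj g • M := by
    intro M hM
    obtain ⟨S, hS⟩ := exists_isSylowIn (p := r) M
    obtain ⟨x, -, hx⟩ := (isSylowIn_top R).exists_cj_eq
      (hS.trans le_top (by rwa [Subgroup.relIndex_top_right]))
    exact ⟨x, hx ▸ conj_smul_mono x hS.le⟩
  have hidx : ∀ M : Subgroup G, (R : Subgroup G) ≤ M → ¬ r ∣ M.index := fun M h hd =>
    R.not_dvd_index (hd.trans (Subgroup.index_dvd_of_le h))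
  constructor
  · rintro ⟨M, ⟨hM, hRM⟩, huniq⟩
    refine ⟨⟨M, hM, hidx M hRM⟩, fun M₁ M₂ h1 h1' h2 h2' => ?_⟩
    obtain ⟨g₁, hg₁⟩ := hsyl M₁ h1'
    obtain ⟨g₂, hg₂⟩ := hsyl M₂ h2'
    have e1 := huniq _ ⟨isCoatom_conj_smul h1 g₁, hg₁⟩
    have e2 := huniq _ ⟨isCoatom_conj_smul h2 g₂, hg₂⟩
    refine ⟨g₂⁻¹ * g₁, ?_⟩
    rw [map_conj_eq_smul, conj_mul_smul, e1, ← e2, conj_inv_smul_conj_smul]
  · rintro ⟨-, h⟩
    obtain ⟨M, hM, hNM⟩ := (eq_top_or_exists_le_coatom _).resolve_left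
      (S3859.normalizer_ne_top T hT hna R hR0)
    have hN : Subgroup.normalizer ((R : Subgroup G) : Set G) ≤ M :=
      (le_normalizer_inf le_rfl (by rw [Subgroup.normalizer_eq_top T]; exact le_top)).trans hNM
    have hRM : (R : Subgroup G) ≤ M := Subgroup.le_normalizer.trans hN
    refine ⟨M, ⟨hM, hRM⟩, fun L hL => ?_⟩
    obtain ⟨g, hg⟩ := h M L hM (hidx M hRM) hL.1 (hidx L hL.2)
    rw [map_conj_eq_smul] at hg
    obtain ⟨m, hm, n, hn, he⟩ := exists_mem_mul_normalizer_sylow R hRM (g := g⁻¹)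
      (by rw [conj_smul_le_iff_le_conj_inv_smul, inv_inv, ← hg]; exact hL.2)
    have hgM : g ∈ M := by
      have := M.inv_mem (he ▸ M.mul_mem hm (hN hn))
      rwa [inv_inv] at this
    rw [hg, conj_smul_eq_of_mem_normalizer (Subgroup.le_normalizer hgM)]

end Cfsg.Agent.S3858
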