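import Cfsg.Statements.S3864
import Cfsg.Agent.Rank2.FusDih

set_option autoImplicit false
open Cfsg

open Cfsg.Lib.Rank2 Cfsg.Lib.Trans Cfsg.Lib.Solv Subgroup

namespace Cfsg.Agent.S3864

/-- Let G be a finite group whose Sylow 2-subgroups are dihedral of order 2 ^ n with n ≥ 3, and count the conjugacy classes of involutions of G. Then exactly one of the following holds: there is one class of involutions and no normal subgroup of index 2; there are two classes of involutions, a normal subgroup of index 2 and none of index 4; there are three classes of involutions and G has a normal 2-complement. -/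
theorem result {G : Type*} [Group G] [Finite G] (P : Sylow 2 G) (n : ℕ) (hn : 3 ≤ n) (hdih : Nonempty (↥(P : Subgroup G) ≃* DihedralGroup (2 ^ (n - 1)))) : (Nat.card {C : ConjClasses G // ∃ g : G, ConjClasses.mk g = C ∧ orderOf g = 2} = 1 ∧ ∀ N : Subgroup G, N.Normal → N.index ≠ 2) ∨ (Nat.card {C : ConjClasses G // ∃ g : G, ConjClasses.mk g = C ∧ orderOf g = 2} = 2 ∧ (∃ N : Subgroup G, N.Normal ∧ N.index = 2) ∧ ∀ N : Subgroup G, N.Normal → N.index ≠ 4) ∨ (Nat.card {C : ConjClasses G // ∃ g : G, ConjClasses.mk g = C ∧ orderOf g = 2} = 3 ∧ Cfsg.HasNormalPComplement 2 G) := by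
  obtain ⟨e⟩ := hdih
  obtain ⟨n, rfl⟩ := Nat.exists_eq_add_of_le' hn
  obtain ⟨k, hk, ⟨F⟩⟩ := exists_dFrame P.isPGroup' (Nat.le_self_pow (by omega) 2) e
  have hk0 : k ≠ 0 := by
    rintro rfl
    rw [Nat.card_congr e.toEquiv, DihedralGroup.nat_card, show n + 3 - 1 = n + 2 from rfl] at hk
    have := Nat.two_pow_pos n
    rw [pow_add] at hk
    omega
  simp only [and_comm (b := orderOf _ = 2)]
  have key : ∀ w, (SylEmb.ofSylow P).Has (FusD.four F w) →
      ¬ (SylEmb.ofSylow P).Has (FusD.four F (w + 1)) →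
      Nat.card {C : ConjClasses G // ∃ t, orderOf t = 2 ∧ ConjClasses.mk t = C} = 2 ∧
        (∃ N : Subgroup G, N.Normal ∧ N.index = 2) ∧ ∀ N : Subgroup G, N.Normal → N.index ≠ 4 :=
    fun w h0 h1 => by
    obtain ⟨h2, h3⟩ := FusD.case_one F hk0 h0 h1
    refine ⟨h3, ⟨_, pResidual_normal 2 G, h2⟩, fun N _ h4 => ?_⟩
    have h5 := index_dvd_of_le (pResidual_le_of_index_eq_pow (p := 2) N (k := 2) h4)
    rw [h2, h4] at h5
    omega
  by_cases h0 : (SylEmb.ofSylow P).Has (FusD.four F 0) <;>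
    by_cases h1 : (SylEmb.ofSylow P).Has (FusD.four F (0 + 1))
  · have h := FusD.has_all F h0 h1
    exact Or.inl ⟨(SylEmb.ofSylow P).card_classes_one P.isPGroup' (pow_one 2).symm
      (FusD.orderOf_z F) (FusD.fused_z F h),
      fun N _ => SylEmb.index_ne_two P.isPGroup' (FusD.res_eq_top F h) N⟩
  · exact Or.inr (Or.inl (key 0 h0 h1))
  · exact Or.inr (Or.inl (key _ h1 (by
      rwa [show (0 + 1 + 1 : ZMod (2 ^ (k + 1))) = 0 + 2 * 1 by ring, FusD.has_add])))
  · have h : ∀ w, ¬ (SylEmb.ofSylow P).Has (FusD.four F w) := fun w => by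
      obtain ⟨v, rfl | rfl⟩ := ZM.even_or_odd w
      · rwa [← zero_add (2 * v), FusD.has_add]
      · rwa [add_comm, ← zero_add (1 : ZMod _), FusD.has_add]
    exact Or.inr (Or.inr ⟨FusD.three_classes F h, FusD.hasNormalPComplement F h⟩)

end Cfsg.Agent.S3864
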