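import Cfsg.Statements.S3865
import Cfsg.Agent.Solv.MaxUnif
import Cfsg.Agent.Solv.ManyClasses
import Cfsg.Agent.Trans.Frobenius
import Cfsg.Agent.Trans.ChiefTools

set_option autoImplicit false
open Cfsg

namespace Cfsg.Agent.S3865

open Cfsg.Lib.FT Cfsg.Lib.Solv Cfsg.Lib.Trans Cfsg.Lib.Fus.Ess Subgroup Pointwise

variable {G : Type*} [Group G] [Finite G] {p : ℕ} [hp : Fact p.Prime]

theorem exists_unif_notMem {m : ℕ} (h : MC p m G) (hm : 1 ≤ m) {Q : Subgroup G} (hQ : Q ≠ ⊤) :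
    ∃ s ∉ Q, Unif p m s := by
  classical
  have hp2 := hp.out.two_le
  rcases hm.eq_or_lt with rfl | hm
  · obtain ⟨s, hs⟩ := exists_not_mem_of_card_le h.pg Finset.univ ![Q, center G] (by simpa using hp2)
      (by simpa [Fin.forall_fin_two, hQ, center_eq_top_iff] using
        MaxClass.not_isMulCommutative h.ne le_rfl)
    refine ⟨s, hs 0 (Finset.mem_univ _), h.card, ?_⟩
    have h2 := prime_mul_card_le_card (X := 𝐂₁ s) h.pg fun e => hs 1 (Finset.mem_univ _)
      (mem_center_iff.2 fun g => mem_cent1.1 (e ▸ mem_top g))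
    rw [h.card, pow_succ'] at h2
    exact Nat.le_of_mul_le_mul_left h2 hp.out.pos
  obtain ⟨s, hs⟩ := h.exists_unif
  obtain ⟨t, ht⟩ := exists_not_mem_of_card_le h.pg (Finset.range (min p m))
    (fun i => if i = 0 then Q else twoStep G i) (by simp) fun i hi => by
      split_ifs
      · exact hQ
      · exact h.twoStep_ne_top (by have := Finset.mem_range.1 hi; omega)
  refine ⟨t, by simpa using ht 0 (Finset.mem_range.2 (by omega)), h.card,
    h.card_centralizer_le hm fun i => ?_⟩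
  induction i using Nat.strong_induction_on with
  | _ i ih =>
    intro hi him
    by_cases hip : i < p
    · simpa [show i ≠ 0 by omega] using ht i (Finset.mem_range.2 (by omega))
    · rw [show i = i - (p - 1) + (p - 1) by omega, hs.twoStep_eq (by omega) (by omega)]
      exact ih _ (by omega) (by omega) (by omega)

theorem commutator_le_of_prime {M D T : Subgroup G} (hT : IsPGroup p T) (hM : M ≤ D) (hD : D ≤ T)
    (h1 : T ≤ 𝐍 D) (h2 : T ≤ 𝐍 M) (h : M.relIndex D = p) : ⁅T, D⁆ ≤ M := by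
  rw [Subgroup.commutator_comm]
  intro x hx
  by_contra hc
  have := PG.le_of_le_sup_commutator (pgroup_nil hT) hD h2 ((Many.eq_of_prime_relIndex hp.out h hM
    (commg_subl.2 h1 hx) hc).ge.trans (sup_le_sup_left (zpowers_le.2 hx) _))
  exact hp.out.ne_one (h.symm.trans (relIndex_eq_one.2 this))

/-- `R` is a Sylow subgroup in which `x` has a small centralizer. -/
def Good (p : ℕ) (x : G) (R : Subgroup G) : Prop :=
  IsSylowOf p R ⊤ ∧ x ∈ R ∧ Nat.card ↥(𝐂₁ x ⊓ R) ≤ p ^ 2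

theorem key {N P : Subgroup G} [hN : N.Normal] (hd : p ^ 2 ∣ Nat.card N) {x : G} (hx : x ∉ N)
    (hP : Good p x P) {S : Subgroup G} (hS : IsSylowOf p S ⊤) (hxS : x ∈ S) : Good p x S := by
  by_contra hc
  obtain ⟨⟨R, R₀⟩, ⟨hR, hR₀, hxR₀, hb₀⟩, hmax⟩ := Set.exists_max_image
    {q : Subgroup G × Subgroup G | Good p x q.1 ∧ IsSylowOf p q.2 ⊤ ∧ x ∈ q.2 ∧ ¬ Good p x q.2}
    (fun q => Nat.card ↥(q.1 ⊓ q.2)) (Set.toFinite _) ⟨(P, S), hP, hS, hxS, hc⟩
  dsimp only at hR hR₀ hxR₀ hb₀ hmax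
  have hlt : ∀ {A B : Subgroup G}, IsSylowOf p A ⊤ → IsSylowOf p B ⊤ → A ≠ B →
      A ⊓ B < A ⊓ 𝐍 (A ⊓ B) := fun hA hB h => nilpotent_proper_norm (pgroup_nil (Sylow_pgroup hA))
    (inf_lt_left.2 fun e => h (sub_Sylow hA (Sylow_pgroup hB) e le_top).symm)
  have hne : R ≠ R₀ := fun e => hb₀ (e ▸ hR)
  have h1 := hlt hR.1 hR₀ hne
  have h2 := hlt hR₀ hR.1 hne.symm
  rw [inf_comm R₀ R] at h2
  have hxD : x ∈ R ⊓ R₀ := ⟨hR.2.1, hxR₀⟩
  have hDR : R ⊓ R₀ ≤ R := inf_le_left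
  generalize R ⊓ R₀ = D at *
  obtain ⟨T, hT, hT'⟩ := Sylow_superset inf_le_right ((Sylow_pgroup hR₀).to_le
    (inf_le_left : R₀ ⊓ 𝐍 D ≤ _))
  obtain ⟨R₁, hR₁, hTR⟩ := Sylow_superset le_top (Sylow_pgroup hT)
  have hDR₁ : D ≤ R₁ := h2.le.trans (hT'.trans hTR)
  have hb₁ : ¬ Good p x R₁ := fun h => (hmax (R₁, R₀) ⟨h, hR₀, hxR₀, hb₀⟩).not_gt
    ((Lib.Solv.card_lt_of_lt h2).trans_le (Subgroup.card_le_of_le (le_inf (hT'.trans hTR) inf_le_left)))
  have hDp := (Sylow_pgroup hR.1).to_le hDR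
  have hA : ∀ K ≤ 𝐍 D, 𝐍 D ≤ 𝐍 K → (∀ g ∈ K, (orderOf g).Coprime p → g ∈ 𝐂 D) → R ⊓ K ≤ D := by
    intro K hK hK' h
    have h3 := setI_normal_Hall ⟨hK, hK'⟩ hT
    obtain ⟨c, hc, R', h4, h5⟩ := exists_mem_pResidual_conj_le_sylow (Sylow_pgroup h3)
      ((Sylow_pgroup hR.1).to_le (inf_le_left : R ⊓ K ≤ _)) inf_le_right inf_le_right
    rw [map_pResidual_subtype_eq_closure] at hc
    have hcK : c ∈ K := (closure_le _).2 (fun g hg => hg.1) hc
    have hcD : c ∈ 𝐂 D := (closure_le _).2 (fun g hg => h g hg.1 hg.2) hc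
    have hcx : c ∈ 𝐂₁ x := cent_le_cent1 hxD hcD
    have hD := normP.1 (cent_sub D hcD)
    have h6 : D ≤ c •ᶜ R := hD ▸ (conjSg c).2 hDR
    have h7 := eq_of_le_of_card_le (le_inf h6 hDR₁) (hmax (c •ᶜ R, R₁) ⟨⟨(pHallJ (mem_top c)).2 hR.1,
      h6 hxD, by rw [← conjGid hcx, ← conjIg, card_conj_smul]; exact hR.2.2⟩, hR₁, hDR₁ hxD, hb₁⟩)
    rw [← conjSg c, hD, h7]
    refine le_inf ((conjSg c).2 inf_le_left) (le_trans ?_ (inf_le_left.trans hTR : T ⊓ K ≤ _))
    rw [← sub_Sylow h3 (R'.isPGroup'.to_le (inf_le_left : (R' : Subgroup G) ⊓ K ≤ _)) (le_inf h4 inf_le_right)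
      inf_le_right]
    exact le_inf h5 (conj_subG hcK inf_le_right)
  have hcop : ∀ g ∈ 𝐍 D, (orderOf g).Coprime p → ⁅⁅D, zpowers g⁆, zpowers g⁆ ≤ ⁅D, D⁆ → g ∈ 𝐂 D :=
    fun g hg h h' => by
      have h3 : (Nat.card D).Coprime (Nat.card (zpowers g)) := by
        obtain ⟨k, hk⟩ := IsPGroup.iff_card.1 hDp
        rw [hk, Nat.card_zpowers]
        exact h.symm.pow_left k
      have := pgroup_nil hDp
      rw [coprime_commGid (zpowers_le.2 hg) h3, ← Subgroup.map_subtype_commutator] at h'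
      exact coprime_cent_Phi (zpowers_le.2 hg) h3
        (h'.trans (map_mono commutator_le_frattini_of_isNilpotent)) (mem_zpowers g)
  have hB : ∀ M ≤ D, ⁅D, D⁆ ≤ M → 𝐍 D ≤ 𝐍 M → ¬ D ≤ M → M ≤ ⁅D, D⁆ := by
    intro M hM hM' hn hDM
    by_contra hMD
    have h3 := (PG.relIndex_le_card_centralizer (der_sub D) le_rfl hxD).trans
      ((Subgroup.card_le_of_le (inf_le_inf_left _ hDR)).trans hR.2.2)
    obtain ⟨i, hi⟩ := (hDp.to_le hM).index ((⁅D, D⁆ : Subgroup G).subgroupOf M)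
    obtain ⟨j, hj⟩ := hDp.index (M.subgroupOf D)
    change relIndex _ _ = _ at hi hj
    rw [← relIndex_mul_relIndex _ _ _ hM' hM, hi, hj, ← pow_add,
      Nat.pow_le_pow_iff_right hp.out.one_lt] at h3
    have hi0 : i ≠ 0 := fun e => hMD (relIndex_eq_one.1 (by rw [hi, e, pow_zero]))
    have hj0 : j ≠ 0 := fun e => hDM (relIndex_eq_one.1 (by rw [hj, e, pow_zero]))
    rw [show i = 1 by omega, pow_one] at hi
    rw [show j = 1 by omega, pow_one] at hj
    have hn' := norms_der (le_refl (𝐍 D))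
    have hT := (Sylow_pgroup hR.1).to_le (inf_le_left : R ⊓ 𝐍 D ≤ _)
    refine h1.not_ge ((le_inf inf_le_left ?_).trans (hA (𝐍 D ⊓ (commLe D M ⊓ commLe M ⁅D, D⁆))
      inf_le_left (normsI (normG _) (normsI (le_normalizer_commLe le_rfl hn)
        (le_normalizer_commLe hn hn'))) fun g hg h => hcop g hg.1 h ?_))
    · exact le_inf inf_le_right (le_inf (le_commLe_iff.2 ⟨inf_le_right.trans hn,
        commutator_le_of_prime hT hM h1.le inf_le_right (inf_le_right.trans hn) hj⟩)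
        (le_commLe_iff.2 ⟨inf_le_right.trans hn', commutator_le_of_prime hT hM' (hM.trans h1.le)
          (inf_le_right.trans hn) (inf_le_right.trans hn') hi⟩))
    · rw [Subgroup.commutator_comm, Subgroup.commutator_comm D]
      exact (commgSS le_rfl (le_commLe_iff.1 (zpowers_le.2 hg.2.1)).2).trans
        (le_commLe_iff.1 (zpowers_le.2 hg.2.2)).2
  have hNn : ∀ A : Subgroup G, A ≤ 𝐍 N := fun A => by rw [normalizer_eq_top]; exact le_top
  have h3 : D ⊓ N ≤ ⁅D, D⁆ := le_sup_left.trans (hB _ (sup_le inf_le_left (der_sub D)) le_sup_right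
    (normsY (normsI le_rfl (hNn _)) (norms_der le_rfl)) fun e => hx (PG.le_of_le_sup_commutator
      (pgroup_nil hDp) le_rfl (normsI (normG D) (hNn _)) e hxD).2)
  have h4 := hA (𝐍 D ⊓ N) inf_le_left (normsI (normG _) (hNn _)) fun g hg h => hcop g hg.1 h
    ((commg_subl.2 (commg_normr _ _)).trans (le_trans (le_inf (commg_subl.2 (zpowers_le.2 hg.1))
      ((commgSS le_rfl (zpowers_le.2 hg.2)).trans (commg_subr.2 (hNn _)))) h3))
  have h5 : R ⊓ N ≤ D := by
    rw [nilpotent_sub_norm (pgroup_nil ((Sylow_pgroup hR.1).to_le (sup_le inf_le_left hDR :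
      R ⊓ N ⊔ D ≤ R))) le_sup_right fun y hy => ?_]
    · exact le_sup_left
    obtain ⟨a, ha, b, hb, rfl⟩ := (mem_sup_of_le_normalizer (normsI (normsG hDR) (hNn _))).1 hy.1
    exact mul_mem (h4 ⟨ha.1, (Subgroup.mul_mem_cancel_right _ (normG D hb)).1 hy.2, ha.2⟩) hb
  have h6 : p ^ 2 ∣ Nat.card (commutator D) := by
    rw [← card_map_of_injective D.subtype_injective, Subgroup.map_subtype_commutator]
    refine Dvd.dvd.trans ?_ (cardSg ((le_inf h5 inf_le_right).trans h3))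
    rw [card_Hall (setI_normal_Hall ⟨le_top, hNn _⟩ hR.1)]
    exact pnat_dvd_partn (cardG_ne0 _) (IsPiNum.prime_pow (π := {p}) hp.out rfl 2) hd
  obtain ⟨k, hk⟩ := IsPGroup.iff_card.1 hDp
  obtain ⟨m, rfl⟩ := Nat.exists_eq_add_of_le' ((Nat.pow_dvd_pow_iff_le_right hp.out.one_lt).1
    (hk ▸ h6.trans (card_subgroup_dvd_card _)))
  have hU : Unif p m (⟨x, hxD⟩ : D) := ⟨hk, (ClassNum.card_cent_subtype D _).trans_le
    ((Subgroup.card_le_of_le (inf_le_inf_left _ hDR)).trans hR.2.2)⟩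
  have h7 := MaxClass.card_commutator hk hU.mc.ne
  rw [h7, Nat.pow_dvd_pow_iff_le_right hp.out.one_lt] at h6
  have : (twoStep D 1).Characteristic := characteristic_iff_le_comap.2 fun φ t ht =>
    mem_twoStep.2 fun y hy => by
      rw [← map_gam φ.toMonoidHom φ.surjective] at hy ⊢
      obtain ⟨y, hy, rfl⟩ := hy
      exact ⟨_, mem_twoStep.1 ht y hy, map_commutatorElement _ _ _⟩
  have h8 := Subgroup.card_le_of_le (hB _ (map_subtype_le (twoStep D 1))
    (Subgroup.map_subtype_commutator D ▸ map_mono gam_le_twoStep)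
    (normalizer_le_normalizer_map_subtype_of_char _) fun e => hU.mc.twoStep_ne_top (i := 1) h6
      (eq_top_iff.2 fun y _ => (mem_map_iff_mem D.subtype_injective).1 (e y.2)))
  rw [← Subgroup.map_subtype_commutator, card_map_of_injective D.subtype_injective,
    card_map_of_injective D.subtype_injective, h7] at h8
  have h9 := (hU.mc.card_twoStep le_rfl).trans (Nat.mul_le_mul_left p h8)
  rw [hk, ← pow_succ', Nat.pow_le_pow_iff_right hp.out.one_lt] at h9
  omega

theorem le_cent {N P : Subgroup G} [hN : N.Normal] (hP : IsSylowOf p P ⊤) (h1 : P ≤ 𝐂 (P ⊓ N))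
    (h2 : P ⊓ N ≤ ⁅P, P⁆) : N ⊓ 𝐍 (P ⊓ N) ≤ 𝐂 (P ⊓ N) := by
  have hNn : ∀ A : Subgroup G, A ≤ 𝐍 N := fun A => by rw [normalizer_eq_top]; exact le_top
  have h3 : ⁅N ⊓ 𝐍 P, P⁆ ≤ P ⊓ N := le_inf (commg_subr.2 inf_le_right)
    ((commgSS inf_le_left le_rfl).trans (commg_subl.2 (hNn _)))
  have h4 : ⁅⁅N ⊓ 𝐍 P, P⁆, P⁆ = ⊥ := commG1P.2 (h3.trans (centsC.1 h1))
  have h5 := centsC.1 (h2.trans (commG1P.1 (commutator_commutator_eq_bot_of_rotate
    (by rwa [Subgroup.commutator_comm P]) h4)))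
  have h6 : N ⊓ 𝐍 (P ⊓ N) ⊔ P ≤ 𝐍 (P ⊓ N) := sup_le inf_le_right (cents_norm h1)
  refine le_sup_left.trans ((Frattini_arg (norm_subcent_normal h6)
    (pHall_subl (le_inf le_sup_right h1) le_top hP)).ge.trans (sup_le inf_le_right fun y hy => ?_))
  obtain ⟨a, ha, b, hb, rfl⟩ := (mem_sup_of_le_normalizer
    (normsI (hNn _) (normsG (cents_norm h1)))).1 hy.1
  exact mul_mem (h5 ⟨ha.1, (Subgroup.mul_mem_cancel_right _ (normG P hb)).1 hy.2⟩) (h1 hb)

/-- Let G be a finite group whose Sylow p-subgroup P has order p ^ n with n ≥ 2 and nilpotency class n - 1 (maximal class), whose largest normal subgroup of order prime to p is trivial, and which has no proper normal subgroup of index prime to p. Then either some x ∈ P has a centralizer in G whose order has p-part p ^ 2, or G is quasisimple with centre of order at most p. -/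
theorem result {G : Type*} [Group G] [Finite G] (p : ℕ) [Fact p.Prime] (P : Sylow p G) (n : ℕ) (hP : Nat.card P = p ^ n) (hn : 2 ≤ n) (hmax : Group.nilpotencyClass ↥(P : Subgroup G) = n - 1) (hcore : Cfsg.pPrimeCore p G = ⊥) (hres : ∀ N : Subgroup G, N.Normal → (N.index).Coprime p → N = ⊤) : (∃ x ∈ (P : Subgroup G), (Nat.card (Subgroup.centralizer ({x} : Set G))).factorization p = 2) ∨ (Cfsg.IsQuasisimple G ∧ Nat.card (Subgroup.center G) ≤ p) := by
  have hp : p.Prime := Fact.out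
  have hS := Sylow_of le_top P.isPGroup' (by simpa using P.not_dvd_index)
  obtain ⟨m, rfl⟩ := Nat.exists_eq_add_of_le' hn
  refine or_iff_not_imp_left.2 fun hl => ?_
  have hm : 1 ≤ m := Nat.pos_of_ne_zero fun e => hl ⟨1, one_mem _, by
    have := P.card_eq_multiplicity
    rw [hP, e] at this
    rw [show 𝐂₁ (1 : G) = ⊤ by simp, card_top]
    exact (Nat.pow_right_injective hp.two_le this).symm⟩
  have hM : MC p m P := ⟨hP, (nilpotencyClass_eq_iff_lowerCentralSeries_ne_bot hP).1 hmax⟩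
  have htop : ∀ N : Subgroup G, N.Normal → (P : Subgroup G) ≤ N → N = ⊤ := fun N hN h =>
    hres N hN (hp.coprime_iff_not_dvd.2 fun e => P.not_dvd_index (e.trans (index_dvd_of_le h))).symm
  have hbot : ∀ N : Subgroup G, N.Normal → ¬ p ∣ Nat.card N → N = ⊥ := fun N hN h =>
    eq_bot_iff.2 (hcore ▸ le_sSup ⟨hN, (hp.coprime_iff_not_dvd.2 h).symm⟩)
  have hN : ∀ N : Subgroup G, N.Normal → N ≠ ⊤ → N ≤ center G ∧ Nat.card N ≤ p := by
    intro N hN hne
    have hNn : (⊤ : Subgroup G) ≤ 𝐍 N := by rw [normalizer_eq_top]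
    have hQ := setI_normal_Hall ⟨le_top, hNn⟩ hS
    by_cases hd : p ^ 2 ∣ Nat.card N
    · obtain ⟨s, hs, hU⟩ := exists_unif_notMem hM hm (Q := N.subgroupOf P)
        fun e => hne (htop N hN (subgroupOf_eq_top.1 e))
      obtain ⟨S, hS', h1⟩ := Sylow_superset (zpowers_le.2 (cent1id (s : G)))
        (P.isPGroup'.to_le (zpowers_le.2 s.2))
      obtain ⟨R, hR, h2⟩ := Sylow_superset le_top (Sylow_pgroup hS')
      have h3 := (Subgroup.card_le_of_le (le_inf hS'.1 h2)).trans (key hd hs ⟨hS, s.2,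
        (ClassNum.card_cent_subtype _ s).symm.trans_le hU.cent⟩ hR (h2 (h1 (mem_zpowers _)))).2.2
      have h4 := (sq_le_card_centralizer hM.pg (hP ▸ Nat.pow_le_pow_right hp.pos (by omega))
        s).trans ((ClassNum.card_cent_subtype _ s).trans_le (Nat.le_of_dvd (cardG_gt0 _)
          (pgroup_card_dvd_Hall hS' (pgroupS inf_le_right (pHall_pgroup hS)) inf_le_left)))
      rw [card_Hall hS', p_part hp (cardG_ne0 _), Nat.pow_le_pow_iff_right hp.one_lt] at h3 h4
      exact absurd ⟨s, s.2, le_antisymm h3 h4⟩ hl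
    by_cases hd' : p ∣ Nat.card N
    swap
    · rw [hbot N hN hd', card_bot]
      exact ⟨bot_le, hp.pos⟩
    have hc : Nat.card ↥((P : Subgroup G) ⊓ N) = p := by
      have h1 := (hp.pow_dvd_iff_le_factorization (cardG_ne0 N)).not.1 hd
      have h2 := (hp.dvd_iff_one_le_factorization (cardG_ne0 N)).1 hd'
      rw [card_Hall hQ, p_part hp (cardG_ne0 _), show (Nat.card N).factorization p = 1 by omega,
        pow_one]
    obtain ⟨k, rfl⟩ := Nat.exists_eq_add_of_le' hm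
    have h1 := MaxClass.eq_lowerCentralSeries hP hM.ne (N.subgroupOf P) (i := k) (by omega)
      (by rw [← card_map_of_injective (P : Subgroup G).subtype_injective, subgroupOf_map_subtype,
        inf_comm, hc]; simp)
    have h2 : (P : Subgroup G) ≤ 𝐂 ((P : Subgroup G) ⊓ N) := fun y hy z hz => by
      have : (⟨z, hz.1⟩ : P) ∈ center P := by
        rw [MaxClass.center_eq hP hM.ne hm, ← h1]; exact hz.2
      exact congrArg Subtype.val (mem_center_iff.1 this ⟨y, hy⟩).symm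
    have h3 := Burnside_normal_complement hp hQ (le_cent hS h2 fun z hz => by
      rw [← Subgroup.map_subtype_commutator]
      exact ⟨⟨z, hz.1⟩, gam_anti (G := P) (Nat.le_add_left 1 k) (h1.le hz.2), rfl⟩)
    have h4 := h3.sup
    rw [hbot _ (normalizer_eq_top_iff.1 (top_le_iff.1 (norms_pcore _ hNn)))
      ((p'groupE hp).1 (pcore_pgroup _ N)), bot_sup_eq] at h4
    rw [h4] at h2 hc
    exact ⟨centralizer_eq_top_iff_subset.1 (htop _ inferInstance h2), hc.le⟩
  have hZ : center G ≠ ⊤ := fun e => MaxClass.not_isMulCommutative hM.ne hm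
    ⟨⟨fun a b => Subtype.ext (mem_center_iff.1 (e ▸ mem_top (b : G) : (b : G) ∈ center G) a)⟩⟩
  have := QuotientGroup.nontrivial_iff.2 hZ
  refine ⟨⟨⟨by_contra fun h => hZ (eq_top_iff.2 fun x _ => ?_)⟩,
    ⟨fun H hH => ?_⟩⟩, (hN _ inferInstance hZ).2⟩
  · refine (hN (center G ⊔ zpowers x) (Normal.of_commutator_le G
      ((hN _ inferInstance h).1.trans le_sup_left)) fun e => hZ ?_).1 (mem_sup_right (mem_zpowers x))
    have := (abelianY (H := center G) (K := zpowers x) inferInstance inferInstance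
      fun y _ z hz => (mem_center_iff.1 hz y).symm).is_comm.comm
    exact eq_top_iff.2 fun a _ => mem_center_iff.2 fun b =>
      congrArg Subtype.val (this ⟨b, e ▸ mem_top b⟩ ⟨a, e ▸ mem_top a⟩)
  · refine or_iff_not_imp_right.2 fun h => eq_bot_iff.2 fun y hy => ?_
    obtain ⟨y, rfl⟩ := QuotientGroup.mk_surjective y
    exact (QuotientGroup.eq_one_iff y).2 ((hN (H.comap (QuotientGroup.mk' _)) inferInstance fun e =>
      h (comap_injective (QuotientGroup.mk'_surjective _) e)).1 hy)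

end Cfsg.Agent.S3865
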