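import Cfsg.Statements.S3867
import Cfsg.Agent.Solv.SylowNumber

set_option autoImplicit false
open Cfsg

namespace Cfsg.Agent.S3867

open Cfsg.Lib.Solv

/-- Let M and N be nontrivial normal subgroups of the finite group G with M ⊓ N trivial, and let p be a prime. Writing n(X) for the number of Sylow p-subgroups of a group X, one has n(G) · n(G/MN) = n(G/M) · n(G/N). -/
theorem result {G : Type*} [Group G] [Finite G] (p : ℕ) [Fact p.Prime] (M N : Subgroup G) [M.Normal] [N.Normal] (hM : M ≠ ⊥) (hN : N ≠ ⊥) (hMN : M ⊓ N = ⊥) : Nat.card (Sylow p G) * Nat.card (Sylow p (G ⧸ (M ⊔ N))) = Nat.card (Sylow p (G ⧸ M)) * Nat.card (Sylow p (G ⧸ N)) := by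
  obtain ⟨P⟩ : Nonempty (Sylow p G) := inferInstance
  set NP := Subgroup.normalizer ((P : Subgroup G) : Set G) with hNP
  rw [card_sylow_eq_card_sylow_quotient_mul P M, card_sylow_quotient P N,
    card_sylow_quotient P (M ⊔ N), mul_assoc]
  congr 1
  rw [← hNP, ← Subgroup.relIndex_mul_index (le_sup_left : NP ⊔ N ≤ (NP ⊔ N) ⊔ M),
    relIndex_sup_of_le_normalizer Subgroup.le_normalizer_of_normal, sup_assoc, sup_comm N M]
  congr 1
  rw [← Subgroup.inf_relIndex_right NP, ← Subgroup.inf_relIndex_right (NP ⊔ N)]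
  congr 1
  refine le_antisymm (inf_le_inf_right _ le_sup_left) (le_inf ?_ inf_le_right)
  rw [hNP, ← normalizer_sylow_sup]
  -- `M ∩ PN` is a `p`-group normalized by `P`
  have h1 : IsPGroup p (M ⊓ ((P : Subgroup G) ⊔ N) : Subgroup G) := by
    intro x
    obtain ⟨a, ha, b, hb, hab⟩ := Subgroup.mem_sup_of_normal_right.1 x.2.2
    obtain ⟨k, hk⟩ := P.2 ⟨a, ha⟩
    refine ⟨k, Subtype.ext ?_⟩
    have hk' : a ^ p ^ k = 1 := congrArg Subtype.val hk
    have h2 : ((x : G) ^ p ^ k) ∈ N := by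
      rw [← QuotientGroup.eq_one_iff, QuotientGroup.mk_pow, ← hab, QuotientGroup.mk_mul,
        (QuotientGroup.eq_one_iff b).2 hb, mul_one, ← QuotientGroup.mk_pow, hk',
        QuotientGroup.mk_one]
    have h3 : ((x : G) ^ p ^ k) ∈ M ⊓ N := ⟨M.pow_mem x.2.1 _, h2⟩
    rw [hMN] at h3
    exact h3
  have h2 : M ⊓ ((P : Subgroup G) ⊔ N) ≤ P := le_sylow_of_le_normalizer h1 P
    (le_normalizer_inf Subgroup.le_normalizer_of_normal (le_sup_left.trans Subgroup.le_normalizer))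
  rintro m ⟨hm1, hm2⟩
  refine mem_normalizer_of_conj_mem fun x hx => ?_
  have h3 : m * x * m⁻¹ * x⁻¹ ∈ M ⊓ ((P : Subgroup G) ⊔ N) := by
    refine ⟨?_, Subgroup.mul_mem _ (conj_mem_of_mem_normalizer hm1 (Subgroup.mem_sup_left hx))
      (Subgroup.mem_sup_left ((P : Subgroup G).inv_mem hx))⟩
    have := M.mul_mem hm2 (‹M.Normal›.conj_mem _ (M.inv_mem hm2) x)
    simpa [mul_assoc] using this
  simpa using (P : Subgroup G).mul_mem (h2 h3) hx

end Cfsg.Agent.S3867
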