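import Cfsg.Statements.S3878
import Cfsg.Agent.Solv.Hall
import Cfsg.Agent.Char.Burnside

set_option autoImplicit false
open Cfsg

namespace Cfsg.Agent.S3878

open Cfsg Cfsg.Lib.Solv

theorem not_sq_dvd_factorial {r n : ℕ} (hr : r.Prime) (h : n < 2 * r) : ¬ r ^ 2 ∣ n.factorial := by
  induction n with
  | zero =>
    rw [Nat.factorial_zero, Nat.dvd_one]
    exact (Nat.one_lt_pow two_ne_zero hr.one_lt).ne'
  | succ n ih =>
    rw [Nat.factorial_succ]
    intro hd
    by_cases h1 : r ∣ n + 1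
    · obtain ⟨c, hc⟩ := h1
      have hc1 : c = 1 := by
        have h2 : r * c < r * 2 := by omega
        have h3 := Nat.lt_of_mul_lt_mul_left h2
        have h4 : c ≠ 0 := by rintro rfl; omega
        omega
      subst hc1
      rw [hc, mul_one, sq] at hd
      have := hr.dvd_factorial.1 (Nat.dvd_of_mul_dvd_mul_left hr.pos hd)
      omega
    · exact ih (by omega) ((((Nat.Prime.coprime_iff_not_dvd hr).2 h1).pow_left 2).dvd_of_dvd_mul_left hd)

theorem no_hall_alt {r : ℕ} (hr : r.Prime) (h4 : 4 ≤ r) (H : Subgroup (alternatingGroup (Fin (r + 1))))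
    (h1 : ¬ r ∣ Nat.card H) (h2 : ∀ s : ℕ, s.Prime → s < r → ¬ s ∣ H.index) : False := by
  haveI : Nontrivial (Fin (r + 1)) := Fin.nontrivial_iff_two_le.2 (by omega)
  haveI := alternatingGroup.isSimpleGroup (α := Fin (r + 1)) (by simp; omega)
  have hc := two_mul_nat_card_alternatingGroup (α := Fin (r + 1))
  rw [Nat.card_perm, Nat.card_fin] at hc
  have hodd : Odd r := hr.odd_of_ne_two (by omega)
  have hid : H.index ∣ (r + 1).factorial := H.index_dvd_card.trans (Dvd.intro_left 2 hc)
  have h3 : H.index = r ^ H.index.primeFactorsList.length :=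
    Nat.eq_prime_pow_of_unique_prime_dvd H.index_ne_zero_of_finite (fun {s} hs hd => by
      have h5 := hs.dvd_factorial.1 (hd.trans hid)
      rcases lt_trichotomy s r with h6 | h6 | h6
      · exact absurd hd (h2 s hs h6)
      · exact h6
      · have h7 : s = r + 1 := by omega
        exact absurd (hs.odd_of_ne_two (by omega)) (by
          rw [h7]; exact Nat.not_odd_iff_even.2 hodd.add_one))
  generalize H.index.primeFactorsList.length = k at h3
  have hk : k = 1 := by
    rcases k with _ | _ | k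
    · exfalso
      apply h1
      have h5 := H.card_mul_index
      rw [h3, pow_zero, mul_one] at h5
      rw [h5]
      refine (Nat.Coprime.dvd_of_dvd_mul_left (k := r) (m := 2) ?_ ?_)
      · exact (Nat.coprime_primes hr Nat.prime_two).2 (by omega)
      · rw [hc]; exact hr.dvd_factorial.2 (by omega)
    · rfl
    · exfalso
      refine not_sq_dvd_factorial hr (n := r + 1) (by omega) (Dvd.dvd.trans ?_ hid)
      rw [h3]; exact pow_dvd_pow r (by omega)
  rw [hk, pow_one] at h3
  have hcore : H.normalCore = ⊥ := by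
    refine (H.normalCore_normal.eq_bot_or_eq_top).resolve_right (fun h => ?_)
    have : H = ⊤ := top_le_iff.1 (h ▸ H.normalCore_le)
    rw [this, Subgroup.index_top] at h3
    omega
  have hinj : Function.Injective (MulAction.toPermHom (alternatingGroup (Fin (r + 1)))
      (alternatingGroup (Fin (r + 1)) ⧸ H)) := by
    rw [← MonoidHom.ker_eq_bot_iff, ← Subgroup.normalCore_eq_ker, hcore]
  have h5 := Nat.card_le_card_of_injective _ hinj
  rw [Nat.card_perm, ← Subgroup.index_eq_card, h3] at h5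
  rw [Nat.factorial_succ] at hc
  have := r.factorial_pos
  nlinarith

theorem no_hall_perm {p q : ℕ} (hp : p.Prime) (hq : q.Prime) (hpq : p + 2 ≤ q)
    (H : Subgroup (Equiv.Perm (Fin q))) (h1 : ∀ r : ℕ, r.Prime → r ∣ Nat.card H → r = p ∨ r = q)
    (h2 : ¬ p ∣ H.index) (h3 : ¬ q ∣ H.index) : False := by
  classical
  haveI := Fact.mk hp
  haveI := Fact.mk hq
  haveI : Group.IsSolvable H := Cfsg.Lib.Char.isSolvable_of_prime_dvd_card hp hq H h1
  have hc := H.card_mul_index
  rw [Nat.card_perm, Nat.card_fin] at hc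
  have hqH : q ∣ Nat.card H :=
    ((Nat.Prime.coprime_iff_not_dvd hq).2 h3).dvd_of_dvd_mul_right
      (hc ▸ hq.dvd_factorial.2 le_rfl)
  -- elements of order `q` are transitive
  have htrans : ∀ c : Equiv.Perm (Fin q), orderOf c = q → ∀ x y : Fin q, ∃ i : ℤ, (c ^ i) x = y := by
    intro c hc x y
    have hcyc := Equiv.Perm.isCycle_of_prime_order'' (σ := c) (by simpa using hq) (by simpa using hc)
    have hsupp : c.support = Finset.univ :=
      Finset.eq_univ_of_card c.support (by rw [← hcyc.orderOf, hc]; simp)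
    exact hcyc.sameCycle (Equiv.Perm.mem_support.1 (by simp [hsupp]))
      (Equiv.Perm.mem_support.1 (by simp [hsupp]))
  obtain ⟨c0, hc0⟩ := exists_prime_orderOf_dvd_card' q hqH
  haveI : Nontrivial H := ⟨⟨c0, 1, by rintro rfl; simp at hc0; exact hq.one_lt.ne hc0⟩⟩
  obtain ⟨r, N, hr, hN, -, -, hNr⟩ := exists_isMinNormal_elementary H
  haveI := hN.normal
  haveI := Fact.mk hr
  haveI := (Subgroup.nontrivial_iff_ne_bot N).2 hN.ne_bot
  obtain ⟨k, hk0, hk⟩ := hNr.nontrivial_iff_card.1 inferInstance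
  have hrq : r = q := by
    refine (h1 r hr ((dvd_pow_self r hk0.ne').trans (hk ▸ N.card_subgroup_dvd_card))).resolve_left ?_
    rintro rfl
    obtain ⟨x, hx⟩ := hNr.nonempty_fixed_point_of_prime_not_dvd_card (Fin q) (by
      rw [Nat.card_fin]
      intro hd
      have := (Nat.prime_dvd_prime_iff_eq hr hq).1 hd
      omega)
    apply hN.ne_bot
    rw [eq_bot_iff]
    intro a ha
    rw [Subgroup.mem_bot]
    ext y
    obtain ⟨i, rfl⟩ := htrans c0 (by rw [Subgroup.orderOf_coe, hc0]) x y
    have h5 : (((c0 ^ i)⁻¹ * a * c0 ^ i : H) : Equiv.Perm (Fin q)) x = x :=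
      hx ⟨_, hN.normal.conj_mem' a ha (c0 ^ i)⟩
    simp only [Subgroup.coe_mul, Subgroup.coe_inv, Subgroup.coe_zpow, Equiv.Perm.mul_apply] at h5
    rw [Equiv.Perm.inv_eq_iff_eq] at h5
    simp [h5]
  subst hrq
  have hk1 : k = 1 := by
    by_contra h5
    refine not_sq_dvd_factorial hr (n := r) (by omega) ?_
    rw [← hc]
    exact ((pow_dvd_pow r (by omega)).trans (hk ▸ N.card_subgroup_dvd_card)).mul_right _
  rw [hk1, pow_one] at hk
  haveI : IsCyclic N := isCyclic_of_prime_card hk
  obtain ⟨c, hcN⟩ := exists_prime_orderOf_dvd_card' (G := N) r hk.symm.dvd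
  have hker : (MulAut.conjNormal (G := H) (H := N)).ker ≤ N := by
    intro g hg
    have h5 : (g : Equiv.Perm (Fin r)) * c = c * g := by
      have := congrArg (fun t : MulAut N => ((t c : H) : Equiv.Perm (Fin r))) (MonoidHom.mem_ker.1 hg)
      simp only [MulAut.conjNormal_apply, Subgroup.coe_mul, Subgroup.coe_inv, MulAut.one_apply] at this
      exact mul_inv_eq_iff_eq_mul.1 this
    have h6 : orderOf ((c : H) : Equiv.Perm (Fin r)) = r := by
      rw [Subgroup.orderOf_coe, Subgroup.orderOf_coe, hcN]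
    let x : Fin r := ⟨0, hr.pos⟩
    obtain ⟨i, hi⟩ := htrans _ h6 x ((g : Equiv.Perm (Fin r)) x)
    have h7 : g = (c : H) ^ i := by
      apply Subtype.ext
      ext y
      obtain ⟨j, rfl⟩ := htrans _ h6 x y
      have h8 : (g : Equiv.Perm (Fin r)) * c ^ j = c ^ j * g := (Commute.zpow_right h5 j).eq
      rw [← Equiv.Perm.mul_apply, h8, Equiv.Perm.mul_apply, ← hi, Subgroup.coe_zpow,
        ← Equiv.Perm.mul_apply, ← Equiv.Perm.mul_apply, zpow_mul_comm]
    rw [h7]
    exact N.zpow_mem c.2 i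
  have hdvd : Nat.card H ∣ r * (r - 1) := by
    rw [← (MulAut.conjNormal (G := H) (H := N)).ker.card_mul_index, Subgroup.index_ker]
    refine Nat.mul_dvd_mul ((Subgroup.card_dvd_of_le hker).trans hk.dvd) ?_
    have := (MulAut.conjNormal (G := H) (H := N)).range.card_subgroup_dvd_card
    rwa [IsCyclic.card_mulAut, hk, Nat.totient_prime hr] at this
  obtain ⟨m, rfl⟩ : ∃ m, r = m + 2 := ⟨r - 2, by omega⟩
  obtain ⟨d, hd⟩ := hdvd
  rw [Nat.factorial_succ, Nat.factorial_succ, ← mul_assoc] at hc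
  change (m + 2) * (m + 1) = _ at hd
  change _ = (m + 2) * (m + 1) * m.factorial at hc
  rw [hd, mul_assoc] at hc
  have h5 := Nat.eq_of_mul_eq_mul_left Nat.card_pos hc
  exact h2 (h5 ▸ (hp.dvd_factorial.2 (by omega)).mul_left d)


/-- For a set of primes π the following are equivalent: every finite group has a Hall π-subgroup; in every finite group the maximal π-subgroups are pairwise conjugate; π contains at most one prime or contains every prime. -/
theorem result (π : Set ℕ) :
    ((∀ (G : Type) [Group G] [Finite G], Cfsg.IsEPiGroup π G) ↔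
      ((∀ p q : ℕ, p.Prime → q.Prime → p ∈ π → q ∈ π → p = q) ∨ ∀ p : ℕ, p.Prime → p ∈ π)) ∧
    ((∀ (G : Type) [Group G] [Finite G], Cfsg.IsDPiGroup π G) ↔
      ((∀ p q : ℕ, p.Prime → q.Prime → p ∈ π → q ∈ π → p = q) ∨ ∀ p : ℕ, p.Prime → p ∈ π)) := by
  have hpos : ((∀ p q : ℕ, p.Prime → q.Prime → p ∈ π → q ∈ π → p = q) ∨
      ∀ p : ℕ, p.Prime → p ∈ π) → ∀ (G : Type) [Group G] [Finite G], HallD π G := by
    rintro (h | h) G _ _
    · by_cases h1 : ∃ p : ℕ, p.Prime ∧ p ∈ π
      · obtain ⟨p, hp, hpπ⟩ := h1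
        haveI := Fact.mk hp
        obtain ⟨H, hH, hD⟩ := hallD_singleton p G
        refine ⟨H, ⟨fun q hq hd => ?_, fun q hq hqπ => hH.2 q hq (h q p hq hp hqπ hpπ)⟩,
          fun K hK => hD K (fun q hq hd => h q p hq hp (hK q hq hd) hpπ)⟩
        have : q = p := hH.1 q hq hd
        rwa [this]
      · push Not at h1
        exact hallD_of_isPiNum_compl (fun q hq _ => h1 q hq)
    · exact hallD_of_isPiNum (fun q hq _ => h q hq)
  have hneg : (∀ (G : Type) [Group G] [Finite G], Cfsg.IsEPiGroup π G) →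
      ((∀ p q : ℕ, p.Prime → q.Prime → p ∈ π → q ∈ π → p = q) ∨ ∀ p : ℕ, p.Prime → p ∈ π) := by
    classical
    intro h
    by_contra hc
    push Not at hc
    obtain ⟨⟨p0, q0, hp0, hq0, hp0π, hq0π, hne⟩, hr⟩ := hc
    have hp : ∃ p, p.Prime ∧ p ∈ π := ⟨p0, hp0, hp0π⟩
    set p := Nat.find hp
    obtain ⟨hp1, hp2⟩ := Nat.find_spec hp
    have hq : ∃ q, q.Prime ∧ q ∈ π ∧ q ≠ p := by
      by_cases h1 : p0 = p
      · exact ⟨q0, hq0, hq0π, fun h2 => hne (h1.trans h2.symm)⟩
      · exact ⟨p0, hp0, hp0π, h1⟩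
    set q := Nat.find hq
    obtain ⟨hq1, hq2, hq3⟩ := Nat.find_spec hq
    have hpq : p < q := lt_of_le_of_ne (Nat.find_min' hp ⟨hq1, hq2⟩) (Ne.symm hq3)
    by_cases h2 : p + 2 ≤ q
    · obtain ⟨H, hH⟩ := h (Equiv.Perm (Fin q))
      refine no_hall_perm hp1 hq1 h2 H (fun r hr hd => ?_) (hH.2 p hp1 hp2) (hH.2 q hq1 hq2)
      by_contra h3
      push Not at h3
      have h4 : q ≤ r := Nat.find_min' hq ⟨hr, hH.1 r hr hd, h3.1⟩
      have h5 := hd.trans H.card_subgroup_dvd_card
      rw [Nat.card_perm, Nat.card_fin, hr.dvd_factorial] at h5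
      exact h3.2 (le_antisymm h5 h4)
    · have hq4 : q = p + 1 := by omega
      have hp3 : p = 2 := by
        by_contra h3
        rcases hq1.eq_two_or_odd' with h4 | h4
        · have := hp1.two_le; omega
        · have := hp1.odd_of_ne_two h3
          change Odd q at h4
          rw [hq4] at h4
          exact (Nat.not_even_iff_odd.2 h4) (Odd.add_one this)
      set r := Nat.find hr
      obtain ⟨hr1, hr2⟩ := Nat.find_spec hr
      have hr5 : 4 ≤ r := by
        by_contra h3
        have := hr1.two_le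
        have h5 : r = p ∨ r = q := by omega
        rcases h5 with h5 | h5
        · exact hr2 (by change r ∈ π; rw [h5]; exact hp2)
        · exact hr2 (by change r ∈ π; rw [h5]; exact hq2)
      obtain ⟨H, hH⟩ := h (alternatingGroup (Fin (r + 1)))
      refine no_hall_alt hr1 hr5 H (fun hd => hr2 (hH.1 r hr1 hd)) (fun s hs hlt hd => ?_)
      refine hH.2 s hs ?_ hd
      by_contra h3
      exact absurd (Nat.find_min' hr ⟨hs, h3⟩) (not_le.2 hlt)
  exact ⟨⟨hneg, fun h G _ _ => (hpos h G).isEPiGroup⟩,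
    ⟨fun h => hneg (fun G _ _ => (hallD_of_isDPiGroup (h G)).isEPiGroup),
      fun h G _ _ => (hpos h G).isDPiGroup⟩⟩

end Cfsg.Agent.S3878
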