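import Cfsg.Statements.S3881
import Cfsg.Agent.Solv.MetacyclicP
import Cfsg.Agent.Solv.Count

set_option autoImplicit false
open Cfsg

namespace Cfsg.Agent.S3881


open Cfsg.Lib.Solv Subgroup

/-- Let p be an odd prime and G a finite metacyclic p-group (G has a cyclic normal subgroup with cyclic quotient). Suppose G is non-abelian with |G'| = p^n. Then for 1 ≤ i ≤ n the number of elements of G whose conjugacy class has exactly p^i elements is |Z(G)| · (p^(2i) − p^(2i−2)). -/
theorem result {G : Type*} [Group G] [Finite G] {p : ℕ} [Fact p.Prime] (hp : p ≠ 2) (hG : IsPGroup p G) (hmc : Cfsg.IsMetacyclic G) (n : ℕ) (hn : n ≠ 0) (hGn : Nat.card ↥(commutator G) = p ^ n) (i : ℕ) (hi : 1 ≤ i) (hin : i ≤ n) :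
    Nat.card {g : G // (Subgroup.centralizer ({g} : Set G)).index = p ^ i} =
      Nat.card ↥(Subgroup.center G) * (p ^ (2 * i) - p ^ (2 * i - 2)) := by
  have hp1 := (Fact.out : p.Prime).one_lt
  have key : ∀ j ≤ n, Count.cnt (fun g : G => (centralizer ({g} : Set G)).index ≤ p ^ j) =
      Nat.card (center G) * p ^ (2 * j) := by
    intro j hj
    have h1 : Count.cnt (fun g : G => (centralizer ({g} : Set G)).index ≤ p ^ j) =
        Nat.card (powerClosure p (n - j) (⊤ : Subgroup G)) := (Count.cnt_congr fun g => by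
      rw [Meta.mem_mho_iff_index_centralizer_le hp hG hmc hGn (Nat.sub_le n j),
        Nat.sub_sub_self hj]).symm
    have h2 := (powerClosure p (n - j) (⊤ : Subgroup G)).card_mul_index
    rw [Meta.index_mho hp hG hmc hGn (Nat.sub_le n j), ← (center G).card_mul_index,
      Meta.index_center hp hG hmc hGn, show 2 * n = 2 * j + 2 * (n - j) by omega, pow_add,
      ← mul_assoc] at h2
    rw [h1, Nat.eq_of_mul_eq_mul_right (by positivity) h2]
  have h1 := key i hin
  rw [Count.cnt_add _ (fun g : G => (centralizer ({g} : Set G)).index ≤ p ^ (i - 1)),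
    Count.cnt_congr (Q := fun g : G => (centralizer ({g} : Set G)).index ≤ p ^ (i - 1))
      (fun g => and_iff_right_of_imp fun h => h.trans (Nat.pow_le_pow_right hp1.le (by omega))),
    key (i - 1) (by omega),
    Count.cnt_congr (Q := fun g : G => (centralizer ({g} : Set G)).index = p ^ i)] at h1
  · rw [Nat.mul_sub, ← h1, show 2 * (i - 1) = 2 * i - 2 by omega, Nat.add_sub_cancel_left]
    rfl
  · intro g
    obtain ⟨k, hk⟩ := hG.index (centralizer ({g} : Set G))
    rw [hk, Nat.pow_le_pow_iff_right hp1, Nat.pow_le_pow_iff_right hp1, Nat.pow_right_inj hp1]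
    omega

end Cfsg.Agent.S3881
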