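import Cfsg.Statements.S3882
import Cfsg.Agent.Solv.MetacyclicP

set_option autoImplicit false
open Cfsg

namespace Cfsg.Agent.S3882


open Cfsg.Lib.Solv Subgroup

/-- Let p be an odd prime and G a finite metacyclic p-group (G has a cyclic normal subgroup with cyclic quotient). Suppose |G'| = p^n and 0 ≤ s ≤ n. Then an element g lies in the subgroup generated by the p^s-th powers if and only if its conjugacy class has at most p^(n−s) elements; in particular the subgroup generated by the p^n-th powers is the center of G. -/
theorem result {G : Type*} [Group G] [Finite G] {p : ℕ} [Fact p.Prime] (hp : p ≠ 2) (hG : IsPGroup p G) (hmc : Cfsg.IsMetacyclic G) (n : ℕ) (hGn : Nat.card ↥(commutator G) = p ^ n) (s : ℕ) (hs : s ≤ n) (g : G) :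
    (g ∈ Subgroup.closure {x : G | ∃ y : G, y ^ p ^ s = x} ↔ (Subgroup.centralizer ({g} : Set G)).index ≤ p ^ (n - s)) ∧
      Subgroup.closure {x : G | ∃ y : G, y ^ p ^ n = x} = Subgroup.center G := by
  have h : ∀ k, closure {x : G | ∃ y : G, y ^ p ^ k = x} = powerClosure p k ⊤ := fun k => by
    simp only [powerClosure, mem_top, true_and, eq_comm]
  rw [h, h]
  exact ⟨Meta.mem_mho_iff_index_centralizer_le hp hG hmc hGn hs g, Meta.mho_eq_center hp hG hmc hGn⟩

end Cfsg.Agent.S3882
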