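import Cfsg.Statements.S3883
import Cfsg.Agent.Solv.MetacyclicP

set_option autoImplicit false
open Cfsg

namespace Cfsg.Agent.S3883


open Cfsg.Lib.Solv Subgroup

/-- Let p be an odd prime and G a finite metacyclic p-group (G has a cyclic normal subgroup with cyclic quotient). Suppose G is non-abelian. Then an element g of G lies outside the Frattini subgroup if and only if its centralizer C_G(g) is abelian. -/
theorem result {G : Type*} [Group G] [Finite G] {p : ℕ} [Fact p.Prime] (hp : p ≠ 2) (hG : IsPGroup p G) (hmc : Cfsg.IsMetacyclic G) (hna : ¬ IsMulCommutative G) (g : G) :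
    g ∉ frattini G ↔ IsMulCommutative ↥(Subgroup.centralizer ({g} : Set G)) := by
  obtain ⟨n, hn⟩ := IsPGroup.iff_card.mp (hG.to_subgroup (commutator G))
  obtain ⟨t, ht⟩ := hG.index (centralizer ({g} : Set G))
  have hn1 : 1 ≤ n := Nat.pos_of_ne_zero fun h => hna (by
    rw [h, pow_zero, card_eq_one] at hn
    exact (commutator_eq_bot_iff G).mp hn)
  rw [Meta.frattini_eq hG hmc, Meta.mem_mho_iff_index_centralizer_le hp hG hmc hn hn1,
    Meta.isMulCommutative_iff_le hp hG hmc hn ht, ht,
    Nat.pow_le_pow_iff_right (Fact.out : p.Prime).one_lt]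
  omega

end Cfsg.Agent.S3883
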