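import Cfsg.Statements.S3886
import Cfsg.Agent.Solv.MetacyclicP

set_option autoImplicit false
open Cfsg

namespace Cfsg.Agent.S3886


open Cfsg.Lib.Solv Subgroup

/-- Let p be an odd prime and G a finite metacyclic p-group (G has a cyclic normal subgroup with cyclic quotient). Then the largest value of |R| · |Z(R)| over subgroups R of G is |G : G'|², and the subgroups attaining it (the centrally large subgroups) are exactly the non-abelian subgroups together with the maximal abelian subgroups of G. -/
theorem result {G : Type*} [Group G] [Finite G] {p : ℕ} [Fact p.Prime] (hp : p ≠ 2) (hG : IsPGroup p G) (hmc : Cfsg.IsMetacyclic G) : Cfsg.maxCentralProduct G = (commutator G).index ^ 2 ∧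
    ∀ R : Subgroup G, Cfsg.IsCentrallyLarge R ↔ (¬ IsMulCommutative ↥R ∨ Maximal (fun K : Subgroup G => IsMulCommutative ↥K) R) := by
  have h1 : maxCentralProduct G = (commutator G).index ^ 2 := by
    apply IsGreatest.csSup_eq
    refine ⟨⟨⊤, ?_⟩, ?_⟩
    · rw [card_top, Nat.card_congr (centerCongr topEquiv).toEquiv,
        Meta.card_mul_card_center hp hG hmc]
    · rintro _ ⟨R, rfl⟩
      exact Meta.card_mul_card_center_le hp hG hmc R
  refine ⟨h1, fun R => ?_⟩
  rw [IsCentrallyLarge, h1]
  by_cases h : IsMulCommutative R
  · rw [Meta.card_mul_card_center_of_comm, Meta.maximal_iff_card_eq hp hG hmc,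
      Nat.pow_left_inj two_ne_zero]
    simp [h]
  · exact iff_of_true (Meta.card_mul_card_center_of_not_comm hp hG hmc h) (Or.inl h)

end Cfsg.Agent.S3886
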