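import Cfsg.Statements.S3887
import Cfsg.Agent.Solv.MetacyclicP

set_option autoImplicit false
open Cfsg

namespace Cfsg.Agent.S3887


open Cfsg.Lib.Solv Subgroup

/-- Let p be an odd prime and G a finite metacyclic p-group (G has a cyclic normal subgroup with cyclic quotient). Then a subgroup R of G maximizes |R| · |C_G(R)| over all subgroups of G if and only if R contains the center of G. -/
theorem result {G : Type*} [Group G] [Finite G] {p : ℕ} [Fact p.Prime] (hp : p ≠ 2) (hG : IsPGroup p G) (hmc : Cfsg.IsMetacyclic G) (R : Subgroup G) : Cfsg.IsCentralizerLarge R ↔ Subgroup.center G ≤ R := by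
  have h1 : maxCentralizerProduct G = Nat.card G * Nat.card (center G) := by
    apply IsGreatest.csSup_eq
    refine ⟨⟨⊤, ?_⟩, ?_⟩
    · exact Meta.card_mul_card_centralizer hp hG hmc le_top
    · rintro _ ⟨R, rfl⟩
      exact Meta.card_mul_card_centralizer_le hp hG hmc R
  rw [IsCentralizerLarge, h1]
  refine ⟨fun h => ?_, Meta.card_mul_card_centralizer hp hG hmc⟩
  have h2 : centralizer (R : Set G) ≤ centralizer ((R ⊔ center G : Subgroup G) : Set G) :=
    le_centralizer_iff.mp (sup_le (le_centralizer_iff.mp le_rfl) (center_le_centralizer _))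
  have h3 := Meta.card_mul_card_centralizer_le hp hG hmc (R ⊔ center G)
  rw [← h] at h3
  have h4 := Nat.le_of_mul_le_mul_right ((Nat.mul_le_mul_left _ (card_le_of_le h2)).trans h3)
    Nat.card_pos
  exact le_sup_right.trans (eq_of_le_of_card_ge le_sup_left h4).ge

end Cfsg.Agent.S3887
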