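import Cfsg.Statements.S3895
import Cfsg.Agent.Solv.ManyClasses
import Cfsg.Agent.Trans.FrobeniusRadical

set_option autoImplicit false
open Cfsg

namespace Cfsg.Agent.S3895

open Cfsg.Lib.FT Cfsg.Lib.Solv.Many Cfsg.Lib.Solv.ClassNum Cfsg.Lib.Trans Subgroup

variable {G : Type*} [Group G] [Finite G]

theorem four_le {Q : Subgroup G} (hQ : IsPGroup 2 Q) {g : G} (hg : g ∈ 𝐍 Q) (hg' : g ∉ 𝐂 Q)
    (ho : (orderOf g).Coprime 2) : 4 ≤ (𝐂₁ g).relIndex Q := by
  obtain ⟨j, hj⟩ := hQ.index ((𝐂₁ g).subgroupOf Q)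
  change (𝐂₁ g).relIndex Q = _ at hj
  rcases j with _ | _ | j
  · exact absurd (le_cent1_iff.1 (relIndex_eq_one.1 hj)) hg'
  · refine absurd (coprime_commGG1P (zpowers_le.2 hg) ?_ (commG1P.2 ?_) (mem_zpowers g)) hg'
    · exact pgroup_coprime_p'group hQ (pgroup_zpowers.2 ((p'natE Nat.prime_two).2
        (Nat.prime_two.coprime_iff_not_dvd.1 ho.symm)))
    rw [cent_zpowers, commutator_le]
    rintro x hx _ ⟨k, rfl⟩
    have h1 := (memJ_norm (zpow_mem hg k)).2 (inv_mem hx)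
    have h2 : g ^ k ∈ 𝐂₁ g := zpow_mem (cent1id g) k
    have := (mul_mem_iff_of_index_two hj (a := ⟨x, hx⟩) (b := ⟨_, h1⟩)).2 (by
      simp only [mem_subgroupOf]
      rw [Subgroup.mul_mem_cancel_right _ (inv_mem h2), Subgroup.mul_mem_cancel_left _ h2,
        inv_mem_iff])
    simpa [mem_subgroupOf, commutatorElement_def, mul_assoc] using this
  · rw [hj]
    exact Nat.pow_le_pow_right two_pos (show 2 ≤ j + 1 + 1 by omega)

theorem two_nilpotent (P : Sylow 2 G) (hk : Nat.card P < 2 * kPi {2} G) :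
    HasNormalPComplement 2 G := by
  refine hasNormalPComplement_of_radical P fun Q hQ _ hr g hg ho => ?_
  by_contra hg'
  have hZ := hr (𝐂 Q) (cent_sub Q) (norms_cent le_rfl) fun x hx _ => hx
  have h1 : kPi {2} G ≤ kc (Q : Set G) + kc {x | x ∈ P ∧ ∀ g, g * x * g⁻¹ ∉ Q} := by
    rw [kPi_eq_kc]
    refine kc_le_add fun x hx => ?_
    obtain ⟨m, -, hm⟩ := exists_conj_mem_sylow (Sylow_of le_top P.isPGroup'
      (by simpa using P.not_dvd_index)) (mem_top x) hx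
    by_cases h : ∃ g, g * x * g⁻¹ ∈ Q
    · exact Or.inl h
    · exact Or.inr ⟨m, hm, fun k e => h ⟨k * m, by simpa [mul_assoc] using e⟩⟩
  have h2 := kc_mul_le (X := {x | x ∈ P ∧ ∀ g, g * x * g⁻¹ ∉ Q}) (r := 2) fun x hx => by
    obtain ⟨y, hy, hyx⟩ : ∃ y ∈ (P : Subgroup G), y ∉ 𝐂₁ x := SetLike.not_le_iff_exists.1
      fun e => hx.2 1 (by simpa using hZ ⟨hx.1, le_cent1_iff.1 (hQ.trans e)⟩)
    exact (Set.one_lt_ncard (Set.toFinite _)).2 ⟨x, ⟨hx, IsConj.refl x⟩, y * x * y⁻¹,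
      ⟨⟨mul_mem (mul_mem hy hx.1) (inv_mem hy), fun k e => hx.2 (k * y)
        (by simpa [mul_assoc] using e)⟩, isConj_iff.2 ⟨y, rfl⟩⟩,
      fun e => hyx (mem_cent1.2 (eq_mul_inv_iff_mul_eq.1 e).symm)⟩
  have h3 := Set.ncard_le_ncard (s := {x | x ∈ P ∧ ∀ g, g * x * g⁻¹ ∉ Q})
    (t := ((P : Subgroup G) : Set G) \ Q) fun x hx => ⟨hx.1, by simpa using hx.2 1⟩
  have h4 := Set.ncard_sdiff_add_ncard_of_subset (s := (Q : Set G))
    (t := ((P : Subgroup G) : Set G)) hQ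
  change _ + Nat.card Q = Nat.card P at h4
  have h5 := kc_subgroup_le hg (r := 3) fun s hs hd => by
    have := hs.two_le
    have : s ≠ 2 := fun e => Nat.prime_two.coprime_iff_not_dvd.1 ho.symm (e ▸ hd)
    omega
  have h6 := mul_card_inf_le (four_le (P.isPGroup'.to_le hQ) hg hg' ho)
  omega

theorem kPi_eq {p : ℕ} [hp : Fact p.Prime] : kPi {p} G =
    Nat.card {c : ConjClasses G // ∀ x ∈ c.carrier, ∃ k : ℕ, orderOf x = p ^ k} :=
  kPi_eq_of_iff fun x => by
    rw [p_elt_singleton_iff, IsPGroup.iff_card, Nat.card_zpowers]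
    exact ⟨fun h => h x ConjClasses.mem_carrier_mk, fun h y hy => by
      rwa [orderOf_eq_of_isConj (ConjClasses.mk_eq_mk_iff_isConj.1
        (ConjClasses.mem_carrier_iff_mk_eq.1 hy))]⟩

/-- Let G be a finite group with Sylow 2-subgroup P, and write k₂(G) for the number of conjugacy classes of G consisting of 2-elements (elements of 2-power order, the identity included). Then k₂(G) > |P|/2 if and only if G has a normal 2-complement and P has more than |P|/2 conjugacy classes. -/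
theorem result {G : Type*} [Group G] [Finite G] (P : Sylow 2 G) :
    Nat.card ↥(P : Subgroup G) < 2 * Nat.card {c : ConjClasses G // ∀ x ∈ c.carrier, ∃ k : ℕ, orderOf x = 2 ^ k} ↔
      Cfsg.HasNormalPComplement 2 G ∧ Nat.card ↥(P : Subgroup G) < 2 * Nat.card (ConjClasses ↥(P : Subgroup G)) := by
  rw [← kPi_eq]
  have hP := Sylow_of le_top P.isPGroup' (by simpa using P.not_dvd_index)
  refine ⟨fun h => ⟨two_nilpotent P h, h.trans_le (Nat.mul_le_mul_left _ ?_)⟩,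
    fun ⟨h, h'⟩ => h'.trans_le (Nat.mul_le_mul_left _ ?_)⟩
  · rw [← kPi_univ, kPi_eq_kc]
    refine (kc_le_of fun x hx => ?_).trans (kc_le_kPi (P : Subgroup G))
    obtain ⟨m, -, hm⟩ := exists_conj_mem_sylow hP (mem_top x) hx
    exact ⟨m, hm, fun _ _ _ => trivial⟩
  · rw [kPi_eq_kc, kc, ← Set.ncard_univ]
    refine Set.ncard_le_ncard_of_injOn (ConjClasses.map (P : Subgroup G).subtype) ?_ ?_
    · rintro C -
      obtain ⟨x, rfl⟩ := ConjClasses.mk_surjective C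
      exact ⟨x, mem_p_elt (pHall_pgroup hP) x.2, rfl⟩
    · rintro C - D - e
      obtain ⟨x, rfl⟩ := ConjClasses.mk_surjective C
      obtain ⟨y, rfl⟩ := ConjClasses.mk_surjective D
      obtain ⟨g, hg⟩ := isConj_iff.1 (ConjClasses.mk_eq_mk_iff_isConj.1 e)
      obtain ⟨z, hz, hz'⟩ := exists_mem_sylow_conj_eq_of_hasNormalPComplement h P g
      exact ConjClasses.mk_eq_mk_iff_isConj.2 (isConj_iff.2 ⟨⟨z, hz⟩,
        Subtype.ext ((hz' x x.2 (hg ▸ y.2)).trans hg)⟩)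

end Cfsg.Agent.S3895
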