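import Cfsg.Statements.S3897
import Cfsg.Agent.Trans.NormalComplement
import Mathlib.GroupTheory.Transfer

set_option autoImplicit false
open Cfsg

namespace Cfsg.Agent.S3897


open Subgroup

theorem two_mul_card_le {α β : Type*} [Finite α] (f : α → β) (hf : Function.Surjective f)
    (C : Set α) (σ : α → α) (hσ : ∀ x, f (σ x) = f x) (hC : ∀ x, σ x = x → x ∈ C) :
    2 * Nat.card β ≤ Nat.card α + Nat.card C := by
  classical
  obtain ⟨s, hs⟩ := hf.hasRightInverse
  let F : β ⊕ β → α ⊕ C := fun z => match z with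
    | Sum.inl b => Sum.inl (s b)
    | Sum.inr b => if h : s b ∈ C then Sum.inr ⟨s b, h⟩ else Sum.inl (σ (s b))
  let R : α ⊕ C → β := fun z => match z with
    | Sum.inl a => f a
    | Sum.inr c => f c.1
  have hR1 : ∀ b, R (F (Sum.inl b)) = b := fun b => hs b
  have hR2 : ∀ b, R (F (Sum.inr b)) = b := fun b => by
    by_cases h : s b ∈ C
    · simp only [F, R, dif_pos h]; exact hs b
    · simp only [F, R, dif_neg h]; rw [hσ]; exact hs b
  have hne : ∀ b, F (Sum.inl b) ≠ F (Sum.inr b) := fun b => by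
    by_cases h : s b ∈ C
    · simp only [F, dif_pos h]; exact Sum.inl_ne_inr
    · simp only [F, dif_neg h]
      intro h2
      exact h (hC _ (Sum.inl.inj h2).symm)
  have hF : Function.Injective F := by
    rintro (a | a) (b | b) h
    · rw [← hR1 a, h, hR1]
    · have : a = b := by rw [← hR1 a, h, hR2]
      subst this; exact absurd h (hne a)
    · have : a = b := by rw [← hR2 a, h, hR1]
      subst this; exact absurd h.symm (hne a)
    · rw [← hR2 a, h, hR2]
  haveI : Finite β := Finite.of_surjective f hf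
  have := Nat.card_le_card_of_injective F hF
  rw [Nat.card_sum, Nat.card_sum] at this
  omega

variable {G : Type*} [Group G] [Finite G] {p : ℕ} [Fact p.Prime]

/-- the class map from a Sylow subgroup onto the classes of `p`-elements -/
def cl (P : Sylow p G) (x : (P : Subgroup G)) :
    {c : ConjClasses G // ∀ x ∈ c.carrier, ∃ k : ℕ, orderOf x = p ^ k} :=
  ⟨ConjClasses.mk (x : G), by
    intro y hy
    rw [ConjClasses.mem_carrier_iff_mk_eq, ConjClasses.mk_eq_mk_iff_isConj] at hy
    obtain ⟨k, hk⟩ := (IsPGroup.iff_orderOf.mp P.isPGroup') x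
    refine ⟨k, ?_⟩
    obtain ⟨c, hc⟩ := isConj_iff.mp hy.symm
    rw [← hc, ← MulAut.conj_apply, MulEquiv.orderOf_eq, Subgroup.orderOf_coe, hk]⟩

theorem cl_surjective (P : Sylow p G) : Function.Surjective (cl P) := by
  rintro ⟨c, hc⟩
  obtain ⟨y, rfl⟩ := ConjClasses.mk_surjective c
  obtain ⟨k, hk⟩ := hc y ConjClasses.mem_carrier_mk
  have hz : IsPGroup p (zpowers y) := IsPGroup.of_card (by rw [Nat.card_zpowers, hk])
  obtain ⟨Q, hQ⟩ := hz.exists_le_sylow
  obtain ⟨g, hg⟩ := MulAction.exists_smul_eq G Q P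
  have h1 : g * y * g⁻¹ ∈ (P : Subgroup G) := by
    rw [← hg]
    exact Subgroup.smul_mem_pointwise_smul y (MulAut.conj g) _ (hQ (mem_zpowers y))
  refine ⟨⟨_, h1⟩, Subtype.ext ?_⟩
  exact ConjClasses.mk_eq_mk_iff_isConj.mpr (isConj_iff.mpr ⟨g, rfl⟩).symm

theorem card_cl_le (P : Sylow p G) :
    Nat.card {c : ConjClasses G // ∀ x ∈ c.carrier, ∃ k : ℕ, orderOf x = p ^ k} ≤
      Nat.card (P : Subgroup G) := Nat.card_le_card_of_surjective _ (cl_surjective P)

theorem normalizer_le (P : Sylow p G) (h : (p + 1) * Nat.card ↥(P : Subgroup G) <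
    2 * p * Nat.card {c : ConjClasses G // ∀ x ∈ c.carrier, ∃ k : ℕ, orderOf x = p ^ k}) :
    normalizer ((P : Subgroup G) : Set G) ≤ centralizer ((P : Subgroup G) : Set G) := by
  intro g hg
  by_contra hgc
  have hp : p.Prime := Fact.out
  obtain ⟨C, hC⟩ : ∃ C, C = (centralizer ({g} : Set G)).subgroupOf (P : Subgroup G) := ⟨_, rfl⟩
  have hCne : C ≠ ⊤ := by
    intro h
    apply hgc
    intro x hx
    have : (⟨x, hx⟩ : (P : Subgroup G)) ∈ C := h ▸ mem_top _
    rw [hC, mem_subgroupOf, mem_centralizer_singleton_iff] at this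
    exact this
  obtain ⟨k, hk⟩ := P.isPGroup'.index C
  have hk0 : k ≠ 0 := by
    rintro rfl
    exact hCne (index_eq_one.mp hk)
  have hidx : p ≤ C.index := by
    rw [hk]; exact Nat.le_self_pow hk0 p
  have h1 := two_mul_card_le (cl P) (cl_surjective P) (C : Set (P : Subgroup G))
    (fun x => ⟨g * x * g⁻¹, (mem_normalizer_iff.mp hg x).mp x.2⟩)
    (fun x => Subtype.ext
      (ConjClasses.mk_eq_mk_iff_isConj.mpr (isConj_iff.mpr ⟨g, rfl⟩).symm))
    (fun x hx => by
      have h2 : g * x * g⁻¹ = x := congrArg Subtype.val hx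
      rw [hC, SetLike.mem_coe, mem_subgroupOf, mem_centralizer_singleton_iff]
      rw [mul_inv_eq_iff_eq_mul] at h2
      exact h2.symm)
  have h2 := C.card_mul_index
  have h3 : Nat.card (C : Set (P : Subgroup G)) = Nat.card C := rfl
  rw [h3] at h1
  have h4 : Nat.card C * p ≤ Nat.card (P : Subgroup G) := h2 ▸ Nat.mul_le_mul_left _ hidx
  nlinarith


/-- Let p be an odd prime and G a finite group with Sylow p-subgroup P, and write k_p(G) for the number of conjugacy classes of G consisting of p-elements (elements of p-power order, the identity included). Then k_p(G) > (p + 1)|P|/(2p) if and only if G has a normal p-complement and P is abelian. -/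
theorem result {G : Type*} [Group G] [Finite G] {p : ℕ} [Fact p.Prime] (hp : p ≠ 2) (P : Sylow p G) :
    (p + 1) * Nat.card ↥(P : Subgroup G) < 2 * p * Nat.card {c : ConjClasses G // ∀ x ∈ c.carrier, ∃ k : ℕ, orderOf x = p ^ k} ↔
      Cfsg.HasNormalPComplement p G ∧ IsMulCommutative ↥(P : Subgroup G) := by
  have hp' : p.Prime := Fact.out
  constructor
  · intro h
    have h1 := normalizer_le P h
    refine ⟨⟨P, _, inferInstance, MonoidHom.ker_transferSylow_isComplement' P h1⟩, ?_⟩
    exact ⟨⟨fun a b => Subtype.ext (h1 (le_normalizer b.2) a a.2)⟩⟩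
  · rintro ⟨h1, h2⟩
    obtain ⟨N, hN, hc⟩ := (Cfsg.Lib.Trans.hasNormalPComplement_iff_exists P).mp h1
    have hinj : Function.Injective (cl P) := by
      intro x y hxy
      have h3 : ConjClasses.mk (x : G) = ConjClasses.mk (y : G) := congrArg Subtype.val hxy
      obtain ⟨g, hg⟩ := isConj_iff.mp (ConjClasses.mk_eq_mk_iff_isConj.mp h3)
      obtain ⟨⟨n, s⟩, hns⟩ := hc.2 g
      have hns' : (n : G) * s = g := hns
      have h4 : (s : G) * x * (s : G)⁻¹ = x := by
        have := congrArg Subtype.val (h2.is_comm.comm s x)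
        simp only [Subgroup.coe_mul] at this
        rw [this]; group
      have h5 : (y : G) * (x : G)⁻¹ ∈ N := by
        have : (y : G) * (x : G)⁻¹ = n * ((x : G) * (n : G)⁻¹ * (x : G)⁻¹) := by
          rw [← hg, ← hns']
          calc (n : G) * s * x * ((n : G) * s)⁻¹ * (x : G)⁻¹
              = n * ((s : G) * x * (s : G)⁻¹) * (n : G)⁻¹ * (x : G)⁻¹ := by group
            _ = _ := by rw [h4]; group
        rw [this]
        exact N.mul_mem n.2 (hN.conj_mem _ (N.inv_mem n.2) _)
      have h6 : (y : G) * (x : G)⁻¹ ∈ (P : Subgroup G) :=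
        Subgroup.mul_mem _ y.2 (Subgroup.inv_mem _ x.2)
      have h7 := (Subgroup.disjoint_def.mp hc.disjoint) h5 h6
      exact Subtype.ext (mul_inv_eq_one.mp h7).symm
    rw [← Nat.card_eq_of_bijective _ ⟨hinj, cl_surjective P⟩]
    have h0 : 0 < Nat.card (P : Subgroup G) := Nat.card_pos
    have := hp'.one_lt
    exact Nat.mul_lt_mul_of_pos_right (by omega) h0

end Cfsg.Agent.S3897
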