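import Cfsg.Statements.S3898
import Cfsg.Agent.S3895

set_option autoImplicit false
open Cfsg

namespace Cfsg.Agent.S3898

open Cfsg.Lib.FT Cfsg.Lib.Solv.Many Cfsg.Lib.Solv.ClassNum Cfsg.Lib.Trans Subgroup

/-- Let π be a finite set of primes containing 2 and G a finite group. Write k_π(G) for the number of conjugacy classes of G consisting of π-elements (elements all of whose order's prime divisors lie in π) and |G|_π for the π-part of the order of G. If k_π(G) > |G|_π/2, then G has a normal π-complement (a normal subgroup of order prime to π whose index is a π-number) and an abelian Hall subgroup for the set of odd primes in π. -/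
theorem result {G : Type*} [Group G] [Finite G] (π : Finset ℕ) (hπ : ∀ r ∈ π, r.Prime) (h2 : 2 ∈ π)
    (hk : π.prod (fun r => r ^ (Nat.card G).factorization r) < 2 * Nat.card {c : ConjClasses G // ∀ x ∈ c.carrier, ∀ r : ℕ, r.Prime → r ∣ orderOf x → r ∈ π}) :
    (∃ N : Subgroup G, N.Normal ∧ (∀ r : ℕ, r.Prime → r ∣ Nat.card ↥N → r ∉ π) ∧ ∀ r : ℕ, r.Prime → r ∣ N.index → r ∈ π) ∧ ∃ H : Subgroup G, Cfsg.IsPiHall ((↑π : Set ℕ) \ {2}) H ∧ IsMulCommutative ↥H := by
  have hpart : partn π (Nat.card G) = π.prod (fun r => r ^ (Nat.card G).factorization r) := by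
    refine Finset.prod_subset (fun r hr => ?_) fun r hr h => ?_
    · simp only [Finset.mem_filter] at hr
      exact hr.2
    rw [Nat.factorization_eq_zero_of_not_dvd fun hd => h (by
      simp [hd, hr, hπ r hr, Nat.card_pos.ne']), pow_zero]
  rw [← hpart, ← kPi_eq_of_iff (π := π) fun x => ⟨fun h => h x ConjClasses.mem_carrier_mk,
    fun h y hy => by
      rwa [orderOf_eq_of_isConj (ConjClasses.mk_eq_mk_iff_isConj.1
        (ConjClasses.mem_carrier_iff_mk_eq.1 hy))]⟩] at hk
  obtain ⟨τ, hτ⟩ : ∃ τ, τ = (π : Set ℕ) \ {2} := ⟨_, rfl⟩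
  rw [← hτ]
  have hsub : τ ⊆ π := hτ ▸ Set.sdiff_subset
  have h2τ : 2 ∉ τ := by simp [hτ]
  have h3 : ∀ s ∈ τ, 3 ≤ s := fun s hs => by
    have := (hπ s (hsub hs)).two_le
    have : s ≠ 2 := fun e => h2τ (e ▸ hs)
    omega
  have hins : (π : Set ℕ) = insert 2 τ := by simp [hτ, h2]
  have hm : ∀ (σ : Set ℕ) (x : G), kPi σ (𝐂₁ x) ≤ partn σ (Nat.card G) := fun σ x =>
    (kPi_le_partn _).trans (Nat.le_of_dvd (part_gt0 _ _)
      (partn_dvd _ Nat.card_pos.ne' (card_subgroup_dvd_card _)))
  obtain ⟨H, hH, hn, -⟩ := exists_hall π le_rfl (fun q hq => (hπ q hq).two_le) hk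
  have hH' := pHall_top.2 hH
  rw [hins, partn_insert h2τ] at hk
  have hk2 : partn {2} (Nat.card G) < 2 * kPi {2} G := by
    have := kPi_le_mul_of_forall (G := G) (insert 2 τ) {2} τ (fun q hq h => hq.resolve_left h) _
      fun x _ => hm τ x
    refine Nat.lt_of_mul_lt_mul_right (a := partn τ (Nat.card G)) ?_
    nlinarith
  have hkτ : partn τ (Nat.card G) < 2 * kPi τ G := by
    have := kPi_le_mul_of_forall (G := G) (insert 2 τ) τ {2} (fun q hq h => hq.resolve_right h) _
      fun x _ => hm {2} x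
    refine Nat.lt_of_mul_lt_mul_left (a := partn {2} (Nat.card G)) ?_
    nlinarith
  have hL := subHall_Hall hH' hsub (nilpotent_pcore_Hall τ hn)
  have hD := nilpotent_pcoreC τ hn
  have hLn : Group.IsNilpotent (piCoreOf τ H) := nilpotentS (pcore_sub τ H) hn
  have hcomp : IsPiSubgroup {2} (piCoreOf τᶜ H) := fun s hs hd =>
    (hins ▸ hH.1 s hs (hd.trans (cardSg (pcore_sub _ H)))).resolve_right (pcore_pgroup _ H s hs hd)
  generalize piCoreOf τ H = L at *
  have hkL : Nat.card L < 2 * kc {x | x ∈ L ∧ PiElt Set.univ x} := by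
    rw [card_Hall hL, card_top]
    refine hkτ.trans_le (Nat.mul_le_mul_left _ ?_)
    rw [kPi_eq_kc]
    refine kc_le_of fun x hx => ?_
    obtain ⟨m, -, hm⟩ := exists_conj_mem hL hLn (mem_top x) hx
    exact ⟨m, hm, fun _ _ _ => trivial⟩
  have hab : IsMulCommutative L := by
    have h1 := card_conjClasses_bound (G := L) fun s hs hd => h3 s (hL.2.1 s hs hd)
    have h4 := (commutator L).card_mul_index
    have h5 := kPi_univ L ▸ kc_le_kPi (π := Set.univ) L
    by_contra h
    obtain ⟨s, hs, hd⟩ := Nat.exists_prime_and_dvd (n := Nat.card (commutator L)) fun e =>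
      h ((commutator_eq_bot_iff _).1 (card_eq_one.1 e))
    have h6 := Nat.mul_le_mul_right (commutator L).index
      ((h3 s (hL.2.1 s hs (hd.trans (card_subgroup_dvd_card _)))).trans
        (Nat.le_of_dvd Nat.card_pos hd))
    omega
  have hHC : H ≤ 𝐂 L := hD.sup ▸ sup_le (abelian_iff.1 hab) hD.cent
  have hNC : 𝐍 L ≤ 𝐂 L := fun g hg => by
    rw [← consttC π g]
    refine mul_mem ?_ ?_
    · have := (cent_normal L).subgroupOf
      obtain ⟨m, hm⟩ := exists_pow_eq_self_of_coprime (Lib.Solv.IsPiNum.coprime (p_elt_constt π g)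
        ((pHall_index (pHall_subl (hHC.trans (cent_sub L)) le_top hH')).of_dvd
          (relIndex_dvd_of_le_left _ hHC))).symm
      exact hm ▸ pow_mem (pow_index_mem ((𝐂 L).subgroupOf (𝐍 L)) ⟨_, groupX_constt π hg⟩ :) m
    by_contra hc
    have h5 : ∀ s : ℕ, s.Prime → s ≠ 2 → s ≠ 3 → 5 ≤ s := fun s hs _ _ => by
      have := hs.two_le
      have : s ≠ 4 := by rintro rfl; exact absurd hs (by decide)
      omega
    have h6 := fun r => kc_subgroup_le (groupX_constt (π : Set ℕ)ᶜ hg) (r := r)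
    have h7 := fun r hr => mul_card_inf_le (le_relIndex (r := r)
      (fun e => hc (le_cent1_iff.1 e)) hr)
    have h8 : ∀ s : ℕ, s.Prime → s ∣ orderOf (constt (π : Set ℕ)ᶜ g) → s ∉ π := p_elt_constt _ _
    have h9 := kc_le_of (X := {x | x ∈ L ∧ PiElt Set.univ x}) (Y := L) fun x hx =>
      ⟨1, by simpa using hx.1⟩
    by_cases h : 3 ∈ π
    · have := h6 5 fun s hs hd => h5 s hs (fun e => h8 s hs hd (e ▸ h2)) fun e => h8 s hs hd (e ▸ h)
      have := h7 3 fun s hs hd => h3 s (hL.2.1 s hs hd)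
      omega
    · have := h6 3 fun s hs hd => by
        have := hs.two_le
        have : s ≠ 2 := fun e => h8 s hs hd (e ▸ h2)
        omega
      have := h7 5 fun s hs hd => h5 s hs (fun e => h2τ (e ▸ hL.2.1 s hs hd))
        fun e => h (hsub (e ▸ hL.2.1 s hs hd))
      omega
  obtain ⟨K, hKn, hK⟩ := exists_normal_compl hL hNC
  obtain ⟨P⟩ : Nonempty (Sylow 2 G) := inferInstance
  obtain ⟨N, hN, hN1, hN2⟩ := hasNormalPComplement_iff_exists_normal.1 (S3895.two_nilpotent P (by
    rwa [Sylow.card_eq_multiplicity, ← p_part Nat.prime_two Nat.card_pos.ne']))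
  refine ⟨⟨K ⊓ N, inferInstance, fun r hr hd h => ?_, fun r hr hd => ?_⟩, L, pHall_top.1 hL, hab⟩
  · rcases hins ▸ Finset.mem_coe.2 h with rfl | h
    · exact Nat.prime_two.coprime_iff_not_dvd.1 hN1.symm (hd.trans (cardSg inf_le_right))
    · exact hK.2.1 r hr (hd.trans (cardSg inf_le_left)) h
  · rw [← relIndex_mul_index inf_le_left, inf_relIndex_left] at hd
    rcases (hr.dvd_mul).1 hd with hd | hd
    · obtain ⟨j, hj⟩ := IsPGroup.iff_card.1 hN2
      have := hd.trans (relIndex_dvd_index_of_normal N K)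
      rw [index_eq_card, hj] at this
      rwa [(Nat.prime_dvd_prime_iff_eq hr Nat.prime_two).1 (hr.dvd_of_dvd_pow this)]
    · exact hsub (not_not.1 (pHall_index hK r hr (by rwa [relIndex_top_right])))

end Cfsg.Agent.S3898
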