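import Cfsg.Statements.S3899
import Cfsg.Agent.S3897
import Cfsg.Agent.Block.PPart
import Mathlib.GroupTheory.SchurZassenhaus

set_option autoImplicit false
open Cfsg

namespace Cfsg.Agent.S3899


open Subgroup

universe u

/-- number of classes of `π`-elements -/
noncomputable def kk (G : Type*) [Group G] (π : Finset ℕ) : ℕ :=
  Nat.card {c : ConjClasses G // ∀ x ∈ c.carrier, ∀ r : ℕ, r.Prime → r ∣ orderOf x → r ∈ π}

/-- number of classes of `p`-elements -/
noncomputable def kp (G : Type*) [Group G] (p : ℕ) : ℕ :=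
  Nat.card {c : ConjClasses G // ∀ x ∈ c.carrier, ∃ k : ℕ, orderOf x = p ^ k}

theorem orderOf_of_isConj {G : Type*} [Group G] {x y : G} (h : IsConj x y) :
    orderOf x = orderOf y := by
  obtain ⟨c, rfl⟩ := isConj_iff.mp h
  rw [← MulAut.conj_apply, MulEquiv.orderOf_eq]

theorem forall_carrier {G : Type*} [Group G] (x : G) (Q : ℕ → Prop) :
    (∀ y ∈ (ConjClasses.mk x).carrier, Q (orderOf y)) ↔ Q (orderOf x) := by
  refine ⟨fun h => h x ConjClasses.mem_carrier_mk, fun h y hy => ?_⟩
  rw [ConjClasses.mem_carrier_iff_mk_eq, ConjClasses.mk_eq_mk_iff_isConj] at hy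
  rw [orderOf_of_isConj hy]; exact h

theorem kk_step {G : Type u} [Group G] [Finite G] {r : ℕ} (hr : r.Prime) (π : Finset ℕ) (B : ℕ)
    (hB : ∀ H : Subgroup G, kk H (π.erase r) ≤ B) : kk G π ≤ kp G r * B := by
  classical
  have hrep : ∀ {K : Type u} [Group K] (c : ConjClasses K), ∃ x, ConjClasses.mk x = c :=
    fun c => ConjClasses.mk_surjective c
  choose rep hrep using @hrep
  let A := {c : ConjClasses G // ∀ x ∈ c.carrier, ∃ k : ℕ, orderOf x = r ^ k}
  let D : A → Type u := fun a => {c : ConjClasses (centralizer ({rep a.1} : Set G)) //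
    ∀ x ∈ c.carrier, ∀ s : ℕ, s.Prime → s ∣ orderOf x → s ∈ π.erase r}
  let F : (Σ a, D a) → ConjClasses G := fun z =>
    ConjClasses.mk (rep z.1.1 * ((rep z.2.1 : centralizer ({rep z.1.1} : Set G)) : G))
  have hsub : {c : ConjClasses G | ∀ x ∈ c.carrier, ∀ s : ℕ, s.Prime → s ∣ orderOf x → s ∈ π} ⊆
      Set.range F := by
    intro c hc
    obtain ⟨g, rfl⟩ := ConjClasses.mk_surjective c
    have hg := hc g ConjClasses.mem_carrier_mk
    obtain ⟨x, hx⟩ := Cfsg.Lib.Block.exists_isPPart hr g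
    obtain ⟨m, hm⟩ := Cfsg.Lib.Block.IsPPart_exists_pow hr hx
    obtain ⟨y, hxy, hcm, hxo, hyo⟩ := hx
    have hyg : orderOf y ∣ orderOf g := by
      apply orderOf_dvd_of_mem_zpowers
      have : y = (g ^ m)⁻¹ * g := by rw [hm, ← hxy]; group
      rw [this]
      exact mul_mem (inv_mem (pow_mem (mem_zpowers g) m)) (mem_zpowers g)
    let a : A := ⟨ConjClasses.mk x, (forall_carrier x (fun n => ∃ k, n = r ^ k)).mpr hxo⟩
    have h1 : IsConj x (rep a.1) := ConjClasses.mk_eq_mk_iff_isConj.mp (hrep a.1).symm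
    obtain ⟨t, ht⟩ := isConj_iff.mp h1
    have hz : t * y * t⁻¹ ∈ centralizer ({rep a.1} : Set G) := by
      rw [mem_centralizer_singleton_iff, ← ht]
      calc t * y * t⁻¹ * (t * x * t⁻¹) = t * (y * x) * t⁻¹ := by group
        _ = t * (x * y) * t⁻¹ := by rw [hcm.eq]
        _ = _ := by group
    let d : D a := ⟨ConjClasses.mk ⟨_, hz⟩, (forall_carrier _
      (fun n => ∀ s : ℕ, s.Prime → s ∣ n → s ∈ π.erase r)).mpr (by
        intro s hs hd
        rw [← Subgroup.orderOf_coe] at hd
        have h2 : orderOf (t * y * t⁻¹) = orderOf y :=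
          (orderOf_of_isConj (isConj_iff.mpr ⟨t, rfl⟩)).symm
        rw [h2] at hd
        exact Finset.mem_erase.mpr ⟨fun h => hyo (h ▸ hd), hg s hs (hd.trans hyg)⟩)⟩
    refine ⟨⟨a, d⟩, ?_⟩
    have h3 := ConjClasses.mk_eq_mk_iff_isConj.mp (hrep d.1).symm
    obtain ⟨w, hw⟩ := isConj_iff.mp h3
    have hw' : (w : G) * (t * y * t⁻¹) * (w : G)⁻¹ =
        ((rep d.1 : centralizer ({rep a.1} : Set G)) : G) := congrArg Subtype.val hw
    have hw2 : (w : G) * rep a.1 = rep a.1 * w := mem_centralizer_singleton_iff.mp w.2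
    refine ConjClasses.mk_eq_mk_iff_isConj.mpr (IsConj.symm (isConj_iff.mpr ⟨w * t, ?_⟩))
    show (w : G) * t * g * ((w : G) * t)⁻¹ =
      rep a.1 * ((rep d.1 : centralizer ({rep a.1} : Set G)) : G)
    rw [← hw', ← hxy]
    calc (w : G) * t * (x * y) * ((w : G) * t)⁻¹
        = (w * (t * x * t⁻¹)) * (t * y * t⁻¹) * (w : G)⁻¹ := by group
      _ = _ := by rw [ht, hw2]; group
  haveI : Fintype A := Fintype.ofFinite A
  calc kk G π ≤ Nat.card (Set.range F) := Nat.card_mono (Set.toFinite _) hsub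
    _ ≤ Nat.card (Σ a, D a) := Finite.card_range_le F
    _ = ∑ a, Nat.card (D a) := Nat.card_sigma
    _ ≤ ∑ _a : A, B := Finset.sum_le_sum fun a _ => hB _
    _ = kp G r * B := by
      rw [Finset.sum_const, smul_eq_mul, Finset.card_univ, ← Nat.card_eq_fintype_card]; rfl

theorem kk_le (π : Finset ℕ) : (∀ r ∈ π, r.Prime) → ∀ (G : Type u) [Group G] [Finite G],
    kk G π ≤ π.prod (fun r => r ^ (Nat.card G).factorization r) := by
  classical
  induction π using Finset.induction_on with
  | empty =>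
    intro _ G _ _
    rw [Finset.prod_empty]
    refine Finite.card_le_one_iff_subsingleton.mpr ⟨?_⟩
    have key : ∀ c : ConjClasses G, (∀ x ∈ c.carrier, ∀ r : ℕ, r.Prime → r ∣ orderOf x →
        r ∈ (∅ : Finset ℕ)) → c = ConjClasses.mk 1 := by
      intro c hc
      obtain ⟨g, rfl⟩ := ConjClasses.mk_surjective c
      have hg := hc g ConjClasses.mem_carrier_mk
      have : orderOf g = 1 := by
        by_contra h
        exact absurd (hg _ (Nat.minFac_prime h) (Nat.minFac_dvd _)) (Finset.notMem_empty _)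
      rw [orderOf_eq_one_iff.mp this]
    exact fun a b => Subtype.ext ((key a.1 a.2).trans (key b.1 b.2).symm)
  | insert r ν hrν ih =>
    intro hπ G _ _
    have hr := hπ r (Finset.mem_insert_self _ _)
    have hν : ∀ s ∈ ν, s.Prime := fun s hs => hπ s (Finset.mem_insert_of_mem hs)
    haveI := Fact.mk hr
    obtain ⟨P⟩ : Nonempty (Sylow r G) := inferInstance
    rw [Finset.prod_insert hrν]
    refine (kk_step hr _ (ν.prod (fun r => r ^ (Nat.card G).factorization r)) ?_).trans ?_
    · intro H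
      rw [Finset.erase_insert hrν]
      refine (ih hν H).trans (Finset.prod_le_prod' fun s hs => ?_)
      refine Nat.pow_le_pow_right (hν s hs).pos ?_
      exact (Nat.factorization_le_iff_dvd Nat.card_pos.ne' Nat.card_pos.ne').mpr
        (card_subgroup_dvd_card H) s
    · refine Nat.mul_le_mul_right _ ?_
      rw [← P.card_eq_multiplicity]
      exact Cfsg.Agent.S3897.card_cl_le P

theorem kk_le' {G : Type u} [Group G] [Finite G] (π : Finset ℕ) (hπ : ∀ r ∈ π, r.Prime) {r : ℕ}
    (hr : r ∈ π) :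
    kk G π ≤ kp G r * (π.erase r).prod (fun r => r ^ (Nat.card G).factorization r) := by
  refine kk_step (hπ r hr) _ _ fun H => ?_
  have hν : ∀ s ∈ π.erase r, s.Prime := fun s hs => hπ s (Finset.mem_of_mem_erase hs)
  refine (kk_le _ hν H).trans (Finset.prod_le_prod' fun s hs => ?_)
  refine Nat.pow_le_pow_right (hν s hs).pos ?_
  exact (Nat.factorization_le_iff_dvd Nat.card_pos.ne' Nat.card_pos.ne').mpr
    (card_subgroup_dvd_card H) s

theorem exists_inf {G : Type*} [Group G] [Finite G] (π : Finset ℕ)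
    (h : ∀ r ∈ π, ∃ N : Subgroup G, N.Normal ∧ commutator G ≤ N ∧ ¬ r ∣ Nat.card N ∧
      ∀ s : ℕ, s.Prime → s ∣ N.index → s = r) :
    ∃ N : Subgroup G, N.Normal ∧ commutator G ≤ N ∧ (∀ r ∈ π, ¬ r ∣ Nat.card N) ∧
      (∀ s : ℕ, s.Prime → s ∣ N.index → s ∈ π) := by
  classical
  induction π using Finset.induction_on with
  | empty =>
    refine ⟨⊤, inferInstance, le_top, by simp, ?_⟩
    intro s hs hd
    rw [index_top, Nat.dvd_one] at hd
    exact absurd hd hs.ne_one
  | insert r ν hrν ih =>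
    obtain ⟨N, hN, h1, h2, h3⟩ := ih fun s hs => h s (Finset.mem_insert_of_mem hs)
    obtain ⟨M, hM, g1, g2, g3⟩ := h r (Finset.mem_insert_self _ _)
    refine ⟨N ⊓ M, inferInstance, le_inf h1 g1, ?_, ?_⟩
    · intro s hs hd
      rcases Finset.mem_insert.mp hs with rfl | hs
      · exact g2 (hd.trans (card_dvd_of_le inf_le_right))
      · exact h2 s hs (hd.trans (card_dvd_of_le inf_le_left))
    · intro s hs hd
      rw [← relIndex_mul_index (inf_le_right : N ⊓ M ≤ M), inf_relIndex_right] at hd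
      rcases (Nat.Prime.dvd_mul hs).mp hd with h4 | h4
      · exact Finset.mem_insert_of_mem (h3 s hs (h4.trans (relIndex_dvd_index_of_normal N M)))
      · rw [g3 s hs h4]; exact Finset.mem_insert_self _ _


/-- Let π be a finite non-empty set of odd primes with smallest member p and G a finite group. Write k_π(G) for the number of conjugacy classes of G consisting of π-elements (elements all of whose order's prime divisors lie in π) and |G|_π for the π-part of the order of G. If k_π(G) > (p + 1)|G|_π/(2p), then G has a normal π-complement (a normal subgroup of order prime to π whose index is a π-number) and an abelian Hall π-subgroup. -/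
theorem result {G : Type*} [Group G] [Finite G] (π : Finset ℕ) (hπ : ∀ r ∈ π, r.Prime) (h2 : 2 ∉ π) (p : ℕ) (hp : p ∈ π)
    (hmin : ∀ r ∈ π, p ≤ r) (hk : (p + 1) * π.prod (fun r => r ^ (Nat.card G).factorization r) < 2 * p * Nat.card {c : ConjClasses G // ∀ x ∈ c.carrier, ∀ r : ℕ, r.Prime → r ∣ orderOf x → r ∈ π}) :
    (∃ N : Subgroup G, N.Normal ∧ (∀ r : ℕ, r.Prime → r ∣ Nat.card ↥N → r ∉ π) ∧ ∀ r : ℕ, r.Prime → r ∣ N.index → r ∈ π) ∧ ∃ H : Subgroup G, Cfsg.IsPiHall (↑π : Set ℕ) H ∧ IsMulCommutative ↥H := by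
  classical
  have key : ∀ r ∈ π, ∃ N : Subgroup G, N.Normal ∧ commutator G ≤ N ∧ ¬ r ∣ Nat.card N ∧
      ∀ s : ℕ, s.Prime → s ∣ N.index → s = r := by
    intro r hr
    have hrp := hπ r hr
    haveI := Fact.mk hrp
    obtain ⟨P⟩ : Nonempty (Sylow r G) := inferInstance
    have h1 := kk_le' (G := G) π hπ hr
    have h2 : (p + 1) * π.prod (fun r => r ^ (Nat.card G).factorization r) < 2 * p * kk G π := hk
    rw [← Finset.mul_prod_erase π _ hr, ← P.card_eq_multiplicity] at h2
    obtain ⟨B, hB⟩ : ∃ B, B = (π.erase r).prod (fun r => r ^ (Nat.card G).factorization r) :=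
      ⟨_, rfl⟩
    rw [← hB] at h1 h2
    have h3 : (p + 1) * Nat.card (P : Subgroup G) < 2 * p * kp G r := by
      have : (p + 1) * Nat.card (P : Subgroup G) * B < 2 * p * kp G r * B := by
        calc _ = (p + 1) * (Nat.card (P : Subgroup G) * B) := by ring
          _ < 2 * p * kk G π := h2
          _ ≤ 2 * p * (kp G r * B) := Nat.mul_le_mul_left _ h1
          _ = _ := by ring
      exact Nat.lt_of_mul_lt_mul_right this
    have h4 : (r + 1) * Nat.card (P : Subgroup G) < 2 * r * kp G r := by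
      have hpr := hmin r hr
      have : p * ((r + 1) * Nat.card (P : Subgroup G)) < p * (2 * r * kp G r) := by
        calc _ = (p * (r + 1)) * Nat.card (P : Subgroup G) := by ring
          _ ≤ (r * (p + 1)) * Nat.card (P : Subgroup G) := Nat.mul_le_mul_right _ (by nlinarith)
          _ = r * ((p + 1) * Nat.card (P : Subgroup G)) := by ring
          _ < r * (2 * p * kp G r) := Nat.mul_lt_mul_of_pos_left h3 hrp.pos
          _ = _ := by ring
      exact Nat.lt_of_mul_lt_mul_left this
    have h5 := Cfsg.Agent.S3897.normalizer_le P h4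
    refine ⟨(MonoidHom.transferSylow P h5).ker, inferInstance, ?_,
      MonoidHom.not_dvd_card_ker_transferSylow P h5, ?_⟩
    · rw [commutator_def, commutator_le]
      intro a _ b _
      rw [MonoidHom.mem_ker, map_commutatorElement, commutatorElement_eq_one_iff_mul_comm]
      exact Subtype.ext (h5 (le_normalizer (SetLike.coe_mem _)) _ (SetLike.coe_mem _))
    · intro s hs hd
      rw [(MonoidHom.ker_transferSylow_isComplement' P h5).symm.index_eq_card,
        P.card_eq_multiplicity] at hd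
      exact (Nat.prime_dvd_prime_iff_eq hs hrp).mp (hs.dvd_of_dvd_pow hd)
  obtain ⟨N, hN, h1, h2, h3⟩ := exists_inf π key
  have hco : (Nat.card N).Coprime N.index := by
    rw [Nat.coprime_iff_gcd_eq_one]
    by_contra hne
    obtain ⟨s, hs, hd⟩ := Nat.exists_prime_and_dvd hne
    exact h2 s (h3 s hs (hd.trans (Nat.gcd_dvd_right _ _))) (hd.trans (Nat.gcd_dvd_left _ _))
  refine ⟨⟨N, hN, fun r _ hd hr => h2 r hr hd, h3⟩, ?_⟩
  obtain ⟨H, hH⟩ := Subgroup.exists_right_complement'_of_coprime hco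
  refine ⟨H, ⟨?_, ?_⟩, ⟨⟨fun a b => Subtype.ext ?_⟩⟩⟩
  · intro s hs hd
    rw [← hH.symm.index_eq_card] at hd
    exact h3 s hs hd
  · intro s hs hm hd
    rw [hH.index_eq_card] at hd
    exact h2 s hm hd
  · have h4 : (a : G) * b * (a : G)⁻¹ * (b : G)⁻¹ ∈ N :=
      h1 (commutator_mem_commutator (mem_top _) (mem_top _))
    have h5 : (a : G) * b * (a : G)⁻¹ * (b : G)⁻¹ ∈ H :=
      mul_mem (mul_mem (mul_mem a.2 b.2) (inv_mem a.2)) (inv_mem b.2)
    have h6 := (Subgroup.disjoint_def.mp hH.disjoint) h4 h5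
    show (a : G) * b = b * a
    rw [mul_inv_eq_one, mul_inv_eq_iff_eq_mul] at h6
    exact h6

end Cfsg.Agent.S3899
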