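import Cfsg.Statements.S3900
import Cfsg.Agent.BW.Crit
import Cfsg.Agent.Solv.Nilpotent

set_option autoImplicit false
open Cfsg

namespace Cfsg.Agent.S3900

/-- A criterion of Baumslag–Wiegold type for a term of the lower central series. Let G be a finite group and k ≥ 0; call an element a left-normed commutator value of length k + 1 when it has the form [[…[x₀, x₁], …], x_k] with k + 1 entries (for k = 0, any element), where [a, b] = aba⁻¹b⁻¹. Then the (k+1)-st term γ_{k+1}(G) of the lower central series (γ₁(G) = G) is nilpotent if and only if for every two such values x, y of coprime orders, either every prime dividing o(x)·o(y) divides o(xy), or o(x)·o(y) ≤ o(xy). -/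
theorem result {G : Type*} [Group G] [Finite G] (k : ℕ) :
    Group.IsNilpotent ↥((⊤ : Subgroup G).lowerCentralSeries k) ↔
      ∀ x y : G, (∃ f : Fin (k + 1) → G, x = ((List.ofFn f).tail).foldl (fun a b => a * b * a⁻¹ * b⁻¹) (f 0)) → (∃ f : Fin (k + 1) → G, y = ((List.ofFn f).tail).foldl (fun a b => a * b * a⁻¹ * b⁻¹) (f 0)) → (orderOf x).Coprime (orderOf y) →
        (∀ r : ℕ, r.Prime → r ∣ orderOf x * orderOf y → r ∣ orderOf (x * y)) ∨ orderOf x * orderOf y ≤ orderOf (x * y) := by
  refine ⟨fun h x y ⟨f, hf⟩ ⟨g, hg⟩ c => Or.inr ?_, fun h => Lib.BW.KL.nilpotent (k := k)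
    (fun x y hx c => ?_) _ le_rfl⟩
  · have m : ∀ f : Fin (k + 1) → G, ((List.ofFn f).tail).foldl (fun a b => a * b * a⁻¹ * b⁻¹) (f 0) ∈
        (⊤ : Subgroup G).lowerCentralSeries k := fun f => by
      simpa using Lib.BW.foldl_mem (List.ofFn f).tail (j := 0) (Subgroup.mem_top (f 0))
    exact ((Lib.Solv.commute_of_mem_of_coprime_of_isNilpotent h (hf ▸ m f) (hg ▸ m g)
      c).orderOf_mul_eq_mul_orderOf_of_coprime c).ge
  · have e : orderOf ((x * y * x⁻¹ * y⁻¹)⁻¹ * x) = orderOf x := by
      rw [show (x * y * x⁻¹ * y⁻¹)⁻¹ * x = MulAut.conj y x by simp [mul_assoc], MulEquiv.orderOf_eq]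
    have := h _ _ (hx.comm y).inv.exists_fn hx.exists_fn (by rw [orderOf_inv]; exact c.symm)
    rw [e, orderOf_inv] at this
    rw [← orderOf_eq_one_iff]
    rcases this with k | k
    · exact Nat.eq_one_iff_not_exists_prime_dvd.2 fun r hr d => hr.one_lt.ne'
        (Nat.eq_one_of_dvd_coprimes c (k r hr (d.mul_right _)) d)
    · have := orderOf_pos x
      have := orderOf_pos (x * y * x⁻¹ * y⁻¹)
      nlinarith

end Cfsg.Agent.S3900
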