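import Cfsg.Statements.S3901
import Cfsg.Agent.Cor.OddSol
import Cfsg.Agent.Char.Burnside
import Cfsg.Agent.Solv.RealLift
import Mathlib.GroupTheory.FixedPointFree

set_option autoImplicit false
open Cfsg

namespace Cfsg.Agent.S3901

open Cfsg.Lib

universe u v

section
variable {G : Type u} [Group G] [Finite G] {H : Type v} [Group H]

theorem inverts {D : Subgroup G} {t : G} (ht : t * t = 1)
    (htD : t ∈ Subgroup.normalizer (D : Set G)) (hfix : ∀ x ∈ D, t * x = x * t → x = 1) {x : G}
    (hx : x ∈ D) : t * x * t⁻¹ = x⁻¹ := by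
  let φ : MulAut D := D.normalizerMonoidHom ⟨t, htD⟩
  have hφ : ∀ y : D, ((φ y : D) : G) = t * y * t⁻¹ := fun y => rfl
  have hfpf : MonoidHom.FixedPointFree φ := by
    intro y hy
    have := congrArg Subtype.val hy
    rw [hφ, mul_inv_eq_iff_eq_mul] at this
    exact Subtype.ext (hfix y y.2 this)
  have hinv : Function.Involutive φ := by
    intro y
    apply Subtype.ext
    rw [hφ, hφ]
    have ht' : t⁻¹ = t := inv_eq_of_mul_eq_one_right ht
    rw [ht']
    calc t * (t * y * t) * t = (t * t) * y * (t * t) := by simp only [mul_assoc]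
      _ = y := by rw [ht, one_mul, mul_one]
  have := congrFun (hfpf.coe_eq_inv_of_involutive hinv) ⟨x, hx⟩
  have h2 := congrArg Subtype.val this
  rw [hφ] at h2
  exact h2

omit [Finite G] in
/-- An element outside the kernel commutes with no element of coprime order. -/
theorem eq_one_of_comm (f : G →* H) (h : ∀ x : G, f x ≠ 1 → IsPrimePow (orderOf x)) {x c : G}
    (hx : f x ≠ 1) (hc : x * c = c * x) (hcop : (orderOf x).Coprime (orderOf c)) : c = 1 := by
  have hxc : f (x * c) ≠ 1 := by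
    intro h1
    apply hx
    rw [map_mul, mul_eq_one_iff_eq_inv] at h1
    have h2 : orderOf (f x) ∣ orderOf c := by
      rw [h1, orderOf_inv]; exact orderOf_map_dvd f c
    exact orderOf_eq_one_iff.1 (Nat.eq_one_of_dvd_coprimes hcop (orderOf_map_dvd f x) h2)
  have h3 := h _ hxc
  rw [Commute.orderOf_mul_eq_mul_orderOf_of_coprime hc hcop] at h3
  have hx1 : orderOf x ≠ 1 := by
    intro h1
    apply hx
    rw [orderOf_eq_one_iff.1 h1, map_one]
  by_contra hc1
  have hc2 : orderOf c ≠ 1 := fun h1 => hc1 (orderOf_eq_one_iff.1 h1)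
  obtain ⟨p, hp, hpx⟩ := Nat.exists_prime_and_dvd hx1
  obtain ⟨q, hq, hqc⟩ := Nat.exists_prime_and_dvd hc2
  obtain ⟨r, -, hr⟩ := isPrimePow_iff_unique_prime_dvd.1 h3
  have e1 := hr p ⟨hp, hpx.mul_right _⟩
  have e2 := hr q ⟨hq, hqc.mul_left _⟩
  have : p ∣ 1 := by
    rw [← hcop]; exact Nat.dvd_gcd hpx (by rw [e1, ← e2]; exact hqc)
  exact hp.one_lt.ne' (Nat.dvd_one.1 this)

theorem key (f : G →* H) (hf : Function.Surjective f)
    (h : ∀ x : G, f x ≠ 1 → IsPrimePow (orderOf x)) {y : H} {r : ℕ} (hr : r.Prime) (hr2 : r ≠ 2)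
    (hy : orderOf y = r) (hreal : IsConj y y⁻¹) {q : ℕ} (hq : q.Prime)
    (hqN : q ∣ Nat.card f.ker) : q = 2 ∨ q = r := by
  by_contra hne
  push Not at hne
  have := Fact.mk hq
  obtain ⟨Q0⟩ : Nonempty (Sylow q f.ker) := inferInstance
  set Q : Subgroup G := (Q0 : Subgroup f.ker).map f.ker.subtype with hQ
  have hQp : IsPGroup q Q := Q0.isPGroup'.map _
  have hQ1 : Q ≠ ⊥ := by
    rw [hQ, Ne, Subgroup.map_eq_bot_iff_of_injective _ f.ker.subtype_injective]
    exact Q0.ne_bot_of_dvd_card hqN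
  set M := Subgroup.normalizer (Q : Set G) with hM
  have hsup : M ⊔ f.ker = ⊤ := Q0.normalizer_sup_eq_top
  have hfM : Function.Surjective (f.comp M.subtype) := by
    intro z
    obtain ⟨g, rfl⟩ := hf z
    have : g ∈ M ⊔ f.ker := hsup ▸ Subgroup.mem_top g
    rw [← SetLike.mem_coe, Subgroup.mul_normal] at this
    obtain ⟨m, hm, n, hn, rfl⟩ := this
    exact ⟨⟨m, hm⟩, by simp [(MonoidHom.mem_ker).1 hn]⟩
  obtain ⟨x0, hx0, ⟨j, hj⟩, hxr⟩ := Solv.Real.exists_real_lift_prime_pow (f.comp M.subtype) hfM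
    (k := 1) hr hr2 (by rw [hy, pow_one]) hreal
  obtain ⟨u0, ⟨k, hk⟩, hu0⟩ := Solv.Real.exists_two_elem_inverts hxr
  obtain ⟨x, hxM⟩ := x0
  obtain ⟨u, huM⟩ := u0
  have hfx : f x = y := hx0
  have hux : u * x * u⁻¹ = x⁻¹ := congrArg Subtype.val hu0
  have hox : orderOf x = r ^ j := by rw [← hj, Subgroup.orderOf_mk]
  have hou : orderOf u = 2 ^ k := by rw [← hk, Subgroup.orderOf_mk]
  have hy2 : y * y ≠ 1 := by
    intro h1
    have : orderOf y ∣ 2 := orderOf_dvd_of_pow_eq_one (by rw [sq, h1])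
    rw [hy] at this
    exact hr2 ((Nat.prime_dvd_prime_iff_eq hr Nat.prime_two).1 this)
  have hy1 : f x ≠ 1 := by
    rw [hfx]; intro h1; exact hy2 (by rw [h1, mul_one])
  have hr2' : r.Coprime 2 := (Nat.coprime_primes hr Nat.prime_two).2 hr2
  have huu : u * u = 1 := by
    refine eq_one_of_comm f h hy1 ?_ ?_
    · have h2 : u * x⁻¹ * u⁻¹ = x := by
        have := congrArg (·⁻¹) hux
        simpa [mul_assoc] using this
      calc x * (u * u) = u * x⁻¹ * u⁻¹ * (u * u) := by rw [h2]
        _ = u * (u * x * u⁻¹) * u := by rw [hux]; group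
        _ = u * u * x := by group
    · rw [hox]
      refine Nat.Coprime.coprime_dvd_right ?_ (Nat.Coprime.pow j k hr2')
      rw [← hou, ← sq]; exact orderOf_pow_dvd 2
  have huinv : u⁻¹ = u := inv_eq_of_mul_eq_one_right huu
  have hfu : f u ≠ 1 := by
    intro h1
    have := congrArg f hux
    rw [map_mul, map_mul, map_inv, map_inv, h1, hfx] at this
    apply hy2
    simp only [one_mul, inv_one, mul_one] at this
    nth_rw 1 [this]; simp
  have hvv : (u * x) * (u * x) = 1 := by
    calc (u * x) * (u * x) = (u * x * u⁻¹) * x := by rw [huinv]; group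
      _ = 1 := by rw [hux]; simp
  have hfv : f (u * x) ≠ 1 := by
    intro h1
    rw [map_mul, mul_eq_one_iff_eq_inv, hfx] at h1
    have := congrArg f huu
    rw [map_mul, h1, map_one, ← mul_inv_rev, inv_eq_one] at this
    exact hy2 this
  have hcopQ : ∀ c ∈ Q, ∀ s n : ℕ, s.Prime → q ≠ s → (s ^ n).Coprime (orderOf c) := by
    intro c hc s n hs hqs
    obtain ⟨i, hi⟩ := IsPGroup.iff_orderOf.1 hQp ⟨c, hc⟩
    rw [Subgroup.orderOf_mk] at hi
    rw [hi]
    exact Nat.Coprime.pow _ _ ((Nat.coprime_primes hs hq).2 hqs.symm)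
  have hinv : ∀ t ∈ M, t * t = 1 → f t ≠ 1 → ∀ c ∈ Q, t * c * t⁻¹ = c⁻¹ := by
    intro t htM htt hft c hc
    refine inverts htt htM (fun d hd hcomm => eq_one_of_comm f h hft hcomm ?_) hc
    refine Nat.Coprime.coprime_dvd_left (k := 2 ^ 1) ?_ (hcopQ d hd 2 1 Nat.prime_two hne.1)
    exact orderOf_dvd_of_pow_eq_one (by rw [pow_one, sq, htt])
  obtain ⟨c, hc, hc1⟩ := (Subgroup.bot_or_exists_ne_one Q).resolve_left hQ1
  apply hc1
  refine eq_one_of_comm f h hy1 ?_ (by rw [hox]; exact hcopQ c hc r j hr hne.2)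
  have e1 := hinv u huM huu hfu c hc
  have e2 := hinv (u * x) (M.mul_mem huM hxM) hvv hfv c hc
  rw [← e1] at e2
  calc x * c = u⁻¹ * (u * x * c * (u * x)⁻¹) * (u * x) := by group
    _ = c * x := by rw [e2]; group
end

theorem main {G : Type u} [Group G] [Finite G] (n : ℕ) : ∀ (H : Type u) [Group H] [Finite H],
    Nat.card H = n → ∀ f : G →* H, Function.Surjective f →
      (∀ x : G, f x ≠ 1 → IsPrimePow (orderOf x)) → ¬ Group.IsSolvable f.ker →
      Group.IsSolvable H := by
  induction n using Nat.strong_induction_on with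
  | _ n ih =>
    intro H _ _ hn f hf h hns
    by_cases hO : pCore 2 H = ⊥
    · by_contra hH
      obtain ⟨t, ht⟩ := exists_prime_orderOf_dvd_card' (G := H) 2 (Cor.even_card_of_not_isSolvable hH)
      have ht1 : t ≠ 1 := by
        intro h1; rw [h1, orderOf_one] at ht; omega
      obtain ⟨y, r, hr, hr2, hy, hty⟩ := Solv.Real.exists_inverted_of_not_mem_pCore
        (t := t) (by rw [← sq, ← ht, pow_orderOf_eq_one]) (by rw [hO]; exact ht1)
      exact hns (Char.isSolvable_of_prime_dvd_card Nat.prime_two hr _ fun q hq hqN =>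
        key f hf h hr hr2 hy (isConj_iff.2 ⟨t, hty⟩) hq hqN)
    · have hc := Subgroup.card_mul_index (pCore 2 H)
      have hk : 1 < Nat.card (pCore 2 H) := (Subgroup.one_lt_card_iff_ne_bot _).2 hO
      have hi : 0 < (pCore 2 H).index := Nat.pos_of_ne_zero Subgroup.index_ne_zero_of_finite
      refine Cor.isSolvable_of_normal_quotient (pCore 2 H)
        (Cor.isSolvable_of_isPGroup (Solv.pCore_isPGroup 2 H))
        (ih (Nat.card (H ⧸ pCore 2 H)) (by rw [← hn, ← hc, ← Subgroup.index_eq_card]; nlinarith)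
          _ rfl ((QuotientGroup.mk' _).comp f) ((QuotientGroup.mk'_surjective _).comp hf)
          (fun x hx => h x fun h1 => hx (by simp [h1])) fun hs => hns ?_)
      have hle : f.ker ≤ ((QuotientGroup.mk' (pCore 2 H)).comp f).ker := fun x hx => by
        rw [MonoidHom.mem_ker] at hx ⊢; simp [hx]
      exact Group.isSolvable_of_isSolvable_injective (f := Subgroup.inclusion hle)
        (Subgroup.inclusion_injective hle)

/-- Let N be a non-trivial normal subgroup of the finite group G such that every element of G outside N has prime power order. If N is not solvable, then G/N is solvable. -/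
theorem result {G : Type*} [Group G] [Finite G] (N : Subgroup G) [N.Normal] (hN : N ≠ ⊥) (hns : ¬ Group.IsSolvable ↥N)
    (h : ∀ x : G, x ∉ N → IsPrimePow (orderOf x)) : Group.IsSolvable (G ⧸ N) := by
  refine main _ (G ⧸ N) rfl (QuotientGroup.mk' N) (QuotientGroup.mk'_surjective N)
    (fun x hx => h x fun hxN => hx ((QuotientGroup.eq_one_iff x).2 hxN)) ?_
  rwa [QuotientGroup.ker_mk']

end Cfsg.Agent.S3901
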