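import Cfsg.Statements.S3903
import Cfsg.Agent.S0556
import Cfsg.Agent.Solv.SylowNumber

set_option autoImplicit false
open Cfsg

namespace Cfsg.Agent.S3903


open Subgroup Cfsg.Lib.Solv
open scoped Pointwise

theorem isPGroup_centralizer {G : Type*} [Group G] [Finite G] (N : Subgroup G) [N.Normal]
    (h : ∀ x : G, x ∉ N → IsPrimePow (orderOf x)) {p : ℕ} (hp : p.Prime)
    (hq : ∀ y : G, y ∉ N → ∃ k, y ^ p ^ k = 1) {x : G} (hx : x ∉ N) :
    IsPGroup p (centralizer ({x} : Set G)) := by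
  rintro ⟨y, hy⟩
  have hc : Commute x y := (mem_centralizer_singleton_iff.mp hy).symm
  by_cases hyN : y ∈ N
  · have h1 : x * y ∉ N := fun h1 => hx ((N.mul_mem_cancel_right hyN).mp h1)
    obtain ⟨a, ha⟩ := hq _ h1
    obtain ⟨b, hb⟩ := hq _ hx
    refine ⟨a + b, Subtype.ext ?_⟩
    show y ^ p ^ (a + b) = 1
    have h2 : (x * y) ^ p ^ (a + b) = 1 := by rw [pow_add, pow_mul, ha, one_pow]
    have h3 : x ^ p ^ (a + b) = 1 := by rw [add_comm, pow_add, pow_mul, hb, one_pow]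
    rwa [hc.mul_pow, h3, one_mul] at h2
  · obtain ⟨k, hk⟩ := hq _ hyN
    exact ⟨k, Subtype.ext hk⟩

theorem same_prime {G : Type*} [Group G] [Finite G] (N : Subgroup G) [N.Normal] {x y : G}
    (hy : y ∉ N) {p q a b : ℕ} (hp : p.Prime) (hq : q.Prime) (hx : x ^ p ^ a = 1)
    (hy' : y ^ q ^ b = 1) (hxy : (x : G ⧸ N) = y ∨ (x : G ⧸ N) * y = 1) : p = q := by
  by_contra hne
  have h1 : (y : G ⧸ N) ^ q ^ b = 1 := by rw [← QuotientGroup.mk_pow, hy']; rfl
  have h2 : (x : G ⧸ N) ^ p ^ a = 1 := by rw [← QuotientGroup.mk_pow, hx]; rfl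
  have h3 : (y : G ⧸ N) ^ p ^ a = 1 := by
    rcases hxy with h | h
    · rw [← h, h2]
    · rw [eq_inv_of_mul_eq_one_right h, inv_pow, h2, inv_one]
  have h4 := Nat.eq_one_of_dvd_coprimes (Nat.coprime_pow_primes a b hp hq hne)
    (orderOf_dvd_of_pow_eq_one h3) (orderOf_dvd_of_pow_eq_one h1)
  exact hy ((QuotientGroup.eq_one_iff y).mp (orderOf_eq_one_iff.mp h4))


/-- Let N be a proper normal subgroup of the finite group G such that every element x of G outside N has prime power order and has centralizer C_G(x) a maximal subgroup of G. Then N is solvable. -/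
theorem result {G : Type*} [Group G] [Finite G] (N : Subgroup G) [N.Normal] (hN : N ≠ ⊤)
    (h : ∀ x : G, x ∉ N → IsPrimePow (orderOf x) ∧ IsCoatom (Subgroup.centralizer ({x} : Set G))) : Group.IsSolvable ↥N := by
  classical
  obtain ⟨x, hx⟩ : ∃ x, x ∉ N := by
    by_contra hc
    push Not at hc
    exact hN (eq_top_iff.mpr fun x _ => hc x)
  have hpp : ∀ y : G, y ∉ N → ∃ q b : ℕ, q.Prime ∧ y ^ q ^ b = 1 := fun y hy => by
    obtain ⟨q, b, hq, -, hb⟩ := (isPrimePow_nat_iff _).mp (h y hy).1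
    exact ⟨q, b, hq, by rw [hb, pow_orderOf_eq_one]⟩
  obtain ⟨p, a, hp, ha⟩ := hpp x hx
  haveI := Fact.mk hp
  obtain ⟨C, hC⟩ : ∃ C, C = centralizer ({x} : Set G) := ⟨_, rfl⟩
  have hCm : IsCoatom C := hC ▸ (h x hx).2
  have hxC : x ∈ C := by rw [hC, mem_centralizer_singleton_iff]
  -- elements of `C` outside `N` are `p`-elements
  have h1 : ∀ y ∈ C, y ∉ N → ∃ k, y ^ p ^ k = 1 := by
    intro y hyC hy
    obtain ⟨q, b, hq, hb⟩ := hpp y hy
    by_cases hpq : p = q
    · exact ⟨b, hpq ▸ hb⟩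
    have hc : Commute x y := (mem_centralizer_singleton_iff.mp (hC ▸ hyC)).symm
    by_cases hxy : x * y ∈ N
    · exact absurd (same_prime N hy hp hq ha hb (Or.inr ((QuotientGroup.eq_one_iff _).mpr hxy))) hpq
    obtain ⟨r, c, hr, hc'⟩ := hpp _ hxy
    exfalso
    by_cases hrp : r = p
    · subst hrp
      have h2 : y ^ r ^ (a + c) = 1 := by
        have h3 : (x * y) ^ r ^ (a + c) = 1 := by rw [add_comm, pow_add, pow_mul, hc', one_pow]
        rwa [hc.mul_pow, pow_add, pow_mul, ha, one_pow, one_mul, ← pow_add] at h3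
      exact hpq (same_prime N hy hp hq h2 hb (Or.inl rfl))
    · have h2 : (x ^ q ^ b) ^ r ^ c = 1 := by
        have h3 : (x * y) ^ (r ^ c * q ^ b) = 1 := by rw [pow_mul, hc', one_pow]
        rwa [hc.mul_pow, mul_comm, pow_mul y, hb, one_pow, mul_one, pow_mul] at h3
      have h3 : orderOf x ∣ q ^ b * r ^ c := orderOf_dvd_of_pow_eq_one (by rw [pow_mul, h2])
      have h4 := Nat.eq_one_of_dvd_coprimes (Nat.Coprime.mul_right
        (Nat.coprime_pow_primes a b hp hq hpq) (Nat.coprime_pow_primes a c hp hr (Ne.symm hrp)))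
        (orderOf_dvd_of_pow_eq_one ha) h3
      exact hx (orderOf_eq_one_iff.mp h4 ▸ N.one_mem)
  have hsup : C ⊔ N = ⊤ ∨ N ≤ C := by
    by_cases h2 : N ≤ C
    · exact Or.inr h2
    · exact Or.inl (hCm.2 _ (left_lt_sup.mpr h2))
  have hCp : IsPGroup p C := by
    rintro ⟨y, hy⟩
    have hc : Commute x y := (mem_centralizer_singleton_iff.mp (hC ▸ hy)).symm
    by_cases hyN : y ∈ N
    · have h2 : x * y ∉ N := fun h1 => hx ((N.mul_mem_cancel_right hyN).mp h1)
      obtain ⟨b, hb⟩ := h1 _ (C.mul_mem hxC hy) h2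
      refine ⟨a + b, Subtype.ext ?_⟩
      show y ^ p ^ (a + b) = 1
      have h2 : (x * y) ^ p ^ (a + b) = 1 := by rw [add_comm, pow_add, pow_mul, hb, one_pow]
      rwa [hc.mul_pow, pow_add, pow_mul, ha, one_pow, one_mul, ← pow_add] at h2
    · obtain ⟨k, hk⟩ := h1 _ hy hyN
      exact ⟨k, Subtype.ext hk⟩
  rcases hsup with hsup | hle
  swap
  · haveI := (hCp.to_le hle).isNilpotent
    exact IsNilpotent.to_isSolvable
  have hq : ∀ y : G, y ∉ N → ∃ k, y ^ p ^ k = 1 := by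
    intro y hy
    obtain ⟨q, b, hq, hb⟩ := hpp y hy
    have h2 : y ∈ ((C ⊔ N : Subgroup G) : Set G) := by rw [hsup]; trivial
    rw [mul_normal] at h2
    obtain ⟨u, hu, n, hn, rfl⟩ := h2
    obtain ⟨k, hk⟩ := hCp ⟨u, hu⟩
    have h3 := same_prime N hy hp hq (congrArg Subtype.val hk : u ^ p ^ k = 1) hb
      (Or.inl (QuotientGroup.mk_mul_of_mem u hn).symm)
    exact ⟨b, h3 ▸ hb⟩
  by_cases hG : IsPGroup p G
  · haveI := (hG.to_subgroup N).isNilpotent
    exact IsNilpotent.to_isSolvable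
  have hsyl : ∀ y : G, y ∉ N → ∃ Q : Sylow p G, (Q : Subgroup G) = centralizer ({y} : Set G) := by
    intro y hy
    obtain ⟨Q, hQ⟩ := (isPGroup_centralizer N (fun x hx => (h x hx).1) hp hq hy).exists_le_sylow
    refine ⟨Q, ?_⟩
    by_contra hne
    have := (h y hy).2.2 _ (lt_of_le_of_ne hQ (Ne.symm hne))
    exact hG (IsPGroup.of_equiv (this ▸ Q.isPGroup') topEquiv)
  obtain ⟨P, hP⟩ := hsyl x hx
  rw [← hC] at hP
  obtain ⟨Zs, hZs⟩ : ∃ Zs : Set G, Zs = {z | z ∈ C ∧ z ∉ N ∧ ∀ u ∈ C, z * u = u * z} := ⟨_, rfl⟩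
  have hsurj : (N : Set G)ᶜ ⊆ Set.range (fun w : (G ⧸ C) × Zs => w.1.out * w.2 * w.1.out⁻¹) := by
    intro y hy
    obtain ⟨Q, hQ⟩ := hsyl y hy
    obtain ⟨g, hg⟩ := MulAction.exists_smul_eq G P Q
    have h2 : ∀ u, u ∈ C ↔ g * u * g⁻¹ ∈ centralizer ({y} : Set G) := by
      intro u
      rw [← hQ, ← hg, ← hP]
      exact (Subgroup.smul_mem_pointwise_smul_iff (a := MulAut.conj g)).symm
    have h3 : g⁻¹ * y * g ∈ Zs := by
      rw [hZs]
      refine ⟨(h2 _).mpr ?_, fun h4 => hy ?_, fun u hu => ?_⟩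
      · rw [mem_centralizer_singleton_iff]; group
      · have := ‹N.Normal›.conj_mem _ h4 g
        simpa [mul_assoc] using this
      · have := mem_centralizer_singleton_iff.mp ((h2 u).mp hu)
        calc g⁻¹ * y * g * u = g⁻¹ * (y * (g * u * g⁻¹)) * g := by group
          _ = _ := by rw [← this]; group
    obtain ⟨u, hu⟩ := QuotientGroup.mk_out_eq_mul C g
    refine ⟨((g : G ⧸ C), ⟨_, h3⟩), ?_⟩
    rw [hZs] at h3
    show (g : G ⧸ C).out * (g⁻¹ * y * g) * (g : G ⧸ C).out⁻¹ = y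
    rw [hu]
    calc g * u * (g⁻¹ * y * g) * (g * u)⁻¹ = g * (u * (g⁻¹ * y * g)) * (g * u)⁻¹ := by group
      _ = y := by rw [← h3.2.2 u u.2]; group
  have hc1 : ((N : Set G)ᶜ).ncard ≤ C.index * Zs.ncard := by
    refine (Set.ncard_le_ncard hsurj).trans ?_
    rw [← Nat.card_coe_set_eq, ← Nat.card_coe_set_eq, index, ← Nat.card_prod]
    exact Finite.card_range_le _
  have hc2 := Set.ncard_add_ncard_compl (N : Set G)
  have hc3 := Set.ncard_inter_add_ncard_diff_eq_ncard (C : Set G) (N : Set G)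
  have hc4 : Nat.card N = Nat.card (C ⊓ N : Subgroup G) * C.index := by
    rw [← relIndex_top_right, ← hsup, relIndex_sup_of_le_normalizer le_normalizer_of_normal,
      ← inf_relIndex_right, ← card_mul_index ((C ⊓ N).subgroupOf N),
      Nat.card_congr (subgroupOfEquivOfLe inf_le_right).toEquiv]
    rfl
  have hc5 := C.card_mul_index
  have hZ : Zs = (C : Set G) \ N := by
    refine Set.eq_of_subset_of_ncard_le (fun z hz => ?_) ?_
    · rw [hZs] at hz; exact ⟨hz.1, hz.2.1⟩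
    · have e1 : (N : Set G).ncard = Nat.card N := rfl
      have e2 : (C : Set G).ncard = Nat.card C := rfl
      have e3 : ((C : Set G) ∩ N).ncard = Nat.card (C ⊓ N : Subgroup G) := rfl
      rw [e1] at hc2
      rw [e2, e3] at hc3
      have h0 : 0 < C.index := Nat.pos_of_ne_zero index_ne_zero_of_finite
      apply Nat.le_of_mul_le_mul_left _ h0
      nlinarith
  have hcomm : ∀ z ∈ C, z ∉ N → ∀ u ∈ C, z * u = u * z := by
    intro z h1 h2
    have : z ∈ Zs := by rw [hZ]; exact ⟨h1, h2⟩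
    rw [hZs] at this
    exact this.2.2
  have hab : IsMulCommutative C := ⟨⟨fun a b => Subtype.ext (by
    show (a : G) * b = b * a
    by_cases ha : (a : G) ∈ N
    · have h2 := hcomm _ (C.mul_mem hxC a.2) (fun h1 => hx ((N.mul_mem_cancel_right ha).mp h1)) _ b.2
      rw [mul_assoc, ← mul_assoc (b : G), ← hcomm x hxC hx _ b.2, mul_assoc] at h2
      exact mul_left_cancel h2
    · exact hcomm _ a.2 ha _ b.2)⟩⟩
  haveI : Group.IsSolvable G := ⟨⟨3, Cfsg.Agent.S0556.result C hCm⟩⟩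
  infer_instance

end Cfsg.Agent.S3903
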