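import Cfsg.Statements.S3904
import Cfsg.Agent.Solv.MaxCent

set_option autoImplicit false
open Cfsg

namespace Cfsg.Agent.S3904

open Subgroup Cfsg.Lib.Solv Cfsg.Lib.Solv.MaxCent

/-- Let G be a non-abelian finite group in which the centralizer of every non-central element is a maximal subgroup. Then G/Z(G) is either an elementary abelian p-group for some prime p, or a minimal non-abelian group (non-abelian with all proper subgroups abelian) of order p^a · q for distinct primes p, q with a normal Sylow p-subgroup. -/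
theorem result {G : Type*} [Group G] [Finite G] (hna : ¬ IsMulCommutative G)
    (h : ∀ x : G, x ∉ Subgroup.center G → IsCoatom (Subgroup.centralizer ({x} : Set G))) :
    (∃ p : ℕ, p.Prime ∧ Cfsg.IsElementaryAbelian p (⊤ : Subgroup (G ⧸ Subgroup.center G))) ∨
    (¬ IsMulCommutative (G ⧸ Subgroup.center G) ∧ (∀ H : Subgroup (G ⧸ Subgroup.center G), H ≠ ⊤ → IsMulCommutative ↥H) ∧
      ∃ p q a : ℕ, p.Prime ∧ q.Prime ∧ p ≠ q ∧ Nat.card (G ⧸ Subgroup.center G) = p ^ a * q ∧
        ∀ P : Subgroup (G ⧸ Subgroup.center G), Nat.card ↥P = p ^ a → P.Normal) := by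
  have H : Hyp G := fun x hx K hK _ => hK.eq_or_lt.imp Eq.symm ((h x hx).2 K)
  by_cases hN : Group.IsNilpotent G
  · exact Or.inl (elementary_of_isNilpotent H)
  obtain ⟨p, q, K, hp, hq, hpq, hK, hKt, hKe, hy⟩ := structure_of_not_isNilpotent H hN
  refine Or.inr ⟨fun hc => hN (of_quotient_center_nilpotent (isNilpotent_of_isMulCommutative _)),
    fun L hL => ?_, ?_⟩
  · by_cases hLK : L ≤ K
    · have := hKe.1
      exact PG.isMulCommutative_of_forall fun a ha b hb => PG.mul_comm_of_mem (hLK ha) (hLK hb)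
    obtain ⟨y, hyL, hyK⟩ := SetLike.not_le_iff_exists.1 hLK
    obtain ⟨y, rfl⟩ := QuotientGroup.mk_surjective y
    have hy1 : (y : G ⧸ center G) ≠ 1 := fun e => hyK (e ▸ one_mem K)
    have h1 := (hy y hyK).1
    have h2 : zpowers (y : G ⧸ center G) =
        (centralizer ({y} : Set G)).map (QuotientGroup.mk' (center G)) := by
      have h3 : zpowers (y : G ⧸ center G) ≤
          (centralizer ({y} : Set G)).map (QuotientGroup.mk' (center G)) :=
        zpowers_le.2 (mem_map_of_mem _ (ClassSize.self_mem_cent y))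
      refine PG.eq_of_le_of_card_eq h3 (h1 ▸ ((Nat.dvd_prime hq).1
        (h1 ▸ card_dvd_of_le h3)).resolve_left fun e => hy1 ?_)
      rwa [Nat.card_zpowers, orderOf_eq_one_iff] at e
    have h3 := isCoatom_map_mk' (ClassSize.center_le_cent y)
      (h y fun hZ => hy1 ((QuotientGroup.eq_one_iff y).2 hZ))
    rw [← h2] at h3
    rw [← (zpowers_le.2 hyL).eq_or_lt.resolve_right fun e => hL (h3.2 L e)]
    infer_instance
  · obtain ⟨y, -, hyK⟩ := SetLike.exists_of_lt (lt_top_iff_ne_top.2 hKt)
    obtain ⟨y, rfl⟩ := QuotientGroup.mk_surjective y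
    obtain ⟨h1, h2, h3⟩ := hy y hyK
    obtain ⟨-, -, hc, -⟩ := Fpf.of_coe_eq h2 h3
    have := Fact.mk hp
    obtain ⟨a, ha⟩ := IsPGroup.exists_card_eq (p := p) (G := K)
      fun a => ⟨1, Subtype.ext (by simpa using hKe.2 a a.2)⟩
    refine ⟨p, q, a, hp, hq, hpq, by rw [← hc.card_mul_card, ha, h1], fun P hP => ?_⟩
    rwa [PG.eq_of_le_of_card_eq (le_of_coprime_card_index (N := K) (by
      rw [hP, hc.symm.index_eq_card, h1]
      exact Nat.Coprime.pow_left _ ((Nat.coprime_primes hp hq).2 hpq))) (hP.trans ha.symm)]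

end Cfsg.Agent.S3904
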