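import Cfsg.Statements.S3908
import Cfsg.Agent.Solv.EqualOrderConj

set_option autoImplicit false
open Cfsg

namespace Cfsg.Agent.S3908

/-- Let G be a finite group in which any two abelian subgroups of the same order are conjugate. Then a Sylow 2-subgroup of G is cyclic, elementary abelian or generalized quaternion, and for an odd prime p a Sylow p-subgroup of G is cyclic or has exponent dividing p. -/
theorem result {G : Type*} [Group G] [Finite G] (hB : ∀ A B : Subgroup G, IsMulCommutative ↥A → IsMulCommutative ↥B → Nat.card ↥A = Nat.card ↥B → ∃ g : G, B = A.map (MulAut.conj g).toMonoidHom) :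
    (∀ P : Sylow 2 G, IsCyclic ↥(P : Subgroup G) ∨ Cfsg.IsElementaryAbelian 2 (P : Subgroup G) ∨ ∃ k : ℕ, Nonempty (↥(P : Subgroup G) ≃* QuaternionGroup (2 ^ k))) ∧
    ∀ (p : ℕ) [Fact p.Prime], p ≠ 2 → ∀ P : Sylow p G, IsCyclic ↥(P : Subgroup G) ∨ ∀ x ∈ (P : Subgroup G), x ^ p = 1 := by
  have key : ∀ (p : ℕ) [Fact p.Prime] (P : Sylow p G), (IsCyclic P ∨ (p = 2 ∧
      ∃ n : ℕ, Nonempty (P ≃* QuaternionGroup (2 ^ n)))) ∨ ∀ x ∈ (P : Subgroup G), x ^ p = 1 :=
    fun p _ P => (Lib.Solv.PG.forall_comm_isCyclic_or_pow_eq_one P.isPGroup'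
      fun A B _ _ hA hBc hAB => by
        obtain ⟨g, rfl⟩ := hB A B inferInstance hBc hAB
        exact isCyclic_of_surjective _ (Lib.Solv.conjEquiv g A).surjective).imp_left
      (Lib.Solv.isCyclic_or_quaternion_of_forall_comm P.isPGroup')
  refine ⟨fun P => ?_, fun p _ hp P => (key p P).imp_left fun h => h.resolve_right fun h => hp h.1⟩
  rcases key 2 P with (h | h) | h
  exacts [Or.inl h, Or.inr (Or.inr h.2), Or.inr (Or.inl ⟨⟨⟨fun x y => (Commute.of_orderOf_dvd_two
    (fun g => orderOf_dvd_iff_pow_eq_one.2 (Subtype.ext (h g g.2))) x y).eq⟩⟩, h⟩)]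

end Cfsg.Agent.S3908
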