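import Cfsg.Statements.S3910
import Mathlib.GroupTheory.SpecificGroups.ZGroup
import Cfsg.Agent.Solv.CyclicIndexP
import Cfsg.Agent.Solv.Nilpotent

set_option autoImplicit false
open Cfsg

namespace Cfsg.Agent.S3910

open Subgroup Cfsg.Lib.Solv.PG Cfsg.Lib.Solv

theorem normal_of_sylow_le {G : Type*} [Group G] [Finite G] [Group.IsNilpotent G] {p : ℕ}
    [hp : Fact p.Prime] (P : Sylow p G) {K : Subgroup G} (hK : K ≤ P)
    (hPK : (P : Subgroup G) ≤ normalizer (K : Set G)) : K.Normal := by
  rw [← normalizer_eq_top_iff]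
  refine eq_top_of_forall_prime_pow_mem fun q hq k x hx => ?_
  by_cases hqp : q = p
  · subst hqp
    refine hPK (mem_of_coprime_orderOf_index_of_isNilpotent ?_)
    rw [hx]
    exact ((Nat.Prime.coprime_iff_not_dvd hq).mpr P.not_dvd_index).pow_left k
  · refine centralizer_le_normalizer _ fun y hy => ?_
    obtain ⟨l, hl⟩ := IsPGroup.iff_orderOf.mp P.isPGroup' ⟨y, hK hy⟩
    rw [← orderOf_coe] at hl
    refine (commute_of_coprime_orderOf_of_isNilpotent G x y ?_).symm.eq
    rw [hx, hl]
    exact Nat.Coprime.pow _ _ ((Nat.coprime_primes hq hp.out).mpr hqp)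

/-- A finite nilpotent group in which any two abelian subgroups of the same order are conjugate is cyclic. -/
theorem result {G : Type*} [Group G] [Finite G] (hB : ∀ A B : Subgroup G, IsMulCommutative ↥A → IsMulCommutative ↥B → Nat.card ↥A = Nat.card ↥B → ∃ g : G, B = A.map (MulAut.conj g).toMonoidHom) (hnil : Group.IsNilpotent G) : IsCyclic G := by
  have hu : ∀ N B : Subgroup G, N.Normal → IsMulCommutative N → IsMulCommutative B →
      Nat.card N = Nat.card B → B = N := fun N B hN h1 h2 hc => by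
    obtain ⟨g, hg⟩ := hB N B h1 h2 hc
    refine eq_of_le_of_card_eq ?_ hc.symm
    rw [hg]
    rintro _ ⟨a, ha, rfl⟩
    exact hN.conj_mem a ha g
  have : IsZGroup G := ⟨fun p hp P => by
    have := Fact.mk hp
    have hP := P.isPGroup'
    obtain ⟨A, -, hAP, hPA, hA, hC⟩ := exists_scn_ge (S := (P : Subgroup G)) (A := ⊥) hP.isNilpotent bot_le
      le_normalizer_of_normal
    have key : ∀ B : Subgroup G, IsMulCommutative B → B ≤ P → Nat.card B ≤ Nat.card A →
        ∃ K : Subgroup G, K ≤ A ∧ K.Normal ∧ IsMulCommutative K ∧ Nat.card K = Nat.card B := by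
      intro B hB hBP hc
      obtain ⟨k, hk⟩ := (hP.to_le hBP).exists_card_eq
      obtain ⟨K, -, h2, h3, h4⟩ := exists_invariant_card_eq (M := ⊥) hP (hP.to_le hAP)
        le_normalizer_of_normal hPA bot_le k (by simpa [hk] using hc)
      exact ⟨K, h2, normal_of_sylow_le P (h2.trans hAP) h3, isMulCommutative_of_forall
        fun a ha b hb => mul_comm_of_mem (h2 ha) (h2 hb), by simpa [hk] using h4⟩
    have hPA' : (P : Subgroup G) ≤ A := fun x hx => by
      rcases le_total (Nat.card (zpowers x)) (Nat.card A) with h | h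
      · obtain ⟨K, h1, h2, h3, h4⟩ := key _ inferInstance (zpowers_le.mpr hx) h
        exact h1 (hu K _ h2 h3 inferInstance h4 ▸ mem_zpowers x)
      · obtain ⟨k, hk⟩ := (hP.to_le hAP).exists_card_eq
        obtain ⟨K, -, h2, -, h4⟩ := exists_invariant_card_eq (P := ⊥) (M := ⊥) IsPGroup.of_bot
          (hP.to_le (zpowers_le.mpr hx)) bot_le bot_le bot_le k (by simpa [hk] using h)
        have h5 := hu A K (normal_of_sylow_le P hAP hPA) hA (isMulCommutative_of_forall
          fun a ha b hb => mul_comm_of_mem (h2 ha) (h2 hb)) (by simpa [hk] using h4.symm)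
        rw [← hC]
        exact ⟨hx, fun a ha => mul_comm_of_mem (h2 (h5 ▸ ha)) (mem_zpowers x)⟩
    refine isCyclic_of_unique_card_prime hP (fun H K hH hK cH cK => ?_) (Or.inr
      (isMulCommutative_of_forall fun a ha b hb => mul_comm_of_mem (hPA' ha) (hPA' hb)))
    have h1 := (isCyclic_of_prime_card cH).isMulCommutative
    have h2 := (isCyclic_of_prime_card cK).isMulCommutative
    obtain ⟨N, -, h4, h5, h6⟩ := key H h1 hH (card_le_of_le (hH.trans hPA'))
    rw [hu N H h4 h5 h1 h6, hu N K h4 h5 h2 (by rw [h6, cH, cK])]⟩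
  infer_instance

end Cfsg.Agent.S3910
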