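import Cfsg.Statements.S3917
import Mathlib.GroupTheory.SpecificGroups.ZGroup
import Cfsg.Agent.Solv.CyclicIndexP

set_option autoImplicit false
open Cfsg

namespace Cfsg.Agent.S3917

open Subgroup Cfsg.Lib.Solv.PG

/-- Say that a group has self-centralizing non-cyclic subgroups when every non-cyclic subgroup H satisfies C_G(H) ≤ H. A finite abelian group with self-centralizing non-cyclic subgroups is cyclic or elementary abelian of order p² for a prime p. -/
theorem result {G : Type*} [CommGroup G] [Finite G] (hX : (∀ H : Subgroup G, ¬ IsCyclic ↥H → Subgroup.centralizer (H : Set G) ≤ H)) :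
    IsCyclic G ∨ ∃ p : ℕ, p.Prime ∧ Nat.card G = p ^ 2 ∧ Monoid.exponent G = p := by
  by_cases hc : IsCyclic G
  · exact Or.inl hc
  have h1 : ¬ IsZGroup G := fun _ => hc inferInstance
  rw [isZGroup_iff] at h1
  push Not at h1
  obtain ⟨p, hp, P, hP⟩ := h1
  have := Fact.mk hp
  obtain ⟨V, -, -, -, h2, h3⟩ := exists_invariant_elementary_sq (P := ⊥) IsPGroup.of_bot
    P.isPGroup' bot_le hP (Or.inr inferInstance)
  have h4 : V = ⊤ := eq_top_iff.mpr fun x _ =>
    hX V (not_isCyclic_of_card_eq_sq hp h3 h2) fun y _ => mul_comm y x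
  rw [h4, card_top] at h3
  exact Or.inr ⟨p, hp, h3, (not_isCyclic_iff_exponent_eq_prime hp h3).mp hc⟩

end Cfsg.Agent.S3917
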