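import Cfsg.Statements.S3918
import Cfsg.Agent.Solv.ExtraSub

set_option autoImplicit false
open Cfsg

namespace Cfsg.Agent.S3918

open Subgroup Cfsg.Lib.Solv.PG

/-- Say that a group has self-centralizing non-cyclic subgroups when every non-cyclic subgroup H satisfies C_G(H) ≤ H. For an odd prime p, a finite non-abelian p-group has self-centralizing non-cyclic subgroups if and only if it has order p³. -/
theorem result {G : Type*} [Group G] [Finite G] {p : ℕ} [Fact p.Prime] (hp : p ≠ 2) (hG : IsPGroup p G) (hna : ¬ IsMulCommutative G) :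
    (∀ H : Subgroup G, ¬ IsCyclic ↥H → Subgroup.centralizer (H : Set G) ≤ H) ↔ Nat.card G = p ^ 3 := by
  have hpp : p.Prime := Fact.out
  refine ⟨fun hX => ?_, fun hc H hH => ?_⟩
  · obtain ⟨V, -, hn, -, h2, h3⟩ := exists_normal_elementary_sq hG ⊤
      (fun h => hna (isCyclic_iff_top.mpr h).isMulCommutative) (Or.inl hp)
    have h4 := card_le_of_le (hX V (not_isCyclic_of_card_eq_sq hpp h3 h2))
    have h5 := Nat.mul_le_mul (Cfsg.Lib.FT.BG4.index_centralizer_le hG V h3.le) h4
    have h6 : V ≠ ⊤ := fun h => hna (isMulCommutative_top_iff.mp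
      (isMulCommutative_of_card_eq_sq (h ▸ h3)))
    have h7 := prime_mul_card_le_of_lt (isPGroup_top hG) h6.lt_top
    rw [index_mul_card] at h5
    rw [card_top] at h7
    rw [le_antisymm h5 h7, h3]; ring
  · obtain ⟨k, hk, hk'⟩ := (Nat.dvd_prime_pow hpp).mp (hc ▸ card_subgroup_dvd_card H)
    interval_cases k
    · exact absurd (isCyclic_of_card_dvd_prime (p := p) (by simp [hk'])) hH
    · exact absurd (isCyclic_of_card_dvd_prime (p := p) (by simp [hk'])) hH
    · have := isMulCommutative_of_card_eq_sq hk'
      have h1 : Nat.card (⊤ : Subgroup G) = p * Nat.card H := by rw [card_top, hc, hk']; ring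
      rcases eq_or_eq_of_card_eq_prime_mul hpp h1 (le_centralizer H) le_top with h | h
      · exact h.le
      · exact absurd (isMulCommutative_top_iff.mp
          (isMulCommutative_of_card_eq_prime_mul le_top h.ge h1)) hna
    · rw [eq_top_of_card_eq H (hk'.trans hc.symm)]; exact le_top

end Cfsg.Agent.S3918
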