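import Cfsg.Statements.S3919
import Cfsg.Agent.Solv.UniqueInvol
import Cfsg.Agent.Trans.MaxClassTwo
import Cfsg.Agent.Solv.MinNormal

set_option autoImplicit false
open Cfsg

namespace Cfsg.Agent.S3919

open Cfsg Cfsg.Lib Cfsg.Lib.Solv


/-- Say that a group has self-centralizing non-cyclic subgroups when every non-cyclic subgroup H satisfies C_G(H) ≤ H. A finite non-abelian 2-group G of order 2^n has self-centralizing non-cyclic subgroups if and only if G has nilpotency class n − 1 (that is, G is dihedral, semidihedral or generalized quaternion). -/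
theorem result {G : Type*} [Group G] [Finite G] (hna : ¬ IsMulCommutative G) (n : ℕ) (hG : Nat.card G = 2 ^ n) :
    (∀ H : Subgroup G, ¬ IsCyclic ↥H → Subgroup.centralizer (H : Set G) ≤ H) ↔ (⊤ : Subgroup G).lowerCentralSeries (n - 2) ≠ ⊥ := by
  haveI : Fact (Nat.Prime 2) := ⟨Nat.prime_two⟩
  have hP : IsPGroup 2 G := IsPGroup.of_card hG
  haveI := hP.isNilpotent
  obtain ⟨m, rfl⟩ : ∃ m, n = m + 3 := by
    refine ⟨n - 3, ?_⟩
    by_contra h
    apply hna
    have h2 : n ≤ 2 := by omega
    interval_cases n
    · haveI := isCyclic_of_card_dvd_prime (α := G) (p := 2) (by rw [hG]; simp)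
      exact IsCyclic.isMulCommutative
    · haveI := isCyclic_of_card_dvd_prime (α := G) (p := 2) (by rw [hG]; simp)
      exact IsCyclic.isMulCommutative
    · exact IsPGroup.isMulCommutative_of_card_eq_prime_sq hG
  rw [show m + 3 - 2 = m + 1 from rfl]
  constructor
  · intro h
    by_cases hu : ∀ x y : G, orderOf x = 2 → orderOf y = 2 → x = y
    · rcases PG.isCyclic_or_exists_gens_of_unique_involution hP hu with h1 |
        ⟨a, x, k, hk, ha, hx, htop, hc, h2, h3⟩
      · exact absurd h1.isMulCommutative hna
      · have hkm : k = m + 2 := by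
          rw [hG] at hc
          have := Nat.pow_right_injective le_rfl hc
          omega
        subst hkm
        exact Trans.lowerCentralSeries_ne_bot_of_conj_eq (k := -1) (e := 1) (a := a) (b := x)
          (by rw [ha]; ring) (by simpa using h2) odd_one (by norm_num)
    · push Not at hu
      obtain ⟨x, y, hx, hy, hxy⟩ := hu
      haveI : Nontrivial G := ⟨⟨x, y, hxy⟩⟩
      haveI := hP.center_nontrivial
      obtain ⟨z, hz⟩ := exists_prime_orderOf_dvd_card' (G := Subgroup.center G) 2 (by
        obtain ⟨k, hk0, hk⟩ := (hP.to_subgroup (Subgroup.center G)).nontrivial_iff_card.1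
          inferInstance
        rw [hk]; exact dvd_pow_self 2 hk0.ne')
      rw [← Subgroup.orderOf_coe] at hz
      obtain ⟨t, ht, htz⟩ : ∃ t : G, orderOf t = 2 ∧ t ≠ z := by
        by_cases h1 : x = z
        · exact ⟨y, hy, fun h2 => hxy (h1.trans h2.symm)⟩
        · exact ⟨x, hx, h1⟩
      have htz' : t ∉ Subgroup.zpowers (z : G) := by
        intro h1
        obtain ⟨k, hk⟩ := PG.exists_pow_eq_of_mem_zpowers h1
        rw [← pow_mod_orderOf, hz] at hk
        rcases Nat.mod_two_eq_zero_or_one k with h2 | h2
        · rw [h2, pow_zero] at hk; simp [hk] at ht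
        · rw [h2, pow_one] at hk; exact htz hk
      have hzc : Subgroup.zpowers (z : G) ≤ Subgroup.center G := Subgroup.zpowers_le.2 z.2
      haveI : (Subgroup.zpowers (z : G)).Normal := ⟨fun a ha g => by
        rw [Subgroup.mem_center_iff.1 (hzc ha) g]; simpa using ha⟩
      set V := Subgroup.zpowers (z : G) ⊔ Subgroup.zpowers t with hV
      have hVc : Nat.card V = 2 ^ 2 := by
        rw [hV, PG.card_sup_zpowers Nat.prime_two (Subgroup.le_normalizer_of_normal (Subgroup.mem_top t))
          htz' (by rw [← ht, pow_orderOf_eq_one]; exact one_mem _), Nat.card_zpowers, hz]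
        rfl
      have hnc : ¬ IsCyclic V := fun hc => htz' (by
        have := PG.eq_of_card_eq_of_isCyclic (A := V) (le_sup_left) (le_sup_right)
          (by rw [Nat.card_zpowers, Nat.card_zpowers, hz, ht])
        rw [this]; exact Subgroup.mem_zpowers t)
      have h4 : Subgroup.centralizer {t} ≤ V := by
        refine le_trans (fun c hc => ?_) (h V hnc)
        have : V ≤ Subgroup.centralizer {c} := by
          refine sup_le (hzc.trans (Subgroup.center_le_centralizer _)) (Subgroup.zpowers_le.2 ?_)
          exact Subgroup.mem_centralizer_singleton_iff.2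
            (Subgroup.mem_centralizer_singleton_iff.1 hc).symm
        exact fun v hv => Subgroup.mem_centralizer_singleton_iff.1 (this hv)
      have h5 := Trans.nilpotencyClass_eq_of_card_centralizer (m := m + 1) hG (a := t)
        (hVc ▸ Subgroup.card_le_of_le h4)
      exact (Trans.nilpotencyClass_eq_iff_lowerCentralSeries_ne_bot (m := m + 1) hG).1 h5
  · intro hcl H hH c hc
    have hZ := Trans.MaxClass.card_center (m := m + 1) hG hcl (by omega)
    obtain ⟨C, hC, hCi⟩ := Trans.exists_cyclic_index_two_of_commutator_index hG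
      (Trans.MaxClass.index_commutator (m := m + 1) hG hcl)
    haveI : C.Normal := Subgroup.normal_of_index_eq_two hCi
    obtain ⟨x, hxH, hxC⟩ : ∃ x ∈ H, x ∉ C := by
      by_contra h0
      push Not at h0
      exact hH (Subgroup.isCyclic_of_le h0)
    have hK : H ⊓ C ≠ ⊥ := by
      intro h0
      apply hH
      have h1 := relIndex_mul_card_inf C H
      rw [inf_comm, h0, Subgroup.card_bot, mul_one] at h1
      exact isCyclic_of_card_dvd_prime (p := 2)
        (by rw [← h1, ← hCi]; exact Subgroup.relIndex_dvd_index_of_normal C H)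
    haveI : (H ⊓ C).Normal := PG.normal_of_le_of_isCyclic (A := C) inf_le_right
    have hZH : Subgroup.center G ≤ H := by
      have h1 := PG.inf_center_ne_bot (H ⊓ C) hK
      have h2 : H ⊓ C ⊓ Subgroup.center G = Subgroup.center G := by
        refine Subgroup.eq_of_le_of_card_ge inf_le_right ?_
        rw [hZ]
        exact (Subgroup.one_lt_card_iff_ne_bot _).2 h1
      rw [← h2]
      exact inf_le_left.trans inf_le_left
    have key : ∀ y ∈ C, y * x = x * y → y ∈ Subgroup.center G := by
      intro y hy hyx
      have h1 : ∀ w ∈ C, w * y = y * w := fun w hw =>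
        congrArg Subtype.val (hC.isMulCommutative.1.1 (⟨w, hw⟩ : C) ⟨y, hy⟩)
      refine Subgroup.mem_center_iff.2 (fun g => ?_)
      by_cases hg : g ∈ C
      · exact h1 g hg
      · have h2 : g * x⁻¹ ∈ C := by
          rw [Subgroup.mul_mem_iff_of_index_two hCi, inv_mem_iff]; simp [hg, hxC]
        have := h1 _ h2
        calc g * y = g * x⁻¹ * (x * y) := by group
          _ = g * x⁻¹ * y * x := by rw [← hyx]; group
          _ = y * g := by rw [this]; group
    have hcx : x * c = c * x := hc x hxH
    by_cases hcC : c ∈ C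
    · exact hZH (key c hcC hcx.symm)
    · have h2 : c * x⁻¹ ∈ C := by
        rw [Subgroup.mul_mem_iff_of_index_two hCi, inv_mem_iff]; simp [hcC, hxC]
      have h3 := hZH (key _ h2 (by rw [← mul_assoc, hcx]; group))
      simpa using H.mul_mem h3 hxH

end Cfsg.Agent.S3919
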