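import Cfsg.Statements.S3927
import Cfsg.Agent.Char.FlavellAut

set_option autoImplicit false
open Cfsg

namespace Cfsg.Agent.S3927

open Cfsg.Lib.Char

/-- Let G be a finite group and α an automorphism of G with [G, α] = G, that is, the elements g·α(g)⁻¹ generate G. Then for every k ≥ 1 the iterated commutators [g, α, …, α] with k entries α — the values of the k-th iterate of the map c ↦ c·α(c)⁻¹ — also generate G. -/
theorem result {G : Type*} [Group G] [Finite G] (α : MulAut G) (hG : Subgroup.closure (Set.range (fun c : G => c * (α c)⁻¹)) = ⊤) (k : ℕ) (hk : 1 ≤ k) :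
    Subgroup.closure (Set.range ((fun c : G => c * (α c)⁻¹)^[k])) = ⊤ := by
  set E := Subgroup.closure (Set.range ((fun c : G => c * (α c)⁻¹)^[k]))
  have hE : ∀ β : Subgroup.zpowers α, ∀ x ∈ E, β.1 x ∈ E := by
    rintro ⟨_, i, rfl⟩ x hx
    refine (show E ≤ E.comap (α ^ i).toMonoidHom from (Subgroup.closure_le _).2 ?_) hx
    rintro _ ⟨c, rfl⟩
    refine Subgroup.subset_closure ⟨(α ^ i) c, (Function.Semiconj.iterate_right
      (f := (α ^ i : MulAut G)) (fun c => ?_) k c).symm⟩
    rw [map_mul, map_inv, ← MulAut.mul_apply, ← MulAut.mul_apply, ← zpow_add_one, ← zpow_one_add,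
      add_comm]
  let H : Subgroup (AutExt α) :=
    { carrier := {c | c.left ∈ E}
      mul_mem' := fun {a b} ha hb => mul_mem ha (hE a.right _ hb)
      one_mem' := one_mem E
      inv_mem' := fun {a} ha => hE a.right⁻¹ _ (inv_mem ha) }
  have h : ⊤ ≤ H := (closure_iter_comm k _ (autElt α) rfl (normalClosure_autElt α hG)).ge.trans
    ((Subgroup.closure_le _).2 (by
      rintro _ (rfl | ⟨c, rfl⟩)
      · exact one_mem E
      · obtain ⟨j, rfl⟩ : ∃ j, k = j + 1 := ⟨k - 1, by omega⟩
        refine Subgroup.subset_closure ⟨c.left, (Function.Semiconj.iterate_right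
          (f := SemidirectProduct.left) (fun c => ?_) (j + 1) c).symm⟩
        simp only [comm_autElt, SemidirectProduct.left_inl]))
  exact top_unique fun g _ => h (Subgroup.mem_top (SemidirectProduct.inl g))

end Cfsg.Agent.S3927
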