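import Cfsg.Statements.S3928
import Cfsg.Agent.Char.FlavellAut
import Cfsg.Agent.Local.PGVBasic
import Cfsg.Agent.Solv.Cores

set_option autoImplicit false
open Cfsg

namespace Cfsg.Agent.S3928

open Cfsg.Lib.Char

open Subgroup Cfsg.Lib.Solv
open scoped Pointwise

section
variable {G : Type*} [Group G]

theorem collect [DecidableEq G] {S : Set G} (hS : ∀ x ∈ S, ∀ y ∈ S, x⁻¹ * y * x ∈ S) {x : G}
    (hx : x ∈ S) (l : List G) (hl : ∀ y ∈ l, y ∈ S) : ∃ l' : List G, (∀ y ∈ l', y ∈ S) ∧
      l'.length + l.count x = l.length ∧ l.prod = x ^ l.count x * l'.prod := by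
  induction l with
  | nil => exact ⟨[], by simp⟩
  | cons y l ih =>
    obtain ⟨l', h1, h2, h3⟩ := ih fun z hz => hl z (.tail _ hz)
    by_cases e : y = x
    · subst e
      exact ⟨l', h1, by simp; omega, by simp [h3, pow_succ', mul_assoc]⟩
    · have h4 : ∀ k : ℕ, (x ^ k)⁻¹ * y * x ^ k ∈ S := fun k => by
        induction k with
        | zero => simpa using hl y (.head _)
        | succ k ih => simpa [pow_succ, mul_assoc] using hS x hx _ ih
      refine ⟨((x ^ l.count x)⁻¹ * y * x ^ l.count x) :: l', by simpa using ⟨h4 _, h1⟩,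
        by simp [e]; omega, by simp [e, h3, mul_assoc]⟩

theorem dietz [Finite G] {S : Set G} (hS : ∀ x ∈ S, ∀ y ∈ S, x⁻¹ * y * x ∈ S) {n s : ℕ}
    (hn : 0 < n) (h1 : ∀ x ∈ S, x ^ n = 1) (hs : S.ncard ≤ s) :
    Nat.card (closure S) ≤ (s + 1) ^ (s * n) := by
  classical
  obtain ⟨T, rfl⟩ := (Set.toFinite S).exists_finset_coe
  rw [Set.ncard_coe_finset] at hs
  have h2 : ∀ (L : ℕ) (l : List G), (∀ y ∈ l, y ∈ T) → l.length ≤ L → l.prod ∈ insert 1 T ^ L := by
    intro L
    induction L with
    | zero => intro l _ h; simp [List.length_eq_zero_iff.1 (Nat.le_zero.1 h)]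
    | succ L ih =>
      rintro (_ | ⟨y, l⟩) h h'
      · exact Finset.one_mem_pow (by simp)
      · rw [pow_succ', List.prod_cons]
        exact Finset.mul_mem_mul (by simp [h y]) (ih l (fun z hz => h z (.tail _ hz)) (by simpa using h'))
  have h3 : (closure (T : Set G) : Set G) ⊆ (insert 1 T ^ (s * n) : Finset G) := fun g hg => by
    have h4 : ∃ k, ∃ l : List G, (∀ y ∈ l, y ∈ (T : Set G)) ∧ l.prod = g ∧ l.length = k := by
      obtain ⟨l, h, h'⟩ := Submonoid.exists_list_of_mem_closure
        ((closure_toSubmonoid_of_finite (s := (T : Set G))).le hg)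
      exact ⟨_, l, h, h', rfl⟩
    obtain ⟨l, e1, rfl, e3⟩ := Nat.find_spec h4
    refine h2 _ l e1 ?_
    rw [← List.sum_toFinset_count_eq_length]
    refine (Finset.sum_le_card_nsmul _ _ n fun x hx => ?_).trans (Nat.mul_le_mul_right n
      ((Finset.card_le_card fun y hy => e1 y (List.mem_toFinset.1 hy)).trans hs))
    by_contra! h
    have hx' := e1 x (List.mem_toFinset.1 hx)
    obtain ⟨l', f1, f2, f3⟩ := collect hS hx' l e1
    refine Nat.find_min h4 (m := (List.replicate (l.count x - n) x ++ l').length)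
      (by rw [← e3]; simp; omega) ⟨_, ?_, ?_, rfl⟩
    · intro y hy
      rcases List.mem_append.1 hy with hy | hy
      exacts [List.eq_of_mem_replicate hy ▸ hx', f1 y hy]
    · rw [f3, List.prod_append, List.prod_replicate]
      conv_rhs => rw [← Nat.sub_add_cancel h.le, pow_add, h1 x hx', mul_one]
  exact (Set.ncard_le_ncard h3).trans ((Set.ncard_coe_finset _).trans_le (Finset.card_pow_le.trans
    (Nat.pow_le_pow_left ((Finset.card_insert_le _ _).trans (by omega)) _)))

/-- The elements of odd order inverted by `a`. -/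
def J (a : G) : Set G := {y | Odd (orderOf y) ∧ a * y * a⁻¹ = y⁻¹}

theorem pow_mem_J {a y : G} (h : y ∈ J a) (k : ℕ) : y ^ k ∈ J a :=
  ⟨h.1.of_dvd_nat (orderOf_pow_dvd k), by rw [← conj_pow, h.2, inv_pow]⟩

theorem inv_comm {a : G} (ha : a * a = 1) (c : G) :
    a * (c * a * c⁻¹ * a⁻¹) * a⁻¹ = (c * a * c⁻¹ * a⁻¹)⁻¹ := by
  simp only [mul_inv_rev, inv_inv, inv_eq_of_mul_eq_one_right ha, mul_assoc, ha, mul_one]

variable [Finite G]

theorem pow_fact {S : Set G} {y : G} (h : ∀ k, y ^ k ∈ S) {m : ℕ} (hm : S.ncard ≤ m) :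
    y ^ m.factorial = 1 := by
  refine orderOf_dvd_iff_pow_eq_one.1 (Nat.dvd_factorial (orderOf_pos y) (le_trans ?_ hm))
  rw [← Nat.card_zpowers]
  refine Set.ncard_le_ncard (s := (zpowers y : Set G)) fun x hx => ?_
  obtain ⟨k, rfl⟩ := (mem_powers_iff_mem_zpowers.2 hx)
  exact h k

theorem two_pow_mem_J {a x : G} (h : a * x * a⁻¹ = x⁻¹) {k : ℕ} (hk : Nat.card G ≤ k) :
    x ^ 2 ^ k ∈ J a := by
  refine ⟨?_, by rw [← conj_pow, h, inv_pow]⟩
  obtain ⟨i, o, ho, h1⟩ := Nat.exists_eq_two_pow_mul_odd (Nat.card_pos (α := G)).ne'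
  have hi : i ≤ k := (Nat.lt_two_pow_self.trans_le
    ((Nat.le_mul_of_pos_right _ ho.pos).trans (h1.ge.trans hk))).le
  refine ho.of_dvd_nat (orderOf_dvd_of_pow_eq_one ?_)
  rw [← pow_mul, ← Nat.sub_add_cancel hi, pow_add, mul_assoc, ← h1, mul_comm, pow_mul, pow_card_eq_one',
    one_pow]

theorem closure_J {a : G} (ha : a * a = 1) (h : normalClosure {a} = ⊤) :
    closure (insert a (J a)) = ⊤ := by
  refine top_unique ((closure_iter_comm (Nat.card G + 1) _ a rfl h).ge.trans (closure_mono
    (Set.insert_subset_insert ?_)))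
  rintro _ ⟨c, rfl⟩
  have : ∀ (k : ℕ) (x : G), a * x * a⁻¹ = x⁻¹ → (fun c : G => c * a * c⁻¹ * a⁻¹)^[k] x = x ^ 2 ^ k := by
    intro k
    induction k with
    | zero => simp
    | succ k ih =>
      intro x hx
      have e : x * a * x⁻¹ * a⁻¹ = x ^ 2 := by
        rw [mul_assoc x, mul_assoc x, ← conj_inv, hx, inv_inv, sq]
      rw [Function.iterate_succ_apply, e, ih _ (by rw [← conj_pow, hx, inv_pow]), ← pow_mul, pow_succ']
  rw [Function.iterate_succ_apply, this _ _ (inv_comm ha c)]
  exact two_pow_mem_J (inv_comm ha c) le_rfl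

theorem J_image {H : Type*} [Group H] (f : G →* H) (hf : Function.Surjective f) {a : G}
    (ha : a * a = 1) : J (f a) ⊆ f '' J a := fun z hz => by
  obtain ⟨t, ht⟩ := exists_pow_eq_self_of_coprime (x := z) (n := 2 ^ (Nat.card G + 1))
    ((Nat.coprime_two_left.2 hz.1).pow_left _)
  obtain ⟨x, hx⟩ := hf (z ^ t)
  refine ⟨_, two_pow_mem_J (inv_comm ha x) le_rfl, ?_⟩
  simp only [map_pow, map_mul, map_inv, hx]
  rw [mul_assoc (z ^ t), mul_assoc (z ^ t), ← conj_inv, (pow_mem_J hz t).2, inv_inv, ← sq, ← pow_mul,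
    ← pow_succ', ← pow_mul, mul_comm, pow_mul, ht]

theorem bf {a : G} (ha : a * a = 1) (h1 : a ≠ 1) {m c : ℕ} (hm : (J a).ncard ≤ m)
    (hc : Nat.card (centralizer {a}) ≤ c) : ∃ w : G, w ≠ 1 ∧ w ^ (m + c).factorial = 1 ∧
      (centralizer {w}).index ≤ c * (m + c) := by
  classical
  have := Fintype.ofFinite G
  have hW : (J a ∪ centralizer {a} : Set G).ncard ≤ m + c :=
    (Set.ncard_union_le _ _).trans (add_le_add hm hc)
  let W := ((J a ∪ centralizer {a} : Set G) \ {1}).toFinset
  have haW : a ∈ W := by simp [W, h1, mem_centralizer_singleton_iff]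
  obtain ⟨w, hw, hmax⟩ := W.exists_max_image (fun w => Nat.card (centralizer {w})) ⟨a, haW⟩
  have hw' := Set.mem_toFinset.1 hw
  refine ⟨w, hw'.2, pow_fact (fun k => by exact hw'.1.imp (pow_mem_J · k) (pow_mem · k)) hW, ?_⟩
  have e1 := Finset.card_le_mul_card_image (f := fun c : G => c * a * c⁻¹ * a⁻¹) Finset.univ c (by
    simp only [Finset.mem_image]
    rintro _ ⟨h, -, rfl⟩
    refine le_trans ?_ hc
    rw [← Nat.card_eq_finsetCard]
    refine Nat.card_le_card_of_injective (fun g => ⟨h⁻¹ * g, ?_⟩) fun g g' e =>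
      Subtype.ext (mul_left_cancel (congrArg Subtype.val e))
    have := mul_right_cancel (Finset.mem_filter.1 g.2).2
    rw [mem_centralizer_singleton_iff, mul_assoc, mul_inv_eq_iff_eq_mul.1 this]
    group)
  have e2 : Finset.univ.image (fun c : G => c * a * c⁻¹ * a⁻¹) ⊆
      W.biUnion fun v => (centralizer {v} : Set G).toFinset := by
    simp only [Finset.image_subset_iff, Finset.mem_biUnion, Set.mem_toFinset]
    intro g _
    have hx := inv_comm ha g
    generalize g * a * g⁻¹ * a⁻¹ = x at hx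
    by_cases h0 : x = 1
    · exact ⟨a, haW, h0 ▸ one_mem _⟩
    rcases Nat.even_or_odd (orderOf x) with ⟨k, hk⟩ | h
    · have hk0 := orderOf_pos x
      refine ⟨x ^ k, Set.mem_toFinset.2 ⟨.inr (mem_centralizer_singleton_iff.2 ?_),
        pow_ne_one_of_lt_orderOf (by omega) (by omega)⟩,
        mem_centralizer_singleton_iff.2 (Commute.self_pow x k)⟩
      rw [eq_comm, ← mul_inv_eq_iff_eq_mul, ← conj_pow, hx, inv_pow, inv_eq_iff_mul_eq_one,
        ← pow_add, ← hk, pow_orderOf_eq_one]
    · exact ⟨x, Set.mem_toFinset.2 ⟨.inl ⟨h, hx⟩, h0⟩, mem_centralizer_singleton_iff.2 rfl⟩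
  have e3 := (Finset.card_le_card e2).trans (Finset.card_biUnion_le_card_mul _ _
    (Nat.card (centralizer {w})) fun v hv => (Nat.card_eq_card_toFinset _).ge.trans (hmax v hv))
  have e4 : W.card ≤ m + c := (Set.ncard_eq_toFinset_card' _).ge.trans
    ((Set.ncard_le_ncard Set.sdiff_subset).trans hW)
  refine Nat.le_of_mul_le_mul_right ?_ (Nat.card_pos (α := centralizer {w}))
  rw [index_mul_card, Nat.card_eq_fintype_card, mul_assoc]
  exact e1.trans (Nat.mul_le_mul_left c (e3.trans (Nat.mul_le_mul_right _ e4)))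

theorem central {a : G} (ha : a * a = 1) (h : normalClosure {a} = ⊤) (K : Subgroup G) [K.Normal]
    (hi : Set.InjOn (QuotientGroup.mk' K) (J a)) : K ≤ centralizer (J a) := by
  have h1J : (1 : G) ∈ J a := ⟨by simp, by simp⟩
  have hR := pCore_isPGroup 2 G
  have h2 : ∀ y ∈ J a, ∀ r ∈ pCore 2 G, r ∈ K → r * y = y * r := by
    intro y hy r hr hr'
    classical
    let R := pCore 2 G ⊓ K
    let _ := MulAction.compHom G (MulAut.conj.comp R.subtype)
    have hn : R.Normal := inferInstance
    have := Fintype.ofFinite (MulAction.orbit R y)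
    let f : Function.End (MulAction.orbit R y) := fun x => ⟨a * x.1⁻¹ * a⁻¹, by
      obtain ⟨_, r, rfl⟩ := x
      refine ⟨⟨_, hn.conj_mem _ r.2 a⟩, ?_⟩
      change a * r * a⁻¹ * y * (a * r * a⁻¹)⁻¹ = a * (r * y * (r : G)⁻¹)⁻¹ * a⁻¹
      conv_lhs => rw [← inv_inv y, ← hy.2]
      group⟩
    have e1 := Equiv.Perm.card_fixedPoints_modEq (f := f) (p := 2) (n := 1) (funext fun x =>
      Subtype.ext (by
        change a * (a * x.1⁻¹ * a⁻¹)⁻¹ * a⁻¹ = x.1
        simp only [mul_inv_rev, inv_inv, inv_eq_of_mul_eq_one_right ha, ← mul_assoc, ha, one_mul]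
        rw [mul_assoc, ha, mul_one]))
    have e2 : Fintype.card f.fixedPoints = 1 := by
      refine Fintype.card_eq_one_iff.2 ⟨⟨⟨y, MulAction.mem_orbit_self y⟩, Subtype.ext ?_⟩, ?_⟩
      · change a * y⁻¹ * a⁻¹ = y
        rw [← conj_inv, hy.2, inv_inv]
      · rintro ⟨⟨_, r, rfl⟩, hx⟩
        refine Subtype.ext (Subtype.ext (hi ⟨?_, ?_⟩ hy ?_))
        · exact (MulAut.conj (r : G)).orderOf_eq y ▸ hy.1
        · rw [← inv_inj, conj_inv, inv_inv]; exact congrArg Subtype.val hx
        · change QuotientGroup.mk' K (r * y * r⁻¹) = _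
          simp [(QuotientGroup.eq_one_iff _).2 r.2.2]
    obtain ⟨k, hk⟩ := (hR.to_inf_left (K := K)).card_orbit y
    rw [e2, ← Nat.card_eq_fintype_card, hk] at e1
    obtain rfl : k = 0 := by
      rcases k with _ | k
      · rfl
      · simp [Nat.ModEq, pow_succ] at e1
    have := (Nat.card_eq_one_iff_unique.1 hk).1
    exact mul_inv_eq_iff_eq_mul.1 (congrArg Subtype.val (this.elim
      ⟨_, MulAction.mem_orbit y (⟨r, hr, hr'⟩ : R)⟩ ⟨y, MulAction.mem_orbit_self y⟩))
  have hK : ∀ k ∈ K, ∀ g, k * g * k⁻¹ * g⁻¹ ∈ K := fun k hk g => by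
    simpa only [mul_assoc] using mul_mem hk (‹K.Normal›.conj_mem _ (inv_mem hk) g)
  have h3 : ∀ k ∈ K, k * a * k⁻¹ * a⁻¹ ∈ pCore 2 G := by
    let L := K ⊔ zpowers a
    let b : L := ⟨a, mem_sup_right (mem_zpowers a)⟩
    have hb : b * b = 1 := Subtype.ext ha
    have hP := Lib.Local.baer_suzuki_elem (p := 2) b fun g => by
      rw [Set.pair_comm]
      refine Lib.PGV.isPGroup_closure_pair (k := Nat.card G) (by simp [mul_assoc, ← mul_assoc b, hb])
        hb (Subtype.ext (hi ?_ h1J ?_))
      · have := two_pow_mem_J (inv_comm ha g) le_rfl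
        rwa [inv_eq_of_mul_eq_one_right ha] at this
      · obtain ⟨k, hk, _, ⟨i, rfl⟩, e⟩ := (mem_sup_of_le_normalizer le_normalizer_of_normal).1 g.2
        refine (QuotientGroup.eq_one_iff _).2 (pow_mem (x := g * a * (g : G)⁻¹ * a) ?_ _)
        convert hK k hk a using 1
        rw [← e, inv_eq_of_mul_eq_one_right ha]
        simp only []
        group
    intro k hk
    have hn : K ≤ normalizer ((normalClosure {b}).map L.subtype : Set G) :=
      le_sup_left.trans (le_normalizer_map_subtype _)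
    refine le_pCore_of_isSubnormal (H := (normalClosure {b}).map L.subtype ⊓ K)
      ((SubnormalIn.of_le_normalizer inf_le_right (le_normalizer_inf hn le_normalizer)).isSubnormal
        ‹K.Normal›.isSubnormal) (hP.map _).to_inf_left ⟨?_, hK k hk a⟩
    have hb' : b ∈ normalClosure {b} := subset_normalClosure rfl
    exact ⟨_, mul_mem (normalClosure_normal.conj_mem _ hb' ⟨k, mem_sup_left hk⟩) (inv_mem hb'), rfl⟩
  have h4 : ⊤ ≤ (centralizer (K.map (QuotientGroup.mk' (pCore 2 G)) : Set _)).comap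
      (QuotientGroup.mk' (pCore 2 G)) := by
    refine h.ge.trans (normalClosure_le_normal ?_)
    rintro _ rfl _ ⟨k, hk, rfl⟩
    rw [← mul_inv_eq_one, ← map_mul, ← map_mul, ← map_inv, ← map_mul]
    exact (QuotientGroup.eq_one_iff _).2 (by simpa only [mul_inv_rev, mul_assoc] using h3 k hk)
  intro k hk y hy
  have h5 : k * y * k⁻¹ * y⁻¹ ∈ pCore 2 G := by
    have := h4 (mem_top y) _ ⟨k, hk, rfl⟩
    rw [← mul_inv_eq_one, ← map_mul, ← map_mul, ← map_inv, ← map_mul] at this
    simpa only [mul_inv_rev, mul_assoc] using (QuotientGroup.eq_one_iff _).1 this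
  have h6 : Commute (k * y * k⁻¹ * y⁻¹) y := h2 y hy _ h5 (hK k hk y)
  have h7 := h6.mul_pow (orderOf y)
  rw [inv_mul_cancel_right, conj_pow, pow_orderOf_eq_one, mul_one, mul_one, mul_inv_cancel] at h7
  obtain ⟨j, hj⟩ := hR ⟨_, h5⟩
  have h8 := pow_gcd_eq_one.2 ⟨congrArg Subtype.val hj, h7.symm⟩
  rw [((Nat.coprime_two_left.2 hy.1).pow_left j), pow_one] at h8
  exact (mul_inv_eq_iff_eq_mul.1 (mul_inv_eq_one.1 h8)).symm

theorem ncard_conj (w : G) : {x | ∃ g : G, g * w * g⁻¹ = x}.ncard ≤ (centralizer {w}).index := by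
  refine (Set.ncard_le_ncard (t := Set.range fun q : G ⧸ centralizer {w} => q.out * w * q.out⁻¹)
    ?_).trans (Finite.card_range_le _)
  rintro _ ⟨g, rfl⟩
  obtain ⟨c, hc⟩ := QuotientGroup.mk_out_eq_mul (centralizer {w}) g
  refine ⟨g, ?_⟩
  simp only [hc]
  rw [mul_assoc g, mem_centralizer_singleton_iff.1 c.2]
  group

end

theorem main (m : ℕ) : ∃ B, ∀ (G : Type) [Group G] [Finite G] (a : G), a * a = 1 →
    normalClosure {a} = ⊤ → (J a).ncard ≤ m → Nat.card G ≤ B := by
  induction m with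
  | zero =>
    exact ⟨0, fun G _ _ a _ _ h => absurd ((Set.ncard_eq_zero (Set.toFinite _)).1 (Nat.le_zero.1 h))
      (Set.Nonempty.ne_empty ⟨1, by simp, by simp⟩)⟩
  | succ m ih =>
    obtain ⟨B, ih⟩ := ih
    obtain ⟨c, hc⟩ : ∃ c, c = (m + 1) ^ (m + 1) := ⟨_, rfl⟩
    obtain ⟨D, hD⟩ : ∃ D, D = (c * (m + 1 + c) + 1) ^ (c * (m + 1 + c) * (m + 1 + c).factorial) * B + 1 :=
      ⟨_, rfl⟩
    refine ⟨(D * (m + 1) + 1) ^ (D * (m + 1) * (m + 1).factorial) * 2, fun G _ _ a ha h hm => ?_⟩
    have hJ := closure_J ha h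
    have hN : (centralizer (J a)).Normal := by
      rw [← centralizer_closure]
      suffices (closure (J a)).Normal from inferInstance
      refine normalizer_eq_top_iff.1 (top_unique (hJ.ge.trans ((closure_le _).2 ?_)))
      rintro g (rfl | hg)
      · refine mem_normalizer_of_conj_mem fun x hx => (show closure (J g) ≤ (closure (J g)).comap
          (MulAut.conj g).toMonoidHom from (closure_le _).2 fun y hy => ?_) hx
        exact (show g * y * g⁻¹ ∈ _ from hy.2 ▸ inv_mem (subset_closure hy))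
      · exact le_normalizer (subset_closure hg)
    set N := centralizer (J a)
    have key : ∀ (g : G) (y : G), y ∈ J a →
        (g : G ⧸ N).out * y * (g : G ⧸ N).out⁻¹ = g * y * g⁻¹ := fun g y hy => by
      obtain ⟨c, hc⟩ := QuotientGroup.mk_out_eq_mul N g
      rw [hc, mul_assoc g, ← c.2 y hy]
      group
    have h1 : Nat.card (G ⧸ N) ≤ D := by
      let π := QuotientGroup.mk' N
      have hπ := QuotientGroup.mk'_surjective N
      have ha' : π a * π a = 1 := by rw [← map_mul, ha, map_one]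
      have h' : ∀ {H : Type} [Group H] (f : G →* H), Function.Surjective f →
          normalClosure {f a} = ⊤ := fun f hf => by
        rw [← Set.image_singleton, ← map_normalClosure _ _ hf, h, map_top_of_surjective _ hf]
      by_cases h0 : π a = 1
      · have := h' π hπ
        rw [← card_top, ← this, h0, normalClosure_eq_bot_iff.2 le_rfl, card_bot]; omega
      obtain ⟨w, w1, w2, w3⟩ := bf ha' h0 (m := m + 1) (c := c)
        ((Set.ncard_le_ncard (J_image π hπ ha)).trans ((Set.ncard_image_le).trans hm)) (by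
          refine (Nat.card_le_card_of_injective (β := J a → J a)
            (fun q y => ⟨q.1.out * y * q.1.out⁻¹, (MulAut.conj q.1.out).orderOf_eq y ▸ y.2.1, ?_⟩)
            fun q q' e => ?_).trans ?_
          · have : (q.1.out * a)⁻¹ * (a * q.1.out) ∈ N := QuotientGroup.eq.1 (by
              simpa [π] using mem_centralizer_singleton_iff.1 q.2)
            have := this y y.2
            calc _ = q.1.out * a * ((q.1.out * a)⁻¹ * (a * q.1.out) * y) * (a * q.1.out)⁻¹ := by group
              _ = q.1.out * (a * y * a⁻¹) * q.1.out⁻¹ := by rw [← this]; group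
              _ = _ := by rw [y.2.2]; group
          · refine Subtype.ext (Quotient.out_equiv_out.1 (QuotientGroup.leftRel_apply.2 fun y hy => ?_))
            have := congrArg Subtype.val (congrFun e ⟨y, hy⟩)
            simp only at this
            calc _ = q.1.out⁻¹ * (q.1.out * y * q.1.out⁻¹) * q'.1.out := by group
              _ = _ := by rw [this]; group
          · rw [Nat.card_fun, hc]
            exact (Nat.pow_le_pow_left hm _).trans (Nat.pow_le_pow_right m.succ_pos hm))
      have hK := dietz (S := {x | ∃ g, g * w * g⁻¹ = x}) (by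
        rintro x - _ ⟨g, rfl⟩; exact ⟨x⁻¹ * g, by group⟩) (Nat.factorial_pos _) (by
        rintro _ ⟨g, rfl⟩; rw [conj_pow, w2]; group) ((ncard_conj w).trans w3)
      have hK' : closure {x | ∃ g, g * w * g⁻¹ = x} = normalClosure {w} := by
        unfold normalClosure; congr; ext; simp [conjugatesOf]; rfl
      rw [hK'] at hK
      have h2 := ih (G ⧸ (normalClosure {w}).comap π) (QuotientGroup.mk' _ a)
        (by rw [← map_mul, ha, map_one]) (h' _ (QuotientGroup.mk'_surjective _)) (by
          refine (Set.ncard_le_ncard (J_image _ (QuotientGroup.mk'_surjective _) ha)).trans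
            (Nat.le_of_lt_succ (lt_of_lt_of_le ((Set.ncard_image_le).lt_of_ne fun e => ?_) hm))
          obtain ⟨x, rfl⟩ := hπ w
          exact w1 ((QuotientGroup.eq_one_iff x).2 (central ha h _ (Set.injOn_of_ncard_image_eq e)
            (subset_normalClosure rfl))))
      rw [← index, index_comap_of_surjective _ hπ] at h2
      rw [← (normalClosure {w}).card_mul_index, hD]
      exact (Nat.mul_le_mul hK h2).trans (Nat.le_succ _)
    let S := {x | ∃ g : G, ∃ y ∈ J a, g * y * g⁻¹ = x}
    have hS : ∀ g, ∀ x ∈ S, g * x * g⁻¹ ∈ S := by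
      rintro x _ ⟨g, y, hy, rfl⟩; exact ⟨x * g, y, hy, by group⟩
    have h2 := dietz (S := S) (s := D * (m + 1)) (fun x _ y hy => by simpa using hS x⁻¹ y hy)
      (Nat.factorial_pos (m + 1)) (by
        rintro _ ⟨g, y, hy, rfl⟩; rw [conj_pow, pow_fact (pow_mem_J hy) hm]; group) (by
        refine (Set.ncard_le_ncard (t := Set.range fun q : (G ⧸ N) × J a =>
          q.1.out * q.2 * q.1.out⁻¹) ?_).trans ((Finite.card_range_le _).trans ?_)
        · rintro _ ⟨g, y, hy, rfl⟩; exact ⟨(g, ⟨y, hy⟩), key g y hy⟩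
        · rw [Nat.card_prod]; exact Nat.mul_le_mul h1 hm)
    have h3 : closure S ⊔ zpowers a = ⊤ := top_unique (hJ.ge.trans ((closure_le _).2 (by
      rintro g (rfl | hg)
      · exact mem_sup_right (mem_zpowers _)
      · exact mem_sup_left (subset_closure ⟨1, g, hg, by simp⟩))))
    have h4 := card_sup_dvd_of_le_normalizer (N := closure S) (H := zpowers a) (zpowers_le.2
      (mem_normalizer_of_conj_mem fun x hx => (show closure S ≤ (closure S).comap
          (MulAut.conj a).toMonoidHom from (closure_le _).2 fun y hy =>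
            subset_closure (hS a y hy)) hx))
    rw [h3, card_top, Nat.card_zpowers] at h4
    exact (Nat.le_of_dvd (Nat.mul_pos Nat.card_pos (orderOf_pos a)) h4).trans (Nat.mul_le_mul h2
      (Nat.le_of_dvd two_pos (orderOf_dvd_of_pow_eq_one (by rw [sq, ha]))))

/-- There is a function f such that for every non-trivial finite group G and every automorphism α of G of order 2 with [G, α] = G (the elements g·α(g)⁻¹ generate G), the order of G is at most f(m), where m is the number of elements of odd order inverted by α. -/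
theorem result : ∃ f : ℕ → ℕ, ∀ (G : Type) [Group G] [Finite G] [Nontrivial G] (α : MulAut G), orderOf α = 2 →
    Subgroup.closure (Set.range (fun c : G => c * (α c)⁻¹)) = ⊤ →
      Nat.card G ≤ f (Nat.card {g : G // Odd (orderOf g) ∧ α g = g⁻¹}) := by
  choose f hf using main
  refine ⟨f, fun G _ _ _ α h2 hG => (Nat.card_le_card_of_injective _
    (SemidirectProduct.inl_injective (φ := (zpowers α).subtype))).trans
    (hf _ (AutExt α) (autElt α) ?_ (normalClosure_autElt α hG) ?_)⟩
  · rw [autElt, ← map_mul, ← map_one SemidirectProduct.inr]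
    exact congrArg _ (Subtype.ext (by simpa [sq, h2] using pow_orderOf_eq_one α))
  · refine (Set.ncard_le_ncard (t := Set.range fun q : {g : G // Odd (orderOf g) ∧ α g = g⁻¹} =>
      SemidirectProduct.inl q.1) fun y hy => ?_).trans (Finite.card_range_le _)
    have h1 : y.right = 1 := by
      have e1 : orderOf y.right ∣ 2 := h2 ▸ Nat.card_zpowers α ▸ orderOf_dvd_natCard _
      have e2 : orderOf y.right ∣ orderOf y := orderOf_map_dvd SemidirectProduct.rightHom y
      exact orderOf_eq_one_iff.1 (Nat.eq_one_of_dvd_coprimes (Nat.coprime_two_left.2 hy.1) e1 e2)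
    have h3 := SemidirectProduct.inl_left_mul_inr_right y
    rw [h1, map_one, mul_one] at h3
    rw [← h3] at hy
    refine ⟨⟨y.left, (orderOf_injective (SemidirectProduct.inl : G →* AutExt α)
      SemidirectProduct.inl_injective y.left) ▸ hy.1,
      SemidirectProduct.inl_injective (φ := (zpowers α).subtype) ?_⟩, h3⟩
    rw [← autElt_conj, hy.2, map_inv]

end Cfsg.Agent.S3928
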