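import Cfsg.Statements.S3933
import Cfsg.Agent.S0007
import Cfsg.Agent.Solv.SimpleReduce
import Cfsg.Agent.Solv.ClassSize
import Cfsg.Agent.Solv.SylowNumber
import Cfsg.Agent.Char.Burnside

set_option autoImplicit false
open Cfsg

namespace Cfsg.Agent.S3933


open Subgroup Cfsg.Lib.Solv

universe u

/-- all Sylow numbers divide prime powers -/
def PP (G : Type u) [Group G] : Prop :=
  ∀ (p : ℕ) [Fact p.Prime], ∃ r a : ℕ, r.Prime ∧ Nat.card (Sylow p G) ∣ r ^ a

theorem simple_case (G : Type u) [Group G] [Finite G] [IsSimpleGroup G] (h : PP G) :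
    Group.IsSolvable G := by
  by_contra hs
  have hne : ∀ (p : ℕ) [Fact p.Prime] (P : Sylow p G), p ∣ Nat.card G → (P : Subgroup G) ≠ ⊥ := by
    intro p _ P hp
    exact P.ne_bot_of_dvd_card hp
  have hnn : ∀ (p : ℕ) [Fact p.Prime] (P : Sylow p G), p ∣ Nat.card G →
      normalizer ((P : Subgroup G) : Set G) ≠ ⊤ := by
    intro p _ P hp h1
    rcases (normalizer_eq_top_iff.mp h1).eq_bot_or_eq_top with h2 | h2
    · exact hne p P hp h2
    · haveI := (IsPGroup.of_equiv (h2 ▸ P.isPGroup') topEquiv).isNilpotent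
      exact hs IsNilpotent.to_isSolvable
  have h1 : ∀ p : ℕ, ∃ r : ℕ, p.Prime → p ∣ Nat.card G → r.Prime ∧ r ∣ Nat.card G ∧ r ≠ p ∧
      ∃ a, ∀ P : Sylow p G, (normalizer ((P : Subgroup G) : Set G)).index ∣ r ^ a := by
    intro p
    by_cases hp : p.Prime
    swap
    · exact ⟨0, fun h => absurd h hp⟩
    haveI := Fact.mk hp
    obtain ⟨r, a, hr, ha⟩ := h p
    refine ⟨r, fun _ hd => ?_⟩
    obtain ⟨P⟩ : Nonempty (Sylow p G) := inferInstance
    obtain ⟨b, -, hb⟩ := (Nat.dvd_prime_pow hr).mp ha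
    have hb0 : b ≠ 0 := by
      rintro rfl
      exact hnn p P hd (index_eq_one.mp (P.card_eq_index_normalizer.symm.trans hb))
    have h2 : r ∣ Nat.card (Sylow p G) := hb ▸ dvd_pow_self r hb0
    refine ⟨hr, h2.trans (P.card_eq_index_normalizer ▸ index_dvd_card _), ?_, a, fun Q => ?_⟩
    · rintro rfl
      exact not_dvd_card_sylow r G h2
    · exact Q.card_eq_index_normalizer ▸ ha
  choose ρ hρ using h1
  have key : ∀ p q : ℕ, p.Prime → p ∣ Nat.card G → q.Prime → q ∣ Nat.card G → q ≠ ρ p →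
      ρ p = ρ q := by
    intro p q hp hpd hq hqd hne1
    by_contra hne2
    haveI := Fact.mk hp
    haveI := Fact.mk hq
    obtain ⟨P⟩ : Nonempty (Sylow p G) := inferInstance
    obtain ⟨hr, -, -, a, ha⟩ := hρ p hp hpd
    obtain ⟨ht, -, -, b, hb⟩ := hρ q hq hqd
    obtain ⟨Q, hQ⟩ := ClassSize.exists_sylow_le_of_not_dvd_index (p := q)
      (C := normalizer ((P : Subgroup G) : Set G)) fun hd =>
        hne1 ((Nat.prime_dvd_prime_iff_eq hq hr).mp (hq.dvd_of_dvd_pow (hd.trans (ha P))))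
    have hco := Nat.Coprime.coprime_dvd_left (ha P) (Nat.Coprime.coprime_dvd_right (hb Q)
      (Nat.coprime_pow_primes a b hr ht hne2))
    have h2 : normalClosure ((Q : Subgroup G) : Set G) ≤ normalizer ((P : Subgroup G) : Set G) := by
      refine closure_le _ |>.mpr fun x hx => ?_
      obtain ⟨y, hy, hxy⟩ := Group.mem_conjugatesOfSet_iff.mp hx
      obtain ⟨g, rfl⟩ := isConj_iff.mp hxy
      obtain ⟨u, hu, v, hv, rfl⟩ := (Cfsg.Agent.S0007.result _ _ hco).2 g
      have h3 : v * y * v⁻¹ ∈ (Q : Subgroup G) := (mem_normalizer_iff.mp hv y).mp hy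
      have h4 : u * v * y * (u * v)⁻¹ = u * (v * y * v⁻¹) * u⁻¹ := by group
      rw [h4]
      exact mul_mem (mul_mem hu (hQ h3)) (inv_mem hu)
    rcases (normalClosure_normal (s := ((Q : Subgroup G) : Set G))).eq_bot_or_eq_top with h3 | h3
    · exact hne q Q hqd (eq_bot_iff.mpr (h3 ▸ le_normalClosure))
    · exact hnn p P hpd (eq_top_iff.mpr (h3 ▸ h2))
  have hinv : ∀ p : ℕ, p.Prime → p ∣ Nat.card G → ρ (ρ p) = p := by
    intro p hp hpd
    by_contra hne1
    obtain ⟨hr, hrd, -, -⟩ := hρ p hp hpd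
    exact (hρ _ hr hrd).2.2.1 (key _ p hr hrd hp hpd (Ne.symm hne1))
  have h0 : Nat.card G ≠ 1 := Finite.one_lt_card.ne'
  have hp := Nat.minFac_prime h0
  have hpd := Nat.minFac_dvd (Nat.card G)
  refine hs (Cfsg.Lib.Char.isSolvable_of_prime_dvd_card hp (hρ _ hp hpd).1 G fun q hq hqd => ?_)
  by_contra hc
  push Not at hc
  have h2 := key _ q hp hpd hq hqd hc.2
  exact hc.1 (by rw [← hinv q hq hqd, ← h2, hinv _ hp hpd])


/-- If for every prime r the number of Sylow r-subgroups of the finite group G is a prime power or 1, then G is solvable. -/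
theorem result {G : Type*} [Group G] [Finite G] (h : ∀ (r : ℕ) [Fact r.Prime], Nat.card (Sylow r G) = 1 ∨ IsPrimePow (Nat.card (Sylow r G))) :
    Group.IsSolvable G := by
  refine isSolvable_of_simple PP ?_ ?_ simple_case G ?_
  · intro G _ _ N _ h p _
    obtain ⟨r, a, hr, ha⟩ := h p
    obtain ⟨P⟩ : Nonempty (Sylow p G) := inferInstance
    refine ⟨r, a, hr, Dvd.dvd.trans ?_ ha⟩
    rw [card_sylow_eq_mul_mul P N]
    exact Dvd.dvd.mul_right (dvd_mul_left _ _) _
  · intro G _ _ N _ h p _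
    obtain ⟨r, a, hr, ha⟩ := h p
    obtain ⟨P⟩ : Nonempty (Sylow p G) := inferInstance
    refine ⟨r, a, hr, Dvd.dvd.trans ?_ ha⟩
    rw [card_sylow_eq_mul_mul P N]
    exact Dvd.dvd.mul_right (dvd_mul_right _ _) _
  · intro p _
    rcases h p with h1 | h1
    · exact ⟨2, 0, Nat.prime_two, by rw [h1]; rfl⟩
    · obtain ⟨r, a, hr, -, ha⟩ := (isPrimePow_nat_iff _).mp h1
      exact ⟨r, a, hr, ha ▸ dvd_rfl⟩

end Cfsg.Agent.S3933
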