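import Cfsg.Statements.S3939
import Cfsg.Agent.Solv.Engel
import Cfsg.Agent.Solv.MinNormal
import Cfsg.Agent.Solv.CardModEq
import Cfsg.Agent.Solv.CommCalc
import Cfsg.Agent.Local.CharP

set_option autoImplicit false
open Cfsg

namespace Cfsg.Agent.S3939

open Cfsg.Lib.Solv
open scoped Pointwise

open Cfsg.Lib.Local Cfsg.Lib.Trans

theorem center_ne_bot {G : Type*} [Group G] [Finite G] {g : G} (hg : g ≠ 1)
    (h : ∀ x : G, Group.IsNilpotent (Subgroup.closure ({x, g} : Set G))) :
    Subgroup.center G ≠ ⊥ := by
  obtain ⟨p, hp, hpd⟩ := Nat.exists_prime_and_dvd (mt orderOf_eq_one_iff.1 hg)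
  haveI : Fact p.Prime := ⟨hp⟩
  set u := g ^ (orderOf g / p) with hu
  have hou : orderOf u = p := orderOf_pow_orderOf_div (orderOf_pos g).ne' hpd
  have hR : resOf p (⊤ : Subgroup G) ≤ Subgroup.centralizer ({u} : Set G) := by
    rw [resOf_le_iff]
    intro x _ hx
    rw [Subgroup.mem_centralizer_singleton_iff]
    exact commute_of_mem_of_coprime_of_isNilpotent (h x) (Subgroup.subset_closure (by simp))
      (Subgroup.pow_mem _ (Subgroup.subset_closure (by simp)) _) (hou ▸ hx)
  have hup : IsPGroup p (Subgroup.zpowers u) :=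
    IsPGroup.of_card (n := 1) (by rw [Nat.card_zpowers, hou, pow_one])
  obtain ⟨P, hP⟩ := hup.exists_le_sylow
  have htop := resOf_sup_sylowIn (isSylowIn_top P)
  haveI hRn : (resOf p (⊤ : Subgroup G)).Normal :=
    Subgroup.normalizer_eq_top_iff.1 (eq_top_iff.2 (le_normalizer_resOf ⊤))
  set N := (P : Subgroup G) ⊓ Subgroup.centralizer (resOf p (⊤ : Subgroup G) : Set G) with hN
  have huN : u ∈ N := ⟨hP (Subgroup.mem_zpowers u), fun r hr =>
    Subgroup.mem_centralizer_singleton_iff.1 (hR hr)⟩
  have hd : p ∣ Nat.card N := hou ▸ N.orderOf_dvd_natCard huN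
  have := inf_centralizer_ne_bot_of_dvd_card P.isPGroup' (le_normalizer_inf Subgroup.le_normalizer
    (by rw [Subgroup.normalizer_eq_top]; exact le_top)) hd
  intro h0
  apply this
  rw [eq_bot_iff, ← h0, ← Subgroup.centralizer_univ, ← Subgroup.coe_top,
    Subgroup.le_centralizer_iff]
  refine htop.ge.trans ?_
  exact sup_le (Subgroup.le_centralizer_iff.1 (inf_le_left.trans inf_le_right))
    (Subgroup.le_centralizer_iff.1 inf_le_right)

theorem aux (G : Type*) [Group G] [Finite G] : ∀ g : G,
    (∀ x : G, Group.IsNilpotent (Subgroup.closure ({x, g} : Set G))) →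
      ∃ n, g ∈ Subgroup.upperCentralSeries G n := by
  refine card_induction (P := fun G _ _ => ∀ g : G,
    (∀ x : G, Group.IsNilpotent (Subgroup.closure ({x, g} : Set G))) →
      ∃ n, g ∈ Subgroup.upperCentralSeries G n) ?_ G
  intro G _ _ ih g h
  by_cases hg : g = 1
  · exact ⟨0, hg ▸ Subgroup.one_mem _⟩
  obtain ⟨n, hn⟩ := ih (G ⧸ Subgroup.center G) (card_quotient_lt (center_ne_bot hg h))
    (QuotientGroup.mk' _ g) (fun y => by
      obtain ⟨x, rfl⟩ := QuotientGroup.mk'_surjective _ y
      have := isNilpotent_map (QuotientGroup.mk' (Subgroup.center G)) _ (h x)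
      rwa [MonoidHom.map_closure, Set.image_pair] at this)
  exact ⟨n + 1, by rw [← Subgroup.comap_upperCentralSeries_quotient_center]; exact hn⟩

/-- In a finite group G the set of elements g such that the subgroup generated by g and x is nilpotent for every x ∈ G is exactly the hypercenter of G (the last term of the upper central series). -/
theorem result {G : Type*} [Group G] [Finite G] (g : G) :
    (∀ x : G, Group.IsNilpotent ↥(Subgroup.closure ({x, g} : Set G))) ↔ g ∈ ⨆ n : ℕ, Subgroup.upperCentralSeries G n := by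
  rw [Subgroup.mem_iSup_of_directed (Subgroup.upperCentralSeries_mono G).directed_le]
  refine ⟨aux G g, ?_⟩
  rintro ⟨n, hn⟩ x
  set H := Subgroup.closure ({x, g} : Set G) with hH
  have h1 : H.lowerCentralSeries 1 ≤ Subgroup.upperCentralSeries G n := by
    rw [Subgroup.lowerCentralSeries_succ, Subgroup.lowerCentralSeries_zero,
      commutator_le_iff_map_le_centralizer]
    have : H.map (QuotientGroup.mk' (Subgroup.upperCentralSeries G n)) ≤
        Subgroup.zpowers (QuotientGroup.mk' (Subgroup.upperCentralSeries G n) x) := by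
      rw [hH, MonoidHom.map_closure, Set.image_pair, Subgroup.closure_le]
      rintro y (rfl | rfl)
      · exact Subgroup.mem_zpowers _
      · rw [show QuotientGroup.mk' (Subgroup.upperCentralSeries G n) g = 1 from
          (QuotientGroup.eq_one_iff g).2 hn]
        exact Subgroup.one_mem _
    exact this.trans ((Subgroup.le_centralizer _).trans
      (Subgroup.centralizer_le (SetLike.coe_subset_coe.2 this)))
  have h2 : ∀ k, H.lowerCentralSeries (k + 1) ≤ Subgroup.upperCentralSeries G (n - k) := by
    intro k
    induction k with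
    | zero => exact h1
    | succ k ih =>
      rw [Subgroup.lowerCentralSeries_succ]
      refine (Subgroup.commutator_mono ih le_top).trans ?_
      rcases Nat.eq_zero_or_pos (n - k) with h0 | h0
      · rw [h0, Subgroup.upperCentralSeries_zero, Subgroup.commutator_bot_left]; exact bot_le
      · rw [show n - k = n - (k + 1) + 1 by omega]
        exact Subgroup.commutator_upperCentralSeries_top_le G _
  refine (Subgroup.isNilpotent_iff_lowerCentralSeries H).2 ⟨n + 1, eq_bot_iff.2 ?_⟩
  have := h2 n
  rwa [Nat.sub_self, Subgroup.upperCentralSeries_zero] at this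

end Cfsg.Agent.S3939
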