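import Cfsg.Statements.S3941
import Cfsg.Agent.Known.SymMisc

set_option autoImplicit false
open Cfsg

namespace Cfsg.Agent.S3941

open Cfsg.Lib.Known

/-- Let n ≥ 5 and p an odd prime with p ≤ n, and suppose that every proper subgroup of the alternating group of degree n whose order is divisible by p has a normal Sylow p-subgroup. Then n = p. -/
theorem result (n p : ℕ) (hn : 5 ≤ n) [Fact p.Prime] (hp : p ≠ 2) (hpn : p ≤ n)
    (h : ∀ H : Subgroup ↥(alternatingGroup (Fin n)), H ≠ ⊤ → p ∣ Nat.card ↥H → Cfsg.IsPClosed p ↥H) : n = p := by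
  have hp' : p.Prime := Fact.out
  by_contra hne
  obtain ⟨m, rfl⟩ : ∃ m, n = m + 1 := ⟨n - 1, by omega⟩
  obtain ⟨φ, hφ⟩ := ((embA_alt (Fintype.card_fin m)).mono (Nat.le_succ m)).exists_hom
  have : Nontrivial (Fin m) := Fin.nontrivial_iff_two_le.2 (by omega)
  have : Nontrivial (Fin (m + 1)) := Fin.nontrivial_iff_two_le.2 (by omega)
  have hc : ∀ k, 2 ≤ k → 2 * Nat.card (alternatingGroup (Fin k)) = k.factorial := fun k hk => by
    have : Nontrivial (Fin k) := Fin.nontrivial_iff_two_le.2 hk
    rw [two_mul_nat_card_alternatingGroup, Nat.card_perm, Nat.card_fin]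
  have e := φ.ofInjective hφ
  have h1 : p ∣ Nat.card (alternatingGroup (Fin m)) :=
    ((Nat.coprime_primes hp' Nat.prime_two).2 hp).dvd_of_dvd_mul_left (by
      rw [hc m (by omega)]; exact Nat.dvd_factorial hp'.pos (by omega))
  have h2 := h φ.range (fun h => by
    have e1 := Nat.card_congr e.toEquiv
    have e2 := hc m (by omega)
    have e3 := hc (m + 1) (by omega)
    have e4 := m.factorial_pos
    rw [h, Subgroup.card_top] at e1
    rw [Nat.factorial_succ, ← e1, e2] at e3
    nlinarith) (Nat.card_congr e.toEquiv ▸ h1)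
  obtain ⟨P⟩ : Nonempty (Sylow p φ.range) := inferInstance
  have := h2 P
  let Q := P.mapSurjective (f := e.symm.toMonoidHom) e.symm.surjective
  have hQ : (Q : Subgroup (alternatingGroup (Fin m))).Normal :=
    Subgroup.Normal.map inferInstance _ e.symm.surjective
  have hQ1 : (Q : Subgroup (alternatingGroup (Fin m))) ≠ ⊥ := Q.ne_bot_of_dvd_card h1
  by_cases h4 : m = 4
  · subst h4
    obtain rfl : p = 3 := by
      have := hp'.two_le
      have : p ≠ 4 := by rintro rfl; exact absurd hp' (by norm_num)
      omega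
    have h5 := SC.card_orderOf_eq_prime Q (SC.sylow_card_eq_pow Q (k := 1) (m := 4)
      (by have := hc 4 (by norm_num); simp only [Nat.factorial] at this; omega) (by norm_num))
    have := Sylow.unique_of_normal Q hQ
    rw [Nat.card_unique (α := Sylow 3 _)] at h5
    have h6 : Nat.card {g : alternatingGroup (Fin 4) // orderOf g = 3} = 8 := by
      simp only [orderOf_eq_prime_iff]
      rw [Nat.card_eq_fintype_card]
      decide +kernel
    omega
  · have := alternatingGroup.isSimpleGroup (α := Fin m) (by simp; omega)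
    obtain ⟨k, hk⟩ := Q.isPGroup'.exists_card_eq
    rw [hQ.eq_bot_or_eq_top.resolve_left hQ1, Subgroup.card_top] at hk
    have h5 := hc m (by omega)
    have h6 : 2 * 2 ∣ m.factorial := Nat.dvd_factorial (by norm_num) (by omega)
    rw [← h5, Nat.mul_dvd_mul_iff_left two_pos, hk] at h6
    exact hp ((Nat.prime_dvd_prime_iff_eq Nat.prime_two hp').1
      (Nat.prime_two.dvd_of_dvd_pow h6)).symm

end Cfsg.Agent.S3941
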