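import Cfsg.Statements.S3949
import Cfsg.Agent.Solv.Conj

set_option autoImplicit false
open Cfsg

namespace Cfsg.Agent.S3949

open Cfsg.Lib.Solv
open scoped Pointwise

theorem pow_two_pow_surj {G : Type*} [Group G] [Finite G] {g : G} (hg : Odd (orderOf g)) (k : ℕ) :
    ∃ m : ℕ, (g ^ m) ^ (2 ^ k) = g := by
  have hc : (2 ^ k).Coprime (orderOf g) := Nat.Coprime.pow_left _ (Nat.coprime_two_left.2 hg)
  obtain ⟨m, hm⟩ := exists_pow_eq_self_of_coprime hc
  exact ⟨m, by rw [← pow_mul, mul_comm, pow_mul]; exact hm⟩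

/-- Let G be a finite group and α an automorphism of G of order 2 such that the elements g·α(g)⁻¹ generate G. Let j be a positive integer such that 2^j divides the order of no element inverted by α. Then the set of values of the j-th iterate of the map c ↦ c·α(c)⁻¹ is exactly the set of elements of odd order inverted by α. -/
theorem result {G : Type*} [Group G] [Finite G] (α : MulAut G) (hα : orderOf α = 2) (hG : Subgroup.closure (Set.range (fun c : G => c * (α c)⁻¹)) = ⊤)
    (j : ℕ) (hj : ∀ g : G, α g = g⁻¹ → ¬ 2 ^ j ∣ orderOf g) :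
    Set.range ((fun c : G => c * (α c)⁻¹)^[j]) = {g : G | Odd (orderOf g) ∧ α g = g⁻¹} := by
  have hα2 : ∀ c, α (α c) = c := fun c => by
    have := pow_orderOf_eq_one α
    rw [hα, pow_two] at this
    exact congrArg (fun f : MulAut G => f c) this
  have hinv : ∀ c : G, α c = c⁻¹ → ∀ k : ℕ,
      (fun c : G => c * (α c)⁻¹)^[k] c = c ^ (2 ^ k) := by
    intro c hc k
    induction k with
    | zero => simp
    | succ k ih =>
      rw [Function.iterate_succ_apply', ih, map_pow, hc, inv_pow, inv_inv, pow_succ, pow_mul,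
        pow_two]
  have hj0 : j ≠ 0 := by
    rintro rfl
    exact hj 1 (by simp) (by simp)
  obtain ⟨k, rfl⟩ := Nat.exists_eq_succ_of_ne_zero hj0
  ext g
  constructor
  · rintro ⟨c, rfl⟩
    have hc : α (c * (α c)⁻¹) = (c * (α c)⁻¹)⁻¹ := by
      rw [map_mul, map_inv, hα2, mul_inv_rev, inv_inv]
    rw [Function.iterate_succ_apply, hinv _ hc]
    refine ⟨?_, by rw [map_pow, hc, inv_pow]⟩
    set d := c * (α c)⁻¹ with hd
    have h1 := hj d hc
    rw [← Nat.not_even_iff_odd, even_iff_two_dvd, orderOf_pow]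
    intro h2
    apply h1
    obtain ⟨i, hi, hie⟩ := (Nat.dvd_prime_pow Nat.prime_two).1 (Nat.gcd_dvd_right (orderOf d) (2 ^ k))
    have h3 : 2 ^ (i + 1) ∣ orderOf d := by
      rw [pow_succ, ← hie]
      exact Nat.mul_dvd_of_dvd_div (Nat.gcd_dvd_left _ _) h2
    rcases hi.eq_or_lt with rfl | hlt
    · exact h3
    · exfalso
      have h4 : 2 ^ (i + 1) ∣ (orderOf d).gcd (2 ^ k) := Nat.dvd_gcd h3 (pow_dvd_pow 2 hlt)
      rw [hie] at h4
      have := (Nat.pow_dvd_pow_iff_le_right (by norm_num)).1 h4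
      omega
  · rintro ⟨h1, h2⟩
    obtain ⟨m, hm⟩ := pow_two_pow_surj h1 (k + 1)
    refine ⟨g ^ m, ?_⟩
    rw [hinv _ (by rw [map_pow, h2, inv_pow])]
    exact hm

end Cfsg.Agent.S3949
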