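import Cfsg.Statements.S3959
import Cfsg.Agent.Solv.Schur2
import Mathlib.GroupTheory.Abelianization.Finite
import Mathlib.RingTheory.TensorProduct.Finite
import Mathlib.GroupTheory.FiniteAbelian.Basic

set_option autoImplicit false
universe u v w
open Cfsg

namespace Cfsg.Agent.S3959

open Cfsg.Lib.Solv
open scoped commutatorElement

/-- The tensor product of the abelianizations, written multiplicatively. -/
abbrev Tens (Q₁ : Type*) (Q₂ : Type*) [Group Q₁] [Group Q₂] :=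
  Multiplicative (TensorProduct ℤ (Additive (Abelianization Q₁)) (Additive (Abelianization Q₂)))

/-- The canonical bimultiplicative map to the tensor product of the abelianizations. -/
noncomputable def tensHom (Q₁ : Type*) (Q₂ : Type*) [Group Q₁] [Group Q₂] :
    Q₁ →* Q₂ →* Tens Q₁ Q₂ :=
  MonoidHom.mk' (fun x => MonoidHom.mk' (fun y => Multiplicative.ofAdd
    (Additive.ofMul (Abelianization.of x) ⊗ₜ[ℤ] Additive.ofMul (Abelianization.of y)))
    (by intro a b; simp [TensorProduct.tmul_add])) (by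
      intro a b; ext; simp [TensorProduct.add_tmul])

theorem tens_induction {Q₁ : Type*} {Q₂ : Type*} [Group Q₁] [Group Q₂] {P : Tens Q₁ Q₂ → Prop}
    (one : P 1) (base : ∀ x y, P (tensHom Q₁ Q₂ x y)) (mul : ∀ s t, P s → P t → P (s * t))
    (t : Tens Q₁ Q₂) : P t := by
  obtain ⟨t, rfl⟩ := Multiplicative.ofAdd.surjective t
  induction t using TensorProduct.induction_on with
  | zero => exact one
  | tmul x y =>
    obtain ⟨x, rfl⟩ : ∃ x' : Q₁, Additive.ofMul (Abelianization.of x') = x :=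
      QuotientGroup.mk_surjective x.toMul
    obtain ⟨y, rfl⟩ : ∃ y' : Q₂, Additive.ofMul (Abelianization.of y') = y :=
      QuotientGroup.mk_surjective y.toMul
    exact base x y
  | add s t hs ht => exact mul _ _ hs ht

theorem exists_tens_lift {Q₁ : Type*} {Q₂ : Type*} [Group Q₁] [Group Q₂] {Z : Type*} [CommGroup Z]
    (b : Q₁ →* Q₂ →* Z) : ∃ f : Tens Q₁ Q₂ →* Z, ∀ x y, f (tensHom Q₁ Q₂ x y) = b x y := by
  let b' : Abelianization Q₁ →* Abelianization Q₂ →* Z :=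
    (Abelianization.lift (Abelianization.lift b).flip).flip
  let c : Additive (Abelianization Q₁) →+ Additive (Abelianization Q₂) →+ Additive Z :=
    AddMonoidHom.mk' (fun x => MonoidHom.toAdditive (b' x.toMul)) (by
      intro x y; ext; simp)
  refine ⟨AddMonoidHom.toMultiplicativeLeft (TensorProduct.liftAddHom c (by
    intro r m n; rw [map_zsmul, map_zsmul]; rfl)), fun x y => rfl⟩

theorem finite_tens (Q₁ : Type*) (Q₂ : Type*) [Group Q₁] [Group Q₂] [Finite Q₁] [Finite Q₂] :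
    Finite (Tens Q₁ Q₂) := by
  have h : ∀ t : Tens Q₁ Q₂, t ^ Nat.card Q₁ = 1 := by
    intro t
    induction t using tens_induction with
    | one => exact one_pow _
    | mul s t hs ht => rw [mul_pow, hs, ht, one_mul]
    | base x y => rw [← MonoidHom.pow_apply, ← map_pow, pow_card_eq_one', map_one]; rfl
  have : Module.Finite ℤ (Additive (Abelianization Q₁)) := Module.Finite.of_finite
  have : Module.Finite ℤ (Additive (Abelianization Q₂)) := Module.Finite.of_finite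
  refine @Module.finite_of_fg_torsion
    (TensorProduct ℤ (Additive (Abelianization Q₁)) (Additive (Abelianization Q₂))) _
    TensorProduct.instModule (Module.Finite.tensorProduct _ _ _) ?_
  intro t
  refine ⟨⟨Nat.card Q₁, mem_nonZeroDivisors_of_ne_zero (by exact_mod_cast Nat.card_pos.ne')⟩, ?_⟩
  change ((Nat.card Q₁ : ℕ) : ℤ) • t = 0
  rw [natCast_zsmul]
  exact h (Multiplicative.ofAdd t)

/-- The central extension of `Γ₁ × Γ₂` by `T` twisted by a bimultiplicative map. -/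
@[ext] structure Tw {Γ₁ Γ₂ T : Type*} [Group Γ₁] [Group Γ₂] [CommGroup T]
    (β : Γ₁ →* Γ₂ →* T) where
  /-- first coordinate -/
  a : Γ₁
  /-- second coordinate -/
  b : Γ₂
  /-- central coordinate -/
  t : T

namespace Tw

variable {Γ₁ Γ₂ T : Type*} [Group Γ₁] [Group Γ₂] [CommGroup T] (β : Γ₁ →* Γ₂ →* T)

instance instGroupTw : Group (Tw β) where
  mul x y := ⟨x.a * y.a, x.b * y.b, x.t * y.t * β y.a x.b⟩
  one := ⟨1, 1, 1⟩
  inv x := ⟨x.a⁻¹, x.b⁻¹, x.t⁻¹ * β x.a x.b⟩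
  mul_assoc x y z := by
    refine Tw.ext (mul_assoc _ _ _) (mul_assoc _ _ _) ?_
    change x.t * y.t * β y.a x.b * z.t * β z.a (x.b * y.b) =
      x.t * (y.t * z.t * β z.a y.b) * β (y.a * z.a) x.b
    simp only [map_mul, MonoidHom.mul_apply, mul_comm, mul_left_comm, mul_assoc]
  one_mul x := by
    refine Tw.ext (one_mul _) (one_mul _) ?_
    change 1 * x.t * β x.a 1 = x.t
    simp
  mul_one x := by
    refine Tw.ext (mul_one _) (mul_one _) ?_
    change x.t * 1 * β 1 x.b = x.t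
    simp
  inv_mul_cancel x := by
    refine Tw.ext (inv_mul_cancel _) (inv_mul_cancel _) ?_
    change x.t⁻¹ * β x.a x.b * x.t * β x.a x.b⁻¹ = 1
    simp

variable {β}

@[simp] theorem mul_a (x y : Tw β) : (x * y).a = x.a * y.a := rfl
@[simp] theorem mul_b (x y : Tw β) : (x * y).b = x.b * y.b := rfl
@[simp] theorem mul_t (x y : Tw β) : (x * y).t = x.t * y.t * β y.a x.b := rfl

variable (β)

/-- The first factor. -/
def inl : Γ₁ →* Tw β := MonoidHom.mk' (fun x => ⟨x, 1, 1⟩) (by intro a b; ext <;> simp)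

/-- The second factor. -/
def inr : Γ₂ →* Tw β := MonoidHom.mk' (fun x => ⟨1, x, 1⟩) (by intro a b; ext <;> simp)

/-- The central factor. -/
def inT : T →* Tw β := MonoidHom.mk' (fun x => ⟨1, 1, x⟩) (by intro a b; ext <;> simp)

theorem commutator_eq (x : Γ₁) (y : Γ₂) : ⁅inr β y, inl β x⁆ = inT β (β x y) := by
  rw [commutatorElement_def, ← map_inv, ← map_inv]
  ext <;> simp [inl, inr, inT]

end Tw

theorem card_ker_le {Q₁ : Type u} {Q₂ : Type v} [Group Q₁] [Group Q₂] [Finite Q₁] [Finite Q₂]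
    {A B : Type*} [CommGroup A] [CommGroup B] (hA : HasSchurMultiplier Q₁ A)
    (hB : HasSchurMultiplier Q₂ B) (Δ : Type*) [Group Δ] [Finite Δ] (τ : Δ →* Q₁ × Q₂)
    (hτ : IsStemExtension τ) : Nat.card τ.ker ≤ Nat.card (A × B × Tens Q₁ Q₂) := by
  have := finite_of_hasSchurMultiplier hA
  have := finite_of_hasSchurMultiplier hB
  have := finite_tens Q₁ Q₂
  obtain ⟨H₁, hH₁⟩ : ∃ H, H = (MonoidHom.inl Q₁ Q₂).range.comap τ := ⟨_, rfl⟩
  obtain ⟨H₂, hH₂⟩ : ∃ H, H = (MonoidHom.inr Q₁ Q₂).range.comap τ := ⟨_, rfl⟩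
  have hρ₁ := exists_surjective_comap τ hτ.1 hτ.2.1 (MonoidHom.inl Q₁ Q₂).range
    (hasSchurMultiplier_congr_left hA (MonoidHom.ofInjective (f := MonoidHom.inl Q₁ Q₂)
      (fun _ _ h => congrArg Prod.fst h)))
  have hρ₂ := exists_surjective_comap τ hτ.1 hτ.2.1 (MonoidHom.inr Q₁ Q₂).range
    (hasSchurMultiplier_congr_left hB (MonoidHom.ofInjective (f := MonoidHom.inr Q₁ Q₂)
      (fun _ _ h => congrArg Prod.snd h)))
  rw [← hH₁] at hρ₁
  rw [← hH₂] at hρ₂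
  obtain ⟨ρ₁, hρ₁⟩ := hρ₁
  obtain ⟨ρ₂, hρ₂⟩ := hρ₂
  have m₁ : ∀ x, x ∈ H₁ ↔ (τ x).2 = 1 := fun x => hH₁ ▸
    ⟨fun ⟨_, h⟩ => (congrArg Prod.snd h).symm, fun h => ⟨(τ x).1, Prod.ext rfl h.symm⟩⟩
  have m₂ : ∀ x, x ∈ H₂ ↔ (τ x).1 = 1 := fun x => hH₂ ▸
    ⟨fun ⟨_, h⟩ => (congrArg Prod.fst h).symm, fun h => ⟨(τ x).2, Prod.ext h.symm rfl⟩⟩
  have n₁ : H₁.Normal := ⟨fun x hx g => by rw [m₁] at hx ⊢; simp [hx]⟩
  have n₂ : H₂.Normal := ⟨fun x hx g => by rw [m₂] at hx ⊢; simp [hx]⟩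
  have := isMulCommutative_of_le_center hτ.2.1
  let _ : CommGroup τ.ker := { (inferInstance : Group τ.ker) with mul_comm := mul_comm' }
  choose s hs using hτ.1
  have hk : ∀ x y : Δ, (τ x).2 = 1 → (τ y).1 = 1 → ⁅x, y⁆ ∈ τ.ker := fun x y hx hy => by
    rw [MonoidHom.mem_ker, map_commutatorElement, commutatorElement_eq_one_iff_mul_comm]
    exact Prod.ext (by simp [hy]) (by simp [hx])
  have hk' : ∀ (a : Q₁) (b : Q₂), ⁅s (a, 1), s (1, b)⁆ ∈ τ.ker := fun a b =>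
    hk _ _ (by rw [hs]) (by rw [hs])
  let b : Q₁ →* Q₂ →* τ.ker := MonoidHom.mk' (fun a => MonoidHom.mk'
    (fun b => ⟨⁅s (a, 1), s (1, b)⁆, hk' a b⟩) (by
      intro b b'
      apply Subtype.ext
      have h1 := Subgroup.mem_center_iff.1 (hτ.2.1 (hk' a b')) (s (1, b))
      have h2 : ⁅s (a, 1), s (1, b * b')⁆ = ⁅s (a, 1), s (1, b) * s (1, b')⁆ :=
        commutatorElement_eq_of_central τ hτ.2.1 rfl (by simp [hs])
      simp only [Subgroup.coe_mul, h2]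
      generalize s (a, 1) = x, s (1, b) = y, s (1, b') = z at h1 ⊢
      simp only [commutatorElement_def, mul_inv_rev] at h1 ⊢
      calc x * (y * z) * x⁻¹ * (z⁻¹ * y⁻¹)
          = x * y * x⁻¹ * y⁻¹ * (y * (x * z * x⁻¹ * z⁻¹)) * y⁻¹ := by group
        _ = _ := by rw [h1]; group)) (by
      intro a a'
      ext b
      have h1 := Subgroup.mem_center_iff.1 (hτ.2.1 (hk' a' b)) (s (a, 1))
      have h3 := Subgroup.mem_center_iff.1 (hτ.2.1 (hk' a' b)) ⁅s (a, 1), s (1, b)⁆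
      have h2 : ⁅s (a * a', 1), s (1, b)⁆ = ⁅s (a, 1) * s (a', 1), s (1, b)⁆ :=
        commutatorElement_eq_of_central τ hτ.2.1 (by simp [hs]) rfl
      simp only [MonoidHom.mk'_apply, MonoidHom.mul_apply, Subgroup.coe_mul, h2, h3]
      generalize s (a, 1) = x, s (a', 1) = y, s (1, b) = z at h1 ⊢
      simp only [commutatorElement_def, mul_inv_rev] at h1 ⊢
      calc x * y * z * (y⁻¹ * x⁻¹) * z⁻¹
          = (x * (y * z * y⁻¹ * z⁻¹)) * (z * x⁻¹ * z⁻¹) := by group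
        _ = _ := by rw [h1]; group)
  obtain ⟨f, hf⟩ := exists_tens_lift b
  set C := (τ.ker.subtype.comp f).range with hC
  have hCk : C ≤ τ.ker := by rintro _ ⟨t, rfl⟩; exact (f t).2
  have nC := normal_of_le_center (hCk.trans hτ.2.1)
  set K := ⁅H₁, H₁⁆ ⊔ (⁅H₂, H₂⁆ ⊔ C) with hK
  have hcm : commutator Δ ≤ K := by
    have hc : ∀ x y : Δ, ⁅x, y⁆ ∈ K → Commute (x : Δ ⧸ K) (y : Δ ⧸ K) := fun x y h =>
      commutatorElement_eq_one_iff_commute.1 ((QuotientGroup.eq_one_iff ⁅x, y⁆).2 h)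
    have h11 : ∀ x ∈ H₁, ∀ y ∈ H₁, Commute (x : Δ ⧸ K) (y : Δ ⧸ K) := fun x hx y hy =>
      hc x y (Subgroup.mem_sup_left (Subgroup.commutator_mem_commutator hx hy))
    have h22 : ∀ x ∈ H₂, ∀ y ∈ H₂, Commute (x : Δ ⧸ K) (y : Δ ⧸ K) := fun x hx y hy =>
      hc x y (Subgroup.mem_sup_right (Subgroup.mem_sup_left
        (Subgroup.commutator_mem_commutator hx hy)))
    have h12 : ∀ x ∈ H₁, ∀ y ∈ H₂, Commute (x : Δ ⧸ K) (y : Δ ⧸ K) := fun x hx y hy =>
      hc x y (Subgroup.mem_sup_right (Subgroup.mem_sup_right ⟨tensHom _ _ (τ x).1 (τ y).2, by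
        rw [MonoidHom.comp_apply, hf]
        exact commutatorElement_eq_of_central τ hτ.2.1
          ((hs _).trans (Prod.ext rfl ((m₁ x).1 hx).symm))
          ((hs _).trans (Prod.ext ((m₂ y).1 hy).symm rfl))⟩))
    have hd : ∀ x : Δ, ∃ a ∈ H₁, ∃ b ∈ H₂, x = a * b := fun x =>
      ⟨s ((τ x).1, 1), by rw [m₁, hs], (s ((τ x).1, 1))⁻¹ * x, by rw [m₂]; simp [hs], by simp⟩
    rw [commutator_def, Subgroup.commutator_le]
    intro x _ y _
    obtain ⟨a, ha, b, hb, rfl⟩ := hd x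
    obtain ⟨a', ha', b', hb', rfl⟩ := hd y
    rw [← QuotientGroup.eq_one_iff]
    change ⁅((a : Δ ⧸ K) * b), ((a' : Δ ⧸ K) * b')⁆ = 1
    rw [commutatorElement_eq_one_iff_commute]
    exact ((h11 a ha a' ha').mul_right (h12 a ha b' hb')).mul_left
      (((h12 a' ha' b hb).symm).mul_right (h22 b hb b' hb'))
  apply Nat.card_le_card_of_surjective (fun x : A × B × Tens Q₁ Q₂ =>
    (⟨ρ₁ x.1, (ρ₁ x.1).2.1⟩ * (⟨ρ₂ x.2.1, (ρ₂ x.2.1).2.1⟩ * f x.2.2) : τ.ker))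
  rintro ⟨z, hz⟩
  obtain ⟨a, ha, w, hw, rfl⟩ :=
    (mem_sup_of_le_normalizer Subgroup.le_normalizer_of_normal).1 (hcm (hτ.2.2 hz))
  obtain ⟨b, hb, _, ⟨t, rfl⟩, rfl⟩ :=
    (mem_sup_of_le_normalizer Subgroup.le_normalizer_of_normal).1 hw
  have h1 : τ a * τ b = 1 := by
    have h2 : τ (f t) = 1 := (f t).2
    have := MonoidHom.mem_ker.1 hz
    simpa [h2] using this
  have ha2 := (m₁ a).1 (Subgroup.commutator_le_left _ _ ha)
  have hb2 := (m₂ b).1 (Subgroup.commutator_le_left _ _ hb)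
  have ha1 : τ a = 1 := Prod.ext (by simpa [hb2] using congrArg Prod.fst h1) ha2
  have hb1 : τ b = 1 := by rwa [ha1, one_mul] at h1
  obtain ⟨a', ha'⟩ := hρ₁ ⟨a, ha1, ha⟩
  obtain ⟨b', hb'⟩ := hρ₂ ⟨b, hb1, hb⟩
  refine ⟨(a', b', t), Subtype.ext ?_⟩
  have e1 : (ρ₁ a' : Δ) = a := congrArg Subtype.val ha'
  have e2 : (ρ₂ b' : Δ) = b := congrArg Subtype.val hb'
  simp [e1, e2]

/-- Let `Q₁` and `Q₂` be finite groups with Schur multipliers `A` and `B`. Then the Schur multiplier of `Q₁ × Q₂` is isomorphic to `A × B × (Q₁ᵃᵇ ⊗ Q₂ᵃᵇ)`, the last factor being the tensor product over the integers of the commutator quotients, written multiplicatively. -/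
theorem result {Q₁ : Type u} {Q₂ : Type v} [Group Q₁] [Group Q₂] [Finite Q₁] [Finite Q₂] {A B : Type w} [CommGroup A] [CommGroup B] (hA : Cfsg.HasSchurMultiplier Q₁ A) (hB : Cfsg.HasSchurMultiplier Q₂ B) : Cfsg.HasSchurMultiplier (Q₁ × Q₂) (A × B × Multiplicative (TensorProduct ℤ (Additive (Abelianization Q₁)) (Additive (Abelianization Q₂)))) := by
  have := finite_of_hasSchurMultiplier hA
  have := finite_of_hasSchurMultiplier hB
  have := finite_tens Q₁ Q₂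
  obtain ⟨⟨Γ₁, _, _, σ₁, h₁, ⟨e₁⟩⟩, -⟩ := id hA
  obtain ⟨⟨Γ₂, _, _, σ₂, h₂, ⟨e₂⟩⟩, -⟩ := id hB
  let β : Γ₁ →* Γ₂ →* Tens Q₁ Q₂ := ((tensHom Q₁ Q₂).comp σ₁).compl₂ σ₂
  have hβ₁ : ∀ x ∈ σ₁.ker, ∀ y, β x y = 1 := fun x hx y => by
    simp [β, MonoidHom.mem_ker.1 hx]
  have hβ₂ : ∀ x, ∀ y ∈ σ₂.ker, β x y = 1 := fun x y hy => by
    simp [β, MonoidHom.mem_ker.1 hy]
  let σ : Tw β →* Q₁ × Q₂ := MonoidHom.mk' (fun x => (σ₁ x.a, σ₂ x.b)) (by
    intro x y; simp)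
  have hσ : ∀ x : Tw β, x ∈ σ.ker ↔ x.a ∈ σ₁.ker ∧ x.b ∈ σ₂.ker := fun x => Prod.ext_iff
  refine hasSchurMultiplier_of_card_le σ ⟨?_, ?_, ?_⟩ ⟨?_⟩ (card_ker_le hA hB)
  · rintro ⟨q₁, q₂⟩
    obtain ⟨x, rfl⟩ := h₁.1 q₁
    obtain ⟨y, rfl⟩ := h₂.1 q₂
    exact ⟨⟨x, y, 1⟩, rfl⟩
  · intro x hx
    obtain ⟨a, b⟩ := (hσ x).1 hx
    rw [Subgroup.mem_center_iff]
    intro y
    refine Tw.ext (Subgroup.mem_center_iff.1 (h₁.2.1 a) _)
      (Subgroup.mem_center_iff.1 (h₂.2.1 b) _) ?_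
    rw [Tw.mul_t, Tw.mul_t, hβ₁ _ a, hβ₂ _ _ b, mul_comm x.t]
  · rintro ⟨x, y, t⟩ hx
    obtain ⟨a, b⟩ := (hσ _).1 hx
    have h3 : ∀ t : Tens Q₁ Q₂, Tw.inT β t ∈ commutator (Tw β) := by
      intro t
      induction t using tens_induction with
      | one => rw [map_one]; exact Subgroup.one_mem _
      | mul s t hs ht => rw [map_mul]; exact Subgroup.mul_mem _ hs ht
      | base q₁ q₂ =>
        obtain ⟨x, rfl⟩ := h₁.1 q₁
        obtain ⟨y, rfl⟩ := h₂.1 q₂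
        have := Tw.commutator_eq β x y
        change Tw.inT β (β x y) ∈ _
        rw [← this]
        exact Subgroup.commutator_mem_commutator trivial trivial
    have h4 : (⟨x, y, t⟩ : Tw β) = Tw.inl β x * Tw.inr β y * Tw.inT β t := by
      ext <;> simp [Tw.inl, Tw.inr, Tw.inT]
    rw [h4]
    exact Subgroup.mul_mem _ (Subgroup.mul_mem _ (map_mem_commutator _ (h₁.2.2 a))
      (map_mem_commutator _ (h₂.2.2 b))) (h3 t)
  · let f : σ.ker →* A × B × Tens Q₁ Q₂ := MonoidHom.mk'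
      (fun x => (e₁ ⟨x.1.a, ((hσ _).1 x.2).1⟩, e₂ ⟨x.1.b, ((hσ _).1 x.2).2⟩, x.1.t)) (by
        intro x y
        rw [Prod.mk_mul_mk, Prod.mk_mul_mk, ← map_mul, ← map_mul]
        refine Prod.ext rfl (Prod.ext rfl ?_)
        change x.1.t * y.1.t * β y.1.a x.1.b = _
        rw [hβ₁ _ ((hσ _).1 y.2).1, mul_one])
    refine MulEquiv.ofBijective f ⟨?_, ?_⟩
    · intro x y h
      have a := congrArg Subtype.val (e₁.injective (congrArg Prod.fst h))
      have b := congrArg Subtype.val (e₂.injective (congrArg (fun z => z.2.1) h))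
      have c := congrArg (fun z => z.2.2) h
      exact Subtype.ext (Tw.ext a b c)
    · rintro ⟨a, b, t⟩
      obtain ⟨a, rfl⟩ := e₁.surjective a
      obtain ⟨b, rfl⟩ := e₂.surjective b
      exact ⟨⟨⟨a.1, b.1, t⟩, (hσ _).2 ⟨a.2, b.2⟩⟩, rfl⟩

end Cfsg.Agent.S3959
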