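import Cfsg.Statements.S3972
import Cfsg.Agent.Perm.SchurRing

set_option autoImplicit false
open Cfsg

namespace Cfsg.Agent.S3972

open Cfsg.Lib.Perm.Schur in

/-- Let `p` be a prime, `m ≥ 2`, and `G` a transitive but not doubly transitive permutation group on `p ^ m` points containing a permutation of order `p ^ m` (necessarily a full cycle). Then `G` is imprimitive, and the normal closure in `G` of the `p ^ (m - 1)`-th power of that permutation is an intransitive normal subgroup. -/
theorem result {Ω : Type*} [Fintype Ω] [DecidableEq Ω] (p m : ℕ) (hp : p.Prime) (hm : 2 ≤ m) (hΩ : Fintype.card Ω = p ^ m) (G : Subgroup (Equiv.Perm Ω)) (htr : MulAction.IsPretransitive G Ω) (h2 : ¬ MulAction.IsMultiplyPretransitive G Ω 2) (g : G) (hg : orderOf g = p ^ m) : ¬ MulAction.IsPreprimitive G Ω ∧ ¬ MulAction.IsPretransitive (Subgroup.normalClosure ({g ^ (p ^ (m - 1))} : Set G)) Ω := by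
  have := Fact.mk hp
  obtain ⟨n, rfl⟩ : ∃ n, m = n + 1 := ⟨m - 1, by omega⟩
  rw [show n + 1 - 1 = n from rfl]
  set C : Subgroup G := Subgroup.zpowers g with hC
  have hCcard : Nat.card C = p ^ (n + 1) := by rw [hC, Nat.card_zpowers, hg]
  have hcyc : IsCyclic C := inferInstance
  letI : CommGroup C := IsCyclic.commGroup
  obtain ⟨e, he, hE⟩ := exists_unique_order_prime (A := C) hcyc hp
    (by rw [hCcard]; exact dvd_pow_self p (by omega))
  set z : C := ⟨g ^ p ^ n, Subgroup.npow_mem_zpowers _ _⟩ with hz
  have hzp : z ^ p = 1 := by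
    apply Subtype.ext
    change (g ^ p ^ n) ^ p = 1
    rw [← pow_mul, ← pow_succ, ← hg, pow_orderOf_eq_one]
  have hz1 : z ≠ 1 := by
    intro h
    have h1 : g ^ p ^ n = 1 := congrArg Subtype.val h
    have h2 := orderOf_dvd_of_pow_eq_one h1
    rw [hg, Nat.pow_dvd_pow_iff_le_right hp.one_lt] at h2
    omega
  -- every nontrivial subgroup of `C` contains `z`
  have hmin : ∀ K : Subgroup C, K ≠ ⊥ → z ∈ K := by
    intro K hK
    have hdvd : p ∣ Nat.card K := by
      have h1 : Nat.card K ∣ p ^ (n + 1) := hCcard ▸ K.card_subgroup_dvd_card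
      obtain ⟨j, -, hj⟩ := (Nat.dvd_prime_pow hp).mp h1
      have : j ≠ 0 := by
        rintro rfl
        exact hK (Subgroup.eq_bot_of_card_eq K hj)
      rw [hj]; exact dvd_pow_self p this
    obtain ⟨y, hy⟩ := exists_prime_orderOf_dvd_card' p hdvd
    have hy' : orderOf (y : C) = p := by rw [Subgroup.orderOf_coe, hy]
    have h1 : Subgroup.zpowers (y : C) ≤ Subgroup.zpowers e := by
      rw [Subgroup.zpowers_le]
      exact hE _ (by rw [← hy', pow_orderOf_eq_one])
    have h2 : Subgroup.zpowers (y : C) = Subgroup.zpowers e :=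
      Subgroup.eq_of_le_of_card_ge h1 (by rw [Nat.card_zpowers, Nat.card_zpowers, he, hy'])
    have h3 : Subgroup.zpowers (y : C) ≤ K := by rw [Subgroup.zpowers_le]; exact y.2
    exact h3 (h2 ▸ hE z hzp)
  obtain ⟨a, ha⟩ : ∃ a : Ω, z • a ≠ a := by
    by_contra h
    push Not at h
    apply hz1
    apply Subtype.ext; apply Subtype.ext
    ext x
    exact h x
  have hst : MulAction.stabilizer C a = ⊥ := by
    by_contra h
    exact ha (hmin _ h)
  have hCtr : MulAction.IsPretransitive C Ω := by
    rw [MulAction.isPretransitive_iff_orbit_eq_univ a]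
    apply Set.eq_of_subset_of_ncard_le (Set.subset_univ _)
    rw [← MulAction.index_stabilizer, hst, Subgroup.index_bot, hCcard, Set.ncard_univ,
      Nat.card_eq_fintype_card, hΩ]
  obtain ⟨χ, hχa, hχ⟩ := exists_equiv_of_regular C hCtr a hst
  have hne : Subgroup.zpowers e ≠ ⊤ := by
    intro h
    have := Nat.card_zpowers e
    rw [h, Subgroup.card_top, he, hCcard] at this
    have h2 : p ^ (n + 1) = p ^ 1 := by rw [this, pow_one]
    have := Nat.pow_right_injective hp.two_le h2
    omega
  have hK : ∃ K : Subgroup C, InvSub (transGrp G χ) K ∧ K ≠ ⊥ ∧ K ≠ ⊤ := by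
    by_contra h
    push Not at h
    apply h2
    apply two_pretransitive_of_orb χ hχ
    intro s t hs ht
    refine mem_orb_of_primitive (A := C) hχ hp he hE hne (fun K hK => ?_) hs ht
    exact or_iff_not_imp_left.mpr (h K hK)
  obtain ⟨K, hK, hKb, hKt⟩ := hK
  refine ⟨fun hprim => ?_, fun hN => ?_⟩
  · rcases invSub_trivial_of_primitive χ K hK with h | h
    · exact hKb h
    · exact hKt h
  · let N : Subgroup G :=
      { carrier := {γ | ∀ x y : C, χ y = γ • χ x → x⁻¹ * y ∈ K}
        one_mem' := fun x y h => by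
          rw [one_smul] at h
          rw [χ.injective h]; simp
        mul_mem' := fun {γ δ} hγ hδ x y h => by
          obtain ⟨w, hw⟩ := χ.surjective (δ • χ x)
          have := K.mul_mem (hδ x w hw) (hγ w y (by rw [h, mul_smul, hw]))
          simpa using this
        inv_mem' := fun {γ} hγ x y h => by
          have := K.inv_mem (hγ y x (by rw [h, smul_inv_smul]))
          simpa using this }
    have hNn : N.Normal := by
      refine ⟨fun γ hγ δ x y h => ?_⟩
      obtain ⟨σ, hσ, hσ'⟩ := exists_mem_transGrp χ δ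
      obtain ⟨x, rfl⟩ := σ.surjective x
      obtain ⟨y, rfl⟩ := σ.surjective y
      apply hK σ hσ
      apply hγ
      rw [hσ', hσ', mul_smul, mul_smul, inv_smul_smul] at h
      exact MulAction.injective δ h
    have hle : Subgroup.normalClosure ({g ^ p ^ n} : Set G) ≤ N := by
      apply Subgroup.normalClosure_le_normal
      rw [Set.singleton_subset_iff]
      intro x y h
      have h1 : χ y = χ (z * x) := by rw [h, hχa, hχa, mul_smul]; rfl
      rw [χ.injective h1, mul_comm z, inv_mul_cancel_left]
      exact hmin K hKb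
    apply hKt
    rw [eq_top_iff]
    intro y _
    obtain ⟨γ, hγ⟩ := hN.exists_smul_eq (χ 1) (χ y)
    simpa using hle γ.2 1 y hγ.symm

end Cfsg.Agent.S3972
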