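import Cfsg.Statements.S3982
import Cfsg.Agent.Solv.PowCoset
import Cfsg.Agent.Trans.SylowIn
import Cfsg.Agent.Solv.FixedPointFree
import Cfsg.Agent.Solv.CoprimeSylow
import Cfsg.Agent.Solv.CoprimeFixed
import Cfsg.Agent.Solv.SylowNumber

set_option autoImplicit false
open Cfsg

namespace Cfsg.Agent.S3982

open Cfsg.Lib.Solv
open scoped Pointwise

/-- Let p be an odd prime and G a finite group of even order divisible by p in which the centralizer of every non-identity p-element has odd order. If some nontrivial p-subgroup of G has a normalizer of even order, then the normalizer of every Sylow p-subgroup of G has even order. -/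
theorem result {G : Type*} [Group G] [Finite G] (p : ℕ) [Fact p.Prime] (hp2 : p ≠ 2) (hpG : p ∣ Nat.card G) (h2G : 2 ∣ Nat.card G) (hC : ∀ g : G, g ≠ 1 → (∃ k : ℕ, orderOf g = p ^ k) → Odd (Nat.card ↥(Subgroup.centralizer ({g} : Set G)))) (Q : Subgroup G) (hQ : IsPGroup p ↥Q) (hQ1 : Q ≠ ⊥) (hev : Even (Nat.card ↥(Subgroup.normalizer (Q : Set G)))) (P : Sylow p G) : Even (Nat.card ↥(Subgroup.normalizer ((P : Subgroup G) : Set G))) := by
  open Cfsg.Lib.Trans in
  have hp : p.Prime := Fact.out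
  obtain ⟨⟨y, hyQ⟩, hy⟩ := exists_prime_orderOf_dvd_card' 2 hev.two_dvd
  rw [Subgroup.orderOf_mk] at hy
  have hyy : y * y = 1 := by rw [← pow_two, ← hy, pow_orderOf_eq_one]
  have hcomm : ∀ g : G, (∃ k : ℕ, orderOf g = p ^ k) → g * y = y * g → g = 1 := by
    intro g hg hc
    by_contra h1
    have h2 : y ∈ Subgroup.centralizer ({g} : Set G) :=
      Subgroup.mem_centralizer_singleton_iff.2 hc.symm
    have := Subgroup.orderOf_dvd_natCard _ h2
    rw [hy] at this
    exact (Nat.not_even_iff_odd.2 (hC g h1 hg)) (even_iff_two_dvd.2 this)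
  obtain ⟨R, hQR, ⟨hRp, hyR⟩, hmax⟩ := Set.Finite.exists_le_maximal
    (s := {R : Subgroup G | IsPGroup p R ∧ y ∈ Subgroup.normalizer (R : Set G)}) (Set.toFinite _)
    (a := Q) ⟨hQ, hyQ⟩
  have hord : ∀ g ∈ R, ∃ k : ℕ, orderOf g = p ^ k := fun g hg => by
    simpa using IsPGroup.iff_orderOf.1 hRp ⟨g, hg⟩
  have hinv : ∀ r ∈ R, y * r * y⁻¹ = r⁻¹ := fun r hr =>
    Fpf.conj_eq_inv_of_involution hyR
      (Fpf.inf_centralizer_eq_bot_iff.2 fun k hk hc => hcomm k (hord k hk) hc) hyy hr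
  haveI := Fpf.isMulCommutative_of_inverted hinv
  set C := Subgroup.centralizer (R : Set G) with hCd
  have hRC : R ≤ C := Subgroup.le_centralizer R
  have hCodd : Odd (Nat.card C) := by
    obtain ⟨⟨g, hg⟩, hg1⟩ := Subgroup.ne_bot_iff_exists_ne_one.1 hQ1
    have hg1' : g ≠ 1 := fun h => hg1 (Subtype.ext h)
    exact Odd.of_dvd_nat (hC g hg1' (hord g (hQR hg))) (Subgroup.card_dvd_of_le
      (Subgroup.centralizer_le (Set.singleton_subset_iff.2 (hQR hg))))
  have hNC := Cfsg.Lib.Solv.normalizer_le_normalizer_centralizer R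
  have hA : Subgroup.zpowers y ≤ Subgroup.normalizer (C : Set G) :=
    Subgroup.zpowers_le.2 (hNC hyR)
  have hcop : (Nat.card (Subgroup.zpowers y)).Coprime (Nat.card C) := by
    rw [Nat.card_zpowers, hy]; exact Nat.coprime_two_left.2 hCodd
  have hs : Group.IsSolvable (Subgroup.zpowers y) ∨ Group.IsSolvable C :=
    Or.inl (Coprime.isSolvable_zpowers y)
  have hRC' : IsSylowIn p R C := by
    obtain ⟨T, hRT, hTC, hTp, hTi, hyT⟩ := Coprime.exists_le_invariant_sylow' hA hcop hs hRC hRp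
      (Subgroup.zpowers_le.2 hyR)
    have : T = R := le_antisymm (hmax ⟨hTp, hyT (Subgroup.mem_zpowers y)⟩ hRT) hRT
    exact ⟨hRC, hRp, this ▸ hTi⟩
  have hRs : IsSylowIn p R ⊤ := by
    refine isSylowIn_of_maximal le_top hRp fun S hS hRS _ => ?_
    by_contra hne
    obtain ⟨x, hx, hxR⟩ := SetLike.exists_of_lt (lt_inf_normalizer hS (lt_of_le_not_ge hRS hne))
    obtain ⟨h, hh, hxh⟩ := Coprime.exists_mul_mem_centralizer hA hcop hs (g := x) (by
      have hy1 : x⁻¹ * (y * x * y⁻¹) ∈ C := by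
        intro r hr
        have e1 := hinv _ (conj_mem_of_mem_normalizer hx.2 (R.inv_mem hr))
        have e2 := hinv _ hr
        have e3 : y⁻¹ * r * y = r⁻¹ := by
          rw [inv_eq_of_mul_eq_one_right hyy] at e2 ⊢; exact e2
        calc r * (x⁻¹ * (y * x * y⁻¹)) = x⁻¹ * (x * r⁻¹ * x⁻¹)⁻¹ * (y * x * y⁻¹) := by group
          _ = x⁻¹ * (y * x * (y⁻¹ * r * y) * y⁻¹) := by rw [← e1, e3]; group
          _ = x⁻¹ * (y * x * y⁻¹) * r := by group
      intro a ha
      classical
      rw [mem_zpowers_iff_mem_range_orderOf, hy] at ha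
      obtain ⟨i, hi, rfl⟩ := Finset.mem_image.1 ha
      have hi2 := Finset.mem_range.1 hi
      interval_cases i
      · simp
      · simpa using hy1)
    have hz : (x * h) * y = y * (x * h) := (hxh y (Subgroup.mem_zpowers y)).symm
    have hzo : (orderOf (x * h)).Coprime p := by
      rw [Nat.coprime_comm, hp.coprime_iff_not_dvd]
      intro hd
      have h1 := orderOf_pow_orderOf_div (orderOf_pos (x * h)).ne' hd
      have h2 := hcomm _ ⟨1, by rw [h1, pow_one]⟩ ((Commute.pow_left hz _).eq)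
      rw [h2, orderOf_one] at h1
      exact hp.one_lt.ne h1
    obtain ⟨k, hk⟩ := hS ⟨x, hx.1⟩
    have hk' : x ^ p ^ k = 1 := congrArg Subtype.val hk
    have hxC : x ∈ C := by
      have h1 : x ^ orderOf (x * h) * ((x * h) ^ orderOf (x * h))⁻¹ ∈ C :=
        pow_mul_inv_pow_mem_of_mul_inv_mem (hNC hx.2)
          (by simpa [mul_assoc] using conj_mem_of_mem_normalizer (hNC hx.2) (C.inv_mem hh)) _
      rw [pow_orderOf_eq_one, inv_one, mul_one] at h1
      exact mem_of_pow_mem_of_pow_mem (hzo.pow_right k) h1 (hk' ▸ C.one_mem)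
    exact hxR (hRC'.eq_inf hS hRS ▸ (⟨hx.1, hxC⟩ : x ∈ S ⊓ C))
  obtain ⟨g, -, hg⟩ := (isSylowIn_top P).exists_cj_eq hRs
  rw [← hg, ← cj_def, map_conj_eq_smul, ← conj_smul_normalizer, card_conj_smul, even_iff_two_dvd,
    ← hy]
  exact Subgroup.orderOf_dvd_natCard _ hyR

end Cfsg.Agent.S3982
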