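import Cfsg.Statements.S3983
import Cfsg.Agent.Solv.Conj
import Cfsg.Agent.Trans.SylowIn
import Cfsg.Agent.Solv.SylowNumber

set_option autoImplicit false
open scoped Pointwise
open Cfsg

namespace Cfsg.Agent.S3983

open Cfsg.Lib.Solv
open scoped Pointwise

theorem eq_of_ti {G : Type*} [Group G] [Finite G] {p : ℕ} [Fact p.Prime] (P : Sylow p G)
    (hTI : ∀ g : G, g ∉ Subgroup.normalizer ((P : Subgroup G) : Set G) →
      (P : Subgroup G) ⊓ (MulAut.conj g • (P : Subgroup G)) = ⊥) (Q R : Sylow p G)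
    (h : (Q : Subgroup G) ⊓ R ≠ ⊥) : Q = R := by
  obtain ⟨a, rfl⟩ := MulAction.exists_smul_eq G P Q
  obtain ⟨b, rfl⟩ := MulAction.exists_smul_eq G P R
  by_contra hne
  apply h
  have h1 : a⁻¹ * b ∉ Subgroup.normalizer ((P : Subgroup G) : Set G) := by
    intro hm
    apply hne
    have : (a⁻¹ * b) • P = P := Sylow.smul_eq_iff_mem_normalizer.2 hm
    rw [← this, ← mul_smul, mul_inv_cancel_left, this]
  have h2 := congrArg (fun H => MulAut.conj a • H) (hTI _ h1)
  simp only [Subgroup.smul_inf, Subgroup.smul_bot] at h2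
  rwa [← conj_mul_smul, mul_inv_cancel_left] at h2

/-- Let P be a Sylow p-subgroup of the finite group G that meets each conjugate g P g⁻¹ with g outside N_G(P) trivially, and let U be a subgroup of G of order divisible by p. Then a Sylow p-subgroup Q of U has the same property inside U: Q meets each conjugate u Q u⁻¹ with u ∈ U outside N_U(Q) trivially. -/
theorem result {G : Type*} [Group G] [Finite G] (p : ℕ) [Fact p.Prime] (P : Sylow p G) (hTI : ∀ g : G, g ∉ Subgroup.normalizer ((P : Subgroup G) : Set G) → (P : Subgroup G) ⊓ (MulAut.conj g • (P : Subgroup G)) = ⊥) (U : Subgroup G) (hU : p ∣ Nat.card ↥U) (Q : Sylow p ↥U) : ∀ u : ↥U, u ∉ Subgroup.normalizer ((Q : Subgroup ↥U) : Set ↥U) → (Q : Subgroup ↥U) ⊓ (MulAut.conj u • (Q : Subgroup ↥U)) = ⊥ := by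
  intro u hu
  by_contra h
  apply hu
  obtain ⟨S, hS⟩ := (Cfsg.Lib.Trans.isSylowIn_map_subtype Q).exists_sylow_inf
  obtain ⟨S', hS'⟩ := (Cfsg.Lib.Trans.isSylowIn_map_subtype (u • Q)).exists_sylow_inf
  have hSS : S = S' := by
    refine eq_of_ti P hTI S S' fun h0 => h ?_
    rw [← Subgroup.map_eq_bot_iff_of_injective _ U.subtype_injective,
      Subgroup.map_inf _ _ _ U.subtype_injective, ← coe_sylow_smul, ← hS, ← hS', eq_bot_iff, ← h0]
    exact inf_le_inf inf_le_left inf_le_left
  rw [hSS, hS'] at hS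
  rw [mem_normalizer_iff_conj_smul_eq, ← coe_sylow_smul]
  exact Subgroup.map_injective U.subtype_injective hS

end Cfsg.Agent.S3983
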