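import Cfsg.Statements.S3984
import Cfsg.Agent.S3983
import Cfsg.Agent.Solv.CoprimeFixed
import Cfsg.Agent.Solv.Cores
import Cfsg.Agent.Solv.SchurZassenhaus

set_option autoImplicit false
open scoped Pointwise
open Cfsg

namespace Cfsg.Agent.S3984

open Cfsg.Lib.Solv
open scoped Pointwise

/-- Let P be a Sylow p-subgroup of the finite group G that meets each conjugate g P g⁻¹ with g outside N_G(P) trivially, and let N be a normal subgroup of G of order prime to p. Then every Sylow p-subgroup Q of G ⧸ N meets each conjugate x Q x⁻¹ with x outside its normalizer trivially. -/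
theorem result {G : Type*} [Group G] [Finite G] (p : ℕ) [Fact p.Prime] (P : Sylow p G) (hTI : ∀ g : G, g ∉ Subgroup.normalizer ((P : Subgroup G) : Set G) → (P : Subgroup G) ⊓ (MulAut.conj g • (P : Subgroup G)) = ⊥) (N : Subgroup G) [N.Normal] (hN : (Nat.card ↥N).Coprime p) (Q : Sylow p (G ⧸ N)) : ∀ x : G ⧸ N, x ∉ Subgroup.normalizer ((Q : Subgroup (G ⧸ N)) : Set (G ⧸ N)) → (Q : Subgroup (G ⧸ N)) ⊓ (MulAut.conj x • (Q : Subgroup (G ⧸ N))) = ⊥ := by
  open Cfsg.Lib.Trans in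
  intro x hx
  by_contra h
  apply hx
  have hs := QuotientGroup.mk'_surjective N
  have hk : (QuotientGroup.mk' N).ker = N := QuotientGroup.ker_mk' N
  have lift : ∀ R : Sylow p (G ⧸ N), ∃ S : Sylow p G,
      (S : Subgroup G).map (QuotientGroup.mk' N) = R := by
    intro R
    obtain ⟨y, -, hy⟩ := (isSylowIn_top R).exists_cj_eq (by
      have := (isSylowIn_top P).map (QuotientGroup.mk' N)
      rwa [Subgroup.map_top_of_surjective _ hs] at this)
    obtain ⟨g, rfl⟩ := hs y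
    exact ⟨g • P, by rw [Cfsg.Lib.Solv.coe_sylow_smul, map_conj_smul, ← hy]; rfl⟩
  obtain ⟨S, hS⟩ := lift Q
  obtain ⟨S', hS'⟩ := lift (x • Q)
  obtain ⟨⟨z, hz1, hz2⟩, hz⟩ := Subgroup.ne_bot_iff_exists_ne_one.1 h
  have hz' : z ≠ 1 := fun h => hz (Subtype.ext h)
  rw [← Cfsg.Lib.Solv.coe_sylow_smul, ← hS'] at hz2
  rw [← hS] at hz1
  obtain ⟨a, ha, rfl⟩ := hz1
  obtain ⟨b, hb, hab⟩ := hz2
  have hK : IsPGroup p (Subgroup.zpowers a) := S.isPGroup'.to_le (Subgroup.zpowers_le.2 ha)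
  obtain ⟨n, hn, hle⟩ := Coprime.exists_conj_le (A := Subgroup.zpowers a) (K := N)
    (by rw [Subgroup.normalizer_eq_top]; exact le_top) (coprime_card_of_isPGroup hK hN)
    (Or.inl (Coprime.isSolvable_zpowers a)) (L := S') (by
      rintro _ ⟨j, rfl⟩
      refine ⟨b ^ j * (a ^ j)⁻¹, ?_, by simpa using Subgroup.zpow_mem _ hb j⟩
      rw [← hk, MonoidHom.mem_ker, map_mul, map_inv, map_zpow, map_zpow, hab, mul_inv_cancel])
  have hSS : n • S = S' := by
    refine S3983.eq_of_ti P hTI _ _ fun h0 => hz' ?_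
    have : n * a * n⁻¹ ∈ ((n • S : Sylow p G) : Subgroup G) ⊓ S' :=
      ⟨conj_mem_conj_smul n ha, hle (conj_mem_conj_smul n (Subgroup.mem_zpowers a))⟩
    rw [h0, Subgroup.mem_bot, conj_eq_one_iff] at this
    rw [this, map_one]
  rw [mem_normalizer_iff_conj_smul_eq, ← Cfsg.Lib.Solv.coe_sylow_smul, ← hS', ← hS, ← hSS,
    Cfsg.Lib.Solv.coe_sylow_smul, map_conj_smul,
    show QuotientGroup.mk' N n = 1 from (QuotientGroup.eq_one_iff n).2 hn, conj_one_smul]

end Cfsg.Agent.S3984
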