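import Cfsg.Statements.S3985
import Cfsg.Agent.Solv.SylowNumber
import Cfsg.Agent.Solv.CyclicP
import Cfsg.Agent.Solv.Schmidt
import Cfsg.Agent.Solv.Nilpotent

set_option autoImplicit false
open scoped Pointwise
open Cfsg

namespace Cfsg.Agent.S3985

open Cfsg.Lib.Solv
open scoped Pointwise

/-- Let P be a cyclic Sylow p-subgroup of the finite group G. Then P meets each conjugate g P g⁻¹ with g outside N_G(P) trivially if and only if P is weakly self-centralizing: C_G(x) = C_G(P) for every non-identity x ∈ P. -/
theorem result {G : Type*} [Group G] [Finite G] (p : ℕ) [Fact p.Prime] (P : Sylow p G) (hcyc : IsCyclic ↥(P : Subgroup G)) : (∀ g : G, g ∉ Subgroup.normalizer ((P : Subgroup G) : Set G) → (P : Subgroup G) ⊓ (MulAut.conj g • (P : Subgroup G)) = ⊥) ↔ ∀ x : G, x ∈ (P : Subgroup G) → x ≠ 1 → Subgroup.centralizer ({x} : Set G) = Subgroup.centralizer ((P : Subgroup G) : Set G) := by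
  have hp : p.Prime := Fact.out
  haveI : IsMulCommutative (P : Subgroup G) := IsCyclic.isMulCommutative
  constructor
  · intro hTI x hx hx1
    refine le_antisymm ?_ (Subgroup.centralizer_le (Set.singleton_subset_iff.2 hx))
    refine le_of_forall_prime_pow_mem fun r hr k c hc hco => ?_
    have hc' : c * x = x * c := Subgroup.mem_centralizer_singleton_iff.1 hc
    have hcN : c ∈ Subgroup.normalizer ((P : Subgroup G) : Set G) := by
      by_contra h
      have : x ∈ (P : Subgroup G) ⊓ MulAut.conj c • (P : Subgroup G) :=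
        ⟨hx, mem_conj_smul.2 (by rw [mul_assoc, ← hc', inv_mul_cancel_left]; exact hx)⟩
      rw [hTI c h, Subgroup.mem_bot] at this
      exact hx1 this
    by_cases hrp : r = p
    · subst hrp
      exact Subgroup.le_centralizer _ (le_sylow_of_normalizes
        (IsPGroup.of_card (by rw [Nat.card_zpowers, hco])) P (Subgroup.zpowers_le.2 hcN)
        (Subgroup.mem_zpowers c))
    · refine mem_centralizer_of_abelian_of_forall_pow_eq_one P.isPGroup' hcN
        (by rw [hco]; exact Nat.Coprime.pow_left _ ((Nat.coprime_primes hr hp).2 hrp)) ?_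
      intro v hv hvp
      have hvx : v ∈ Subgroup.zpowers x := by
        rcases PG.le_total_of_isCyclic P.isPGroup' (Subgroup.zpowers_le.2 hv)
          (Subgroup.zpowers_le.2 hx) with h | h
        · exact h (Subgroup.mem_zpowers v)
        · have h1 : orderOf x ∣ orderOf v := by
            rw [← Nat.card_zpowers, ← Nat.card_zpowers]; exact Subgroup.card_dvd_of_le h
          have h2 : orderOf v ∣ p := orderOf_dvd_of_pow_eq_one hvp
          have h3 : orderOf x = p := ((Nat.dvd_prime hp).1 (h1.trans h2)).resolve_left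
            (mt orderOf_eq_one_iff.1 hx1)
          have h4 := Subgroup.eq_of_le_of_card_ge h (by
            rw [Nat.card_zpowers, Nat.card_zpowers, h3]; exact Nat.le_of_dvd hp.pos h2)
          exact h4 ▸ Subgroup.mem_zpowers v
      obtain ⟨j, rfl⟩ := hvx
      exact Commute.zpow_right hc' j
  · intro h g hg
    by_contra h0
    obtain ⟨⟨x, hx1, hx2⟩, hx⟩ := Subgroup.ne_bot_iff_exists_ne_one.1 h0
    have hx' : x ≠ 1 := fun h => hx (Subtype.ext h)
    obtain ⟨y, hy, rfl⟩ := mem_conj_smul_iff_exists.1 hx2
    have h1 : MulAut.conj g • (P : Subgroup G) ≤ Subgroup.centralizer ((P : Subgroup G) : Set G) := by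
      rw [← h _ hx1 hx', ← conj_smul_centralizer_singleton]
      exact conj_smul_mono g ((Subgroup.le_centralizer _).trans
        (Subgroup.centralizer_le (Set.singleton_subset_iff.2 hy)))
    exact hg (mem_normalizer_of_conj_mem (conj_smul_le_iff.1 (le_sylow_of_normalizes
      (isPGroup_conj_smul P.isPGroup' g) P (h1.trans (Subgroup.centralizer_le_normalizer _)))))

end Cfsg.Agent.S3985
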