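import Cfsg.Statements.S3986
import Cfsg.Agent.Solv.SylowDirect

set_option autoImplicit false
open Cfsg

namespace Cfsg.Agent.S3986

open Cfsg.Lib.Solv Cfsg.Lib.Solv.ClassSize Subgroup

/-- Let p be a prime and G a finite group. Then some Sylow p-subgroup of G is a direct factor of G (it is normal and has a normal complement) if and only if every element of p-power order commutes with every element whose order is a power of a prime other than p. -/
theorem result {G : Type*} [Group G] [Finite G] (p : ℕ) [Fact p.Prime] : (∃ (P : Sylow p G) (K : Subgroup G), (P : Subgroup G).Normal ∧ K.Normal ∧ (P : Subgroup G) ⊓ K = ⊥ ∧ (P : Subgroup G) ⊔ K = ⊤) ↔ ∀ x y : G, (∃ a : ℕ, orderOf x = p ^ a) → (∃ q b : ℕ, q.Prime ∧ q ≠ p ∧ orderOf y = q ^ b) → x * y = y * x := by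
  constructor
  · rintro ⟨P, K, hP, hK, hinf, hsup⟩ x y ⟨a, ha⟩ ⟨q, b, hq, hqp, hb⟩
    have hx : x ∈ (P : Subgroup G) := mem_sylow_of_normal P ha
    have hy : y ∈ K := by
      refine mem_of_normal_of_coprime ?_
      obtain ⟨k, hk⟩ := IsPGroup.iff_card.1 P.isPGroup'
      have h1 : K.index ∣ p ^ k := by
        rw [← relIndex_top_right, ← hsup, relIndex_sup_right, ← hk]
        exact relIndex_dvd_card _ _
      rw [hb]
      exact Nat.Coprime.coprime_dvd_right h1
        (Nat.Coprime.pow _ _ ((Nat.coprime_primes hq Fact.out).2 hqp))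
    exact (commute_of_normal_of_disjoint _ _ hP hK (disjoint_iff.2 hinf) x y hx hy).eq
  · intro h
    obtain ⟨P⟩ : Nonempty (Sylow p G) := inferInstance
    obtain ⟨hP, K, hK, hc, -⟩ := sylow_direct_of_forall_mem P fun q hq hqp y k hk => by
      rw [mem_centralizer_iff]
      intro x hx
      exact h x y (exists_orderOf_eq_pow_of_mem P.isPGroup' hx) ⟨q, k, hq, hqp, hk⟩
    exact ⟨P, K, hP, hK, hc.symm.disjoint.eq_bot, hc.symm.sup_eq_top⟩

end Cfsg.Agent.S3986
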