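import Cfsg.Statements.S3987
import Cfsg.Agent.Solv.SylowDirect
import Cfsg.Agent.S3986

set_option autoImplicit false
open Cfsg

namespace Cfsg.Agent.S3987

open Cfsg.Lib.Solv Cfsg.Lib.Solv.ClassSize Subgroup

/-- Let p be a prime and G a finite group. Then some Sylow p-subgroup of G is a direct factor of G (normal with a normal complement) if and only if for every element x of p-power order and every element y whose order is a power of a prime other than p, the conjugacy class of x y has as many elements as the product of the sizes of the classes of x and of y. -/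
theorem result {G : Type*} [Group G] [Finite G] (p : ℕ) [Fact p.Prime] : (∃ (P : Sylow p G) (K : Subgroup G), (P : Subgroup G).Normal ∧ K.Normal ∧ (P : Subgroup G) ⊓ K = ⊥ ∧ (P : Subgroup G) ⊔ K = ⊤) ↔ ∀ x y : G, (∃ a : ℕ, orderOf x = p ^ a) → (∃ q b : ℕ, q.Prime ∧ q ≠ p ∧ orderOf y = q ^ b) → (Subgroup.centralizer ({x * y} : Set G)).index = (Subgroup.centralizer ({x} : Set G)).index * (Subgroup.centralizer ({y} : Set G)).index := by
  rw [S3986.result]
  constructor
  · intro h x y ⟨a, ha⟩ ⟨q, b, hq, hqp, hb⟩
    have hc : Commute x y := h x y ⟨a, ha⟩ ⟨q, b, hq, hqp, hb⟩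
    rw [cent_mul_of_coprime hc (by
      rw [ha, hb]
      exact Nat.Coprime.pow _ _ ((Nat.coprime_primes Fact.out hq).2 hqp.symm))]
    refine index_inf_of_coprime ?_
    obtain ⟨k, hk⟩ := exists_index_eq_pow_of_forall_mem (p := p) (K := centralizer ({x} : Set G))
      fun r hr hrp z j hj => mem_cent.2 (h x z ⟨a, ha⟩ ⟨r, j, hr, hrp, hj⟩).symm
    have h2 := not_dvd_index_of_forall_mem (Fact.out : p.Prime) (K := centralizer ({y} : Set G))
      fun z j hj => mem_cent.2 (h z y ⟨j, hj⟩ ⟨q, b, hq, hqp, hb⟩)
    rw [hk]
    exact Nat.Coprime.pow_left _ ((Nat.Prime.coprime_iff_not_dvd Fact.out).2 h2)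
  · intro h x y hx hy
    have h1 := h x y hx hy
    have h2 := inf_cent_le_cent_mul x y
    have h3 : centralizer ({x} : Set G) ⊓ centralizer ({y} : Set G) = centralizer {x * y} := by
      by_contra hne
      have h4 := index_strictAnti (lt_of_le_of_ne h2 hne)
      have h5 := index_inf_le (H := centralizer ({x} : Set G)) (K := centralizer ({y} : Set G))
      omega
    have h6 : x * y ∈ centralizer ({x} : Set G) := (h3.ge (self_mem_cent _)).1
    have h7 := mem_cent.1 h6
    rw [mul_assoc] at h7
    exact (mul_left_cancel h7).symm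

end Cfsg.Agent.S3987
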