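import Cfsg.Statements.S3989
import Cfsg.Agent.S0071
import Cfsg.Agent.Solv.Fitting
import Cfsg.Agent.Solv.PSolvable
import Cfsg.Agent.Solv.ElemLift

set_option autoImplicit false
open Cfsg

namespace Cfsg.Agent.S3989

open Cfsg.Lib.Solv

universe u

/-- The class product hypothesis. -/
def Hyp (p : ℕ) (G : Type u) [Group G] : Prop :=
  ∀ x y : G, (∃ a : ℕ, orderOf x = p ^ a) → (∃ q b : ℕ, q.Prime ∧ q ≠ p ∧ orderOf y = q ^ b) →
    ∀ z : G, IsConj (x * y) z ↔ ∃ a b : G, z = a * x * a⁻¹ * (b * y * b⁻¹)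

theorem Hyp.quotient {p : ℕ} [hp : Fact p.Prime] {G : Type u} [Group G] [Finite G]
    (h : Hyp p G) (N : Subgroup G) [N.Normal] : Hyp p (G ⧸ N) := by
  rintro x y ⟨a, ha⟩ ⟨q, b, hq, hqp, hb⟩ z
  have hs := QuotientGroup.mk'_surjective N
  obtain ⟨x, rfl, hx⟩ := exists_lift_prime_pow (QuotientGroup.mk' N) hs hp.out ha
  obtain ⟨y, rfl, j, hy⟩ := exists_lift_prime_pow (QuotientGroup.mk' N) hs hq hb
  have key := h x y hx ⟨q, j, hq, hqp, hy⟩
  constructor
  · intro hz
    obtain ⟨c, rfl⟩ := isConj_iff.1 hz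
    exact ⟨c, c, by group⟩
  · rintro ⟨c, d, rfl⟩
    obtain ⟨c, rfl⟩ := hs c
    obtain ⟨d, rfl⟩ := hs d
    have := ((key _).2 ⟨c, d, rfl⟩)
    have h2 := (QuotientGroup.mk' N).map_isConj this
    simpa only [map_mul, map_inv] using h2

/-- The elements that stabilise the class of `y` under left multiplication. -/
def stab {G : Type u} [Group G] [Finite G] (y : G) : Subgroup G where
  carrier := {k | ∀ z, IsConj y z → IsConj y (k * z)}
  one_mem' := fun z hz => by simpa using hz
  mul_mem' := fun {a b} ha hb z hz => by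
    rw [mul_assoc]; exact ha _ (hb z hz)
  inv_mem' := fun {a} ha => by
    have hpow : ∀ n : ℕ, ∀ z, IsConj y z → IsConj y (a ^ n * z) := by
      intro n
      induction n with
      | zero => intro z hz; simpa using hz
      | succ n ih => intro z hz; rw [pow_succ', mul_assoc]; exact ha _ (ih z hz)
    have : a⁻¹ = a ^ (orderOf a - 1) := by
      rw [inv_eq_iff_mul_eq_one, ← pow_succ', Nat.sub_add_cancel (orderOf_pos a),
        pow_orderOf_eq_one]
    intro z hz
    rw [this]
    exact hpow _ z hz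

theorem stab_normal {G : Type u} [Group G] [Finite G] (y : G) : (stab y).Normal := by
  refine ⟨fun k hk g z hz => ?_⟩
  have h1 : IsConj y (g⁻¹ * z * g) := hz.trans (isConj_iff.2 ⟨g⁻¹, by group⟩)
  exact (hk _ h1).trans (isConj_iff.2 ⟨g, by group⟩)

theorem minimal_isPSolvable {p : ℕ} [hp : Fact p.Prime] {G : Type u} [Group G] [Finite G]
    (h : Hyp p G) (N : Subgroup G) [N.Normal]
    (hmin : ∀ M : Subgroup G, M.Normal → M ≤ N → M = ⊥ ∨ M = N) : IsPSolvable p N := by
  let P : Sylow p N := default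
  by_cases hc : ∃ M : Subgroup N, M.Normal ∧ M.IsComplement' (P : Subgroup N)
  · obtain ⟨M, hM, hMP⟩ := hc
    refine IsPSolvable.extension M (IsPSolvable.of_coprime ?_) (IsPSolvable.of_isPGroup ?_)
    · rw [← hMP.index_eq_card]
      exact ((Nat.Prime.coprime_iff_not_dvd hp.out).2 P.not_dvd_index).symm
    · exact P.isPGroup'.of_equiv hMP.symm.QuotientMulEquiv.symm
  exfalso
  rw [Cfsg.Agent.S0071.result P] at hc
  push Not at hc
  obtain ⟨Q, hQ, g, hg, hgc, hgn⟩ := hc
  apply hgn
  apply Cfsg.Lib.Trans.mem_of_forall_prime_pow_mem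
  intro y hy q hq hqd ⟨k, hk⟩
  have hqp : q ≠ p := by
    rintro rfl
    exact (Nat.Prime.coprime_iff_not_dvd hq).1 hgc.symm hqd
  have hyn : y ∈ Subgroup.normalizer (Q : Set N) := (Subgroup.zpowers_le.2 hg) hy
  by_contra hyc
  rw [Subgroup.mem_centralizer_iff] at hyc
  push Not at hyc
  obtain ⟨v, hv, hvy⟩ := hyc
  set x : N := v * (y * v⁻¹ * y⁻¹) with hx
  have hxQ : x ∈ Q := Q.mul_mem hv ((Subgroup.mem_normalizer_iff.1 hyn _).1 (Q.inv_mem hv))
  have hx1 : x ≠ 1 := by
    intro h1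
    apply hvy
    have : x * y * v = v * y := by rw [hx]; group
    rw [← this, h1, one_mul]
  obtain ⟨a, ha⟩ := (IsPGroup.iff_orderOf.1 P.isPGroup') ⟨x, hQ hxQ⟩
  have hxo : orderOf (x : G) = p ^ a := by
    rw [Subgroup.orderOf_coe, ← ha, ← Subgroup.orderOf_coe (⟨x, hQ hxQ⟩ : (P : Subgroup N))]
  have hyo : orderOf (y : G) = q ^ k := by rw [Subgroup.orderOf_coe, hk]
  have key := h x y ⟨a, hxo⟩ ⟨q, k, hq, hqp, hyo⟩
  have hxy : IsConj (y : G) (x * y) := isConj_iff.2 ⟨v, by
    rw [hx]; push_cast; group⟩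
  have hxK : (x : G) ∈ stab (y : G) := by
    intro z hz
    obtain ⟨b, rfl⟩ := isConj_iff.1 hz
    exact hxy.trans ((key _).2 ⟨1, b, by group⟩)
  have := stab_normal (y : G)
  rcases hmin (stab (y : G) ⊓ N) inferInstance inf_le_right with h0 | h0
  · have : (x : G) ∈ stab (y : G) ⊓ N := ⟨hxK, x.2⟩
    rw [h0, Subgroup.mem_bot] at this
    exact hx1 (Subtype.ext this)
  · have h1 : (y : G)⁻¹ ∈ stab (y : G) ⊓ N := by rw [h0]; exact N.inv_mem y.2
    have h2 := h1.1 y (IsConj.refl _)
    rw [inv_mul_cancel, isConj_one_left] at h2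
    apply hvy
    have : y = 1 := Subtype.ext h2
    rw [this, mul_one, one_mul]

theorem isPSolvable_of_hyp {p : ℕ} [Fact p.Prime] (n : ℕ) :
    ∀ (G : Type u) [Group G] [Finite G], Nat.card G = n → Hyp p G → IsPSolvable p G := by
  induction n using Nat.strong_induction_on with
  | _ n ih =>
    intro G _ _ hn H
    rcases subsingleton_or_nontrivial G with h | h
    · exact IsPSolvable.of_subsingleton
    obtain ⟨N, hN, h1, -, hmin⟩ := exists_minimal_normal_le (⊤ : Subgroup G) top_ne_bot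
    refine IsPSolvable.extension N (minimal_isPSolvable H N hmin)
      (ih _ ?_ (G ⧸ N) rfl (H.quotient N))
    rw [← hn, Subgroup.card_eq_card_quotient_mul_card_subgroup N]
    have : Nontrivial N := (Subgroup.nontrivial_iff_ne_bot _).2 h1
    exact lt_mul_of_one_lt_right Nat.card_pos Finite.one_lt_card

/-- Let p be a prime and G a finite group such that for every element x of p-power order and every element y whose order is a power of a prime other than p, the conjugacy class of x y is the set of all products of a conjugate of x with a conjugate of y. Then G is p-solvable. -/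
theorem result {G : Type*} [Group G] [Finite G] (p : ℕ) [Fact p.Prime] (h : ∀ x y : G, (∃ a : ℕ, orderOf x = p ^ a) → (∃ q b : ℕ, q.Prime ∧ q ≠ p ∧ orderOf y = q ^ b) → ∀ z : G, IsConj (x * y) z ↔ ∃ a b : G, z = a * x * a⁻¹ * (b * y * b⁻¹)) : Cfsg.IsPSolvable p G :=
  isPSolvable_of_hyp _ G rfl h

end Cfsg.Agent.S3989
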