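import Cfsg.Statements.S3992
import Cfsg.Agent.S3633
import Cfsg.Agent.S1475
import Cfsg.Agent.CITCor.EPPO
import Cfsg.Agent.CITCor.NonSimple
import Cfsg.Agent.Char.Burnside

set_option autoImplicit false
open Cfsg

namespace Cfsg.Agent.S3992

open Cfsg.Lib.Solv Cfsg.Lib.CITCor Subgroup

theorem isSolvable_comap {G : Type*} [Group G] (R : Subgroup G) [R.Normal] [Group.IsSolvable R]
    (N : Subgroup (G ⧸ R)) [Group.IsSolvable N] :
    Group.IsSolvable (N.comap (QuotientGroup.mk' R)) :=
  Group.isSolvable_of_ker_le_range (inclusion (QuotientGroup.le_comap_mk' R N))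
    ((QuotientGroup.mk' R).subgroupComap N) fun x hx =>
    ⟨⟨x, (QuotientGroup.eq_one_iff _).1 (congrArg Subtype.val hx)⟩, rfl⟩

/-- Let G be a finite non-solvable group in which every element has prime-power order, and let R be its largest solvable normal subgroup. Then R is a p-group for some prime p; G/R has a non-abelian simple normal subgroup contained in every nontrivial normal subgroup of G/R (its unique minimal normal subgroup); and the order of every solvable subgroup of G has at most two prime divisors. -/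
theorem result {G : Type*} [Group G] [Finite G] (hns : ¬ Group.IsSolvable G) (hpp : ∀ g : G, g ≠ 1 → IsPrimePow (orderOf g))
    (R : Subgroup G) [R.Normal] (hRs : Group.IsSolvable ↥R) (hRmax : ∀ N : Subgroup G, N.Normal → Group.IsSolvable ↥N → N ≤ R) :
    (∃ p : ℕ, p.Prime ∧ IsPGroup p ↥R) ∧
      (∃ M : Subgroup (G ⧸ R), M.Normal ∧ IsSimpleGroup ↥M ∧ ¬ IsMulCommutative ↥M ∧
        ∀ N : Subgroup (G ⧸ R), N.Normal → N ≠ ⊥ → M ≤ N) ∧
      ∀ H : Subgroup G, Group.IsSolvable ↥H → (Nat.card ↥H).primeFactors.card ≤ 2 := by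
  have hE : EPPO G := hpp
  refine ⟨?_, ?_, fun H hH => Cfsg.Agent.S1475.result fun g =>
    (eq_or_ne g 1).symm.imp_left (hE.subgroup H g)⟩
  · have h3 : 3 ≤ (Nat.card G).primeFactors.card := by
      by_contra h
      have hm : ∀ r : ℕ, r.Prime → r ∣ Nat.card G → r ∈ (Nat.card G).primeFactors :=
        fun r hr h => Nat.mem_primeFactors.2 ⟨hr, h, Nat.card_pos.ne'⟩
      obtain h | h | h : (Nat.card G).primeFactors.card = 0 ∨ (Nat.card G).primeFactors.card = 1 ∨
        (Nat.card G).primeFactors.card = 2 := by omega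
      · rw [Finset.card_eq_zero] at h
        exact hns (Cfsg.Lib.Char.isSolvable_of_prime_dvd_card Nat.prime_two Nat.prime_two G
          fun r hr h' => by simpa [h] using hm r hr h')
      · obtain ⟨p, h⟩ := Finset.card_eq_one.1 h
        have hp : p.Prime := Nat.prime_of_mem_primeFactors (n := Nat.card G) (by simp [h])
        exact hns (Cfsg.Lib.Char.isSolvable_of_prime_dvd_card hp hp G
          fun r hr h' => by simpa [h] using hm r hr h')
      · obtain ⟨p, q, -, h⟩ := Finset.card_eq_two.1 h
        have hp : p.Prime := Nat.prime_of_mem_primeFactors (n := Nat.card G) (by simp [h])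
        have hq : q.Prime := Nat.prime_of_mem_primeFactors (n := Nat.card G) (by simp [h])
        exact hns (Cfsg.Lib.Char.isSolvable_of_prime_dvd_card hp hq G
          fun r hr h' => by simpa [h] using hm r hr h')
    have h := (Cfsg.Agent.S3633.result _ h3 ⟨fun r hr => ⟨Nat.prime_of_mem_primeFactors hr,
      Nat.dvd_of_mem_primeFactors hr⟩, fun r hr s hs hrs ⟨x, hx⟩ => ?_⟩ R hRs).1
    swap
    · have hm : ∀ r : ℕ, r.Prime → r ∣ Nat.card R → r ∈ (Nat.card G).primeFactors :=
        fun r hr h => Nat.mem_primeFactors.2 ⟨hr, h.trans (card_subgroup_dvd_card R), Nat.card_pos.ne'⟩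
      by_cases h1 : Nat.card R = 1
      · exact ⟨2, Nat.prime_two, IsPGroup.of_card (n := 0) (by rw [h1, pow_zero])⟩
      obtain ⟨p, hp, hpR⟩ := Nat.exists_prime_and_dvd h1
      exact ⟨p, hp, IsPGroup.of_card (Nat.eq_prime_pow_of_unique_prime_dvd Nat.card_pos.ne'
        fun {d} hd hdR => h d (hm d hd hdR) p (hm p hp hpR) hdR hpR)⟩
    · have hr' := Nat.prime_of_mem_primeFactors hr
      have hs' := Nat.prime_of_mem_primeFactors hs
      have h1 : x ≠ 1 := by
        rintro rfl
        rw [orderOf_one] at hx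
        exact hr'.one_lt.ne' (Nat.eq_one_of_mul_eq_one_right hx.symm)
      obtain ⟨p, -, hp⟩ := (isPrimePow_iff_unique_prime_dvd.1 (hpp x h1))
      exact hrs ((hp r ⟨hr', hx ▸ Dvd.intro _ rfl⟩).trans (hp s ⟨hs', hx ▸ Dvd.intro_left _ rfl⟩).symm)
  · have hO : pCore 2 (G ⧸ R) = ⊥ := by
      have := Fact.mk Nat.prime_two
      have := (pCore_isPGroup 2 (G ⧸ R)).isNilpotent
      have h := hRmax _ inferInstance (isSolvable_comap R (pCore 2 (G ⧸ R)))
      rw [← map_comap_eq_self_of_surjective (QuotientGroup.mk'_surjective R) (pCore 2 (G ⧸ R)),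
        Subgroup.map_eq_bot_iff, QuotientGroup.ker_mk']
      exact h
    obtain ⟨S, hS, hSs, ⟨a, b, hab⟩, hC⟩ := exists_simple (hE.quotient R).isCIT
      (fun h => hns ((Group.isSolvable_iff_subgroup_quotient R).2 ⟨hRs, h⟩)) hO
    refine ⟨S, hS, hSs, fun h => hab (h.is_comm.comm a b), fun N hN hN0 => ?_⟩
    rcases hSs.eq_bot_or_eq_top_of_normal (N.subgroupOf S) inferInstance with h | h
    · refine absurd (le_bot_iff.1 (hC ▸ fun x hx y hy => ?_)) hN0
      exact (commute_of_normal_of_disjoint N S hN hS (subgroupOf_eq_bot.1 h) x y hx hy).symm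
    · exact subgroupOf_eq_top.1 h

end Cfsg.Agent.S3992
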