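import Cfsg.Statements.S4377
-- import your own Cfsg.Agent.* helpers here

set_option autoImplicit false
open Cfsg

namespace Cfsg.Agent.S4377

theorem key (K : Type*) [Group K] [Finite K] {n : ℕ} (hn : n ≠ 0) :
    Nat.card {g : K // g ^ n = 1} = ∑ m ∈ n.divisors, Nat.card {g : K // orderOf g = m} := by
  classical
  have := Fintype.ofFinite K
  have h := sum_card_orderOf_eq_card_pow_eq_one (G := K) hn
  simp only [Nat.card_eq_fintype_card, Fintype.card_subtype]
  convert h.symm

/-- Two finite groups have the same number of elements of each order if and only if, for every n, they have the same number of elements g with gⁿ = 1. -/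
theorem result {G H : Type*} [Group G] [Finite G] [Group H] [Finite H] :
    (∀ n : ℕ, Nat.card {g : G // orderOf g = n} = Nat.card {h : H // orderOf h = n}) ↔
      ∀ n : ℕ, Nat.card {g : G // g ^ n = 1} = Nat.card {h : H // h ^ n = 1} := by
  classical
  have := Fintype.ofFinite G
  have := Fintype.ofFinite H
  constructor
  · intro h
    have h1 : ∀ n : ℕ, n ≠ 0 → Nat.card {g : G // g ^ n = 1} = Nat.card {h : H // h ^ n = 1} := by
      intro n hn
      rw [key G hn, key H hn]
      exact Finset.sum_congr rfl fun m _ => h m
    intro n
    rcases eq_or_ne n 0 with rfl | hn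
    · have h2 := h1 (Nat.card G * Nat.card H) (mul_ne_zero Nat.card_pos.ne' Nat.card_pos.ne')
      simp only [pow_zero]
      convert h2 using 3
      · simp [pow_mul]
      · simp [pow_mul']
    · exact h1 n hn
  · intro h n
    induction n using Nat.strong_induction_on with
    | _ n ih =>
      rcases eq_or_ne n 0 with rfl | hn
      · have : IsEmpty {g : G // orderOf g = 0} := ⟨fun g => (orderOf_pos g.1).ne' g.2⟩
        have : IsEmpty {g : H // orderOf g = 0} := ⟨fun g => (orderOf_pos g.1).ne' g.2⟩
        rw [Nat.card_of_isEmpty, Nat.card_of_isEmpty]
      · have h1 := h n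
        rw [key G hn, key H hn, ← Nat.insert_self_properDivisors hn,
          Finset.sum_insert Nat.self_notMem_properDivisors,
          Finset.sum_insert Nat.self_notMem_properDivisors,
          Finset.sum_congr rfl fun m hm => ih m (Nat.mem_properDivisors.mp hm).2] at h1
        omega

end Cfsg.Agent.S4377
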