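import Cfsg.Statements.S3997
import Cfsg.Agent.S4377

set_option autoImplicit false
open Cfsg

namespace Cfsg.Agent.S3997

/-- Let G and H be finite groups with the same order type: for every m they have the same number of elements of order m. If G is nilpotent then so is H. -/
theorem result {G H : Type*} [Group G] [Finite G] [Group H] [Finite H] (hT : (∀ m : ℕ, Nat.card {g : G // orderOf g = m} = Nat.card {h : H // orderOf h = m})) (hG : Group.IsNilpotent G) :
    Group.IsNilpotent H := by
  have h := Cfsg.Agent.S4377.result.mp hT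
  have hcard : Nat.card G = Nat.card H := by simpa using h 0
  refine ((Group.isNilpotent_of_finite_tfae (G := H)).out 0 3).mpr ?_
  intro p hp P
  obtain ⟨Q⟩ : Nonempty (Sylow p G) := inferInstance
  have hQ : (Q : Subgroup G).Normal := inferInstance
  set a := (Nat.card H).factorization p with ha
  have hQc : Nat.card Q = p ^ a := by rw [Q.card_eq_multiplicity, hcard]
  have h1 : Nat.card {g : G // g ^ p ^ a = 1} = p ^ a := by
    rw [← hQc]
    refine Nat.card_congr (Equiv.subtypeEquivRight fun g => ⟨fun hg => ?_, fun hg => ?_⟩)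
    · have hz : IsPGroup p (Subgroup.zpowers g) := by
        obtain ⟨k, -, hk⟩ := (Nat.dvd_prime_pow hp.out).mp
          (hQc ▸ orderOf_dvd_of_pow_eq_one hg : orderOf g ∣ p ^ a)
        exact IsPGroup.of_card (by rw [Nat.card_zpowers, hk])
      obtain ⟨R, hR⟩ := hz.exists_le_sylow
      have := Sylow.unique_of_normal Q hQ
      rw [Subsingleton.elim R Q] at hR
      exact hR (Subgroup.mem_zpowers g)
    · exact congrArg Subtype.val (pow_card_eq_one' (G := Q) (x := ⟨g, hg⟩))
  rw [h] at h1
  have h2 : ∀ R : Sylow p H, (R : Set H) = {x : H | x ^ p ^ a = 1} := by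
    intro R
    have hRc : Nat.card R = p ^ a := R.card_eq_multiplicity
    refine Set.eq_of_subset_of_ncard_le (fun g hg => ?_) (le_of_eq ?_)
    · have := congrArg Subtype.val (pow_card_eq_one' (G := R) (x := ⟨g, hg⟩))
      rw [hRc] at this
      exact this
    · rw [← Nat.card_coe_set_eq, ← Nat.card_coe_set_eq]
      exact h1.trans hRc.symm
  have : Subsingleton (Sylow p H) := ⟨fun R S => SetLike.coe_injective ((h2 R).trans (h2 S).symm)⟩
  exact Sylow.normal_of_subsingleton P

end Cfsg.Agent.S3997
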