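import Cfsg.Statements.S3999
import Cfsg.Agent.S0690
import Cfsg.Agent.S0042
import Cfsg.Agent.Solv.FrobeniusGroup
import Cfsg.Agent.Solv.NilpotentHall
import Cfsg.Agent.Solv.SylowNumber
import Cfsg.Agent.Perm.QuatAut

set_option autoImplicit false
open Cfsg

namespace Cfsg.Agent.S3999


open Subgroup Cfsg.Lib.Solv Cfsg.Lib.Solv.Fpf
open scoped Pointwise

theorem card_le_four_iff {H : Type*} [Group H] [Finite H] :
    Nat.card {x : H // orderOf x = 5} ≤ 4 ↔
      ∀ x y : H, orderOf x = 5 → orderOf y = 5 → y ∈ zpowers x := by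
  have key : ∀ x : H, orderOf x = 5 → ((zpowers x : Set H) \ {1}).ncard = 4 ∧
      (zpowers x : Set H) \ {1} ⊆ {y | orderOf y = 5} := by
    intro x hx
    constructor
    · rw [Set.ncard_diff_singleton_of_mem (zpowers x).one_mem]
      have : (zpowers x : Set H).ncard = 5 := (Nat.card_zpowers x).trans hx
      omega
    · rintro y ⟨hy, hy1⟩
      have h1 : orderOf y ∣ 5 := hx ▸ orderOf_dvd_of_mem_zpowers hy
      exact ((Nat.dvd_prime Nat.prime_five).mp h1).resolve_left
        fun h => hy1 (orderOf_eq_one_iff.mp h)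
  have e : Nat.card {x : H // orderOf x = 5} = {y : H | orderOf y = 5}.ncard := rfl
  rw [e]
  constructor
  · intro h x y hx hy
    have := Set.eq_of_subset_of_ncard_le (key x hx).2 (by rw [(key x hx).1]; exact h)
    exact (this ▸ hy : y ∈ (zpowers x : Set H) \ {1}).1
  · intro h
    rcases Set.eq_empty_or_nonempty {y : H | orderOf y = 5} with h0 | ⟨x, hx⟩
    · rw [h0]; simp
    · rw [← (key x hx).1]
      refine Set.ncard_le_ncard fun y hy => ⟨h x y hx hy, ?_⟩
      rintro rfl
      simp at hy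

theorem card_five {G : Type*} [Group G] [Finite G] {K H : Subgroup G} [K.Normal]
    (hc : IsComplement' K H) (hf : ∀ x : G, x ∉ K → K ⊓ centralizer {x} = ⊥)
    (h5 : ¬ 5 ∣ Nat.card K) :
    Nat.card {x : G // orderOf x = 5} = Nat.card K * Nat.card {x : H // orderOf x = 5} := by
  have e := QuotientGroup.preimageMkEquivSubgroupProdSet K {y : G ⧸ K | orderOf y = 5}
  have e2 : {y : G ⧸ K // orderOf y = 5} ≃ {x : H // orderOf x = 5} :=
    hc.symm.QuotientMulEquiv.toEquiv.subtypeEquiv fun y =>
      by rw [← MulEquiv.orderOf_eq hc.symm.QuotientMulEquiv y]; rfl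
  rw [← Nat.card_congr e2, ← Nat.card_prod]
  refine Nat.card_congr (Equiv.trans (Equiv.subtypeEquivRight ?_) e)
  intro x
  simp only [Set.mem_preimage, Set.mem_setOf_eq]
  haveI := Fact.mk Nat.prime_five
  constructor
  · intro h
    refine orderOf_eq_prime (by rw [← QuotientGroup.mk_pow, ← h, pow_orderOf_eq_one]; rfl) ?_
    intro h1
    exact h5 (h ▸ K.orderOf_dvd_natCard ((QuotientGroup.eq_one_iff x).mp h1))
  · intro h
    have h1 : x ∉ K := by
      intro h1
      rw [(QuotientGroup.eq_one_iff x).mpr h1] at h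
      simp at h
    refine orderOf_eq_prime ?_ (by rintro rfl; exact h1 K.one_mem)
    rw [← mem_bot, ← hf x h1]
    refine ⟨?_, mem_centralizer_singleton_iff.mpr (Commute.pow_self x 5)⟩
    show x ^ 5 ∈ K
    rw [← QuotientGroup.eq_one_iff, QuotientGroup.mk_pow, ← h, pow_orderOf_eq_one]

theorem le_four_of_solvable {G : Type*} [Group G] [Finite G] {K H : Subgroup G} [K.Normal]
    (hK : K ≠ ⊥) (hf : ∀ h ∈ H, h ≠ 1 → K ⊓ centralizer {h} = ⊥) [Group.IsSolvable H] :
    Nat.card {x : H // orderOf x = 5} ≤ 4 := by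
  have hHK : H ≤ normalizer (K : Set G) := le_normalizer_of_normal
  have key : ∀ x : H, orderOf x = 5 → x ∈ centralizer (fittingSubgroup H : Set H) := by
    intro x hx
    rw [← zpowers_le, le_centralizer_iff]
    refine fitting_le_of_forall_pCore_le fun p _ => ?_
    rw [le_centralizer_iff, zpowers_le]
    have hP : IsPGroup p ((pCore p H).map H.subtype) := (pCore_isPGroup p H).map _
    have hx' : orderOf (x : G) = 5 := by rw [Subgroup.orderOf_coe, hx]
    have hn : (x : G) ∈ normalizer (((pCore p H).map H.subtype : Subgroup G) : Set G) :=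
      le_normalizer_map_subtype _ x.2
    have : (x : G) ∈ centralizer (((pCore p H).map H.subtype : Subgroup G) : Set G) := by
      by_cases hp : p = 2
      · subst hp
        by_contra hc
        have ho : (orderOf (x : G)).Coprime 2 := by rw [hx']; norm_num
        obtain ⟨e⟩ := Cfsg.Lib.Perm.q8_of_not_mem_centralizer hP (fun a ha b hb ha1 hb1 ha2 hb2 => by
          have haH := map_subtype_le _ ha
          have hbH := map_subtype_le _ hb
          have h1 := involution_mem_centralizer hHK hK hf haH (by rw [← sq, ha2]) b hbH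
          have h2 := mem_zpowers_of_commute hHK hK hf Nat.prime_two haH hbH
            (orderOf_eq_prime ha2 ha1) hb2 h1.symm
          obtain ⟨k, rfl⟩ := (mem_powers_iff_mem_zpowers.mpr h2)
          dsimp only at hb1 ⊢
          rcases Nat.even_or_odd' k with ⟨j, rfl | rfl⟩
          · rw [pow_mul, ha2, one_pow] at hb1; exact absurd rfl hb1
          · rw [pow_succ, pow_mul, ha2, one_pow, one_mul]) hn ho hc
        have := Cfsg.Lib.Perm.q8_three_dvd_orderOf e hn ho hc
        omega
      · haveI := isCyclic_of_odd_prime hHK hK hf hp (map_subtype_le _) hP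
        haveI : IsMulCommutative ((pCore p H).map H.subtype) := IsCyclic.isMulCommutative
        exact mem_centralizer_of_prime hHK hK hf (map_subtype_le _) x.2 hn Nat.prime_five
          (by rw [← hx', pow_orderOf_eq_one])
    intro y hy
    exact Subtype.ext (this y (mem_map_of_mem _ hy))
  rw [card_le_four_iff]
  intro x y hx hy
  have h1 := key x hx y (centralizer_fitting_le _ (key y hy))
  have h2 := mem_zpowers_of_commute hHK hK hf Nat.prime_five x.2 y.2
    (by rw [Subgroup.orderOf_coe, hx]) (by rw [← Subgroup.coe_pow, ← hy, pow_orderOf_eq_one]; rfl)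
    (congrArg Subtype.val h1).symm
  obtain ⟨k, hk⟩ := h2
  exact ⟨k, Subtype.ext hk⟩

theorem exists_sl25 : ∃ a b : Matrix.SpecialLinearGroup (Fin 2) (ZMod 5),
    orderOf a = 5 ∧ orderOf b = 5 ∧ a * b ≠ b * a := by
  refine ⟨⟨!![1, 1; 0, 1], by decide⟩, ⟨!![1, 0; 1, 1], by decide⟩,
    @orderOf_eq_prime _ _ _ _ ⟨Nat.prime_five⟩ ?_ ?_,
    @orderOf_eq_prime _ _ _ _ ⟨Nat.prime_five⟩ ?_ ?_, ?_⟩
  · decide +kernel
  · exact fun h => absurd (congrArg (fun M => M.1 0 1) h) (by decide)
  · decide +kernel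
  · exact fun h => absurd (congrArg (fun M => M.1 1 0) h) (by decide)
  · decide +kernel

theorem solvable_of_le_four {G : Type*} [Group G] [Finite G] {K H : Subgroup G} [K.Normal]
    (hK : K ≠ ⊥) (hf : ∀ h ∈ H, h ≠ 1 → K ⊓ centralizer {h} = ⊥)
    (h4 : Nat.card {x : H // orderOf x = 5} ≤ 4) : Group.IsSolvable H := by
  rw [Group.isSolvable_iff_commutator_lt]
  intro S hS
  by_contra hlt
  have hSS : ⁅S, S⁆ = S := (eq_or_lt_of_le (commutator_le_self S)).resolve_right hlt
  let ψ : H →* MulAut K := (MulAut.conjNormal (H := K)).comp H.subtype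
  have hψ : ∀ h : H, h ≠ 1 → ∀ k : K, ψ h k = k → k = 1 := by
    intro h hh k hk
    have h1 : (h : G) * k * (h : G)⁻¹ = k := congrArg Subtype.val hk
    have h2 : (k : G) ∈ K ⊓ centralizer {(h : G)} :=
      ⟨k.2, mem_centralizer_singleton_iff.mpr (mul_inv_eq_iff_eq_mul.mp h1).symm⟩
    rw [hf h h.2 (fun e => hh (Subtype.ext e))] at h2
    exact Subtype.ext h2
  have hinj : Function.Injective ψ := by
    rw [injective_iff_map_eq_one]
    intro h hh
    by_contra hne
    obtain ⟨k, hk⟩ := ne_bot_iff_exists_ne_one.mp hK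
    exact hk (hψ h hne k (by rw [hh]; rfl))
  obtain ⟨e⟩ := Cfsg.Agent.S0690.result (S.map ψ) (by
      rintro _ ⟨h, -, rfl⟩ hne
      exact hψ h (by rintro rfl; exact hne (map_one ψ))) (by
      apply map_injective (S.map ψ).subtype_injective
      rw [Subgroup.map_subtype_commutator, ← map_commutator, hSS, ← MonoidHom.range_eq_map, range_subtype])
    (by rwa [Ne, map_eq_bot_iff_of_injective _ hinj])
  obtain ⟨a, b, ha, hb, hab⟩ := exists_sl25
  obtain ⟨⟨_, x, hx, rfl⟩, rfl⟩ := e.surjective a
  obtain ⟨⟨_, y, hy, rfl⟩, rfl⟩ := e.surjective b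
  rw [MulEquiv.orderOf_eq, ← Subgroup.orderOf_coe, orderOf_injective ψ hinj] at ha hb
  obtain ⟨k, rfl⟩ := card_le_four_iff.mp h4 x y ha hb
  apply hab
  rw [← map_mul, ← map_mul]
  congr 1
  apply Subtype.ext
  show ψ x * ψ (x ^ k) = ψ (x ^ k) * ψ x
  rw [← map_mul, ← map_mul, (Commute.self_zpow x k).eq]

theorem transfer {F G : Type*} [Group F] [Finite F] [Group G] [Finite G] {C K : Subgroup F}
    {D L : Subgroup G} (hC : IsFrobeniusComplement C) (hK : frobeniusKernel C = (K : Set F))
    (hD : IsFrobeniusComplement D) (hL : frobeniusKernel D = (L : Set G))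
    (hKL : Nat.card K = Nat.card L)
    (h5 : Nat.card {x : F // orderOf x = 5} = Nat.card {x : G // orderOf x = 5})
    (hG : Group.IsSolvable G) : Group.IsSolvable F := by
  obtain ⟨_, hK0, hc, hf, hf'⟩ := of_coe_eq hC hK
  obtain ⟨_, hL0, gc, gf, gf'⟩ := of_coe_eq hD hL
  have hCs : Group.IsSolvable C := by
    apply solvable_of_le_four hK0 hf
    by_cases hd : 5 ∣ Nat.card K
    · have hco := (isMalnormal_of_isFrobeniusComplement hC).coprime_card_index
      rw [hc.index_eq_card] at hco
      rw [card_le_four_iff]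
      intro x y hx
      have := Nat.eq_one_of_dvd_coprimes hco (hx ▸ orderOf_dvd_natCard x) hd
      omega
    · rw [card_five hc hf' hd, card_five gc gf' (hKL ▸ hd), hKL] at h5
      rw [Nat.eq_of_mul_eq_mul_left Nat.card_pos h5]
      exact le_four_of_solvable hL0 gf
  obtain ⟨N, hN, -, hn⟩ := Cfsg.Agent.S0042.result C hC
  obtain rfl : N = K := SetLike.coe_injective (hN.trans hK)
  refine (Group.isSolvable_iff_subgroup_quotient N).mpr ⟨IsNilpotent.to_isSolvable, ?_⟩
  exact Group.isSolvable_of_isSolvable_injective (f := hc.symm.QuotientMulEquiv.toMonoidHom)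
    hc.symm.QuotientMulEquiv.injective

theorem setOf_eq_sylow {G : Type*} [Group G] [Finite G] {p : ℕ} [Fact p.Prime] (P : Sylow p G) :
    ((P : Subgroup G) : Set G) ⊆ {x | ∃ k, orderOf x = p ^ k} := fun x hx => by
  obtain ⟨k, hk⟩ := IsPGroup.iff_orderOf.mp P.isPGroup' ⟨x, hx⟩
  exact ⟨k, by rw [← hk, ← Subgroup.orderOf_coe]⟩


/-- Let F be a finite Frobenius group (it has a Frobenius complement) and G a finite group with the same order type as F (for every m the same number of elements of order m). Then G is a Frobenius group; moreover G is solvable if and only if F is. -/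
theorem result {F G : Type*} [Group F] [Finite F] [Group G] [Finite G] (hF : (∃ C : Subgroup F, Cfsg.IsFrobeniusComplement C)) (hT : (∀ m : ℕ, Nat.card {g : F // orderOf g = m} = Nat.card {h : G // orderOf h = m})) :
    (∃ C : Subgroup G, Cfsg.IsFrobeniusComplement C) ∧ (Group.IsSolvable G ↔ Group.IsSolvable F) := by
  obtain ⟨C, hC⟩ := hF
  obtain ⟨K, hK, hKn, hnil⟩ := Cfsg.Agent.S0042.result C hC
  obtain ⟨_, hK0, hc, hf, hf'⟩ := of_coe_eq hC hK.symm
  have hm := isMalnormal_of_isFrobeniusComplement hC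
  have e0 : ∀ m : ℕ, {g : F // orderOf g = m} ≃ {h : G // orderOf h = m} := fun m =>
    Classical.choice (Finite.card_eq.mp (hT m))
  obtain ⟨e, he⟩ : ∃ e : F ≃ G, ∀ x, orderOf (e x) = orderOf x :=
    ⟨Equiv.ofFiberEquiv e0, Equiv.ofFiberEquiv_map e0⟩
  have hcard : Nat.card G = Nat.card K * Nat.card C := by
    rw [hc.card_mul, Nat.card_congr e]
  have hco : (Nat.card C).Coprime (Nat.card K) := hc.index_eq_card ▸ hm.coprime_card_index
  obtain ⟨L, hL⟩ : ∃ L, L = piCore {p | p ∣ Nat.card K} G := ⟨_, rfl⟩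
  haveI : L.Normal := hL ▸ inferInstance
  have hL1 : IsPiNum {p | p ∣ Nat.card K} (Nat.card L) := hL ▸ isPiNum_card_piCore _ _
  have hL2 : IsPiNum {p | p ∣ Nat.card K}ᶜ L.index := by
    rw [isPiNum_compl_iff]
    intro p hp hpK
    haveI := Fact.mk hp
    obtain ⟨P⟩ : Nonempty (Sylow p F) := inferInstance
    obtain ⟨Q⟩ : Nonempty (Sylow p G) := inferInstance
    have hpC : (Nat.card C).Coprime p := Nat.Coprime.coprime_dvd_right hpK hco
    have hPK : (P : Subgroup F) ≤ K := le_of_coprime_card_index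
      (coprime_card_of_isPGroup P.isPGroup' (hc.symm.index_eq_card ▸ hpC))
    have hPn : (P : Subgroup F).Normal := by
      have h1 : ((P.subtype hPK : Sylow p K) : Subgroup K).Normal := inferInstance
      haveI := Sylow.characteristic_of_normal _ h1
      have h2 : (((P.subtype hPK : Sylow p K) : Subgroup K).map K.subtype).Normal := inferInstance
      rwa [Sylow.coe_subtype, subgroupOf_map_subtype, inf_eq_left.mpr hPK] at h2
    have h1 : ((P : Subgroup F) : Set F) = {x | ∃ k, orderOf x = p ^ k} := by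
      refine Set.Subset.antisymm (setOf_eq_sylow P) ?_
      rintro x ⟨k, hk⟩
      have hz : IsPGroup p (zpowers x) := IsPGroup.of_card (by rw [Nat.card_zpowers, hk])
      exact le_sylow_of_normalizes hz P le_normalizer_of_normal (mem_zpowers x)
    have h2 : ((Q : Subgroup G) : Set G) = {x | ∃ k, orderOf x = p ^ k} := by
      refine Set.eq_of_subset_of_ncard_le (setOf_eq_sylow Q) (le_of_eq ?_)
      calc _ = Nat.card {x : F // ∃ k, orderOf x = p ^ k} :=
            (Nat.card_congr (e.subtypeEquiv fun x => by rw [Set.mem_setOf_eq, he])).symm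
        _ = Nat.card (P : Subgroup F) := by
            show {x : F | ∃ k, orderOf x = p ^ k}.ncard = _
            rw [← h1]; rfl
        _ = Nat.card (Q : Subgroup G) := by
            rw [P.card_eq_multiplicity, Q.card_eq_multiplicity, Nat.card_congr e]
    have hQn : (Q : Subgroup G).Normal := ⟨fun x hx g => by
      rw [← SetLike.mem_coe, h2] at hx ⊢
      obtain ⟨k, hk⟩ := hx
      exact ⟨k, by rw [← MulAut.conj_apply, MulEquiv.orderOf_eq, hk]⟩⟩
    have h3 : (Q : Subgroup G) ≤ L :=
      hL ▸ le_piCore hQn (isPiNum_card_of_isPGroup hpK Q.isPGroup')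
    exact fun h => Q.not_dvd_index (h.trans (index_dvd_of_le h3))
  have hLC : (Nat.card L).Coprime (Nat.card C) :=
    hL1.coprime (isPiNum_compl_setOf_dvd_iff.mpr hco)
  have hiK : L.index.Coprime (Nat.card K) := isPiNum_compl_setOf_dvd_iff.mp hL2
  have hmul := L.card_mul_index
  rw [hcard] at hmul
  have hKL : Nat.card K = Nat.card L :=
    Nat.dvd_antisymm (hiK.symm.dvd_of_dvd_mul_right (hmul ▸ dvd_mul_right _ _))
      (hLC.dvd_of_dvd_mul_right (hmul ▸ dvd_mul_right _ _))
  have hidx : L.index = Nat.card C := by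
    rw [hKL] at hmul; exact Nat.eq_of_mul_eq_mul_left Nat.card_pos hmul
  obtain ⟨D, hD⟩ := exists_right_complement'_of_coprime (hL1.coprime hL2)
  have hDc : Nat.card D = Nat.card C := hD.symm.index_eq_card.symm.trans hidx
  have hord : ∀ g : G, orderOf g ∣ Nat.card K ∨ orderOf g ∣ Nat.card C := by
    intro g
    obtain ⟨x, rfl⟩ := e.surjective g
    rw [he]
    by_cases hx : x ∈ frobeniusKernel C
    · exact Or.inl (K.orderOf_dvd_natCard (by rwa [← hK] at hx))
    · obtain ⟨-, a, ha⟩ := notMem_frobeniusKernel_iff.mp hx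
      right
      have := C.orderOf_dvd_natCard ha
      rwa [show a⁻¹ * x * a = MulAut.conj a⁻¹ x by simp, MulEquiv.orderOf_eq] at this
  obtain ⟨hD1, hD2⟩ := frobenius_of_fpf (K := L) (H := D) hD.sup_eq_top
    (by rw [← one_lt_card_iff_ne_bot, ← hKL, one_lt_card_iff_ne_bot]; exact hK0)
    (by rw [← one_lt_card_iff_ne_bot, hDc, one_lt_card_iff_ne_bot]; exact hC.1) (by
      intro d hd hd1
      rw [eq_bot_iff]
      rintro l ⟨hl, hld⟩
      have h1 : orderOf l ∣ Nat.card K := hKL ▸ L.orderOf_dvd_natCard hl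
      have h2 : orderOf d ∣ Nat.card C := hDc ▸ D.orderOf_dvd_natCard hd
      have h3 : Commute l d := mem_centralizer_singleton_iff.mp hld
      have h4 := h3.orderOf_mul_eq_mul_orderOf_of_coprime
        (Nat.Coprime.coprime_dvd_left h1 (Nat.Coprime.coprime_dvd_right h2 hco.symm))
      rcases hord (l * d) with h5 | h5
      · rw [h4] at h5
        exact absurd (orderOf_eq_one_iff.mp (Nat.eq_one_of_dvd_coprimes hco h2
          ((Dvd.intro_left _ rfl).trans h5))) hd1
      · rw [h4] at h5
        exact orderOf_eq_one_iff.mp (Nat.eq_one_of_dvd_coprimes hco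
          ((Dvd.intro _ rfl).trans h5) h1))
  exact ⟨⟨D, hD1⟩, transfer hC hK.symm hD1 hD2 hKL (hT 5),
    transfer hD1 hD2 hC hK.symm hKL.symm (hT 5).symm⟩

end Cfsg.Agent.S3999
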