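import Cfsg.Statements.S4009
import Cfsg.Agent.Solv.HallBound

set_option autoImplicit false
open Cfsg

namespace Cfsg.Agent.S4009


open Cfsg.Lib.Solv Subgroup

/-- Let P be a finite p-group of order p^n whose derived length is exactly k + 1 (the k-th derived subgroup is nontrivial and the (k+1)-st is trivial). Then n ≥ 2^k + 2k − 2. -/
theorem result {P : Type*} [Group P] [Finite P] (p : ℕ) [Fact p.Prime] (n k : ℕ) (hcard : Nat.card P = p ^ n) (hk : derivedSeries P k ≠ ⊥) (hk' : derivedSeries P (k + 1) = ⊥) : 2 ^ k + 2 * k ≤ n + 2 := by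
  have hp : p.Prime := Fact.out
  have hG : IsPGroup p P := IsPGroup.of_card hcard
  have hne : ∀ i < k, ⁅derivedSeries P i, derivedSeries P i⁆ ≠ ⊥ := fun i hi h =>
    hk (le_bot_iff.mp (h ▸ derivedSeries_antitone P hi))
  have step : ∀ i e s : ℕ, p ^ (2 ^ i + 2 * i) * Nat.card (derivedSeries P i) ≤ p ^ e * Nat.card P →
      p ^ (2 ^ i + 2) * Nat.card (derivedSeries P (i + 1)) ≤ p ^ s * Nat.card (derivedSeries P i) →
      p ^ (2 ^ (i + 1) + 2 * (i + 1)) * Nat.card (derivedSeries P (i + 1)) ≤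
        p ^ (e + s) * Nat.card P := by
    intro i e s h1 h2
    calc _ = p ^ (2 ^ i + 2 * i) * (p ^ (2 ^ i + 2) * Nat.card (derivedSeries P (i + 1))) := by
          rw [← mul_assoc, ← pow_add]; congr 2; ring
      _ ≤ p ^ (2 ^ i + 2 * i) * (p ^ s * Nat.card (derivedSeries P i)) := Nat.mul_le_mul_left _ h2
      _ = p ^ s * (p ^ (2 ^ i + 2 * i) * Nat.card (derivedSeries P i)) := by ring
      _ ≤ p ^ s * (p ^ e * Nat.card P) := Nat.mul_le_mul_left _ h1
      _ = _ := by ring
  have hall : ∀ i < k, p ^ (2 ^ i + 2) * Nat.card (derivedSeries P (i + 1)) ≤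
      p ^ 1 * Nat.card (derivedSeries P i) := fun i hi => by
    have h1 := Hall.pow_mul_card_derived_le hG (Hall.derivedSeries_le_lcs i) (hne i hi)
    have : 1 ≤ 2 ^ i := Nat.one_le_two_pow
    rw [show 2 ^ i + 2 = 1 + (2 ^ i - 1 + 2) by omega, pow_add, mul_assoc]
    exact Nat.mul_le_mul_left _ h1
  have key : ∀ i ≤ k,
      p ^ (2 ^ i + 2 * i) * Nat.card (derivedSeries P i) ≤ p ^ 1 * Nat.card P ∨
      (p ^ (2 ^ i + 2 * i) * Nat.card (derivedSeries P i) ≤ p ^ 2 * Nat.card P ∧
        derivedSeries P (i + 1) ≤ (⊤ : Subgroup P).lowerCentralSeries (2 ^ (i + 1))) ∨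
      (p ^ (2 ^ i + 2 * i) * Nat.card (derivedSeries P i) ≤ p ^ 3 * Nat.card P ∧
        derivedSeries P i ≤ (⊤ : Subgroup P).lowerCentralSeries (2 ^ i)) := by
    intro i hi
    induction i with
    | zero => exact Or.inl (by simp)
    | succ i ih =>
      rcases ih (by omega) with h | ⟨h, h'⟩ | ⟨h, h'⟩
      · have : 1 ≤ 2 ^ i := Nat.one_le_two_pow
        rcases le_or_gt (Nat.card (derivedSeries P i))
          (p ^ (2 ^ i - 1 + 2) * Nat.card (derivedSeries P (i + 1))) with h1 | h1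
        · refine Or.inr (Or.inl ⟨step i 1 1 h (hall i hi), ?_⟩)
          refine (Hall.second_derived_le hG (Hall.derivedSeries_le_lcs i) (hne i hi) h1).trans
            (Subgroup.lowerCentralSeries_antitone _ ?_)
          rw [pow_succ, pow_succ]
          omega
        · refine Or.inl (step i 1 0 h ?_)
          rw [pow_zero, one_mul, show 2 ^ i + 2 = 2 ^ i - 1 + 2 + 1 by omega]
          exact Hall.pow_succ_mul_le_of_lt hG h1
      · exact Or.inr (Or.inr ⟨step i 2 1 h (hall i hi), h'⟩)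
      · refine Or.inr (Or.inr ⟨step i 3 0 h ?_, (Hall.commutator_le_lcs h' h').trans
          (Subgroup.lowerCentralSeries_antitone _ (by rw [pow_succ]; omega))⟩)
        rw [pow_zero, one_mul]
        exact Hall.pow_mul_card_derived_le hG h' (hne i hi)
  have h1 : p ^ (2 ^ k + 2 * k) * Nat.card (derivedSeries P k) ≤ p ^ 3 * Nat.card P := by
    rcases key k le_rfl with h | ⟨h, -⟩ | ⟨h, -⟩
    · exact h.trans (Nat.mul_le_mul_right _ (Nat.pow_le_pow_right hp.pos (by omega)))
    · exact h.trans (Nat.mul_le_mul_right _ (Nat.pow_le_pow_right hp.pos (by omega)))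
    · exact h
  have h2 := PG.prime_mul_card_le_of_lt (hG.to_subgroup _) (bot_lt_iff_ne_bot.mpr hk)
  rw [card_bot, mul_one] at h2
  have h3 := (Nat.mul_le_mul_left _ h2).trans h1
  rw [hcard, ← pow_succ, ← pow_add, Nat.pow_le_pow_iff_right hp.one_lt] at h3
  omega

end Cfsg.Agent.S4009
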