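import Cfsg.Statements.S4013
import Cfsg.Agent.Solv.FrobCount

set_option autoImplicit false
open Cfsg

namespace Cfsg.Agent.S4013

/-- Let G be a finite p-group (p prime) and N < M normal subgroups of G such that for some g ∈ M ∖ N the conjugacy class of g is exactly M ∖ N. Then p = 2 and N has index 2 in M. -/
theorem result {G : Type*} [Group G] [Finite G] (p : ℕ) [Fact p.Prime] (hG : IsPGroup p G) (N M : Subgroup G) [N.Normal] [M.Normal] (hNM : N < M) (g : G) (hgM : g ∈ M) (hgN : g ∉ N) (hcl : {h : G | IsConj g h} = (M : Set G) \ (N : Set G)) : p = 2 ∧ N.relIndex M = 2 := by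
  have hp : p.Prime := Fact.out
  have h1 : ({h : G | IsConj g h} : Set G).ncard = (Subgroup.centralizer ({g} : Set G)).index :=
    Cfsg.Lib.Solv.Frob.card_isConj g
  obtain ⟨k, hk⟩ := hG.index (Subgroup.centralizer ({g} : Set G))
  obtain ⟨j, hj⟩ := (hG.to_subgroup M).index (N.subgroupOf M)
  have hj' : N.relIndex M = p ^ j := hj
  have h2 := (N.subgroupOf M).card_mul_index
  rw [Nat.card_congr (Subgroup.subgroupOfEquivOfLe hNM.le).toEquiv, hj] at h2
  rw [hcl, Set.ncard_sdiff hNM.le, hk, ← Nat.card_coe_set_eq, ← Nat.card_coe_set_eq] at h1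
  have h3 : Nat.card N * (p ^ j - 1) = p ^ k := by
    rw [Nat.mul_sub_one, h2]; exact h1
  have hj0 : j ≠ 0 := by
    rintro rfl
    rw [pow_zero, Subgroup.relIndex_eq_one] at hj'
    exact hNM.not_ge hj'
  obtain ⟨i, -, hi⟩ := (Nat.dvd_prime_pow hp).mp (Dvd.intro_left _ h3)
  have hpos : 1 ≤ p ^ j := Nat.one_le_pow _ _ hp.pos
  have hi0 : i = 0 := by
    by_contra hi0
    have h4 : p ∣ p ^ j - 1 := hi ▸ dvd_pow_self p hi0
    have h5 : p ∣ p ^ j := dvd_pow_self p hj0
    have := (Nat.dvd_sub_iff_right hpos h5).mp h4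
    exact hp.one_lt.ne' (Nat.dvd_one.mp this)
  have h4 : p ^ j = 2 := by rw [hi0, pow_zero] at hi; omega
  refine ⟨?_, hj'.trans h4⟩
  exact (Nat.prime_dvd_prime_iff_eq hp Nat.prime_two).mp (h4 ▸ dvd_pow_self p hj0)

end Cfsg.Agent.S4013
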