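import Cfsg.Statements.S4015
import Cfsg.Agent.Solv.PLinearDL

set_option autoImplicit false
open Cfsg

namespace Cfsg.Agent.S4015

open Cfsg.Lib.Solv Cfsg.Lib.Solv.PLin

/-- Let p be an odd prime, F a finite field with q elements where p does not divide q, and e the multiplicative order of q modulo p. Let n ≥ e and write w = ⌊n/e⌋ and k = ⌊log_p w⌋. Then a Sylow p-subgroup of GL(n, F) has derived length exactly k + 1: its (k+1)-st derived subgroup is trivial and its k-th is not. -/
theorem result (p : ℕ) [Fact p.Prime] (hp : p ≠ 2) (F : Type*) [Field F] [Fintype F] (q : ℕ) (hq : Fintype.card F = q) (hpq : ¬ p ∣ q) (n : ℕ) (hn : orderOf (q : ZMod p) ≤ n) (P : Sylow p (Matrix.GeneralLinearGroup (Fin n) F)) : derivedSeries ↥(P : Subgroup (Matrix.GeneralLinearGroup (Fin n) F)) (Nat.log p (n / orderOf (q : ZMod p)) + 1) = ⊥ ∧ derivedSeries ↥(P : Subgroup (Matrix.GeneralLinearGroup (Fin n) F)) (Nat.log p (n / orderOf (q : ZMod p))) ≠ ⊥ := by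
  subst hq
  have hp' : p.Prime := Fact.out
  have he : 0 < orderOf (Fintype.card F : ZMod p) := by
    refine (isOfFinOrder_iff_pow_eq_one.2 ⟨p - 1, by have := hp'.two_le; omega, ?_⟩).orderOf_pos
    exact ZMod.pow_card_sub_one_eq_one (by rwa [Ne, ZMod.natCast_eq_zero_iff])
  constructor
  · refine derivedSeries_eq_bot_GL hpq ?_ _ P.isPGroup'
    rw [mul_comm, ← Nat.div_lt_iff_lt_mul he]
    exact Nat.lt_pow_succ_log_self hp'.one_lt _
  · obtain ⟨G, _, _, V, _, _, _, ρ, hρ, hG, hd, hV⟩ := exists_rep_derivedSeries_ne_bot F hpq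
      (Nat.log p (n / orderOf (Fintype.card F : ZMod p)))
    obtain ⟨φ, hφ⟩ := exists_injective_GL ρ hρ (n := n) (by
      rw [hV, mul_comm, ← Nat.le_div_iff_mul_le he]
      exact Nat.pow_log_le_self _ (Nat.div_pos hn he).ne')
    intro h
    refine hd (derivedSeries_eq_bot_of_surjective (MonoidHom.ofInjective hφ).symm.toMonoidHom
      (MonoidHom.ofInjective hφ).symm.surjective (derivedSeries_eq_bot_of_isPGroup (p := p)
        (fun Q => ?_) (hG.of_equiv (MonoidHom.ofInjective hφ))))
    exact derivedSeries_eq_bot_of_surjective (P.equiv Q).toMonoidHom (P.equiv Q).surjective h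

end Cfsg.Agent.S4015
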