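import Cfsg.Statements.S4023
import Cfsg.Agent.Solv.EqualOrderConj

set_option autoImplicit false
open Cfsg

namespace Cfsg.Agent.S4023

/-- Let p be a prime and G a finite group in which any two p-subgroups of the same order are conjugate, with Sylow p-subgroup P. Then P is cyclic, or elementary abelian, or p = 2 and P is a quaternion group of order 8, or p is odd and P is non-abelian of order p³ and exponent p. -/
theorem result {G : Type*} [Group G] [Finite G]
    {p : ℕ} [Fact p.Prime] (hC : ∀ H K : Subgroup G, IsPGroup p H → IsPGroup p K → Nat.card H = Nat.card K →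
      ∃ g : G, K = H.map (MulAut.conj g).toMonoidHom) (P : Sylow p G) :
    IsCyclic P ∨ Cfsg.IsElementaryAbelian p (P : Subgroup G) ∨
      (p = 2 ∧ Nonempty ((P : Subgroup G) ≃* QuaternionGroup 2)) ∨
      (p ≠ 2 ∧ ¬ IsMulCommutative P ∧ Nat.card P = p ^ 3 ∧ Monoid.exponent P = p) := by
  have := Lib.Solv.PG.structure_of_forall_card_eq P.isPGroup' fun H K hHK => by
    obtain ⟨g, hg⟩ := hC (H.map (P : Subgroup G).subtype) (K.map (P : Subgroup G).subtype)
      ((P.isPGroup'.to_subgroup H).map _) ((P.isPGroup'.to_subgroup K).map _)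
      (by rw [Lib.Solv.card_map_subtype, Lib.Solv.card_map_subtype, hHK])
    exact ⟨(H.equivMapOfInjective _ (Subgroup.subtype_injective _)).trans
      (((Lib.Solv.conjEquiv g _).trans (MulEquiv.subgroupCongr hg.symm)).trans
        (K.equivMapOfInjective _ (Subgroup.subtype_injective _)).symm)⟩
  refine this.imp_right (Or.imp (fun h => ⟨h.1, fun a ha => congrArg Subtype.val (h.2 ⟨a, ha⟩)⟩)
    (Or.imp_right fun ⟨h1, h2, h3, h4⟩ => ⟨h1, h2, h3, ?_⟩))
  refine ((Nat.dvd_prime Fact.out).1 (Monoid.exponent_dvd_of_forall_pow_eq_one h4)).resolve_left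
    fun h => h2 ?_
  have := Monoid.exp_eq_one_iff.1 h
  exact ⟨⟨fun x y => Subsingleton.elim _ _⟩⟩

end Cfsg.Agent.S4023
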