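import Cfsg.Statements.S4024
import Cfsg.Agent.Solv.EqualOrderConj
import Cfsg.Agent.Solv.Ambivalent
import Cfsg.Agent.Solv.PSolvable

set_option autoImplicit false
open Cfsg

namespace Cfsg.Agent.S4024

open Subgroup Cfsg.Lib.Solv

/-- Let p be an odd prime and G a finite group in which any two p-subgroups of the same order are conjugate, with Sylow p-subgroup P. If H is a normal p-solvable subgroup of G whose order is divisible by p, then P is abelian, and either P ≤ H or P is cyclic. -/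
theorem result {G : Type*} [Group G] [Finite G]
    {p : ℕ} [Fact p.Prime] (hp : p ≠ 2) (hC : ∀ H K : Subgroup G, IsPGroup p H → IsPGroup p K → Nat.card H = Nat.card K →
      ∃ g : G, K = H.map (MulAut.conj g).toMonoidHom) (P : Sylow p G)
    (H : Subgroup G) [H.Normal] (hsolv : Cfsg.IsPSolvable p H) (hdiv : p ∣ Nat.card H) :
    IsMulCommutative P ∧ ((P : Subgroup G) ≤ H ∨ IsCyclic P) := by
  have hp' : p.Prime := Fact.out
  rcases PG.forall_comm_isCyclic_or_pow_eq_one P.isPGroup' (fun A B hA hB _ _ hAB => by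
      obtain ⟨g, rfl⟩ := hC A B (P.isPGroup'.to_le hA) (P.isPGroup'.to_le hB) hAB
      exact isCyclic_of_surjective _ (conjEquiv g A).surjective) with h | h
  · have := (isCyclic_or_quaternion_of_forall_comm P.isPGroup' h).resolve_right fun h => hp h.1
    exact ⟨inferInstance, Or.inr this⟩
  have key : ∀ N : Subgroup G, N.Normal → ∀ z ∈ N, orderOf z = p → (P : Subgroup G) ≤ N := by
    intro N hN z hz hzp x hx
    by_cases hx1 : x = 1
    · exact hx1 ▸ one_mem _
    obtain ⟨g, hg⟩ := hC (zpowers z) (zpowers x)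
      (PG.isPGroup_zpowers (k := 1) (by rw [pow_one, ← hzp, pow_orderOf_eq_one]))
      (P.isPGroup'.to_le (zpowers_le.2 hx))
      (by rw [Nat.card_zpowers, Nat.card_zpowers, hzp, orderOf_eq_prime (h x hx) hx1])
    obtain ⟨y, hy, rfl⟩ := hg ▸ mem_zpowers x
    exact hN.conj_mem _ (zpowers_le.2 hz hy) g
  obtain ⟨z, hz, hzp⟩ := exists_mem_orderOf_eq_prime hp' hdiv
  refine ⟨?_, Or.inl (key H ‹_› z hz hzp)⟩
  obtain ⟨f, hf⟩ : ∃ f, f = QuotientGroup.mk' (pPrimeCore p G) := ⟨_, rfl⟩
  have hs : Function.Surjective f := hf ▸ QuotientGroup.mk'_surjective _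
  have hk : (Nat.card f.ker).Coprime p := by
    rw [hf, QuotientGroup.ker_mk']; exact coprime_card_pPrimeCore p G
  have : (H.map f).Normal := Normal.map ‹_› f hs
  have h1 : pCore p _ ⊓ H.map f ≠ ⊥ := ((hsolv.map f).core_inf_ne_bot fun h0 => by
    have := Real.orderOf_map_of_coprime_ker f (x := z) (hzp ▸ hk.symm)
    rw [mem_bot.1 (h0 ▸ mem_map_of_mem f hz : f z ∈ (⊥ : Subgroup _)), orderOf_one, hzp] at this
    exact hp'.one_lt.ne this).resolve_right (by simp [pPrimeCore_quotient_pPrimeCore])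
  obtain ⟨w, hw, hwc, -, hwp⟩ := PG.exists_mem_centralizer_orderOf_eq (pCore_isPGroup p _)
    (pCore_isPGroup p _) le_normalizer fun h0 : pCore p (G ⧸ pPrimeCore p G) = ⊥ => h1 (by simp [h0])
  obtain ⟨y, rfl, j, hj⟩ := exists_lift_prime_pow f hs hp' (hwp.trans (pow_one p).symm)
  have h2 := key ((pCore p _ ⊓ centralizer (pCore p (G ⧸ pPrimeCore p G) : Set (G ⧸ pPrimeCore p G))).comap f)
    inferInstance y ⟨hw, hwc⟩
    (by rw [← Real.orderOf_map_of_coprime_ker f (hj ▸ hk.symm.pow_left j), hwp])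
  refine ⟨⟨fun a b => Subtype.ext (Real.eq_of_map_eq_of_isPGroup f hk P.isPGroup' (a * b).2
    (b * a).2 ?_)⟩⟩
  simpa using (h2 b.2).2 _ (h2 a.2).1

end Cfsg.Agent.S4024
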