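import Cfsg.Statements.S4027
import Cfsg.Agent.Solv.RealLift

set_option autoImplicit false
open Cfsg Cfsg.Lib.Solv

namespace Cfsg.Agent.S4027

/-- Let G be a finite group in which every element x of odd order satisfies N_G(⟨x⟩) = C_G(x). Then the Sylow 2-subgroups of G are normal. -/
theorem result {G : Type*} [Group G] [Finite G]
    (hirr : ∀ x : G, (∀ r : ℕ, r.Prime → r ∣ orderOf x → r ≠ 2) →
      Subgroup.normalizer ((Subgroup.zpowers x : Subgroup G) : Set G) ≤ Subgroup.centralizer {x}) (P : Sylow 2 G) :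
    (P : Subgroup G).Normal := by
  by_contra hP
  obtain ⟨x, q, j, hq, hq2, hx1, hxo, hx⟩ := Real.exists_real_of_not_normal P hP
  obtain ⟨g, hg⟩ := isConj_iff.1 hx
  have hodd : ∀ r : ℕ, r.Prime → r ∣ orderOf x → r ≠ 2 := by
    intro r hr hrx h2
    rw [hxo] at hrx
    exact hq2 (((Nat.prime_dvd_prime_iff_eq hr hq).1 (hr.dvd_of_dvd_pow hrx)).symm.trans h2)
  have h1 : g ∈ Subgroup.normalizer ((Subgroup.zpowers x : Subgroup G) : Set G) := by
    apply Subgroup.mem_normalizer_fintype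
    rintro _ ⟨n, rfl⟩
    rw [← conj_zpow, hg]
    exact zpow_mem (inv_mem (Subgroup.mem_zpowers x)) n
  have h2 := ClassSize.mem_cent_iff_conj.1 (hirr x hodd h1)
  rw [hg] at h2
  refine hx1 (Real.eq_one_of_odd_of_sq_eq_one ?_ ?_)
  · rw [hxo]
    exact (hq.odd_of_ne_two hq2).pow
  · rw [sq]
    nth_rw 1 [← h2]
    exact inv_mul_cancel x

end Cfsg.Agent.S4027
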