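import Cfsg.Statements.S4028
import Cfsg.Agent.Solv.AutP
import Cfsg.Agent.Solv.PGroupNormal

set_option autoImplicit false
open Cfsg

namespace Cfsg.Agent.S4028

open Subgroup Cfsg.Lib.Solv.PG
open scoped Pointwise

theorem mem_of_pow_coprime {G : Type*} [Group G] {H : Subgroup G} {g : G} {m n : ℕ}
    (h : m.Coprime n) (hm : g ^ m ∈ H) (hn : g ^ n ∈ H) : g ∈ H := by
  have h1 := Nat.gcd_eq_gcd_ab m n
  rw [h, Nat.cast_one] at h1
  rw [← zpow_one g, h1, zpow_add, zpow_mul, zpow_mul, zpow_natCast, zpow_natCast]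
  exact H.mul_mem (H.zpow_mem hm _) (H.zpow_mem hn _)

/-- Let G be a finite group with Sylow 2-subgroup P. Then N_G(⟨x⟩) = C_G(x) holds for every 2-element x of G if and only if N_P(⟨y⟩) = C_P(y) holds for every y ∈ P (computed inside P). -/
theorem result {G : Type*} [Group G] [Finite G] (P : Sylow 2 G) :
    (∀ x : G, (∀ r : ℕ, r.Prime → r ∣ orderOf x → r = 2) →
      Subgroup.normalizer ((Subgroup.zpowers x : Subgroup G) : Set G) ≤ Subgroup.centralizer {x}) ↔
    (∀ y : ↥(P : Subgroup G), Subgroup.normalizer ((Subgroup.zpowers y : Subgroup ↥(P : Subgroup G)) : Set ↥(P : Subgroup G)) ≤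
        Subgroup.centralizer {y}) := by
  refine ⟨fun h y n hn => ?_, fun h x hx g hg => ?_⟩
  · obtain ⟨k, hk⟩ := IsPGroup.iff_orderOf.mp P.isPGroup' y
    obtain ⟨r, hr⟩ := exists_conj_eq_pow hn
    have h0 : (n : G) ∈ normalizer (zpowers (y : G) : Set G) := mem_normalizer_zpowers
      (by rw [show (n : G) * y * (n : G)⁻¹ = (y : G) ^ r from congrArg Subtype.val hr]
          exact npow_mem_zpowers _ r)
    have h1 := (h y fun r hr hd => (Nat.prime_dvd_prime_iff_eq hr Nat.prime_two).mp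
      (hr.dvd_of_dvd_pow (by rwa [orderOf_coe, hk] at hd))) h0
    exact mem_centralizer_singleton_iff.mpr (Subtype.ext (mem_centralizer_singleton_iff.mp h1))
  · obtain ⟨m, hm⟩ : ∃ m, orderOf x = 2 ^ m :=
      ⟨_, Nat.eq_prime_pow_of_unique_prime_dvd (orderOf_pos x).ne' fun hr hd => hx _ hr hd⟩
    obtain ⟨a, b, hb, hab⟩ := Nat.exists_eq_two_pow_mul_odd (orderOf_pos g).ne'
    have h1 : g ^ 2 ^ m ∈ centralizer {x} := by
      have := aut_pow_two_pow_apply (MulAut.conj g) hm
        ((mem_normalizer_iff.mp hg x).mp (mem_zpowers x))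
      rw [← map_pow, MulAut.conj_apply, mul_inv_eq_iff_eq_mul] at this
      exact mem_centralizer_singleton_iff.mpr this
    refine mem_of_pow_coprime (Nat.Coprime.pow_left m (Nat.coprime_two_left.mpr hb)) h1 ?_
    have h2 : IsPGroup 2 (zpowers x) := isPGroup_zpowers (k := m) (hm ▸ pow_orderOf_eq_one x)
    have h3 : IsPGroup 2 (zpowers (g ^ b)) := isPGroup_zpowers (k := a)
      (by rw [← pow_mul, mul_comm, ← hab, pow_orderOf_eq_one])
    obtain ⟨Q, hQ⟩ := (h3.to_sup_of_normal_right' h2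
      (zpowers_le.mpr (pow_mem hg b))).exists_le_sylow
    obtain ⟨c, rfl⟩ := MulAction.exists_smul_eq G P Q
    have hmem : ∀ y ∈ ((c • P : Sylow 2 G) : Subgroup G), c⁻¹ * y * c ∈ (P : Subgroup G) :=
      fun y hy => by simpa using mem_pointwise_smul_iff_inv_smul_mem.mp hy
    obtain ⟨r, hr⟩ := exists_conj_eq_pow (pow_mem hg b)
    let X : (P : Subgroup G) := ⟨_, hmem x (hQ (mem_sup_right (mem_zpowers _)))⟩
    let Y : (P : Subgroup G) := ⟨_, hmem (g ^ b) (hQ (mem_sup_left (mem_zpowers _)))⟩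
    have h6 : Y * X * Y⁻¹ = X ^ r := Subtype.ext (by
      have : (c⁻¹ * x * c) ^ r = c⁻¹ * x ^ r * c := by simpa using conj_pow (a := c⁻¹) (b := x)
      simp only [X, Y, coe_mul, coe_inv, coe_pow, this, ← hr]; group)
    have h4 := h X (mem_normalizer_zpowers (h6 ▸ npow_mem_zpowers X r))
    have h5 := congrArg Subtype.val (mem_centralizer_singleton_iff.mp h4)
    simp only [X, Y, coe_mul] at h5
    refine mem_centralizer_singleton_iff.mpr ?_
    calc g ^ b * x = c * (c⁻¹ * g ^ b * c * (c⁻¹ * x * c)) * c⁻¹ := by group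
      _ = _ := by rw [h5]; group

end Cfsg.Agent.S4028
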