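import Cfsg.Statements.S4029
import Cfsg.Agent.Solv.FrattiniP
import Cfsg.Agent.Solv.CyclicP
import Cfsg.Agent.Char.PermLemma

set_option autoImplicit false
open Cfsg

namespace Cfsg.Agent.S4029

/-- Let P be a finite 2-group in which N_P(⟨y⟩) = C_P(y) for every y ∈ P. If s is the number of conjugacy classes of involutions of P, then #(P/Φ(P)) ≤ s + 1; in particular the subgroup generated by the involutions of P has order at least #(P/Φ(P)). -/
theorem result {P : Type*} [Group P] [Finite P] (hP : IsPGroup 2 P)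
    (hirr : ∀ y : P, Subgroup.normalizer ((Subgroup.zpowers y : Subgroup P) : Set P) ≤ Subgroup.centralizer {y}) :
    Nat.card (P ⧸ frattini P) ≤ Nat.card {c : ConjClasses P // ∃ y : P, ConjClasses.mk y = c ∧ orderOf y = 2} + 1 ∧
    Nat.card (P ⧸ frattini P) ≤ Nat.card (Subgroup.closure {y : P | orderOf y = 2}) := by
  have hsq : ∀ g : P, IsConj g g⁻¹ → g = 1 ∨ orderOf g = 2 := fun g hg => by
    obtain ⟨c, hc⟩ := isConj_iff.1 hg
    have h1 := hirr g (Lib.Solv.PG.mem_normalizer_zpowers (x := c)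
      (hc ▸ inv_mem (Subgroup.mem_zpowers g))) g rfl
    rw [← h1, mul_inv_cancel_right] at hc
    refine (em _).imp_right fun h => orderOf_eq_prime ?_ h
    rw [sq]; nth_rewrite 1 [hc]; simp
  have h1 : Nat.card (P ⧸ frattini P) ≤
      Nat.card {C : ConjClasses P // ∀ g : P, ConjClasses.mk g = C → IsConj g g⁻¹} := by
    have := Lib.Solv.elemAb_quotient_frattini hP
    have := Lib.Solv.ElemAb.isMulCommutative 2 (P ⧸ frattini P)
    letI : CommGroup (P ⧸ frattini P) := { mul_comm := mul_comm' }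
    rw [← Lib.Char.card_real_irr_eq,
      ← CommGroup.card_monoidHom_of_hasEnoughRootsOfUnity (P ⧸ frattini P) ℂ]
    have : Finite (ConjClasses P) := Quotient.finite _
    have : Finite (IrrCharacter P) := inferInstance
    refine Nat.card_le_card_of_injective (fun f => ⟨⟨_, Lib.Char.isIrrCharacter_monoidHom
      (f.comp (QuotientGroup.mk' _))⟩, fun g => ?_⟩) fun f f' h => ?_
    · have h2 : ((f (QuotientGroup.mk' _ g) : ℂˣ) : ℂ) ^ 2 = 1 := by
        rw [← Units.val_pow_eq_pow_val, ← map_pow, ← map_pow, QuotientGroup.mk'_apply,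
          (QuotientGroup.eq_one_iff _).2 (Lib.Solv.pow_mem_frattini hP g), map_one, Units.val_one]
      rcases mul_self_eq_one_iff.1 ((sq _).symm.trans h2) with h | h <;> simp_all
    · ext g
      exact congrFun (congrArg (fun χ => χ.1.1) h) g
  refine ⟨h1.trans ?_, h1.trans ?_⟩
  · rw [← Finite.card_option]
    refine Nat.card_le_card_of_surjective (fun c => c.elim ⟨ConjClasses.mk 1, fun g hg => ?_⟩
      fun c => ⟨c.1, fun g hg => ?_⟩) fun ⟨C, hC⟩ => ?_
    · rw [isConj_one_left.1 (ConjClasses.mk_eq_mk_iff_isConj.1 hg), inv_one]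
    · obtain ⟨y, hy, hy2⟩ := c.2
      have h2 := (ConjClasses.mk_eq_mk_iff_isConj.1 (hy.trans hg.symm)).pow 2
      rw [← hy2, pow_orderOf_eq_one, hy2, isConj_one_right, sq] at h2
      rw [inv_eq_of_mul_eq_one_left h2]
    · obtain ⟨g, rfl⟩ := ConjClasses.mk_surjective C
      rcases hsq g (hC g rfl) with rfl | h
      exacts [⟨none, rfl⟩, ⟨some ⟨_, g, rfl, h⟩, rfl⟩]
  · refine Nat.card_le_card_of_injective (fun c => ⟨c.1.out, ?_⟩) fun c d h => ?_
    · rcases hsq _ (c.2 _ (Quotient.out_eq _)) with h | h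
      exacts [h ▸ one_mem _, Subgroup.subset_closure h]
    · exact Subtype.ext (Quotient.out_injective (congrArg Subtype.val h))

end Cfsg.Agent.S4029
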