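import Cfsg.Statements.S4032
import Cfsg.Agent.Solv.CoprimeFixed

set_option autoImplicit false
open Cfsg

namespace Cfsg.Agent.S4032

open Subgroup Cfsg.Lib.Solv

/-- Let π be a set of primes and G a finite group in which N_G(⟨x⟩) = C_G(x) for every π-element x. If N is a normal subgroup of G whose order is divisible by no prime of π, then G/N has the same property: N_{G/N}(⟨y⟩) = C_{G/N}(y) for every π-element y of G/N. -/
theorem result {G : Type*} [Group G] [Finite G] (π : Set ℕ)
    (hirr : ∀ x : G, (∀ r : ℕ, r.Prime → r ∣ orderOf x → r ∈ π) →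
      Subgroup.normalizer ((Subgroup.zpowers x : Subgroup G) : Set G) ≤ Subgroup.centralizer {x})
    (N : Subgroup G) [N.Normal] (hN : ∀ r : ℕ, r.Prime → r ∣ Nat.card N → r ∉ π) :
    ∀ y : G ⧸ N, (∀ r : ℕ, r.Prime → r ∣ orderOf y → r ∈ π) →
      Subgroup.normalizer ((Subgroup.zpowers y : Subgroup (G ⧸ N)) : Set (G ⧸ N)) ≤ Subgroup.centralizer {y} := by
  intro y hy n hn
  have hco : (Nat.card N).Coprime (orderOf y) := by
    by_contra h
    obtain ⟨r, hr, h1, h2⟩ := Nat.Prime.not_coprime_iff_dvd.mp h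
    exact hN r hr h1 (hy r hr h2)
  obtain ⟨u, hu⟩ := exists_pow_eq_self_of_coprime hco
  obtain ⟨x, rfl⟩ := QuotientGroup.mk'_surjective N y
  set y := QuotientGroup.mk' N x with hyx
  have h1 : orderOf (x ^ (Nat.card N * u)) ∣ orderOf y := by
    have h2 : x ^ orderOf y ∈ N := by
      rw [← QuotientGroup.eq_one_iff, QuotientGroup.mk_pow]; exact pow_orderOf_eq_one _
    have h3 : (x ^ orderOf y) ^ Nat.card N = 1 :=
      congrArg Subtype.val (pow_card_eq_one' (x := (⟨_, h2⟩ : N)))
    rw [orderOf_dvd_iff_pow_eq_one, ← pow_mul, mul_comm, pow_mul, pow_mul, h3, one_pow]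
  have h2 : QuotientGroup.mk' N (x ^ (Nat.card N * u)) = y := by rw [map_pow, pow_mul, hu]
  rw [← h2, ← MonoidHom.map_zpowers, ← Coprime.map_mk'_normalizer N
    (by rw [Nat.card_zpowers]; exact hco.symm.coprime_dvd_left h1) (Or.inl inferInstance)] at hn
  obtain ⟨m, hm, rfl⟩ := hn
  have h3 := mem_centralizer_singleton_iff.mp (hirr _ (fun r hr hd => hy r hr (hd.trans h1)) hm)
  rw [mem_centralizer_singleton_iff, ← h2, ← map_mul, ← map_mul, h3]

end Cfsg.Agent.S4032
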