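import Cfsg.Statements.S4033
import Cfsg.Agent.CITCor.ClsStruct

set_option autoImplicit false
open Cfsg

namespace Cfsg.Agent.S4033

open Cfsg.Lib.Solv Cfsg.Lib.Solv.ClassSize Cfsg.Lib.CITCor.Cls Subgroup

/-- Let G be a finite group and p a prime, and suppose the conjugacy classes of p-regular elements of G (elements of order prime to p) have exactly two distinct sizes. Then either G has an abelian p-complement (an abelian subgroup of order prime to p and p-power index), or there are a prime q ≠ p, a Sylow p-subgroup P, a Sylow q-subgroup Q and a central subgroup A such that PQ is a normal subgroup of order #P·#Q and G is the internal direct product PQ × A. -/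
theorem result {G : Type*} [Group G] [Finite G] {p : ℕ} (hp : p.Prime)
    (h2 : Set.ncard (Set.range fun x : {x : G // (orderOf x).Coprime p} => (ConjClasses.mk (x : G)).carrier.ncard) = 2) :
    (∃ H : Subgroup G, IsMulCommutative H ∧ ¬ p ∣ Nat.card H ∧ ∃ k : ℕ, H.index = p ^ k) ∨
    (∃ (q : ℕ) (_ : Fact q.Prime) (P : Sylow p G) (Q : Sylow q G) (A : Subgroup G), q ≠ p ∧
        A ≤ Subgroup.center G ∧ Nat.card ↥((P : Subgroup G) ⊔ (Q : Subgroup G)) = Nat.card P * Nat.card Q ∧
        ((P : Subgroup G) ⊔ (Q : Subgroup G)).Normal ∧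
        ((P : Subgroup G) ⊔ (Q : Subgroup G)) ⊓ A = ⊥ ∧ ((P : Subgroup G) ⊔ (Q : Subgroup G)) ⊔ A = ⊤) := by
  have := Fact.mk hp
  obtain ⟨a, b, -, hab⟩ := Set.ncard_eq_two.1 h2
  have hmem : ∀ x : G, (orderOf x).Coprime p →
      (centralizer ({x} : Set G)).index = a ∨ (centralizer ({x} : Set G)).index = b := by
    intro x hx
    have : (ConjClasses.mk x).carrier.ncard ∈ ({a, b} : Set ℕ) := hab ▸ ⟨⟨x, hx⟩, rfl⟩
    rwa [ncard_carrier_mk] at this
  have h1 := hmem 1 (by simp)
  rw [index_cent_eq_one_iff.2 (one_mem _)] at h1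
  obtain ⟨m, hm⟩ : ∃ m, ∀ x : G, (orderOf x).Coprime p →
      (centralizer ({x} : Set G)).index = 1 ∨ (centralizer ({x} : Set G)).index = m := by
    rcases h1 with rfl | rfl
    · exact ⟨b, hmem⟩
    · exact ⟨a, fun x hx => (hmem x hx).symm⟩
  rcases struct_two hm with h3 | ⟨q, hq, hqp, h3⟩
  · obtain ⟨H, h4, h5, h6, -⟩ := exists_abelian_complement h3
    exact Or.inl ⟨H, h4, h5, h6⟩
  · have := Fact.mk hq
    obtain ⟨P⟩ : Nonempty (Sylow p G) := inferInstance
    obtain ⟨Q⟩ : Nonempty (Sylow q G) := inferInstance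
    obtain ⟨A, h4⟩ := h3.decomp hqp P Q
    exact Or.inr ⟨q, this, P, Q, A, hqp, h4⟩

end Cfsg.Agent.S4033
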