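import Cfsg.Statements.S4035
import Cfsg.Agent.Solv.SylowDirect

set_option autoImplicit false
open Cfsg

namespace Cfsg.Agent.S4035

open Cfsg.Lib.Solv Cfsg.Lib.Solv.ClassSize Subgroup

/-- Let G be a finite group and p a prime such that p divides the size of no conjugacy class of p-regular elements (elements of order prime to p). Then G is the internal direct product of a Sylow p-subgroup P and a normal subgroup H of order prime to p: P is normal, P ⊓ H = 1 and PH = G. -/
theorem result {G : Type*} [Group G] [Finite G] {p : ℕ} [Fact p.Prime]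
    (h : ∀ x : G, (orderOf x).Coprime p → ¬ p ∣ (ConjClasses.mk x).carrier.ncard) (P : Sylow p G) :
    (P : Subgroup G).Normal ∧ ∃ H : Subgroup G, H.Normal ∧ ¬ p ∣ Nat.card H ∧
      (P : Subgroup G) ⊓ H = ⊥ ∧ (P : Subgroup G) ⊔ H = ⊤ := by
  obtain ⟨hP, K, hK, hc, -⟩ := sylow_direct_of_not_dvd_index P fun x hx => by
    simpa only [ncard_carrier_mk] using h x hx
  refine ⟨hP, K, hK, ?_, hc.symm.disjoint.eq_bot, hc.symm.sup_eq_top⟩
  rw [← hc.index_eq_card]
  exact P.not_dvd_index

end Cfsg.Agent.S4035
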