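import Cfsg.Statements.S4036
import Mathlib.GroupTheory.Perm.Cycle.Type
import Mathlib.GroupTheory.PGroup

set_option autoImplicit false
open Cfsg

namespace Cfsg.Agent.S4036

/-- Let P be a finite abelian p-group and K a group of automorphisms of P (a subgroup of Aut P) whose order is divisible by p. If all non-identity elements of K have the same fixed-point subgroup on P, then K has no non-trivial normal subgroup of order prime to p. -/
theorem result {P : Type*} [CommGroup P] [Finite P] {p : ℕ}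
    [Fact p.Prime] (hP : IsPGroup p P) (K : Subgroup (MulAut P)) (hK : p ∣ Nat.card K)
    (hfix : ∀ x y : MulAut P, x ∈ K → y ∈ K → x ≠ 1 → y ≠ 1 → ∀ v : P, x v = v ↔ y v = v) :
    ∀ N : Subgroup ↥K, N.Normal → ¬ p ∣ Nat.card N → N = ⊥ := by
  intro N hN hpN
  classical
  by_contra hne
  have := Fintype.ofFinite N
  let ν : P →* P :=
    { toFun := fun v => ∏ n : N, ((n : K) : MulAut P) v
      map_one' := by simp
      map_mul' := fun a b => by simp [Finset.prod_mul_distrib] }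
  have hν : ∀ v, ν v = ∏ n : N, ((n : K) : MulAut P) v := fun _ => rfl
  have hinv : ∀ (k : K) (v : P), ν ((k : MulAut P) v) = (k : MulAut P) (ν v) := by
    intro k v
    rw [hν, hν, map_prod]
    refine (Fintype.prod_equiv (MulAut.conjNormal k).toEquiv _ _ fun n => ?_).symm
    simp
  obtain ⟨⟨n₀, hn₀⟩, hn₀1⟩ := (Subgroup.ne_bot_iff_exists_ne_one).1 hne
  obtain ⟨v₀, hv₀⟩ : ∃ v₀, (n₀ : MulAut P) v₀ ≠ v₀ := by
    by_contra h
    push Not at h
    exact hn₀1 (Subtype.ext (Subtype.ext (MulEquiv.ext h)))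
  have hw₀ : (n₀ : MulAut P) v₀ * v₀⁻¹ ∈ ν.ker := by
    rw [MonoidHom.mem_ker, map_mul, map_inv, mul_inv_eq_one, hν, hν]
    refine Fintype.prod_equiv (Equiv.mulRight ⟨n₀, hn₀⟩) _ _ fun n => ?_
    simp
  have hW : p ∣ Nat.card ν.ker := by
    have : Nontrivial ν.ker :=
      nontrivial_of_ne ⟨_, hw₀⟩ 1 fun h => hv₀ (mul_inv_eq_one.1 (congrArg Subtype.val h))
    obtain ⟨k, hk0, hk⟩ := (IsPGroup.nontrivial_iff_card (hP.to_subgroup ν.ker)).1 this
    rw [hk]
    exact dvd_pow_self p hk0.ne'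
  obtain ⟨x, hx⟩ := exists_prime_orderOf_dvd_card' p hK
  have hx1 : (x : MulAut P) ≠ 1 := by
    intro h
    rw [show x = 1 from Subtype.ext h, orderOf_one] at hx
    exact (Fact.out : p.Prime).one_lt.ne hx
  let σ : Equiv.Perm ν.ker := Equiv.Perm.subtypePerm (x : MulAut P).toEquiv fun v => by
    simp only [MonoidHom.mem_ker]
    change ν ((x : MulAut P) v) = 1 ↔ _
    rw [hinv, EmbeddingLike.map_eq_one_iff]
  have hσ : σ ^ p ^ 1 = 1 := by
    ext v
    have h1 : (x : MulAut P) ^ p = 1 := by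
      rw [← Subgroup.coe_pow, ← hx, pow_orderOf_eq_one, Subgroup.coe_one]
    simp only [σ, pow_one, Equiv.Perm.subtypePerm_pow, Equiv.Perm.subtypePerm_apply,
      Equiv.Perm.coe_one, id_eq]
    have h2 : ((x : MulAut P).toEquiv ^ p : Equiv.Perm P) = MulAut.toPerm P ((x : MulAut P) ^ p) := by
      rw [map_pow]; rfl
    rw [h2, h1]
    simp
  have := Fintype.ofFinite ν.ker
  obtain ⟨w, hw, hw1⟩ := Equiv.Perm.exists_fixed_point_of_prime' (p := p)
    (by rwa [← Nat.card_eq_fintype_card]) hσ (a := 1) (Subtype.ext (map_one (x : MulAut P)))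
  have hw' : (x : MulAut P) w = w := congrArg Subtype.val hw
  have h3 : ν w = (w : P) ^ Nat.card N := by
    rw [hν, Finset.prod_eq_pow_card (b := (w : P)), Finset.card_univ, Nat.card_eq_fintype_card]
    intro n _
    by_cases hn : ((n : K) : MulAut P) = 1
    · rw [hn]; rfl
    · exact (hfix _ _ x.2 (n : K).2 hx1 hn w).1 hw'
  rw [MonoidHom.mem_ker.1 w.2] at h3
  obtain ⟨k, hk⟩ := IsPGroup.iff_orderOf.1 hP (w : P)
  refine hw1 (Subtype.ext (orderOf_eq_one_iff.1 ?_))
  exact Nat.eq_one_of_dvd_coprimes (a := p ^ k) (b := Nat.card N)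
    (Nat.Coprime.pow_left k ((Nat.Prime.coprime_iff_not_dvd Fact.out).2 hpN)) (hk ▸ dvd_rfl)
    (orderOf_dvd_of_pow_eq_one h3.symm)

end Cfsg.Agent.S4036
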