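import Cfsg.Statements.S4038
import Cfsg.Agent.Cor.ClassTwoC
import Cfsg.Agent.Solv.ActionTransport

set_option autoImplicit false
open Cfsg

namespace Cfsg.Agent.S4038

open Cfsg.Lib.Solv Cfsg.Lib.FT Cfsg.Lib.Solv.Act Cfsg.Lib.Cor.C2

/-- Let A and G be finite groups of coprime orders with A acting on G by automorphisms. Suppose G has a proper A-invariant subgroup M, maximal among proper A-invariant subgroups, which is nilpotent and whose Sylow 2-subgroups have nilpotency class at most 2. Then G is solvable. -/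
theorem result {G A : Type*} [Group G] [Finite G]
    [Group A] [Finite A] (φ : A →* MulAut G) (hcop : (Nat.card A).Coprime (Nat.card G))
    (M : Subgroup G) (hMtop : M ≠ ⊤) (hMinv : ∀ a : A, ∀ m : G, m ∈ M → φ a m ∈ M)
    (hMmax : ∀ H : Subgroup G, M ≤ H → H ≠ ⊤ → (∀ a : A, ∀ h : G, h ∈ H → φ a h ∈ H) → H = M)
    (hnil : Group.IsNilpotent M) (h2 : ∀ S : Sylow 2 ↥M, Group.nilpotencyClass ↥(S : Subgroup ↥M) ≤ 2) :
    Group.IsSolvable G := by
  obtain ⟨S⟩ : Nonempty (Sylow 2 M) := inferInstance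
  have h1 : ⁅(S : Subgroup M).map M.subtype, (S : Subgroup M).map M.subtype⁆ ≤
      𝐂 ((S : Subgroup M).map M.subtype) := by
    have := S.isPGroup'.isNilpotent
    have h3 := congrArg (Subgroup.map (M.subtype.comp (S : Subgroup M).subtype))
      (Subgroup.lowerCentralSeries_eq_bot_iff_nilpotencyClass_le.2 (h2 S))
    rw [Subgroup.map_lowerCentralSeries, Subgroup.map_bot, ← Subgroup.map_map,
      ← MonoidHom.range_eq_map, Subgroup.range_subtype] at h3
    exact commG1P.1 h3
  have h3 := solvable_of_max _ _ (R φ ⊤) (L φ ⊤) (L φ M) (L φ ((S : Subgroup M).map M.subtype)) rfl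
    (R_le_normalizer_L_top ⊤) (by rwa [card_R_top, card_L_top]) (L_lt_L.2 (lt_top_iff_ne_top.2 hMtop))
    (R_le_normalizer_L.2 fun a _ => hMinv a) (fun X h4 h5 h6 => by
      obtain ⟨H, -, rfl⟩ := exists_L_eq h5.le
      rw [hMmax H (L_le_L.1 h4) (L_lt_L.1 h5).ne fun a => R_le_normalizer_L.1 h6 a trivial])
    (isNilpotent_L.2 hnil) (pHall_map _ (Sylow_map_subtype S)) (by
      rw [← Subgroup.map_commutator]
      exact cents_map h1 _)
  have := isSolvable_L.1 h3
  exact Group.isSolvable_of_surjective (f := (⊤ : Subgroup G).subtype) fun x => ⟨⟨x, trivial⟩, rfl⟩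

end Cfsg.Agent.S4038
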