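import Cfsg.Statements.S4040
import Cfsg.Agent.Inst.S0108
import Cfsg.Agent.Cond.S4040

set_option autoImplicit false
open Cfsg

namespace Cfsg.Agent.S4040

/-- A finite group possessing a maximal subgroup that is nilpotent of odd order is solvable. -/
theorem result {G : Type*} [Group G] [Finite G]
    (M : Subgroup G) (hmax : IsCoatom M) (hnil : Group.IsNilpotent M) (hodd : Odd (Nat.card M)) :
    Group.IsSolvable G := by
  revert G M hmax hnil hodd
  exact @Cfsg.Agent.Gate.S4040.out Cfsg.Agent.Cond.S4040

end Cfsg.Agent.S4040
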