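import Cfsg.Statements.S4043
import Cfsg.Agent.Solv.SchurZassenhaus
import Cfsg.Agent.Solv.PGroupNormal
import Cfsg.Agent.Solv.Cores
import Cfsg.Agent.Trans.NormalComplement

set_option autoImplicit false
open Cfsg

namespace Cfsg.Agent.S4043

open Subgroup Cfsg.Lib.Solv
open scoped commutatorElement

/-- Let G be a finite group that is the semidirect product of a normal p-subgroup N by a subgroup A, and also of N by a subgroup A₁, where p is a prime and A and A₁ both have normal p-complements. If C_N(A) = C_N(A₁) = 1, then A₁ is conjugate to A by an element of N. -/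
theorem result {G : Type*} [Group G] [Finite G] {p : ℕ}
    [Fact p.Prime] (N : Subgroup G) [N.Normal] (hN : IsPGroup p N) (A A₁ : Subgroup G)
    (hA : A.IsComplement' N) (hA₁ : A₁.IsComplement' N)
    (hAp : Cfsg.HasNormalPComplement p A) (hA₁p : Cfsg.HasNormalPComplement p A₁)
    (hC : ∀ n : G, n ∈ N → (∀ a : G, a ∈ A → a * n * a⁻¹ = n) → n = 1)
    (hC₁ : ∀ n : G, n ∈ N → (∀ a : G, a ∈ A₁ → a * n * a⁻¹ = n) → n = 1) :
    ∃ n : G, n ∈ N ∧ A₁ = A.map (MulAut.conj n).toMonoidHom := by
  have key : ∀ B : Subgroup G, B.IsComplement' N → Cfsg.HasNormalPComplement p B →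
      (∀ n : G, n ∈ N → (∀ a : G, a ∈ B → a * n * a⁻¹ = n) → n = 1) →
      ∃ K : Subgroup G, (Nat.card K).Coprime p ∧ normalizer (K : Set G) = B ∧
        (N ⊔ K).Normal ∧ ∃ k, (N ⊔ K).index = p ^ k := by
    rintro B hB ⟨P, K, hKn, hKP⟩ hCB
    have hBK := le_normalizer_map_subtype K
    have hK : (Nat.card (K.map B.subtype)).Coprime p := by
      rw [card_map_subtype, ← hKP.index_eq_card]
      exact ((Fact.out : p.Prime).coprime_iff_not_dvd.2 P.not_dvd_index).symm
    have hsup : N ⊔ B = ⊤ := sup_comm N B ▸ hB.sup_eq_top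
    refine ⟨K.map B.subtype, hK, le_antisymm ?_ hBK, ?_, ?_⟩
    · have h1 : N ⊓ centralizer (K.map B.subtype : Set G) = ⊥ := by
        by_contra hne
        refine PG.inf_centralizer_ne_bot (P.isPGroup'.map B.subtype) hN.to_inf_left
          ((map_subtype_le _).trans (le_normalizer_inf_centralizer
            (by rw [normalizer_eq_top]; exact le_top) hBK)) hne (eq_bot_iff.2 fun n hn => ?_)
        refine hCB n hn.1.1 fun a ha => ?_
        obtain ⟨⟨k, u⟩, h, -⟩ := hKP.existsUnique ⟨a, ha⟩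
        rw [show a = k * u from (congrArg Subtype.val h).symm, mul_inv_eq_iff_eq_mul, mul_assoc,
          hn.2 u ⟨_, u.2, rfl⟩, ← mul_assoc, hn.1.2 k ⟨_, k.2, rfl⟩, mul_assoc]
      intro g hg
      obtain ⟨n, hn, b, hb, rfl⟩ := (mem_sup_of_le_normalizer
        (by rw [normalizer_eq_top]; exact le_top)).1 (hsup ▸ mem_top g : g ∈ N ⊔ B)
      have h2 : N ⊓ normalizer (K.map B.subtype : Set G) ≤ centralizer (K.map B.subtype : Set G) := by
        rintro m ⟨hm, hm'⟩ k hk
        have : ⁅m, k⁆ ∈ N ⊓ K.map B.subtype := by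
          rw [commutatorElement_def, mem_inf]
          refine ⟨?_, mul_mem (conj_mem_of_mem_normalizer hm' hk) (Subgroup.inv_mem _ hk)⟩
          rw [mul_assoc, mul_assoc, ← mul_assoc k]
          exact mul_mem hm (‹N.Normal›.conj_mem _ (inv_mem hm) k)
        rw [inf_eq_bot_of_isPGroup_of_coprime hN hK, mem_bot,
          commutatorElement_eq_one_iff_mul_comm] at this
        exact this.symm
      have h3 : n ∈ N ⊓ centralizer (K.map B.subtype : Set G) :=
        ⟨hn, h2 ⟨hn, (mul_mem_cancel_right (hBK hb)).1 hg⟩⟩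
      rw [h1, mem_bot] at h3
      rwa [h3, one_mul]
    · rw [← normalizer_eq_top_iff, eq_top_iff, ← hsup]
      exact sup_le (le_sup_left.trans le_normalizer)
        (le_normalizer_sup (by rw [normalizer_eq_top]; exact le_top) hBK)
    · obtain ⟨k, hk⟩ := P.isPGroup'.exists_card_eq
      refine ⟨k, Nat.eq_of_mul_eq_mul_left (Nat.card_pos (α := ↥(N ⊔ K.map B.subtype))) ?_⟩
      rw [card_mul_index, card_sup_of_disjoint_of_le_normalizer
        (by rw [normalizer_eq_top]; exact le_top) (inf_eq_bot_of_isPGroup_of_coprime hN hK),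
        card_map_subtype, ← hk, mul_assoc, hKP.card_mul, mul_comm, hB.card_mul]
  obtain ⟨K, hK, rfl, hn, k, hk⟩ := key A hA hAp hC
  obtain ⟨L, hL, rfl, hn', l, hl⟩ := key A₁ hA₁ hA₁p hC₁
  have h1 : N ⊔ K = N ⊔ L := le_antisymm
    (sup_le le_sup_left (le_of_coprime_card_index (hl ▸ hK.pow_right l)))
    (sup_le le_sup_left (le_of_coprime_card_index (hk ▸ hL.pow_right k)))
  obtain ⟨n, hn, rfl⟩ := schur_zassenhaus_conj_ambient' N K L
    (by rw [normalizer_eq_top]; exact le_top) (coprime_card_of_isPGroup hN hK).symm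
    (Or.inr (haveI := hN.isNilpotent; IsNilpotent.to_isSolvable)) h1
    (disjoint_iff.2 (inf_eq_bot_of_isPGroup_of_coprime hN hL))
  exact ⟨n, hn, (conj_smul_normalizer n K).symm⟩

end Cfsg.Agent.S4043
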