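import Cfsg.Statements.S4049
import Cfsg.Agent.Solv.RealLift

set_option autoImplicit false
open Cfsg

namespace Cfsg.Agent.S4049

/-- Let G be a finite group such that N_G(H)/C_G(H) has odd order for every nontrivial subgroup H of odd order. Then the Sylow 2-subgroups of G are normal. -/
theorem result {G : Type*} [Group G] [Finite G]
    (hhom : ∀ H : Subgroup G, H ≠ ⊥ → ¬ 2 ∣ Nat.card ↥H →
        ¬ 2 ∣ (Subgroup.centralizer (H : Set G)).relIndex (Subgroup.normalizer (H : Set G))) (P : Sylow 2 G) :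
    (P : Subgroup G).Normal := by
  by_contra hP
  obtain ⟨x, q, j, hq, hq2, hx1, hx, hreal⟩ := Lib.Solv.Real.exists_real_of_not_normal P hP
  obtain ⟨g, hg⟩ := isConj_iff.1 hreal
  have hodd : Odd (orderOf x) := hx ▸ (hq.odd_of_ne_two hq2).pow
  have h1 := hhom (Subgroup.zpowers x) (by simpa using hx1)
    (by rw [Nat.card_zpowers]; exact hodd.not_two_dvd_nat)
  have hgN : g ∈ Subgroup.normalizer (Subgroup.zpowers x : Set G) := by
    rw [Lib.Solv.mem_normalizer_iff_conj_smul_eq, Lib.Solv.conj_smul_zpowers, hg,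
      Subgroup.zpowers_inv]
  have h2 := Subgroup.pow_index_mem
    (H := (Subgroup.centralizer (Subgroup.zpowers x : Set G)).subgroupOf
      (Subgroup.normalizer (Subgroup.zpowers x : Set G))) ⟨g, hgN⟩
  have h3 := Lib.Solv.Real.conj_pow_odd_of_inverts hg (Nat.odd_iff.2 (Nat.two_dvd_ne_zero.1 h1))
  have h4 := h2 x (Subgroup.mem_zpowers x)
  refine hx1 (Lib.Solv.Real.eq_one_of_odd_of_sq_eq_one hodd ?_)
  rw [Subgroup.coe_subtype, Subgroup.coe_pow] at h4
  rw [Subgroup.relIndex, ← h4, mul_inv_cancel_right] at h3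
  rw [sq]; nth_rewrite 1 [h3]; simp

end Cfsg.Agent.S4049
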