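import Cfsg.Statements.S4057
import Cfsg.Agent.Solv.RankBound
import Cfsg.Agent.FT.BG4.Elem

set_option autoImplicit false
open Cfsg

namespace Cfsg.Agent.S4057

open Cfsg Cfsg.Lib.Solv


/-- Let p be an odd prime and P a finite p-group in which every normal abelian subgroup can be generated by k elements. Then every subgroup of P can be generated by at most ⌊k(k+4)/4⌋ elements. -/
theorem result {P : Type*} [Group P] [Finite P] {p : ℕ} [Fact p.Prime]
    (hp : p ≠ 2) (hP : IsPGroup p P) (k : ℕ)
    (hab : ∀ A : Subgroup P, A.Normal → IsMulCommutative A → ∃ S : Finset P, S.card ≤ k ∧ Subgroup.closure (S : Set P) = A) :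
    ∀ H : Subgroup P, ∃ S : Finset P, S.card ≤ k * (k + 4) / 4 ∧ Subgroup.closure (S : Set P) = H := by
  classical
  intro H
  obtain ⟨A, ⟨hAn, hA⟩, hmax⟩ := (wellFounded_gt (α := Subgroup P)).has_min
    {A : Subgroup P | A.Normal ∧ IsElementaryAbelian p A}
    ⟨⊥, inferInstance, inferInstance, fun a ha => by rw [Subgroup.mem_bot.1 ha, one_pow]⟩
  have hmem : ∀ x ∈ Subgroup.centralizer (A : Set P), x ^ p = 1 → x ∈ A := fun x hx h =>
    Cfsg.Lib.FT.BG4.mem_of_maximal_normal_elementary hp hP hA
      (fun B hB1 hB2 hle => (eq_or_lt_of_le hle).elim Eq.symm (fun h => absurd h (hmax B ⟨hB1, hB2⟩)))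
      hx h
  obtain ⟨r, hr⟩ := IsPGroup.iff_card.1 (hP.to_subgroup A)
  have hrk : r ≤ k := by
    obtain ⟨S, hS, hcl⟩ := hab A hAn hA.1
    have h1 : frattini A = ⊥ := by
      have := (map_frattini_eq_bot_iff (hP.to_subgroup A)).2 hA
      rwa [Subgroup.map_eq_bot_iff_of_injective _ A.subtype_injective] at this
    have h2 := le_card_of_closure_eq_top (hP.to_subgroup A) (n := r)
      (by rw [h1, Subgroup.index_bot, hr]) (T := S.subtype (· ∈ A)) (by
        apply Subgroup.map_injective A.subtype_injective
        rw [← MonoidHom.range_eq_map, Subgroup.range_subtype, MonoidHom.map_closure]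
        conv_rhs => rw [← hcl]
        congr 1
        ext x
        constructor
        · rintro ⟨y, hy, rfl⟩; simpa using hy
        · intro hx
          exact ⟨⟨x, hcl ▸ Subgroup.subset_closure hx⟩, by simpa using hx, rfl⟩)
    rw [Finset.card_subtype] at h2
    exact h2.trans ((Finset.card_filter_le _ _).trans hS)
  set C := H ⊓ Subgroup.centralizer (A : Set P) with hC
  set K := (frattini H).map H.subtype with hK
  have h1 := RB.card_mul_le_of_normal hP A hr (commutator_le_map_frattini (hP.to_subgroup H))
  have h2 := RB.index_frattini_le_card_omegaOne hp C (hP.to_subgroup C) (fun x hx =>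
    Subgroup.mem_center_iff.2 (fun g => Subtype.ext
      (g.2.2 x (hmem x x.2.2 (congrArg Subtype.val hx))).symm))
  have h3 : Nat.card (omegaOne p (⊤ : Subgroup C)) ≤ p ^ r := by
    rw [← card_map_subtype, PG.map_subtype_omegaOne_top, ← hr]
    exact Subgroup.card_le_of_le (PG.omegaOne_le_iff.2 (fun x hx h => hmem x hx.2 h))
  have h4 : Nat.card (frattini C) ≤ Nat.card (K ⊓ Subgroup.centralizer (A : Set P) : Subgroup P) := by
    rw [← card_map_subtype]
    exact Subgroup.card_le_of_le (le_inf (map_frattini_mono (hP.to_subgroup H) inf_le_left)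
      ((Subgroup.map_subtype_le _).trans inf_le_right))
  have h5 : Nat.card C ≤ p ^ r * Nat.card (K ⊓ Subgroup.centralizer (A : Set P) : Subgroup P) := by
    rw [← (frattini C).index_mul_card]
    exact Nat.mul_le_mul (h2.trans h3) h4
  have h6 : (frattini H).index ≤ p ^ (r ^ 2 / 4 + r) := by
    have h7 := h1.trans (Nat.mul_le_mul_left _ h5)
    rw [← mul_assoc, ← (frattini H).index_mul_card, card_map_subtype] at h7
    have h8 := Nat.le_of_mul_le_mul_right h7 Nat.card_pos
    rw [mul_right_comm, ← pow_add] at h8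
    exact Nat.le_of_mul_le_mul_right h8 Nat.card_pos
  obtain ⟨n, hn⟩ := (hP.to_subgroup H).index (frattini H)
  obtain ⟨T, hT, hcl⟩ := exists_card_eq_closure_eq_top (hP.to_subgroup H) hn
  rw [hn, Nat.pow_le_pow_iff_right (Fact.out : p.Prime).one_lt] at h6
  refine ⟨T.map (Function.Embedding.subtype _), ?_, ?_⟩
  · rw [Finset.card_map, hT]
    refine h6.trans ?_
    rw [← Nat.add_mul_div_left _ _ (by norm_num : 0 < 4)]
    exact Nat.div_le_div_right (by nlinarith)
  · rw [Finset.coe_map]
    exact ((MonoidHom.map_closure H.subtype _).symm.trans (by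
      rw [hcl, ← MonoidHom.range_eq_map, Subgroup.range_subtype]))

end Cfsg.Agent.S4057
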