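import Cfsg.Statements.S4065
import Cfsg.Agent.Known.PSL2Sizes

set_option autoImplicit false
open Cfsg

namespace Cfsg.Agent.S4065

open Cfsg.Lib.Known Cfsg.Lib.Known.GL2 Matrix

/-- Let F be a finite field with 2ⁿ elements, n ≥ 2. In PSL₂(F) the centralizer of every element meets each of its conjugates by elements outside its normalizer trivially. -/
theorem result (n : ℕ) (hn : 2 ≤ n)
    (x : Matrix.ProjectiveSpecialLinearGroup (Fin 2) (GaloisField 2 n)) :
    Cfsg.IsTISubset (Subgroup.centralizer ({x} : Set (Matrix.ProjectiveSpecialLinearGroup (Fin 2) (GaloisField 2 n))) :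
      Set (Matrix.ProjectiveSpecialLinearGroup (Fin 2) (GaloisField 2 n))) := by
  have h2 : (2 : GaloisField 2 n) = 0 := CharP.cast_eq_zero (GaloisField 2 n) 2
  obtain ⟨x, rfl⟩ := piSL_surjective x
  intro g hg y hy hy'
  obtain ⟨g, rfl⟩ := piSL_surjective g
  obtain ⟨y, rfl⟩ := piSL_surjective y
  by_contra h1
  apply hg
  by_cases hx : x ∈ (slLin (GaloisField 2 n)).Z
  · rw [piSL_eq_one_iff.2 hx]
    intro z
    simp [Subgroup.mem_centralizer_singleton_iff]
  have key : ∀ z, piSL _ z ∈ Subgroup.centralizer {piSL _ x} ↔ z ∈ Subgroup.centralizer {x} := by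
    intro z
    rw [← Subgroup.mem_comap, comap_centralizer_piSL_of_trace (Or.inl h2)]
  rw [← map_inv, ← map_mul, ← map_mul, SetLike.mem_coe, key] at hy'
  rw [SetLike.mem_coe, key] at hy
  have := (slLin _).mem_normalizer_centralizer hx hy (by rwa [← piSL_eq_one_iff]) hy'
  intro z
  obtain ⟨z, rfl⟩ := piSL_surjective z
  rw [← map_inv, ← map_mul, ← map_mul, SetLike.mem_coe, SetLike.mem_coe, key, key]
  exact this z

end Cfsg.Agent.S4065
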