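import Cfsg.Statements.S4066
import Cfsg.Agent.Solv.Nilpotent
import Cfsg.Agent.Solv.PGroupNormal

set_option autoImplicit false
open Cfsg

namespace Cfsg.Agent.S4066

open Subgroup Cfsg.Lib.Solv Cfsg.Lib.Solv.PG
open scoped Pointwise commutatorElement

/-- Let G be a finite group in which the centralizer of every element meets each of its conjugates by elements outside its normalizer trivially. Then any two distinct Sylow p-subgroups of G, for any prime p, intersect trivially. -/
theorem result {G : Type*} [Group G] [Finite G] (hTI : ∀ x : G, Cfsg.IsTISubset (Subgroup.centralizer ({x} : Set G) : Set G))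
    {p : ℕ} [Fact p.Prime] (P Q : Sylow p G) (hPQ : P ≠ Q) : (P : Subgroup G) ⊓ (Q : Subgroup G) = ⊥ := by
  by_contra hne
  obtain ⟨⟨y, hyP, hyQ⟩, hy1⟩ := ne_bot_iff_exists_ne_one.mp hne
  have hy1' : y ≠ 1 := fun h => hy1 (Subtype.ext h)
  have hP : (P : Subgroup G) ≠ ⊥ := fun h => hy1' (mem_bot.mp (h ▸ hyP))
  obtain ⟨⟨z, hzP, hzC⟩, hz1⟩ := ne_bot_iff_exists_ne_one.mp
    (inf_centralizer_ne_bot P.isPGroup' P.isPGroup' le_normalizer hP)
  have hz1' : z ≠ 1 := fun h => hz1 (Subtype.ext h)
  have hPC : (P : Subgroup G) ≤ centralizer {z} := fun x hx =>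
    mem_centralizer_singleton_iff.mpr (hzC x hx)
  obtain ⟨g, rfl⟩ := MulAction.exists_smul_eq G P Q
  have hmem : ∀ y ∈ ((g • P : Sylow p G) : Subgroup G), g⁻¹ * y * g ∈ (P : Subgroup G) :=
    fun y hy => by simpa using mem_pointwise_smul_iff_inv_smul_mem.mp hy
  have hg : g ∈ normalizer (centralizer ({z} : Set G) : Set G) := by
    by_contra h
    have := hTI z g h _ (hPC (hmem y hyQ)) (by simpa [mul_assoc] using hPC hyP)
    exact hy1' (by simpa [mul_assoc] using congrArg (fun t => g * t * g⁻¹) this)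
  have hQC : ((g • P : Sylow p G) : Subgroup G) ≤ centralizer {z} := fun x hx => by
    simpa [mul_assoc] using (mem_normalizer_iff.mp hg _).mp (hPC (hmem x hx))
  have key : ∀ a ∈ centralizer ({z} : Set G), ∀ b ∈ centralizer ({z} : Set G),
      ⁅a, b⁆ ^ orderOf a = 1 := fun a ha b hb => by
    have h1 : b ∈ normalizer (centralizer ({a} : Set G) : Set G) := by
      by_contra h
      have h2 := mem_centralizer_singleton_iff.mp ha
      refine hz1' (hTI a b h z (mem_centralizer_singleton_iff.mpr h2.symm) ?_)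
      rw [mem_centralizer_singleton_iff.mp hb, mul_inv_cancel_right]
      exact mem_centralizer_singleton_iff.mpr h2.symm
    have h2 : Commute (b * a⁻¹ * b⁻¹) a := mem_centralizer_singleton_iff.mp
      ((mem_normalizer_iff.mp h1 _).mp (inv_mem (mem_centralizer_singleton_iff.mpr rfl)))
    rw [show ⁅a, b⁆ = a * (b * a⁻¹ * b⁻¹) by rw [commutatorElement_def]; group, h2.symm.mul_pow,
      conj_pow, inv_pow, pow_orderOf_eq_one]
    simp
  have hnil : Group.IsNilpotent (centralizer ({z} : Set G)) := by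
    refine isNilpotent_iff_forall_commute_of_coprime.mpr fun a b hab => Subtype.ext ?_
    have h1 := orderOf_dvd_of_pow_eq_one (key a a.2 b b.2)
    have h2 := orderOf_dvd_of_pow_eq_one (key b b.2 a a.2)
    rw [← commutatorElement_inv, orderOf_inv] at h2
    rw [orderOf_coe] at h1 h2
    exact commutatorElement_eq_one_iff_mul_comm.mp
      (orderOf_eq_one_iff.mp (Nat.eq_one_of_dvd_coprimes hab h1 h2))
  refine hPQ (Sylow.ext ((g • P).is_maximal' P.isPGroup' fun x hx => ?_))
  obtain ⟨k, hk⟩ := IsPGroup.iff_orderOf.mp (g • P).isPGroup' ⟨x, hx⟩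
  rw [← orderOf_coe] at hk
  refine mem_of_coprime_orderOf_relIndex_of_isNilpotent hnil (hQC hx) ?_
  rw [hk]
  exact ((Nat.Prime.coprime_iff_not_dvd Fact.out).mpr fun h =>
    P.not_dvd_index (h.trans (relIndex_dvd_index_of_le hPC))).pow_left k

end Cfsg.Agent.S4066
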