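import Cfsg.Statements.S4067
import Cfsg.Agent.Solv.CyclicP
import Cfsg.Agent.Solv.ClassSize
import Cfsg.Agent.Solv.FrobeniusComplement
import Cfsg.Agent.S0120
import Cfsg.Agent.Char.DegBasic
import Cfsg.Agent.Char.Linear

set_option autoImplicit false
open Cfsg

namespace Cfsg.Agent.S4067

open Subgroup Cfsg.Lib.Solv Cfsg.Lib.Solv.ClassSize Cfsg.Lib.Char Cfsg.Lib.Char.Deg
open scoped commutatorElement

theorem mul_card_quotient_le {Γ X : Type*} [Group Γ] [MulAction Γ X] [Fintype X] (N : ℕ)
    (w : X → ℕ) (h : ∀ x, N ≤ (MulAction.orbit Γ x).ncard * w x) :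
    N * Nat.card (MulAction.orbitRel.Quotient Γ X) ≤ ∑ x, w x := by
  classical
  have := Fintype.ofFinite (MulAction.orbitRel.Quotient Γ X)
  rw [← Finset.sum_fiberwise Finset.univ
    (fun x => (Quotient.mk'' x : MulAction.orbitRel.Quotient Γ X)), Nat.card_eq_fintype_card,
    mul_comm, ← smul_eq_mul, ← Finset.card_univ, ← Finset.sum_const]
  refine Finset.sum_le_sum fun o _ => ?_
  set s := Finset.univ.filter fun x => (Quotient.mk'' x : MulAction.orbitRel.Quotient Γ X) = o
  have hs : ∀ x ∈ s, (MulAction.orbit Γ x).ncard = s.card := fun x hx => by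
    rw [← Set.ncard_coe_finset]
    congr 1
    ext y
    rw [Finset.mem_coe, Finset.mem_filter, ← (Finset.mem_filter.1 hx).2, Quotient.eq'',
      MulAction.orbitRel_apply]
    simp
  have hpos : 0 < s.card := Finset.card_pos.2 ⟨o.out, by simp [s]⟩
  refine Nat.le_of_mul_le_mul_left ?_ hpos
  rw [Finset.mul_sum, ← smul_eq_mul, ← Finset.sum_const]
  exact Finset.sum_le_sum fun x hx => hs x hx ▸ h x

variable {G : Type*} [Group G] [Finite G]

theorem exists_mulAut {p : ℕ} (hp : p.Prime) (M : Subgroup G) [M.Normal] (hM : M.index = p)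
    {x u : G} (hx : x ∉ M) (hu : u ∈ M) (hc : ∀ m ∈ M, m * u = u * m) (hpow : (x * u) ^ p = x ^ p) :
    ∃ α : MulAut G, α x = x * u := by
  have := Fact.mk hp
  have hq : Nat.card (G ⧸ M) = p := hM
  have hx1 : (x : G ⧸ M) ≠ 1 := by rwa [Ne, QuotientGroup.eq_one_iff]
  have hι : ∀ g : G, ∃ i : ℤ, g * x ^ (-i) ∈ M := fun g => by
    obtain ⟨i, hi⟩ := mem_zpowers_of_prime_card hq hx1 (g' := (g : G ⧸ M))
    refine ⟨i, ?_⟩
    rw [← QuotientGroup.eq_one_iff, QuotientGroup.mk_mul, QuotientGroup.mk_zpow, ← hi]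
    simp
  choose ι hι using hι
  let d : ℤ → G := fun i => x ^ (-i) * (x * u) ^ i
  have hd : ∀ i j : ℤ, x ^ (i - j) ∈ M → d i = d j := fun i j h => by
    have h1 : (p : ℤ) ∣ i - j := by
      have h0 : orderOf (x : G ⧸ M) = p :=
        orderOf_eq_prime (by rw [← hq]; exact pow_card_eq_one') hx1
      rw [← h0, orderOf_dvd_iff_zpow_eq_one, ← QuotientGroup.mk_zpow, QuotientGroup.eq_one_iff]
      exact h
    obtain ⟨k, hk⟩ := h1
    have h2 : i = p * k + j := by omega
    simp only [d]
    rw [h2, zpow_add, zpow_mul, zpow_natCast, hpow, ← zpow_natCast, ← zpow_mul, ← mul_assoc,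
      ← zpow_add]
    congr 2
    ring
  have hconj : ∀ (i : ℤ), ∀ m ∈ M, (x * u) ^ i * m * (x * u) ^ (-i) = x ^ i * m * x ^ (-i) := by
    have h1 : ∀ m ∈ M, (x * u) * m * (x * u)⁻¹ = x * m * x⁻¹ := fun m hm => by
      rw [mul_assoc x u m, ← hc m hm]; group
    have h2 : MulAut.conjNormal (H := M) (x * u) = MulAut.conjNormal x := by
      ext m
      rw [MulAut.conjNormal_apply, MulAut.conjNormal_apply]
      exact h1 m m.2
    intro i m hm
    have h3 : MulAut.conjNormal (H := M) ((x * u) ^ i) = MulAut.conjNormal (x ^ i) := by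
      rw [map_zpow, map_zpow, h2]
    have h4 := congrArg (fun f : MulAut M => (f ⟨m, hm⟩ : G)) h3
    simp only [MulAut.conjNormal_apply] at h4
    rwa [zpow_neg, zpow_neg]
  have hdc : ∀ (i : ℤ), ∀ m ∈ M, d i * m = m * d i := fun i m hm => by
    have h1 := hconj i m hm
    simp only [d]
    calc x ^ (-i) * (x * u) ^ i * m
        = x ^ (-i) * ((x * u) ^ i * m * (x * u) ^ (-i)) * (x * u) ^ i := by group
      _ = _ := by rw [h1]; group
  have hdM : ∀ i, d i ∈ M := fun i => by
    rw [← QuotientGroup.eq_one_iff]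
    simp [d, (QuotientGroup.eq_one_iff u).2 hu]
  let f : G →* G := MonoidHom.mk' (fun g => g * d (ι g)) fun g h => by
    have h1 : d (ι (g * h)) = d (ι g + ι h) := hd _ _ (by
      rw [← QuotientGroup.eq_one_iff]
      have a0 : ∀ g : G, (x : G ⧸ M) ^ ι g = g := fun g => by
        have a1 := (QuotientGroup.eq_one_iff _).2 (hι g)
        rw [QuotientGroup.mk_mul, QuotientGroup.mk_zpow, zpow_neg, mul_inv_eq_one] at a1
        exact a1.symm
      rw [QuotientGroup.mk_zpow, zpow_sub, zpow_add, a0, a0, a0, QuotientGroup.mk_mul,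
        mul_inv_cancel])
    have h2 := hdc (ι g) _ (hι h)
    rw [h1]
    calc g * h * d (ι g + ι h)
        = g * (h * x ^ (-ι h) * d (ι g)) * (x * u) ^ ι h := by simp only [d]; group
      _ = g * d (ι g) * (h * d (ι h)) := by rw [← h2]; simp only [d]; group
  have hf : Function.Injective f := (injective_iff_map_eq_one f).2 fun g hg => by
    have h1 : g * d (ι g) = 1 := hg
    have h2 : g ∈ M := by
      rw [eq_inv_of_mul_eq_one_left h1]
      exact M.inv_mem (hdM _)
    have h3 : d (ι g) = d 0 := hd _ _ (by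
      have := M.mul_mem (M.inv_mem (hι g)) h2
      simpa using this)
    rw [h3] at h1
    simpa [d] using h1
  refine ⟨MulEquiv.ofBijective f (Finite.injective_iff_bijective.1 hf), ?_⟩
  change x * d (ι x) = x * u
  rw [hd (ι x) 1 (by
    have := M.inv_mem (hι x)
    rw [zpow_sub, zpow_one]
    simpa using this)]
  simp [d]

theorem mul_card_conjClasses_le (h : (Nat.card G).minFac < Nat.card (commutator G)) :
    (Nat.card G).minFac * Nat.card (ConjClasses G) ≤ Nat.card G := by
  classical
  set p := (Nat.card G).minFac with hp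
  have h1 := sum_deg_sq G
  have h2 := card_linear_irr (G := G)
  have h3 := (commutator G).index_mul_card
  rw [← card_irr_eq_card_conjClasses, Nat.card_eq_fintype_card (α := IrrCharacter G)]
  rw [Nat.card_eq_fintype_card, Fintype.card_subtype] at h2
  rw [← Finset.sum_filter_add_sum_filter_not Finset.univ
    (fun χ : IrrCharacter G => (χ : G → ℂ) 1 = 1)] at h1
  have h4 := Finset.card_filter_add_card_filter_not (s := (Finset.univ : Finset (IrrCharacter G)))
    (fun χ : IrrCharacter G => (χ : G → ℂ) 1 = 1)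
  have h5 := Finset.card_nsmul_le_sum (Finset.univ.filter
    fun χ : IrrCharacter G => (χ : G → ℂ) 1 = 1) (fun χ => charDegree (χ : G → ℂ) ^ 2) 1
    fun χ _ => Nat.one_le_pow _ _ (deg_pos χ.2)
  have h6 := Finset.card_nsmul_le_sum (Finset.univ.filter
    fun χ : IrrCharacter G => ¬ (χ : G → ℂ) 1 = 1) (fun χ => charDegree (χ : G → ℂ) ^ 2) (p ^ 2)
    fun χ hχ => Nat.pow_le_pow_left (Nat.minFac_le_of_dvd (by
      have := deg_pos χ.2
      have := mt (deg_eq_one_iff χ.2.isCharacter).1 (Finset.mem_filter.1 hχ).2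
      omega) (deg_dvd_card χ.2)) 2
  rw [Finset.card_univ] at h4
  rw [h2, smul_eq_mul] at *
  have hp0 : 0 < p := Nat.minFac_pos _
  obtain ⟨q, hq⟩ : ∃ q, p = q + 1 := ⟨p - 1, by omega⟩
  have h7 : (commutator G).index * (p + 1) ≤ Nat.card G := h3 ▸ Nat.mul_le_mul_left _ h
  refine Nat.le_of_mul_le_mul_left ?_ hp0
  rw [← h4]
  have h8 := Nat.mul_le_mul_left q h7
  clear_value p
  subst hq
  nlinarith

theorem exists_good {p : ℕ} (hp : p.Prime) (hD : Nat.card (commutator G) = p)
    (hZ : commutator G ≤ center G) (hcard : p * Nat.card (center G) < Nat.card G) :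
    ∃ a, a ∉ commutator G ∧ ((a ∈ center G ∧ a ^ p = 1) ∨
      (a ∉ center G ∧ ∀ x, ⁅a, x⁆ ≠ 1 → a ^ p * ⁅a, x⁆ ^ p.choose 2 = 1)) := by
  have hmem : ∀ x y : G, ⁅x, y⁆ ∈ commutator G := fun x y =>
    commutator_mem_commutator (mem_top x) (mem_top y)
  have hDp : ∀ d ∈ commutator G, d ^ p = 1 := fun d hd => hD ▸ PG.pow_card_eq_one_of_mem hd
  have hmul : ∀ x y : G, (x * y) ^ p = x ^ p * y ^ p * ⁅y, x⁆ ^ p.choose 2 := fun x y =>
    (S0120.mul_pow_of_commute_commutator x y (mem_center_iff.1 (hZ (hmem y x)) x).symm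
      (mem_center_iff.1 (hZ (hmem y x)) y).symm p).1
  have hpZ : ∀ x : G, x ^ p ∈ center G := fun x => mem_center_iff.2 fun y => by
    have := (S0120.mul_pow_of_commute_commutator x y (mem_center_iff.1 (hZ (hmem y x)) x).symm
      (mem_center_iff.1 (hZ (hmem y x)) y).symm p).2.1
    rwa [hDp _ (hmem y x), one_mul] at this
  rcases hp.eq_two_or_odd' with rfl | hodd
  · by_contra hno
    have h1 : ∀ z ∈ center G, z ^ 2 = 1 → z ∈ commutator G := fun z hz h => by
      by_contra h'
      exact hno ⟨z, h', Or.inl ⟨hz, h⟩⟩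
    obtain ⟨c, hc1, hc⟩ := (Nat.card_eq_two_iff' (1 : commutator G)).1 hD
    have hc' : ∀ x y : G, ⁅x, y⁆ ≠ 1 → ⁅x, y⁆ = c := fun x y h =>
      congrArg Subtype.val (hc ⟨_, hmem x y⟩ fun e => h (congrArg Subtype.val e))
    let f : center G →* center G := MonoidHom.mk' (fun z => z ^ 2) fun a b =>
      Commute.mul_pow (Subtype.ext (mem_center_iff.1 b.2 a)) 2
    have hker : f.ker = (commutator G).subgroupOf (center G) := by
      ext z
      exact ⟨fun h => h1 z z.2 (congrArg Subtype.val h), fun h => Subtype.ext (hDp _ h)⟩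
    have hind : f.range.index = 2 := by
      rw [index_range, hker, Nat.card_congr (subgroupOfEquivOfLe hZ).toEquiv, hD]
    let ν : G → center G := fun a => ⟨a ^ 2 * c, mul_mem (hpZ a) (hZ c.2)⟩
    have h2 : ∀ a, a ∉ center G → ν a ∉ f.range := by
      rintro a ha ⟨z, hz⟩
      have hz' : (z : G) ^ 2 = a ^ 2 * c := congrArg Subtype.val hz
      have ha' : a * (z : G)⁻¹ ∉ center G := fun h => ha (by simpa using mul_mem h z.2)
      refine hno ⟨a * (z : G)⁻¹, fun h => ha' (hZ h), Or.inr ⟨ha', fun x hx => ?_⟩⟩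
      have h3 : Commute a (z : G)⁻¹ := mem_center_iff.1 (inv_mem z.2) a
      have h4 : Commute (a ^ 2) (c : G) := mem_center_iff.1 (hZ c.2) _
      rw [hc' _ _ hx, h3.mul_pow, inv_pow, hz', h4.eq]
      simp
    obtain ⟨x, hx⟩ : ∃ x, x ∉ center G := by
      by_contra! h
      rw [(eq_top_iff' _).2 h, card_top] at hcard
      omega
    obtain ⟨y, hy⟩ : ∃ y, y * x ≠ x * y := by simpa [mem_center_iff] using hx
    have h3 : ν (x * y) = ν x * ν y := Subtype.ext (by
      change (x * y) ^ 2 * c = x ^ 2 * c * (y ^ 2 * c)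
      rw [hmul, hc' y x (by rwa [Ne, commutatorElement_eq_one_iff_mul_comm])]
      have h4 : (c : G) * y ^ 2 = y ^ 2 * c := (mem_center_iff.1 (hZ c.2) _).symm
      simp only [Nat.choose_self, pow_one, mul_assoc]
      rw [← mul_assoc (c : G), h4, mul_assoc])
    refine h2 (x * y) (fun h => hy ?_) ?_
    · have := mem_center_iff.1 h x
      rw [mul_assoc] at this
      exact (mul_left_cancel this).symm
    · rw [h3, mul_mem_iff_of_index_two hind]
      exact ⟨fun h => absurd h (h2 x hx),
        fun h => absurd h (h2 y fun h' => hy (mem_center_iff.1 h' x).symm)⟩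
  · have hch : ∀ d ∈ commutator G, d ^ p.choose 2 = 1 := fun d hd => by
      obtain ⟨k, hk⟩ := hp.dvd_choose_self (k := 2) (by omega) (by
        have := hp.two_le
        have : p ≠ 2 := by rintro rfl; exact absurd hodd (by decide)
        omega)
      rw [hk, pow_mul, hDp d hd, one_pow]
    let f : G →* center G := MonoidHom.mk' (fun x => ⟨x ^ p, hpZ x⟩) fun x y => Subtype.ext (by
      change (x * y) ^ p = x ^ p * y ^ p
      rw [hmul, hch _ (hmem y x), mul_one])
    obtain ⟨a, ha, haD⟩ : ∃ a ∈ f.ker, a ∉ commutator G := by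
      by_contra! h
      have h1 := card_le_of_le h
      have h2 := f.ker.card_mul_index
      rw [index_ker] at h2
      have h3 := Nat.mul_le_mul h1 (card_le_card_group f.range)
      rw [hD] at h3
      omega
    have hap : a ^ p = 1 := congrArg Subtype.val ha
    by_cases h : a ∈ center G
    · exact ⟨a, haD, Or.inl ⟨h, hap⟩⟩
    · exact ⟨a, haD, Or.inr ⟨h, fun x _ => by rw [hap, hch _ (hmem a x), mul_one]⟩⟩

theorem minFac_mul_card_le {A B : Subgroup G} (h : A < B) :
    (Nat.card G).minFac * Nat.card A ≤ Nat.card B := by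
  have h1 : (A.subgroupOf B).index * Nat.card (A.subgroupOf B) = Nat.card B := index_mul_card _
  rw [Nat.card_congr (subgroupOfEquivOfLe h.le).toEquiv] at h1
  rw [← h1]
  refine Nat.mul_le_mul_right _ (Nat.minFac_le_of_dvd ?_
    ((index_dvd_card _).trans (card_subgroup_dvd_card B)))
  have h2 : (A.subgroupOf B).index ≠ 1 := by
    rw [Ne, index_eq_one, subgroupOf_eq_top]
    exact h.not_ge
  have := (A.subgroupOf B).index_ne_zero_of_finite
  omega

/-- Let G be a finite non-abelian group and p the least prime dividing its order. Then the automorphism group of G has at most #G/p orbits on G. -/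
theorem result {G : Type*} [Group G] [Finite G] (hna : ¬ IsMulCommutative G) :
    Nat.card (MulAction.orbitRel.Quotient (MulAut G) G) ≤ Nat.card G / (Nat.card G).minFac := by
  classical
  have := Fintype.ofFinite G
  set p := (Nat.card G).minFac with hpdef
  have hD0 : commutator G ≠ ⊥ := fun h => hna ⟨⟨fun a b => by
    rw [← commutatorElement_eq_one_iff_mul_comm, ← mem_bot, ← h]
    exact commutator_mem_commutator (mem_top a) (mem_top b)⟩⟩
  have hp : p.Prime := Nat.minFac_prime fun h => hD0 (by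
    have := (Nat.card_eq_one_iff_unique.1 h).1
    exact Subsingleton.elim _ _)
  rw [Nat.le_div_iff_mul_le hp.pos, mul_comm]
  have hcls : ∀ x : G, {y | IsConj x y} ⊆ MulAction.orbit (MulAut G) x := fun x y hy => by
    obtain ⟨g, rfl⟩ := isConj_iff.1 hy
    exact ⟨MulAut.conj g, rfl⟩
  by_cases hlt : p < Nat.card (commutator G)
  · refine le_trans (Nat.mul_le_mul_left _ ?_) (mul_card_conjClasses_le hlt)
    refine Nat.card_le_card_of_surjective (Quotient.map' id fun a b h => ?_ :
      ConjClasses G → MulAction.orbitRel.Quotient (MulAut G) G) fun o => ?_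
    · exact hcls b (IsConj.symm h)
    · obtain ⟨x, rfl⟩ := Quotient.mk''_surjective o
      exact ⟨ConjClasses.mk x, rfl⟩
  have hD : Nat.card (commutator G) = p := by
    have := minFac_mul_card_le (bot_lt_iff_ne_bot.2 hD0)
    rw [card_bot] at this
    omega
  have hZ : commutator G ≤ center G := Fpf.le_center_of_card_eq_minFac _ hD
  have hmem : ∀ x y : G, ⁅x, y⁆ ∈ commutator G := fun x y =>
    commutator_mem_commutator (mem_top x) (mem_top y)
  have hcent : ∀ a, a ∉ center G → (centralizer ({a} : Set G)).index = p ∧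
      center G < centralizer ({a} : Set G) := fun a ha => by
    refine ⟨le_antisymm ?_ (Nat.minFac_le_of_dvd ?_ (index_dvd_card _)),
      lt_of_le_of_ne (center_le_cent a) fun h => ha (h ▸ self_mem_cent a)⟩
    · rw [← ncard_setOf_isConj, ← hD, ← SetLike.coe_sort_coe, Nat.card_coe_set_eq]
      refine le_trans (Set.ncard_le_ncard (t := (· * a) '' (commutator G : Set G)) ?_)
        (Set.ncard_image_le)
      intro y hy
      obtain ⟨g, rfl⟩ := isConj_iff.1 hy
      exact ⟨_, hmem g a, by simp [commutatorElement_def]⟩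
    · have h1 := mt index_cent_eq_one_iff.1 ha
      have := (centralizer ({a} : Set G)).index_ne_zero_of_finite
      omega
  obtain ⟨a0, ha0⟩ : ∃ x, x ∉ center G := by
    by_contra! h
    exact hna ⟨⟨fun a b => mem_center_iff.1 (h b) a⟩⟩
  have hZc : p * Nat.card (center G) < Nat.card G :=
    (minFac_mul_card_le (hcent a0 ha0).2).trans_lt (by
      rw [← (centralizer ({a0} : Set G)).index_mul_card, (hcent a0 ha0).1]
      exact (Nat.lt_mul_iff_one_lt_left Nat.card_pos).2 hp.one_lt)
  obtain ⟨M, a, hMi, hZM, haD, haM, hac, hap⟩ : ∃ (M : Subgroup G) (a : G), M.index = p ∧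
      center G < M ∧ a ∉ commutator G ∧ a ∈ M ∧ (∀ m ∈ M, m * a = a * m) ∧
      ∀ x ∉ M, (x * a) ^ p = x ^ p := by
    obtain ⟨a, haD, ⟨h1, h2⟩ | ⟨h1, h2⟩⟩ := exists_good hp hD hZ hZc
    · refine ⟨_, a, (hcent a0 ha0).1, (hcent a0 ha0).2, haD, center_le_cent a0 h1,
        fun m _ => mem_center_iff.1 h1 m, fun x _ => ?_⟩
      rw [Commute.mul_pow (mem_center_iff.1 h1 x), h2, mul_one]
    · refine ⟨_, a, (hcent a h1).1, (hcent a h1).2, haD, self_mem_cent a,
        fun m hm => mem_cent.1 hm, fun x hx => ?_⟩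
      rw [(S0120.mul_pow_of_commute_commutator x a (mem_center_iff.1 (hZ (hmem a x)) x).symm
        (mem_center_iff.1 (hZ (hmem a x)) a).symm p).1, mul_assoc, h2 x (fun h => hx
          (mem_cent.2 (commutatorElement_eq_one_iff_mul_comm.1 h).symm)), mul_one]
  have hMn : M.Normal := normal_of_index_eq_minFac_card hMi
  let S : Subgroup G :=
    { carrier := {u | u ∈ M ∧ ∀ x ∉ M, x * u ∈ MulAction.orbit (MulAut G) x}
      one_mem' := ⟨M.one_mem, fun x _ => by simp⟩
      mul_mem' := fun {u v} hu hv => ⟨M.mul_mem hu.1 hv.1, fun x hx => by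
        rw [← mul_assoc, ← MulAction.orbit_eq_iff.2 (hu.2 x hx)]
        exact hv.2 _ fun h => hx ((M.mul_mem_cancel_right hu.1).1 h)⟩
      inv_mem' := fun {u} hu => ⟨M.inv_mem hu.1, fun x hx => by
        have := hu.2 (x * u⁻¹) fun h => hx ((M.mul_mem_cancel_right (M.inv_mem hu.1)).1 h)
        rw [inv_mul_cancel_right] at this
        exact MulAction.mem_orbit_symm.1 this⟩ }
  have hDS : commutator G < S := by
    refine lt_of_le_of_ne (fun d hd => ⟨hZM.le (hZ hd), fun x hx => ?_⟩) fun h => haD ?_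
    · exact exists_mulAut hp M hMi hx (hZM.le (hZ hd)) (fun m _ => mem_center_iff.1 (hZ hd) m) (by
        rw [Commute.mul_pow (mem_center_iff.1 (hZ hd) x), ← hD, PG.pow_card_eq_one_of_mem hd,
          mul_one])
    · rw [h]
      exact ⟨haM, fun x hx => exists_mulAut hp M hMi hx haM hac (hap x hx)⟩
  have hS := minFac_mul_card_le hDS
  rw [hD, ← hpdef] at hS
  have key := mul_card_quotient_le (Γ := MulAut G) (p * p)
    (fun x : G => (if x ∈ center G then p * p - p else 0) + (if x ∈ M then p - 1 else 0) + 1)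
    fun x => by
      have h0 : 0 < (MulAction.orbit (MulAut G) x).ncard :=
        (Set.ncard_pos (Set.toFinite _)).2 ⟨x, MulAction.mem_orbit_self x⟩
      have h1 : p ≤ p * p := Nat.le_mul_self p
      have h2 := hp.pos
      by_cases hx : x ∈ center G
      · rw [if_pos hx, if_pos (hZM.le hx)]
        exact le_trans (by omega) (Nat.le_mul_of_pos_left _ h0)
      by_cases hxM : x ∈ M
      · rw [if_neg hx, if_pos hxM]
        refine Nat.mul_le_mul ?_ (by omega)
        rw [← (hcent x hx).1, ← ncard_setOf_isConj]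
        exact Set.ncard_le_ncard (hcls x)
      · rw [if_neg hx, if_neg hxM, zero_add, zero_add, mul_one]
        refine hS.trans ?_
        rw [← SetLike.coe_sort_coe, Nat.card_coe_set_eq,
          ← Set.ncard_image_of_injective _ (mul_right_injective x)]
        refine Set.ncard_le_ncard ?_
        rintro _ ⟨u, hu, rfl⟩
        exact hu.2 x hxM
  have hcnt : ∀ (H : Subgroup G) [DecidablePred (· ∈ H)],
      (Finset.univ.filter (· ∈ H)).card = Nat.card H := fun H _ => by
    rw [Nat.card_eq_fintype_card, Fintype.card_subtype]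
  simp only [Finset.sum_add_distrib, Finset.sum_ite, Finset.sum_const, smul_eq_mul, mul_zero,
    add_zero, mul_one, hcnt, Finset.card_univ, ← Nat.card_eq_fintype_card] at key
  have h1 := minFac_mul_card_le hZM
  have h2 := M.index_mul_card
  rw [hMi] at h2
  rw [← hpdef] at h1
  refine Nat.le_of_mul_le_mul_left ?_ hp.pos
  rw [← mul_assoc]
  refine key.trans ?_
  rw [← h2]
  obtain ⟨q, hq⟩ : ∃ q, p = q + 2 := ⟨p - 2, by have := hp.two_le; omega⟩
  clear_value p
  subst hq
  have e1 : (q + 2) * (q + 2) - (q + 2) = (q + 1) * (q + 2) := by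
    rw [Nat.sub_eq_iff_eq_add (Nat.le_mul_self _)]; ring
  have e2 : q + 2 - 1 = q + 1 := by omega
  rw [e1, e2]
  generalize Nat.card M = m at h1 ⊢
  generalize Nat.card (center G) = z at h1 ⊢
  nlinarith [Nat.mul_le_mul_left (q + 1) h1, Nat.zero_le (q * q * m), Nat.zero_le (q * m)]

end Cfsg.Agent.S4067
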