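import Cfsg.Statements.S4071
import Cfsg.Agent.Solv.CoprimeAbelian
import Cfsg.Agent.Solv.Frattini

set_option autoImplicit false
open Cfsg

namespace Cfsg.Agent.S4071

theorem fpf_surj {G : Type*} [Group G] [Finite G] {B : Subgroup G} {y : G}
    (hy : ∀ b ∈ B, y * b * y⁻¹ ∈ B) (h : ∀ b ∈ B, b ≠ 1 → y * b * y⁻¹ ≠ b) {b : G} (hb : b ∈ B) :
    ∃ c ∈ B, c * (y * c⁻¹ * y⁻¹) = b := by
  let f : B → B := fun c => ⟨c * (y * (c : G)⁻¹ * y⁻¹), B.mul_mem c.2 (hy _ (B.inv_mem c.2))⟩
  have hf : Function.Injective f := fun c d hcd => by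
    have h1 : (c : G) * (y * (c : G)⁻¹ * y⁻¹) = d * (y * (d : G)⁻¹ * y⁻¹) := congrArg Subtype.val hcd
    by_contra hne
    refine h ((d : G)⁻¹ * c) (B.mul_mem (B.inv_mem d.2) c.2)
      (fun h => hne (Subtype.ext (inv_mul_eq_one.1 h).symm)) ?_
    calc y * ((d : G)⁻¹ * c) * y⁻¹ = (d : G)⁻¹ * (d * (y * (d : G)⁻¹ * y⁻¹)) * (y * c * y⁻¹) := by group
      _ = (d : G)⁻¹ * c := by rw [← h1]; group
  obtain ⟨c, hc⟩ := Finite.injective_iff_surjective.1 hf ⟨b, hb⟩
  exact ⟨c, c.2, congrArg Subtype.val hc⟩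

theorem comm_of_forall {G : Type*} [Group G] {H : Subgroup G}
    (h : ∀ a ∈ H, ∀ b ∈ H, a * b = b * a) : IsMulCommutative H :=
  ⟨⟨fun a b => Subtype.ext (h a a.2 b b.2)⟩⟩

theorem mul_comm_of {G : Type*} [Group G] {H : Subgroup G} (h : IsMulCommutative H) {a b : G}
    (ha : a ∈ H) (hb : b ∈ H) : a * b = b * a :=
  congrArg Subtype.val (h.1.1 ⟨a, ha⟩ ⟨b, hb⟩)

/-- Let G be a finite solvable non-nilpotent group. Every non-abelian subgroup of G is self-normalizing if and only if G is a semidirect product ⟨x⟩ ⋉ A in which ⟨x⟩ is a p-group for some prime p, A is a normal abelian subgroup of order prime to p, x^p is central in G, and x acts fixed-point-freely on A (no non-identity element of A commutes with x). -/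
theorem result {G : Type*} [Group G] [Finite G]
    [Group.IsSolvable G] (hnn : ¬ Group.IsNilpotent G) :
    (∀ H : Subgroup G, ¬ IsMulCommutative H → Subgroup.normalizer (H : Set G) = H) ↔
    ∃ (x : G) (A : Subgroup G) (p : ℕ), p.Prime ∧ A.Normal ∧ IsMulCommutative A ∧ (∃ k : ℕ, orderOf x = p ^ k) ∧
      ¬ p ∣ Nat.card A ∧ (Subgroup.zpowers x).IsComplement' A ∧ x ^ p ∈ Subgroup.center G ∧
      ∀ a : G, a ∈ A → a ≠ 1 → x * a * x⁻¹ ≠ a := by
  constructor
  · intro h
    have hnt : Nontrivial G := by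
      by_contra h1
      rw [not_nontrivial_iff_subsingleton] at h1
      exact hnn inferInstance
    obtain ⟨M, hM, hle⟩ := (eq_top_or_exists_le_coatom (commutator G)).resolve_left
      (Group.IsSolvable.commutator_lt_top_of_nontrivial (G := G)).ne
    have hMn : M.Normal := ⟨fun m hm g => by
      simpa [commutatorElement_def] using M.mul_mem (hle (Subgroup.commutator_mem_commutator (Subgroup.mem_top g)
        (Subgroup.mem_top m))) hm⟩
    have hp := Cfsg.Lib.Solv.index_prime_of_isCoatom_of_normal hM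
    set p := M.index with hpdef
    have := Fact.mk hp
    have hMc : IsMulCommutative M := by
      by_contra h1
      exact hM.1 ((h M h1).symm.trans (Subgroup.normalizer_eq_top M))
    let A : Subgroup G :=
      { carrier := {a | a ∈ M ∧ (orderOf a).Coprime p}
        one_mem' := ⟨M.one_mem, by simp⟩
        mul_mem' := fun ha hb => ⟨M.mul_mem ha.1 hb.1, (Nat.Coprime.mul_left ha.2 hb.2).coprime_dvd_left
          (Commute.orderOf_mul_dvd_mul_orderOf (mul_comm_of hMc ha.1 hb.1))⟩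
        inv_mem' := fun ha => ⟨M.inv_mem ha.1, by rw [orderOf_inv]; exact ha.2⟩ }
    have hAM : A ≤ M := fun a ha => ha.1
    have hAn : A.Normal := ⟨fun a ha g => ⟨hMn.conj_mem a ha.1 g, by
      have := (MulAut.conj g).orderOf_eq a
      rw [MulAut.conj_apply] at this
      exact this ▸ ha.2⟩⟩
    have hAc : IsMulCommutative A := comm_of_forall fun a ha b hb => mul_comm_of hMc ha.1 hb.1
    have hAp : ¬ p ∣ Nat.card A := fun hd => by
      obtain ⟨a, ha⟩ := exists_prime_orderOf_dvd_card' p hd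
      have := a.2.2
      rw [Subgroup.orderOf_coe, ha] at this
      exact hp.one_lt.ne' ((Nat.coprime_self p).1 this)
    have hQ : IsPGroup p (G ⧸ A) := fun g => by
      obtain ⟨g, rfl⟩ := QuotientGroup.mk_surjective g
      obtain ⟨k, m, hm, e⟩ := Nat.exists_eq_pow_mul_and_not_dvd (orderOf_pos g).ne' p hp.ne_one
      refine ⟨k + 1, (QuotientGroup.eq_one_iff (g ^ p ^ (k + 1))).2 ⟨?_, ?_⟩⟩
      · rw [pow_succ', pow_mul]
        exact M.pow_mem (M.pow_index_mem g) _
      · refine ((hp.coprime_iff_not_dvd.2 hm).symm).coprime_dvd_left (orderOf_dvd_of_pow_eq_one ?_)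
        rw [← pow_mul, pow_succ', mul_assoc, ← e, mul_comm, pow_mul, pow_orderOf_eq_one, one_pow]
    obtain ⟨y, -, hy⟩ := SetLike.exists_of_lt hM.1.lt_top
    obtain ⟨k, m, hm, e⟩ := Nat.exists_eq_pow_mul_and_not_dvd (orderOf_pos y).ne' p hp.ne_one
    set x := y ^ m with hx
    have hxM : x ∉ M := fun h1 => by
      obtain ⟨u, v, huv⟩ := (Nat.isCoprime_iff_coprime.2 (hp.coprime_iff_not_dvd.2 hm))
      have := M.mul_mem (M.zpow_mem (M.pow_index_mem y) u) (M.zpow_mem h1 v)
      rw [hx, ← zpow_natCast, ← zpow_natCast, ← zpow_mul, ← zpow_mul, ← zpow_add, mul_comm _ u,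
        mul_comm _ v, huv, zpow_one] at this
      exact hy this
    obtain ⟨j, -, hj⟩ := (Nat.dvd_prime_pow hp).1 (orderOf_dvd_of_pow_eq_one (x := x) (n := p ^ k)
      (by rw [hx, ← pow_mul, mul_comm, ← e, pow_orderOf_eq_one]))
    have hcop : (Nat.card (Subgroup.zpowers x)).Coprime (Nat.card A) := by
      rw [Nat.card_zpowers, hj]
      exact (hp.coprime_iff_not_dvd.2 hAp).pow_left j
    have hdis : A ⊓ Subgroup.zpowers x = ⊥ :=
      disjoint_iff.1 (Subgroup.disjoint_of_coprime_natCard hcop.symm)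
    have hMx : M ⊔ Subgroup.zpowers x = ⊤ := hM.2 _ (left_lt_sup.2 fun h1 =>
      hxM (h1 (Subgroup.mem_zpowers x)))
    have hcen : ∀ z, (∀ m ∈ M, m * z = z * m) → x * z = z * x → z ∈ Subgroup.center G := by
      intro z h1 h2
      rw [← Subgroup.centralizer_univ, ← Subgroup.coe_top, ← Subgroup.zpowers_le,
        Subgroup.le_centralizer_iff, ← hMx]
      exact sup_le (Subgroup.le_centralizer_iff.1 (Subgroup.zpowers_le.2 h1))
        (Subgroup.zpowers_le.2 (Subgroup.le_centralizer_iff.1 (Subgroup.zpowers_le.2 (by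
          rintro _ ⟨n, rfl⟩; exact (Commute.zpow_left h2 n).eq)) (Subgroup.mem_zpowers x)))
    have hxA : ⁅A, Subgroup.zpowers x⁆ ≠ ⊥ := fun h1 => by
      rw [Subgroup.commutator_eq_bot_iff_le_centralizer] at h1
      have := hQ.isNilpotent
      exact hnn (Subgroup.isNilpotent_of_ker_le_center (QuotientGroup.mk' A) fun a ha => by
        rw [QuotientGroup.ker_mk'] at ha
        exact hcen a (fun m hm => mul_comm_of hMc hm ha.1) (h1 ha x (Subgroup.mem_zpowers x)))
    have hab : ∀ B : Subgroup G, IsMulCommutative (B ⊔ Subgroup.zpowers x : Subgroup G) →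
        ⁅B, Subgroup.zpowers x⁆ = ⊥ := fun B hB => by
      rw [Subgroup.commutator_eq_bot_iff_le_centralizer]
      exact fun b hb z hz => mul_comm_of hB (Subgroup.mem_sup_right hz) (Subgroup.mem_sup_left hb)
    have htop : A ⊔ Subgroup.zpowers x = ⊤ := by
      by_contra hne
      have h1 := h _ fun h => hxA (hab A h)
      have := hQ.isNilpotent
      have hc : ((A ⊔ Subgroup.zpowers x).map (QuotientGroup.mk' A)).comap (QuotientGroup.mk' A) =
          A ⊔ Subgroup.zpowers x := Subgroup.comap_map_eq_self (by simp)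
      have h2 := Group.normalizerCondition_of_isNilpotent (G := G ⧸ A)
        ((A ⊔ Subgroup.zpowers x).map (QuotientGroup.mk' A)) (lt_top_iff_ne_top.2 fun h3 =>
          hne (by rw [← hc, h3, Subgroup.comap_top]))
      refine h2.ne (Subgroup.comap_injective (QuotientGroup.mk'_surjective A) ?_)
      rw [Subgroup.comap_normalizer_eq_of_surjective _ (QuotientGroup.mk'_surjective A), hc, h1]
    refine ⟨x, A, p, hp, hAn, hAc, ⟨j, hj⟩, hAp,
      (Cfsg.Lib.Solv.isComplement'_of_normal_of_inf_eq_bot_of_sup_eq_top hdis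
        ((sup_comm _ _).trans htop)).symm,
      hcen _ (fun m hm => mul_comm_of hMc hm (M.pow_index_mem x)) (Commute.self_pow x p).eq,
      fun a ha ha1 hxa => ha1 ?_⟩
    have hN : Subgroup.zpowers x ≤ Subgroup.normalizer (A : Set G) := Subgroup.le_normalizer_of_normal
    have h1 := h _ fun h => hxA (Cfsg.Lib.Solv.Coprime.commutator_eq_bot_of_commutator_commutator_eq_bot
      hN hcop (hab _ h))
    have hle := Subgroup.commutator_le_left A (Subgroup.zpowers x)
    have hax : a ∈ Subgroup.centralizer (Subgroup.zpowers x : Set G) := by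
      rintro _ ⟨n, rfl⟩
      exact (Commute.zpow_left (mul_inv_eq_iff_eq_mul.1 hxa) n).eq
    have h2 : a ∈ ⁅A, Subgroup.zpowers x⁆ ⊔ Subgroup.zpowers x := by
      rw [← h1]
      refine Subgroup.centralizer_le_normalizer _ ?_
      rw [← Subgroup.zpowers_le, Subgroup.le_centralizer_iff]
      exact sup_le (Subgroup.le_centralizer_iff.1 (Subgroup.zpowers_le.2 fun b hb =>
        mul_comm_of hAc (hle hb) ha)) (Subgroup.le_centralizer_iff.1 (Subgroup.zpowers_le.2 hax))
    obtain ⟨c, hc, z, hz, rfl⟩ := (Cfsg.Lib.Solv.Coprime.mem_sup_iff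
      (Subgroup.normalizer_commutator_ge_right A _)).1 h2
    have h3 : z = 1 := Subgroup.mem_bot.1 (hdis.le ⟨(A.mul_mem_cancel_left (hle hc)).1 ha, hz⟩)
    subst h3
    rw [mul_one] at ha hax ⊢
    exact Subgroup.mem_bot.1
      ((Cfsg.Lib.Solv.Coprime.centralizer_inf_commutator_eq_bot hN hcop).le ⟨⟨ha, hax⟩, hc⟩)
  · rintro ⟨x, A, p, hp, hAn, hAc, ⟨k, hk⟩, -, hc, hz, hf⟩ H hH
    have hdec : ∀ y : G, (∃ b ∈ A, y = b * x * b⁻¹) → ∀ g : G, ∃ a ∈ A, ∃ n : ℕ, g = a * y ^ n := by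
      rintro _ ⟨b, hb, rfl⟩ g
      obtain ⟨⟨a, z⟩, h1, -⟩ := hc.symm.existsUnique (b⁻¹ * g * b)
      obtain ⟨n, hn⟩ := (mem_powers_iff_mem_zpowers.2 z.2)
      refine ⟨b * a * b⁻¹, hAn.conj_mem _ a.2 b, n, ?_⟩
      simp only at h1 hn
      rw [conj_pow, hn, show g = b * (b⁻¹ * g * b) * b⁻¹ by group, ← h1]
      group
    obtain ⟨y, hyH, b, hb, hy⟩ : ∃ y ∈ H, ∃ b ∈ A, y = b * x * b⁻¹ := by
      by_contra! h
      refine hH (comm_of_forall fun u hu v hv => ?_)
      have key : ∀ u ∈ H, ∃ a ∈ A, ∃ z ∈ Subgroup.center G, u = a * z := by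
        intro u hu
        obtain ⟨a, ha, n, rfl⟩ := hdec x ⟨1, A.one_mem, by simp⟩ u
        by_cases hn : p ∣ n
        · obtain ⟨m, rfl⟩ := hn
          exact ⟨a, ha, _, pow_mul x p m ▸ Subgroup.pow_mem _ hz m, rfl⟩
        obtain ⟨l, hl⟩ := exists_pow_eq_self_of_coprime (x := x) (n := n)
          (hk ▸ (hp.coprime_iff_not_dvd.2 hn).symm.pow_right k)
        obtain ⟨c, hc, h1⟩ := fpf_surj (y := x ^ n) (fun b hb => hAn.conj_mem b hb _)
          (fun b hb hb1 h => hf b hb hb1 (by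
            rw [mul_inv_eq_iff_eq_mul] at h ⊢
            rw [← hl]
            exact (Commute.pow_left h l).eq)) ha
        refine absurd ?_ (h _ (H.pow_mem hu l) c hc)
        rw [← h1, show c * (x ^ n * c⁻¹ * (x ^ n)⁻¹) * x ^ n = c * x ^ n * c⁻¹ by group, conj_pow, hl]
      obtain ⟨a, ha, z, hz, rfl⟩ := key u hu
      obtain ⟨a', ha', z', hz', rfl⟩ := key v hv
      rw [Subgroup.mem_center_iff] at hz hz'
      calc a * z * (a' * z') = a * a' * (z * z') := by rw [mul_assoc, ← mul_assoc z, ← hz a']; group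
        _ = a' * z' * (a * z) := by
          rw [mul_comm_of hAc ha ha', hz' z, mul_assoc a' z', ← mul_assoc z', ← hz' a]; group
    refine le_antisymm (fun g hg => ?_) Subgroup.le_normalizer
    obtain ⟨a, ha, n, rfl⟩ := hdec y ⟨b, hb, hy⟩ g
    have haN : a ∈ Subgroup.normalizer (H : Set G) :=
      (Subgroup.mul_mem_cancel_right _ (Subgroup.le_normalizer (H.pow_mem hyH n))).1 hg
    have hfy : ∀ c ∈ A, c ≠ 1 → y * c * y⁻¹ ≠ c := fun c hc hc1 h => by
      refine hf (b⁻¹ * c * b) (by simpa using hAn.conj_mem c hc b⁻¹) (fun h1 => hc1 (by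
        rw [show c = b * (b⁻¹ * c * b) * b⁻¹ by group, h1]; group)) ?_
      rw [show x = b⁻¹ * y * b by rw [hy]; group]
      nth_rewrite 2 [← h]
      group
    obtain ⟨c, hc, h1⟩ := fpf_surj (B := H ⊓ A) (y := y)
      (fun c hc => ⟨H.mul_mem (H.mul_mem hyH hc.1) (H.inv_mem hyH), hAn.conj_mem c hc.2 y⟩)
      (fun c hc => hfy c hc.2) (b := a * (y * a⁻¹ * y⁻¹))
      ⟨by simpa [mul_assoc] using H.mul_mem ((haN y).1 hyH) (H.inv_mem hyH),
        A.mul_mem ha (hAn.conj_mem _ (A.inv_mem ha) y)⟩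
    have h2 : a⁻¹ * c = 1 := by
      by_contra hne
      refine hfy _ (A.mul_mem (A.inv_mem ha) hc.2) hne ?_
      calc y * (a⁻¹ * c) * y⁻¹ = a⁻¹ * (a * (y * a⁻¹ * y⁻¹)) * (y * c * y⁻¹) := by group
        _ = a⁻¹ * c := by rw [← h1]; group
    exact H.mul_mem (inv_mul_eq_one.1 h2 ▸ hc.1) (H.pow_mem hyH n)

end Cfsg.Agent.S4071
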