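import Cfsg.Statements.S4073
import Cfsg.Agent.Inst.BenderCore
import Cfsg.Agent.Inst.S1136
import Cfsg.Agent.Cond.S4073

set_option autoImplicit false
open Cfsg

namespace Cfsg.Agent.S4073

/-- Let G be a finite non-abelian simple group. Every non-abelian subgroup of G is self-normalizing if and only if G is isomorphic to PSL₂(2ⁿ) for some n ≥ 2 with 2ⁿ − 1 prime (this includes the alternating group of degree 5 as PSL₂(4)). -/
theorem result {G : Type*} [Group G] [Finite G] [IsSimpleGroup G]
    (hna : ¬ IsMulCommutative G) :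
    (∀ H : Subgroup G, ¬ IsMulCommutative H → Subgroup.normalizer (H : Set G) = H) ↔
    ∃ n : ℕ, 2 ≤ n ∧ (2 ^ n - 1).Prime ∧ Nonempty (G ≃* Matrix.ProjectiveSpecialLinearGroup (Fin 2) (GaloisField 2 n)) := by
  revert G hna
  exact @Cfsg.Agent.Gate.S4073.out Cfsg.Agent.Cond.S4073

end Cfsg.Agent.S4073
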