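import Cfsg.Statements.S4074
import Cfsg.Agent.Solv.ExtraSub

set_option autoImplicit false
open Cfsg

namespace Cfsg.Agent.S4074

open Subgroup Cfsg.Lib.Solv.PG DihedralGroup

/-- For n > 2, every non-abelian subgroup of the dihedral group of order 2n is self-normalizing if and only if n = 4 or n is odd. -/
theorem result (n : ℕ) (hn : 2 < n) :
    (∀ H : Subgroup (DihedralGroup n), ¬ IsMulCommutative H → Subgroup.normalizer (H : Set (DihedralGroup n)) = H) ↔
    (n = 4 ∨ Odd n) := by
  have : NeZero n := ⟨by omega⟩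
  have hne : ∀ c : ℕ, 0 < c → c < n → (c : ZMod n) ≠ 0 := fun c h1 h2 h3 =>
    absurd (Nat.le_of_dvd h1 ((ZMod.natCast_eq_zero_iff c n).mp h3)) (by omega)
  refine ⟨fun h => ?_, ?_⟩
  · by_contra hc
    push Not at hc
    obtain ⟨m, hm⟩ := Nat.not_odd_iff_even.mp hc.2
    let H : Subgroup (DihedralGroup n) :=
      { carrier := {x | ∃ k : ZMod n, (m : ZMod n) * k = 0 ∧ (x = r k ∨ x = sr k)}
        one_mem' := ⟨0, by simp, Or.inl rfl⟩
        mul_mem' := by
          rintro _ _ ⟨i, hi, rfl | rfl⟩ ⟨j, hj, rfl | rfl⟩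
          · exact ⟨i + j, by linear_combination hi + hj, Or.inl rfl⟩
          · exact ⟨j - i, by linear_combination hj - hi, Or.inr rfl⟩
          · exact ⟨i + j, by linear_combination hi + hj, Or.inr rfl⟩
          · exact ⟨j - i, by linear_combination hj - hi, Or.inl rfl⟩
        inv_mem' := by
          rintro _ ⟨i, hi, rfl | rfl⟩
          · exact ⟨-i, by linear_combination -hi, Or.inl rfl⟩
          · exact ⟨i, hi, Or.inr rfl⟩ }
    have h0 : ((m + m : ℕ) : ZMod n) = 0 := by rw [← hm, ZMod.natCast_self]
    push_cast at h0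
    have h1 := h H fun hA => by
      have h1 : (r 2 : DihedralGroup n) * sr 0 = sr 0 * r 2 :=
        mul_comm_of_mem (A := H) ⟨2, by linear_combination h0, Or.inl rfl⟩ ⟨0, by simp, Or.inr rfl⟩
      rw [r_mul_sr, sr_mul_r] at h1
      exact hne 4 (by norm_num) (by omega) (by push_cast; linear_combination -(sr.inj h1))
    have h2 : (r 1 : DihedralGroup n) ∈ normalizer (H : Set (DihedralGroup n)) := by
      refine mem_normalizer_fintype ?_
      rintro _ ⟨i, hi, rfl | rfl⟩
      · exact ⟨i, hi, Or.inl (by simp)⟩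
      · exact ⟨i - 2, by linear_combination hi - h0, Or.inr (by simp; ring)⟩
    obtain ⟨k, hk, h3 | h3⟩ := h1 ▸ h2
    · rw [← r.inj h3, mul_one] at hk
      exact hne m (by omega) (by omega) hk
    · cases h3
  · rintro (rfl | ⟨m, hm⟩) H hH
    · have hc : Nat.card (DihedralGroup 4) = 2 ^ 3 := nat_card
      obtain ⟨k, hk, hk'⟩ := (Nat.dvd_prime_pow Nat.prime_two).mp (hc ▸ card_subgroup_dvd_card H)
      interval_cases k
      · exact absurd (isCyclic_of_card_dvd_prime (p := 2) (by simp [hk'])).isMulCommutative hH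
      · exact absurd (isCyclic_of_card_dvd_prime (p := 2) (by simp [hk'])).isMulCommutative hH
      · exact absurd (isMulCommutative_of_card_eq_sq hk') hH
      · rw [eq_top_of_card_eq H (hk'.trans hc.symm), normalizer_eq_top]
    · obtain ⟨i, hi⟩ : ∃ i, sr i ∈ H := by
        by_contra hc
        push Not at hc
        refine hH (isMulCommutative_of_forall ?_)
        rintro (j | j) hj (k | k) hk
        exacts [by simp [add_comm], absurd hk (hc k), absurd hj (hc j), absurd hj (hc j)]
      have h0 : ((2 * m + 1 : ℕ) : ZMod n) = 0 := by rw [← hm, ZMod.natCast_self]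
      push_cast at h0
      have key : ∀ k, r k ∈ normalizer (H : Set (DihedralGroup n)) → r k ∈ H := fun k hk => by
        have h1 := H.pow_mem (H.mul_mem ((mem_normalizer_iff.mp hk _).mp hi) hi) (m + 1)
        simp only [r_mul_sr, inv_r, sr_mul_r, sr_mul_sr, r_pow] at h1
        convert h1 using 2
        push_cast
        linear_combination (-k) * h0
      refine le_antisymm ?_ le_normalizer
      rintro (k | k) hk
      · exact key k hk
      · have := H.mul_mem hi (key _ (mul_mem (le_normalizer hi) hk))
        simpa using this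

end Cfsg.Agent.S4074
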