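import Cfsg.Statements.S4075
import Cfsg.Agent.Solv.ExtraSub
import Cfsg.Agent.Solv.Nilpotent

set_option autoImplicit false
open Cfsg

namespace Cfsg.Agent.S4075

open Subgroup Cfsg.Lib.Solv.PG Cfsg.Lib.Solv

/-- Let G be a finite nilpotent group. Every non-abelian subgroup of G is self-normalizing if and only if G is abelian or G is a minimal non-abelian p-group for some prime p (non-abelian of prime-power order with every proper subgroup abelian). -/
theorem result {G : Type*} [Group G] [Finite G]
    [Group.IsNilpotent G] :
    (∀ H : Subgroup G, ¬ IsMulCommutative H → Subgroup.normalizer (H : Set G) = H) ↔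
    (IsMulCommutative G ∨ (IsPrimePow (Nat.card G) ∧ ¬ IsMulCommutative G ∧ ∀ H : Subgroup G, H ≠ ⊤ → IsMulCommutative H)) := by
  refine ⟨fun h => ?_, ?_⟩
  · have h1 : ∀ H : Subgroup G, H ≠ ⊤ → IsMulCommutative H := fun H hH => by
      by_contra hc
      exact (Group.normalizerCondition_of_isNilpotent H hH.lt_top).ne' (h H hc)
    by_cases hc : IsMulCommutative G
    · exact Or.inl hc
    refine Or.inr ⟨?_, hc, h1⟩
    by_contra hp
    refine hc (isMulCommutative_iff_center_eq_top.mpr
      (eq_top_of_forall_prime_pow_mem fun p hp' k x hx => ?_))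
    have h2 : centralizer ({x} : Set G) = ⊤ := eq_top_of_forall_prime_pow_mem fun q hq l y hy => by
      rw [mem_centralizer_singleton_iff]
      by_cases hqp : q = p
      · subst hqp
        have := Fact.mk hq
        obtain ⟨P⟩ : Nonempty (Sylow q G) := inferInstance
        have hco := (Nat.Prime.coprime_iff_not_dvd hq).mpr P.not_dvd_index
        have := h1 P fun ht => by
          obtain ⟨n, hn⟩ := P.isPGroup'.exists_card_eq
          rw [ht, card_top] at hn
          rcases n with _ | n
          · have := (Nat.card_eq_one_iff_unique.mp hn).1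
            exact hc ⟨⟨fun _ _ => Subsingleton.elim _ _⟩⟩
          · exact hp (hn ▸ hq.isPrimePow.pow n.succ_ne_zero)
        exact mul_comm_of_mem (A := P)
          (mem_of_coprime_orderOf_index_of_isNilpotent (hy ▸ hco.pow_left l))
          (mem_of_coprime_orderOf_index_of_isNilpotent (hx ▸ hco.pow_left k))
      · refine commute_of_coprime_orderOf_of_isNilpotent G y x ?_
        rw [hx, hy]
        exact Nat.Coprime.pow _ _ ((Nat.coprime_primes hq hp').mpr hqp)
    exact mem_center_iff.mpr fun g => mem_centralizer_singleton_iff.mp (h2 ▸ mem_top g)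
  · rintro (h | ⟨-, -, h⟩) H hH
    · exact (hH inferInstance).elim
    · rw [not_imp_comm.mp (h H) hH, normalizer_eq_top]

end Cfsg.Agent.S4075
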