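import Cfsg.Statements.S4079
import Cfsg.Agent.Solv.RankTwoOdd
import Cfsg.Agent.Solv.ActionTransport

set_option autoImplicit false
open Cfsg

namespace Cfsg.Agent.S4079

open Subgroup Cfsg.Lib.Solv
open scoped commutatorElement

theorem facts {L : Type*} [Group L] [Finite L] {p : ℕ} [hp : Fact p.Prime]
    (hp2 : p ≠ 2) (hL : IsPGroup p L) (hmc : IsMetacyclic L) (hc : ¬ IsCyclic L)
    (hnc : ∀ C : Subgroup L, IsCyclic C → C.index ≠ p) :
    ∃ T : Subgroup L, T.Characteristic ∧ Nat.card T = p ^ 2 ∧ IsMulCommutative T ∧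
      (∀ x, x ∈ T ↔ x ^ p = 1) ∧ ∀ t ∈ T, ∃ y, t = y ^ p := by
  have hR := Meta.reg hp2 hL hmc
  have hΦ : (frattini L).index = p ^ 2 := le_antisymm (Meta.index_frattini_le hL hmc)
    (Nat.le_of_dvd (Nat.pos_of_ne_zero index_ne_zero_of_finite)
      (sq_dvd_index_frattini_of_not_isCyclic hL hc))
  have hΦc : ¬ IsCyclic (frattini L) := fun h => by
    obtain ⟨x, hx, hΦx⟩ : ∃ x, x ∉ frattini L ∧ frattini L ≤ zpowers x := by
      obtain ⟨u, hu⟩ := PG.exists_zpowers_eq (frattini L)
      obtain ⟨x, rfl⟩ := (Meta.mem_frattini_iff hp2 hL hmc).1 (hu ▸ mem_zpowers u)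
      by_cases hx : x ∈ frattini L
      · have h1 : frattini L ≠ ⊤ := fun e => by
          rw [e, index_top] at hΦ
          exact (Nat.one_lt_pow two_ne_zero hp.out.one_lt).ne hΦ
        obtain ⟨y, -, hy⟩ := SetLike.exists_of_lt (lt_top_iff_ne_top.2 h1)
        refine ⟨y, hy, ?_⟩
        obtain ⟨k, hk⟩ := IsPGroup.iff_orderOf.1 hL x
        rcases k with _ | k
        · rw [← hu, orderOf_eq_one_iff.1 hk, one_pow, zpowers_one_eq_bot]; exact bot_le
        · have h2 := card_le_of_le (zpowers_le.2 hx)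
          have h3 := PG.orderOf_pow_prime_pow hp.out hk (Nat.le_add_left 1 k)
          rw [pow_one] at h3
          rw [← hu, Nat.card_zpowers, Nat.card_zpowers, h3, hk,
            Nat.pow_le_pow_iff_right hp.out.one_lt] at h2
          omega
      · exact ⟨x, hx, hu ▸ zpowers_le.2 (pow_mem (mem_zpowers x) p)⟩
    have h1 := PG.card_sup_zpowers hp.out (le_normalizer_of_normal (mem_top x)) hx
      (pow_mem_frattini hL x)
    rw [sup_eq_right.2 hΦx] at h1
    refine hnc (zpowers x) inferInstance (PG.index_eq_of_card_eq_mul ?_)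
    rw [h1, ← (frattini L).index_mul_card, hΦ]; ring
  obtain ⟨V, h1, -, h3, h4, h5⟩ := PG.exists_normal_elementary_sq hL (frattini L) hΦc (Or.inl hp2)
  obtain ⟨Ω, h6, h7⟩ := Cfsg.Lib.FT.Metacyclic.exists_omega hp2 (R := (⊤ : Subgroup L))
    (hL.to_subgroup _) (Meta.subgroup hmc _)
  have h8 : V = Ω := eq_of_le_of_card_ge (fun x hx => (h6 x).2 ⟨mem_top x, h4 x hx⟩) (h5 ▸ h7)
  have h9 : ∀ x, x ∈ V ↔ x ^ p = 1 := fun x => by rw [h8, h6]; simp
  exact ⟨V, ⟨fun φ => Subgroup.ext fun x => by
    rw [mem_comap, h9, h9, ← map_pow]; exact map_eq_one_iff _ φ.injective⟩, h5, h3, h9,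
    fun t ht => (Meta.mem_frattini_iff hp2 hL hmc).1 (h1 ht)⟩

theorem amb {G : Type*} [Group G] [Finite G] {p : ℕ} [hp : Fact p.Prime] (hp2 : p ≠ 2) {m : ℕ}
    (hG : Nat.card G = p ^ (m + 1)) (L : Subgroup G) (hL : L.index = p) (hmc : IsMetacyclic L)
    (hc : ¬ IsCyclic L) (hnc : ∀ C : Subgroup L, IsCyclic C → C.index ≠ p) {s : G}
    (hsp : s ^ p = 1) (hsL : s ∉ L) :
    (∃ x ∈ L, x ^ p = 1 ∧ x * s ≠ s * x) ↔ (p = 3 ∧ Group.nilpotencyClass G = m) := by
  have hP : IsPGroup p G := IsPGroup.of_card hG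
  have hLp := hP.to_subgroup L
  have hLn : L.Normal := PG.normal_of_index_eq_prime hP hL
  have hR := Meta.reg hp2 hLp hmc
  obtain ⟨T₀, hch, h1, h2, h3, h4⟩ := facts hp2 hLp hmc hc hnc
  set T := T₀.map L.subtype with hT
  have hTn : T.Normal := inferInstance
  have hTc : Nat.card T = p ^ 2 := by rw [card_map_subtype, h1]
  have hTL : T ≤ L := map_subtype_le _
  have hmem : ∀ x ∈ L, x ^ p = 1 → x ∈ T := fun x hx e =>
    ⟨⟨x, hx⟩, (h3 _).2 (Subtype.ext e), rfl⟩
  have hTp : ∀ x ∈ T, x ^ p = 1 := by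
    rintro _ ⟨x, hx, rfl⟩
    exact congrArg Subtype.val ((h3 x).1 hx)
  have hm : p ^ 2 ≤ p ^ m := by
    have := L.index_mul_card
    rw [hL, hG, pow_succ'] at this
    rw [← Nat.eq_of_mul_eq_mul_left hp.out.pos this, ← hTc]
    exact card_le_of_le hTL
  obtain ⟨k, rfl⟩ : ∃ k, m = k + 1 :=
    ⟨m - 1, by have := (Nat.pow_le_pow_iff_right hp.out.one_lt).1 hm; omega⟩
  have hk : 1 ≤ k := by have := (Nat.pow_le_pow_iff_right hp.out.one_lt).1 hm; omega
  constructor
  · rintro ⟨x, hx, hxp, hxs⟩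
    have hxT := hmem x hx hxp
    have hS : R2.Setup p T s := ⟨hP, hTn, hTc, fun x hx y hy => PG.mul_comm_of_mem hx hy, hTp,
      fun e => hxs (mem_centralizer_iff.1 e x hxT)⟩
    rcases hS.comm_mem_or hp2 hTL (fun x hx y hy e => hmem _ (mul_mem (inv_mem hx) hy)
      (congrArg Subtype.val (Reg.inv_mul_pow_eq_one hLp hR (x := ⟨x, hx⟩) (y := ⟨y, hy⟩)
        (Subtype.ext e)))) hsp with h5 | ⟨h5, h6⟩
    · obtain ⟨x, hx₀, rfl⟩ := hxT
      obtain ⟨y, rfl⟩ := h4 x hx₀
      have h7 := h5 y y.2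
      have h8 := congrArg Subtype.val (Reg.mul_pow_of_pow_eq_one hLp hR (k := 1) y
        (y := ⟨_, hTL h7⟩) (Subtype.ext (by simpa using hTp _ h7)))
      have h9 := conj_pow (a := s⁻¹) (b := (y : G)) (i := p)
      simp only [pow_one, coe_pow, coe_mul, mul_inv_cancel_left, inv_inv] at h8 h9
      rw [h9, mul_assoc, inv_mul_eq_iff_eq_mul] at h8
      exact absurd h8 hxs
    · exact ⟨h5, Cfsg.Lib.Trans.nilpotencyClass_eq_of_card_centralizer hG
        ((R2.Setup.card_centralizer_le hL s).trans (by rw [sq]; exact Nat.mul_le_mul_left _ h6))⟩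
  · rintro ⟨-, hcl⟩
    rw [Cfsg.Lib.Trans.nilpotencyClass_eq_iff_lowerCentralSeries_ne_bot hG] at hcl
    by_contra! hs
    let D := (commutator L).map L.subtype
    have hDc : IsCyclic D := by
      have := Meta.isCyclic_commutator hmc
      exact isCyclic_of_surjective _ (((commutator L).equivMapOfInjective _
        L.subtype_injective).surjective)
    have hD : ∀ c ∈ D, c ^ p = 1 := by
      obtain ⟨j, hj⟩ := IsPGroup.iff_card.1 (hP.to_subgroup D)
      by_cases hj2 : 2 ≤ j
      · obtain ⟨K, hKn, hK, hKc⟩ := PG.exists_normal_card_eq hP D 2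
          (hj ▸ Nat.pow_le_pow_right hp.out.pos hj2)
        have hDG : D ≤ commutator G := by
          rw [show D = ⁅L, L⁆ from Subgroup.map_subtype_commutator L]
          exact commutator_mono le_top le_top
        have e := Cfsg.Lib.Trans.MaxClass.normal_unique hG hcl K T
          ((card_le_of_le (hK.trans hDG)).trans
            (Cfsg.Lib.Trans.MaxClass.card_commutator hG hcl).le) (hKc.trans hTc.symm)
        have : IsCyclic T := Subgroup.isCyclic_of_le (e ▸ hK)
        have h5 := Meta.card_le_of_isCyclic_of_pow_eq_one hp.out.pos hTp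
        rw [hTc] at h5
        have := hp.out.one_lt
        nlinarith
      · intro c hc
        have e := PG.pow_card_eq_one_of_mem hc
        rw [hj] at e
        obtain ⟨u, hu⟩ : p ^ j ∣ p ^ 1 := pow_dvd_pow p (by omega)
        rw [← pow_one p, hu, pow_mul, e, one_pow]
    have hZ : T ≤ center G := by
      rintro _ ⟨x, hx₀, rfl⟩
      have hx := hs x x.2 (congrArg Subtype.val ((h3 x).1 hx₀))
      obtain ⟨y, rfl⟩ := h4 x hx₀
      have h5 : (⊤ : Subgroup G) ≤ centralizer {((y ^ p : L) : G)} := by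
        rw [← PG.sup_zpowers_eq_top_of_isCoatom (PG.isCoatom_of_index_prime (hL ▸ hp.out)) hsL]
        refine sup_le (fun b hb => mem_centralizer_singleton_iff.2 ?_)
          (zpowers_le.2 (mem_centralizer_singleton_iff.2 hx.symm))
        have e := (Reg.commute_pow_iff hLp hR 1 y ⟨b, hb⟩).2 (Subtype.ext (by
          rw [pow_one]
          exact hD _ ⟨⁅y, ⟨b, hb⟩⁆, commutator_mem_commutator (mem_top _) (mem_top _), rfl⟩))
        rw [pow_one] at e
        exact congrArg Subtype.val e.eq.symm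
      exact mem_center_iff.2 fun g => mem_centralizer_singleton_iff.1 (h5 (mem_top g))
    have h5 := card_le_of_le hZ
    rw [hTc, Cfsg.Lib.Trans.MaxClass.card_center hG hcl hk] at h5
    have := hp.out.one_lt
    nlinarith


/-- Let p be an odd prime and L a finite metacyclic p-group with no cyclic subgroup of index p, and let a be an automorphism of L of order p. Then a moves some element of order p of L if and only if p = 3 and the semidirect product L ⋊ ⟨a⟩ (of order 3·#L) has maximal class, i.e. nilpotency class m where #L = 3^m. -/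
theorem result {L : Type*} [Group L] [Finite L] {p : ℕ} [Fact p.Prime]
    (hp : p ≠ 2) (hL : IsPGroup p L) (hmc : Cfsg.IsMetacyclic L) (hnc : ∀ C : Subgroup L, IsCyclic C → C.index ≠ p)
    (a : MulAut L) (ha : orderOf a = p) (m : ℕ) (hm : Nat.card L = p ^ m) :
    (∃ x : L, orderOf x = p ∧ a x ≠ x) ↔
    (p = 3 ∧ Group.nilpotencyClass (SemidirectProduct L ↥(Subgroup.zpowers a) (Subgroup.zpowers a).subtype) = m) := by
  have hpp : p.Prime := Fact.out
  have ha1 : a ≠ 1 := fun e => hpp.one_lt.ne (by rw [← ha, e, orderOf_one])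
  have hc : ¬ IsCyclic L := fun h => by
    have : Nontrivial L := by
      by_contra e
      have := not_nontrivial_iff_subsingleton.1 e
      exact ha1 (MulEquiv.ext fun x => Subsingleton.elim _ _)
    obtain ⟨M, -, -, hM⟩ := PG.exists_normal_index_eq_prime hL (H := ⊥) bot_ne_top
    exact hnc M inferInstance hM
  set G := SemidirectProduct L ↥(Subgroup.zpowers a) (Subgroup.zpowers a).subtype
  haveI : Finite G := Act.finite_semidirectProduct _
  have hG : Nat.card G = p ^ (m + 1) := by
    rw [SemidirectProduct.card, hm, Nat.card_zpowers, ha, pow_succ]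
  let f : L →* G := SemidirectProduct.inl
  have hf : Function.Injective f := SemidirectProduct.inl_injective
  let e : L ≃* f.range := MonoidHom.ofInjective hf
  let s : G := SemidirectProduct.inr ⟨a, mem_zpowers a⟩
  have hs : ∀ x : L, f x * s = s * f x ↔ a x = x := fun x => by
    have h1 : f (a x) = s * f x * s⁻¹ := by
      have := SemidirectProduct.inl_aut (φ := (Subgroup.zpowers a).subtype) ⟨a, mem_zpowers a⟩ x
      rw [map_inv] at this
      exact this
    rw [← hf.eq_iff, h1, mul_inv_eq_iff_eq_mul, eq_comm]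
  rw [← amb hp hG f.range (PG.index_eq_of_card_eq_mul (by
    rw [hG, ← Nat.card_congr e.toEquiv, hm, pow_succ'])) (Meta.of_surjective hmc e e.surjective)
    (fun h => hc (isCyclic_of_surjective e.symm e.symm.surjective)) (fun C hC hCi => hnc
      (C.comap (e : L →* f.range)) (isCyclic_of_injective ((e : L →* f.range).subgroupComap C)
        fun a b hab => Subtype.ext (e.injective (congrArg Subtype.val hab)))
      ((index_comap_of_surjective C (f := (e : L →* f.range)) e.surjective).trans hCi)) (s := s) (by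
        rw [← map_pow, show (⟨a, mem_zpowers a⟩ : zpowers a) ^ p = 1 from
          Subtype.ext (by simp [← ha]), map_one]) (by
        rintro ⟨x, hx⟩
        exact ha1 (congrArg (fun g : G => (g.right : MulAut L)) hx).symm)]
  constructor
  · rintro ⟨x, hx, hax⟩
    exact ⟨f x, ⟨x, rfl⟩, by rw [← map_pow, ← hx, pow_orderOf_eq_one, map_one],
      fun h => hax ((hs x).1 h)⟩
  · rintro ⟨_, ⟨x, rfl⟩, hx, hax⟩
    refine ⟨x, orderOf_eq_prime (hf (by rw [map_pow, hx, map_one])) ?_, fun h => hax ((hs x).2 h)⟩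
    rintro rfl
    exact hax (by simp)

end Cfsg.Agent.S4079
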