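import Cfsg.Statements.S4080
import Mathlib.Algebra.CharP.Lemmas
import Mathlib.GroupTheory.Index
import Mathlib.Tactic.Abel
import Mathlib.Tactic.Ring

set_option autoImplicit false
open Cfsg

namespace Cfsg.Agent.S4080

theorem nilp {L : Type*} [AddCommGroup L] [Finite L] {p : ℕ} (hp : p.Prime) (δ : AddMonoid.End L)
    (k : ℕ) : ∀ (n : ℕ) (W : AddSubgroup L), W.map δ ≤ W → Nat.card W ∣ p ^ n →
      (∀ x ∈ W, (δ ^ k) x = 0) → ∀ x ∈ W, (δ ^ n) x = 0 := by
  have key : ∀ W : AddSubgroup L, W.map δ = W → (∀ x ∈ W, (δ ^ k) x = 0) → ∀ x ∈ W, x = 0 := by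
    intro W hW h x hx
    have : ∀ j, ∀ x ∈ W, ∃ y ∈ W, (δ ^ j) y = x := by
      intro j
      induction j with
      | zero => exact fun x hx => ⟨x, hx, rfl⟩
      | succ j ih =>
        intro x hx
        obtain ⟨y, hy, rfl⟩ := ih x hx
        rw [← hW] at hy
        obtain ⟨z, hz, rfl⟩ := hy
        exact ⟨z, hz, by rw [pow_succ]; rfl⟩
    obtain ⟨y, hy, rfl⟩ := this k x hx
    exact h y hy
  intro n
  induction n with
  | zero =>
    intro W _ hW _ x hx
    rw [pow_zero, Nat.dvd_one, AddSubgroup.card_eq_one] at hW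
    rw [hW, AddSubgroup.mem_bot] at hx
    rw [hx, map_zero]
  | succ n ih =>
    intro W hW hc h x hx
    rcases hW.eq_or_lt with h1 | h1
    · rw [key W h1 h x hx, map_zero]
    · rw [pow_succ]
      refine ih (W.map δ) (AddSubgroup.map_mono hW) ?_ (fun y hy => h y (hW hy)) _ ⟨x, hx, rfl⟩
      have h2 := AddSubgroup.card_dvd_of_le hW
      obtain ⟨j, hj, hj'⟩ := (Nat.dvd_prime_pow hp).mp (h2.trans hc)
      rw [hj']
      apply pow_dvd_pow
      by_contra h3
      have h4 : j = n + 1 := by omega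
      apply h1.ne
      apply AddSubgroup.eq_of_le_of_card_ge hW
      rw [hj', h4]
      exact Nat.le_of_dvd (pow_pos hp.pos _) hc


theorem ring_aux1 {R : Type*} [Ring R] {p : ℕ} (hpp : p.Prime) (δ : R) (ha1 : (δ + 1) ^ p = 1)
    (hp2 : (p : R) * p = 0) : δ ^ p * p = 0 := by
  obtain ⟨r, hr⟩ := (Commute.one_right δ).exists_add_pow_prime_eq hpp
  rw [ha1, one_pow] at hr
  have : δ ^ p = - (p * δ * 1 * r) := by
    rw [eq_neg_iff_add_eq_zero]
    have h' : δ ^ p + p * δ * 1 * r + 1 = 0 + 1 := by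
      rw [zero_add]
      conv_rhs => rw [hr]
      abel
    exact add_right_cancel h'
  rw [this, ← (Nat.cast_commute p _).eq, mul_neg, ← mul_assoc, ← mul_assoc, ← mul_assoc, hp2]
  simp

theorem ring_aux2 {R : Type*} [Ring R] {p : ℕ} (hpp : p.Prime) (hp : 3 < p) (δ : R)
    (ha1 : (δ + 1) ^ p = 1) (h2 : δ ^ 2 * p = 0) (h4 : δ ^ 4 = 0) : δ * p = 0 := by
  rw [(Commute.one_right δ).add_pow] at ha1
  obtain ⟨q, rfl⟩ : ∃ q, p = q + 1 + 1 := ⟨p - 2, by omega⟩
  rw [Finset.sum_range_succ', Finset.sum_range_succ', Finset.sum_eq_zero] at ha1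
  · simpa using ha1
  · intro i hi
    rw [Finset.mem_range] at hi
    rcases Nat.lt_or_ge i q with hi' | hi'
    · obtain ⟨c, hc'⟩ := hpp.dvd_choose_self (k := i + 1 + 1) (by omega) (by omega)
      rw [hc', one_pow, mul_one, Nat.cast_mul, add_assoc i, pow_add, mul_assoc,
        ← mul_assoc (δ ^ (1 + 1)), h2]
      simp
    · obtain ⟨j, hj⟩ : ∃ j, i + 1 + 1 = 4 + j := ⟨i - 2, by omega⟩
      rw [hj, pow_add, h4]
      simp

theorem add_aux {L : Type*} [AddCommGroup L] [Finite L] {p : ℕ} (hpp : p.Prime) (hp : 3 < p)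
    (hL : Nat.card L = p ^ 4) (hpp2 : ∀ y : L, p • p • y = 0)
    (hΩ : ∀ y : L, p • y = 0 → ∃ z : L, y = p • z) (δ : AddMonoid.End L)
    (ha1 : (δ + 1) ^ p = 1) (x : L) (hx : p • x = 0) : δ x = 0 := by
  have hp2 : (p : AddMonoid.End L) * p = 0 := by
    ext1 y
    exact hpp2 y
  have hc : ∀ z : AddMonoid.End L, Commute (p : AddMonoid.End L) z := fun z => Nat.cast_commute p z
  have h1 := ring_aux1 hpp δ ha1 hp2
  let π : L →+ L := (p : AddMonoid.End L)
  let W : AddSubgroup L := π.range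
  have hW : Nat.card W ∣ p ^ 2 := by
    have hWK : W ≤ π.ker := by
      rintro _ ⟨y, rfl⟩
      exact DFunLike.congr_fun hp2 y
    have h2 := π.ker.card_mul_index
    rw [AddSubgroup.index_ker, hL] at h2
    obtain ⟨j, -, hj⟩ := (Nat.dvd_prime_pow hpp).mp (Dvd.intro_left _ h2)
    have h3 := AddSubgroup.card_le_of_le hWK
    have h4 : p ^ (j + j) ≤ p ^ 4 := by
      rw [pow_add, ← h2]
      change Nat.card W = _ at hj
      rw [← hj]
      exact Nat.mul_le_mul_right _ h3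
    rw [Nat.pow_le_pow_iff_right hpp.one_lt] at h4
    change Nat.card W = _ at hj
    rw [hj]
    exact pow_dvd_pow _ (by omega)
  have h2 : δ ^ 2 * p = 0 := by
    ext1 y
    refine nilp hpp δ p 2 W ?_ hW ?_ _ ⟨y, rfl⟩
    · rintro _ ⟨_, ⟨z, rfl⟩, rfl⟩
      exact ⟨δ z, DFunLike.congr_fun (hc δ).eq z⟩
    · rintro _ ⟨z, rfl⟩
      exact DFunLike.congr_fun h1 z
  have h4 : δ ^ 4 = 0 := by
    ext1 y
    have : p • (δ ^ 2) y = 0 := by
      rw [← (hc _).eq] at h2
      exact DFunLike.congr_fun h2 y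
    obtain ⟨z, hz⟩ := hΩ _ this
    rw [show 4 = 2 + 2 from rfl, pow_add]
    change (δ ^ 2) ((δ ^ 2) y) = 0
    rw [hz]
    exact DFunLike.congr_fun h2 z
  have h5 := ring_aux2 hpp hp δ ha1 h2 h4
  obtain ⟨z, hz⟩ := hΩ _ hx
  rw [hz]
  exact DFunLike.congr_fun h5 z

/-- Let p > 3 be a prime and L the direct product of two cyclic groups of order p². Every automorphism of L of order p fixes every element of order p of L. -/
theorem result {p : ℕ} [Fact p.Prime] (hp : 3 < p)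
    (a : MulAut (Multiplicative (ZMod (p ^ 2) × ZMod (p ^ 2)))) (ha : orderOf a = p)
    (x : Multiplicative (ZMod (p ^ 2) × ZMod (p ^ 2))) (hx : orderOf x = p) : a x = x := by
  have hpp : p.Prime := Fact.out
  have : NeZero (p ^ 2) := ⟨pow_ne_zero _ hpp.ne_zero⟩
  let φ : MulAut (Multiplicative (ZMod (p ^ 2) × ZMod (p ^ 2))) →*
      AddMonoid.End (ZMod (p ^ 2) × ZMod (p ^ 2)) :=
    { toFun := fun b => MonoidHom.toAdditive b.toMonoidHom
      map_one' := rfl
      map_mul' := fun _ _ => rfl }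
  have hap : a ^ p = 1 := by
    have := pow_orderOf_eq_one a
    rwa [ha] at this
  have hx' : p • x.toAdd = 0 := by
    have := pow_orderOf_eq_one x
    rw [hx] at this
    exact this
  have h6 := add_aux hpp hp (L := ZMod (p ^ 2) × ZMod (p ^ 2))
    (by simp only [Nat.card_prod, Nat.card_zmod]; ring) ?_ ?_ (φ a - 1)
    (by rw [sub_add_cancel, ← map_pow, hap, map_one]) x.toAdd hx'
  · have h7 : φ a x.toAdd - x.toAdd = 0 := h6
    have h8 := sub_eq_zero.mp h7
    exact h8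
  · intro y
    have key : ∀ u : ZMod (p ^ 2), p • p • u = 0 := by
      intro u
      rw [← mul_smul, ← pow_two, nsmul_eq_mul, ZMod.natCast_self, zero_mul]
    exact Prod.ext (key _) (key _)
  · intro y hy
    have key : ∀ u : ZMod (p ^ 2), p • u = 0 → ∃ v, u = p • v := by
      intro u hu
      rw [← ZMod.natCast_zmod_val u, nsmul_eq_mul, ← Nat.cast_mul, ZMod.natCast_eq_zero_iff] at hu
      obtain ⟨c, hc⟩ : p ∣ u.val := Nat.dvd_of_mul_dvd_mul_left hpp.pos (by rwa [← pow_two])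
      exact ⟨c, by rw [← ZMod.natCast_zmod_val u, hc, nsmul_eq_mul, Nat.cast_mul]⟩
    obtain ⟨v1, h1⟩ := key y.1 (congrArg Prod.fst hy)
    obtain ⟨v2, h2⟩ := key y.2 (congrArg Prod.snd hy)
    exact ⟨(v1, v2), Prod.ext h1 h2⟩

end Cfsg.Agent.S4080
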