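import Cfsg.Statements.S4081
import Cfsg.Agent.Solv.FrobeniusGroup
import Cfsg.Agent.Solv.ElemAb
import Cfsg.Agent.Solv.Cores
import Cfsg.Agent.S0144
import Mathlib.RingTheory.Polynomial.Cyclotomic.Factorization
import Mathlib.GroupTheory.SemidirectProduct

set_option autoImplicit false
open Cfsg

namespace Cfsg.Agent.S4081

open Polynomial

theorem exists_linearEquiv_map {K V W : Type*} [Field K] [AddCommGroup V] [AddCommGroup W]
    [Module K V] [Module K W] [Finite V] [Finite W] (h : Nat.card V = Nat.card W) {v : V} {w : W}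
    (hv : v ≠ 0) (hw : w ≠ 0) : ∃ e : V ≃ₗ[K] W, e v = w := by
  have : Finite K := Finite.of_injective (fun k : K => k • v) (smul_left_injective K hv)
  have : Module.Finite K V := Module.Finite.of_finite
  have : Module.Finite K W := Module.Finite.of_finite
  rw [Module.natCard_eq_pow_finrank (K := K) (V := V),
    Module.natCard_eq_pow_finrank (K := K) (V := W)] at h
  let e₀ : V ≃ₗ[K] W := LinearEquiv.ofFinrankEq V W
    (Nat.pow_right_injective Finite.one_lt_card h)
  have h0 : e₀ v ≠ 0 := by simpa using hv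
  obtain ⟨g, hg⟩ := Submodule.exists_linearEquiv_restrict_eq
    ((LinearEquiv.toSpanNonzeroSingleton K W (e₀ v) h0).symm.trans
      (LinearEquiv.toSpanNonzeroSingleton K W w hw))
  refine ⟨e₀.trans g, ?_⟩
  have h1 := hg (LinearEquiv.toSpanNonzeroSingleton K W (e₀ v) h0 1)
  rw [LinearEquiv.trans_apply, LinearEquiv.symm_apply_apply] at h1
  simpa using h1.symm

theorem exists_intertwiner {F W : Type*} [Field F] [AddCommGroup W] [Module F W] [Finite W]
    {Φ : F[X]} (hΦ : Irreducible Φ) {S T : Module.End F W} (hS : aeval S Φ = 0)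
    (hT : aeval T Φ = 0) {v w : W} (hv : v ≠ 0) (hw : w ≠ 0) :
    ∃ ψ : W ≃ₗ[F] W, ψ v = w ∧ ∀ u, ψ (S u) = T (ψ u) := by
  have := Fact.mk hΦ
  let ρ : ∀ T : Module.End F W, aeval T Φ = 0 → (AdjoinRoot Φ →+* Module.End F W) := fun T hT =>
    Ideal.Quotient.lift (Ideal.span {Φ}) (aeval T).toRingHom (by
      intro a ha
      obtain ⟨b, rfl⟩ := Ideal.mem_span_singleton'.1 ha
      simp [hT])
  have hρ : ∀ T hT f, ρ T hT (AdjoinRoot.mk Φ f) = aeval T f := fun T hT f => rfl
  obtain ⟨e, he⟩ := @exists_linearEquiv_map (AdjoinRoot Φ) W W _ _ _ (Module.compHom W (ρ S hS))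
    (Module.compHom W (ρ T hT)) _ _ rfl v w hv hw
  have h1 : ∀ f u, e (aeval S f u) = aeval T f (e u) := fun f u =>
    @LinearEquiv.map_smul (AdjoinRoot Φ) W W _ _ _ (Module.compHom W (ρ S hS))
      (Module.compHom W (ρ T hT)) e (AdjoinRoot.mk Φ f) u
  refine ⟨AddEquiv.toLinearEquiv (R := F) (@LinearEquiv.toAddEquiv _ _ _ _ _ _ _ _ _ _ _ _
    (Module.compHom W (ρ S hS)) (Module.compHom W (ρ T hT)) e) fun c u => ?_, he, fun u => ?_⟩
  · simpa using h1 (C c) u
  · simpa using h1 X u

theorem aeval_intertwine {F W : Type*} [Field F] [AddCommGroup W] [Module F W]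
    {S T : Module.End F W} {ψ : W →ₗ[F] W} (h : ∀ u, ψ (S u) = T (ψ u)) (f : F[X]) (u : W) :
    ψ (aeval S f u) = aeval T f (ψ u) := by
  have h1 : ∀ (n : ℕ) u, ψ ((S ^ n) u) = (T ^ n) (ψ u) := by
    intro n
    induction n with
    | zero => simp
    | succ n ih => intro u; simp [pow_succ, ih, h]
  induction f using Polynomial.induction_on' with
  | add f g hf hg => simp [hf, hg]
  | monomial n a => simp [aeval_monomial, h1]

theorem aeval_eq_zero_of_transitive {F W : Type*} [Field F] [AddCommGroup W] [Module F W] [Finite W]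
    {T : Module.End F W}
    (h1 : ∀ v w : W, v ≠ 0 → w ≠ 0 → ∃ (ψ : W ≃ₗ[F] W) (k : ℕ), ψ v = w ∧
      ∀ u, ψ (T u) = (T ^ k) (ψ u)) {f : F[X]} {v : W} (hv : v ≠ 0) (hf : aeval T f v = 0) :
    aeval T f = 0 := by
  let S : W → Set W := fun v => Set.range fun g : F[X] => aeval T g v
  have hle : ∀ v w, v ≠ 0 → w ≠ 0 → (S v).ncard ≤ (S w).ncard := by
    intro v w hv hw
    obtain ⟨ψ, k, rfl, hψ⟩ := h1 v w hv hw
    refine Set.ncard_le_ncard_of_injOn ψ ?_ ψ.injective.injOn
    rintro _ ⟨g, rfl⟩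
    exact ⟨expand F k g, by
      simp only [expand_aeval]
      exact (aeval_intertwine (ψ := (ψ : W →ₗ[F] W)) hψ g v).symm⟩
  have hself : ∀ v, v ∈ S v := fun v => ⟨1, by simp⟩
  have heq : ∀ v w, w ≠ 0 → w ∈ S v → v ∈ S w := by
    rintro v _ hw ⟨g, rfl⟩
    have hv : v ≠ 0 := by rintro rfl; simp at hw
    have : S (aeval T g v) = S v := Set.eq_of_subset_of_ncard_le (by
      rintro _ ⟨g', rfl⟩
      exact ⟨g' * g, by simp⟩) (hle _ _ hv hw)
    simp only [this]
    exact hself v
  ext w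
  by_contra hw
  have hw' : aeval T f w ≠ 0 := hw
  have h2 : aeval T f w ∈ S (v + w) := ⟨f, by simp [hf]⟩
  obtain ⟨g, hg⟩ := heq _ _ hw' h2
  obtain ⟨g', hg'⟩ := heq w v hv ⟨g * f - 1, by
    simp only at hg
    simp [hg]⟩
  apply hw'
  simp only at hg'
  rw [← hg', ← Module.End.mul_apply, ← map_mul, mul_comm, map_mul, Module.End.mul_apply, hf,
    map_zero]

theorem orderOf_eq_of_transitive {p q : ℕ} [hp : Fact p.Prime] [hq : Fact q.Prime] (hpq : p ≠ q)
    {W : Type*} [AddCommGroup W] [Module (ZMod p) W] [Finite W] [Nontrivial W]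
    {T : Module.End (ZMod p) W} (hT : T ^ q = 1) (hT1 : T ≠ 1)
    (h1 : ∀ v w : W, v ≠ 0 → w ≠ 0 → ∃ (ψ : W ≃ₗ[ZMod p] W) (k : ℕ), ψ v = w ∧
      ∀ u, ψ (T u) = (T ^ k) (ψ u))
    (h2 : ∀ k : ℕ, ¬ q ∣ k → ∃ ψ : W ≃ₗ[ZMod p] W, ∀ u, ψ (T u) = (T ^ k) (ψ u)) :
    orderOf (p : ZMod q) = q - 1 := by
  have : Module.Finite (ZMod p) W := Module.Finite.of_finite
  have hint : IsIntegral (ZMod p) T := Algebra.IsIntegral.isIntegral T
  set m := minpoly (ZMod p) T with hm
  have hprime : Prime m := by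
    refine ⟨minpoly.ne_zero hint, minpoly.not_isUnit _ _, fun a b hab => ?_⟩
    rw [minpoly.dvd_iff] at hab ⊢
    rw [minpoly.dvd_iff]
    by_cases hb : aeval T b = 0
    · exact Or.inr hb
    · obtain ⟨v, hv⟩ := DFunLike.ne_iff.1 hb
      refine Or.inl (aeval_eq_zero_of_transitive h1 hv ?_)
      rw [← Module.End.mul_apply, ← map_mul, hab]; rfl
  have hirr := hprime.irreducible
  have := Fact.mk hirr
  have hdvd : m ∣ X ^ q - 1 := minpoly.dvd _ _ (by simp [hT])
  have hnd : ¬ m ∣ X - 1 := by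
    rw [minpoly.dvd_iff]
    simpa [sub_eq_zero] using hT1
  have hc : m ∣ cyclotomic q (ZMod p) :=
    (hprime.dvd_or_dvd (by rwa [cyclotomic_prime_mul_X_sub_one])).resolve_right hnd
  have hcop : p.Coprime q := (Nat.coprime_primes hp.out hq.out).2 hpq
  have hdeg := natDegree_of_dvd_cyclotomic_of_irreducible (f := 1) (p := p) (by simp) hcop hc hirr
  rw [← orderOf_units, ZMod.coe_unitOfCoprime, pow_one] at hdeg
  rw [← hdeg]
  refine le_antisymm ?_ ?_
  · have := natDegree_le_of_dvd hc (cyclotomic_ne_zero _ _)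
    rwa [natDegree_cyclotomic, Nat.totient_prime hq.out] at this
  · let ζ := AdjoinRoot.root m
    have hζ : orderOf ζ = q := by
      refine orderOf_eq_prime ?_ ?_
      · have := AdjoinRoot.mk_eq_zero.2 hdvd
        simpa [sub_eq_zero] using this
      · intro h
        apply hnd
        rw [← AdjoinRoot.mk_eq_zero]
        simpa [sub_eq_zero] using h
    classical
    have h3 := card_le_degree_of_subset_roots (p := m.map (algebraMap _ (AdjoinRoot m)))
      (Z := (Finset.Ioo 0 q).image (ζ ^ ·)) (by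
        intro y hy
        rw [Finset.mem_val] at hy
        obtain ⟨k, hk, rfl⟩ := Finset.mem_image.1 hy
        rw [Finset.mem_Ioo] at hk
        rw [mem_roots (map_ne_zero hprime.ne_zero), IsRoot.def, eval_map_algebraMap]
        obtain ⟨ψ, hψ⟩ := h2 k (Nat.not_dvd_of_pos_of_lt hk.1 hk.2)
        rw [← expand_aeval, AdjoinRoot.aeval_eq, AdjoinRoot.mk_eq_zero, minpoly.dvd_iff,
          expand_aeval]
        ext u
        obtain ⟨u, rfl⟩ := ψ.surjective u
        have := aeval_intertwine (ψ := (ψ : W →ₗ[ZMod p] W)) hψ m u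
        rw [hm, minpoly.aeval] at this
        simpa using this.symm)
    rw [Finset.card_image_of_injOn (by
      intro a ha b hb hab
      rw [Finset.coe_Ioo] at ha hb
      exact pow_injOn_Iio_orderOf (by rw [hζ]; exact ha.2) (by rw [hζ]; exact hb.2) hab),
      natDegree_map] at h3
    simpa using h3

theorem exists_mulAut {G : Type*} [Group G] {V : Subgroup G} [V.Normal] {x y : G}
    (hx : V.IsComplement' (Subgroup.zpowers x)) (hy : V.IsComplement' (Subgroup.zpowers y))
    (hxy : orderOf x = orderOf y) (ψ : V ≃* V)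
    (hψ : ∀ u, ψ (MulAut.conjNormal x u) = MulAut.conjNormal y (ψ u)) :
    ∃ φ : MulAut G, φ x = y ∧ ∀ u : V, φ u = ψ u := by
  have h1 : ∀ x : G, ∀ g : Subgroup.zpowers x,
      g ∈ Subgroup.zpowers (⟨x, Subgroup.mem_zpowers x⟩ : Subgroup.zpowers x) := by
    rintro x ⟨_, k, rfl⟩
    exact ⟨k, rfl⟩
  let e := mulEquivOfOrderOfEq (h1 x) (h1 y) (by simpa using hxy)
  have he : e ⟨x, Subgroup.mem_zpowers x⟩ = ⟨y, Subgroup.mem_zpowers y⟩ :=
    mulEquivOfOrderOfEq_apply_gen _ _ _
  have h2 : ∀ (k : ℤ) (u : V), ψ (MulAut.conjNormal (x ^ k) u) =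
      MulAut.conjNormal (y ^ k) (ψ u) := by
    have h3 : MulAut.congr ψ (MulAut.conjNormal x) = MulAut.conjNormal y := by
      ext u
      simp [hψ]
    intro k u
    rw [map_zpow, map_zpow, ← h3, ← map_zpow (MulAut.congr ψ)]
    generalize MulAut.conjNormal (H := V) x ^ k = t
    simp
  refine ⟨(SemidirectProduct.mulEquivSubgroup hx).symm.trans
    ((SemidirectProduct.congr ψ e ?_).trans (SemidirectProduct.mulEquivSubgroup hy)), ?_, ?_⟩
  · intro g
    obtain ⟨k, rfl⟩ := h1 x g
    ext u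
    have := congrArg Subtype.val (h2 k u)
    simp only [map_zpow e, he]
    exact this
  · have : (SemidirectProduct.mulEquivSubgroup hx).symm x =
        SemidirectProduct.inr ⟨x, Subgroup.mem_zpowers x⟩ := by
      rw [MulEquiv.symm_apply_eq]; simp
    simp [this, he]
  · intro u
    have : (SemidirectProduct.mulEquivSubgroup hx).symm u = SemidirectProduct.inl u := by
      rw [MulEquiv.symm_apply_eq]; simp
    simp [this]

theorem card_eq_of_primes {n p q : ℕ} (hn : n ≠ 0) (hpq : p ≠ q)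
    (h : ∀ r : ℕ, r.Prime → r ∣ n → r = p ∨ r = q) :
    n = p ^ n.factorization p * q ^ n.factorization q := by
  conv_lhs => rw [← Nat.prod_factorization_pow_eq_self hn]
  rw [Finsupp.prod_of_support_subset _ (s := {p, q}) _ _ (by simp), Finset.prod_pair hpq]
  intro r hr
  rw [Nat.support_factorization, Nat.mem_primeFactors] at hr
  simpa using h r hr.1 hr.2.1

theorem exists_prime_ne {n : ℕ} (h0 : n ≠ 0) (h1 : n ≠ 1) (hn : ¬ IsPrimePow n) {p : ℕ}
    (hp : p.Prime) : ∃ q : ℕ, q.Prime ∧ q ∣ n ∧ q ≠ p := by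
  by_contra h
  push Not at h
  have h2 := Nat.eq_prime_pow_of_unique_prime_dvd h0 fun {d} hd hdK => h d hd hdK
  refine hn ⟨p, _, hp.prime, Nat.pos_of_ne_zero fun h0 => h1 ?_, h2.symm⟩
  rwa [h0, pow_zero] at h2

theorem orbits_of_three {G : Type*} [Group G]
    (h : Nat.card (MulAction.orbitRel.Quotient (MulAut G) G) = 3) {a b : G} (ha : orderOf a ≠ 1)
    (hb : orderOf b ≠ 1) (hab : orderOf a ≠ orderOf b) (g : G) :
    g = 1 ∨ (∃ φ : MulAut G, φ a = g) ∨ ∃ φ : MulAut G, φ b = g := by
  classical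
  let c : G → MulAction.orbitRel.Quotient (MulAut G) G := Quotient.mk _
  have hc : ∀ x y, c x = c y → ∃ φ : MulAut G, φ y = x := fun x y h => Quotient.exact h
  have hc' : ∀ x y, c x = c y → orderOf y = orderOf x := fun x y h => by
    obtain ⟨φ, rfl⟩ := hc x y h
    exact (φ.orderOf_eq y).symm
  have : Finite (MulAction.orbitRel.Quotient (MulAut G) G) := Nat.finite_of_card_ne_zero (by omega)
  have := Fintype.ofFinite (MulAction.orbitRel.Quotient (MulAut G) G)
  have h1 : ({c 1, c a, c b} : Finset _) = Finset.univ := by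
    apply Finset.eq_univ_of_card
    rw [← Nat.card_eq_fintype_card, h, Finset.card_eq_three]
    exact ⟨_, _, _, fun e => ha (by simpa using hc' _ _ e), fun e => hb (by simpa using hc' _ _ e),
      fun e => hab (hc' _ _ e).symm, rfl⟩
  have h2 : c g ∈ ({c 1, c a, c b} : Finset _) := h1 ▸ Finset.mem_univ _
  simp only [Finset.mem_insert, Finset.mem_singleton] at h2
  rcases h2 with h2 | h2 | h2
  · obtain ⟨φ, rfl⟩ := hc _ _ h2
    exact Or.inl (map_one φ)
  · exact Or.inr (Or.inl (hc _ _ h2))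
  · exact Or.inr (Or.inr (hc _ _ h2))

theorem three_of_orbits {G : Type*} [Group G] {a b : G} (ha : orderOf a ≠ 1)
    (hb : orderOf b ≠ 1) (hab : orderOf a ≠ orderOf b)
    (h : ∀ g : G, g = 1 ∨ (∃ φ : MulAut G, φ a = g) ∨ ∃ φ : MulAut G, φ b = g) :
    Nat.card (MulAction.orbitRel.Quotient (MulAut G) G) = 3 := by
  classical
  let c : G → MulAction.orbitRel.Quotient (MulAut G) G := Quotient.mk _
  have hc' : ∀ x y, c x = c y → orderOf y = orderOf x := fun x y h => by
    obtain ⟨φ, rfl⟩ : ∃ φ : MulAut G, φ y = x := Quotient.exact h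
    exact (φ.orderOf_eq y).symm
  rw [← Set.ncard_univ, Set.ncard_eq_three]
  refine ⟨c 1, c a, c b, fun e => ha (by simpa using hc' _ _ e),
    fun e => hb (by simpa using hc' _ _ e), fun e => hab (hc' _ _ e).symm, ?_⟩
  symm
  rw [Set.eq_univ_iff_forall]
  intro x
  induction x using Quotient.inductionOn with | _ g => ?_
  rcases h g with rfl | ⟨φ, rfl⟩ | ⟨φ, rfl⟩
  · exact Or.inl rfl
  · exact Or.inr (Or.inl (Quotient.sound ⟨φ, rfl⟩))
  · exact Or.inr (Or.inr (Quotient.sound ⟨φ, rfl⟩))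

theorem isComplement'_zpowers {G : Type*} [Group G] [Finite G] {p q n : ℕ} (hp : p.Prime)
    (hq : q.Prime) (hpq : p ≠ q) (hG : Nat.card G = p ^ n * q) {V : Subgroup G}
    (hV : Nat.card V = p ^ n) {x : G} (hx : orderOf x = q) :
    V.IsComplement' (Subgroup.zpowers x) := by
  refine Subgroup.isComplement'_of_coprime (by rw [hV, Nat.card_zpowers, hx, hG]) ?_
  rw [hV, Nat.card_zpowers, hx]
  exact ((Nat.coprime_primes hp hq).2 hpq).pow_left n

theorem card_sylow {G : Type*} [Group G] [Finite G] {p q n : ℕ} [hp : Fact p.Prime]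
    (hq : q.Prime) (hpq : p ≠ q) (hG : Nat.card G = p ^ n * q) (P : Sylow p G) :
    Nat.card P = p ^ n := by
  rw [P.card_eq_multiplicity, hG, Nat.factorization_mul (pow_ne_zero _ hp.out.ne_zero) hq.ne_zero,
    hp.out.factorization_pow, hq.factorization]
  simp [hpq]

open Cfsg.Lib.Solv

/-- Let G be a finite group whose order is not a prime power. Then the automorphism group of G has exactly three orbits on G if and only if there are distinct primes p, q with #G = pⁿ·q (n ≥ 1) such that G has a normal elementary abelian Sylow p-subgroup P, p is a primitive root modulo q (the multiplicative order of p mod q is q − 1), and every element of order q of G acts on P without non-identity fixed points. -/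
theorem result {G : Type*} [Group G] [Finite G] (hnpp : ¬ IsPrimePow (Nat.card G)) (hnt : Nat.card G ≠ 1) :
    Nat.card (MulAction.orbitRel.Quotient (MulAut G) G) = 3 ↔
    ∃ (p q n : ℕ) (_ : Fact p.Prime) (_ : Fact q.Prime), p ≠ q ∧ 1 ≤ n ∧ Nat.card G = p ^ n * q ∧
      (∀ P : Sylow p G, (P : Subgroup G).Normal ∧ Cfsg.IsElementaryAbelian p (P : Subgroup G)) ∧
      orderOf (p : ZMod q) = q - 1 ∧
      ∀ x y : G, orderOf x = q → orderOf y = p → x * y * x⁻¹ ≠ y := by
  constructor
  · intro h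
    have hord : ∀ {p q : ℕ}, p.Prime → q.Prime → p ≠ q → ∀ {a b : G}, orderOf a = p →
        orderOf b = q → ∀ g : G, g = 1 ∨ orderOf g = p ∨ orderOf g = q := by
      intro p q hp hq hpq a b ha hb g
      rcases orbits_of_three h (ha ▸ hp.ne_one) (hb ▸ hq.ne_one) (by rwa [ha, hb]) g with
        h | ⟨φ, rfl⟩ | ⟨φ, rfl⟩
      · exact Or.inl h
      · exact Or.inr (Or.inl (by rw [φ.orderOf_eq, ha]))
      · exact Or.inr (Or.inr (by rw [φ.orderOf_eq, hb]))
    have hcard : ∀ {p q : ℕ}, p.Prime → q.Prime → p ≠ q → p ∣ Nat.card G → q ∣ Nat.card G →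
        Nat.card G = p ^ (Nat.card G).factorization p * q ^ (Nat.card G).factorization q := by
      intro p q hp hq hpq hpG hqG
      have := Fact.mk hp
      have := Fact.mk hq
      obtain ⟨a, ha⟩ := exists_prime_orderOf_dvd_card' p hpG
      obtain ⟨b, hb⟩ := exists_prime_orderOf_dvd_card' q hqG
      refine card_eq_of_primes Nat.card_pos.ne' hpq fun r hr hrG => ?_
      have := Fact.mk hr
      obtain ⟨c, hc⟩ := exists_prime_orderOf_dvd_card' r hrG
      rcases hord hp hq hpq ha hb c with rfl | h | h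
      · exact absurd (by rw [← hc, orderOf_one]) hr.ne_one
      · exact Or.inl (hc ▸ h)
      · exact Or.inr (hc ▸ h)
    have hsol : Group.IsSolvable G := by
      obtain ⟨p, hp, hpG⟩ := Nat.exists_prime_and_dvd hnt
      obtain ⟨q, hq, hqG, hqp⟩ := exists_prime_ne Nat.card_pos.ne' hnt hnpp hp
      exact Cfsg.Agent.S0144.result p q _ _ hp hq (hcard hp hq hqp.symm hpG hqG)
    have : Nontrivial G := Finite.one_lt_card_iff_nontrivial.1
      (lt_of_le_of_ne Nat.card_pos hnt.symm)
    obtain ⟨p, N, hp, hN, -, -, hNp⟩ := exists_isMinNormal_elementary G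
    have := Fact.mk hp
    obtain ⟨q, hq, hqG, hqp⟩ := exists_prime_ne Nat.card_pos.ne' hnt hnpp hp
    have := Fact.mk hq
    set V := pCore p G with hV
    have hVp : IsPGroup p V := pCore_isPGroup p G
    have hV0 : V ≠ ⊥ := fun e => hN.ne_bot (eq_bot_iff.2 (e ▸ le_pCore hN.normal hNp))
    obtain ⟨a, haV, ha⟩ : ∃ a ∈ V ⊓ Subgroup.centralizer (V : Set G), orderOf a = p := by
      have h1 := PG.inf_centralizer_ne_bot hVp hVp Subgroup.le_normalizer hV0
      obtain ⟨⟨a, ha⟩, ha'⟩ := exists_prime_orderOf_dvd_card' p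
        ((hVp.to_inf_left (K := Subgroup.centralizer (V : Set G))).card_eq_or_dvd.resolve_left
          fun e => h1 (Subgroup.card_eq_one.1 e))
      exact ⟨a, ha, by simpa using ha'⟩
    have hpG : p ∣ Nat.card G := ha ▸ orderOf_dvd_natCard a
    obtain ⟨x, hx⟩ := exists_prime_orderOf_dvd_card' q hqG
    have horb := orbits_of_three h (ha ▸ hp.ne_one) (hx ▸ hq.ne_one) (by rw [ha, hx]; exact hqp.symm)
    have hpow : ∀ {r s : ℕ}, r.Prime → s.Prime → r ≠ s → ∀ {k : ℕ}, r ≠ s ^ k := by
      intro r s hr hs hrs k e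
      exact hrs ((Nat.prime_dvd_prime_iff_eq hr hs).1 (hr.dvd_of_dvd_pow e.dvd))
    have hmem : ∀ g : G, ∀ k : ℕ, orderOf g = p ^ k →
        g ∈ V ⊓ Subgroup.centralizer (V : Set G) ∧ g ^ p = 1 := by
      intro g k hg
      rcases horb g with rfl | ⟨φ, rfl⟩ | ⟨φ, rfl⟩
      · exact ⟨Subgroup.one_mem _, one_pow _⟩
      · refine ⟨?_, by rw [← map_pow, ← ha, pow_orderOf_eq_one, map_one]⟩
        exact Subgroup.characteristic_iff_le_comap.1 inferInstance φ haV
      · rw [φ.orderOf_eq, hx] at hg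
        exact absurd hg (hpow hq hp hqp)
    have hmem' : ∀ {P : Subgroup G}, IsPGroup p P → ∀ g ∈ P,
        g ∈ V ⊓ Subgroup.centralizer (V : Set G) ∧ g ^ p = 1 := by
      intro P hP g hg
      obtain ⟨k, hk⟩ := IsPGroup.iff_orderOf.1 hP ⟨g, hg⟩
      exact hmem g k (by simpa using hk)
    have hea : IsElementaryAbelian p V :=
      ⟨Subgroup.le_centralizer_iff_isMulCommutative.1 fun g hg => (hmem' hVp g hg).1.2,
        fun g hg => (hmem' hVp g hg).2⟩
    have hsyl : ∀ P : Sylow p G, (P : Subgroup G) = V := fun P =>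
      le_antisymm (fun g hg => (hmem' P.isPGroup' g hg).1.1) (pCore_le_sylow P)
    have hfp : ∀ x y : G, orderOf x = q → orderOf y = p → x * y * x⁻¹ ≠ y := by
      intro u v hu hv huv
      have h1 := (show Commute u v from mul_inv_eq_iff_eq_mul.1 huv).orderOf_mul_eq_mul_orderOf_of_coprime
        (by rw [hu, hv]; exact (Nat.coprime_primes hq hp).2 hqp)
      rw [hu, hv] at h1
      rcases hord hp hq hqp.symm ha hx (u * v) with h2 | h2 | h2
      · rw [h2, orderOf_one] at h1
        exact hq.ne_one (Nat.eq_one_of_mul_eq_one_right h1.symm)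
      · exact hq.ne_one ((Nat.mul_eq_right hp.ne_zero).1 (h1.symm.trans h2))
      · exact hp.ne_one ((Nat.mul_eq_left hq.ne_zero).1 (h1.symm.trans h2))
    have hfpf : ∀ y : G, orderOf y = q → V ⊓ Subgroup.centralizer {y} = ⊥ := by
      intro y hy
      rw [Fpf.inf_centralizer_eq_bot_iff]
      intro v hv hc
      by_contra hv1
      exact hfp y v hy (orderOf_eq_prime (hea.2 v hv) hv1) (by rw [← hc, mul_inv_cancel_right])
    have hQ : (Nat.card G).factorization q = 1 := by
      obtain ⟨Q⟩ : Nonempty (Sylow q G) := inferInstance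
      have hQo : ∀ y ∈ (Q : Subgroup G), y ≠ 1 → orderOf y = q := by
        intro y hy hy1
        obtain ⟨k, hk⟩ := IsPGroup.iff_orderOf.1 Q.isPGroup' ⟨y, hy⟩
        rcases hord hp hq hqp.symm ha hx y with h2 | h2 | h2
        · exact absurd h2 hy1
        · exact absurd (h2.symm.trans (by simpa using hk)) (hpow hp hq hqp.symm)
        · exact h2
      have h1 := PG.inf_centralizer_ne_bot Q.isPGroup' Q.isPGroup' Subgroup.le_normalizer
        (Q.ne_bot_of_dvd_card hqG)
      obtain ⟨⟨u, huQ, huC⟩, hu1⟩ := Subgroup.ne_bot_iff_exists_ne_one.1 h1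
      have hu := hQo u huQ fun e => hu1 (Subtype.ext e)
      have h2 : (Q : Subgroup G) = Subgroup.zpowers u := by
        refine le_antisymm (fun y hy => ?_) ((Subgroup.zpowers_le).2 huQ)
        refine Fpf.mem_zpowers_of_commute (Fpf.le_normalizer_of_normal' V Q) hV0
          (fun y hy hy1 => hfpf y (hQo y hy hy1)) hq huQ hy hu ?_ (huC y hy).symm
        by_cases hy1 : y = 1
        · rw [hy1, one_pow]
        · rw [← hQo y hy hy1, pow_orderOf_eq_one]
      have h3 := Q.card_eq_multiplicity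
      rw [h2, Nat.card_zpowers, hu] at h3
      exact Nat.pow_right_injective hq.two_le (h3.symm.trans (pow_one q).symm)
    have hG := hcard hp hq hqp.symm hpG hqG
    rw [hQ, pow_one] at hG
    refine ⟨p, q, _, inferInstance, inferInstance, hqp.symm,
      hp.factorization_pos_of_dvd Nat.card_pos.ne' hpG, hG,
      fun P => by rw [hsyl P]; exact ⟨inferInstance, hea⟩, ?_, hfp⟩
    have hVc : Nat.card V = p ^ (Nat.card G).factorization p := by
      obtain ⟨P⟩ : Nonempty (Sylow p G) := inferInstance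
      rw [← hsyl P, P.card_eq_multiplicity]
    have hc := isComplement'_zpowers hp hq hqp.symm hG hVc hx
    have := ElemAb.of_isElementaryAbelian hea
    have : Nontrivial V := (Subgroup.nontrivial_iff_ne_bot V).2 hV0
    let ρ := Vec.rep p (MulAut.conjNormal : G →* MulAut V)
    have hρ : ∀ u ∈ V, ρ u = 1 := by
      intro u hu
      ext w
      rw [Vec.rep_apply, Module.End.one_apply, ← Vec.ofMul_toMul w]
      congr 1
      ext
      rw [MulAut.conjNormal_apply, Vec.toMul_ofMul, ← (hmem' hVp u hu).1.2 _ (Vec.toMul w).2,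
        mul_inv_cancel_right]
    have hψ : ∀ φ : MulAut G, ∀ u, Vec.linEquiv p (MulAut.characteristic V φ) (ρ x u) =
        ρ (φ x) (Vec.linEquiv p (MulAut.characteristic V φ) u) := by
      intro φ u
      rw [Vec.rep_apply, Vec.rep_apply, Vec.linEquiv_apply, Vec.linEquiv_apply]
      congr 1
      ext
      change φ (x * (Vec.toMul u : V) * x⁻¹) = φ x * φ (Vec.toMul u : V) * (φ x)⁻¹
      rw [map_mul, map_mul, map_inv]
    refine orderOf_eq_of_transitive hqp.symm (T := ρ x)
      (by rw [← map_pow, ← hx, pow_orderOf_eq_one, map_one]) ?_ ?_ ?_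
    · intro e
      have h1 := DFunLike.congr_fun e (Vec.ofMul p ⟨a, haV.1⟩)
      rw [Vec.rep_apply, Module.End.one_apply, (Vec.ofMul p).apply_eq_iff_eq] at h1
      exact hfp x a hx ha (congrArg Subtype.val h1)
    · intro v w hv hw
      have h1 : ∀ v : Vec p V, v ≠ 0 → ∃ φ : MulAut G, φ a = (Vec.toMul v : V) := by
        intro v hv
        have h2 : orderOf ((Vec.toMul v : V) : G) = p :=
          orderOf_eq_prime (hea.2 _ (Vec.toMul v).2) (by simpa using hv)
        rcases horb (Vec.toMul v : V) with h3 | h3 | ⟨φ, h3⟩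
        · exact absurd (by simpa using h3) hv
        · exact h3
        · rw [← h3, φ.orderOf_eq, hx] at h2
          exact absurd h2 hqp
      obtain ⟨φ₁, h₁⟩ := h1 v hv
      obtain ⟨φ₂, h₂⟩ := h1 w hw
      obtain ⟨⟨⟨u, hu⟩, ⟨_, k, rfl⟩⟩, h3⟩ := hc.2 ((φ₂ * φ₁⁻¹) x)
      obtain ⟨k, hk⟩ := mem_powers_iff_mem_zpowers.2 (⟨k, rfl⟩ : x ^ k ∈ Subgroup.zpowers x)
      refine ⟨Vec.linEquiv p (MulAut.characteristic V (φ₂ * φ₁⁻¹)), k, ?_, fun u' => ?_⟩
      · rw [Vec.linEquiv_apply, ← Vec.ofMul_toMul w]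
        congr 1
        ext
        change φ₂ (φ₁⁻¹ (Vec.toMul v : V)) = _
        rw [← h₁, ← h₂]; simp
      · rw [hψ, ← h3, ← map_pow]
        simp only at hk
        simp only [map_mul, hρ u hu, one_mul, hk]
    · intro k hk
      have h2 : orderOf (x ^ k) = q := by
        rw [← hx]
        exact Nat.Coprime.orderOf_pow (by rw [hx]; exact (hq.coprime_iff_not_dvd).2 hk)
      rcases horb (x ^ k) with h3 | ⟨φ, h3⟩ | ⟨φ, h3⟩
      · rw [h3, orderOf_one] at h2
        exact absurd h2.symm hq.ne_one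
      · rw [← h3, φ.orderOf_eq, ha] at h2
        exact absurd h2.symm hqp
      · exact ⟨Vec.linEquiv p (MulAut.characteristic V φ), fun u => by rw [hψ, h3, map_pow]⟩
  · rintro ⟨p, q, n, hp, hq, hpq, hn, hG, hP, hord, hfp⟩
    obtain ⟨P⟩ : Nonempty (Sylow p G) := inferInstance
    obtain ⟨hPn, hea⟩ := hP P
    have hVc := card_sylow hq.out hpq hG P
    set V := (P : Subgroup G) with hV
    have := ElemAb.of_isElementaryAbelian hea
    obtain ⟨x, hx⟩ := exists_prime_orderOf_dvd_card' (G := G) q (hG ▸ dvd_mul_left _ _)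
    obtain ⟨a, ha⟩ := exists_prime_orderOf_dvd_card' (G := V) p (hVc ▸ dvd_pow_self p (by omega))
    let ρ := Vec.rep p (MulAut.conjNormal : G →* MulAut V)
    have hcop : p.Coprime q := (Nat.coprime_primes hp.out hq.out).2 hpq
    have hirr : Irreducible (cyclotomic q (ZMod p)) := by
      refine ZMod.irreducible_of_dvd_cyclotomic_of_natDegree
        ((hp.out.coprime_iff_not_dvd).1 hcop) dvd_rfl ?_
      rw [← orderOf_units, ZMod.coe_unitOfCoprime, hord, natDegree_cyclotomic,
        Nat.totient_prime hq.out]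
    have hΦ : ∀ y : G, orderOf y = q → aeval (ρ y) (cyclotomic q (ZMod p)) = 0 := by
      intro y hy
      ext u
      by_contra hu
      have h1 : aeval (ρ y) ((X - 1) * cyclotomic q (ZMod p)) u = 0 := by
        rw [mul_comm, cyclotomic_prime_mul_X_sub_one]
        rw [map_sub, map_pow, aeval_X, ← map_pow, ← hy, pow_orderOf_eq_one, map_one, map_one,
          sub_self]
        rfl
      rw [map_mul, Module.End.mul_apply] at h1
      generalize aeval (ρ y) (cyclotomic q (ZMod p)) u = w at hu h1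
      have h2 : ρ y w = w := by simpa [sub_eq_zero] using h1
      rw [Vec.rep_apply, ← Vec.ofMul_toMul w, (Vec.ofMul p).apply_eq_iff_eq] at h2
      exact hfp y (Vec.toMul w : V) hy
        (orderOf_eq_prime (hea.2 _ (Vec.toMul w).2) (by simpa using hu)) (congrArg Subtype.val h2)
    have ha1 : a ≠ 1 := by
      rintro rfl
      exact hp.out.ne_one (by rw [← ha, orderOf_one])
    have key : ∀ y : G, orderOf y = q → ∀ w : V, w ≠ 1 → ∃ φ : MulAut G, φ x = y ∧ φ a = w := by
      intro y hy w hw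
      obtain ⟨ψ, h1, h2⟩ := exists_intertwiner hirr (hΦ x hx) (hΦ y hy) (v := Vec.ofMul p a)
        (w := Vec.ofMul p w) (by simpa using ha1) (by simpa using hw)
      obtain ⟨φ, h3, h4⟩ := exists_mulAut (isComplement'_zpowers hp.out hq.out hpq hG hVc hx)
        (isComplement'_zpowers hp.out hq.out hpq hG hVc hy) (hx.trans hy.symm) (Vec.equivOfLin ψ)
        (fun u => congrArg Vec.toMul (h2 (Vec.ofMul p u)))
      exact ⟨φ, h3, by rw [h4, Vec.equivOfLin_apply, h1, Vec.toMul_ofMul]⟩
    refine three_of_orbits (a := a) (b := x) (by rw [Subgroup.orderOf_coe, ha]; exact hp.out.ne_one)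
      (hx ▸ hq.out.ne_one) (by rwa [Subgroup.orderOf_coe, ha, hx]) fun g => ?_
    by_cases hg1 : g = 1
    · exact Or.inl hg1
    by_cases hgV : g ∈ V
    · obtain ⟨φ, -, h⟩ := key x hx ⟨g, hgV⟩ fun e => hg1 (congrArg Subtype.val e)
      exact Or.inr (Or.inl ⟨φ, h⟩)
    · obtain ⟨⟨⟨u, hu⟩, ⟨y, hy⟩⟩, rfl⟩ := (isComplement'_zpowers hp.out hq.out hpq hG hVc hx).2 g
      have hy1 : y ≠ 1 := by
        rintro rfl
        exact hgV (by simpa using hu)
      have hyq : orderOf y = q := by
        refine orderOf_eq_prime ?_ hy1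
        rw [← orderOf_dvd_iff_pow_eq_one, ← hx]
        exact orderOf_dvd_of_mem_zpowers hy
      obtain ⟨φ, h, -⟩ := key (u * y) (by
        rw [Fpf.orderOf_mul_eq (Fpf.mem_normalizer_of_normal V y) ?_ hu, hyq]
        rw [Fpf.inf_centralizer_eq_bot_iff]
        intro v hv hc
        by_contra hv1
        exact hfp y v hyq (orderOf_eq_prime (hea.2 v hv) hv1)
          (by rw [← hc, mul_inv_cancel_right])) a ha1
      exact Or.inr (Or.inr ⟨φ, h⟩)

end Cfsg.Agent.S4081
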