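import Cfsg.Statements.S4082
import Cfsg.Agent.Solv.PByCyc
import Cfsg.Agent.FT.Elem

set_option autoImplicit false
open Cfsg

namespace Cfsg.Agent.S4082

open Subgroup Cfsg.Lib.Solv Cfsg.Lib.Solv.PByCyc
open scoped Pointwise

theorem dih {n : ℕ} (x : DihedralGroup n) : (∀ y, Odd (orderOf y) → x * y = y * x) ∨
    (orderOf x = 2 ∧ ∀ y, Odd (orderOf y) → x * y * x⁻¹ = y⁻¹) := by
  have h : ∀ i : ZMod n, ¬ Odd (orderOf (DihedralGroup.sr i)) := fun i => by
    rw [DihedralGroup.orderOf_sr]; decide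
  rcases x with i | i
  · left
    rintro (j | j) hj
    · simp [add_comm]
    · exact (h j hj).elim
  · refine Or.inr ⟨DihedralGroup.orderOf_sr i, ?_⟩
    rintro (j | j) hj
    · simp
    · exact (h j hj).elim

theorem key {G : Type*} [Group G] [Finite G] {p : ℕ} [Fact p.Prime] (hp : p ≠ 2)
    (h : ∀ H : Subgroup G, (∀ S : Sylow p ↥H, (S : Subgroup ↥H).Normal) →
      (∀ (S : Sylow p ↥H) [(S : Subgroup ↥H).Normal], IsCyclic (↥H ⧸ (S : Subgroup ↥H))) →
      IsCyclic H ∨ (∃ n : ℕ, Nonempty (H ≃* DihedralGroup (p ^ n)))) {S : Subgroup G}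
    (hS : IsPGroup p S) {x : G} (hx : x ∈ normalizer (S : Set G))
    (hx' : x ∉ centralizer (S : Set G)) : orderOf x = 2 ∧ ∀ s ∈ S, x * s * x⁻¹ = s⁻¹ := by
  have hxH : x ∈ S ⊔ zpowers x := mem_sup_right (mem_zpowers x)
  rcases h _ (hyp_sup hS hx).1 (hyp_sup hS hx).2 with h1 | ⟨n, ⟨e⟩⟩
  · exact (hx' fun s hs => mul_comm_of_isCyclic h1 (mem_sup_left hs) hxH).elim
  have ho : ∀ s (hs : s ∈ S), Odd (orderOf (e ⟨s, mem_sup_left hs⟩)) := fun s hs => by
    obtain ⟨k, hk⟩ := hS ⟨s, hs⟩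
    rw [e.orderOf_eq, ← orderOf_coe]
    exact (((Fact.out : p.Prime).odd_of_ne_two hp).pow (n := k)).of_dvd_nat
      (orderOf_dvd_of_pow_eq_one (congrArg Subtype.val hk))
  rcases dih (e ⟨x, hxH⟩) with h1 | ⟨h1, h2⟩
  · refine (hx' fun s hs => ?_).elim
    have := h1 _ (ho s hs)
    rw [← map_mul, ← map_mul] at this
    exact (congrArg Subtype.val (e.injective this)).symm
  · refine ⟨by rwa [e.orderOf_eq, ← orderOf_coe] at h1, fun s hs => ?_⟩
    have := h2 _ (ho s hs)
    rw [← map_mul, ← map_inv, ← map_mul, ← map_inv] at this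
    exact congrArg Subtype.val (e.injective this)

/-- Let p be an odd prime and G a finite group with Sylow p-subgroup P. Say that G has restricted p-by-cyclic subgroups when every subgroup H of G whose Sylow p-subgroup is normal in H with cyclic quotient is itself cyclic or dihedral of order 2pⁿ for some n. Then G has restricted p-by-cyclic subgroups if and only if P is cyclic and one of the following holds: (1) N_G(P) = C_G(P); or (2) N_G(P)/C_G(P) has order 2 and, for the subgroup Q of order p of P, the centralizer C_G(Q) is abelian and every element of N_G(Q) outside C_G(Q) is an involution inverting every element of C_G(Q). -/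
theorem result {G : Type*} [Group G] [Finite G] {p : ℕ}
    [Fact p.Prime] (hp : p ≠ 2) (P : Sylow p G) :
    (∀ H : Subgroup G, (∀ S : Sylow p ↥H, (S : Subgroup ↥H).Normal) →
        (∀ (S : Sylow p ↥H) [(S : Subgroup ↥H).Normal], IsCyclic (↥H ⧸ (S : Subgroup ↥H))) →
        IsCyclic H ∨ (∃ n : ℕ, Nonempty (H ≃* DihedralGroup (p ^ n)))) ↔
    (IsCyclic P ∧
      (Subgroup.normalizer ((P : Subgroup G) : Set G) = Subgroup.centralizer ((P : Subgroup G) : Set G) ∨
       ((Subgroup.centralizer ((P : Subgroup G) : Set G)).relIndex (Subgroup.normalizer ((P : Subgroup G) : Set G)) = 2 ∧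
        ∀ Q : Subgroup G, Q ≤ P → Nat.card Q = p →
          IsMulCommutative ↥(Subgroup.centralizer (Q : Set G)) ∧
          ∀ x : G, x ∈ Subgroup.normalizer (Q : Set G) → x ∉ Subgroup.centralizer (Q : Set G) →
            orderOf x = 2 ∧ ∀ c : G, c ∈ Subgroup.centralizer (Q : Set G) → x * c * x⁻¹ = c⁻¹))) := by
  have hp' : p.Prime := Fact.out
  have hodd := hp'.odd_of_ne_two hp
  constructor
  · intro h
    have hP : IsCyclic P := by
      have h1 := hyp_sup P.isPGroup' (one_mem _)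
      rcases h _ h1.1 h1.2 with h2 | ⟨n, ⟨e⟩⟩
      · rwa [zpowers_one_eq_bot, sup_bot_eq] at h2
      · obtain ⟨k, hk⟩ := IsPGroup.iff_card.1 P.isPGroup'
        have h2 := Nat.card_congr e.toEquiv
        rw [zpowers_one_eq_bot, sup_bot_eq, hk, DihedralGroup.nat_card] at h2
        exact absurd (hodd.pow (n := k)) (by rw [h2]; simp)
    refine ⟨hP, or_iff_not_imp_left.2 fun hne => ?_⟩
    obtain ⟨y, hy, hy'⟩ := SetLike.exists_of_lt (lt_of_le_of_ne (centralizer_le_normalizer _)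
      (Ne.symm hne))
    refine ⟨index_eq_two_iff.2 ⟨⟨y, hy⟩, fun b => ?_⟩, fun Q hQ hQp => ?_⟩
    · by_cases hb : b.1 ∈ centralizer ((P : Subgroup G) : Set G)
      · exact Or.inr ⟨hb, fun h1 => hy' ((Subgroup.mul_mem_cancel_left _ hb).1 h1)⟩
      · refine Or.inl ⟨fun s hs => ?_, hb⟩
        have h1 := (key hp h P.isPGroup' b.2 hb).2 _ (inv_mem hs)
        rw [inv_inv, ← (key hp h P.isPGroup' hy hy').2 s hs] at h1
        change s * (b.1 * y) = b.1 * y * s
        nth_rewrite 1 [← h1]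
        group
    · have hQ' := P.isPGroup'.to_le hQ
      have h1 : ∀ x ∈ normalizer (Q : Set G), x ∉ centralizer (Q : Set G) →
          orderOf x = 2 ∧ ∀ c ∈ centralizer (Q : Set G), x * c * x⁻¹ = c⁻¹ := fun x hx hx' =>
        ⟨(key hp h hQ' hx hx').1, fun c hc => by
          have h2 := Lib.Local.mul_self_of_orderOf_two (key hp h hQ' (mul_mem hx
            (centralizer_le_normalizer _ hc)) fun h3 => hx' ((Subgroup.mul_mem_cancel_right _ hc).1 h3)).1
          rw [Lib.Local.inv_eq_self_of_orderOf_two (key hp h hQ' hx hx').1,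
            eq_inv_iff_mul_eq_one, mul_assoc, h2]⟩
      refine ⟨⟨⟨fun a b => Subtype.ext ?_⟩⟩, h1⟩
      have h2 := (h1 y (Lib.FT.norms_sub_cyclic hP hQ le_rfl hy) fun h3 => ?_).2
      · have h3 := h2 _ (a * b).2
        rw [coe_mul, show y * (a * b) * y⁻¹ = y * a * y⁻¹ * (y * b * y⁻¹) by group, h2 _ a.2,
          h2 _ b.2, ← mul_inv_rev, inv_inj] at h3
        exact h3.symm
      obtain ⟨q, hq⟩ := exists_prime_orderOf_dvd_card' (G := Q) p hQp.symm.dvd
      have h4 := (key hp h P.isPGroup' hy hy').2 q (hQ q.2)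
      rw [← h3 q q.2, mul_inv_cancel_right, eq_inv_iff_mul_eq_one, ← pow_two] at h4
      have h5 := orderOf_dvd_of_pow_eq_one h4
      rw [orderOf_coe, hq] at h5
      exact hp ((Nat.prime_dvd_prime_iff_eq hp' Nat.prime_two).1 h5)
  · rintro ⟨hP, h⟩ H h1 h2
    obtain ⟨S, g, hS, hg, hcop, rfl⟩ := exists_gen h1 h2
    obtain ⟨P', hP'⟩ := hS.exists_le_sylow
    obtain ⟨k, rfl⟩ := MulAction.exists_smul_eq G P P'
    have hP'c : IsCyclic (k • P : Sylow p G) := isCyclic_of_surjective _ (P.equivSMul k).surjective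
    have hSc : IsCyclic S := Subgroup.isCyclic_of_le hP'
    obtain ⟨n, hn⟩ := IsPGroup.iff_card.1 hS
    by_cases hc : g ∈ centralizer (S : Set G)
    · exact Or.inl (isCyclic_sup hc (hn ▸ hcop.pow_right n))
    obtain ⟨q, hqS, hq, hqg⟩ : ∃ q ∈ S, q ^ p = 1 ∧ q ∉ centralizer (zpowers g : Set G) := by
      by_contra! h3
      exact hc (Coprime.le_centralizer_of_pow_prime_eq_one hS (zpowers_le.2 hg)
        (by rwa [Nat.card_zpowers]) h3 (mem_zpowers g))
    have hqg' : g * q ≠ q * g := fun h3 => hqg (by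
      rintro _ ⟨m, rfl⟩; exact (Commute.zpow_left h3 m).eq)
    have hq1 : q ≠ 1 := by rintro rfl; simp at hqg'
    have hconj : ∀ {a : G}, a ∈ S → k⁻¹ * a * k ∈ (P : Subgroup G) := fun ha =>
      Coprime.mem_conj_smul.1 (hP' ha)
    rcases h with h | ⟨-, h⟩
    · obtain ⟨m, hm, h3⟩ := P.conj_eq_normalizer_conj_of_mem _ (k⁻¹ * g⁻¹ * k) (hconj hqS)
        (by
          rw [show (k⁻¹ * g⁻¹ * k)⁻¹ * (k⁻¹ * q * k) * (k⁻¹ * g⁻¹ * k) = k⁻¹ * (g * q * g⁻¹) * k by
            group]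
          exact hconj ((hg q).1 hqS))
      rw [mul_assoc m⁻¹, (h.le hm) _ (hconj hqS), inv_mul_cancel_left] at h3
      refine (hqg' ?_).elim
      calc g * q = k * ((k⁻¹ * g⁻¹ * k)⁻¹ * (k⁻¹ * q * k) * (k⁻¹ * g⁻¹ * k)) * k⁻¹ * g := by group
        _ = q * g := by rw [h3]; group
    obtain ⟨s, rfl⟩ := (Subgroup.isCyclic_iff_exists_zpowers_eq_top S).1 hSc
    have hN := Lib.FT.norms_sub_cyclic hSc (zpowers_le.2 hqS) le_rfl hg
    obtain ⟨h3, h4⟩ := (h (zpowers (k⁻¹ * q * k)) (zpowers_le.2 (hconj hqS)) (by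
      rw [Nat.card_zpowers, ← orderOf_eq_prime hq hq1, ← (MulAut.conj k⁻¹).orderOf_eq q]
      simp)).2 (k⁻¹ * g * k) (by
        have := le_normalizer_map (MulAut.conj k⁻¹).toMonoidHom (mem_map_of_mem _ hN)
        rw [MonoidHom.map_zpowers] at this
        simpa using this) fun h3 => hqg' (by
          have := h3 _ (mem_zpowers _)
          calc g * q = k * (k⁻¹ * g * k * (k⁻¹ * q * k)) * k⁻¹ := by group
            _ = q * g := by rw [← this]; group)
    have h5 := h4 (k⁻¹ * s * k) fun z hz =>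
      mul_comm_of_isCyclic hP (zpowers_le.2 (hconj hqS) hz) (hconj (mem_zpowers s))
    have h6 : orderOf g = 2 := by
      rw [← h3, ← (MulAut.conj k⁻¹).orderOf_eq g]
      simp
    refine Or.inr ⟨n, ?_⟩
    rw [← hn, Nat.card_zpowers]
    refine nonempty_dihedral (Lib.Local.mul_self_of_orderOf_two h6) ?_ fun h7 =>
      hqg' (mul_comm_of_isCyclic hSc h7 hqS)
    calc g * s * g⁻¹ = k * (k⁻¹ * g * k * (k⁻¹ * s * k) * (k⁻¹ * g * k)⁻¹) * k⁻¹ := by group
      _ = s⁻¹ := by rw [h5]; group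

end Cfsg.Agent.S4082
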