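import Cfsg.Statements.S4083
import Cfsg.Agent.Solv.PByCyc
import Cfsg.Agent.Solv.ElemAb
import Cfsg.Agent.Class.A5Recog
import Cfsg.Agent.Rank2.DihCent

set_option autoImplicit false
open Cfsg

namespace Cfsg.Agent.S4083

open Subgroup Cfsg.Lib.Solv Cfsg.Lib.Solv.PByCyc
open scoped Pointwise

theorem comm_of_sq {G : Type*} [Group G] {K : Subgroup G} (h : ∀ k ∈ K, k ^ 2 = 1) {a b : G}
    (ha : a ∈ K) (hb : b ∈ K) : a * b = b * a := by
  have e : ∀ x ∈ K, x⁻¹ = x := fun x hx => inv_eq_of_mul_eq_one_right (by rw [← pow_two, h x hx])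
  rw [← e _ (K.mul_mem ha hb), mul_inv_rev, e a ha, e b hb]

theorem eq_of_sq {G : Type*} [Group G] [Finite G] {S : Subgroup G} (hS : IsCyclic S) {a b : G}
    (ha : a ∈ S) (hb : b ∈ S) (h1 : a ≠ 1) (h2 : b ≠ 1) (h3 : a ^ 2 = 1) (h4 : b ^ 2 = 1) :
    a = b := by
  classical
  have := Fintype.ofFinite S
  have h := IsCyclic.card_pow_eq_one_le (α := S) (n := 2) two_pos
  by_contra hne
  have : ({1, ⟨a, ha⟩, ⟨b, hb⟩} : Finset S) ⊆ Finset.univ.filter fun x : S => x ^ 2 = 1 := by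
    intro x hx
    simp only [Finset.mem_insert, Finset.mem_singleton] at hx
    rcases hx with rfl | rfl | rfl <;> simp [Subtype.ext_iff, h3, h4]
  have := (Finset.card_le_card this).trans h
  rw [Finset.card_eq_three.2 ⟨_, _, _, by simpa [Subtype.ext_iff] using h1.symm,
    by simpa [Subtype.ext_iff] using h2.symm, by simpa [Subtype.ext_iff] using hne, rfl⟩] at this
  omega

theorem cyc {G : Type*} [Group G] [Finite G] {S : Subgroup G} (hS : IsPGroup 2 S)
    (hc : IsCyclic S) {g : G} (hg : g ∈ normalizer (S : Set G)) (ho : (orderOf g).Coprime 2) :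
    IsCyclic ↥(S ⊔ zpowers g) := by
  obtain ⟨n, hn⟩ := IsPGroup.iff_card.1 hS
  refine isCyclic_sup (Coprime.le_centralizer_of_pow_prime_eq_one hS (zpowers_le.2 hg)
    (by rwa [Nat.card_zpowers]) (fun v hv h2 z hz => ?_) (mem_zpowers g)) (hn ▸ ho.pow_right n)
  by_cases h1 : v = 1
  · simp [h1]
  rw [← mul_inv_eq_iff_eq_mul]
  exact eq_of_sq hc ((zpowers_le.2 hg hz v).1 hv) hv (by simpa using h1) h1
    (by rw [conj_pow, h2]; simp) h2

theorem frame {G : Type*} [Group G] [Finite G] {S : Subgroup G} {n : ℕ} [NeZero n]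
    (f : S →* DihedralGroup n) (hf : Function.Injective f) (hc : ¬ IsCyclic S) :
    ∃ r s : G, s * s = 1 ∧ s * r * s⁻¹ = r⁻¹ ∧ s ∉ zpowers r ∧ S = zpowers r ⊔ zpowers s ∧
      ∀ x ∈ S, x ^ 2 ∈ zpowers r := by
  let R := (zpowers (DihedralGroup.r (1 : ZMod n))).comap f
  have hr : ∀ i : ZMod n, DihedralGroup.r i ∈ zpowers (DihedralGroup.r (1 : ZMod n)) := fun i =>
    ⟨i.val, by simp⟩
  have hsr : ∀ i : ZMod n, DihedralGroup.sr i ∉ zpowers (DihedralGroup.r (1 : ZMod n)) := by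
    rintro i ⟨k, hk⟩
    simp at hk
  have hR : IsCyclic R := isCyclic_of_injective (f.subgroupComap _)
    (fun a b h => Subtype.ext (hf (congrArg Subtype.val h)))
  obtain ⟨r, hr'⟩ := (Subgroup.isCyclic_iff_exists_zpowers_eq_top R).1 hR
  have hm : ∀ x : S, (x : G) ∈ zpowers (r : G) ↔ x ∈ R := fun x => by
    rw [← hr']
    exact ⟨fun ⟨k, hk⟩ => ⟨k, Subtype.ext hk⟩, fun ⟨k, hk⟩ => ⟨k, congrArg Subtype.val hk⟩⟩
  obtain ⟨s, hs⟩ : ∃ s, s ∉ R := by
    by_contra! h
    exact hc (isCyclic_of_surjective R.subtype fun x => ⟨⟨x, h x⟩, rfl⟩)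
  have hf' : ∀ x ∉ R, ∃ i, f x = DihedralGroup.sr i := fun x hx => by
    rcases h : f x with i | i
    · exact (hx (show f x ∈ _ from h ▸ hr i)).elim
    · exact ⟨i, rfl⟩
  obtain ⟨i, hi⟩ := hf' s hs
  obtain ⟨j, hj⟩ : ∃ j, f r = DihedralGroup.r j := by
    rcases h : f r with j | j
    · exact ⟨j, rfl⟩
    · exact (hsr j (h ▸ (hr'.le (mem_zpowers r) : f r ∈ _))).elim
  refine ⟨r, s, congrArg Subtype.val (hf (a₁ := s * s) (a₂ := 1) (by simp [hi])),
    congrArg Subtype.val (hf (a₁ := s * r * s⁻¹) (a₂ := r⁻¹) (by simp [hi, hj])),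
    fun h => hs ((hm s).1 h), le_antisymm (fun x hx => ?_)
      (sup_le (zpowers_le.2 r.2) (zpowers_le.2 s.2)), fun x hx => (hm (⟨x, hx⟩ ^ 2)).2 ?_⟩
  · by_cases h : (⟨x, hx⟩ : S) ∈ R
    · exact mem_sup_left ((hm _).2 h)
    obtain ⟨k, hk⟩ := hf' _ h
    have : (⟨x, hx⟩ * s : S) ∈ R := by
      rw [mem_comap, map_mul, hk, hi]
      exact hr _
    exact (Subgroup.mul_mem_cancel_right _ (mem_sup_right (mem_zpowers (s : G)))).1
      (mem_sup_left ((hm _).2 this))
  · by_cases h : (⟨x, hx⟩ : S) ∈ R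
    · exact pow_mem h 2
    obtain ⟨k, hk⟩ := hf' _ h
    rw [mem_comap, pow_two, map_mul, hk]
    exact hr _

/-- Let G be a finite group with Sylow 2-subgroup P. Every subgroup H of G whose Sylow 2-subgroup is normal in H with cyclic quotient is cyclic, dihedral of 2-power order, or isomorphic to the alternating group of degree 4, if and only if either P is cyclic, or P is dihedral (of order at least 4) and every elementary abelian subgroup K of order 4 of P satisfies C_G(K) = K. -/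
theorem result {G : Type*} [Group G] [Finite G] (P : Sylow 2 G) :
    (∀ H : Subgroup G, (∀ S : Sylow 2 ↥H, (S : Subgroup ↥H).Normal) →
        (∀ (S : Sylow 2 ↥H) [(S : Subgroup ↥H).Normal], IsCyclic (↥H ⧸ (S : Subgroup ↥H))) →
        IsCyclic H ∨ (∃ n : ℕ, Nonempty (H ≃* DihedralGroup (2 ^ n))) ∨ Nonempty (H ≃* alternatingGroup (Fin 4))) ↔
    (IsCyclic P ∨
      ((∃ n : ℕ, 1 ≤ n ∧ Nonempty ((P : Subgroup G) ≃* DihedralGroup (2 ^ n))) ∧
        ∀ K : Subgroup G, K ≤ P → Nat.card K = 4 → (∀ k ∈ K, k ^ 2 = 1) → Subgroup.centralizer (K : Set G) = K)) := by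
  constructor
  · intro h
    have h1 := hyp_sup P.isPGroup' (one_mem _)
    have h2 := h _ h1.1 h1.2
    rw [zpowers_one_eq_bot, sup_bot_eq] at h2
    refine or_iff_not_imp_left.2 fun hc => ⟨?_, fun K hK h4 h5 => le_antisymm (fun c hc => ?_)
      fun a ha b hb => comm_of_sq h5 hb ha⟩
    · rcases h2 with h2 | ⟨n, ⟨e⟩⟩ | ⟨⟨e⟩⟩
      · exact (hc h2).elim
      · refine ⟨n, Nat.pos_of_ne_zero ?_, ⟨e⟩⟩
        rintro rfl
        exact hc (isCyclic_of_prime_card (p := 2)
          ((Nat.card_congr e.toEquiv).trans DihedralGroup.nat_card))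
      · obtain ⟨k, hk⟩ := IsPGroup.iff_card.1 P.isPGroup'
        have h3 : 3 ∣ 2 ^ k := by
          rw [← hk, Nat.card_congr e.toEquiv, alternatingGroup.card_of_card_eq_four (by simp)]
          decide
        exact absurd (Nat.prime_three.dvd_of_dvd_pow h3) (by decide)
    have h6 := hyp_sup (P.isPGroup'.to_le hK) (centralizer_le_normalizer _ hc)
    have hcomm : ∀ a b : ↥(K ⊔ zpowers c), a * b = b * a := by
      have h7 : K ⊔ zpowers c ≤ centralizer ((K ⊔ zpowers c : Subgroup G) : Set G) := by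
        have h8 : zpowers c ≤ centralizer (K : Set G) := zpowers_le.2 hc
        exact sup_le (le_centralizer_iff.1 (sup_le (fun a ha b hb => comm_of_sq h5 hb ha) h8))
          (le_centralizer_iff.1 (sup_le (le_centralizer_iff.1 h8) (le_centralizer _)))
      exact fun a b => Subtype.ext (h7 b.2 a a.2)
    rcases h _ h6.1 h6.2 with h2 | ⟨n, ⟨e⟩⟩ | ⟨⟨e⟩⟩
    · have : IsCyclic K := Subgroup.isCyclic_of_le (le_sup_left : K ≤ K ⊔ zpowers c)
      have h7 := IsCyclic.exponent_eq_card (α := K)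
      have h8 := Monoid.exponent_dvd_of_forall_pow_eq_one (G := K) (n := 2)
        fun k => Subtype.ext (h5 k k.2)
      rw [h7, h4] at h8
      exact absurd h8 (by decide)
    · have h7 := hcomm (e.symm (.sr 0)) (e.symm (.r 1))
      rw [← map_mul, ← map_mul, e.symm.injective.eq_iff] at h7
      have h8 : ((2 : ℕ) : ZMod (2 ^ n)) = 0 := by
        simp only [DihedralGroup.sr_mul_r, DihedralGroup.r_mul_sr, DihedralGroup.sr.injEq] at h7
        rw [Nat.cast_ofNat]
        linear_combination h7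
      have h9 := Nat.le_of_dvd two_pos ((ZMod.natCast_eq_zero_iff _ _).1 h8)
      have h10 := Nat.card_congr e.toEquiv
      rw [DihedralGroup.nat_card] at h10
      exact (eq_of_le_of_card_ge (le_sup_left : K ≤ K ⊔ zpowers c) (by omega)).ge
        (mem_sup_right (mem_zpowers c))
    · have h7 : ∀ a b : alternatingGroup (Fin 4), a * b = b * a := fun a b => by
        rw [← e.apply_symm_apply a, ← e.apply_symm_apply b, ← map_mul, hcomm, map_mul]
      exact absurd h7 (by decide)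
  rintro h H h1 h2
  obtain ⟨S, g, hS, hg, hcop, rfl⟩ := exists_gen h1 h2
  by_cases hc : IsCyclic S
  · exact Or.inl (cyc hS hc hg hcop)
  right
  obtain ⟨P', hP'⟩ := hS.exists_le_sylow
  obtain ⟨k, rfl⟩ := MulAction.exists_smul_eq G P P'
  rcases h with h | ⟨⟨n, -, ⟨e⟩⟩, h⟩
  · have : IsCyclic (k • P : Sylow 2 G) := isCyclic_of_surjective _ (P.equivSMul k).surjective
    exact (hc (Subgroup.isCyclic_of_le hP')).elim
  let f : S →* DihedralGroup (2 ^ n) :=
    (e.toMonoidHom.comp (P.equivSMul k).symm.toMonoidHom).comp (inclusion hP')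
  have hf : Function.Injective f :=
    (e.injective.comp (P.equivSMul k).symm.injective).comp (inclusion_injective hP')
  have hK : ∀ K ≤ S, Nat.card K = 4 → (∀ x ∈ K, x ^ 2 = 1) → centralizer (K : Set G) ≤ K := by
    intro K hK h4 h5 c hc
    have := (h (MulAut.conj k⁻¹ • K) (fun x hx => by
        simpa [mul_assoc] using Coprime.mem_conj_smul.1 (hP' (hK (Coprime.mem_conj_smul.1 hx))))
      (by rw [Coprime.card_conj_smul, h4]) (fun x hx => by
        have := h5 _ (Coprime.mem_conj_smul.1 hx)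
        rw [inv_inv, conj_pow] at this
        simpa using this)).le (x := k⁻¹ * c * k) fun x hx => by
          have := hc _ (Coprime.mem_conj_smul.1 hx)
          calc x * (k⁻¹ * c * k) = k⁻¹ * (k⁻¹⁻¹ * x * k⁻¹ * c) * k := by group
            _ = _ := by rw [this]; group
    simpa [mul_assoc] using Coprime.mem_conj_smul.1 this
  obtain ⟨r, s, hs, hsr, hsr', hSe, hsq⟩ := frame f hf hc
  have hrS : r ∈ S := hSe.ge (mem_sup_left (mem_zpowers r))
  have hsS : s ∈ S := hSe.ge (mem_sup_right (mem_zpowers s))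
  have hs1 : s ≠ 1 := by rintro rfl; exact hsr' (one_mem _)
  have hinv : ∀ t ∈ zpowers r, t ≠ 1 → t * t = 1 →
      Nat.card ↥(zpowers t ⊔ zpowers s) = 4 ∧ ∀ x ∈ zpowers t ⊔ zpowers s, x ^ 2 = 1 := by
    rintro _ ⟨m, rfl⟩ h1 h2
    obtain ⟨e⟩ := nonempty_dihedral (r := r ^ m) hs (by rw [← conj_zpow, hsr, inv_zpow])
      fun h => hsr' (zpowers_le.2 (zpow_mem (mem_zpowers r) m) h)
    rw [Lib.Local.orderOf_two_of_mul_self h2 h1] at e
    refine ⟨(Nat.card_congr e.toEquiv).trans DihedralGroup.nat_card, fun x hx => ?_⟩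
    refine congrArg Subtype.val (e.injective (a₁ := ⟨x, hx⟩ ^ 2) (a₂ := 1) ?_)
    rw [map_pow, map_one]
    exact (by decide : ∀ d : DihedralGroup 2, d ^ 2 = 1) _
  have hfix : ∀ y ∈ normalizer (S : Set G), (orderOf y).Coprime 2 → ∀ t ∈ S, t ≠ 1 →
      y * t * y⁻¹ = t → y = 1 := by
    intro y hy ho t ht ht1 hyt
    have h3 := Lib.Rank2.eq_one_of_dihedral hS f hf (φ := S.normalizerMonoidHom ⟨y, hy⟩)
      ((Nat.coprime_two_right.1 ho).of_dvd_nat ((orderOf_map_dvd _ _).trans (orderOf_coe _).symm.dvd))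
      (t := ⟨t, ht⟩) (fun h => ht1 (congrArg Subtype.val h)) (Subtype.ext hyt)
    obtain ⟨z, hz⟩ := exists_prime_orderOf_dvd_card' (G := zpowers r) 2 (by
      refine ((hS.to_le (zpowers_le.2 hrS)).card_eq_or_dvd).resolve_left fun h => hc ?_
      rw [hSe, card_eq_one.1 h, bot_sup_eq]
      infer_instance)
    rw [← orderOf_coe] at hz
    obtain ⟨h4, h5⟩ := hinv z z.2 (Lib.Local.ne_one_of_orderOf_two hz)
      (Lib.Local.mul_self_of_orderOf_two hz)
    have hle : zpowers (z : G) ⊔ zpowers s ≤ S :=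
      sup_le (zpowers_le.2 (zpowers_le.2 hrS z.2)) (zpowers_le.2 hsS)
    exact orderOf_eq_one_iff.1 (ho.eq_one_of_dvd (orderOf_dvd_of_pow_eq_one (h5 y
      (hK _ hle h4 h5 fun x hx => (mul_inv_eq_iff_eq_mul.1 (congrArg Subtype.val
        (DFunLike.congr_fun h3 (⟨x, hle hx⟩ : S)))).symm))))
  by_cases hg1 : g = 1
  · left
    obtain ⟨m, hm⟩ := IsPGroup.iff_orderOf.1 hS ⟨r, hrS⟩
    rw [← orderOf_coe] at hm
    rw [hg1, zpowers_one_eq_bot, sup_bot_eq, hSe]
    exact ⟨m, hm ▸ nonempty_dihedral hs hsr hsr'⟩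
  right
  have h5 : ∀ x ∈ S, x ^ 2 = 1 := by
    by_contra! h5
    obtain ⟨x, hx, hx1⟩ := h5
    obtain ⟨z, hz⟩ := exists_prime_orderOf_dvd_card' (G := zpowers (x ^ 2)) 2
      (((hS.to_le (zpowers_le.2 (pow_mem hx 2))).card_eq_or_dvd).resolve_left fun h =>
        hx1 (zpowers_eq_bot.1 (card_eq_one.1 h)))
    rw [← orderOf_coe] at hz
    obtain ⟨z, m, rfl⟩ := z
    have h6 : (x ^ 2) ^ m ≠ 1 := Lib.Local.ne_one_of_orderOf_two hz
    have h7 : ((x ^ 2) ^ m) ^ 2 = 1 := orderOf_dvd_iff_pow_eq_one.1 hz.dvd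
    refine hg1 (hfix g hg hcop _ (zpow_mem (pow_mem hx 2) m) h6 (eq_of_sq (S := zpowers r)
      inferInstance ?_ (zpow_mem (hsq x hx) m) (by simpa using h6) h6
      (by rw [conj_pow, h7]; simp) h7))
    rw [← conj_zpow, ← conj_pow]
    exact zpow_mem (hsq _ ((hg x).1 hx)) m
  have h4 : Nat.card S = 4 := hSe ▸ (hinv r (mem_zpowers r) (by
    rintro rfl
    rw [zpowers_one_eq_bot, bot_sup_eq] at hSe
    exact hc (hSe ▸ inferInstance)) (pow_two r ▸ h5 r hrS)).1
  have : ElemAb 2 S := ⟨fun a b => Subtype.ext (comm_of_sq h5 a.2 b.2),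
    fun a => Subtype.ext (h5 a a.2)⟩
  have h3 : ∀ y ∈ normalizer (S : Set G), (orderOf y).Coprime 2 → y ^ 3 = 1 := fun y hy ho => by
    have h6 := orderOf_dvd_natCard (S.normalizerMonoidHom ⟨y, hy⟩)
    rw [Vec.card_mulAut (p := 2) (n := 2) h4] at h6
    have h7 := orderOf_dvd_iff_pow_eq_one.1 ((ho.coprime_dvd_left ((orderOf_map_dvd _ _).trans
      (orderOf_coe (⟨y, hy⟩ : normalizer (S : Set G))).symm.dvd)).dvd_of_dvd_mul_left
      (show _ ∣ 2 * 3 from h6))
    rw [← map_pow] at h7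
    exact hfix _ (pow_mem hy 3) (ho.coprime_dvd_left (orderOf_pow_dvd 3)) s hsS hs1
      (congrArg Subtype.val (DFunLike.congr_fun h7 (⟨s, hsS⟩ : S)))
  have h6 : orderOf g = 3 := orderOf_eq_prime (h3 g hg hcop) hg1
  refine Lib.Class.nonempty_mulEquiv_A4_of_pow ?_ fun x => ?_
  · rw [Coprime.card_sup (zpowers_le.2 hg) (disjoint_of_coprime_natCard (by
      rw [h4, Nat.card_zpowers, h6]; decide)), h4, Nat.card_zpowers, h6]
  obtain ⟨x, hx⟩ := x
  have hxN : x ∈ normalizer (S : Set G) := sup_le le_normalizer (zpowers_le.2 hg) hx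
  have h7 : x ^ 3 ∈ S := by
    have := Coprime.normal_subgroupOf_sup (zpowers_le.2 hg)
    have h8 := pow_index_mem (S.subgroupOf (S ⊔ zpowers g)) ⟨x, hx⟩
    have h9 := (S.subgroupOf (S ⊔ zpowers g)).card_mul_index
    rw [Coprime.card_subgroupOf le_sup_left, Coprime.card_sup (zpowers_le.2 hg)
      (disjoint_of_coprime_natCard (by rw [h4, Nat.card_zpowers, h6]; decide)), h4,
      Nat.card_zpowers, h6] at h9
    rwa [show (S.subgroupOf (S ⊔ zpowers g)).index = 3 by omega] at h8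
  refine or_iff_not_imp_right.2 fun h8 => Subtype.ext (hfix (x ^ 2) (pow_mem hxN 2) ?_ _ h7
    (fun h => h8 (Subtype.ext h)) (by group))
  refine Nat.Coprime.coprime_dvd_left (orderOf_dvd_of_pow_eq_one (n := 3) ?_) (by decide)
  rw [← pow_mul, mul_comm, pow_mul, h5 _ h7]

end Cfsg.Agent.S4083
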