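import Cfsg.Statements.S4084
import Cfsg.Agent.Solv.PGroupBasic

set_option autoImplicit false
open Cfsg

namespace Cfsg.Agent.S4084

open Subgroup Cfsg.Lib.Solv.PG

theorem aux {G H : Type*} [Group G] [Finite G] [Group H] [Finite H] (e : G ≃ H)
    (he : ∀ x y : G, Commute x y ↔ Commute (e x) (e y))
    {p q : ℕ} (hp : p.Prime) (hq : q.Prime) (hpq : p ≠ q) {g : G} (hg : orderOf g = p * q) :
    ∃ h : H, orderOf h = p * q := by
  obtain ⟨A, hgA, hA⟩ := Finite.exists_le_maximal
    (p := fun A : Subgroup G => IsMulCommutative A) (a := zpowers g) inferInstance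
  have := hA.1
  have hC : ∀ x ∈ centralizer (A : Set G), x ∈ A := fun x hx =>
    hA.2 (isMulCommutative_sup_zpowers hx) le_sup_left (mem_sup_right (mem_zpowers x))
  have hB : ∀ x, x ∈ A ↔ e x ∈ centralizer (e '' (A : Set G)) := fun x =>
    ⟨fun hx => by rintro _ ⟨a, ha, rfl⟩; exact (he a x).mp (mul_comm_of_mem ha hx),
      fun hx => hC x fun a ha => (he a x).mpr (hx _ ⟨a, ha, rfl⟩)⟩
  have hc : p * q ∣ Nat.card (centralizer (e '' (A : Set G))) := by
    rw [← Nat.card_congr (e.subtypeEquiv hB), ← hg]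
    exact orderOf_dvd_natCard A (hgA (mem_zpowers g))
  have := Fact.mk hp
  have := Fact.mk hq
  obtain ⟨x, hx⟩ := exists_prime_orderOf_dvd_card' p ((dvd_mul_right p q).trans hc)
  obtain ⟨y, hy⟩ := exists_prime_orderOf_dvd_card' q ((dvd_mul_left q p).trans hc)
  have h1 : Commute (x : H) y := by
    refine y.2 x ⟨e.symm x, (hB _).mpr ?_, e.apply_symm_apply _⟩
    rw [e.apply_symm_apply]; exact x.2
  refine ⟨x * y, ?_⟩
  rw [h1.orderOf_mul_eq_mul_orderOf_of_coprime] <;> rw [orderOf_coe, orderOf_coe, hx, hy]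
  exact (Nat.coprime_primes hp hq).mpr hpq

/-- Let G and H be finite groups whose commuting graphs are isomorphic: there is a bijection e : G → H with x, y commuting exactly when e(x), e(y) commute. Then G and H have the same prime graph: for distinct primes p, q, G has an element of order pq if and only if H does (and #G = #H, so the prime divisors agree). -/
theorem result {G H : Type*} [Group G] [Finite G] [Group H] [Finite H] (e : G ≃ H)
    (he : ∀ x y : G, Commute x y ↔ Commute (e x) (e y))
    {p q : ℕ} (hp : p.Prime) (hq : q.Prime) (hpq : p ≠ q) :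
    (∃ g : G, orderOf g = p * q) ↔ (∃ h : H, orderOf h = p * q) := by
  exact ⟨fun ⟨_, hg⟩ => aux e he hp hq hpq hg, fun ⟨_, hg⟩ => aux e.symm
    (fun x y => by rw [he, e.apply_symm_apply, e.apply_symm_apply]) hp hq hpq hg⟩

end Cfsg.Agent.S4084
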