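import Cfsg.Statements.S4085
import Cfsg.Agent.Solv.CyclicP

set_option autoImplicit false
open Cfsg

namespace Cfsg.Agent.S4085

open Subgroup Cfsg.Lib.Solv

theorem eq_pow_of_comparable {d N : ℕ} (hN : N ≠ 0) (hd : d ∣ N) (h1 : d ≠ 1) (h2 : d ≠ N)
    (h : ∀ c, c ∣ N → c ∣ d ∨ d ∣ c) : ∃ r k : ℕ, r.Prime ∧ N = r ^ k := by
  obtain ⟨m, rfl⟩ := hd
  have hd0 : d ≠ 0 := left_ne_zero_of_mul hN
  have hm0 : m ≠ 0 := right_ne_zero_of_mul hN
  obtain ⟨r, hr, hrm⟩ := Nat.exists_prime_and_dvd (n := m) (by rintro rfl; simp at h2)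
  have h3 : d ∣ r ^ (d * m).factorization r := by
    refine (h _ (Nat.ordProj_dvd _ _)).resolve_left fun h4 => ?_
    have h5 := (hr.pow_dvd_iff_le_factorization hd0).1 h4
    rw [Nat.factorization_mul hd0 hm0, Finsupp.add_apply] at h5
    have := hr.factorization_pos_of_dvd hm0 hrm
    omega
  obtain ⟨j, -, rfl⟩ := (Nat.dvd_prime_pow hr).1 h3
  refine ⟨r, _, hr, Nat.eq_prime_pow_of_unique_prime_dvd hN fun {s} hs hsN => ?_⟩
  rcases h s hsN with h4 | h4
  · exact (Nat.prime_dvd_prime_iff_eq hs hr).1 (hs.dvd_of_dvd_pow h4)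
  · have hj : j ≠ 0 := by rintro rfl; simp at h1
    exact ((Nat.prime_dvd_prime_iff_eq hr hs).1 ((dvd_pow_self r hj).trans h4)).symm

theorem eq_pow_of_chain {a d N : ℕ} (hN : N ≠ 0) (ha : a ∣ d) (hd : d ∣ N) (h1 : a ≠ d)
    (h2 : d ≠ N) (h : ∀ c, a ∣ c → c ∣ N → c ∣ d ∨ d ∣ c) (h' : ∀ c, c ∣ d → c ∣ a ∨ a ∣ c) :
    ∃ r k : ℕ, r.Prime ∧ N = r ^ k := by
  obtain ⟨u, rfl⟩ := ha
  obtain ⟨v, rfl⟩ := hd
  have ha0 : a ≠ 0 := left_ne_zero_of_mul (left_ne_zero_of_mul hN)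
  have hu1 : u ≠ 1 := by rintro rfl; simp at h1
  obtain ⟨r, k, hr, hk⟩ := eq_pow_of_comparable (d := u) (N := u * v)
    (by rw [mul_assoc] at hN; exact right_ne_zero_of_mul hN) (dvd_mul_right _ _) hu1
    (fun e => h2 (by rw [mul_assoc, ← e])) fun c hc => by
      have := h (a * c) (dvd_mul_right _ _) (by rw [mul_assoc]; exact Nat.mul_dvd_mul_left _ hc)
      rwa [Nat.mul_dvd_mul_iff_left (Nat.pos_of_ne_zero ha0),
        Nat.mul_dvd_mul_iff_left (Nat.pos_of_ne_zero ha0)] at this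
  by_cases ha1 : a = 1
  · exact ⟨r, k, hr, by rw [ha1, one_mul, hk]⟩
  obtain ⟨s, j, hs, hj⟩ := eq_pow_of_comparable (d := a) (N := a * u) (left_ne_zero_of_mul hN)
    (dvd_mul_right _ _) ha1 h1 h'
  obtain ⟨t, ht, htu⟩ := Nat.exists_prime_and_dvd hu1
  have e1 : t = r := (Nat.prime_dvd_prime_iff_eq ht hr).1
    (ht.dvd_of_dvd_pow (hk ▸ htu.mul_right v))
  have e2 : t = s := (Nat.prime_dvd_prime_iff_eq ht hs).1
    (ht.dvd_of_dvd_pow (hj ▸ htu.mul_left a))
  obtain ⟨i, -, hi⟩ := (Nat.dvd_prime_pow hs).1 (hj ▸ dvd_mul_right a u)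
  exact ⟨r, i + k, hr, by rw [mul_assoc, hk, hi, ← e2, e1, pow_add]⟩

section

variable {G : Type*} [Group G]

/-- Adjacent or equal in the power graph. -/
def Adj (x y : G) : Prop := x ∈ zpowers y ∨ y ∈ zpowers x

/-- Closed twins. -/
def Tw (x : G) : Set G := {y | ∀ z, Adj y z ↔ Adj x z}

/-- Generators of the same cyclic subgroup. -/
def Gen (x : G) : Set G := {y | zpowers y = zpowers x}

theorem Adj.refl (x : G) : Adj x x := Or.inl (mem_zpowers x)

theorem Adj.symm {x y : G} (h : Adj x y) : Adj y x := Or.symm h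

theorem gen_subset_tw (x : G) : Gen x ⊆ Tw x := fun y hy z => by
  have h : zpowers y = zpowers x := hy
  simp only [Adj, ← zpowers_le, h]

variable [Finite G]

theorem mem_iff_dvd {a b y : G} (ha : a ∈ zpowers y) (hb : b ∈ zpowers y) :
    a ∈ zpowers b ↔ orderOf a ∣ orderOf b := by
  refine ⟨orderOf_dvd_of_mem_zpowers, fun h => zpowers_le.1 ?_⟩
  exact PG.le_of_card_dvd_of_isCyclic (zpowers_le.2 ha) (zpowers_le.2 hb)
    (by rwa [Nat.card_zpowers, Nat.card_zpowers])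

theorem adj_iff {a b y : G} (ha : a ∈ zpowers y) (hb : b ∈ zpowers y) :
    Adj a b ↔ orderOf a ∣ orderOf b ∨ orderOf b ∣ orderOf a := by
  rw [Adj, mem_iff_dvd ha hb, mem_iff_dvd hb ha]

theorem exists_order {y : G} {d : ℕ} (h : d ∣ orderOf y) : ∃ z ∈ zpowers y, orderOf z = d :=
  ⟨_, npow_mem_zpowers y _, orderOf_pow_orderOf_div (orderOf_pos y).ne' h⟩

theorem mem_gen {a b y : G} (ha : a ∈ zpowers y) (hb : b ∈ zpowers y)
    (h : orderOf a = orderOf b) : a ∈ Gen b :=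
  le_antisymm (zpowers_le.2 ((mem_iff_dvd ha hb).2 h.dvd))
    (zpowers_le.2 ((mem_iff_dvd hb ha).2 h.symm.dvd))

theorem ncard_gen (x : G) : (Gen x).ncard = (orderOf x).totient := by
  classical
  have := Fintype.ofFinite (zpowers x)
  rw [← IsCyclic.card_orderOf_eq_totient (α := zpowers x) (d := orderOf x)
    (by rw [← Nat.card_eq_fintype_card, Nat.card_zpowers]), ← Set.ncard_coe_finset,
    ← Set.ncard_image_of_injective _ Subtype.val_injective]
  congr 1
  ext y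
  simp only [Finset.coe_filter, Finset.mem_univ, true_and, Set.mem_image, Set.mem_setOf_eq]
  constructor
  · intro h
    have h' : zpowers y = zpowers x := h
    refine ⟨⟨y, h' ▸ mem_zpowers y⟩, ?_, rfl⟩
    rw [orderOf_mk, ← Nat.card_zpowers, h', Nat.card_zpowers]
  · rintro ⟨z, hz, rfl⟩
    exact mem_gen z.2 (mem_zpowers x) (by rw [orderOf_coe, hz])

theorem pow_of_tw {t h y : G} (ht : t ∈ zpowers y) (hh : h ∈ zpowers y) (htw : t ∈ Tw h)
    (h1 : orderOf t ∣ orderOf h) (h2 : orderOf t ≠ orderOf h) (h3 : orderOf h ≠ orderOf y) :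
    ∃ r k : ℕ, r.Prime ∧ orderOf y = r ^ k := by
  refine eq_pow_of_chain (orderOf_pos y).ne' h1 (orderOf_dvd_of_mem_zpowers hh) h2 h3
    (fun c hc hc' => ?_) fun c hc => ?_
  · obtain ⟨z, hz, rfl⟩ := exists_order hc'
    exact ((adj_iff hh hz).1 ((htw z).1 ((adj_iff ht hz).2 (Or.inl hc)))).symm
  · obtain ⟨z, hz, rfl⟩ := exists_order (hc.trans (orderOf_dvd_of_mem_zpowers hh))
    exact ((adj_iff ht hz).1 ((htw z).2 ((adj_iff hh hz).2 (Or.inr hc)))).symm

theorem pow_of_adj {x y : G} (hx : x ∈ zpowers y) (h1 : x ≠ 1) (h2 : orderOf x ≠ orderOf y)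
    (h : ∀ z ∈ zpowers y, Adj x z) : ∃ r k : ℕ, r.Prime ∧ orderOf y = r ^ k := by
  refine eq_pow_of_comparable (orderOf_pos y).ne' (orderOf_dvd_of_mem_zpowers hx)
    (by rwa [Ne, orderOf_eq_one_iff]) h2 fun c hc => ?_
  obtain ⟨z, hz, rfl⟩ := exists_order hc
  exact ((adj_iff hx hz).1 (h z hz)).symm

theorem tw_subset_gen {g x : G} (hg : ∀ z, Adj g z → z ∈ zpowers g)
    (hn : ¬ ∃ r k : ℕ, r.Prime ∧ orderOf g = r ^ k) (hx : x ∈ zpowers g) (h1 : x ≠ 1)
    (h2 : orderOf x ≠ orderOf g) : Tw x ⊆ Gen x := by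
  intro y hy
  have hyg : y ∈ zpowers g := hg y ((hy g).2 (Or.inl hx)).symm
  refine mem_gen hyg hx ?_
  by_contra hne
  rcases (adj_iff hyg hx).1 ((hy x).2 (Adj.refl x)) with h | h
  · exact hn (pow_of_tw hyg hx hy h hne h2)
  · by_cases h3 : orderOf y = orderOf g
    · refine hn (pow_of_adj hx h1 h2 fun z hz => (hy z).1 ?_)
      exact (gen_subset_tw g (mem_gen hyg (mem_zpowers g) h3) z).2 (Or.inr hz)
    · exact hn (pow_of_tw hx hyg (fun z => (hy z).symm) h (Ne.symm hne) h3)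

theorem ncard_tw_le {h y : G} (hh : h ∈ zpowers y) (h3 : orderOf h ≠ orderOf y)
    (hmax : Tw h ⊆ zpowers h) : (Tw h).ncard ≤ (orderOf y).totient := by
  have hdvd := orderOf_dvd_of_mem_zpowers hh
  by_cases hc : Tw h ⊆ Gen h
  · refine (Set.ncard_le_ncard hc).trans ?_
    rw [ncard_gen]
    exact Nat.le_of_dvd (Nat.totient_pos.2 (orderOf_pos y)) (Nat.totient_dvd_of_dvd hdvd)
  obtain ⟨t, ht, htg⟩ := Set.not_subset.1 hc
  obtain ⟨r, k, hr, hk⟩ := pow_of_tw (zpowers_le.2 hh (hmax ht)) hh ht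
    (orderOf_dvd_of_mem_zpowers (hmax ht))
    (fun e => htg (mem_gen (hmax ht) (mem_zpowers h) e)) h3
  refine (Set.ncard_le_ncard hmax).trans ?_
  rw [← Nat.card_coe_set_eq, SetLike.coe_sort_coe, Nat.card_zpowers]
  rw [hk] at hdvd h3 ⊢
  obtain ⟨j, hj, e⟩ := (Nat.dvd_prime_pow hr).1 hdvd
  have hjk : j < k := lt_of_le_of_ne hj (by rintro rfl; exact h3 e)
  rw [e, Nat.totient_prime_pow hr (by omega)]
  exact (Nat.pow_le_pow_right hr.pos (by omega)).trans
    (Nat.le_mul_of_pos_right _ (by have := hr.two_le; omega))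

end

theorem exists_orderOf_eq {G H : Type*} [Group G] [Finite G] [Group H] [Finite H] (e : G ≃ H)
    (he : ∀ x y : G, Adj x y ↔ Adj (e x) (e y)) {g : G} (hg : ∀ z, Adj g z → z ∈ zpowers g)
    (hn : ¬ ∃ r k : ℕ, r.Prime ∧ orderOf g = r ^ k) : ∃ h : H, orderOf h = orderOf g := by
  have htw : ∀ x y : G, e y ∈ Tw (e x) ↔ y ∈ Tw x := fun x y =>
    ⟨fun h z => by rw [he, he]; exact h _, fun h z => by
      obtain ⟨z, rfl⟩ := e.surjective z
      rw [← he, ← he]; exact h z⟩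
  have hcard : ∀ x : G, (Tw (e x)).ncard = (Tw x).ncard := fun x => by
    rw [← Set.ncard_image_of_injective (Tw x) e.injective]
    congr 1
    ext y
    obtain ⟨y, rfl⟩ := e.surjective y
    rw [htw, e.injective.mem_set_image]
  obtain ⟨h, hh, hmax⟩ := (Tw (e g)).exists_max_image orderOf (Set.toFinite _)
    ⟨e g, fun _ => Iff.rfl⟩
  have hT : Tw h = Tw (e g) := Set.ext fun y => forall_congr' fun z => by rw [hh z]
  have hN : ∀ z : G, Adj h (e z) ↔ z ∈ zpowers g := fun z => by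
    rw [hh, ← he]
    exact ⟨hg z, Or.inr⟩
  have hsub : Tw h ⊆ zpowers h := fun t ht => by
    rcases (ht h).2 (Adj.refl h) with h1 | h1
    · exact h1
    · have h2 : zpowers h = zpowers t := eq_of_le_of_card_ge (zpowers_le.2 h1) (by
        rw [Nat.card_zpowers, Nat.card_zpowers]; exact hmax t (hT ▸ ht))
      exact h2 ▸ mem_zpowers t
  by_cases hc : ∀ y, Adj h y → y ∈ zpowers h
  · refine ⟨h, ?_⟩
    rw [← Nat.card_zpowers, ← Nat.card_zpowers]
    refine (Nat.card_congr (e.subtypeEquiv fun z => ?_)).symm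
    rw [← hN]
    exact ⟨hc _, Or.inr⟩
  exfalso
  have key : ∀ x : G, Adj h (e x) → e x ∉ zpowers h →
      x ∈ zpowers g ∧ x ≠ 1 ∧ 2 * orderOf x = orderOf g := by
    intro x hx hx'
    have h1 : h ∈ zpowers (e x) := hx.resolve_right hx'
    have h2 : x ∈ zpowers g := (hN x).1 hx
    have h3 : x ∉ Tw g := fun h4 => hx' (hsub (hT ▸ (htw g x).2 h4))
    have h4 : orderOf x ≠ orderOf g := fun h5 =>
      h3 (gen_subset_tw g (mem_gen h2 (mem_zpowers g) h5))
    have h5 : x ≠ 1 := by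
      rintro rfl
      obtain ⟨u, hu⟩ := e.surjective 1
      have hu1 : ∀ z, Adj u z := fun z => by rw [he, hu]; exact Or.inl (one_mem _)
      have hug : u ∈ zpowers g := hg u (hu1 g).symm
      have hu2 : u ≠ 1 := by
        rintro rfl
        exact hx' (hu ▸ one_mem _)
      have hu3 : orderOf u = orderOf g := by
        by_contra h6
        exact hn (pow_of_adj hug hu2 h6 fun z _ => hu1 z)
      exact h3 fun z => ⟨fun _ => (gen_subset_tw g (mem_gen hug (mem_zpowers g) hu3) z).1 (hu1 z),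
        fun _ => Or.inl (one_mem _)⟩
    have h6 : orderOf h ≠ orderOf (e x) := fun h7 => by
      have h8 : zpowers h = zpowers (e x) := mem_gen h1 (mem_zpowers _) h7
      exact hx' (h8 ▸ mem_zpowers _)
    have i1 := ncard_tw_le h1 h6 hsub
    have i2 := Set.ncard_le_ncard (gen_subset_tw (e x))
    have i3 := Set.ncard_le_ncard (tw_subset_gen hg hn h2 h5 h4)
    have i4 := Set.ncard_le_ncard (gen_subset_tw g)
    have i5 := Nat.le_of_dvd (Nat.totient_pos.2 (orderOf_pos g))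
      (Nat.totient_dvd_of_dvd (orderOf_dvd_of_mem_zpowers h2))
    rw [ncard_gen] at i2 i3 i4
    rw [hT, hcard] at i1
    rw [hcard] at i2
    exact ⟨h2, h5, (Nat.eq_or_eq_of_totient_eq_totient (orderOf_dvd_of_mem_zpowers h2)
      (by omega)).resolve_left h4⟩
  push Not at hc
  obtain ⟨y, hy, hy'⟩ := hc
  obtain ⟨x, rfl⟩ := e.surjective y
  obtain ⟨h1, h2, h3⟩ := key x hy hy'
  refine hn (pow_of_adj h1 h2 (by have := orderOf_pos x; omega) fun z hz => ?_)
  by_cases h4 : e z ∈ zpowers h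
  · rw [he]
    exact Or.inr (zpowers_le.2 (hy.resolve_right hy') h4)
  · obtain ⟨-, -, h5⟩ := key z ((hN z).2 hz) h4
    exact (adj_iff h1 hz).2 (Or.inl (dvd_of_eq (by omega)))

theorem exists_orderOf_mul {G H : Type*} [Group G] [Finite G] [Group H] [Finite H] (e : G ≃ H)
    (he : ∀ x y : G, Adj x y ↔ Adj (e x) (e y)) {p q : ℕ} (hp : p.Prime) (hq : q.Prime)
    (hpq : p ≠ q) (h : ∃ g : G, orderOf g = p * q) : ∃ h : H, orderOf h = p * q := by
  obtain ⟨g0, hg0⟩ := h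
  obtain ⟨g, hg, hmax⟩ := {g : G | p * q ∣ orderOf g}.exists_max_image orderOf (Set.toFinite _)
    ⟨g0, hg0.symm.dvd⟩
  obtain ⟨h, hh⟩ := exists_orderOf_eq e he (g := g) (fun z hz => by
    rcases hz with h1 | h1
    · have h2 : zpowers g = zpowers z := eq_of_le_of_card_ge (zpowers_le.2 h1) (by
        rw [Nat.card_zpowers, Nat.card_zpowers]
        exact hmax z (Dvd.dvd.trans hg (orderOf_dvd_of_mem_zpowers h1)))
      exact h2 ▸ mem_zpowers z
    · exact h1) (by
    rintro ⟨r, k, hr, hk⟩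
    have h1 : p * q ∣ r ^ k := hk ▸ hg
    exact hpq (((Nat.prime_dvd_prime_iff_eq hp hr).1 (hp.dvd_of_dvd_pow
      ((dvd_mul_right p q).trans h1))).trans ((Nat.prime_dvd_prime_iff_eq hq hr).1
        (hq.dvd_of_dvd_pow ((dvd_mul_left q p).trans h1))).symm))
  obtain ⟨z, -, hz⟩ := exists_order (y := h) (d := p * q) (hh ▸ hg)
  exact ⟨z, hz⟩

/-- Let G and H be finite groups whose power graphs are isomorphic: there is a bijection e : G → H such that, for all x, y, one of x, y is a power of the other exactly when one of e(x), e(y) is a power of the other. Then G and H have the same prime graph: for distinct primes p, q, G has an element of order pq if and only if H does. -/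
theorem result {G H : Type*} [Group G] [Finite G] [Group H] [Finite H] (e : G ≃ H)
    (he : ∀ x y : G, (x ∈ Subgroup.zpowers y ∨ y ∈ Subgroup.zpowers x) ↔
      (e x ∈ Subgroup.zpowers (e y) ∨ e y ∈ Subgroup.zpowers (e x)))
    {p q : ℕ} (hp : p.Prime) (hq : q.Prime) (hpq : p ≠ q) :
    (∃ g : G, orderOf g = p * q) ↔ (∃ h : H, orderOf h = p * q) := by
  refine ⟨exists_orderOf_mul e he hp hq hpq, exists_orderOf_mul e.symm (fun x y => ?_) hp hq hpq⟩
  have := he (e.symm x) (e.symm y)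
  rw [e.apply_symm_apply, e.apply_symm_apply] at this
  exact this.symm

end Cfsg.Agent.S4085
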