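import Cfsg.Statements.S4086
import Cfsg.Agent.Solv.CyclicP
import Mathlib.Data.Nat.Factorization.PrimePow

set_option autoImplicit false
open Cfsg

namespace Cfsg.Agent.S4086

open Subgroup Cfsg.Lib.Solv.PG

/-- For a finite group G the following are equivalent: every non-identity element has prime-power order; whenever two elements generate a cyclic subgroup, one of them is a power of the other (the enhanced power graph of G coincides with its power graph). -/
theorem result {G : Type*} [Group G] [Finite G] :
    (∀ g : G, g ≠ 1 → IsPrimePow (orderOf g)) ↔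
    (∀ x y : G, IsCyclic ↥(Subgroup.closure ({x, y} : Set G)) → (x ∈ Subgroup.zpowers y ∨ y ∈ Subgroup.zpowers x)) := by
  refine ⟨fun h x y hc => ?_, fun h g hg => ?_⟩
  · obtain ⟨g, hg⟩ := exists_zpowers_eq (closure ({x, y} : Set G))
    have hx : zpowers x ≤ zpowers g := zpowers_le.mpr (hg ▸ subset_closure (by simp))
    have hy : zpowers y ≤ zpowers g := zpowers_le.mpr (hg ▸ subset_closure (by simp))
    by_cases h1 : g = 1
    · rw [h1, zpowers_one_eq_bot, le_bot_iff, zpowers_eq_bot] at hx
      exact Or.inl (hx ▸ one_mem _)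
    obtain ⟨p, k, hp, -, hk⟩ := (isPrimePow_nat_iff _).mp (h g h1)
    have := Fact.mk hp
    exact (le_total_of_isCyclic (IsPGroup.of_card (by rw [Nat.card_zpowers, hk])) hx hy).imp
      zpowers_le.mp zpowers_le.mp
  · have h0 : orderOf g ≠ 1 := by rwa [Ne, orderOf_eq_one_iff]
    obtain ⟨p, hp, hpd⟩ := Nat.exists_prime_and_dvd h0
    refine isPrimePow_iff_unique_prime_dvd.mpr ⟨p, ⟨hp, hpd⟩, fun q ⟨hq, hqd⟩ => ?_⟩
    have h1 := orderOf_pow_orderOf_div (orderOf_pos g).ne' hpd
    have h2 := orderOf_pow_orderOf_div (orderOf_pos g).ne' hqd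
    rcases h (g ^ (orderOf g / p)) (g ^ (orderOf g / q)) (isCyclic_of_le (H' := zpowers g)
      ((closure_le _).mpr (by rintro _ (rfl | rfl) <;> exact npow_mem_zpowers g _))) with h3 | h3
    · have := orderOf_dvd_of_mem_zpowers h3
      rw [h1, h2] at this
      exact ((Nat.prime_dvd_prime_iff_eq hp hq).mp this).symm
    · have := orderOf_dvd_of_mem_zpowers h3
      rw [h1, h2] at this
      exact (Nat.prime_dvd_prime_iff_eq hq hp).mp this

end Cfsg.Agent.S4086
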