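import Cfsg.Statements.S4089
import Cfsg.Agent.Solv.Subnormalizer

set_option autoImplicit false
open Cfsg

namespace Cfsg.Agent.S4089

open Cfsg.Lib.Solv

/-- Let G be a finite group, p a prime and H a p-subgroup of G. Then the set of elements g of G such that H is subnormal in the subgroup generated by H and g is the union of the normalizers N_G(R) over the subgroups R of G containing H with R = O_p(N_G(R)); and this set does not change when H is replaced by the intersection of all Sylow p-subgroups of G containing H. -/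
theorem result {G : Type*} [Group G] [Finite G] (p : ℕ) [Fact p.Prime]
    (H : Subgroup G) (hH : IsPGroup p H) :
    {g : G | ((H).subgroupOf (H ⊔ Subgroup.zpowers g)).IsSubnormal} =
      {g : G | ∃ R : Subgroup G, H ≤ R ∧ (Cfsg.pCore p (Subgroup.normalizer (R : Set G))).map (Subgroup.normalizer (R : Set G)).subtype = R ∧ g ∈ Subgroup.normalizer (R : Set G)} ∧
    ∀ g : G, (((H).subgroupOf (H ⊔ Subgroup.zpowers g)).IsSubnormal ↔
      (((sInf {K : Subgroup G | ∃ Q : Sylow p G, H ≤ (Q : Subgroup G) ∧ K = (Q : Subgroup G)})).subgroupOf ((sInf {K : Subgroup G | ∃ Q : Sylow p G, H ≤ (Q : Subgroup G) ∧ K = (Q : Subgroup G)}) ⊔ Subgroup.zpowers g)).IsSubnormal) := by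
  constructor
  · ext g
    rw [Set.mem_ofPred_eq, Set.mem_ofPred_eq, Subn.isSubnormal_iff hH]
    constructor
    · rintro ⟨R, h1, h2, h3⟩
      obtain ⟨V, hRV, hV⟩ := Finite.exists_le_maximal
        (p := fun V : Subgroup G => IsPGroup p V ∧ g ∈ Subgroup.normalizer (V : Set G)) ⟨h1, h3⟩
      have h4 := le_map_pCore (N := V) Subgroup.le_normalizer le_rfl hV.prop.1
      refine ⟨V, h2.trans hRV, le_antisymm (hV.le_of_ge ⟨isPGroup_map_pCore p _, ?_⟩ h4) h4,
        hV.prop.2⟩
      exact le_normalizer_map_subtype _ hV.prop.2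
    · rintro ⟨R, h1, h2, h3⟩
      exact ⟨R, h2 ▸ isPGroup_map_pCore p _, h1, h3⟩
  · intro g
    obtain ⟨Q₀, hQ₀⟩ := hH.exists_le_sylow
    have hI : IsPGroup p (sInf {K : Subgroup G | ∃ Q : Sylow p G, H ≤ (Q : Subgroup G) ∧
        K = (Q : Subgroup G)} : Subgroup G) := Q₀.isPGroup'.to_le (sInf_le ⟨Q₀, hQ₀, rfl⟩)
    rw [Subn.isSubnormal_iff hH, Subn.isSubnormal_iff hI]
    constructor
    · rintro ⟨R, h1, h2, h3⟩
      obtain ⟨Q₁, hQ₁⟩ := h1.exists_le_sylow
      refine ⟨sInf {K : Subgroup G | ∃ Q : Sylow p G, R ≤ (Q : Subgroup G) ∧ K = (Q : Subgroup G)},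
        Q₁.isPGroup'.to_le (sInf_le ⟨Q₁, hQ₁, rfl⟩), sInf_le_sInf ?_, ?_⟩
      · rintro _ ⟨Q, hQ, rfl⟩
        exact ⟨Q, h2.trans hQ, rfl⟩
      · refine mem_normalizer_of_conj_mem fun x hx => ?_
        rw [Subgroup.mem_sInf] at hx ⊢
        rintro _ ⟨Q, hQ, rfl⟩
        have := hx _ ⟨g⁻¹ • Q, fun y hy => by
          rw [coe_sylow_smul, mem_conj_smul, inv_inv]
          exact hQ (conj_mem_of_mem_normalizer h3 hy), rfl⟩
        rwa [coe_sylow_smul, mem_conj_smul, inv_inv] at this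
    · rintro ⟨R, h1, h2, h3⟩
      refine ⟨R, h1, le_trans (le_sInf ?_) h2, h3⟩
      rintro _ ⟨Q, hQ, rfl⟩
      exact hQ

end Cfsg.Agent.S4089
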