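import Cfsg.Statements.S4090
import Cfsg.Agent.Solv.Subnormalizer

set_option autoImplicit false
open scoped BigOperators
open Cfsg

namespace Cfsg.Agent.S4090

open Cfsg.Lib.Solv Cfsg.Lib.Solv.Count Subgroup
open scoped Pointwise

variable {G : Type*} [Group G] [Finite G] {p : ℕ} [hp : Fact p.Prime]

theorem sup_eq_of_pow {M M' : Subgroup G} [M.Normal] [M'.Normal] (hle : M ≤ M') {m : ℕ}
    (hm : M.relIndex M' = p ^ m) (Q : Sylow p G) :
    (Q : Subgroup G) ⊔ M = (Q : Subgroup G) ⊔ M' := by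
  refine le_antisymm (sup_le_sup_left hle _) (sup_le le_sup_left ?_)
  have h1 : IsPGroup p (M'.map (QuotientGroup.mk' M)) :=
    IsPGroup.of_card (by rw [card_map_mk', hm])
  have : (M'.map (QuotientGroup.mk' M)).Normal :=
    Normal.map inferInstance _ (QuotientGroup.mk'_surjective M)
  have h2 := h1.le_sylow_of_normal (Q.mapSurjective (QuotientGroup.mk'_surjective M))
  rw [Sylow.coe_mapSurjective, Subgroup.map_le_map_iff, QuotientGroup.ker_mk'] at h2
  exact h2

theorem inf_le_of_coprime {M M' Q : Subgroup G} [M.Normal] (hQ : IsPGroup p Q)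
    (hc : (M.relIndex M').Coprime p) : Q ⊓ M' ≤ M := by
  rintro x ⟨hxQ, hxM⟩
  obtain ⟨k, hk⟩ := hQ ⟨x, hxQ⟩
  have h1 : x ^ p ^ k = 1 := congrArg Subtype.val hk
  have h2 : (⟨x, hxM⟩ : M') ^ M.relIndex M' ∈ M.subgroupOf M' := pow_index_mem _ _
  have h3 : x ^ M.relIndex M' ∈ M := h2
  rw [← QuotientGroup.eq_one_iff, QuotientGroup.mk_pow] at h3
  have h4 : (x : G ⧸ M) ^ p ^ k = 1 := by rw [← QuotientGroup.mk_pow, h1, QuotientGroup.mk_one]
  rw [← QuotientGroup.eq_one_iff]
  exact (pow_eq_one_iff_of_coprime (hc.pow_right k)).mp ⟨h3, h4⟩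

theorem step_coprime (H : Subgroup G) (hH : IsPGroup p H) (P : Sylow p G) {M M' : Subgroup G}
    [hM : M.Normal] [hM' : M'.Normal] (hle : M ≤ M') (hc : (M.relIndex M').Coprime p) :
    cnt (fun x : G => H ≤ MulAut.conj x • (P : Subgroup G) ⊔ M) *
      Nat.card ((P : Subgroup G) ⊔ M' : Subgroup G) =
    cnt (fun x : G => H ≤ MulAut.conj x • (P : Subgroup G) ⊔ M') *
      Nat.card ((P : Subgroup G) ⊔ M : Subgroup G) *
      (Nat.card {u : G // u ∈ M' ∧ ∀ h ∈ H, h * u * h⁻¹ * u⁻¹ ∈ M} / Nat.card M) := by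
  let D : Subgroup G :=
    { carrier := {u : G | u ∈ M' ∧ ∀ h ∈ H, h * u * h⁻¹ * u⁻¹ ∈ M}
      one_mem' := ⟨M'.one_mem, fun h _ => by simp⟩
      mul_mem' := fun {u v} hu hv => ⟨M'.mul_mem hu.1 hv.1, fun h hh => by
        have := M.mul_mem (hu.2 h hh) (hM.conj_mem _ (hv.2 h hh) u)
        convert this using 1
        group⟩
      inv_mem' := fun {u} hu => ⟨M'.inv_mem hu.1, fun h hh => by
        have := hM.conj_mem _ (M.inv_mem (hu.2 h hh)) u⁻¹
        convert this using 1
        group⟩ }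
  have hMD : M ≤ D := fun u hu => ⟨hle hu, fun h _ => M.mul_mem (hM.conj_mem _ hu h) (M.inv_mem hu)⟩
  obtain ⟨e, he⟩ := card_dvd_of_le hMD
  have hD : Nat.card {u : G // u ∈ M' ∧ ∀ h ∈ H, h * u * h⁻¹ * u⁻¹ ∈ M} = Nat.card D := rfl
  have h1 := cnt_mul_eq_cnt_mul (fun x : G => H ≤ MulAut.conj x • (P : Subgroup G) ⊔ M')
    (fun x : G => H ≤ MulAut.conj x • (P : Subgroup G) ⊔ M) (fun x y => y * x⁻¹ ∈ M')
    (c := Nat.card D) (d := Nat.card M') ?_ ?_
  · rw [hD, he, Nat.mul_div_cancel_left _ Nat.card_pos]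
    have h2 := card_sup_mul_card_inf_of_le_normalizer (H := (P : Subgroup G)) (N := M)
      (le_normalizer_of_normal)
    have h3 := card_sup_mul_card_inf_of_le_normalizer (H := (P : Subgroup G)) (N := M')
      (le_normalizer_of_normal)
    have h4 : (P : Subgroup G) ⊓ M' = (P : Subgroup G) ⊓ M :=
      le_antisymm (le_inf inf_le_left (inf_le_of_coprime P.isPGroup' hc)) (inf_le_inf_left _ hle)
    rw [sup_comm, inf_comm] at h2 h3
    rw [h4] at h3
    rw [he] at h1
    have h5 : 0 < Nat.card ((P : Subgroup G) ⊓ M : Subgroup G) := Nat.card_pos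
    apply Nat.eq_of_mul_eq_mul_right h5
    calc _ = cnt (fun x : G => H ≤ MulAut.conj x • (P : Subgroup G) ⊔ M) * Nat.card M' *
          Nat.card P := by rw [mul_assoc, h3]; ring
      _ = _ := by rw [← h1, mul_right_comm _ e, mul_assoc _ _ (Nat.card ((P : Subgroup G) ⊓ M : Subgroup G)), h2]; ring
  · intro x hx
    obtain ⟨u₀, hu₀, hH₀⟩ : ∃ u₀ ∈ M', H ≤ MulAut.conj (u₀ * x) • (P : Subgroup G) := by
      obtain ⟨k, hk, hk'⟩ := ((Cfsg.Lib.Fus.sylIn_top (x • P)).mono le_sup_left le_top).exists_conj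
        hx hH
      obtain ⟨q, hq, u, hu, rfl⟩ := mem_sup_of_normal_right.mp hk
      refine ⟨u⁻¹, M'.inv_mem hu, fun h hh => ?_⟩
      rw [conj_mul_smul, mem_conj_smul, inv_inv, ← coe_sylow_smul]
      have := (x • P).mul_mem ((x • P).mul_mem ((x • P).inv_mem hq) (hk' h hh)) hq
      simpa [mul_assoc] using this
    symm
    refine cnt_congr_equiv (P := fun u => u ∈ D) (Equiv.mulRight (u₀ * x)) fun u => ?_
    have e1 : u * (u₀ * x) * x⁻¹ = u * u₀ := by group
    rw [Equiv.coe_mulRight, e1, M'.mul_mem_cancel_right hu₀, conj_mul_smul, and_comm]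
    refine and_congr_right fun hu => ⟨fun h1 h hh => ?_, fun h1 h hh => ?_⟩
    · have := mul_mem (mem_sup_right (h1 h hh)) (mem_sup_left (conj_mem_conj_smul u (hH₀ hh)))
      simpa [mul_assoc] using this
    · have h2 : h * u * h⁻¹ * u⁻¹ ∈ (MulAut.conj u • MulAut.conj (u₀ * x) • (P : Subgroup G) ⊔ M) := by
        have := mul_mem (h1 hh) (mem_sup_left (conj_mem_conj_smul u (hH₀ (H.inv_mem hh))))
        simpa [mul_assoc] using this
      have h3 : h * u * h⁻¹ * u⁻¹ ∈ M' := M'.mul_mem (hM'.conj_mem u hu h) (M'.inv_mem hu)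
      obtain ⟨q, hq, m, hm, hqm⟩ := mem_sup_of_normal_right.mp h2
      rw [← hqm] at h3 ⊢
      exact M.mul_mem (inf_le_of_coprime (isPGroup_conj_smul (isPGroup_conj_smul P.isPGroup' _) _)
        hc ⟨hq, (M'.mul_mem_cancel_right (hle hm)).mp h3⟩) hm
  · intro y hy
    symm
    refine cnt_congr_equiv (P := fun u => u ∈ M')
      ((Equiv.inv G).trans (Equiv.mulRight y)) fun u => ?_
    have e1 : y * (u⁻¹ * y)⁻¹ = u := by group
    simp only [Equiv.trans_apply, Equiv.inv_apply, Equiv.coe_mulRight, e1]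
    refine ⟨fun hu => ⟨hy.trans (sup_le ?_ (hle.trans le_sup_right)), hu⟩, fun h => h.2⟩
    intro q hq
    rw [conj_mul_smul]
    have h1 := mul_mem (mul_mem (mem_sup_right hu) (mem_sup_left (conj_mem_conj_smul u⁻¹ hq)))
      (mem_sup_right (M'.inv_mem hu))
    simpa [mul_assoc] using h1

/-- Let G be a finite p-solvable group, H a p-subgroup of G and P a Sylow p-subgroup, and fix a chain of normal subgroups 1 = M₀ ≤ M₁ ≤ ⋯ ≤ Mₙ = G of G each of whose factors is a p-group or a p'-group. Then the number of elements g of G such that H is subnormal in the subgroup generated by H and g equals the order of P times the product, over the factors Mᵢ₊₁/Mᵢ of order prime to p, of the order of the centralizer of H in Mᵢ₊₁/Mᵢ (counted as the number of u ∈ Mᵢ₊₁ with [h, u] ∈ Mᵢ for all h ∈ H, divided by the order of Mᵢ). -/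
theorem result {G : Type*} [Group G] [Finite G] (p : ℕ) [Fact p.Prime]
    (hG : Cfsg.IsPSolvable p G) (H : Subgroup G) (hH : IsPGroup p H) (P : Sylow p G)
    (n : ℕ) (M : Fin (n + 1) → Subgroup G) (h0 : M 0 = ⊥) (hn : M (Fin.last n) = ⊤) (hmono : Monotone M)
    (hnormal : ∀ i, (M i).Normal)
    (hfac : ∀ i : Fin n, (∃ m : ℕ, (M i.castSucc).relIndex (M i.succ) = p ^ m) ∨ ((M i.castSucc).relIndex (M i.succ)).Coprime p) :
    Nat.card {g : G // ((H).subgroupOf (H ⊔ Subgroup.zpowers g)).IsSubnormal} =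
      Nat.card (P : Subgroup G) *
        ∏ i : Fin n, (if ((M i.castSucc).relIndex (M i.succ)).Coprime p then
          Nat.card {u : G // u ∈ M i.succ ∧ ∀ h ∈ H, h * u * h⁻¹ * u⁻¹ ∈ M i.castSucc} / Nat.card (M i.castSucc)
          else 1) := by
  classical
  have hp : p.Prime := Fact.out
  have h1 : Nat.card {g : G // ((H).subgroupOf (H ⊔ Subgroup.zpowers g)).IsSubnormal} = _ :=
    (cnt_congr (Subn.isSubnormal_iff hH)).trans
      ((Subn.cnt_subnormalizer H P).trans (Subn.cnt_sylow_mul H P))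
  rw [h1]
  let a : Fin (n + 1) → ℕ := fun j =>
    cnt (fun x : G => H ≤ MulAut.conj x • (P : Subgroup G) ⊔ M j)
  let b : Fin (n + 1) → ℕ := fun j => Nat.card ((P : Subgroup G) ⊔ M j : Subgroup G)
  have ha : ∀ j, 0 < a j := by
    intro j
    obtain ⟨Q, hQ⟩ := hH.exists_le_sylow
    obtain ⟨x, rfl⟩ := MulAction.exists_smul_eq G P Q
    have : Nonempty {x : G // H ≤ MulAut.conj x • (P : Subgroup G) ⊔ M j} :=
      ⟨⟨x, hQ.trans le_sup_left⟩⟩
    exact Nat.card_pos
  have hb : ∀ j, 0 < b j := fun j => Nat.card_pos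
  set d : Fin n → ℕ := fun i => if ((M i.castSucc).relIndex (M i.succ)).Coprime p then
    Nat.card {u : G // u ∈ M i.succ ∧ ∀ h ∈ H, h * u * h⁻¹ * u⁻¹ ∈ M i.castSucc} /
      Nat.card (M i.castSucc) else 1 with hd
  have hstep : ∀ i : Fin n, a i.castSucc * b i.succ = a i.succ * b i.castSucc * d i := by
    intro i
    have := hnormal i.castSucc
    have := hnormal i.succ
    have hle : M i.castSucc ≤ M i.succ := hmono i.castSucc_lt_succ.le
    by_cases hc : ((M i.castSucc).relIndex (M i.succ)).Coprime p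
    · simp only [hd, if_pos hc]
      exact step_coprime H hH P hle hc
    · simp only [hd, if_neg hc, mul_one]
      obtain ⟨m, hm⟩ := (hfac i).resolve_right hc
      have h2 := sup_eq_of_pow hle hm
      have h3 : a i.castSucc = a i.succ := cnt_congr fun x => by
        rw [← coe_sylow_smul, h2]
      simp only [h3, b, h2]
  have h2 := Finset.prod_congr rfl fun i (_ : i ∈ Finset.univ) => hstep i
  simp only [Finset.prod_mul_distrib] at h2
  have hA : 0 < ∏ j, a j := Finset.prod_pos fun j _ => ha j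
  have hB : 0 < ∏ j, b j := Finset.prod_pos fun j _ => hb j
  have h3 : (∏ j, a j) * (∏ j, b j) * (a 0 * b (Fin.last n)) =
      (∏ j, a j) * (∏ j, b j) * (a (Fin.last n) * b 0 * ∏ i, d i) := by
    conv_lhs => rw [Fin.prod_univ_castSucc, Fin.prod_univ_succ b]
    conv_rhs => rw [Fin.prod_univ_succ a, Fin.prod_univ_castSucc b]
    calc _ = ((∏ i : Fin n, a i.castSucc) * ∏ i : Fin n, b i.succ) *
          (a (Fin.last n) * b 0 * a 0 * b (Fin.last n)) := by ring
      _ = _ := by rw [h2]; ring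
  have h4 := Nat.eq_of_mul_eq_mul_left (Nat.mul_pos hA hB) h3
  have h5 : a (Fin.last n) = b (Fin.last n) := by
    simp [a, b, hn, cnt]
  rw [h5, mul_comm, mul_assoc] at h4
  have h6 := Nat.eq_of_mul_eq_mul_left (hb _) h4
  simp only [a, b, h0, sup_bot_eq] at h6
  exact h6

end Cfsg.Agent.S4090
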