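import Cfsg.Statements.S4091
import Cfsg.Agent.Solv.FixProd
import Cfsg.Agent.S4090

set_option autoImplicit false
open Cfsg

namespace Cfsg.Agent.S4091

open Cfsg.Lib.Solv Cfsg.Lib.Solv.Count Subgroup
open scoped Pointwise

variable {G : Type*} [Group G] [Finite G] {p : ℕ} [hp : Fact p.Prime]

/-- the order of the centralizer of `H` in `M' / M` -/
noncomputable def d (M M' H : Subgroup G) : ℕ :=
  Nat.card {u : G // u ∈ M' ∧ ∀ h ∈ H, h * u * h⁻¹ * u⁻¹ ∈ M} / Nat.card M

theorem key (P : Subgroup G) [Fintype P] (hP : IsPGroup p P) {M M' : Subgroup G} [M.Normal]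
    [hM' : M'.Normal] (hle : M ≤ M') (hc : (M.relIndex M').Coprime p) :
    ∏ x : P, d M M' (zpowers (x : G)) ^ p ≤
      d M M' ⊥ ^ Nat.card P * d M M' P ^ ((p - 1) * Nat.card P) := by
  let φ := Coprime.sectionAut (A := P) (K := M') (M := M) le_normalizer_of_normal
    le_normalizer_of_normal
  have h1 : ∀ B : Subgroup P, d M M' (B.map P.subtype) = Nat.card (Act.fix φ B) := fun B => by
    have e : Nat.card {u : G // u ∈ M' ∧ ∀ h ∈ B.map P.subtype, h * u * h⁻¹ * u⁻¹ ∈ M} =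
        Nat.card ((Act.fix φ B).comap (QuotientGroup.mk' (M.subgroupOf M'))) := by
      rw [← card_map_subtype]
      refine Nat.card_congr (Equiv.subtypeEquivRight fun u => ?_)
      have e1 : ∀ (b : P) (v : M'), φ b (v : M' ⧸ M.subgroupOf M') = v ↔
          (b : G) * v * (b : G)⁻¹ * (v : G)⁻¹ ∈ M := fun b v => by
        rw [← mul_inv_eq_one]
        exact QuotientGroup.eq_one_iff (N := M.subgroupOf M') (_ * v⁻¹)
      constructor
      · rintro ⟨h1, h2⟩
        exact ⟨⟨u, h1⟩, fun b hb => (e1 b _).2 (h2 _ ⟨b, hb, rfl⟩), rfl⟩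
      · rintro ⟨v, hv, rfl⟩
        refine ⟨v.2, ?_⟩
        rintro _ ⟨b, hb, rfl⟩
        exact (e1 b v).1 (hv b hb)
    rw [d, e, card_comap_mk', card_subgroupOf_of_le hle, Nat.mul_div_cancel _ Nat.card_pos]
  have h2 := Nat.le_of_dvd (Nat.mul_pos (pow_pos Nat.card_pos _) (pow_pos Nat.card_pos _))
    (FixProd.prod_card_fix_dvd hP (K := M' ⧸ M.subgroupOf M') hc φ)
  have h3 : Act.fix φ ⊥ = ⊤ := eq_top_iff.2 fun x _ b hb => by
    rw [mem_bot.1 hb, map_one]; rfl
  have h4 := h1 ⊥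
  have h5 := h1 ⊤
  rw [Subgroup.map_bot, h3, card_top] at h4
  rw [← MonoidHom.range_eq_map, range_subtype] at h5
  rw [h4, h5]
  refine le_of_eq_of_le (Finset.prod_congr rfl fun x _ => ?_) h2
  rw [← h1, MonoidHom.map_zpowers]
  rfl

/-- the number of Sylow subgroups containing `x` -/
noncomputable def lam (p : ℕ) (x : G) : ℕ := cnt (fun Q : Sylow p G => zpowers x ≤ Q)

theorem prod_lam_le (hG : IsPSolvable p G) (P : Sylow p G) [Fintype P] :
    ∏ x : P, lam p (x : G) ^ p ≤ Nat.card (Sylow p G) ^ Nat.card P := by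
  classical
  obtain ⟨n, M, h0, hn, hmono, hnormal, hfac⟩ := id hG
  let D : Fin n → Subgroup G → ℕ := fun i H =>
    if ((M i.castSucc).relIndex (M i.succ)).Coprime p then d (M i.castSucc) (M i.succ) H else 1
  set N := Nat.card (normalizer ((P : Subgroup G) : Set G)) with hN
  set m := Nat.card P with hm
  have h1 : ∀ H : Subgroup G, IsPGroup p H →
      cnt (fun Q : Sylow p G => H ≤ Q) * N = m * ∏ i, D i H := fun H hH =>
    ((cnt_congr (Subn.isSubnormal_iff hH)).trans (Subn.cnt_subnormalizer H P)).symm.trans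
      (S4090.result p hG H hH P n M h0 hn hmono hnormal hfac)
  have h2 : ∀ i, ∏ x : P, D i (zpowers (x : G)) ^ p ≤ D i ⊥ ^ m * D i P ^ ((p - 1) * m) := by
    intro i
    have := hnormal i.castSucc
    have := hnormal i.succ
    by_cases hc : ((M i.castSucc).relIndex (M i.succ)).Coprime p
    · simp only [D, if_pos hc]
      exact key (P : Subgroup G) P.isPGroup' (hmono i.castSucc_lt_succ.le) hc
    · simp [D, hc]
  have h3 := Finset.prod_le_prod' fun i (_ : i ∈ Finset.univ) => h2 i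
  have h4 := h1 ⊥ IsPGroup.of_bot
  have h5 := h1 P P.isPGroup'
  rw [cnt_eq_one (P := fun Q : Sylow p G => (P : Subgroup G) ≤ Q) (a := P) le_rfl fun Q hQ => Sylow.ext (P.is_maximal' Q.isPGroup' hQ),
    one_mul] at h5
  rw [show cnt (fun Q : Sylow p G => ⊥ ≤ (Q : Subgroup G)) = Nat.card (Sylow p G) by
    simp [cnt]] at h4
  rw [Finset.prod_comm, Finset.prod_mul_distrib, Finset.prod_pow, Finset.prod_pow] at h3
  have h6 : (∏ x : P, lam p (x : G) ^ p) * N ^ (p * m) =
      m ^ (p * m) * ∏ x : P, ∏ i, D i (zpowers (x : G)) ^ p := by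
    have e : ∀ a : ℕ, a ^ (p * m) = ∏ _x : P, a ^ p := fun a => by
      rw [Finset.prod_const, Finset.card_univ, ← Nat.card_eq_fintype_card, pow_mul]
    rw [e, e, ← Finset.prod_mul_distrib, ← Finset.prod_mul_distrib]
    refine Finset.prod_congr rfl fun x _ => ?_
    rw [Finset.prod_pow, ← mul_pow, ← mul_pow]
    exact congrArg (· ^ p) (h1 _ (P.isPGroup'.to_le (zpowers_le.2 x.2)))
  obtain ⟨r, rfl⟩ := Nat.exists_eq_add_of_le' hp.out.one_lt.le
  refine Nat.le_of_mul_le_mul_right (c := N ^ ((r + 1) * m)) ?_ (pow_pos Nat.card_pos _)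
  rw [h6]
  refine (Nat.mul_le_mul_left _ h3).trans_eq ?_
  rw [Nat.add_sub_cancel]
  calc _ = (m * ∏ i, D i ⊥) ^ m * (m * ∏ i, D i P) ^ (r * m) := by ring
    _ = _ := by rw [← h4, ← h5]; ring

omit hp [Finite G] in
theorem lam_conj (g x : G) : lam p (g * x * g⁻¹) = lam p x :=
  (cnt_congr_equiv (MulAction.toPerm g) fun Q => by
    rw [zpowers_le, zpowers_le, MulAction.toPerm_apply, coe_sylow_smul, mem_conj_smul]
    simp [mul_assoc]).symm

theorem card_eq (P : Sylow p G) [Fintype P] :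
    (Nat.card {g : G // ∃ k : ℕ, orderOf g = p ^ k} : ℝ) =
      Nat.card (Sylow p G) * ∑ x : P, (lam p (x : G) : ℝ)⁻¹ := by
  classical
  have := Fintype.ofFinite G
  have := Fintype.ofFinite (Sylow p G)
  have h1 : ∀ Q : Sylow p G, ∑ x : G, (if x ∈ Q then (lam p x : ℝ)⁻¹ else 0) =
      ∑ x : P, (lam p (x : G) : ℝ)⁻¹ := fun Q => by
    obtain ⟨g, rfl⟩ := MulAction.exists_smul_eq G P Q
    rw [← Equiv.sum_comp (MulAut.conj g).toEquiv, ← Finset.sum_filter]
    refine (Finset.sum_subtype (p := fun x => x ∈ P) _ (fun x => ?_) _).trans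
      (Finset.sum_congr rfl fun x _ => by rw [← lam_conj g (x : G)]; rfl)
    rw [Finset.mem_filter]
    exact ⟨fun h => smul_mem_pointwise_smul_iff.1 h.2,
      fun h => ⟨Finset.mem_univ _, smul_mem_pointwise_smul_iff.2 h⟩⟩
  have h2 := Finset.sum_congr rfl fun Q (_ : Q ∈ Finset.univ) => h1 Q
  rw [Finset.sum_const, Finset.card_univ, ← Nat.card_eq_fintype_card, nsmul_eq_mul] at h2
  rw [← h2, Finset.sum_comm, ← cnt_def, cnt_eq_card_filter, Finset.card_filter]
  push_cast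
  refine Finset.sum_congr rfl fun x _ => ?_
  rw [← Finset.sum_filter, Finset.sum_const, ← cnt_eq_card_filter, nsmul_eq_mul,
    show cnt (fun Q : Sylow p G => x ∈ Q) = lam p x from cnt_congr fun Q => zpowers_le.symm]
  split_ifs with h
  · obtain ⟨k, hk⟩ := h
    obtain ⟨Q, hQ⟩ := (IsPGroup.of_card ((Nat.card_zpowers x).trans hk)).exists_le_sylow
    have : Nonempty {Q : Sylow p G // zpowers x ≤ Q} := ⟨⟨Q, hQ⟩⟩
    rw [mul_inv_cancel₀]
    exact Nat.cast_ne_zero.2 Nat.card_pos.ne'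
  · rw [show lam p x = 0 from cnt_eq_zero fun Q hQ => h (by
      simpa only [Nat.card_zpowers] using IsPGroup.iff_card.1 (Q.isPGroup'.to_le hQ))]
    simp


/-- Let G be a finite p-solvable group, P a Sylow p-subgroup of G, u the number of p-elements of G (elements of p-power order, the identity included) and n the number of Sylow p-subgroups of G. Then u/#P ≥ n^((p−1)/p), stated as u^p ≥ #P^p · n^(p−1). -/
theorem result {G : Type*} [Group G] [Finite G] (p : ℕ) [Fact p.Prime]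
    (hG : Cfsg.IsPSolvable p G) (P : Sylow p G) :
    Nat.card (P : Subgroup G) ^ p * Nat.card (Sylow p G) ^ (p - 1) ≤ Nat.card {g : G // ∃ k : ℕ, orderOf g = p ^ k} ^ p := by
  have hp : p.Prime := Fact.out
  have := Fintype.ofFinite P
  have h1 := prod_lam_le hG P
  have h2 := card_eq P
  set n := Nat.card (Sylow p G)
  set m := Nat.card P with hm
  have hn : (0 : ℝ) < n := Nat.cast_pos.2 Nat.card_pos
  have hm0 : 0 < m := Nat.card_pos
  have hm' : (0 : ℝ) < m := Nat.cast_pos.2 hm0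
  have hl : ∀ x : P, (0 : ℝ) < lam p (x : G) := fun x => by
    have : Nonempty {Q : Sylow p G // zpowers (x : G) ≤ Q} := ⟨⟨P, zpowers_le.2 x.2⟩⟩
    exact Nat.cast_pos.2 Nat.card_pos
  have h3 := Real.geom_mean_le_arith_mean Finset.univ (fun _ : P => (1 : ℝ))
    (fun x => (lam p (x : G) : ℝ)⁻¹) (fun _ _ => zero_le_one) (by
      simpa [← Nat.card_eq_fintype_card] using hm0) (fun x _ => (inv_pos.2 (hl x)).le)
  simp only [Real.rpow_one, one_mul, Finset.sum_const, Finset.card_univ, nsmul_eq_mul, mul_one,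
    ← Nat.card_eq_fintype_card] at h3
  change _ ^ (m : ℝ)⁻¹ ≤ _ / (m : ℝ) at h3
  set A := (∑ x : P, (lam p (x : G) : ℝ)⁻¹) / m with hA
  have hz : (0 : ℝ) < ∏ x : P, (lam p (x : G) : ℝ)⁻¹ := Finset.prod_pos fun x _ => inv_pos.2 (hl x)
  have h4 := pow_le_pow_left₀ (Real.rpow_nonneg hz.le _) h3 m
  rw [Real.rpow_inv_natCast_pow hz.le hm0.ne'] at h4
  have hA0 : 0 ≤ A := (Real.rpow_nonneg hz.le _).trans h3
  have h5 : 1 ≤ (n * A ^ p) ^ m := by
    have e : ((∏ x : P, lam p (x : G) ^ p : ℕ) : ℝ) ≤ (n : ℝ) ^ m := by exact_mod_cast h1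
    push_cast at e
    rw [mul_pow, ← pow_mul, mul_comm p, pow_mul]
    refine le_trans ?_ (mul_le_mul e (pow_le_pow_left₀ hz.le h4 p) (pow_pos hz p).le (pow_pos hn m).le)
    rw [Finset.prod_pow, ← mul_pow, ← Finset.prod_mul_distrib]
    exact one_le_pow₀ (Finset.prod_eq_one fun x _ => mul_inv_cancel₀ (hl x).ne').ge
  have h6 : 1 ≤ n * A ^ p := (one_le_pow_iff_of_nonneg (by positivity) hm0.ne').1 h5
  have h7 : (Nat.card {g : G // ∃ k : ℕ, orderOf g = p ^ k} : ℝ) = n * m * A := by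
    rw [h2, hA]; field_simp
  obtain ⟨r, rfl⟩ := Nat.exists_eq_add_of_le' hp.one_lt.le
  have h8 : (m : ℝ) ^ (r + 1) * n ^ r ≤ (n * m * A) ^ (r + 1) :=
    (le_mul_of_one_le_right (by positivity) h6).trans_eq (by ring)
  rw [← h7] at h8
  exact_mod_cast h8

end Cfsg.Agent.S4091
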