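import Cfsg.Statements.S4092
-- import your own Cfsg.Agent.* helpers here

set_option autoImplicit false
open Cfsg

namespace Cfsg.Agent.S4092

/-- Let G be a finite group, p a prime and P a Sylow p-subgroup of G that is not normal in G. Then G has at least p·#P elements of p-power order (the identity included). -/
theorem result {G : Type*} [Group G] [Finite G] (p : ℕ) [Fact p.Prime]
    (P : Sylow p G) (hP : ¬ (P : Subgroup G).Normal) :
    p * Nat.card (P : Subgroup G) ≤ Nat.card {g : G // ∃ k : ℕ, orderOf g = p ^ k} := by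
  classical
  have hp : p.Prime := Fact.out
  have := Fintype.ofFinite G
  have := Fintype.ofFinite (Sylow p G)
  have hne : ∃ q : Sylow p G × Sylow p G, q.1 ≠ q.2 := by
    by_contra hcon
    push Not at hcon
    have : Subsingleton (Sylow p G) := ⟨fun a b => hcon (a, b)⟩
    exact hP (Sylow.normal_of_subsingleton P)
  obtain ⟨⟨Q, R⟩, hQR, hmax⟩ := Finset.exists_max_image
    (Finset.univ.filter fun q : Sylow p G × Sylow p G => q.1 ≠ q.2)
    (fun q => Nat.card ((q.1 : Subgroup G) ⊓ q.2 : Subgroup G)) (by
      obtain ⟨q, hq⟩ := hne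
      exact ⟨q, by simpa using hq⟩)
  have hQR' : Q ≠ R := by simpa using hQR
  set D : Subgroup G := (Q : Subgroup G) ⊓ R with hD
  have hDp : IsPGroup p D := Q.isPGroup'.to_inf_left
  let T : Finset (Sylow p G) := Finset.univ.filter fun S => D ≤ S
  have hT : T.card ≡ 1 [MOD p] := by
    have h1 := hDp.card_modEq_card_fixedPoints (Sylow p G)
    have h2 : Nat.card (MulAction.fixedPoints D (Sylow p G)) = T.card := by
      rw [← Fintype.card_coe, ← Nat.card_eq_fintype_card]
      exact Nat.card_congr (Equiv.subtypeEquivRight fun S => by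
        simp [T, hDp.sylow_mem_fixedPoints_iff])
    rw [← h2]
    exact h1.symm.trans (card_sylow_modEq_one p G)
  have hT2 : p + 1 ≤ T.card := by
    have h1 : 1 < T.card := Finset.one_lt_card.mpr
      ⟨Q, by simp [T, hD], R, by simp [T, hD], hQR'⟩
    have := Nat.le_of_dvd (by omega) ((Nat.modEq_iff_dvd' h1.le).mp hT.symm)
    omega
  have hinf : ∀ S ∈ T, ∀ S' ∈ T, S ≠ S' → (S : Subgroup G) ⊓ S' = D := by
    intro S hS S' hS' hne
    symm
    exact Subgroup.eq_of_le_of_card_ge (le_inf (by simpa [T] using hS) (by simpa [T] using hS'))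
      (hmax (S, S') (by simpa using hne))
  have hcard : ∀ S : Sylow p G, Nat.card S = Nat.card P := fun S => by
    rw [S.card_eq_multiplicity, P.card_eq_multiplicity]
  have hDP : p * Nat.card D ≤ Nat.card P := by
    have h1 : D < Q := lt_of_le_of_ne inf_le_left fun h => hQR' (Sylow.ext (R.is_maximal' Q.isPGroup'
      ?_))
    · obtain ⟨j, hj⟩ := Q.isPGroup'.index (D.subgroupOf Q)
      have h2 := (D.subgroupOf Q).card_mul_index
      rw [Nat.card_congr (Subgroup.subgroupOfEquivOfLe h1.le).toEquiv, hj, hcard] at h2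
      have hj0 : j ≠ 0 := by
        rintro rfl
        rw [pow_zero, Subgroup.index_eq_one, Subgroup.subgroupOf_eq_top] at hj
        exact h1.not_ge hj
      rw [← h2, mul_comm]
      exact Nat.mul_le_mul_left _ (Nat.le_self_pow hj0 p)
    · have h2 : (Q : Subgroup G) ≤ R := h ▸ inf_le_right
      exact (Q.is_maximal' R.isPGroup' h2).le
  let E : Subgroup G → Finset G := fun K => Finset.univ.filter (· ∈ K)
  have hE : ∀ K, (E K).card = Nat.card K := fun K => by
    rw [Nat.card_eq_fintype_card, Fintype.card_subtype]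
  have hel : ∀ S : Sylow p G, ∀ g ∈ (S : Subgroup G), ∃ k : ℕ, orderOf g = p ^ k := by
    intro S g hg
    obtain ⟨k, hk⟩ := IsPGroup.iff_orderOf.mp S.isPGroup' ⟨g, hg⟩
    exact ⟨k, by rw [← hk, Subgroup.orderOf_mk]⟩
  have hsub : E D ∪ T.biUnion (fun S => E S \ E D) ⊆
      Finset.univ.filter fun g : G => ∃ k : ℕ, orderOf g = p ^ k := by
    intro g hg
    simp only [E, Finset.mem_union, Finset.mem_biUnion, Finset.mem_sdiff, Finset.mem_filter,
      Finset.mem_univ, true_and] at hg ⊢
    rcases hg with hg | ⟨S, -, hg, -⟩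
    · exact hel Q g hg.1
    · exact hel S g hg
  have h1 := Finset.card_le_card hsub
  rw [Finset.card_union_of_disjoint, Finset.card_biUnion, Finset.sum_congr rfl
    (g := fun _ => Nat.card P - Nat.card D), Finset.sum_const, smul_eq_mul, hE] at h1
  · rw [Nat.card_eq_fintype_card (α := {g : G // ∃ k : ℕ, orderOf g = p ^ k}),
      Fintype.card_subtype]
    refine le_trans ?_ h1
    have h2 := Nat.mul_le_mul_right (Nat.card P - Nat.card D) hT2
    have h3 : Nat.card D ≤ Nat.card P := le_trans (Nat.le_mul_of_pos_left _ hp.pos) hDP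
    obtain ⟨e, he⟩ := Nat.exists_eq_add_of_le h3
    rw [he, Nat.add_sub_cancel_left] at h2 ⊢
    nlinarith
  · intro S hS
    rw [Finset.card_sdiff_of_subset, hE, hE, hcard]
    intro g hg
    have : D ≤ S := by simpa [T] using hS
    simpa [E] using this (by simpa [E] using hg)
  · intro S hS S' hS' hne
    rw [Function.onFun, Finset.disjoint_left]
    intro g hg hg'
    simp only [E, Finset.mem_sdiff, Finset.mem_filter, Finset.mem_univ, true_and] at hg hg'
    exact hg.2 (hinf S hS S' hS' hne ▸ ⟨hg.1, hg'.1⟩)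
  · rw [Finset.disjoint_left]
    intro g hg hg'
    simp only [Finset.mem_biUnion, Finset.mem_sdiff] at hg'
    obtain ⟨S, -, -, h⟩ := hg'
    exact h hg

end Cfsg.Agent.S4092
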