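import Cfsg.Statements.S4093
import Cfsg.Agent.Solv.ClassNumber

set_option autoImplicit false
open scoped BigOperators
open Cfsg

namespace Cfsg.Agent.S4093

open Cfsg.Lib.Solv Cfsg.Lib.Solv.ClassNum Cfsg.Lib.Solv.ClassSize Subgroup

theorem card_orbit {G : Type*} [Group G] [Finite G] (N : Subgroup G) (x : G) :
    Nat.card {g : G // ∃ n ∈ N, n * x * n⁻¹ = g} =
      Nat.card N / Nat.card (N ⊓ centralizer ({x} : Set G) : Subgroup G) := by
  rw [← relIndex_mul_card_inf (centralizer ({x} : Set G)) N, inf_comm,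
    Nat.mul_div_cancel _ Nat.card_pos]
  let f : N ⧸ (centralizer ({x} : Set G)).subgroupOf N → {g : G // ∃ n ∈ N, n * x * n⁻¹ = g} :=
    Quotient.lift (fun n => ⟨n * x * (n : G)⁻¹, n, n.2, rfl⟩) fun a b hab => by
      have hab' : (a : G)⁻¹ * b ∈ centralizer ({x} : Set G) :=
        (QuotientGroup.leftRel_apply (s := (centralizer ({x} : Set G)).subgroupOf N)).1 hab
      refine Subtype.ext ?_
      calc (a : G) * x * (a : G)⁻¹ = a * ((a : G)⁻¹ * b * x * ((a : G)⁻¹ * b)⁻¹) * (a : G)⁻¹ := by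
            rw [mem_cent_iff_conj.1 hab']
        _ = _ := by group
  refine (Nat.card_congr (Equiv.ofBijective f ⟨?_, ?_⟩)).symm
  · intro a b
    obtain ⟨a, rfl⟩ := QuotientGroup.mk_surjective a
    obtain ⟨b, rfl⟩ := QuotientGroup.mk_surjective b
    intro hab
    have hab' : (a : G) * x * (a : G)⁻¹ = b * x * (b : G)⁻¹ := congrArg Subtype.val hab
    refine QuotientGroup.eq.2 ?_
    change (a : G)⁻¹ * b ∈ centralizer ({x} : Set G)
    rw [mem_cent_iff_conj]
    calc _ = (a : G)⁻¹ * (b * x * (b : G)⁻¹) * a := by group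
      _ = x := by rw [← hab']; group
  · rintro ⟨_, n, hn, rfl⟩
    exact ⟨QuotientGroup.mk ⟨n, hn⟩, rfl⟩

/-- Let G be a finite group with a normal subgroup N complementing a Sylow p-subgroup P (a normal p-complement). Then the number of elements of G of p-power order equals the sum over x ∈ P of the index of C_N(x) in N. -/
theorem result {G : Type*} [Group G] [Finite G] (p : ℕ) [Fact p.Prime]
    (P : Sylow p G) (N : Subgroup G) [N.Normal] (hNP : N.IsComplement' (P : Subgroup G)) :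
    Nat.card {g : G // ∃ k : ℕ, orderOf g = p ^ k} =
      ∑ᶠ x : (P : Subgroup G), Nat.card N / Nat.card ↥(N ⊓ Subgroup.centralizer ({(x : G)} : Set G)) := by
  classical
  have := Fintype.ofFinite (P : Subgroup G)
  rw [finsum_eq_sum_of_fintype, ← Finset.sum_congr rfl fun (x : (P : Subgroup G)) _ =>
    card_orbit N (x : G), ← card_pairs_eq_sum
      (fun (x : (P : Subgroup G)) (g : G) => ∃ n ∈ N, n * x * n⁻¹ = g)]
  symm
  refine Nat.card_congr (Equiv.ofBijective (fun w => ⟨w.1.2, ?_⟩) ⟨?_, ?_⟩)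
  · obtain ⟨n, -, hn⟩ := w.2
    obtain ⟨k, hk⟩ := exists_orderOf_eq_pow_of_mem P.isPGroup' w.1.1.2
    exact ⟨k, by rw [← hn, ← hk]; exact (MulAut.conj n).orderOf_eq _⟩
  · rintro ⟨⟨x, g⟩, n, hn, hx⟩ ⟨⟨y, g'⟩, m, hm, hy⟩ h
    simp only [Subtype.mk.injEq, Prod.mk.injEq] at h hx hy ⊢
    subst h
    refine ⟨Subtype.ext ?_, rfl⟩
    have h1 : (x : G)⁻¹ * y ∈ N ⊓ (P : Subgroup G) := by
      refine mem_inf.2 ⟨?_, (P : Subgroup G).mul_mem (inv_mem x.2) y.2⟩
      have h2 : (y : G) = m⁻¹ * (n * x * n⁻¹) * m := by rw [hx, ← hy]; group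
      have h3 : (x : G)⁻¹ * y = ((x : G)⁻¹ * (m⁻¹ * n) * (x : G)⁻¹⁻¹) * (n⁻¹ * m) := by
        rw [h2]; group
      rw [h3]
      exact N.mul_mem (Normal.conj_mem inferInstance _ (N.mul_mem (inv_mem hm) hn) _)
        (N.mul_mem (inv_mem hn) hm)
    rw [hNP.disjoint.eq_bot, mem_bot] at h1
    exact inv_mul_eq_one.1 h1
  · rintro ⟨g, k, hk⟩
    obtain ⟨Q, hQ⟩ := exists_sylow_mem_of_pow_eq_one (p := p) (k := k) (x := g)
      (by rw [← hk, pow_orderOf_eq_one])
    obtain ⟨h, rfl⟩ := MulAction.exists_smul_eq G P Q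
    rw [Sylow.coe_subgroup_smul, mem_pointwise_smul_iff_inv_smul_mem] at hQ
    obtain ⟨⟨n, u⟩, rfl⟩ := hNP.2 h
    simp only at hQ
    have h1 : (u : G) * ((MulAut.conj ((n : G) * u))⁻¹ • g) * (u : G)⁻¹ ∈ (P : Subgroup G) :=
      mul_mem (mul_mem u.2 hQ) (inv_mem u.2)
    refine ⟨⟨(⟨_, h1⟩, g), n, n.2, ?_⟩, rfl⟩
    simp [mul_assoc]

end Cfsg.Agent.S4093
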