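import Cfsg.Statements.S4096
import Cfsg.Agent.Block.PosIdem
import Cfsg.Agent.FF2.Kit
import Cfsg.Agent.Solv.Fitting
import Cfsg.Agent.S0042
import Cfsg.Agent.S0034

set_option autoImplicit false
open Cfsg

namespace Cfsg.Agent.S4096

section Aux

open Subgroup Cfsg.Lib.Solv Cfsg.Lib.FF2 Cfsg.Lib.Block

universe u

variable {G : Type u} [Group G] {r s : ℕ} {x c d a b g m : G} {H K : Subgroup G}

/-- the hypothesis -/
def Hq (r s : ℕ) (x : G) : Prop := ∀ g : G, x⁻¹ * (g * x * g⁻¹) = 1 ∨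
  (r ∣ orderOf (x⁻¹ * (g * x * g⁻¹)) ∧ s ∣ orderOf (x⁻¹ * (g * x * g⁻¹)))

theorem Hq.cj (h : Hq r s x) (k : G) : Hq r s (k * x * k⁻¹) := fun g => by
  have e : (k * x * k⁻¹)⁻¹ * (g * (k * x * k⁻¹) * g⁻¹) =
      MulAut.conj k (x⁻¹ * (k⁻¹ * g * k * x * (k⁻¹ * g * k)⁻¹)) := by
    rw [MulAut.conj_apply]; group
  rw [e, MulEquiv.orderOf_eq, map_eq_one_iff _ (MulAut.conj k).injective]
  exact h _

theorem Hq.sub (h : Hq r s x) (l : x ∈ H) : Hq r s (⟨x, l⟩ : H) := fun g => by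
  rw [← Subgroup.orderOf_coe, Subtype.ext_iff]
  exact h g

theorem Hq.comm (h : Hq r s x) (k : ¬ (r ∣ orderOf (x⁻¹ * (g * x * g⁻¹)) ∧
    s ∣ orderOf (x⁻¹ * (g * x * g⁻¹)))) : Commute x g := by
  have := (h g).resolve_right k
  rwa [inv_mul_eq_one, eq_mul_inv_iff_mul_eq] at this

theorem cs : g ∈ centralizer ({x} : Set G) ↔ Commute x g :=
  mem_centralizer_singleton_iff.trans ⟨fun k => Eq.symm k, fun k => Eq.symm k⟩

theorem cj_c (k : Commute a b) (g : G) : Commute (g * a * g⁻¹) (g * b * g⁻¹) :=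
  k.map (MulAut.conj g)

theorem Hq.q (h : Hq r s x) {t : ℕ} (ht : t.Prime) (hr : t = r ∨ t = s) (e : a * b = x)
    (ha : a ∈ zpowers x) (hb : b ∈ zpowers x) (o : ¬ t ∣ orderOf b)
    (hm : Commute x (m * x * m⁻¹)) (k : Commute a m) : Commute x m := by
  refine h.comm fun c => o ?_
  have c' : t ∣ orderOf (x⁻¹ * (m * x * m⁻¹)) := by
    rcases hr with rfl | rfl
    exacts [c.1, c.2]
  have e2 : x⁻¹ * (m * x * m⁻¹) = b⁻¹ * (m * b * m⁻¹) := by
    rw [← e, ← mul_assoc m a, ← k.eq]; group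
  have c2 : Commute b⁻¹ (m * b * m⁻¹) := by
    obtain ⟨n, rfl⟩ := hb
    have := (hm.zpow_zpow n n).inv_left
    rwa [conj_zpow] at this
  rw [e2] at c'
  have := c'.trans c2.orderOf_mul_dvd_mul_orderOf
  rw [orderOf_inv, show orderOf (m * b * m⁻¹) = orderOf b from (MulAut.conj m).orderOf_eq b,
    ht.dvd_mul, or_self] at this
  exact this

variable [Finite G]

theorem Hq.nil (h : Hq r s x) (hr : r.Prime) (hs : s.Prime) (ne : r ≠ s)
    (n : Group.IsNilpotent K) (l : x ∈ Nm K) : K ≤ centralizer ({x} : Set G) :=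
  le_of_forall_prime_pow_mem fun t ht k a ha e => cs.2 (h.comm fun c => by
    have := Fact.mk ht
    have h1 : a ∈ qp t K := subset_closure ⟨ha, k, by rw [← e, pow_orderOf_eq_one]⟩
    have h2 := mul_mem (nm_cj' (nm_qp l) h1) (inv_mem h1)
    obtain ⟨-, j, e2⟩ := (mem_qp n).1 h2
    have h3 := orderOf_dvd_of_pow_eq_one e2
    rw [show x⁻¹ * a * x * a⁻¹ = x⁻¹ * (a * x * a⁻¹) by group] at h3
    exact ne (((Nat.prime_dvd_prime_iff_eq hr ht).1 (hr.dvd_of_dvd_pow (c.1.trans h3))).trans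
      ((Nat.prime_dvd_prime_iff_eq hs ht).1 (hs.dvd_of_dvd_pow (c.2.trans h3))).symm))

/-- the Fitting subgroup of a subgroup -/
def FF (H : Subgroup G) : Subgroup G := (fittingSubgroup H).map H.subtype

theorem FF_nil : Group.IsNilpotent (FF H) := isNilpotent_map _ _ inferInstance

theorem FF_nm (k : g ∈ H) : g ∈ Nm (FF H) := mem_nm (by
  rintro _ ⟨a, ha, rfl⟩
  exact ⟨_, (fitting_normal H).conj_mem a ha ⟨g, k⟩, rfl⟩)

theorem step (hr : r.Prime) (hs : s.Prime) (ne : r ≠ s) (h : Hq r s x)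
    (ih : ∀ H : Subgroup G, H ≠ ⊤ → ∀ y ∈ H, Hq r s y → y ∈ FF H) : x ∈ fittingSubgroup G := by
  by_contra nx
  have := Fact.mk hr
  have T : ∀ H : Subgroup G, H ≠ ⊤ → ∀ a b : G, a * x * a⁻¹ ∈ H → b * x * b⁻¹ ∈ H →
      Commute (a * x * a⁻¹) (b * x * b⁻¹) := fun H k a b ha hb =>
    cs.1 ((h.cj a).nil hr hs ne FF_nil (FF_nm ha) (ih H k _ hb (h.cj b)))
  have T1 : ∀ H : Subgroup G, H ≠ ⊤ → ∀ b : G, x ∈ H → b * x * b⁻¹ ∈ H →
      Commute x (b * x * b⁻¹) := fun H k b ha hb => by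
    simpa using T H k 1 b (by simpa using ha) hb
  have cen : ∀ a : G, centralizer ({a} : Set G) = ⊤ → a ∈ center G := fun a e =>
    mem_center_iff.2 fun g => (cs.1 (e ▸ mem_top g : g ∈ centralizer ({a} : Set G))).eq.symm
  have xz : x ∉ center G := fun k => nx (center_le_fitting G k)
  have cz : ∀ a : G, centralizer ({a * x * a⁻¹} : Set G) ≠ ⊤ := fun a e => xz (by
    simpa [mul_assoc] using (inferInstance : (center G).Normal).conj_mem _ (cen _ e) a⁻¹)
  obtain ⟨M, mM⟩ : ∃ M : Subgroup G, ∀ g, g ∈ M ↔ Commute x (g * x * g⁻¹) :=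
    ⟨{ carrier := {g | Commute x (g * x * g⁻¹)}
       one_mem' := by simp
       mul_mem' := fun {a b} ha hb => T1 _ (cz a) _ (cs.2 (Commute.symm ha))
         (cs.2 (by simpa [mul_assoc] using cj_c hb a))
       inv_mem' := fun {a} ha => by simpa [mul_assoc] using (cj_c ha a⁻¹).symm }, fun _ => Iff.rfl⟩
  have xM : x ∈ M := (mM x).2 (by simp)
  have cM : ∀ g, Commute x g → g ∈ M := fun g k => (mM g).2 (by rw [← k.eq]; simp)
  have nt : M ≠ ⊤ := fun e => by
    have h1 : ∀ y ∈ Group.conjugatesOfSet ({x} : Set G),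
        normalClosure ({x} : Set G) ≤ centralizer ({y} : Set G) := fun y hy =>
      (closure_le _).2 fun z hz => by
        obtain ⟨_, rfl, h1⟩ := Group.mem_conjugatesOfSet_iff.1 hy
        obtain ⟨_, rfl, h2⟩ := Group.mem_conjugatesOfSet_iff.1 hz
        obtain ⟨a, rfl⟩ := isConj_iff.1 h1
        obtain ⟨b, rfl⟩ := isConj_iff.1 h2
        simpa [mul_assoc] using cs.2 (cj_c ((mM (a⁻¹ * b)).1 (e ▸ mem_top _)) a)
    exact nx (le_fitting (N := normalClosure ({x} : Set G)) inferInstance (nil_of_comm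
      fun a ha b hb => (cs.1 ((closure_le (centralizer ({a} : Set G))).2
        (fun y hy => cs.2 (cs.1 (h1 y hy ha)).symm) hb)).eq) (subset_normalClosure rfl))
  have all : ∀ H : Subgroup G, (∀ g : G, g * x * g⁻¹ ∈ H) → H = ⊤ := fun H k => by
    by_contra c
    exact nt (eq_top_iff.2 fun g _ => (mM g).2 (T1 H c g (by simpa using k 1) (k g)))
  have ti : ∀ a g : G, Commute x a → Commute x (g * a * g⁻¹) → g * a * g⁻¹ ∉ center G → g ∈ M :=
    fun a g h1 h2 h3 => (mM g).2 (T1 _ (fun e => h3 (cen _ e)) g (cs.2 h2.symm)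
      (cs.2 (cj_c h1.symm g)))
  by_cases c : ∀ m ∈ M, Commute x m
  · let f := QuotientGroup.mk' (center G)
    have zM : f.ker ≤ M := fun z hz =>
      cM z (mem_center_iff.1 (QuotientGroup.ker_mk' (center G) ▸ hz) x)
    have e1 : ∀ g, f g ∈ M.map f ↔ g ∈ M := fun g => by
      rw [← mem_comap, comap_map_eq_self zM]
    have nt' : M.map f ≠ ⊤ := fun e => nt (eq_top_iff.2 fun g _ => (e1 g).1 (e ▸ mem_top _))
    have hF : IsFrobeniusComplement (M.map f) := by
      refine ⟨fun e => xz ((QuotientGroup.eq_one_iff x).1 (mem_bot.1 (e ▸ (e1 x).2 xM))), nt',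
        fun g hg => eq_bot_iff.2 ?_⟩
      obtain ⟨g, rfl⟩ := QuotientGroup.mk'_surjective _ g
      rintro _ ⟨h1, _, ⟨b, hb, rfl⟩, rfl⟩
      by_contra k
      exact hg ((e1 g).2 (ti b g (c b hb) (c _ ((e1 _).1 h1)) fun z =>
        k (mem_bot.2 ((QuotientGroup.eq_one_iff _).2 z))))
    obtain ⟨N, e, n1, n2⟩ := Cfsg.Agent.S0042.result _ hF
    have h1 := (Cfsg.Agent.S0034.result _ hF).1
    have e2 : (N.comap f).map f = N := map_comap_eq_self_of_surjective
      (QuotientGroup.mk'_surjective _) N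
    have n3 : Group.IsNilpotent (N.comap f) := isNilpotent_of_map_mk'_of_le_centralizer
      (A := center G) (fun g _ z hz => (mem_center_iff.1 hz g).symm) (e2.symm ▸ n2)
    have h2 := all (Cn (N.comap f)) fun g a ha => (cs.1 ((h.cj g).nil hr hs ne n3
      ((normalizer_eq_top_iff.2 (n1.comap f)).ge (mem_top _)) ha)).eq.symm
    have h3 : N = ⊥ := by
      rw [← e2, Subgroup.map_eq_bot_iff, QuotientGroup.ker_mk']
      exact fun a ha => mem_center_iff.2 fun g => ((h2 ▸ mem_top g : g ∈ Cn _) a ha).symm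
    rw [← e, h3] at h1
    exact nt' (index_eq_one.1 (h1.symm.trans card_bot))
  · push Not at c
    obtain ⟨m, hm, c⟩ := c
    obtain ⟨u, hu⟩ := exists_isPPart hr x
    have zu := IsPPart_mem_zpowers hr hu
    have zv : u⁻¹ * x ∈ zpowers x := mul_mem (inv_mem zu) (mem_zpowers x)
    have P : ∀ m ∈ M, Commute u m → Commute x m := fun m hm =>
      h.q hr (.inl rfl) (mul_inv_cancel_left u x) zu zv (IsPPart_not_dvd hu) ((mM m).1 hm)
    have nu : centralizer ({u} : Set G) ≠ ⊤ := fun e => c (P m hm (cs.1 (e ▸ mem_top m)))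
    have xu := IsPPart_mem_centralizer hu
    have cu : ∀ g ∈ centralizer ({u} : Set G), Commute x g := fun g hg =>
      P g ((mM g).2 (T1 _ nu g xu (mul_mem (mul_mem hg xu) (inv_mem hg)))) (cs.1 hg)
    have fx : FF M ≤ centralizer ({x} : Set G) := h.nil hr hs ne FF_nil (FF_nm xM)
    have key := fun g => PosIdem.commute_conj hr hu (rp r (FF M))
      (rp_le.trans (fx.trans (IsPPart_centralizer_le hr hu)))
      ((hr.coprime_iff_not_dvd).1 (rp_cop FF_nil).symm)
      (fun o ho g hg => by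
        by_cases z : g * o * g⁻¹ ∈ center G
        · rwa [show g * o * g⁻¹ = o by
            have := mem_center_iff.1 z g⁻¹
            rw [← mul_assoc, ← mul_assoc, inv_mul_cancel, one_mul, mul_left_inj] at this
            exact this.symm]
        · exact nm_cj (nm_rp (FF_nm (ti o g (cs.1 (fx (rp_le ho))) (cu _ hg) z))) ho)
      (fun g => (h g).imp_right And.left) (o := u⁻¹ * x)
      (subset_closure ⟨zpowers_le.2 (ih M nt x xM h) zv,
        ((hr.coprime_iff_not_dvd).2 (IsPPart_not_dvd hu)).symm⟩) g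
    have h2 := all (centralizer ({u⁻¹ * x} : Set G)) fun g => cs.2 (by
      simpa [mul_assoc] using (cj_c (key g⁻¹) g).symm)
    obtain ⟨k, hk⟩ := IsPPart_orderOf hu
    exact c (h.q hs (.inr rfl) (by rw [mul_assoc, ← (IsPPart_commute hu).eq]; simp) zv zu
      (fun d => ne ((Nat.prime_dvd_prime_iff_eq hs hr).1 (hs.dvd_of_dvd_pow (hk ▸ d))).symm)
      ((mM m).1 hm) (cs.1 (h2 ▸ mem_top m)))

omit [Finite G] in
theorem main (hr : r.Prime) (hs : s.Prime) (ne : r ≠ s) (n : ℕ) :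
    ∀ (X : Type u) [Group X] [Finite X], Nat.card X = n → ∀ x : X, Hq r s x →
      x ∈ fittingSubgroup X := by
  induction n using Nat.strong_induction_on with
  | _ n ih =>
    intro X _ _ e x h
    exact step hr hs ne h fun H k y hy hq => ⟨⟨y, hy⟩, ih _
      (e ▸ lt_of_le_of_ne (card_le_card_group H) fun c => k (eq_top_of_card_eq H c))
      H rfl _ (hq.sub hy), rfl⟩

end Aux

/-- Let G be a finite group and x ∈ G. Suppose there are two distinct primes r and s such that for every g ∈ G the commutator x⁻¹g⁻¹xg is either trivial or has order divisible by r·s. Then x lies in the Fitting subgroup of G (the subgroup generated by all normal nilpotent subgroups). -/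
theorem result {G : Type*} [Group G] [Finite G]
    (x : G) (r s : ℕ) (hr : r.Prime) (hs : s.Prime) (hrs : r ≠ s)
    (h : ∀ g : G, (x⁻¹ * g⁻¹ * x * g) = 1 ∨ r * s ∣ orderOf (x⁻¹ * g⁻¹ * x * g)) : x ∈ Cfsg.fittingSubgroup G := by
  refine main hr hs hrs _ G rfl x fun g => ?_
  have := h g⁻¹
  rw [inv_inv, mul_assoc x⁻¹, mul_assoc x⁻¹] at this
  exact this.imp_right fun k => ⟨(Nat.dvd_mul_right r s).trans k, (Nat.dvd_mul_left s r).trans k⟩

end Cfsg.Agent.S4096
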