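import Cfsg.Statements.S4105
import Cfsg.Agent.Solv.ManyClasses

set_option autoImplicit false
open Cfsg

namespace Cfsg.Agent.S4105

open Cfsg.Lib.FT Cfsg.Lib.Solv.Many Subgroup in
/-- Let G be a finite group, π a set of primes with least member p, m the π-part of the order of G and k the number of conjugacy classes of G consisting of π-elements. If k > m·(p² + p − 1)/p³, then G has an abelian Hall π-subgroup (an abelian subgroup of order m). -/
theorem result {G : Type*} [Group G] [Finite G]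
    (π : Set ℕ) (hπ : ∀ q ∈ π, q.Prime) (p : ℕ) (hp : p ∈ π) (hmin : ∀ q ∈ π, p ≤ q)
    (m : ℕ) (hm : m ∣ Nat.card G) (hmπ : ∀ q : ℕ, q.Prime → q ∣ m → q ∈ π)
    (hm' : ∀ q ∈ π, ¬ q ∣ Nat.card G / m)
    (k : ℕ) (hk : k = Nat.card {C : ConjClasses G // ∀ q : ℕ, q.Prime → (∃ g : G, ConjClasses.mk g = C ∧ q ∣ orderOf g) → q ∈ π})
    (hmany : m * (p ^ 2 + p - 1) < p ^ 3 * k) :
    ∃ H : Subgroup G, Nat.card H = m ∧ IsMulCommutative H := by
  have hmp : partn π (Nat.card G) = m := partn_unique Nat.card_pos.ne' (Nat.mul_div_cancel' hm)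
    hmπ fun q _ hd h => hm' q h hd
  have hp2 := (hπ p hp).two_le
  obtain ⟨q, rfl⟩ : ∃ q, p = q + 1 := ⟨p - 1, by omega⟩
  rw [← add_assoc, Nat.add_sub_cancel] at hmany
  obtain ⟨H, hH, hn, hk'⟩ := exists_hall π hp2 hmin (G := G) (by
    rw [hmp]
    change m < (q + 1) * Nat.card _
    rw [← hk]
    refine Nat.lt_of_mul_lt_mul_left (a := (q + 1) ^ 2) ?_
    nlinarith)
  have hc : Nat.card H = m := by rw [card_Hall (pHall_top.2 hH), card_top, hmp]
  refine ⟨H, hc, ?_⟩
  have h1 := card_conjClasses_bound (G := H) fun s hs hd => hmin s (hH.1 s hs hd)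
  have h2 := (commutator H).card_mul_index
  have h3 := hmany.trans_le (Nat.mul_le_mul_left _ (hk.trans_le hk'))
  by_contra h
  obtain ⟨s, hs, hd⟩ := Nat.exists_prime_and_dvd (n := Nat.card (commutator H)) fun e =>
    h ((commutator_eq_bot_iff _).1 (card_eq_one.1 e))
  have h5 := Nat.mul_le_mul_right ((q + 2) * q * (commutator H).index)
    ((hmin s (hH.1 s hs (hd.trans (card_subgroup_dvd_card _)))).trans
      (Nat.le_of_dvd Nat.card_pos hd))
  rw [← hc, ← h2] at h3
  rw [← h2] at h1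
  have := Nat.mul_le_mul_left (q + 1) h1
  nlinarith

end Cfsg.Agent.S4105
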