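import Cfsg.Statements.S4107
import Cfsg.Agent.Solv.FrobeniusGroup
import Cfsg.Agent.Solv.NilpotentHall
import Cfsg.Agent.Solv.Cores

set_option autoImplicit false
open Cfsg

namespace Cfsg.Agent.S4107

open Cfsg.Lib.Solv in
theorem isPGroup_of_not_le {G : Type*} [Group G] [Finite G] (N : Subgroup G) [N.Normal]
    (heq : ∀ x : G, x ∉ N → ∀ n ∈ N, orderOf (x * n) = orderOf x) (p : ℕ) [Fact p.Prime]
    (h : ¬ pCore p G ≤ N) : IsPGroup p N := by
  obtain ⟨x, hx, hxN⟩ := SetLike.not_le_iff_exists.1 h
  have hP := pCore_isPGroup p G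
  intro ⟨n, hn⟩
  obtain ⟨k, hk⟩ := hP ⟨x, hx⟩
  have h1 : (x * n) ^ p ^ k = 1 := by
    rw [← orderOf_dvd_iff_pow_eq_one, heq x hxN n hn, orderOf_dvd_iff_pow_eq_one]
    exact congrArg Subtype.val hk
  have h2 : n ^ p ^ k ∈ pCore p G := by
    rw [← QuotientGroup.eq_one_iff, QuotientGroup.mk_pow]
    have h3 := congrArg (QuotientGroup.mk (s := pCore p G)) h1
    rwa [QuotientGroup.mk_pow, QuotientGroup.mk_mul, (QuotientGroup.eq_one_iff x).2 hx, one_mul,
      QuotientGroup.mk_one] at h3
  obtain ⟨l, hl⟩ := hP ⟨_, h2⟩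
  refine ⟨k + l, Subtype.ext ?_⟩
  have h4 : (n ^ p ^ k) ^ p ^ l = 1 := congrArg Subtype.val hl
  rw [pow_add, pow_mul]
  exact h4

/-- Let G be a finite group and N a proper non-trivial normal subgroup such that for every x outside N all elements of the coset xN have the same order as x. Then N ≤ F(G) or F(G) ≤ N, where F(G) is the Fitting subgroup; and if N is properly contained in F(G) then F(G) has prime-power order. -/
theorem result {G : Type*} [Group G] [Finite G] (N : Subgroup G) [N.Normal] (hN1 : N ≠ ⊥) (hN2 : N ≠ ⊤)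
    (heq : ∀ x : G, x ∉ N → ∀ n ∈ N, orderOf (x * n) = orderOf x) :
    (N ≤ Cfsg.fittingSubgroup G ∨ Cfsg.fittingSubgroup G ≤ N) ∧
    (N < Cfsg.fittingSubgroup G → IsPrimePow (Nat.card (Cfsg.fittingSubgroup G))) := by
  open Cfsg.Lib.Solv in
  constructor
  · by_cases h : fittingSubgroup G ≤ N
    · exact Or.inr h
    left
    by_contra h'
    refine h (fitting_le_of_forall_pCore_le fun p _ => ?_)
    by_contra hp
    exact h' ((le_pCore inferInstance (isPGroup_of_not_le N heq p hp)).trans (pCore_le_fitting p G))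
  · intro hlt
    have : ∃ (p : ℕ) (_ : Fact p.Prime), ¬ pCore p G ≤ N := by
      by_contra h
      push Not at h
      exact hlt.not_ge (fitting_le_of_forall_pCore_le fun p hp => h p hp)
    obtain ⟨p, hp, h⟩ := this
    have hN := isPGroup_of_not_le N heq p h
    have hF : fittingSubgroup G ≤ pCore p G := by
      refine fitting_le_of_forall_pCore_le fun q hq => ?_
      by_cases hqN : pCore q G ≤ N
      · exact hqN.trans (le_pCore inferInstance hN)
      · have hN' := isPGroup_of_not_le N heq q hqN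
        by_cases hpq : q = p
        · subst hpq; exact le_rfl
        · exact absurd (disjoint_self.1 (IsPGroup.disjoint_of_ne q p hpq N N hN' hN)) hN1
    obtain ⟨k, hk⟩ := ((pCore_isPGroup p G).to_le hF).exists_card_eq
    refine ⟨p, k, hp.out.prime, Nat.pos_of_ne_zero ?_, hk.symm⟩
    rintro rfl
    exact ne_bot_of_gt hlt (Subgroup.card_eq_one.1 (by simpa using hk))

end Cfsg.Agent.S4107
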