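import Cfsg.Statements.S4108
import Cfsg.Agent.Solv.FrobeniusGroup

set_option autoImplicit false
open Cfsg

namespace Cfsg.Agent.S4108

/-- Let G be a finite group, p a prime and N a proper non-trivial normal p-subgroup such that for every x outside N all elements of the coset xN have the same order as x. Then every non-trivial subgroup H of G of order prime to p acts fixed-point-freely on N: NH is a Frobenius group with complement H and kernel N. -/
theorem result {G : Type*} [Group G] [Finite G] (N : Subgroup G) [N.Normal] (hN1 : N ≠ ⊥) (hN2 : N ≠ ⊤)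
    (heq : ∀ x : G, x ∉ N → ∀ n ∈ N, orderOf (x * n) = orderOf x)
    (p : ℕ) [Fact p.Prime] (hNp : IsPGroup p N) :
    ∀ H : Subgroup G, H ≠ ⊥ → (Nat.card H).Coprime p →
      Cfsg.IsFrobeniusComplement (H.subgroupOf (N ⊔ H)) ∧ Cfsg.frobeniusKernel (H.subgroupOf (N ⊔ H)) = (N.subgroupOf (N ⊔ H) : Set ↥(N ⊔ H)) := by
  intro H hH hcop
  have hfpf : ∀ h ∈ H, h ≠ 1 → N ⊓ Subgroup.centralizer {h} = ⊥ := by
    intro h hh h1
    obtain ⟨k, hk⟩ := hNp.exists_card_eq
    have hc : (Nat.card H).Coprime (Nat.card N) := hk ▸ hcop.pow_right k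
    have hN : h ∉ N := fun hN => h1 (by
      have : h ∈ H ⊓ N := ⟨hh, hN⟩
      rwa [Cfsg.Lib.Solv.inf_eq_bot_of_coprime_card hc, Subgroup.mem_bot] at this)
    rw [Cfsg.Lib.Solv.Fpf.inf_centralizer_eq_bot_iff]
    intro n hn hc'
    have h2 := heq h hN n hn
    rw [(show Commute h n from hc'.symm).orderOf_mul_eq_mul_orderOf_of_coprime
      ((hc.coprime_dvd_left (H.orderOf_dvd_natCard hh)).coprime_dvd_right
        (N.orderOf_dvd_natCard hn))] at h2
    exact orderOf_eq_one_iff.1 ((Nat.mul_eq_left (orderOf_pos h).ne').1 h2)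
  exact ⟨Cfsg.Lib.Solv.Fpf.isFrobeniusComplement_subgroupOf_sup
      (Cfsg.Lib.Solv.Fpf.le_normalizer_of_normal' N H) hN1 hH hfpf,
    Cfsg.Lib.Solv.Fpf.frobeniusKernel_subgroupOf_sup
      (Cfsg.Lib.Solv.Fpf.le_normalizer_of_normal' N H) hfpf⟩

end Cfsg.Agent.S4108
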