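import Cfsg.Statements.S4116
import Cfsg.Agent.Solv.UniqueFixedPoint
import Cfsg.Agent.Solv.Nilpotent

set_option autoImplicit false
open Cfsg Cfsg.Lib.Solv

namespace Cfsg.Agent.S4116

/-- Let G be a finite group with a subgroup H whose order is coprime to its index (a Hall subgroup) and which meets each of its conjugates by elements outside N_G(H) trivially. Then every subgroup of G whose order is divisible only by primes dividing the order of H lies in a conjugate of H. -/
theorem result {G : Type*} [Group G] [Finite G] (H : Subgroup G)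
    (hHall : (Nat.card H).Coprime H.index) (hTI : Cfsg.IsTISubset (H : Set G))
    (K : Subgroup G) (hK : ∀ q : ℕ, q.Prime → q ∣ Nat.card K → q ∣ Nat.card H) :
    ∃ g : G, K ≤ H.map (MulAut.conj g).toMonoidHom := by
  rcases subsingleton_or_nontrivial K with hs | hs
  · exact ⟨1, by rw [Subgroup.eq_bot_of_subsingleton K]; exact bot_le⟩
  set N := Subgroup.normalizer (H : Set G) with hN
  have hfix : ∀ (y : K) (g : G), y • (g : G ⧸ N) = g ↔ g⁻¹ * y * g ∈ N := by
    intro y g
    change (((y : G) * g : G) : G ⧸ N) = g ↔ _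
    rw [eq_comm, QuotientGroup.eq, mul_assoc]
  have hord : ∀ (y : K) (g : G), orderOf (g⁻¹ * y * g) = orderOf (y : G) := fun y g => by
    simpa using orderOf_injective (MulAut.conj g⁻¹).toMonoidHom (MulAut.conj g⁻¹).injective (y : G)
  have hH : ∀ (y : K) (g : G), g⁻¹ * y * g ∈ N → g⁻¹ * y * g ∈ H := by
    intro y g h
    refine mem_of_mem_normalizer_of_coprime_orderOf_index h ?_
    rw [hord]
    refine Nat.coprime_of_dvd fun q hq h1 h2 => ?_
    exact hq.one_lt.ne' (Nat.eq_one_of_dvd_coprimes hHall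
      (hK q hq (h1.trans (K.orderOf_dvd_natCard y.2))) h2)
  obtain ⟨ω, hω⟩ := exists_fixed_of_unique_fixed (K := K) (X := G ⧸ N) (fun y => by
      by_cases hy : y = 1
      · exact ⟨(1 : G), by rw [hy, one_smul]⟩
      obtain ⟨q, hq, hqy⟩ := Nat.exists_prime_and_dvd (fun h => hy (orderOf_eq_one_iff.1 h))
      have := Fact.mk hq
      obtain ⟨x, hx, hxo⟩ := exists_mem_orderOf_eq_prime hq (K := Subgroup.zpowers (y : G))
        (by rwa [Nat.card_zpowers, Subgroup.orderOf_coe])
      obtain ⟨Q, hQ⟩ := ClassSize.exists_sylow_le_of_not_dvd_index (p := q) (C := H) (fun h =>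
        hq.one_lt.ne' (Nat.eq_one_of_dvd_coprimes hHall
          (hK q hq (hqy.trans (orderOf_dvd_natCard y))) h))
      obtain ⟨R, hR⟩ := ClassSize.exists_sylow_mem_of_pow_eq_one (p := q) (k := 1) (x := x)
        (by rw [pow_one, ← hxo, pow_orderOf_eq_one])
      obtain ⟨g, rfl⟩ := MulAction.exists_smul_eq G Q R
      obtain ⟨z, hz, hzx⟩ := hR
      have hzx' : g * z * g⁻¹ = x := hzx
      refine ⟨g, (hfix y g).2 ?_⟩
      by_contra hn
      obtain ⟨n, rfl⟩ := hx
      have h1 : g⁻¹ * y * g * z * (g⁻¹ * y * g)⁻¹ = z := by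
        have h2 : z = g⁻¹ * (y : G) ^ n * g := by rw [← show g * z * g⁻¹ = (y : G) ^ n from hzx']; group
        rw [h2]
        group
      have h2 := hTI _ hn z (hQ hz) (by rw [h1]; exact hQ hz)
      rw [h2, mul_one, mul_inv_cancel] at hzx'
      rw [← hzx', orderOf_one] at hxo
      exact hq.one_lt.ne hxo) (fun y hy ω ω' h1 h2 => by
      obtain ⟨g, rfl⟩ := QuotientGroup.mk_surjective ω
      obtain ⟨g', rfl⟩ := QuotientGroup.mk_surjective ω'
      rw [QuotientGroup.eq]
      by_contra hn
      have h3 := hTI _ hn _ (hH y g' ((hfix y g').1 h2)) (by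
        have := hH y g ((hfix y g).1 h1)
        simpa [mul_assoc] using this)
      have h4 := hord y g'
      rw [h3, orderOf_one, Subgroup.orderOf_coe, eq_comm, orderOf_eq_one_iff] at h4
      exact hy h4)
  obtain ⟨g, rfl⟩ := QuotientGroup.mk_surjective ω
  refine ⟨g, fun y hy => ⟨_, hH ⟨y, hy⟩ g ((hfix _ g).1 (hω _)), ?_⟩⟩
  simp [mul_assoc]

end Cfsg.Agent.S4116
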