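import Cfsg.Statements.S4117
import Cfsg.Agent.Solv.ActionTransport
import Cfsg.Agent.Solv.CyclicP
import Mathlib.GroupTheory.SpecificGroups.ZGroup

set_option autoImplicit false
open Cfsg

namespace Cfsg.Agent.S4117

open Subgroup Cfsg.Lib.Solv in
open scoped commutatorElement in
theorem isCyclic_commutator {X : Type*} [Group X] [Finite X] {A K : Subgroup X} [IsZGroup K]
    (hAK : A ≤ normalizer (K : Set X)) (hcop : (Nat.card A).Coprime (Nat.card K)) :
    IsCyclic (⁅K, A⁆ : Subgroup X) := by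
  have hle := commutator_le_left_of_le_normalizer hAK
  have hZ : IsZGroup (⁅K, A⁆ : Subgroup X) := IsZGroup.of_injective (inclusion_injective hle)
  set L : Subgroup X := ⁅K, A⁆ with hL
  have h1 : IsCyclic (⁅L, L⁆ : Subgroup X) := by
    rw [← Subgroup.map_subtype_commutator]
    have := IsZGroup.isCyclic_commutator L
    exact ((_root_.commutator L).equivMapOfInjective _ L.subtype_injective).isCyclic.mp this
  have h2 : L ≤ centralizer ((⁅L, L⁆ : Subgroup X) : Set X) := by
    conv_lhs => rw [hL, ← Coprime.commutator_commutator hAK hcop]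
    rw [commutator_le]
    intro x hx a ha
    have h3 := right_le_normalizer_commutator K A
    exact PG.commutator_mem_centralizer_of_isCyclic (left_le_normalizer_commutator _ _ hx)
      (le_normalizer_commutator h3 h3 ha)
  have : Group.IsNilpotent L := (isNilpotent_iff_lowerCentralSeries L).mpr
    ⟨2, commutator_eq_bot_iff_le_centralizer.mpr (le_centralizer_iff.mp h2)⟩
  infer_instance

open Subgroup Cfsg.Lib.Solv in
theorem coprime_of_inf {G : Type*} [Group G] [Finite G] [IsZGroup G] {C K : Subgroup G} [K.Normal]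
    (h : C ⊓ K = ⊥) : (Nat.card C).Coprime (Nat.card K) := by
  apply Nat.coprime_of_dvd
  intro p hp h1 h2
  have := Fact.mk hp
  obtain ⟨X, hX⟩ := Sylow.exists_subgroup_card_pow_prime p (n := 1) (G := C) (by simpa using h1)
  obtain ⟨Y, hY⟩ := Sylow.exists_subgroup_card_pow_prime p (n := 1) (G := K) (by simpa using h2)
  obtain ⟨P, hP⟩ := ((IsPGroup.of_card hX).map C.subtype).exists_le_sylow
  obtain ⟨Q, hQ⟩ := ((IsPGroup.of_card hY).map K.subtype).exists_le_sylow
  obtain ⟨g, rfl⟩ := MulAction.exists_smul_eq G Q P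
  have h3 := PG.eq_of_card_eq_of_isCyclic hP (conj_smul_mono g hQ)
    (by rw [card_conj_smul, card_subtype, card_subtype, hX, hY])
  have h4 : X.map C.subtype ≤ C ⊓ K := le_inf (map_subtype_le _) (h3 ▸
    (conj_smul_mono g (map_subtype_le Y)).trans
      (conj_smul_eq_of_mem_normalizer (le_normalizer_of_normal (mem_top g))).le)
  rw [h, le_bot_iff, ← card_eq_one, card_subtype, hX, pow_one] at h4
  exact hp.ne_one h4

/-- Let A be a finite group acting on the finite group G by automorphisms with the orders of A and G coprime, and suppose every Sylow subgroup of G is cyclic. Then the fixed-point subgroup C_G(A) is a Hall subgroup of G (its order is coprime to its index), the subgroup [G, A] generated by the elements g⁻¹·a(g) is cyclic and normal with [G, A] ∩ C_G(A) = 1 and [G, A]·C_G(A) = G. -/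
theorem result {G A : Type*} [Group G] [Finite G] [Group A] [Finite A]
    [MulDistribMulAction A G] (hcop : (Nat.card A).Coprime (Nat.card G))
    (hcyc : ∀ (p : ℕ) [Fact p.Prime] (P : Sylow p G), IsCyclic (P : Subgroup G)) :
    (Nat.card (MulAction.fixedPoints A G : Set G)).Coprime (Nat.card G / Nat.card (MulAction.fixedPoints A G : Set G)) ∧
    IsCyclic (Subgroup.closure {y : G | ∃ (a : A) (g : G), y = g⁻¹ * a • g}) ∧
    (Subgroup.closure {y : G | ∃ (a : A) (g : G), y = g⁻¹ * a • g}).Normal ∧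
    (Subgroup.closure {y : G | ∃ (a : A) (g : G), y = g⁻¹ * a • g} : Set G) ∩ MulAction.fixedPoints A G = {1} ∧
    Subgroup.closure {y : G | ∃ (a : A) (g : G), y = g⁻¹ * a • g} ⊔ Subgroup.closure (MulAction.fixedPoints A G) = ⊤ := by
  open Subgroup Cfsg.Lib.Solv in
  have hZ : IsZGroup G := ⟨fun p hp P => @hcyc p ⟨hp⟩ P⟩
  let φ := MulDistribMulAction.toMulAut A G
  have h1 : closure {y : G | ∃ (a : A) (g : G), y = g⁻¹ * a • g} = Act.comm φ ⊤ ⊤ := by
    rw [Act.comm_eq_closure]
    congr 1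
    ext y
    exact ⟨fun ⟨a, g, h⟩ => ⟨g, trivial, a, trivial, h⟩, fun ⟨g, _, a, _, h⟩ => ⟨a, g, h⟩⟩
  have h2 : MulAction.fixedPoints A G = Act.fix φ ⊤ := by
    ext x
    exact (Act.mem_fix_top (φ := φ)).symm
  have hcop' : (Nat.card (⊤ : Subgroup A)).Coprime (Nat.card (⊤ : Subgroup G)) := by simpa
  have hfin : Finite (G ⋊[φ] A) := Finite.of_equiv _ SemidirectProduct.equivProd.symm
  have h3 : IsCyclic (Act.comm φ ⊤ ⊤) := by
    rw [← Act.isCyclic_L (φ := φ), ← Act.commutator_L_R]
    have : IsZGroup (Act.L φ ⊤) := IsZGroup.of_injective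
      (f := (Act.equivL (φ := φ) ⊤).symm.toMonoidHom) (Act.equivL (φ := φ) ⊤).symm.injective
    exact isCyclic_commutator (Act.R_le_normalizer_L_top _) (Act.hcop_LR hcop')
  have h4 : (Act.comm φ ⊤ ⊤).Normal :=
    normalizer_eq_top_iff.mp (top_le_iff.mp (Act.le_normalizer_comm _ _))
  have h5 : Act.fix φ ⊤ ⊓ Act.comm φ ⊤ ⊤ = ⊥ := by
    have := Act.fix_inf_comm_eq_bot (Act.inv_comm (φ := φ) ⊤ ⊤)
      (hcop'.coprime_dvd_right (card_dvd_of_le le_top))
    rwa [Act.comm_comm (Act.inv_top _) hcop', inf_comm (Act.comm φ ⊤ ⊤), inf_assoc, inf_idem]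
      at this
  have h6 : Act.comm φ ⊤ ⊤ ⊔ Act.fix φ ⊤ = ⊤ := by
    have := Act.comm_sup_fix (φ := φ) (Act.inv_top ⊤) hcop' (Or.inr inferInstance)
    rwa [top_inf_eq] at this
  rw [h1, h2]
  refine ⟨?_, h3, h4, ?_, by rwa [closure_eq]⟩
  · have h7 := card_sup_of_disjoint_of_le_normalizer (H := Act.fix φ ⊤) (N := Act.comm φ ⊤ ⊤)
      le_normalizer_of_normal ((inf_comm _ _).trans h5)
    rw [h6, card_top] at h7
    rw [h7]
    change (Nat.card (Act.fix φ ⊤)).Coprime (_ / Nat.card (Act.fix φ ⊤))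
    rw [Nat.mul_div_cancel _ Nat.card_pos]
    exact coprime_of_inf h5
  · rw [← coe_inf, inf_comm, h5, coe_bot]

end Cfsg.Agent.S4117
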