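import Cfsg.Statements.S4120
import Cfsg.Agent.Solv.KMSMain
import Cfsg.Agent.Solv.ActionTransport
import Cfsg.Agent.Solv.FpfThompson

set_option autoImplicit false
open Cfsg

namespace Cfsg.Agent.S4120

/-- Let the finite group A act faithfully on the finite group G by automorphisms, and suppose A is a Frobenius group with kernel F and complement H such that F fixes only the identity of G. If the fixed-point subgroup C_G(H) is nilpotent, then G is nilpotent. -/
theorem result {G A : Type*} [Group G] [Finite G] [Group A] [Finite A] [MulDistribMulAction A G] [FaithfulSMul A G]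
    (Fk Hc : Subgroup A) [Fk.Normal] (hHc : Cfsg.IsFrobeniusComplement Hc) (hker : Cfsg.frobeniusKernel Hc = (Fk : Set A))
    (hCF : ∀ g : G, (∀ f ∈ Fk, f • g = g) → g = 1) (hnil : Group.IsNilpotent (Subgroup.closure {g : G | ∀ h ∈ Hc, h • g = g})) : Group.IsNilpotent G := by
  open Cfsg.Lib.Solv Cfsg.Lib.Solv.Act in
  obtain ⟨-, -, -, h1, -⟩ := Fpf.of_coe_eq hHc hker
  let φ := MulDistribMulAction.toMulAut A G
  have h2 : Hc ≤ Subgroup.normalizer (Fk : Set A) := Subgroup.le_normalizer_of_normal
  have h3 : KMS.Hyp (L φ ⊤) (R φ Fk) (R φ Hc) :=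
    ⟨R_le_normalizer_L_top _, R_le_normalizer_L_top _, R_le_normalizer_R.2 h2,
      Group.nilpotent_of_mulEquiv (_h := Fpf.isNilpotent_kernel h2 hHc.1 h1) (equivR Fk),
      Fpf.fpf_map _ h2 h1, by rw [← R_sup, inf_comm, L_inf_R], by
        rw [L_top_inf_centralizer_R, L_eq_bot_iff, eq_bot_iff]
        exact fun g hg => hCF g hg⟩
  have h4 := h3.isNilpotent (by
    rw [L_top_inf_centralizer_R, isNilpotent_L]
    exact isNilpotent_of_le (fun g hg => Subgroup.subset_closure hg) hnil)
  exact Group.nilpotent_of_mulEquiv (_h := isNilpotent_L.1 h4) Subgroup.topEquiv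

end Cfsg.Agent.S4120
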