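import Cfsg.Statements.S4125
import Cfsg.Agent.Solv.BHM2
import Cfsg.Agent.Solv.Kazarin2
import Cfsg.Agent.Solv.SylowDirect
import Cfsg.Agent.Solv.PPowerOrbits
import Cfsg.Agent.Solv.PSolvable

set_option autoImplicit false
open Cfsg

namespace Cfsg.Agent.S4125

open Subgroup Cfsg.Lib.Solv Cfsg.Lib.Solv.ClassSize
open scoped commutatorElement

section Aux

variable {G : Type*} [Group G] [Finite G] {q : ℕ} [hq : Fact q.Prime]

theorem mem_centralizer_of_coprime (Q : Sylow q G) [hQ : (Q : Subgroup G).Normal]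
    (h : ∀ u ∈ (Q : Subgroup G), ∃ a ∈ (Q : Subgroup G), ∃ b ∈ (Q : Subgroup G), a * b = u ∧
      (∃ k, (centralizer ({a} : Set G)).index ∣ q ^ k) ∧
      ∃ k, (centralizer ({b} : Set G)).index ∣ q ^ k)
    {s : G} (hs : (orderOf s).Coprime q) : s ∈ centralizer ((Q : Subgroup G) : Set G) := by
  have h1 : ∀ a ∈ (Q : Subgroup G), (∃ k, (centralizer ({a} : Set G)).index ∣ q ^ k) →
      ⁅s, a⁆ ∈ ⁅(Q : Subgroup G), (Q : Subgroup G)⁆ := by
    rintro a ha ⟨k, hk⟩
    obtain ⟨b, hb, c, hc, rfl⟩ := forall_mul_sylow_of_index_dvd Q hk s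
    have : ⁅b * c, a⁆ = ⁅b, a⁆ := by
      rw [commutatorElement_def, commutatorElement_def, mul_assoc b c a, mem_cent.1 hc]
      group
    rw [this]
    exact commutator_mem_commutator hb ha
  have h2 : ∀ u ∈ (Q : Subgroup G), ⁅s, u⁆ ∈ ⁅(Q : Subgroup G), (Q : Subgroup G)⁆ := by
    intro u hu
    obtain ⟨a, ha, b, hb, rfl, h3, h4⟩ := h u hu
    have : ⁅s, a * b⁆ = ⁅s, a⁆ * (a * ⁅s, b⁆ * a⁻¹) := by
      simp only [commutatorElement_def]
      group
    rw [this]
    exact mul_mem (h1 a ha h3) ((commutator_normal _ _).conj_mem _ (h1 b hb h4) a)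
  refine Coprime.le_centralizer_of_commutator_le_frattini (A := zpowers s)
    (Fpf.le_normalizer_of_normal' _ _) ?_ (le_trans ?_ (commutator_le_map_frattini Q.isPGroup'))
    (mem_zpowers s)
  · rw [Nat.card_zpowers]
    exact (coprime_card_of_isPGroup (Q.isPGroup'.to_subgroup _) hs).symm
  · rw [commutator_comm, ← QuotientGroup.ker_mk' ⁅(Q : Subgroup G), (Q : Subgroup G)⁆,
      ← Subgroup.map_eq_bot_iff, map_commutator, commutator_eq_bot_iff_le_centralizer,
      MonoidHom.map_zpowers, zpowers_le, mem_centralizer_iff]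
    rintro _ ⟨u, hu, rfl⟩
    exact (mem_cent.1 ((mem_comap_cent_iff _).2 (h2 u hu))).symm

theorem eq_pCore_of_forall_mem (Q : Sylow q G)
    (h : ∀ x ∈ (Q : Subgroup G), x ∈ pCore q G) : (Q : Subgroup G).Normal := by
  rw [le_antisymm h (pCore_le_sylow Q)]
  infer_instance

theorem exists_prime (hBaer : ∀ x : G, (∃ k : ℕ, orderOf x = q ^ k) →
    ∃ (r : ℕ) (a : ℕ), r.Prime ∧ (centralizer ({x} : Set G)).index = r ^ a) :
    ∃ p : ℕ, p.Prime ∧ ∀ x : G, (∃ k : ℕ, orderOf x = q ^ k) →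
      ∃ a : ℕ, (centralizer ({x} : Set G)).index = p ^ a := by
  have : Nonempty {x : G // ∃ k : ℕ, orderOf x = q ^ k} := ⟨⟨1, 0, by simp⟩⟩
  obtain ⟨⟨x, hx⟩, hmax⟩ := Finite.exists_max
    fun z : {x : G // ∃ k : ℕ, orderOf x = q ^ k} => (centralizer ({z.1} : Set G)).index
  replace hmax : ∀ z : G, (∃ k : ℕ, orderOf z = q ^ k) →
      (centralizer ({z} : Set G)).index ≤ (centralizer ({x} : Set G)).index :=
    fun z hz => hmax ⟨z, hz⟩
  obtain ⟨p, a, hp, hxa⟩ := hBaer x hx
  refine ⟨p, hp, fun y hy => ?_⟩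
  obtain ⟨r, b, hr, hyb⟩ := hBaer y hy
  by_contra hne
  have hrp : r ≠ p := fun h => hne ⟨b, h ▸ hyb⟩
  have hb : b ≠ 0 := fun h => hne ⟨0, by rw [hyb, h, pow_zero, pow_zero]⟩
  have hpow : ∀ {z : G}, (∃ k : ℕ, orderOf z = q ^ k) → ∃ k, z ^ q ^ k = 1 := fun ⟨k, hk⟩ =>
    ⟨k, hk ▸ pow_orderOf_eq_one _⟩
  obtain ⟨k, hk⟩ := hpow hx
  obtain ⟨Q, hxQ⟩ := exists_sylow_mem_of_pow_eq_one hk
  have key : ∀ u : G, (∃ k : ℕ, orderOf u = q ^ k) →
      (centralizer ({u} : Set G)).index.Coprime p →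
      ∃ K : Subgroup G, K.Normal ∧ Nat.card K ∣ p ^ a ∧ K ≤ centralizer {u} ∧
        ∀ g : G, ⁅g, u⁆ ∈ K := by
    intro u hu hcop
    replace hcop : (centralizer ({u} : Set G)).index.Coprime (centralizer ({x} : Set G)).index :=
      hxa ▸ hcop.pow_right a
    obtain ⟨j, hj⟩ := hpow hu
    obtain ⟨R, huR⟩ := exists_sylow_mem_of_pow_eq_one hj
    obtain ⟨g, hg⟩ := MulAction.exists_smul_eq G Q R
    have h1 : g * x * g⁻¹ ∈ (R : Subgroup G) := by
      rw [← hg]
      exact Coprime.conj_mem_conj_smul g hxQ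
    have h2 := hmax _ (exists_orderOf_eq_pow_of_mem R.isPGroup' (mul_mem huR h1))
    rw [← index_cent_of_isConj (isConj_mul_of_coprime hcop (isConj_iff.2 ⟨g, rfl⟩))] at h2
    obtain ⟨K, hK, hc, h⟩ := exists_normal_of_index_mul_le hcop h2
    exact ⟨K, hK, hxa ▸ hc, le_cent_of_coprime (Nat.Coprime.coprime_dvd_left hc hcop.symm), h⟩
  have hyZ : y ∉ center G := fun h => by
    rw [index_cent_eq_one_iff.2 h] at hyb
    exact (Nat.one_lt_pow hb hr.one_lt).ne hyb
  have hyp : (centralizer ({y} : Set G)).index.Coprime p :=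
    hyb ▸ Nat.Coprime.pow_left b ((Nat.coprime_primes hr hp).2 hrp)
  obtain rfl : q = p := by
    by_contra hqp
    obtain ⟨K, -, hc, hK, h⟩ := key y hy hyp
    refine hyZ (mem_center_iff.2 fun g => (Coprime.commute_of_commute_commutator ?_ ?_).symm)
    · rw [← commutatorElement_def, ← commutatorElement_inv]
      exact (mem_cent_iff_commute.1 (inv_mem (hK (h g)))).symm
    · obtain ⟨j, hj⟩ := hy
      rw [hj, ← commutatorElement_def, ← commutatorElement_inv, orderOf_inv]
      exact Nat.Coprime.coprime_dvd_right ((orderOf_dvd_natCard _ (h g)).trans hc)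
        (Nat.coprime_pow_primes _ _ hq.out hp hqp)
  have hcore : ∀ u : G, (∃ k : ℕ, orderOf u = q ^ k) → u ∈ pCore q G := by
    intro u hu
    obtain ⟨j, hj⟩ := hpow hu
    obtain ⟨s, c, hs, huc⟩ := hBaer u hu
    by_cases hsq : s = q
    · exact mem_pCore_of_index_dvd hj (hsq ▸ huc.dvd)
    obtain ⟨K, hK, hc, -, h⟩ := key u hu
      (huc ▸ Nat.Coprime.pow_left c ((Nat.coprime_primes hs hp).2 hsq))
    rw [← comap_pCore_quotient K (IsPGroup.of_card_dvd_pow hc), mem_comap]
    refine mem_pCore_of_index_dvd (j := j) (k := 0) (by rw [← map_pow, hj, map_one]) ?_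
    rw [index_cent_eq_one_iff.2 (mem_center_iff.2 fun g => ?_), pow_zero]
    obtain ⟨g, rfl⟩ := QuotientGroup.mk_surjective g
    exact mem_cent.1 ((mem_comap_cent_iff K).2 (h g))
  have hQ := eq_pCore_of_forall_mem Q fun u hu =>
    hcore u (exists_orderOf_eq_pow_of_mem Q.isPGroup' hu)
  have hidx : ∀ u ∈ (Q : Subgroup G), u ∉ centralizer ((Q : Subgroup G) : Set G) →
      ∃ k, (centralizer ({u} : Set G)).index ∣ q ^ k := by
    intro u hu huC
    obtain ⟨s, c, hs, huc⟩ := hBaer u (exists_orderOf_eq_pow_of_mem Q.isPGroup' hu)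
    by_cases hsq : s = q
    · exact ⟨c, hsq ▸ huc.dvd⟩
    · refine absurd (le_cent_iff.1 (le_cent_of_coprime ?_)) huC
      exact coprime_card_of_isPGroup Q.isPGroup'
        (huc ▸ Nat.Coprime.pow_left c ((Nat.coprime_primes hs hp).2 hsq))
  have hxC : x ∉ centralizer ((Q : Subgroup G) : Set G) := fun h => by
    have h1 := hmax y hy
    have h2 := Nat.one_lt_pow hb hr.one_lt
    refine not_dvd_index_of_sylow_le Q (le_cent_iff.2 h) (hxa ▸ dvd_pow_self q fun ha => ?_)
    rw [hxa, ha, pow_zero] at h1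
    omega
  have := Fact.mk hr
  obtain ⟨R⟩ : Nonempty (Sylow r G) := inferInstance
  refine not_dvd_index_of_sylow_le R (C := centralizer {y}) (fun s hs => ?_)
    (hyb ▸ dvd_pow_self r hb)
  obtain ⟨j, hj⟩ := exists_orderOf_eq_pow_of_mem R.isPGroup' hs
  refine mem_cent.2 (mem_centralizer_iff.1 (mem_centralizer_of_coprime Q (fun u hu => ?_)
    (hj ▸ Nat.Coprime.pow_left j ((Nat.coprime_primes hr hp).2 hrp))) y
    (pCore_le_sylow Q (hcore y hy))).symm
  by_cases huC : u ∈ centralizer ((Q : Subgroup G) : Set G)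
  · exact ⟨u * x⁻¹, mul_mem hu (inv_mem hxQ), x, hxQ, by group,
      hidx _ (mul_mem hu (inv_mem hxQ)) fun h => hxC
        (inv_mem_iff.1 ((mul_mem_cancel_left huC).1 h)), hidx x hxQ hxC⟩
  · exact ⟨u, hu, 1, one_mem _, mul_one u, hidx u hu huC, 0,
      by rw [index_cent_eq_one_iff.2 (one_mem _), pow_zero]⟩

end Aux

/-- Let G be a finite group and q a prime dividing its order such that every element of q-power order has a conjugacy class of prime-power size. Then G is q-solvable of q-length 1: there are normal subgroups K ≤ L of G with K of order prime to q, L/K a q-group and L of index prime to q. Moreover there is a prime p such that every element of q-power order has a class of p-power size (one prime serving for all of them), and for a Sylow q-subgroup Q: if p = q then Q is normal with a normal complement (a direct factor), while if p ≠ q then Q is abelian, the product of Q with the largest normal p-subgroup O_p(G) is normal in G, and G/O_{q'}(G)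 is solvable, where O_{q'}(G) is the largest normal subgroup of order prime to q. -/
theorem result {G : Type*} [Group G] [Finite G] (q : ℕ) [Fact q.Prime] (hq : q ∣ Nat.card G)
    (hBaer : ∀ x : G, (∃ k : ℕ, orderOf x = q ^ k) → ∃ (r : ℕ) (a : ℕ), r.Prime ∧ (Subgroup.centralizer ({x} : Set G)).index = r ^ a) (Q : Sylow q G) :
    (∃ K L : Subgroup G, K.Normal ∧ L.Normal ∧ K ≤ L ∧ (Nat.card K).Coprime q ∧ (∃ m : ℕ, K.relIndex L = q ^ m) ∧ L.index.Coprime q) ∧
    ∃ p : ℕ, p.Prime ∧ (∀ x : G, (∃ k : ℕ, orderOf x = q ^ k) → ∃ a : ℕ, (Subgroup.centralizer ({x} : Set G)).index = p ^ a) ∧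
      (p = q → (Q : Subgroup G).Normal ∧ ∃ N : Subgroup G, N.Normal ∧ N.IsComplement' (Q : Subgroup G)) ∧
      (p ≠ q → IsMulCommutative (Q : Subgroup G) ∧ (Cfsg.pCore p G ⊔ (Q : Subgroup G)).Normal ∧
        ∀ _h : (Cfsg.pPrimeCore q G).Normal, Group.IsSolvable (G ⧸ Cfsg.pPrimeCore q G)) := by
  obtain ⟨p, hp, hall⟩ := exists_prime hBaer
  have hq' : q.Prime := Fact.out
  have hQi : ∀ u ∈ (Q : Subgroup G), ∃ k, (centralizer ({u} : Set G)).index ∣ p ^ k := fun u hu =>
    (hall u (exists_orderOf_eq_pow_of_mem Q.isPGroup' hu)).imp fun _ h => h.dvd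
  have hQc : (Q : Subgroup G).index.Coprime q :=
    ((Nat.Prime.coprime_iff_not_dvd hq').2 Q.not_dvd_index).symm
  obtain ⟨n, hn⟩ := Q.isPGroup'.exists_card_eq
  by_cases hpq : p = q
  · subst hpq
    have hQ := eq_pCore_of_forall_mem Q fun u hu => by
      obtain ⟨j, hj⟩ := exists_orderOf_eq_pow_of_mem Q.isPGroup' hu
      obtain ⟨k, hk⟩ := hQi u hu
      exact mem_pCore_of_index_dvd (j := j) (hj ▸ pow_orderOf_eq_one u) hk
    refine ⟨⟨⊥, Q, inferInstance, hQ, bot_le, by simp, ⟨n, by rw [relIndex_bot_left, hn]⟩, hQc⟩,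
      p, hp, hall, fun _ => ⟨hQ, ?_⟩, fun h => absurd rfl h⟩
    obtain ⟨-, K, hK, hc, -⟩ := sylow_direct_of_forall_mem Q fun r hr hrp s j hj =>
      mem_centralizer_of_coprime Q (fun u hu => ⟨u, hu, 1, one_mem _, mul_one u, hQi u hu, 0,
        by rw [index_cent_eq_one_iff.2 (one_mem _), pow_zero]⟩)
        (hj ▸ Nat.Coprime.pow_left j ((Nat.coprime_primes hr hp).2 hrp))
    exact ⟨K, hK, hc⟩
  have := Fact.mk hp
  have hO : (Nat.card (pCore p G)).Coprime q :=
    coprime_card_of_isPGroup (pCore_isPGroup p G) ((Nat.coprime_primes hq' hp).2 (Ne.symm hpq))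
  have hcomm : IsMulCommutative (Q : Subgroup G) := PG.isMulCommutative_of_forall fun a ha b hb => by
    obtain ⟨k, hk⟩ := hQi a ha
    obtain ⟨l, hl⟩ := hQi b hb
    rw [← commutatorElement_eq_one_iff_mul_comm, ← mem_bot,
      ← inf_eq_bot_of_isPGroup_of_coprime Q.isPGroup' hO]
    exact mem_inf.2 ⟨mul_mem (mul_mem (mul_mem ha hb) (inv_mem ha)) (inv_mem hb),
      commutator_mem_pCore hk hl⟩
  have hnorm : ∀ (N : Subgroup G) [N.Normal], pCore p G ≤ N →
      ((Q : Subgroup G).map (QuotientGroup.mk' N)).Normal := by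
    intro N _ hN
    refine ⟨?_⟩
    rintro _ ⟨u, hu, rfl⟩ g
    obtain ⟨g, rfl⟩ := QuotientGroup.mk'_surjective N g
    obtain ⟨j, hj⟩ := exists_orderOf_eq_pow_of_mem Q.isPGroup' hu
    have h1 : IsPGroup q (zpowers (QuotientGroup.mk' N g * QuotientGroup.mk' N u *
        (QuotientGroup.mk' N g)⁻¹)) := isPGroup_zpowers_of_pow_eq_one (k := j)
      (by rw [conj_pow, ← map_pow, ← hj, pow_orderOf_eq_one, map_one, mul_one, mul_inv_cancel])
    refine ((h1.inf_normalizer_sylow (Q.mapSurjective (QuotientGroup.mk'_surjective N))).le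
      ⟨mem_zpowers _, centralizer_le_normalizer _ (mem_centralizer_iff.2 ?_)⟩).2
    rintro _ ⟨v, hv, rfl⟩
    obtain ⟨k, hk⟩ := hQi v hv
    obtain ⟨l, hl⟩ := hQi u hu
    rw [← map_inv, ← map_mul, ← map_mul]
    exact mem_cent.1 ((mem_comap_cent_iff N).2
      (hN (commutator_mem_pCore hk (by rwa [index_cent_conj]))))
  have hL : (pCore p G ⊔ (Q : Subgroup G)).Normal := by
    have h := (hnorm _ le_rfl).comap (QuotientGroup.mk' (pCore p G))
    rwa [comap_map_eq, QuotientGroup.ker_mk', sup_comm] at h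
  refine ⟨⟨pCore p G, _, inferInstance, hL, le_sup_left, hO, ?_,
    Nat.Coprime.coprime_dvd_left (index_dvd_of_le le_sup_right) hQc⟩,
    p, hp, hall, fun h => absurd h hpq, fun _ => ⟨hcomm, hL, fun _ => ?_⟩⟩
  · rw [relIndex_sup_left]
    obtain ⟨m, -, hm⟩ := (Nat.dvd_prime_pow hq').1 (hn ▸ relIndex_dvd_card (pCore p G) Q)
    exact ⟨m, hm⟩
  · have hN := hnorm (pPrimeCore q G) (le_pPrimeCore inferInstance hO)
    let Q' := Q.mapSurjective (QuotientGroup.mk'_surjective (pPrimeCore q G))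
    have hcore : pCore q (G ⧸ pPrimeCore q G) = Q' := pCore_eq_of_normal_sylow Q' hN
    have hi : ¬ q ∣ (pCore q (G ⧸ pPrimeCore q G)).index := hcore ▸ Q'.not_dvd_index
    refine PPO.isSolvable_of_index_pCore (IsPSolvable.centralizer_pCore_le
      (IsPSolvable.extension (pCore q _) (IsPSolvable.of_isPGroup (pCore_isPGroup q _))
        (IsPSolvable.of_coprime ((Nat.Prime.coprime_iff_not_dvd hq').2 hi).symm))
      (pPrimeCore_quotient_pPrimeCore q G)) hi hp ?_
    rw [hcore]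
    rintro _ ⟨u, hu, rfl⟩
    exact (hQi u hu).imp fun k hk => (index_cent_mk_dvd _ u).trans hk

end Cfsg.Agent.S4125
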