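import Cfsg.Statements.S4126
import Cfsg.Agent.Trans.SmallOrderAction
import Cfsg.Agent.S0007

set_option autoImplicit false
open Cfsg

namespace Cfsg.Agent.S4126

open Cfsg.Lib.Trans


/-- Let G be a finite group and p a prime. Suppose every element of order p, and when p = 2 also every element of order 4, has a conjugacy class of p-power size. Then G has a normal p-complement. -/
theorem result {G : Type*} [Group G] [Finite G] (p : ℕ) [Fact p.Prime]
    (h : ∀ x : G, (orderOf x = p ∨ (p = 2 ∧ orderOf x = 4)) → ∃ a : ℕ, (Subgroup.centralizer ({x} : Set G)).index = p ^ a) :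
    Cfsg.HasNormalPComplement p G := by
  let P : Sylow p G := default
  apply hasNormalPComplement_of_controls_small_fusion P
  intro a ha h4 g _ _
  by_cases ha1 : a = 1
  · exact ⟨1, one_mem _, by simp [ha1]⟩
  have h5 : orderOf a = p ∨ (p = 2 ∧ orderOf a = 4) := by
    by_cases hp1 : a ^ p = 1
    · exact Or.inl (orderOf_eq_prime hp1 ha1)
    · obtain ⟨h2, h4'⟩ := h4.resolve_left hp1
      subst h2
      exact Or.inr ⟨rfl, orderOf_eq_prime_pow (p := 2) (n := 1) (by simpa using hp1) h4'⟩
  obtain ⟨k, hk⟩ := h a h5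
  obtain ⟨x, hx, c, hc, rfl⟩ := (Cfsg.Agent.S0007.result (P : Subgroup G)
    (Subgroup.centralizer ({a} : Set G)) (by
      rw [hk]; exact Nat.Coprime.pow_right k (coprime_iff_not_dvd'.mpr P.not_dvd_index))).2 g
  refine ⟨x, hx, ?_⟩
  have := hc a rfl
  calc x * c * a * (x * c)⁻¹ = x * (c * a) * (x * c)⁻¹ := by group
    _ = x * a * x⁻¹ := by rw [← this]; group

end Cfsg.Agent.S4126
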