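import Cfsg.Statements.S4130
import Cfsg.Agent.S4167
import Cfsg.Agent.S0528
import Cfsg.Agent.Solv.ClassSize
import Cfsg.Agent.Solv.SupersolvableFinite
import Cfsg.Agent.Perm.Socle

set_option autoImplicit false
open Cfsg

namespace Cfsg.Agent.S4130

open Cfsg.Lib.Solv Cfsg.Lib.Solv.ClassSize Subgroup

universe u

section

variable {G : Type*} [Group G] [Finite G] {p : ℕ}

/-- the commutators of `x` with elements of `U` -/
def cs (U : Subgroup G) (x : G) : Set G := {d | ∃ u ∈ U, d = u * x * u⁻¹ * x⁻¹}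

omit [Finite G] in
theorem ncard_cs (U : Subgroup G) (x : G) :
    (cs U x).ncard = (centralizer ({x} : Set G)).relIndex U := by
  have key : ∀ a b : U, (a : G) * x * (a : G)⁻¹ * x⁻¹ = b * x * (b : G)⁻¹ * x⁻¹ ↔
      a⁻¹ * b ∈ (centralizer ({x} : Set G)).subgroupOf U := fun a b => by
    rw [mem_subgroupOf, mem_cent_iff_conj, mul_left_inj, coe_mul, coe_inv]
    constructor
    · intro e
      calc _ = (a : G)⁻¹ * (b * x * (b : G)⁻¹) * a := by group
        _ = _ := by rw [← e]; group
    · intro e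
      calc _ = (a : G) * ((a : G)⁻¹ * b * x * ((a : G)⁻¹ * b)⁻¹) * (a : G)⁻¹ := by rw [e]
        _ = _ := by group
  let f : U ⧸ (centralizer ({x} : Set G)).subgroupOf U → G :=
    Quotient.lift (fun u : U => (u : G) * x * (u : G)⁻¹ * x⁻¹)
      fun a b hab => (key a b).2 (QuotientGroup.leftRel_apply.1 hab)
  have hf : Function.Injective f := by
    rintro ⟨a⟩ ⟨b⟩ hab
    exact QuotientGroup.eq.2 ((key a b).1 hab)
  have : cs U x = Set.range f := by
    ext d
    exact ⟨fun ⟨u, hu, e⟩ => ⟨QuotientGroup.mk ⟨u, hu⟩, e.symm⟩, fun ⟨q, e⟩ => by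
      obtain ⟨u, rfl⟩ := QuotientGroup.mk_surjective q
      exact ⟨u, u.2, e.symm⟩⟩
  rw [this, ← Nat.card_coe_set_eq, Nat.card_range_of_injective hf]
  rfl

theorem le_ncard_cs [hp : Fact p.Prime] {U : Subgroup G} (hU : IsPGroup p U) {x : G}
    (h : ¬ U ≤ centralizer ({x} : Set G)) : p ≤ (cs U x).ncard := by
  obtain ⟨k, hk⟩ := hU.index ((centralizer ({x} : Set G)).subgroupOf U)
  rw [ncard_cs]
  rcases k with _ | k
  · exact absurd (relIndex_eq_one.1 hk) h
  · rw [relIndex, hk]
    exact Nat.le_self_pow (by omega) p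

theorem relIndex_dvd [hp : Fact p.Prime] {S : Subgroup G} [S.Normal] (hS : IsPGroup p S) {x : G}
    (h : Squarefree (centralizer ({x} : Set G)).index) :
    (centralizer ({x} : Set G)).relIndex S ∣ p := by
  obtain ⟨k, hk⟩ := hS.index ((centralizer ({x} : Set G)).subgroupOf S)
  have := h.squarefree_of_dvd (relIndex_dvd_index_of_normal_right _ S)
  rw [relIndex, hk] at this ⊢
  rcases k with _ | k
  · simp
  · rw [((Nat.squarefree_pow_iff hp.out.ne_one (by omega)).1 this).2, pow_one]

theorem rank_one [hp : Fact p.Prime] {S : Subgroup G} [hSn : S.Normal] (hS : IsPGroup p S)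
    (h : ∀ x : G, Squarefree (centralizer ({x} : Set G)).index) :
    (center G).relIndex S ∣ p ∨ ∃ D : Subgroup G, D.Normal ∧ Nat.card D = p ∧ D ≤ S ∧
      ∀ s ∈ S, ∀ g : G, s * g * s⁻¹ * g⁻¹ ∈ D := by
  have hle : ∀ x, (cs S x).ncard ≤ p := fun x => by
    rw [ncard_cs]; exact Nat.le_of_dvd hp.out.pos (relIndex_dvd hS (h x))
  have heq : ∀ x, ¬ S ≤ centralizer ({x} : Set G) → (centralizer ({x} : Set G)).relIndex S = p :=
    fun x hx => by rw [← ncard_cs]; exact le_antisymm (hle x) (le_ncard_cs hS hx)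
  have hsub : ∀ x y, ¬ S ⊓ centralizer ({y} : Set G) ≤ centralizer ({x} : Set G) →
      ∀ T : Set G, T.ncard ≤ p → cs (S ⊓ centralizer ({y} : Set G)) x ⊆ T →
        cs (S ⊓ centralizer ({y} : Set G)) x = T := fun x y hxy T hT hs =>
    Set.eq_of_subset_of_ncard_le hs (hT.trans (le_ncard_cs (hS.to_le inf_le_left) hxy))
  have hmono : ∀ (U : Subgroup G) x, cs (S ⊓ U) x ⊆ cs S x := fun U x _ ⟨u, hu, e⟩ => ⟨u, hu.1, e⟩
  have hinc : ∀ x y, ¬ S ≤ centralizer ({x} : Set G) →
      S ⊓ centralizer ({y} : Set G) ≤ centralizer ({x} : Set G) →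
      S ⊓ centralizer ({x} : Set G) ≤ centralizer ({y} : Set G) := by
    intro x y hx hyx
    have hy : ¬ S ≤ centralizer ({y} : Set G) := fun e => hx (by rwa [inf_eq_left.2 e] at hyx)
    have h1 : (centralizer ({y} : Set G)).subgroupOf S ≤ (centralizer ({x} : Set G)).subgroupOf S :=
      fun s hs => hyx ⟨s.2, hs⟩
    have h2 := eq_of_le_of_not_lt h1 fun hlt => by
      have := index_strictAnti hlt
      exact this.ne ((heq x hx).trans (heq y hy).symm)
    intro s hs
    have : (⟨s, hs.1⟩ : S) ∈ (centralizer ({x} : Set G)).subgroupOf S := hs.2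
    rwa [← h2] at this
  have hD : ∀ x y, ¬ S ≤ centralizer ({y} : Set G) →
      ¬ S ⊓ centralizer ({y} : Set G) ≤ centralizer ({x} : Set G) → cs S y ⊆ cs S x := by
    intro x y hy hyx
    have hxy : ¬ S ⊓ centralizer ({x} : Set G) ≤ centralizer ({y} : Set G) :=
      fun e => hyx (hinc y x hy e)
    have e1 := hsub x y hyx _ (hle x) (hmono _ x)
    have e2 := hsub x y hyx _ (hle (x * y)) (by
      rintro _ ⟨u, hu, rfl⟩
      refine ⟨u, hu.1, ?_⟩
      calc _ = u * x * u⁻¹ * (u * y * u⁻¹) * (x * y)⁻¹ := by rw [mem_cent_iff_conj.1 hu.2]; group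
        _ = _ := by group)
    rw [← hsub y x hxy _ (hle y) (hmono _ y)]
    rintro _ ⟨u, hu, rfl⟩
    obtain ⟨s, hs, e⟩ : u * (x * y) * u⁻¹ * (x * y)⁻¹ ∈ cs S x := by
      rw [← e1, e2]; exact ⟨u, hu.1, rfl⟩
    refine ⟨x⁻¹ * s * x⁻¹⁻¹, hSn.conj_mem s hs _, ?_⟩
    calc _ = x⁻¹ * ((u * x * u⁻¹) * (u * y * u⁻¹) * (x * y)⁻¹) * x := by
          rw [mem_cent_iff_conj.1 hu.2]; group
      _ = x⁻¹ * (u * (x * y) * u⁻¹ * (x * y)⁻¹) * x := by group
      _ = _ := by rw [e]; group
  by_cases hA : ∀ x y, ¬ S ≤ centralizer ({x} : Set G) →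
      S ⊓ centralizer ({x} : Set G) ≤ centralizer ({y} : Set G)
  · left
    by_cases hc : ∀ x, S ≤ centralizer ({x} : Set G)
    · rw [relIndex_eq_one.2 fun s hs => mem_center_iff.2 fun x => (mem_cent.1 (hc x hs)).symm]
      exact one_dvd p
    · push Not at hc
      obtain ⟨x, hx⟩ := hc
      rw [← heq x hx]
      exact index_dvd_of_le fun s hs =>
        mem_center_iff.2 fun y => (mem_cent.1 (hA x y hx ⟨s.2, hs⟩)).symm
  right
  push Not at hA
  obtain ⟨x, y, hx, hxy⟩ := hA
  have hall : ∀ s ∈ S, ∀ z : G, s * z * s⁻¹ * z⁻¹ ∈ cs S x := by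
    intro s hs z
    by_cases hz : S ≤ centralizer ({z} : Set G)
    · exact ⟨1, S.one_mem, by rw [mem_cent_iff_conj.1 (hz hs)]; group⟩
    by_cases h1 : S ⊓ centralizer ({z} : Set G) ≤ centralizer ({x} : Set G)
    · have hy : ¬ S ≤ centralizer ({y} : Set G) := fun e => hxy (inf_le_left.trans e)
      exact hD x y hy (fun e => hxy (hinc x y hx e)) (hD y z hz (fun e =>
        hxy ((le_inf inf_le_left (hinc x z hx h1)).trans e)) ⟨s, hs, rfl⟩)
    · exact hD x z hz h1 ⟨s, hs, rfl⟩
  have hDS : ∀ d ∈ cs S x, d ∈ S := by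
    rintro _ ⟨s, hs, rfl⟩
    rw [mul_assoc, mul_assoc, ← mul_assoc x]
    exact S.mul_mem hs (hSn.conj_mem _ (S.inv_mem hs) x)
  have hconj : ∀ d ∈ cs S x, ∀ g : G, g * d * g⁻¹ ∈ cs S x := by
    rintro _ ⟨s, hs, rfl⟩ g
    have := hall _ (hSn.conj_mem s hs g) (g * x * g⁻¹)
    rwa [show g * s * g⁻¹ * (g * x * g⁻¹) * (g * s * g⁻¹)⁻¹ * (g * x * g⁻¹)⁻¹ =
      g * (s * x * s⁻¹ * x⁻¹) * g⁻¹ by group] at this
  have hone : (1 : G) ∈ cs S x := ⟨1, S.one_mem, by group⟩
  have hcen : ∀ d ∈ cs S x, ∀ s ∈ S, s * d * s⁻¹ = d := by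
    intro d hd
    by_cases hd1 : d = 1
    · simp [hd1]
    by_contra hc
    have h1 := le_ncard_cs hS (x := d) fun e => hc fun s hs => mem_cent_iff_conj.1 (e hs)
    have h2 : (cs S d).ncard ≤ (cs S x \ {1}).ncard :=
      Set.ncard_le_ncard_of_injOn (· * d) (by
        rintro _ ⟨s, hs, rfl⟩
        rw [inv_mul_cancel_right]
        exact ⟨hconj d hd s, fun e => hd1 (by simpa using e)⟩) (mul_left_injective d).injOn
    have h3 := Set.ncard_sdiff_singleton_lt_of_mem hone
    have := hle x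
    omega
  have hmul : ∀ s ∈ S, ∀ t ∈ S, (t * x * t⁻¹ * x⁻¹) * (s * x * s⁻¹ * x⁻¹) =
      (s * t) * x * (s * t)⁻¹ * x⁻¹ := fun s hs t ht => by
    rw [← hcen _ ⟨t, ht, rfl⟩ s hs]; group
  refine ⟨⟨⟨⟨cs S x, ?_⟩, hone⟩, ?_⟩, ⟨hconj⟩, ?_, hDS, hall⟩
  · rintro _ _ ⟨s, hs, rfl⟩ ⟨t, ht, rfl⟩
    exact ⟨_, S.mul_mem ht hs, hmul t ht s hs⟩
  · rintro _ ⟨s, hs, rfl⟩
    refine ⟨s⁻¹, S.inv_mem hs, inv_eq_of_mul_eq_one_left ?_⟩
    rw [hmul s hs _ (S.inv_mem hs)]; group
  · rw [← heq x hx, ← ncard_cs]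
    rfl

open scoped IsMulCommutative in
theorem pow_index_eq_one (S : Subgroup G) [IsMulCommutative S] {z : G} (hz : z ∈ commutator G)
    (hc : z ∈ center G) : z ^ S.index = 1 := by
  have h1 := MonoidHom.transfer_eq_pow (MonoidHom.id S) z fun k g _ => by
    rw [mul_assoc, ← mem_center_iff.1 (pow_mem hc k) g, inv_mul_cancel_left]
  rw [Abelianization.commutator_subset_ker _ hz] at h1
  exact (congrArg Subtype.val h1).symm

theorem eq_one_of_sylow [hp : Fact p.Prime] (S : Subgroup G) [IsMulCommutative S]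
    (hS : ¬ p ∣ S.index) (hG : IsPGroup p (commutator G)) {z : G} (hz : z ∈ commutator G)
    (hc : z ∈ center G) : z = 1 := by
  obtain ⟨k, hk⟩ := hG ⟨z, hz⟩
  rw [← orderOf_eq_one_iff]
  exact Nat.eq_one_of_dvd_coprimes
    (Nat.Coprime.pow_left k ((Nat.Prime.coprime_iff_not_dvd hp.out).2 hS))
    (orderOf_dvd_of_pow_eq_one (congrArg Subtype.val hk))
    (orderOf_dvd_of_pow_eq_one (pow_index_eq_one S hz hc))

theorem card_comm_dvd [hp : Fact p.Prime] (hG : IsPGroup p (commutator G))
    (h : ∀ x : G, Squarefree (centralizer ({x} : Set G)).index) : Nat.card (commutator G) ∣ p := by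
  obtain ⟨S, hS⟩ := hG.exists_le_sylow
  have : (S : Subgroup G).Normal := Normal.of_commutator_le G hS
  rcases rank_one S.isPGroup' h with hA | ⟨D, hD, hDp, -, hcom⟩
  · have : IsCyclic (S ⧸ (center G).subgroupOf S) := isCyclic_of_card_dvd_prime hA
    have : IsMulCommutative S := MonoidHom.isMulCommutative_of_isCyclic_of_ker_le_center
      (QuotientGroup.mk' ((center G).subgroupOf S)) (by
        rw [QuotientGroup.ker_mk']
        exact fun s hs => mem_center_iff.2 fun t => Subtype.ext (mem_center_iff.1 hs t))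
    refine (card_dvd_of_injective ((QuotientGroup.mk' ((center G).subgroupOf S)).comp
      (inclusion hS)) ((injective_iff_map_eq_one _).2 fun z hz => Subtype.ext ?_)).trans hA
    have hz' : inclusion hS z ∈ (center G).subgroupOf S := (QuotientGroup.eq_one_iff _).1 hz
    exact eq_one_of_sylow (p := p) (S : Subgroup G) S.not_dvd_index hG z.2 hz'
  · rw [← hDp]
    refine card_dvd_of_le fun z hz => (QuotientGroup.eq_one_iff z).1 ?_
    have hmap : (commutator G).map (QuotientGroup.mk' D) = commutator (G ⧸ D) := by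
      rw [map_commutator_eq, QuotientGroup.range_mk']; rfl
    have hcen : (S : Subgroup G).map (QuotientGroup.mk' D) ≤ center (G ⧸ D) := by
      rintro _ ⟨s, hs, rfl⟩
      refine mem_center_iff.2 fun g => ?_
      obtain ⟨g, rfl⟩ := QuotientGroup.mk_surjective g
      have := (QuotientGroup.eq_one_iff _).2 (hcom s hs g)
      simp only [QuotientGroup.mk_mul, QuotientGroup.mk_inv, mul_inv_eq_iff_eq_mul,
        one_mul] at this
      exact this.symm
    have : IsMulCommutative ((S : Subgroup G).map (QuotientGroup.mk' D)) :=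
      ⟨⟨fun a b => Subtype.ext (mem_center_iff.1 (hcen b.2) a)⟩⟩
    exact eq_one_of_sylow ((S : Subgroup G).map (QuotientGroup.mk' D))
      (fun e => S.not_dvd_index (e.trans (index_map_dvd _ (QuotientGroup.mk'_surjective D))))
      (hmap ▸ hG.map _) (hmap ▸ ⟨z, hz, rfl⟩) (hcen ⟨z, hS hz, rfl⟩)

theorem exists_prime_normal [Group.IsSolvable G] {K : Subgroup G} [K.Normal] (hK : K ≠ ⊥)
    (h : ∀ x : G, Squarefree (centralizer ({x} : Set G)).index) :
    ∃ N : Subgroup G, N.Normal ∧ (Nat.card N).Prime ∧ N ≤ K := by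
  obtain ⟨N, hN, hNK⟩ := Cfsg.Lib.Perm.Socle.exists_minN K hK
  have := hN.normal
  have hc : IsMulCommutative N := by
    by_contra hna
    obtain ⟨T, hT⟩ := Cfsg.Lib.Perm.Socle.exists_factor hN.ne
    exact hT.not_isSolvable hN hna inferInstance
  obtain ⟨p, hp, hexp⟩ := Cfsg.Lib.Perm.exists_prime_pow_eq_one_of_minNormal N hN.ne hN.min hc
  have := Fact.mk hp
  have hNp : IsPGroup p N := fun x => ⟨1, Subtype.ext (by simpa using hexp x x.2)⟩
  rcases rank_one hNp h with hA | ⟨D, hD, hDp, hDN, -⟩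
  · rcases hN.min (center G ⊓ N) inferInstance inf_le_right with e | e
    · refine ⟨N, hN.normal, ?_, hNK⟩
      rw [← inf_relIndex_right, e, relIndex_bot_left] at hA
      rcases (Nat.dvd_prime hp).1 hA with e1 | e1
      · exact absurd (card_eq_one.1 e1) hN.ne
      · rwa [e1]
    · obtain ⟨⟨z, hz⟩, hz1⟩ := ne_bot_iff_exists_ne_one.1 hN.ne
      refine ⟨zpowers z, normal_zpowers_of_mem_center (inf_eq_right.1 e hz), ?_,
        (zpowers_le.2 hz).trans hNK⟩
      rwa [Nat.card_zpowers, orderOf_eq_prime (hexp z hz) fun e => hz1 (Subtype.ext e)]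
  · exact ⟨D, hD, by rwa [hDp], hDN.trans hNK⟩

end

theorem main (n : ℕ) : ∀ (G : Type u) [Group G] [Finite G] [Group.IsSolvable G], Nat.card G = n →
    (∀ x : G, Squarefree (centralizer ({x} : Set G)).index) →
    IsCyclic (commutator G) ∧ Squarefree (Nat.card (commutator G)) := by
  induction n using Nat.strong_induction_on with
  | _ n ih =>
  intro G _ _ _ hn h
  have hq : ∀ (N : Subgroup G) [N.Normal], N ≠ ⊥ →
      IsCyclic ((commutator G).map (QuotientGroup.mk' N)) ∧
        Squarefree (Nat.card ((commutator G).map (QuotientGroup.mk' N))) := by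
    intro N _ hN
    have hmap : (commutator G).map (QuotientGroup.mk' N) = commutator (G ⧸ N) := by
      rw [map_commutator_eq, QuotientGroup.range_mk']; rfl
    rw [hmap]
    refine ih _ (hn ▸ card_quotient_lt_of_ne_bot N hN) (G ⧸ N) rfl fun x => ?_
    obtain ⟨x, rfl⟩ := QuotientGroup.mk_surjective x
    exact (h x).squarefree_of_dvd (index_cent_mk_dvd N x)
  by_cases h0 : commutator G = ⊥
  · rw [h0]
    exact ⟨inferInstance, by simp⟩
  obtain ⟨N, hN, hNp, hNK⟩ := exists_prime_normal h0 h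
  have hab : IsMulCommutative (commutator G) := by
    have := (hq N fun e => by simp [e, Nat.not_prime_one] at hNp).1
    refine MonoidHom.isMulCommutative_of_isCyclic_of_ker_le_center
      ((QuotientGroup.mk' N).subgroupMap (commutator G)) fun z hz => ?_
    have hzN : (z : G) ∈ N := (QuotientGroup.eq_one_iff _).1 (congrArg Subtype.val hz)
    have := Fact.mk hNp
    have : IsCyclic N := isCyclic_of_prime_card rfl
    exact mem_center_iff.2 fun y => Subtype.ext
      (commutator_le_centralizer_of_isCyclic N y.2 z hzN).symm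
  have hsq : Squarefree (Nat.card (commutator G)) := by
    rw [Nat.squarefree_iff_prime_squarefree]
    intro p hp hpp
    have := Fact.mk hp
    by_cases hP : IsPGroup p (commutator G)
    · have h1 := Nat.le_of_dvd hp.pos (hpp.trans (card_comm_dvd hP h))
      have := hp.two_le
      nlinarith
    obtain ⟨q, hq', hqd, hqp⟩ : ∃ q : ℕ, q.Prime ∧ q ∣ Nat.card (commutator G) ∧ q ≠ p := by
      by_contra hc
      push Not at hc
      exact hP (IsPGroup.of_card (Nat.eq_prime_pow_of_unique_prime_dvd Nat.card_pos.ne'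
        fun {q} h1 h2 => hc q h1 h2))
    have := Fact.mk hq'
    let Q : Subgroup G :=
      { carrier := {x | x ∈ commutator G ∧ x ^ q = 1}
        one_mem' := ⟨one_mem _, one_pow q⟩
        mul_mem' := fun {a b} ha hb => ⟨mul_mem ha.1 hb.1, by
          rw [Commute.mul_pow (setLike_mul_comm ha.1 hb.1), ha.2, hb.2, one_mul]⟩
        inv_mem' := fun {a} ha => ⟨inv_mem ha.1, by rw [inv_pow, ha.2, inv_one]⟩ }
    have hQn : Q.Normal := ⟨fun a ha g => ⟨Normal.conj_mem inferInstance a ha.1 g, by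
      rw [conj_pow, ha.2, mul_one, mul_inv_cancel]⟩⟩
    obtain ⟨z, hz⟩ := exists_prime_orderOf_dvd_card' q hqd
    have h1 := (hq Q fun e => by
      have : (z : G) ∈ Q := ⟨z.2, by rw [← hz, ← coe_pow, pow_orderOf_eq_one, coe_one]⟩
      rw [e, mem_bot] at this
      rw [show z = 1 from Subtype.ext this, orderOf_one] at hz
      exact hq'.ne_one hz.symm).2
    have hQq : IsPGroup q (Q.subgroupOf (commutator G)) := fun x =>
      ⟨1, Subtype.ext (Subtype.ext (by simpa using x.2.2))⟩
    obtain ⟨k, hk⟩ := hQq.exists_card_eq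
    rw [← relIndex_ker, QuotientGroup.ker_mk'] at h1
    rw [← card_mul_index (Q.subgroupOf (commutator G)), hk] at hpp
    have hco : p.Coprime (q ^ k) := ((Nat.coprime_primes hp hq').2 hqp.symm).pow_right k
    exact Nat.squarefree_iff_prime_squarefree.1 h1 p hp
      ((hco.mul_left hco).dvd_of_dvd_mul_left hpp)
  have := IsZGroup.of_squarefree hsq
  have := isNilpotent_of_isMulCommutative (commutator G)
  exact ⟨inferInstance, hsq⟩

/-- Let G be a finite group all of whose conjugacy class sizes are square-free. Then G is supersolvable, G/F(G) and the derived subgroup G′ are cyclic of square-free order (F(G) the Fitting subgroup, which is normal), F(G) has nilpotency class at most 2, and G is metabelian. -/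
theorem result {G : Type*} [Group G] [Finite G]
    (h : ∀ x : G, Squarefree (Subgroup.centralizer ({x} : Set G)).index) :
    Cfsg.IsSupersolvable G ∧ (Cfsg.fittingSubgroup G).Normal ∧
    (∀ _h : (Cfsg.fittingSubgroup G).Normal, IsCyclic (G ⧸ Cfsg.fittingSubgroup G) ∧ Squarefree (Cfsg.fittingSubgroup G).index) ∧
    IsCyclic (commutator G) ∧ Squarefree (Nat.card (commutator G)) ∧
    Subgroup.upperCentralSeries ↥(Cfsg.fittingSubgroup G) 2 = ⊤ ∧ commutator ↥(commutator G) = ⊥ := by
  have : Group.IsSolvable G := Cfsg.Agent.S4167.result fun x h4 =>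
    Nat.squarefree_iff_prime_squarefree.1 (h x) 2 Nat.prime_two h4
  obtain ⟨hcyc, hsq⟩ := main _ G rfl h
  have hab : IsMulCommutative (commutator G) := IsCyclic.isMulCommutative
  have hqc : ∀ (N : Subgroup G) [N.Normal], commutator G ≤ N → IsMulCommutative (G ⧸ N) :=
    fun N _ hN => Normal.quotient_commutative_iff_commutator_le.2 hN
  have hGF : commutator G ≤ fittingSubgroup G :=
    le_fitting inferInstance (isNilpotent_of_isMulCommutative _)
  have hFC : fittingSubgroup G ≤ centralizer (commutator G : Set G) := by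
    intro x hx
    rw [← le_cent_iff, ← relIndex_eq_one]
    by_contra h1
    obtain ⟨p, hp, hpd⟩ := Nat.exists_prime_and_dvd h1
    have := Fact.mk hp
    obtain ⟨z, hz⟩ := exists_prime_orderOf_dvd_card' p (hpd.trans (relIndex_dvd_card _ _))
    have hzn : (zpowers (z : G)).Normal := by
      obtain ⟨w, hw⟩ := (Subgroup.isCyclic_iff_exists_zpowers_eq_top _).1 hcyc
      obtain ⟨k, hk⟩ := mem_zpowers_iff.1 (hw.ge z.2)
      refine ⟨fun y hy g => ?_⟩
      obtain ⟨j, hj⟩ := mem_zpowers_iff.1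
        (hw.ge (Normal.conj_mem inferInstance w (hw.le (mem_zpowers w)) g))
      obtain ⟨i, rfl⟩ := mem_zpowers_iff.1 hy
      refine mem_zpowers_iff.2 ⟨j * i, ?_⟩
      rw [← hk, ← zpow_mul, ← zpow_mul, ← conj_zpow, ← hj, ← zpow_mul]
      congr 1
      ring
    have hzc := fitting_le_centralizer_of_minimal_normal (A := zpowers (z : G)) (fun M _ hM => by
      have h2 := card_dvd_of_le hM
      rw [Nat.card_zpowers, orderOf_coe, hz] at h2
      rcases (Nat.dvd_prime hp).1 h2 with e | e
      · exact Or.inl (card_eq_one.1 e)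
      · exact Or.inr (eq_of_le_of_card_ge hM (by rw [e, Nat.card_zpowers, orderOf_coe, hz]))) hx
    have h3 : z ∈ (centralizer ({x} : Set G)).subgroupOf (commutator G) :=
      mem_cent.2 (hzc _ (mem_zpowers _))
    refine Nat.squarefree_iff_prime_squarefree.1 hsq p hp ?_
    rw [← card_mul_index ((centralizer ({x} : Set G)).subgroupOf (commutator G))]
    exact mul_dvd_mul (hz ▸ orderOf_dvd_natCard _ h3) hpd
  have hCF : centralizer (commutator G : Set G) ≤ fittingSubgroup G := by
    refine le_fitting inferInstance ?_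
    have := hqc _ le_rfl
    have := isNilpotent_of_isMulCommutative (G ⧸ commutator G)
    refine Subgroup.isNilpotent_of_ker_le_center
      ((QuotientGroup.mk' (commutator G)).comp (centralizer (commutator G : Set G)).subtype)
      fun z hz => mem_center_iff.2 fun y => Subtype.ext ?_
    exact (y.2 z ((QuotientGroup.eq_one_iff _).1 hz)).symm
  have hidx : Squarefree (fittingSubgroup G).index := by
    obtain ⟨z, hz⟩ := (Subgroup.isCyclic_iff_exists_zpowers_eq_top _).1 hcyc
    rw [le_antisymm hFC hCF, ← hz, centralizer_zpowers]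
    exact h z
  refine ⟨?_, inferInstance, fun _ => ⟨?_, hidx⟩, hcyc, hsq, ?_, commutator_eq_bot _⟩
  · have := hqc _ le_rfl
    have := isNilpotent_of_isMulCommutative (G ⧸ commutator G)
    exact Cfsg.Agent.S0528.result (commutator G) (isSupersolvable_of_isNilpotent _)
  · have := hqc _ hGF
    have := isNilpotent_of_isMulCommutative (G ⧸ fittingSubgroup G)
    have : IsZGroup (G ⧸ fittingSubgroup G) := IsZGroup.of_squarefree hidx
    infer_instance
  · rw [eq_top_iff]
    intro x _
    refine Subgroup.mem_upperCentralSeries_succ_iff.2 fun y => ?_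
    rw [Subgroup.upperCentralSeries_one]
    exact mem_center_iff.2 fun w => Subtype.ext
      (hFC w.2 _ (commutator_mem_commutator (mem_top (x : G)) (mem_top (y : G)))).symm

end Cfsg.Agent.S4130
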