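import Cfsg.Statements.S4137
import Cfsg.Agent.CITCor.ClsFour

set_option autoImplicit false
open Cfsg

namespace Cfsg.Agent.S4137

open Cfsg.Lib.CITCor Cfsg.Lib.CITCor.Cls Cfsg.Lib.Solv.ClassSize

/-- Let G be a finite group with trivial centre and at most three distinct sizes of conjugacy classes other than 1. Then G is solvable or G is isomorphic to PSL₂(2^a) for some a ≥ 1. -/
theorem result {G : Type*} [Group G] [Finite G]
    (hZ : Subgroup.center G = ⊥) (h : Nat.card {n : ℕ | 1 < n ∧ ∃ x : G, (Subgroup.centralizer ({x} : Set G)).index = n} ≤ 3) :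
    Group.IsSolvable G ∨ ∃ a : ℕ, 0 < a ∧ Nonempty (G ≃* Matrix.ProjectiveSpecialLinearGroup (Fin 2) (GaloisField 2 a)) := by
  by_cases hns : Group.IsSolvable G
  · exact Or.inl hns
  obtain ⟨n, hn, he⟩ := (isL2Even_of_four hZ hns _ h
    ((Set.finite_range fun x : G => (Subgroup.centralizer ({x} : Set G)).index).subset
      fun _ hm => hm.2) fun x hx =>
        ⟨one_lt_index_cent (by rwa [hZ, Subgroup.mem_bot]), x, rfl⟩).exists_galois
  exact Or.inr ⟨n, by omega, he⟩

end Cfsg.Agent.S4137
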