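import Cfsg.Statements.S4138
import Cfsg.Agent.Solv.BHM2

set_option autoImplicit false
open Cfsg

namespace Cfsg.Agent.S4138

open Subgroup Cfsg.Lib.Solv Cfsg.Lib.Solv.ClassSize Cfsg.Lib.FT
open scoped commutatorElement

/-- Let G be a finite group whose two largest conjugacy class sizes m > n > 1 are coprime, and let x, y ∈ G have classes of sizes n and m respectively. Then C_G(x) and C_G(y) are abelian, and G/Z(G) is a Frobenius group with kernel C_G(x)/Z(G) and complement C_G(y)/Z(G). -/
theorem result {G : Type*} [Group G] [Finite G] (m n : ℕ) (hmn : n < m) (hn : 1 < n)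
    (hcop : m.Coprime n) (htop : ∀ z : G, (Subgroup.centralizer ({z} : Set G)).index ≤ m) (hsecond : ∀ z : G, (Subgroup.centralizer ({z} : Set G)).index < m → (Subgroup.centralizer ({z} : Set G)).index ≤ n)
    (x y : G) (hx : (Subgroup.centralizer ({x} : Set G)).index = n) (hy : (Subgroup.centralizer ({y} : Set G)).index = m) :
    IsMulCommutative (Subgroup.centralizer ({x} : Set G)) ∧ IsMulCommutative (Subgroup.centralizer ({y} : Set G)) ∧
    Cfsg.IsFrobeniusComplement ((Subgroup.centralizer ({y} : Set G)).map (QuotientGroup.mk' (Subgroup.center G))) ∧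
    Cfsg.frobeniusKernel ((Subgroup.centralizer ({y} : Set G)).map (QuotientGroup.mk' (Subgroup.center G))) =
      ((Subgroup.centralizer ({x} : Set G)).map (QuotientGroup.mk' (Subgroup.center G)) : Set (G ⧸ Subgroup.center G)) := by
  have hy' : ∀ z : G, (centralizer ({z} : Set G)).index ≤ (centralizer ({y} : Set G)).index :=
    hy ▸ htop
  obtain ⟨K₀, hK₀, hK₀c, -, hK₀M⟩ := exists_normal_bhm hy'
  have hMc := isMulCommutative_bhm hy'
  have hM1' := @mem_center_of_mem_bhm G _ _ y hy'
  rw [hy] at hK₀c hK₀M hMc hM1'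
  set M := bhm m G
  let π : Set ℕ := {p | p ∣ m}
  have hπm : IsPiNum π m := fun p _ h => h
  have hπn : IsPiNum πᶜ n := fun p hp h h' => hp.one_lt.ne' (Nat.eq_one_of_dvd_coprimes hcop h' h)
  have hpos : ∀ z : G, 0 < (centralizer ({z} : Set G)).index := fun z =>
    Nat.pos_of_ne_zero index_ne_zero_of_finite
  have hsize : ∀ z : G, n ≤ (centralizer ({z} : Set G)).index →
      (centralizer ({z} : Set G)).index = n ∨ (centralizer ({z} : Set G)).index = m := fun z h =>
    (htop z).lt_or_eq.imp_left fun h' => le_antisymm (hsecond z h') h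
  have hnm : ¬ n ∣ m := fun h => hn.ne' (Nat.eq_one_of_dvd_coprimes hcop h dvd_rfl)
  have hM1 : ∀ d ∈ M, PiElt πᶜ d → d ∈ center G := fun d hd h =>
    hM1' hd (hπm.coprime (piElt_iff.1 h)).symm
  have hMcent : ∀ d ∈ M, M ≤ centralizer {d} := fun d hd a ha =>
    ClassSize.mem_cent.2 (PG.mul_comm_of_mem ha hd)
  have hcent : ∀ {d : G}, constt πᶜ d ∈ center G →
      centralizer ({constt π d} : Set G) = centralizer {d} := fun {d} h => by
    conv_rhs => rw [← consttC π d, cent_mul_center h]
  have hcentM : ∀ d ∈ M, centralizer ({constt π d} : Set G) = centralizer {d} := fun d hd =>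
    hcent (hM1 _ (groupX_constt _ hd) (p_elt_constt _ _))
  have hxM : ∀ {d : G}, (centralizer ({d} : Set G)).index = n → d ∈ M := fun h =>
    mem_bhm (h ▸ hcop.symm)
  obtain ⟨r, hr, hrn⟩ := Nat.exists_prime_and_dvd hn.ne'
  have hrm : ¬ r ∣ m := hπn r hr hrn
  have hW : ∀ {z d : G}, (centralizer ({z} : Set G)).index = m →
      (centralizer ({d} : Set G)).index = n →
      ∃ w ∈ centralizer ({z} : Set G), w ∉ centralizer ({d} : Set G) ∧ PiElt πᶜ w := by
    intro z d hz hd
    obtain ⟨w, h1, h2, k, hk⟩ := exists_pElt_not_mem (C := centralizer {z}) (D := centralizer {d})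
      hr (hz ▸ hrm) (hd ▸ hrn)
    exact ⟨w, h1, h2, piElt_iff.2 (hk ▸ IsPiNum.prime_pow hr hrm k)⟩
  have L0 : ∀ {z u : G}, (centralizer ({z} : Set G)).index = m → Commute z u →
      (orderOf z).Coprime (orderOf u) → centralizer ({z} : Set G) ≤ centralizer {u} :=
    fun hz hc h => cent_le_of_index_le hc h (hz ▸ htop _)
  have L1 : ∀ {d w : G}, (centralizer ({d} : Set G)).index = n → w ∈ centralizer ({d} : Set G) →
      PiElt πᶜ w → w ∈ center G := by
    intro d w hd hw hwπ
    have hd' := hcentM d (hxM hd)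
    rw [← hd'] at hd hw
    have hc := (mem_cent_iff_commute.1 hw).symm
    have hcp := p_elt_coprime (p_elt_constt π d) hwπ
    have h1 := index_cent_dvd_mul_left hc hcp
    rw [hd] at h1
    have h2 := (hsize _ (Nat.le_of_dvd (hpos _) h1)).resolve_right fun h => hnm (h ▸ h1)
    exact hM1 w (mem_bhm (Nat.Coprime.coprime_dvd_left (h2 ▸ index_cent_dvd_mul_right hc hcp)
      hcop.symm)) hwπ
  have L2 : ∀ {d z : G}, (centralizer ({d} : Set G)).index = n →
      (centralizer ({z} : Set G)).index = m → z ∉ centralizer ({d} : Set G) := by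
    intro d z hd hz h
    have h1 := hcent (L1 hd (groupX_constt _ h) (p_elt_constt _ _))
    rw [← h1] at hz
    obtain ⟨w, h2, h3, h4⟩ := hW hz hd
    refine h3 (mem_cent_comm.1 (L0 hz (mem_cent_iff_commute.1 h2).symm
      (p_elt_coprime (p_elt_constt _ _) h4) ?_))
    rw [h1]
    exact mem_cent_comm.1 h
  have L3 : ∀ {w : G}, PiElt πᶜ w → w ∉ center G → (centralizer ({w} : Set G)).index = m := by
    intro w hwπ hwZ
    have hA : ⁅M, zpowers w⁆ ≤ M ⊓ K₀ := le_inf (commutator_le_left _ _)
      (commutator_le.2 fun d hd g _ => by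
        rw [← commutatorElement_inv]
        exact inv_mem (hK₀M d hd g))
    have hAc : IsMulCommutative (M ⊓ K₀ : Subgroup G) :=
      PG.isMulCommutative_of_forall fun a ha b hb => PG.mul_comm_of_mem ha.1 hb.1
    have hcp : (Nat.card (zpowers w)).Coprime (Nat.card (M ⊓ K₀ : Subgroup G)) := by
      rw [Nat.card_zpowers]
      exact Nat.Coprime.coprime_dvd_right ((card_dvd_of_le inf_le_right).trans hK₀c)
        (hπm.coprime (piElt_iff.1 hwπ)).symm
    have hbot := commutator_inf_centralizer_eq_bot_of_le hA hcp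
    obtain ⟨e, he, c, hc, hec⟩ := Coprime.exists_mul_centralizer_of_commutator_le
      (normalizer_commutator_ge_right M (zpowers w))
      (Nat.Coprime.coprime_dvd_right (card_dvd_of_le hA) hcp)
      (Or.inl (Coprime.isSolvable_zpowers w)) le_rfl (hxM hx)
    rw [centralizer_zpowers] at hbot hc
    have hEB : centralizer ({w} : Set G) ≤ normalizer ((⁅M, zpowers w⁆ : Subgroup G) : Set G) :=
      le_normalizer_commutator (Fpf.le_normalizer_of_normal' _ _)
        (by rw [← centralizer_zpowers]; exact centralizer_le_normalizer _)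
    have hBM : ⁅M, zpowers w⁆ ≤ M := hA.trans inf_le_left
    set B := ⁅M, zpowers w⁆
    set E := centralizer ({w} : Set G) with hE
    have hcM : c ∈ M := (mul_mem_cancel_left (hBM he)).1 (hec ▸ hxM hx)
    have he1 : e ≠ 1 := fun h => hwZ (L1 hx (mem_cent_comm.1 (by rwa [← hec, h, one_mul])) hwπ)
    have h1 : centralizer ({w * constt π c} : Set G) = centralizer {c} ⊓ E := by
      rw [cent_mul_of_coprime (commute_constt _ (mem_cent_iff_commute.1 hc)).symm
        (p_elt_coprime (p_elt_constt π c) hwπ).symm, hcentM c hcM, inf_comm]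
    have h2 : (centralizer ({w * constt π c} : Set G)).index =
        (centralizer ({c} : Set G)).relIndex E * E.index := by
      rw [h1, ← relIndex_mul_index (inf_le_right : centralizer ({c} : Set G) ⊓ E ≤ E),
        inf_relIndex_right]
    have h3 : n ≤ (centralizer ({x} : Set G)).relIndex E * (E ⊔ M).index := by
      rw [relIndex_eq_of_forall_mul (A := E) (B := E ⊔ M) le_sup_left fun b hb => by
        obtain ⟨a, ha, d, hd, rfl⟩ := mem_sup_of_normal_right.1 hb
        exact ⟨a, ha, d, hMcent x (hxM hx) hd, rfl⟩, ← inf_relIndex_right,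
        relIndex_mul_index inf_le_right, ← hx]
      exact Nat.le_of_dvd (Nat.pos_of_ne_zero index_ne_zero_of_finite) (index_dvd_of_le inf_le_left)
    have h4 : (centralizer ({x} : Set G)).relIndex E ≤
        (centralizer ({e} : Set G)).relIndex E * (centralizer ({c} : Set G)).relIndex E :=
      (relIndex_le_of_le_left (hec ▸ inf_cent_le_cent_mul e c) index_ne_zero_of_finite).trans
        relIndex_inf_le
    have h5 := relIndex_cent_lt_card hEB he he1
    have h6 : Nat.card B * (E ⊔ M).index ≤ E.index := by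
      rw [← relIndex_mul_index (le_sup_left : E ≤ E ⊔ M), ← relIndex_bot_left, ← hbot,
        inf_relIndex_left]
      exact Nat.mul_le_mul_right _
        (relIndex_le_of_le_right (hBM.trans le_sup_right) index_ne_zero_of_finite)
    have h7 : 0 < (centralizer ({c} : Set G)).relIndex E * (E ⊔ M).index :=
      Nat.mul_pos (Nat.pos_of_ne_zero index_ne_zero_of_finite)
        (Nat.pos_of_ne_zero index_ne_zero_of_finite)
    have h8 : n < (centralizer ({w * constt π c} : Set G)).index := by
      rw [h2]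
      calc n ≤ (centralizer ({e} : Set G)).relIndex E *
            ((centralizer ({c} : Set G)).relIndex E * (E ⊔ M).index) := by
            rw [← mul_assoc]; exact h3.trans (Nat.mul_le_mul_right _ h4)
        _ < Nat.card B * ((centralizer ({c} : Set G)).relIndex E * (E ⊔ M).index) :=
            Nat.mul_lt_mul_of_pos_right h5 h7
        _ ≤ _ := by rw [mul_left_comm]; exact Nat.mul_le_mul_left _ h6
    have h9 := (hsize _ h8.le).resolve_left h8.ne'
    rw [h2] at h9
    have h10 : (centralizer ({c} : Set G)).relIndex E ∣ n := by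
      rw [← hx, ← relIndex_eq_index_of_coprime (E := E) (C := centralizer {x})
        (hx ▸ Nat.Coprime.coprime_dvd_left (Dvd.intro_left _ h9) hcop), ← inf_relIndex_right
        (centralizer {x})]
      refine relIndex_dvd_of_le_left _ fun g hg => ?_
      have h11 := mem_cent_iff_conj.1 hg.1
      have h12 : e⁻¹ * (g * e * g⁻¹) = c * (g * c * g⁻¹)⁻¹ := by
        rw [eq_mul_inv_iff_mul_eq, mul_assoc, inv_mul_eq_iff_eq_mul, hec, ← h11, ← hec]
        group
      have h13 : c * (g * c * g⁻¹)⁻¹ = 1 := mem_bot.1 (hbot.le (mem_inf.2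
        ⟨h12 ▸ mul_mem (inv_mem he) (Coprime.conj_mem hEB hg.2 he),
          mul_mem hc (inv_mem (mul_mem (mul_mem hg.2 hc) (inv_mem hg.2)))⟩))
      exact mem_cent_iff_conj.2 (mul_inv_eq_one.1 h13).symm
    rw [Nat.eq_one_of_dvd_coprimes hcop (Dvd.intro _ h9) h10, one_mul] at h9
    exact h9
  have L4 : ∀ {w u : G}, PiElt πᶜ w → w ∉ center G → PiElt π u → u ∈ centralizer ({w} : Set G) →
      u ∈ center G := by
    intro w u hwπ hwZ huπ hu
    have hw := L3 hwπ hwZ
    have h1 := L0 hw (mem_cent_iff_commute.1 hu).symm (p_elt_coprime huπ hwπ).symm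
    have h2 : (centralizer ({u} : Set G)).index.Coprime (centralizer ({x} : Set G)).index :=
      hx ▸ Nat.Coprime.coprime_dvd_left (hw ▸ index_dvd_of_le h1) hcop
    have h3 : u ∈ centralizer ({x} : Set G) := by
      refine mem_of_le_cent_of_coprime hu h1 ?_
      rw [relIndex_eq_index_of_coprime (by rw [hw, hx]; exact hcop), hx]
      exact (piElt_iff.1 huπ).coprime hπn
    have h4 := (hsize _ (hx ▸ index_cent_le_mul_of_coprime h2)).resolve_right fun h =>
      L2 hx h (mul_mem h3 (self_mem_cent x))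
    have huM : u ∈ M := (mul_mem_cancel_right (hxM hx)).1 (hxM h4)
    obtain ⟨K, -, hK, hKu⟩ := exists_normal_of_index_mul_le h2 (h4.trans hx.symm).le
    refine mem_center_iff.2 fun g => ?_
    rw [← commutatorElement_eq_one_iff_mul_comm, ← orderOf_eq_one_iff]
    exact Nat.eq_one_of_dvd_coprimes hcop ((orderOf_dvd_natCard _ (hK₀M u huM g)).trans hK₀c)
      ((orderOf_dvd_natCard _ (hKu g)).trans (hx ▸ hK))
  have hxZ : ∀ {w : G}, w ∉ centralizer ({x} : Set G) → w ∉ center G := fun h h' =>
    h (center_le_cent x h')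
  have L5 : ∀ g : G, PiElt π g → g ∈ M := by
    intro u huπ
    by_cases huZ : u ∈ center G
    · exact center_le_bhm m huZ
    obtain ⟨w, -, hw, hwπ⟩ := hW hy hx
    have hw' := L3 hwπ (hxZ hw)
    have h1 : centralizer ({w} : Set G) ⊓ centralizer {u} ≤ centralizer {w} ⊓ centralizer {x} := by
      refine le_inf inf_le_left fun g hg => center_le_cent x ?_
      rw [← consttC π g]
      refine mul_mem (L4 hwπ (hxZ hw) (p_elt_constt _ _) (groupX_constt _ hg.1)) ?_
      by_contra h
      exact huZ (L4 (p_elt_constt _ _) h huπ (mem_cent_comm.1 (groupX_constt _ hg.2)))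
    have h2 := (Nat.le_of_dvd (Nat.pos_of_ne_zero index_ne_zero_of_finite)
      (index_dvd_of_le h1)).trans index_inf_le
    rw [index_inf_of_coprime (by rw [hw', hx]; exact hcop), hx] at h2
    refine hxM ((hsize u (Nat.le_of_mul_le_mul_left h2 (hpos w))).resolve_right fun h => ?_)
    obtain ⟨w', h3, h4, h5⟩ := hW h hx
    exact huZ (L4 h5 (hxZ h4) huπ (mem_cent_comm.1 h3))
  have L6 : ∀ d ∈ M, d ∉ center G → centralizer ({d} : Set G) = M := by
    intro d hd hdZ
    refine le_antisymm (fun g hg => ?_) (hMcent d hd)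
    rw [← consttC π g]
    refine mul_mem (L5 _ (p_elt_constt _ _)) (center_le_bhm m ?_)
    by_contra h
    refine constt_not_mem_of_not_mem hdZ (hM1 _ (groupX_constt πᶜ hd) (p_elt_constt _ _)) ?_
    exact L4 (p_elt_constt _ _) h (p_elt_constt _ _)
      (groupX_constt _ (mem_cent_comm.1 (groupX_constt _ hg)))
  have L7 : ∀ g, g ∉ M → (centralizer ({g} : Set G)).index = m := fun g hg =>
    le_antisymm (htop g) (Nat.le_of_dvd (hpos g) (by
      rw [← L3 (p_elt_constt πᶜ g) fun h => constt_compl_not_mem_of_not_mem hg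
        (L5 _ (p_elt_constt π g)) (center_le_bhm m h)]
      exact index_dvd_of_le (cent1_le_cent1_constt _ _)))
  have hxZ' : x ∉ center G := fun h => hn.ne' (hx ▸ index_cent_eq_one_iff.2 h)
  have hMx := L6 x (hxM hx) hxZ'
  have hMi : M.index = n := hMx ▸ hx
  have hyZ : y ∉ center G := fun h => by
    rw [index_cent_eq_one_iff.2 h] at hy
    omega
  have hyM : y ∉ M := fun h => by
    rw [L6 y h hyZ, hMi] at hy
    omega
  have hinf : ∀ a ∈ M, a ∈ centralizer ({y} : Set G) → a ∈ center G := fun a ha hay =>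
    by_contra fun h => hyM ((L6 a ha h).le (mem_cent_comm.1 hay))
  have hfpf := fpf_quotient_center (center_le_bhm m) hM1 L5 fun d hd hdZ => (L6 d hd hdZ).le
  have hnot : ∀ {a : G}, a ∉ M → (a : G ⧸ center G) ∉ M.map (QuotientGroup.mk' (center G)) :=
    fun ha hm => ha (by
      rwa [← QuotientGroup.mk'_apply, ← mem_comap,
        comap_map_eq_self (by rw [QuotientGroup.ker_mk']; exact center_le_bhm m)] at hm)
  have hM' : (M.map (QuotientGroup.mk' (center G))).Normal :=
    (inferInstance : M.Normal).map _ (QuotientGroup.mk'_surjective _)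
  rw [hMx]
  refine ⟨hMc, PG.isMulCommutative_of_forall fun b hb a ha => ?_, ?_⟩
  · by_cases haM : a ∈ M
    · exact mem_center_iff.1 (hinf a haM ha) b
    have h1 : ⁅b, a⁆ ∈ center G := hinf _ (commutator_mem_of_forall_coprime (fun g hg => by
      rw [L7 g hg, hMi]; exact hcop) b a)
      (mul_mem (mul_mem (mul_mem hb ha) (inv_mem hb)) (inv_mem ha))
    obtain ⟨k, hk, c, hc, rfl⟩ := forall_mul_of_coprime_index (A := M) (B := centralizer {a})
      (by rw [L7 a haM, hMi]; exact hcop.symm) b
    refine ClassSize.mem_cent.1 (mul_mem (center_le_cent a ?_) hc)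
    rw [← QuotientGroup.eq_one_iff, ← mem_bot, ← hfpf _ (hnot haM)]
    exact mem_inf.2 ⟨mem_map_of_mem _ hk, (mul_mem_cancel_right
      (cent_le_comap (QuotientGroup.mk' (center G)) a hc)).1 ((mem_comap_cent_iff _).2 h1)⟩
  · have := Fpf.frobenius_of_fpf (K := M.map (QuotientGroup.mk' (center G)))
      (H := (centralizer ({y} : Set G)).map (QuotientGroup.mk' (center G))) ?_ ?_ ?_ ?_
    · simpa using this
    · rw [← Subgroup.map_sup, (eq_top_iff (a := M ⊔ centralizer {y})).2 fun g _ => ?_,
        map_top_of_surjective _ (QuotientGroup.mk'_surjective _)]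
      obtain ⟨k, hk, c, hc, rfl⟩ := forall_mul_of_coprime_index (A := M) (B := centralizer {y})
        (by rw [hy, hMi]; exact hcop.symm) g
      exact mul_mem_sup hk hc
    · exact fun hb => hxZ' ((QuotientGroup.eq_one_iff x).1
        (mem_bot.1 (hb ▸ mem_map_of_mem _ (hxM hx))))
    · exact fun hb => hyZ ((QuotientGroup.eq_one_iff y).1
        (mem_bot.1 (hb ▸ mem_map_of_mem _ (self_mem_cent y))))
    · rintro _ ⟨a, ha, rfl⟩ h1
      exact hfpf _ (hnot fun haM => h1 ((QuotientGroup.eq_one_iff a).2 (hinf a haM ha)))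

end Cfsg.Agent.S4138
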