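import Cfsg.Statements.S4139
import Cfsg.Agent.Solv.ClassNumber
import Cfsg.Agent.Solv.CentralComm

set_option autoImplicit false
open Cfsg

namespace Cfsg.Agent.S4139

open Cfsg.Lib.Solv Cfsg.Lib.Solv.ClassSize Subgroup
open scoped commutatorElement

universe u

/-- The number of elements whose class size is a power of `p`. -/
noncomputable def cnt (p : ℕ) (G : Type*) [Group G] : ℕ :=
  Nat.card {x : G // ∃ k, (centralizer ({x} : Set G)).index = p ^ k}

theorem cnt_eq {G : Type*} [Group G] [Finite G] {p : ℕ} (hp : p.Prime) (N : Subgroup G)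
    [N.Normal] (hN : N ≤ center G) (hc : Nat.card N = p) :
    cnt p G = p * cnt p (G ⧸ N) := by
  have h1 := Nat.card_congr (QuotientGroup.preimageMkEquivSubgroupProdSet N
    {y : G ⧸ N | ∃ k, (centralizer ({y} : Set (G ⧸ N))).index = p ^ k})
  rw [Nat.card_prod, hc] at h1
  refine Eq.trans (Nat.card_congr (Equiv.subtypeEquivRight fun x => ?_)) h1
  simp only [Set.mem_preimage, Set.mem_ofPred_eq]
  constructor
  · rintro ⟨k, hk⟩
    have h1 := index_cent_mk_dvd N x
    rw [hk, Nat.dvd_prime_pow hp] at h1
    obtain ⟨j, -, hj⟩ := h1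
    exact ⟨j, hj⟩
  · rintro ⟨k, hk⟩
    have h1 := index_cent_dvd_mul_of_le_center N hN x
    rw [hk, hc, ← pow_succ', Nat.dvd_prime_pow hp] at h1
    obtain ⟨j, -, hj⟩ := h1
    exact ⟨j, hj⟩

theorem dvd_card_center {G : Type*} [Group G] [Finite G] {p : ℕ} (h : p ∣ cnt p G) :
    p ∣ Nat.card (center G) := by
  have h1 := Count.cnt_add (fun x : G => ∃ k, (centralizer ({x} : Set G)).index = p ^ k)
    (fun x => x ∈ center G)
  have h2 : p ∣ Count.cnt fun x : G =>
      (∃ k, (centralizer ({x} : Set G)).index = p ^ k) ∧ x ∉ center G := by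
    refine dvd_card_of_conj_invariant _ (fun g x hx => ⟨by rw [index_cent_conj]; exact hx.1,
      fun h' => hx.2 (by
        rwa [← index_cent_eq_one_iff, index_cent_conj, index_cent_eq_one_iff] at h')⟩) ?_
    · rintro x ⟨⟨k, hk⟩, hx⟩
      rw [hk]
      refine dvd_pow_self p ?_
      rintro rfl
      exact hx (index_cent_eq_one_iff.1 (by simpa using hk))
  have h3 : (Count.cnt fun x : G =>
      (∃ k, (centralizer ({x} : Set G)).index = p ^ k) ∧ x ∈ center G) = Nat.card (center G) :=
    Count.cnt_congr fun x => ⟨fun h => h.2, fun h => ⟨⟨0, by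
      rw [pow_zero]; exact index_cent_eq_one_iff.2 h⟩, h⟩⟩
  rw [h3] at h1
  exact (Nat.dvd_add_left h2).1 (h1 ▸ h)

theorem exists_central {G : Type*} [Group G] [Finite G] {p : ℕ} (hp : p.Prime)
    (h : p ∣ Nat.card (center G)) : ∃ N : Subgroup G, N.Normal ∧ N ≤ center G ∧ Nat.card N = p := by
  obtain ⟨z, hz, hzo⟩ := exists_mem_orderOf_eq_prime hp h
  refine ⟨zpowers z, ⟨fun n hn g => ?_⟩, zpowers_le.2 hz, by rw [Nat.card_zpowers, hzo]⟩
  rwa [mem_center_iff.1 (zpowers_le.2 hz hn) g, mul_inv_cancel_right]

theorem normal_of_dvd {p : ℕ} [hp : Fact p.Prime] : ∀ (G : Type u) [Group G] [Finite G],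
    p ^ (Nat.card G).factorization p ∣ cnt p G → ∀ P : Sylow p G, (P : Subgroup G).Normal := by
  refine card_induction fun G _ _ ih => ?_
  intro h P
  by_cases hpG : p ∣ Nat.card G
  · have h0 : (Nat.card G).factorization p ≠ 0 :=
      (hp.out.factorization_pos_of_dvd Nat.card_pos.ne' hpG).ne'
    obtain ⟨N, hN, hNZ, hc⟩ := exists_central hp.out
      (dvd_card_center ((dvd_pow_self p h0).trans h))
    have hNb : N ≠ ⊥ := by
      rintro rfl
      rw [card_bot] at hc
      exact hp.out.one_lt.ne hc
    have hs := QuotientGroup.mk'_surjective N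
    have h1 := ih (G ⧸ N) (card_quotient_lt hNb) (by
      rw [cnt_eq hp.out N hNZ hc, card_eq_card_quotient_mul_card_subgroup N, hc,
        Nat.factorization_mul Nat.card_pos.ne' hp.out.ne_zero, Finsupp.add_apply,
        hp.out.factorization_self, pow_succ'] at h
      exact Nat.dvd_of_mul_dvd_mul_left hp.out.pos h) (P.mapSurjective hs)
    have h2 : N ≤ P := (le_pCore hN (IsPGroup.of_card (n := 1) (by rw [hc, pow_one]))).trans
      (pCore_le_sylow P)
    rw [Sylow.coe_mapSurjective] at h1
    have h3 := h1.comap (QuotientGroup.mk' N)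
    rwa [comap_map_eq, QuotientGroup.ker_mk', sup_eq_left.2 h2] at h3
  · have : (P : Subgroup G) = ⊥ := by
      rw [← card_eq_one, P.card_eq_multiplicity, Nat.factorization_eq_zero_of_not_dvd hpG, pow_zero]
    rw [this]
    infer_instance

theorem dvd_of_nilpotent {p : ℕ} [hp : Fact p.Prime] : ∀ (G : Type u) [Group G] [Finite G],
    Group.IsNilpotent G → p ^ (Nat.card G).factorization p ∣ cnt p G := by
  refine card_induction fun G _ _ ih => ?_
  intro hG
  by_cases hpG : p ∣ Nat.card G
  · have hZ : p ∣ Nat.card (center G) := by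
      obtain ⟨P⟩ : Nonempty (Sylow p G) := inferInstance
      have hPn : (P : Subgroup G).Normal := normal_of_hall_of_isNilpotent P.card_coprime_index
      have hPb : (P : Subgroup G) ≠ ⊥ := P.ne_bot_of_dvd_card hpG
      have h1 := PG.inf_center_ne_bot _ hPb
      obtain ⟨k, hk0, hk⟩ := (IsPGroup.nontrivial_iff_card
        (P.isPGroup'.to_inf_left (K := center G))).1 ((nontrivial_iff_ne_bot _).2 h1)
      exact (hk ▸ dvd_pow_self p hk0.ne').trans (card_dvd_of_le inf_le_right)
    obtain ⟨N, hN, hNZ, hc⟩ := exists_central hp.out hZ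
    have hNb : N ≠ ⊥ := by
      rintro rfl
      rw [card_bot] at hc
      exact hp.out.one_lt.ne hc
    have h1 := ih (G ⧸ N) (card_quotient_lt hNb) inferInstance
    rw [cnt_eq hp.out N hNZ hc, card_eq_card_quotient_mul_card_subgroup N, hc,
      Nat.factorization_mul Nat.card_pos.ne' hp.out.ne_zero, Finsupp.add_apply,
      hp.out.factorization_self, pow_succ']
    exact Nat.mul_dvd_mul_left _ h1
  · rw [Nat.factorization_eq_zero_of_not_dvd hpG, pow_zero]
    exact one_dvd _

theorem card_eq_sum {G : Type*} [Group G] [Finite G] [Fintype (ConjClasses G)] (R : ℕ → Prop)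
    [DecidablePred R] : Nat.card {x : G // R (centralizer ({x} : Set G)).index} =
      ∑ C : ConjClasses G, if R (Nat.card C.carrier) then Nat.card C.carrier else 0 := by
  have h1 := ClassNum.card_pairs_eq_sum_filter (fun C : ConjClasses G => R (Nat.card C.carrier))
    (fun C (x : G) => x ∈ C.carrier)
  rw [Finset.sum_filter] at h1
  refine Eq.trans (Nat.card_congr
    { toFun := fun x => ⟨(ConjClasses.mk x.1, x.1), by rw [card_carrier_mk]; exact x.2,
        ConjClasses.mem_carrier_mk⟩
      invFun := fun w => ⟨w.1.2, by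
        have h2 := ConjClasses.mem_carrier_iff_mk_eq.1 w.2.2
        rw [← card_carrier_mk, h2]
        exact w.2.1⟩
      left_inv := fun _ => rfl
      right_inv := fun w => Subtype.ext (Prod.ext (ConjClasses.mem_carrier_iff_mk_eq.1 w.2.2) rfl) })
    h1

/-- Let G and H be finite groups such that for every natural number k, G and H have the same number of conjugacy classes of size k. If H is nilpotent then G is nilpotent. -/
theorem result {G H : Type*} [Group G] [Finite G] [Group H] [Finite H]
    (hH : Group.IsNilpotent H)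
    (h : ∀ k : ℕ, Nat.card {C : ConjClasses G // Nat.card C.carrier = k} = Nat.card {C : ConjClasses H // Nat.card C.carrier = k}) :
    Group.IsNilpotent G := by
  classical
  have := Fintype.ofFinite (ConjClasses G)
  have := Fintype.ofFinite (ConjClasses H)
  let e : ConjClasses G ≃ ConjClasses H :=
    Equiv.ofFiberEquiv (f := fun C => Nat.card C.carrier) (g := fun C => Nat.card C.carrier)
      fun k => (Finite.card_eq.1 (h k)).some
  have he : ∀ C, Nat.card (e C).carrier = Nat.card C.carrier := fun C =>
    Equiv.ofFiberEquiv_map (f := fun C : ConjClasses G => Nat.card C.carrier)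
      (g := fun C : ConjClasses H => Nat.card C.carrier) _ C
  have key : ∀ R : ℕ → Prop, Nat.card {x : G // R (centralizer ({x} : Set G)).index} =
      Nat.card {x : H // R (centralizer ({x} : Set H)).index} := fun R => by
    rw [card_eq_sum, card_eq_sum]
    exact Fintype.sum_equiv e _ _ fun C => by rw [he]
  have hc : Nat.card G = Nat.card H := by simpa using key fun _ => True
  refine isNilpotent_of_forall_sylow_normal fun p _ P => normal_of_dvd G ?_ P
  have h1 : cnt p G = cnt p H := key fun n => ∃ k, n = p ^ k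
  rw [h1, hc]
  exact dvd_of_nilpotent H hH

end Cfsg.Agent.S4139
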