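import Cfsg.Statements.S4142
import Cfsg.Agent.Solv.FrobCount

set_option autoImplicit false
open Cfsg

namespace Cfsg.Agent.S4142

open Cfsg.Lib.Solv

/-- Let G be a finite group and N a normal subgroup. Then the conjugacy class of every element g outside N is a union of cosets of N (gn is conjugate to g for all n ∈ N) if and only if for every g outside N the centralizer of g in G has the same order as the centralizer of gN in G/N. -/
theorem result {G : Type*} [Group G] [Finite G] (N : Subgroup G) [N.Normal] :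
    (∀ g : G, g ∉ N → ∀ n ∈ N, ∃ x : G, x * g * x⁻¹ = g * n) ↔
      ∀ g : G, g ∉ N → Nat.card (Subgroup.centralizer ({g} : Set G)) =
        Nat.card (Subgroup.centralizer ({(QuotientGroup.mk g : G ⧸ N)} : Set (G ⧸ N))) := by
  have hconj : ∀ a b : G, IsConj a b ↔ ∃ x : G, x * a * x⁻¹ = b := fun a b => isConj_iff
  have key : ∀ g : G, Nat.card {y : G // IsConj (g : G ⧸ N) (y : G ⧸ N)} *
      Nat.card (Subgroup.centralizer ({(QuotientGroup.mk g : G ⧸ N)} : Set (G ⧸ N))) = Nat.card G := by
    intro g
    have h1 := QuotientGroup.card_preimage_mk N {y : G ⧸ N | IsConj (g : G ⧸ N) y}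
    have h2 := Frob.card_isConj_mul_card_centralizer (g : G ⧸ N)
    rw [N.card_eq_card_quotient_mul_card_subgroup, ← h2]
    have h3 : Nat.card {y : G // IsConj (g : G ⧸ N) (y : G ⧸ N)} =
      Nat.card N * Nat.card {y : G ⧸ N // IsConj (g : G ⧸ N) y} := h1
    rw [h3]
    ring
  refine forall_congr' fun g => forall_congr' fun hg => ?_
  have h1 := (key g).trans (Frob.card_isConj_mul_card_centralizer g).symm
  have hsub : {y : G | IsConj g y} ⊆ {y : G | IsConj (g : G ⧸ N) (y : G ⧸ N)} :=
    fun y hy => (QuotientGroup.mk' N).map_isConj hy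
  have hpos : 0 < Nat.card {y : G // IsConj g y} := by
    have : Nonempty {y : G // IsConj g y} := ⟨⟨g, IsConj.refl g⟩⟩
    exact Nat.card_pos
  constructor
  · intro h
    have h2 : {y : G | IsConj g y} = {y : G | IsConj (g : G ⧸ N) (y : G ⧸ N)} := by
      refine hsub.antisymm fun y hy => ?_
      obtain ⟨x, hx⟩ := isConj_iff.mp hy
      obtain ⟨x, rfl⟩ := QuotientGroup.mk_surjective x
      have h3 : g⁻¹ * (x⁻¹ * y * x) ∈ N := by
        rw [← QuotientGroup.eq, QuotientGroup.mk_mul, QuotientGroup.mk_mul, ← hx]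
        simp [mul_assoc]
      obtain ⟨z, hz⟩ := h _ h3
      refine isConj_iff.mpr ⟨x * z, ?_⟩
      calc x * z * g * (x * z)⁻¹ = x * (z * g * z⁻¹) * x⁻¹ := by group
        _ = y := by rw [hz]; group
    have h3 : Nat.card {y : G // IsConj g y} = Nat.card {y : G // IsConj (g : G ⧸ N) (y : G ⧸ N)} :=
      congrArg (fun s : Set G => Nat.card s) h2
    rw [← h3] at h1
    exact (Nat.eq_of_mul_eq_mul_left hpos h1).symm
  · intro h n hn
    rw [h] at h1
    have h2 := Nat.eq_of_mul_eq_mul_right Nat.card_pos h1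
    have h3 := Set.eq_of_subset_of_ncard_le hsub (le_of_eq h2)
    have h4 : g * n ∈ {y : G | IsConj (g : G ⧸ N) (y : G ⧸ N)} := by
      rw [Set.mem_setOf_eq, QuotientGroup.mk_mul, (QuotientGroup.eq_one_iff n).mpr hn, mul_one]
    rw [← h3] at h4
    exact isConj_iff.mp h4

end Cfsg.Agent.S4142
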