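import Cfsg.Statements.S4144
import Cfsg.Agent.Fus.EssEngel

set_option autoImplicit false
open Cfsg

namespace Cfsg.Agent.S4144

open Cfsg.Lib.Fus Cfsg.Lib.Fus.Ess Cfsg.FusionSystem Cfsg.Lib.Solv
open Subgroup hiding upperCentralSeries
open scoped commutatorElement

/-- Let X be a finite p-group of order p^n, n ≥ 2, of nilpotency class n − 1 (maximal class), and H any subgroup of X. Then the index in H of the subgroup generated by the p-th powers of elements of H is at most p^p. -/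
theorem result {X : Type*} [Group X] [Finite X] {p : ℕ} [Fact p.Prime] (n : ℕ) (hn : 2 ≤ n) (hX : Nat.card X = p ^ n)
    (hmax : Group.nilpotencyClass X = n - 1) (H : Subgroup X) :
    (Subgroup.closure {y : X | ∃ h ∈ H, y = h ^ p}).relIndex H ≤ p ^ p := by
  have hp : p.Prime := Fact.out
  have hp2 := hp.two_le
  obtain ⟨m, rfl⟩ := Nat.exists_eq_add_of_le' hn
  have h : MC p m X := ⟨hX, (Lib.Trans.nilpotencyClass_eq_iff_lowerCentralSeries_ne_bot hX).1 hmax⟩
  obtain ⟨s, hs⟩ := h.exists_unif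
  have hK : ∀ x ∈ H, x ^ p ∈ Subgroup.closure {y : X | ∃ h ∈ H, y = h ^ p} :=
    fun x hx => Subgroup.subset_closure ⟨x, hx, rfl⟩
  have hle : Subgroup.closure {y : X | ∃ h ∈ H, y = h ^ p} ≤ H :=
    (Subgroup.closure_le _).2 (by rintro _ ⟨x, hx, rfl⟩; exact H.pow_mem hx p)
  have hN : H = ⊤ → (Subgroup.closure {y : X | ∃ h ∈ H, y = h ^ p}).Normal := fun e =>
    ⟨fun x hx g => by
      refine mem_comap.1 ((Subgroup.closure_le (comap (MulAut.conj g).toMonoidHom
        (Subgroup.closure {y : X | ∃ h ∈ H, y = h ^ p}))).2 ?_ hx)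
      rintro _ ⟨y, -, rfl⟩
      exact mem_comap.2 ((map_pow (MulAut.conj g).toMonoidHom y p).symm ▸ hK _ (e ▸ mem_top _))⟩
  generalize Subgroup.closure {y : X | ∃ h ∈ H, y = h ^ p} = K at *
  refine Nat.le_of_mul_le_mul_right ((PG.relIndex_mul_card hle).trans_le ?_) Nat.card_pos
  by_cases e : H ⊔ gam X 1 = ⊤
  · obtain rfl := h.eq_top_of_sup e
    have := hN rfl
    obtain ⟨k, hk⟩ := IsPGroup.iff_card.1 (h.pg.to_subgroup K)
    rw [card_top, hX, hk, ← pow_add]
    refine Nat.pow_le_pow_right hp.pos (not_lt.1 fun h1 => ?_)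
    obtain ⟨x, hx⟩ := h.exists_pow_not_mem (by omega)
    refine hx (gam_anti (j := m - k + 1) (by omega) ?_)
    rw [gam, ← Lib.Trans.MaxClass.eq_lowerCentralSeries hX h.ne K (by omega)
      (by rw [hk, Nat.sub_sub_self (by omega)])]
    exact hK x trivial
  · refine (h.card_le_of_sup_ne e).trans ((Nat.mul_le_mul_left p (hs.card_inf_le hK)).trans_eq ?_)
    rw [← mul_assoc, ← pow_succ', Nat.sub_add_cancel hp.pos]

end Cfsg.Agent.S4144
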