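import Cfsg.Statements.S4146
import Cfsg.Agent.Cs4.Nil

set_option autoImplicit false
open Cfsg

namespace Cfsg.Agent.S4146

/-- Let G be a finite group whose conjugacy class sizes are exactly 1, n, m and nm for coprime integers n, m > 1. Then G is nilpotent and n and m are prime powers. -/
theorem result {G : Type*} [Group G] [Finite G] (n m : ℕ) (hn : 1 < n) (hm : 1 < m) (hcop : n.Coprime m)
    (h : Set.range (fun x : G => (Subgroup.centralizer ({x} : Set G)).index) = ({1, n, m, n * m} : Set ℕ)) :
    Group.IsNilpotent G ∧ IsPrimePow n ∧ IsPrimePow m := by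
  have hex : ∀ k ∈ ({1, n, m, n * m} : Set ℕ),
      ∃ x : G, (Subgroup.centralizer ({x} : Set G)).index = k := fun k hk => by
    rw [← h] at hk
    exact hk
  have H : Cfsg.Lib.Cs4.Hy G n m :=
    { hn := hn
      hm := hm
      cop := hcop
      mem := fun x => by
        have hx : (Subgroup.centralizer ({x} : Set G)).index ∈ ({1, n, m, n * m} : Set ℕ) := by
          rw [← h]
          exact ⟨x, rfl⟩
        simpa only [Set.mem_insert_iff, Set.mem_singleton_iff] using hx
      exn := hex n (by simp)
      exm := hex m (by simp)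
      exnm := hex (n * m) (by simp) }
  have h1 := H.symm.isPrimePow_m
  have h2 := H.isPrimePow_m
  refine ⟨?_, h1, h2⟩
  obtain ⟨p, a, hp, -, ha⟩ := h1
  obtain ⟨q, b, hq, -, hb⟩ := h2
  exact Cfsg.Lib.Cs4.H2.nil (p := p) (q := q)
    ⟨H, hp.nat_prime, hq.nat_prime, ⟨a, ha.symm⟩, ⟨b, hb.symm⟩⟩

end Cfsg.Agent.S4146
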