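import Cfsg.Statements.S4149
import Cfsg.Agent.ClsH.Half

set_option autoImplicit false
open Cfsg

namespace Cfsg.Agent.S4149

/-- Let G be a finite group that has a normal p-complement for at most one prime p dividing its order, and let σ be a natural number such that every conjugacy class size of G has at most σ distinct prime divisors. Then the number of primes dividing at least one conjugacy class size of G is at most 2σ. -/
theorem result {G : Type*} [Group G] [Finite G] (σ : ℕ)
    (hσ : ∀ x : G, ((Subgroup.centralizer ({x} : Set G)).index).primeFactors.card ≤ σ)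
    (hnil : ∀ p q : ℕ, p.Prime → q.Prime → p ∣ Nat.card G → q ∣ Nat.card G →
      Cfsg.HasNormalPComplement p G → Cfsg.HasNormalPComplement q G → p = q) :
    Nat.card {p : ℕ | p.Prime ∧ ∃ x : G, p ∣ (Subgroup.centralizer ({x} : Set G)).index} ≤ 2 * σ := by
  classical
  have e : {p : ℕ | p.Prime ∧ ∃ x : G, p ∣ (Subgroup.centralizer ({x} : Set G)).index} =
      ((Nat.card G).primeFactors.filter
        fun p => ∃ x : G, p ∣ (Subgroup.centralizer ({x} : Set G)).index : Finset ℕ) := by
    ext p
    simp only [Set.mem_ofPred_eq, Finset.coe_filter, Nat.mem_primeFactors]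
    exact ⟨fun ⟨h, x, k⟩ => ⟨⟨h, k.trans (Subgroup.index_dvd_card _), Nat.card_pos.ne'⟩, x, k⟩,
      fun h => ⟨h.1.1, h.2⟩⟩
  rw [e, Nat.card_coe_set_eq, Set.ncard_coe_finset]
  rcases eq_or_ne σ 0 with rfl | s0
  · refine (Finset.card_eq_zero.2 (Finset.filter_false_of_mem fun p hp ⟨x, k⟩ => ?_)).le
    exact Finset.notMem_empty p (Finset.card_eq_zero.1 (Nat.le_zero.1 (hσ x)) ▸
      Nat.mem_primeFactors.2 ⟨(Nat.mem_primeFactors.1 hp).1, k, Subgroup.index_ne_zero_of_finite⟩)
  refine (Finset.card_filter_le _ _).trans ?_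
  rw [← Finset.card_filter_add_card_filter_not (fun p => HasNormalPComplement p G)]
  have a := Lib.ClsHalf.card_lt hσ s0
    (T := (Nat.card G).primeFactors.filter fun p => ¬ HasNormalPComplement p G)
    fun p hp => ⟨(Nat.mem_primeFactors.1 (Finset.mem_filter.1 hp).1).1, (Finset.mem_filter.1 hp).2⟩
  have b : ((Nat.card G).primeFactors.filter fun p => HasNormalPComplement p G).card ≤ 1 :=
    Finset.card_le_one.2 fun p hp q hq => by
      rw [Finset.mem_filter, Nat.mem_primeFactors] at hp hq
      exact hnil p q hp.1.1 hq.1.1 hp.1.2.1 hq.1.2.1 hp.2 hq.2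
  omega

end Cfsg.Agent.S4149
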