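import Cfsg.Statements.S4151
import Cfsg.Agent.FT.BG1.Coprime
import Cfsg.Agent.FT.Elem
import Cfsg.Agent.Solv.PSolvable
import Cfsg.Agent.Solv.CyclicIndexP
import Cfsg.Agent.Solv.HallWielandt
import Cfsg.Agent.Solv.Glauberman
import Cfsg.Agent.Char.FrobWielandt
import Mathlib.GroupTheory.SpecificGroups.ZGroup

set_option autoImplicit false
open Cfsg

namespace Cfsg.Agent.S4151

open Cfsg.Lib.FT Cfsg.Lib.Solv Subgroup in
/-- Let G be a finite group and H a non-normal subgroup meeting each of its conjugates by elements outside N_G(H) trivially, with the order of H coprime to its index in N_G(H), such that G is π-separable for π the set of primes dividing the order of H (G has a chain of normal subgroups from 1 to G each of whose factors has order divisible only by primes dividing the order of H or coprime to it). Suppose a Sylow 2-subgroup of H is abelian and Q is a complement of H in N_G(H). Then C_H(Q), the subgroup of elements of H commuting with Q, has order coprime to its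 index in G and has a normal complement in G. -/
theorem result {G : Type*} [Group G] [Finite G] (H : Subgroup G)
    (hTI : Cfsg.IsTISubset (H : Set G)) (hnn : ¬ H.Normal)
    (hHall : (Nat.card H).Coprime (H.subgroupOf (Subgroup.normalizer (H : Set G))).index)
    (hsep : ∃ (n : ℕ) (M : Fin (n + 1) → Subgroup G), M 0 = ⊥ ∧ M (Fin.last n) = ⊤ ∧ Monotone M ∧ (∀ i, (M i).Normal) ∧
      ∀ i : Fin n, (∀ q : ℕ, q.Prime → q ∣ (M i.castSucc).relIndex (M i.succ) → q ∣ Nat.card H) ∨
        ((M i.castSucc).relIndex (M i.succ)).Coprime (Nat.card H))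
    (h2 : ∀ P : Sylow 2 H, IsMulCommutative (P : Subgroup H))
    (Q : Subgroup G) (hQ : Q ≤ Subgroup.normalizer (H : Set G)) (hQH : Q ⊓ H = ⊥) (hQH' : Q ⊔ H = Subgroup.normalizer (H : Set G)) :
    (Nat.card ↥(H ⊓ Subgroup.centralizer (Q : Set G))).Coprime (H ⊓ Subgroup.centralizer (Q : Set G)).index ∧
    ∃ N : Subgroup G, N.Normal ∧ N.IsComplement' (H ⊓ Subgroup.centralizer (Q : Set G)) := by
  have hnorm : ∀ g : G, ∀ x ∈ H, x ≠ 1 → g * x * g⁻¹ ∈ H → g ∈ normalizer (H : Set G) :=
    fun g x hx hx1 h => by_contra fun hg => hx1 (hTI g hg x hx h)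
  have hHL : IsPiHallOf (piOf (Nat.card H)) H (normalizer (H : Set G)) :=
    ⟨le_normalizer, fun p hp h => ⟨hp, h⟩, fun p hp h h' =>
      hp.ne_one (Nat.eq_one_of_dvd_coprimes hHall h.2 h')⟩
  have hSyl : ∀ p : ℕ, p.Prime → p ∣ Nat.card H → ∀ P, IsSylowOf p P H → ¬ p ∣ P.index := by
    intro p hp hpd P hP
    have := Fact.mk hp
    obtain ⟨⟨x, hx⟩, hx1⟩ := ne_bot_iff_exists_ne_one.1 (show P ≠ ⊥ by
      rintro rfl
      exact Sylow_index hP (by rwa [relIndex_bot_left]))
    have h1 := (Sylow_subnorm (le_top : P ≤ ⊤)).1 (pHall_subl (le_inf le_top le_normalizer)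
      (fun g hg => hnorm g x (hP.1 hx) (fun e => hx1 (Subtype.ext e)) (hP.1 ((hg.2 x).1 hx)))
      (subHall_Sylow hHL ⟨hp, hpd⟩ hP))
    simpa using Sylow_index h1
  have hHG : IsPiHall (piOf (Nat.card H)) H := ⟨fun p hp h => ⟨hp, h⟩, fun p hp h h' => by
    have := Fact.mk hp
    obtain ⟨P, hP⟩ := Sylow_exists p H
    exact hSyl p hp h.2 P hP (h'.trans (index_dvd_of_le hP.1))⟩
  have hcore : piCore (piOf (Nat.card H))ᶜᶜ G = ⊥ := by
    rw [compl_compl]
    by_contra h0
    obtain ⟨⟨x, hx⟩, hx1⟩ := ne_bot_iff_exists_ne_one.1 h0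
    refine hnn (normalizer_eq_top_iff.1 (eq_top_iff.2 fun g _ => hnorm g x
      (piCore_le_of_isPiHall hHG hx) (fun e => hx1 (Subtype.ext e))
      (piCore_le_of_isPiHall hHG (Normal.conj_mem inferInstance x hx g))))
  have hCK := centralizer_piCore_le (π := (piOf (Nat.card H))ᶜ) (isPiSeparable_iff.1 (by
    obtain ⟨n, M, h0, h1, h2, h3, h4⟩ := hsep
    refine ⟨n, M, h0, h1, h2, h3, fun i => (h4 i).symm.imp (fun h q hq hd hm => ?_)
      fun h q hq hd hm => hm ⟨hq, h q hq hd⟩⟩
    exact hq.ne_one (Nat.eq_one_of_dvd_coprimes h hd hm.2))) hcore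
  have hKH : (Nat.card H).Coprime (Nat.card (piCore (piOf (Nat.card H))ᶜ G)) :=
    coprime_pi'.2 (isPiNum_card_piCore _ G)
  have hKn : (piCore (piOf (Nat.card H))ᶜ G).Normal := inferInstance
  generalize piCore (piOf (Nat.card H))ᶜ G = K at hCK hKH hKn
  have hab : ∀ A : Subgroup G, A ≤ H → IsMulCommutative A → IsCyclic A := by
    intro A hA hAc
    by_contra hc
    have h1 : K ≤ centralizer (H : Set G) := coprime_abelian_gen_cent1 hAc hc
      (by rw [normalizer_eq_top]; exact le_top)
      (hKH.symm.coprime_dvd_right (card_dvd_of_le hA)) fun a ha ha1 k hk => by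
        have h2 := hnorm k a (hA ha) ha1 (by
          rw [mem_centralizer_singleton_iff.1 hk.2, mul_inv_cancel_right]; exact hA ha)
        intro h hh
        have h3 : h * (k * h⁻¹ * k⁻¹) ∈ H ⊓ K := ⟨H.mul_mem hh ((h2 _).1 (H.inv_mem hh)), by
          rw [← mul_assoc, ← mul_assoc]
          exact K.mul_mem (hKn.conj_mem k hk.1 h) (K.inv_mem hk.1)⟩
        rw [coprime_TIg hKH, mem_bot] at h3
        calc h * k = h * (k * h⁻¹ * k⁻¹) * (k * h) := by group
          _ = _ := by rw [h3, one_mul]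
    have h2 : H ≤ H ⊓ K := le_inf le_rfl ((le_centralizer_iff.1 h1).trans hCK)
    rw [coprime_TIg hKH, le_bot_iff] at h2
    exact hnn (h2 ▸ inferInstance)
  have hcyc : ∀ (p : ℕ) [Fact p.Prime] (S : Subgroup G), S ≤ H → IsPGroup p S → IsCyclic S := by
    intro p _ S hS hp
    by_cases h : p = 2
    · subst h
      obtain ⟨P, hP⟩ := (hp.comap_subtype (K := H)).exists_le_sylow
      have := h2 P
      refine hab S hS ⟨⟨fun a b => Subtype.ext ?_⟩⟩
      have ha : (⟨a, hS a.2⟩ : H) ∈ (P : Subgroup H) := hP a.2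
      have hb : (⟨b, hS b.2⟩ : H) ∈ (P : Subgroup H) := hP b.2
      have hab' := setLike_mul_comm ha hb
      exact congrArg (fun x : H => (x : G)) hab'
    · refine PG.isCyclic_of_forall_normal_abelian_isCyclic hp h fun A _ hA => ?_
      have := hab (A.map S.subtype) ((map_subtype_le A).trans hS) inferInstance
      exact isCyclic_of_injective (A.equivMapOfInjective _ S.subtype_injective).toMonoidHom
        (MulEquiv.injective _)
  have : IsZGroup H := ⟨fun p hp P => by
    have := Fact.mk hp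
    have := hcyc p _ (map_subtype_le (P : Subgroup H)) (P.isPGroup'.map _)
    exact isCyclic_of_injective
      ((P : Subgroup H).equivMapOfInjective _ H.subtype_injective).toMonoidHom
      (MulEquiv.injective _)⟩
  have hsol : Group.IsSolvable H := inferInstance
  have hm : H.relIndex (normalizer (H : Set G)) = Nat.card Q := by
    rw [← hQH', sup_comm]
    exact relIndex_sup_eq_card_of_le_normalizer hQ (disjoint_iff.2 (by rwa [inf_comm]))
  have hco : (Nat.card H).Coprime (Nat.card Q) := hm ▸ hHall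
  have hC : (Nat.card ↥(H ⊓ centralizer (Q : Set G))).Coprime
      (H ⊓ centralizer (Q : Set G)).index := by
    refine Nat.coprime_of_dvd fun p hp h1 h2 => ?_
    have := Fact.mk hp
    obtain ⟨⟨x, hx⟩, hxo⟩ := exists_prime_orderOf_dvd_card' p h1
    rw [orderOf_mk] at hxo
    have hxp : Nat.card (zpowers x) = p := by rw [Nat.card_zpowers, hxo]
    have hQx : Q ≤ centralizer (zpowers x : Set G) := le_centralizer_iff.1 (zpowers_le.2 hx.2)
    obtain ⟨P, hP, hQP, hxP⟩ := coprime_Hall_subset (π := {p}) hQ hco hsol (zpowers_le.2 hx.1)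
      (fun q hq h => (Nat.prime_dvd_prime_iff_eq hq hp).1 (hxp ▸ h)) (cents_norm hQx)
    have hPc := hcyc p P hP.1 (Sylow_pgroup hP)
    have h3 := coprime_abelian_faithful_Ohm1 hQP (hco.coprime_dvd_left (card_dvd_of_le hP.1))
      IsCyclic.isMulCommutative fun y hy hyo => by
        have : zpowers y = zpowers x := (eq_subG_cyclic hPc (zpowers_le.2 hy) hxP).2 (by
          rw [hxp, Nat.card_zpowers]
          exact hP.2.1 _ hyo (orderOf_dvd_natCard P hy))
        exact hQx.trans (centralizer_le (by simpa using this.le (mem_zpowers y)))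
    exact hSyl p hp (h1.trans (card_dvd_of_le inf_le_left)) P hP
      (h2.trans (index_dvd_of_le (le_inf hP.1 (le_centralizer_iff.1 h3))))
  refine ⟨hC, ?_⟩
  have hR := coprime_cent_prod hQ hco (Or.inr hsol)
  have hRC : ⁅H, Q⁆ ⊓ (H ⊓ centralizer (Q : Set G)) = ⊥ := by
    have h1 := coprime_comm_pcore (π := (piOf (Nat.card ↥(H ⊓ centralizer (Q : Set G))))ᶜ)
      (K := H ⊓ centralizer (Q : Set G)) hQ hco hsol (by
        rw [compl_compl]
        exact ⟨inf_le_left, fun p hp h => ⟨hp, h⟩, fun p hp h h' => hp.ne_one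
          (Nat.eq_one_of_dvd_coprimes hC h.2 (h'.trans (relIndex_dvd_index_of_le inf_le_left)))⟩)
      inf_le_right
    rw [inf_comm]
    exact coprime_TIg ((coprime_pi'group.2 (pcore_pgroup _ H)).coprime_dvd_right
      (card_dvd_of_le h1))
  have hRH : ⁅H, Q⁆ ≤ H := commg_subl.2 hQ
  have hRQ := commg_normr H Q
  have hCR : H ⊓ centralizer (Q : Set G) ≤ normalizer ((⁅H, Q⁆ ⊔ Q : Subgroup G) : Set G) :=
    normsY (inf_le_left.trans (commg_norml H Q)) (cents_norm inf_le_right)
  have hCH : H ⊓ centralizer (Q : Set G) ≤ H := inf_le_left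
  generalize H ⊓ centralizer (Q : Set G) = C at *
  generalize ⁅H, Q⁆ = R at *
  have hL : R ⊔ Q ⊔ C = normalizer (H : Set G) := by
    rw [← hQH', ← hR, sup_comm R Q, sup_assoc]
  have hLn : normalizer (H : Set G) ≤ normalizer ((R ⊔ Q : Subgroup G) : Set G) :=
    hL ▸ sup_le le_normalizer hCR
  obtain ⟨N, hN, h1, h3, -⟩ := Cfsg.Lib.Char.frobenius_wielandt (normalizer (H : Set G)) (R ⊔ Q)
    (hL ▸ le_sup_left) (fun h hh n hn => (hLn hh n).1 hn) (fun g hg x hx hgx => by
      have : (H.subgroupOf (normalizer (H : Set G))).Normal := normal_in_normalizer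
      have := (normal_subgroupOf_iff_le_normalizer (hL ▸ le_sup_left)).2 hLn
      have e1 : x ^ H.relIndex (normalizer (H : Set G)) = 1 := hTI g hg _
        (pow_index_mem (H.subgroupOf (normalizer (H : Set G))) ⟨x, hx⟩) (by
          rw [← conj_pow]
          exact pow_index_mem (H.subgroupOf (normalizer (H : Set G))) ⟨_, hgx⟩)
      have e2 : x ^ (R ⊔ Q).relIndex (normalizer (H : Set G)) ∈ R ⊔ Q :=
        pow_index_mem ((R ⊔ Q).subgroupOf (normalizer (H : Set G))) ⟨x, hx⟩
      have e3 := (relIndex_sup_dvd_card_of_le_normalizer' hCR).trans (card_dvd_of_le hCH)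
      rw [hL] at e3
      obtain ⟨m, hm⟩ := exists_pow_eq_self_of_coprime
        ((hHall.coprime_dvd_left e3).coprime_dvd_right (orderOf_dvd_of_pow_eq_one e1))
      exact hm ▸ pow_mem e2 m)
  refine ⟨N, hN, isComplement'_of_disjoint_and_mul_eq_univ (disjoint_iff.2 ?_) ?_⟩
  · rw [eq_bot_iff]
    intro c hc
    have hc' : c ∈ R ⊔ Q := h1 ▸ ⟨hc.1, le_normalizer (hCH hc.2)⟩
    obtain ⟨r, hr, q, hq, rfl⟩ := (mem_sup_of_le_normalizer hRQ).1 hc'
    have : q ∈ Q ⊓ H := ⟨hq, (H.mul_mem_cancel_left (hRH hr)).1 (hCH hc.2)⟩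
    rw [hQH, mem_bot] at this
    subst this
    rw [← hRC]
    exact ⟨by simpa using hr, hc.2⟩
  · rw [← normal_mul, ← coe_top, SetLike.coe_set_eq, eq_top_iff, ← h3, ← hL]
    exact sup_le le_sup_left (sup_le_sup_right (h1 ▸ inf_le_left) C)

end Cfsg.Agent.S4151
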