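import Cfsg.Statements.S4153
import Cfsg.Agent.Solv.ClassNumber

set_option autoImplicit false
open Cfsg

namespace Cfsg.Agent.S4153

open Cfsg.Lib.Solv Cfsg.Lib.Solv.ClassNum Cfsg.Lib.Solv.ClassSize Subgroup

theorem card_inf_eq {G : Type*} [Group G] [Finite G] {p : ℕ} [Fact p.Prime] (N : Subgroup G)
    [N.Normal] (P Q : Sylow p G) :
    Nat.card ((Q : Subgroup G) ⊓ N : Subgroup G) = Nat.card ((P : Subgroup G) ⊓ N : Subgroup G) := by
  have h1 := card_eq_card_map_mul (QuotientGroup.mk' N) (P : Subgroup G)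
  have h2 := card_eq_card_map_mul (QuotientGroup.mk' N) (Q : Subgroup G)
  have hs := QuotientGroup.mk'_surjective N
  rw [QuotientGroup.ker_mk', ← Sylow.coe_mapSurjective hs, Sylow.card_eq_multiplicity,
    Sylow.card_eq_multiplicity] at h1 h2
  exact Nat.eq_of_mul_eq_mul_left (pow_pos (Fact.out : p.Prime).pos _) (h2.symm.trans h1)

theorem fiber {G : Type*} [Group G] [Finite G] {p : ℕ} [hp : Fact p.Prime] (N : Subgroup G)
    [N.Normal] (P : Sylow p G) (a : G ⧸ N) (ha : ∃ k, orderOf a = p ^ k) :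
    Nat.card ((P : Subgroup G) ⊓ N : Subgroup G) ≤
      Nat.card {g : G // (g : G ⧸ N) = a ∧ ∃ k, orderOf g = p ^ k} ∧
    (N ≤ center G → Nat.card {g : G // (g : G ⧸ N) = a ∧ ∃ k, orderOf g = p ^ k} ≤
      Nat.card ((P : Subgroup G) ⊓ N : Subgroup G)) := by
  obtain ⟨k, hk⟩ := ha
  obtain ⟨y, hy, j, hj⟩ := exists_lift_prime_pow _ (QuotientGroup.mk'_surjective N) hp.out hk
  have hy' : (y : G ⧸ N) = a := hy
  obtain ⟨Q, hQ⟩ := exists_sylow_mem_of_pow_eq_one (p := p) (k := j) (x := y)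
    (by rw [← hj, pow_orderOf_eq_one])
  rw [← card_inf_eq N P Q]
  constructor
  · refine Nat.card_le_card_of_injective (fun z => ⟨y * z.1, ?_,
      exists_orderOf_eq_pow_of_mem Q.isPGroup' (mul_mem hQ z.2.1)⟩) fun z w h => ?_
    · rw [QuotientGroup.mk_mul, (QuotientGroup.eq_one_iff _).2 z.2.2, mul_one, hy']
    · exact Subtype.ext (mul_left_cancel (congrArg Subtype.val h))
  · intro hN
    refine Nat.card_le_card_of_injective (fun g => ⟨y⁻¹ * g.1, ?_,
      QuotientGroup.eq.1 (hy'.trans g.2.1.symm)⟩) fun z w h => ?_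
    · obtain ⟨g, hg, i, hi⟩ := g
      have hz : y⁻¹ * g ∈ center G := hN (QuotientGroup.eq.1 (hy'.trans hg.symm))
      have hc : Commute y⁻¹ g := by
        have h1 : Commute y (y⁻¹ * g) := mem_center_iff.1 hz y
        have h2 := (Commute.refl y).mul_right h1
        rw [mul_inv_cancel_left] at h2
        exact h2.inv_left
      have h3 : (y⁻¹ * g) ^ p ^ (j + i) = 1 := by
        rw [hc.mul_pow, inv_pow, pow_add, pow_mul, ← hj, pow_orderOf_eq_one, one_pow, mul_comm,
          pow_mul, ← hi, pow_orderOf_eq_one]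
        simp
      have h4 : y⁻¹ * g ∈ pCore p G := mem_pCore_of_index_dvd (k := 0) h3
        (by rw [index_cent_eq_one_iff.2 hz]; simp)
      exact pCore_le_sylow Q h4
    · exact Subtype.ext (mul_left_cancel (congrArg Subtype.val h))

/-- Let G be a finite group, p a prime, N a normal subgroup, P a Sylow p-subgroup of G and P̄ a Sylow p-subgroup of G/N. Count the elements of p-power order, the identity included. Then (number of such elements of G/N)/#P̄ ≤ (number of such elements of G)/#P, stated as a cross-multiplied inequality, with equality when N is central. -/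
theorem result {G : Type*} [Group G] [Finite G] (p : ℕ) [Fact p.Prime] (N : Subgroup G) [N.Normal]
    (P : Sylow p G) (Pbar : Sylow p (G ⧸ N)) :
    Nat.card {g : (G ⧸ N) // ∃ k : ℕ, orderOf g = p ^ k} * Nat.card (P : Subgroup G) ≤ Nat.card {g : G // ∃ k : ℕ, orderOf g = p ^ k} * Nat.card (Pbar : Subgroup (G ⧸ N)) ∧
    (N ≤ Subgroup.center G → Nat.card {g : (G ⧸ N) // ∃ k : ℕ, orderOf g = p ^ k} * Nat.card (P : Subgroup G) = Nat.card {g : G // ∃ k : ℕ, orderOf g = p ^ k} * Nat.card (Pbar : Subgroup (G ⧸ N))) := by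
  classical
  have := Fintype.ofFinite (G ⧸ N)
  have hs := QuotientGroup.mk'_surjective N
  have hP : Nat.card (P : Subgroup G) = Nat.card (Pbar : Subgroup (G ⧸ N)) *
      Nat.card ((P : Subgroup G) ⊓ N : Subgroup G) := by
    have h1 := card_eq_card_map_mul (QuotientGroup.mk' N) (P : Subgroup G)
    rwa [QuotientGroup.ker_mk', ← Sylow.coe_mapSurjective hs,
      (P.mapSurjective hs).card_eq_multiplicity, ← Pbar.card_eq_multiplicity] at h1
  have h1 := card_pairs_eq_sum_filter (fun a : G ⧸ N => ∃ k, orderOf a = p ^ k)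
    (fun a (g : G) => (g : G ⧸ N) = a ∧ ∃ k, orderOf g = p ^ k)
  have h2 : Nat.card {g : G // ∃ k : ℕ, orderOf g = p ^ k} =
      Nat.card {x : (G ⧸ N) × G // (∃ k, orderOf x.1 = p ^ k) ∧
        (x.2 : G ⧸ N) = x.1 ∧ ∃ k, orderOf x.2 = p ^ k} := by
    refine Nat.card_congr
      { toFun := fun g => ⟨((g.1 : G ⧸ N), g.1), ?_, rfl, g.2⟩
        invFun := fun x => ⟨x.1.2, x.2.2.2⟩
        left_inv := fun _ => rfl
        right_inv := fun x => Subtype.ext (Prod.ext x.2.2.1 rfl) }
    obtain ⟨k, hk⟩ := g.2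
    have h3 := orderOf_map_dvd (QuotientGroup.mk' N) g.1
    rw [hk, Nat.dvd_prime_pow Fact.out] at h3
    obtain ⟨i, -, hi⟩ := h3
    exact ⟨i, hi⟩
  have h3 : Nat.card {g : (G ⧸ N) // ∃ k : ℕ, orderOf g = p ^ k} *
      Nat.card ((P : Subgroup G) ⊓ N : Subgroup G) =
      ∑ a : G ⧸ N with ∃ k, orderOf a = p ^ k, Nat.card ((P : Subgroup G) ⊓ N : Subgroup G) := by
    rw [Finset.sum_const, smul_eq_mul, Nat.subtype_card (Finset.univ.filter fun a : G ⧸ N => ∃ k, orderOf a = p ^ k) (by simp)]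
  have hle : Nat.card {g : (G ⧸ N) // ∃ k : ℕ, orderOf g = p ^ k} *
      Nat.card ((P : Subgroup G) ⊓ N : Subgroup G) ≤
      Nat.card {g : G // ∃ k : ℕ, orderOf g = p ^ k} := by
    rw [h3, h2, h1]
    exact Finset.sum_le_sum fun a ha => (fiber N P a (by simpa using ha)).1
  refine ⟨?_, fun hN => ?_⟩
  · rw [hP, mul_comm (Nat.card (Pbar : Subgroup (G ⧸ N))), ← mul_assoc]
    exact Nat.mul_le_mul_right _ hle
  · rw [hP, mul_comm (Nat.card (Pbar : Subgroup (G ⧸ N))), ← mul_assoc]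
    congr 1
    refine le_antisymm hle ?_
    rw [h3, h2, h1]
    exact Finset.sum_le_sum fun a ha => (fiber N P a (by simpa using ha)).2 hN

end Cfsg.Agent.S4153
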