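import Cfsg.Statements.S4154
-- import your own Cfsg.Agent.* helpers here

set_option autoImplicit false
open Cfsg

namespace Cfsg.Agent.S4154

/-- Let G be a finite group and α an automorphism of G such that every element of G is the product of an element fixed by α and an element of the form g⁻¹α(g). If N is a normal α-invariant subgroup, then the automorphism ᾱ induced on G/N has the same property, and every coset fixed by ᾱ contains an element fixed by α (so the fixed points of ᾱ are the images of the fixed points of α). -/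
theorem result {G : Type*} [Group G] [Finite G] (α : MulAut G)
    (hccp : ∀ x : G, ∃ c g : G, α c = c ∧ x = c * (g⁻¹ * α g))
    (N : Subgroup G) [N.Normal] (hN : ∀ n ∈ N, α n ∈ N) :
    (∀ x : G, ∃ c g : G, c⁻¹ * α c ∈ N ∧ x⁻¹ * (c * (g⁻¹ * α g)) ∈ N) ∧
    (∀ x : G, x⁻¹ * α x ∈ N → ∃ c : G, α c = c ∧ c⁻¹ * x ∈ N) := by
  constructor
  · intro x
    obtain ⟨c, g, hc, rfl⟩ := hccp x
    exact ⟨c, g, by rw [hc, inv_mul_cancel]; exact N.one_mem, by rw [inv_mul_cancel]; exact N.one_mem⟩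
  let β : G ⧸ N →* G ⧸ N := QuotientGroup.map N N (α : G →* G) hN
  let C : Subgroup (G ⧸ N) := β.eqLocus (MonoidHom.id _)
  let D : Subgroup (G ⧸ N) := ((α : G →* G).eqLocus (MonoidHom.id _)).map (QuotientGroup.mk' N)
  have hDC : D ≤ C := by
    rintro _ ⟨c, hc, rfl⟩
    exact congrArg (QuotientGroup.mk' N) hc
  let f : D × ((G ⧸ N) ⧸ C) → G ⧸ N := fun q => q.1 * ((q.2.out⁻¹)⁻¹ * β q.2.out⁻¹)
  have hf : Function.Surjective f := by
    intro y
    obtain ⟨x, rfl⟩ := QuotientGroup.mk_surjective y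
    obtain ⟨c, g, hc, rfl⟩ := hccp x
    refine ⟨(⟨c, c, hc, rfl⟩, (((g : G ⧸ N)⁻¹ : G ⧸ N) : (G ⧸ N) ⧸ C)), ?_⟩
    obtain ⟨e, he⟩ := QuotientGroup.mk_out_eq_mul C ((g : G ⧸ N)⁻¹)
    have he' : β e = e := e.2
    have hg : β (g : G ⧸ N) = (α g : G) := rfl
    simp only [f, he, mul_inv_rev, inv_inv, map_mul, map_inv, he', hg, QuotientGroup.mk_mul,
      QuotientGroup.mk_inv]
    group
  have h1 := Nat.card_le_card_of_surjective f hf
  rw [Nat.card_prod, ← C.card_mul_index, ← Subgroup.index] at h1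
  have h2 := Nat.le_of_mul_le_mul_right h1 (Nat.pos_of_ne_zero Subgroup.index_ne_zero_of_finite)
  have h3 : D = C := Subgroup.eq_of_le_of_card_ge hDC h2
  intro x hx
  have h4 : (x : G ⧸ N) ∈ C := (QuotientGroup.eq.mpr hx).symm
  rw [← h3] at h4
  obtain ⟨c, hc, hcx⟩ := h4
  exact ⟨c, hc, QuotientGroup.eq.mp hcx⟩

end Cfsg.Agent.S4154
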