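import Cfsg.Statements.S4155
import Cfsg.Agent.Solv.FrobeniusGroup
import Cfsg.Agent.Solv.NilpotentHall
import Cfsg.Agent.Solv.Cores
import Cfsg.Agent.S4107

set_option autoImplicit false
open Cfsg

namespace Cfsg.Agent.S4155

/-- Let G be a finite group and N a proper non-trivial normal nilpotent subgroup whose order is not a prime power, such that for every x outside N all elements of the coset xN have the same order as x. Then N is the Fitting subgroup of G, and for every prime q every Sylow q-subgroup of G/N is cyclic or generalized quaternion. -/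
theorem result {G : Type*} [Group G] [Finite G] (N : Subgroup G) [N.Normal] (hN1 : N ≠ ⊥) (hN2 : N ≠ ⊤)
    (heq : ∀ x : G, x ∉ N → ∀ n ∈ N, orderOf (x * n) = orderOf x)
    (hnil : Group.IsNilpotent N) (hnpp : ¬ IsPrimePow (Nat.card N)) :
    N = Cfsg.fittingSubgroup G ∧
    ∀ (q : ℕ) [Fact q.Prime] (Q : Sylow q (G ⧸ N)), IsCyclic (Q : Subgroup (G ⧸ N)) ∨ ∃ n : ℕ, Nonempty ((Q : Subgroup (G ⧸ N)) ≃* QuaternionGroup (2 ^ n)) := by
  open Cfsg.Lib.Solv in
  have hF : N = fittingSubgroup G := by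
    have hle : N ≤ fittingSubgroup G := le_fitting inferInstance hnil
    by_contra h
    exact hnpp (((Cfsg.Agent.S4107.result N hN1 hN2 heq).2 (lt_of_le_of_ne hle h)).dvd
      (Subgroup.card_dvd_of_le hle) (fun h => hN1 (Subgroup.card_eq_one.1 h)))
  refine ⟨hF, fun q hq Q' => ?_⟩
  obtain ⟨Q, rfl⟩ := Sylow.mapSurjective_surjective (QuotientGroup.mk'_surjective N) q Q'
  have : ∃ r : ℕ, r.Prime ∧ r ∣ Nat.card N ∧ r ≠ q := by
    by_contra h
    push Not at h
    have h1 := Nat.eq_prime_pow_of_unique_prime_dvd Nat.card_pos.ne' fun {d} hd hdK => h d hd hdK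
    refine hnpp ⟨q, _, hq.out.prime, Nat.pos_of_ne_zero fun h0 => hN1 ?_, h1.symm⟩
    rw [h0, pow_zero] at h1
    exact Subgroup.card_eq_one.1 h1
  obtain ⟨r, hr, hrN, hrq⟩ := this
  have := Fact.mk hr
  set R := pCore r G with hR
  set M := pCore q G with hM
  have hRN : R ≤ N := hF ▸ pCore_le_fitting r G
  have hMN : M ≤ N := hF ▸ pCore_le_fitting q G
  have hQN : ∀ x ∈ (Q : Subgroup G), x ∈ N → x ∈ M := fun x hx hxN =>
    le_pCore_of_le_fitting (P := Q ⊓ N) (Q.isPGroup'.to_inf_left) (hF ▸ inf_le_right) ⟨hx, hxN⟩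
  have hR0 : R.map (QuotientGroup.mk' M) ≠ ⊥ := by
    rw [Ne, Subgroup.map_eq_bot_iff, QuotientGroup.ker_mk']
    intro h
    have h1 : R = ⊥ := by
      rw [eq_bot_iff, ← pCore_inf_pCore_of_ne (G := G) hrq]
      exact le_inf le_rfl h
    obtain ⟨⟨x, hx⟩, hxr⟩ := exists_prime_orderOf_dvd_card' r hrN
    rw [Subgroup.orderOf_mk] at hxr
    have h2 : x ∈ R := mem_pCore_of_mem_fitting (hF ▸ hx) (k := 1) (by rw [hxr, pow_one])
    rw [h1, Subgroup.mem_bot] at h2
    rw [h2, orderOf_one] at hxr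
    exact hr.one_lt.ne hxr
  have hfpf : ∀ h ∈ (Q : Subgroup G).map (QuotientGroup.mk' M), h ≠ 1 →
      R.map (QuotientGroup.mk' M) ⊓ Subgroup.centralizer {h} = ⊥ := by
    rintro _ ⟨x, hx, rfl⟩ h1
    refine Fpf.map _ (Fpf.mem_normalizer_of_normal R x) ?_
    have hxN : x ∉ N := fun h => h1 ((QuotientGroup.eq_one_iff x).2 (hQN x hx h))
    rw [Fpf.inf_centralizer_eq_bot_iff]
    intro n hn hc
    have h2 := heq x hxN n (hRN hn)
    obtain ⟨a, ha⟩ := (IsPGroup.iff_orderOf.1 Q.isPGroup') ⟨x, hx⟩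
    obtain ⟨b, hb⟩ := (IsPGroup.iff_orderOf.1 (pCore_isPGroup r G)) ⟨n, hn⟩
    rw [Subgroup.orderOf_mk] at ha hb
    rw [(show Commute x n from hc.symm).orderOf_mul_eq_mul_orderOf_of_coprime
      (by rw [ha, hb]; exact Nat.coprime_pow_primes _ _ hq.out hr hrq.symm)] at h2
    exact orderOf_eq_one_iff.1 ((Nat.mul_eq_left (orderOf_pos x).ne').1 h2)
  have : (R.map (QuotientGroup.mk' M)).Normal :=
    Subgroup.Normal.map inferInstance _ (QuotientGroup.mk'_surjective M)
  have h := Fpf.isCyclic_or_quaternion (Fpf.le_normalizer_of_normal' _ _) hR0 hfpf le_rfl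
    (Q.isPGroup'.map _)
  let φ : G ⧸ M →* G ⧸ N := QuotientGroup.map M N (MonoidHom.id G) hMN
  have hφ : ((Q : Subgroup G).map (QuotientGroup.mk' M)).map φ =
      (Q : Subgroup G).map (QuotientGroup.mk' N) := by
    rw [Subgroup.map_map]; rfl
  let e : (Q : Subgroup G).map (QuotientGroup.mk' M) ≃* (Q : Subgroup G).map (QuotientGroup.mk' N) :=
    (MulEquiv.ofBijective (φ.subgroupMap _) ⟨by
      rw [injective_iff_map_eq_one]
      rintro ⟨_, x, hx, rfl⟩ h
      exact Subtype.ext ((QuotientGroup.eq_one_iff x).2 (hQN x hx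
        ((QuotientGroup.eq_one_iff x).1 (congrArg Subtype.val h)))),
      φ.subgroupMap_surjective _⟩).trans (MulEquiv.subgroupCongr hφ)
  rcases h with h | ⟨-, n, ⟨h⟩⟩
  · exact Or.inl (isCyclic_of_surjective e e.surjective)
  · exact Or.inr ⟨n, ⟨e.symm.trans h⟩⟩

end Cfsg.Agent.S4155
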