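import Cfsg.Statements.S4156
import Mathlib.GroupTheory.SpecificGroups.Alternating.Simple

set_option autoImplicit false
open Cfsg

namespace Cfsg.Agent.S4156

/-- Let n ≥ 5 and F a finite field. Then the projective special linear group PSL_n(F) contains a subgroup isomorphic to the alternating group of degree n + 1. -/
theorem result (n : ℕ) (hn : 5 ≤ n) (F : Type*) [Field F] [Finite F] :
    ∃ f : alternatingGroup (Fin (n + 1)) →* Matrix.ProjectiveSpecialLinearGroup (Fin n) F, Function.Injective f := by
  classical
  let b : Fin (n + 1) → Fin n → F := fun x j => if x = j.castSucc then 1 else 0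
  let M : Equiv.Perm (Fin (n + 1)) → Matrix (Fin n) (Fin n) F :=
    fun σ => Matrix.of fun j i => b (σ i.castSucc) j - b (σ (Fin.last n)) j
  have hb : ∀ i : Fin n, b i.castSucc = Pi.single i 1 := by
    intro i
    ext j
    simp [b, Pi.single_apply, eq_comm]
  have hb0 : b (Fin.last n) = 0 := by
    ext j
    simp [b, (Fin.castSucc_lt_last j).ne']
  have hM : ∀ σ x, (M σ).mulVec (b x) = b (σ x) - b (σ (Fin.last n)) := by
    intro σ x
    induction x using Fin.lastCases with
    | last => rw [hb0, Matrix.mulVec_zero, sub_self]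
    | cast i =>
      rw [hb, Matrix.mulVec_single_one]
      rfl
  have hext : ∀ A B : Matrix (Fin n) (Fin n) F, (∀ x, A.mulVec (b x) = B.mulVec (b x)) → A = B := by
    intro A B h
    ext j i
    have := congrFun (h i.castSucc) j
    rwa [hb, Matrix.mulVec_single_one, Matrix.mulVec_single_one] at this
  let φ : Equiv.Perm (Fin (n + 1)) →* Matrix (Fin n) (Fin n) F :=
    { toFun := M
      map_one' := hext _ _ fun x => by simp [hM, hb0]
      map_mul' := fun σ τ => hext _ _ fun x => by
        rw [← Matrix.mulVec_mulVec, hM, hM, Matrix.mulVec_sub, hM, hM]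
        simp }
  have h5 : 5 ≤ Nat.card (Fin (n + 1)) := by simp; omega
  have hsimple := alternatingGroup.isSimpleGroup h5
  have hperf := commutator_alternatingGroup_eq_top h5
  have htriv : ∀ {H : Type _} [Group H] (f : alternatingGroup (Fin (n + 1)) →* H),
      (∀ x y, Commute (f x) (f y)) → ∀ x, f x = 1 := by
    intro H _ f hf x
    have : commutator (alternatingGroup (Fin (n + 1))) ≤ f.ker :=
      Subgroup.commutator_le.mpr fun x _ y _ => by
        rw [MonoidHom.mem_ker, map_commutatorElement, commutatorElement_eq_one_iff_commute]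
        exact hf x y
    exact this (hperf ▸ Subgroup.mem_top x)
  have hdet : ∀ σ : alternatingGroup (Fin (n + 1)), (φ σ).det = 1 := by
    intro σ
    have := htriv ((Matrix.detMonoidHom.comp (φ.comp (Subgroup.subtype _))).toHomUnits)
      (fun x y => Commute.all _ _) σ
    exact congrArg Units.val this
  let ψ : alternatingGroup (Fin (n + 1)) →* Matrix.SpecialLinearGroup (Fin n) F :=
    { toFun := fun σ => ⟨φ σ, hdet σ⟩
      map_one' := Subtype.ext (by simp)
      map_mul' := fun σ τ => Subtype.ext (φ.map_mul σ τ) }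
  refine ⟨(QuotientGroup.mk' _).comp ψ, ?_⟩
  rw [← MonoidHom.ker_eq_bot_iff]
  refine (hsimple.eq_bot_or_eq_top_of_normal _ inferInstance).resolve_right fun h => ?_
  have h1 := htriv ψ fun x y => by
    have : y ∈ ((QuotientGroup.mk' (Subgroup.center _)).comp ψ).ker := h ▸ Subgroup.mem_top y
    exact Subgroup.mem_center_iff.mp ((QuotientGroup.eq_one_iff _).mp this) _
  let a : Fin n := ⟨0, by omega⟩
  let c : Fin n := ⟨1, by omega⟩
  let d : Fin n := ⟨2, by omega⟩
  have hac : a.castSucc ≠ c.castSucc := by simp [a, c]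
  have had : a.castSucc ≠ d.castSucc := by simp [a, d]
  have hcd : d.castSucc ≠ c.castSucc := by simp [d, c]
  have h2 : M (Equiv.swap a.castSucc c.castSucc * Equiv.swap a.castSucc d.castSucc) = 1 :=
    congrArg Subtype.val (h1 ⟨Equiv.swap a.castSucc c.castSucc * Equiv.swap a.castSucc d.castSucc,
      by simp [Equiv.Perm.mem_alternatingGroup, hac, had]⟩)
  have h3 := congrFun (hM (Equiv.swap a.castSucc c.castSucc * Equiv.swap a.castSucc d.castSucc)
    a.castSucc) a
  rw [h2, Matrix.one_mulVec, Equiv.Perm.mul_apply, Equiv.Perm.mul_apply, Equiv.swap_apply_left,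
    Equiv.swap_apply_of_ne_of_ne had.symm hcd,
    Equiv.swap_apply_of_ne_of_ne (Fin.castSucc_lt_last _).ne' (Fin.castSucc_lt_last _).ne',
    Equiv.swap_apply_of_ne_of_ne (Fin.castSucc_lt_last _).ne' (Fin.castSucc_lt_last _).ne', hb0] at h3
  simp [b, had.symm] at h3
  exact had (by rw [h3])

end Cfsg.Agent.S4156
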