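import Cfsg.Statements.S4157
import Cfsg.Agent.Solv.Kulakoff
import Cfsg.Agent.Solv.CyclicIndexP
import Cfsg.Agent.Trans.MaxClassTwo
import Cfsg.Agent.FT.BG4.Elem

set_option autoImplicit false
open Cfsg

namespace Cfsg.Agent.S4157


open Subgroup Finset Cfsg.Lib.Solv Cfsg.Lib.Solv.Count
open scoped commutatorElement

section
variable {G : Type*} [Group G]

/-- The third subgroup of index two above `M ⊓ T`. -/
def third (M T : Subgroup G) (hM : M.index = 2) (hT : T.index = 2) : Subgroup G where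
  carrier := {g | g ∈ M ↔ g ∈ T}
  one_mem' := iff_of_true M.one_mem T.one_mem
  mul_mem' := by
    intro a b ha hb
    simp only [Set.mem_ofPred_eq, mul_mem_iff_of_index_two hM, mul_mem_iff_of_index_two hT] at *
    tauto
  inv_mem' := by
    intro a ha
    simpa only [Set.mem_ofPred_eq, inv_mem_iff] using ha

variable {M T : Subgroup G} (hM : M.index = 2) (hT : T.index = 2)

theorem mem_third {g : G} : g ∈ third M T hM hT ↔ (g ∈ M ↔ g ∈ T) := Iff.rfl

theorem index_third (h : M ≠ T) : (third M T hM hT).index = 2 := by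
  obtain ⟨a, ha⟩ : ∃ a, ¬ (a ∈ M ↔ a ∈ T) := by
    by_contra hc
    push Not at hc
    exact h (Subgroup.ext hc)
  refine index_eq_two_iff.mpr ⟨a, fun b => ?_⟩
  simp only [mem_third, mul_mem_iff_of_index_two hM, mul_mem_iff_of_index_two hT, Xor]
  tauto

theorem third_ne_right : third M T hM hT ≠ T := fun h => by
  have h1 : M = ⊤ := eq_top_iff.mpr fun g _ => by
    have := (mem_third hM hT (g := g)).symm.trans (SetLike.ext_iff.mp h g)
    tauto
  rw [h1, index_top] at hM
  omega

theorem third_ne_left : third M T hM hT ≠ M := fun h => by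
  have h1 : T = ⊤ := eq_top_iff.mpr fun g _ => by
    have := (mem_third hM hT (g := g)).symm.trans (SetLike.ext_iff.mp h g)
    tauto
  rw [h1, index_top] at hT
  omega

theorem third_third (h : M ≠ T) : third (third M T hM hT) T (index_third hM hT h) hT = M := by
  ext g
  simp only [mem_third]
  tauto

theorem commutator_le_third (h : M ≠ T) {r : G} (hr : r ∈ T) (hrM : r ∉ M)
    (hc : ∀ t ∈ T, r * t = t * r) : ⁅M, M⁆ ≤ ⁅third M T hM hT, third M T hM hT⁆ := by
  have key : ∀ x ∈ M, ∀ y ∈ M, x ∈ T → ⁅x, y⁆ ∈ ⁅third M T hM hT, third M T hM hT⁆ := by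
    intro x hx y hy hxT
    by_cases hyT : y ∈ T
    · exact commutator_mem_commutator (iff_of_true hx hxT) (iff_of_true hy hyT)
    · have h1 : ⁅x, y⁆ = ⁅x, y * r⁆ := by
        simp only [commutatorElement_def]
        calc x * y * x⁻¹ * y⁻¹ = x * y * (x⁻¹ * r) * r⁻¹ * y⁻¹ := by group
          _ = _ := by rw [← hc _ (T.inv_mem hxT)]; group
      rw [h1]
      refine commutator_mem_commutator (iff_of_true hx hxT) (iff_of_false ?_ ?_)
      · rwa [mul_mem_cancel_left hy]
      · rwa [mul_mem_cancel_right hr]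
  rw [commutator_le]
  intro x hx y hy
  by_cases hxT : x ∈ T
  · exact key x hx y hy hxT
  by_cases hyT : y ∈ T
  · rw [← commutatorElement_inv]
    exact inv_mem (key y hy x hx hyT)
  · have h1 : ⁅x, y⁆ = ⁅y * x⁻¹, x⁆⁻¹ := by simp only [commutatorElement_def]; group
    rw [h1]
    refine inv_mem (key _ (M.mul_mem hy (M.inv_mem hx)) x hx ?_)
    rw [mul_mem_iff_of_index_two hT, inv_mem_iff]
    exact iff_of_false hyT hxT

theorem index_commutator_third [Finite G] (h : M ≠ T) {r : G} (hr : r ∈ T) (hrM : r ∉ M)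
    (hc : ∀ t ∈ T, r * t = t * r) :
    (_root_.commutator (third M T hM hT)).index = (_root_.commutator M).index := by
  have h1 := commutator_le_third hM hT h hr hrM hc
  have h2 := commutator_le_third (index_third hM hT h) hT (third_ne_right hM hT) hr
    (fun h => hrM (h.mpr hr)) hc
  rw [third_third hM hT h] at h2
  have h3 : ∀ K : Subgroup G, K.index = 2 →
      (_root_.commutator K).index * Nat.card (⁅K, K⁆ : Subgroup G) * 2 = Nat.card G := by
    intro K hK
    rw [← Subgroup.map_subtype_commutator, card_map_subtype, index_mul_card, ← hK, card_mul_index]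
  have h4 := (h3 _ hM).trans (h3 _ (index_third hM hT h)).symm
  rw [← le_antisymm h1 h2] at h4
  exact (Nat.eq_of_mul_eq_mul_right Nat.card_pos (Nat.eq_of_mul_eq_mul_right two_pos h4)).symm

theorem two_dvd_cnt [Finite G] (B : Subgroup G → Prop)
    (hB : ∀ (M : Subgroup G) (hM : M.index = 2), M ≠ T → B M → B (third M T hM hT)) :
    2 ∣ cnt (fun M : Subgroup G => (M.index = 2 ∧ B M) ∧ ¬ M = T) := by
  classical
  have := Fintype.ofFinite (Subgroup G)
  rw [cnt_eq_card_filter, ← ZMod.natCast_eq_zero_iff, card_eq_sum_ones, Nat.cast_sum]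
  refine sum_involution (fun M hM => third M T (mem_filter.mp hM).2.1.1 hT) (fun _ _ => rfl)
    (fun M hM _ => third_ne_left _ _) (fun M hM => ?_) (fun M hM => ?_)
  · have h := (mem_filter.mp hM).2
    exact mem_filter.mpr ⟨mem_univ _, ⟨index_third _ _ h.2, hB M _ h.2 h.1.2⟩, third_ne_right _ _⟩
  · exact third_third _ _ (mem_filter.mp hM).2.2

omit hM hT in
theorem mem_zpowers_sq_or [Finite G] {b g : G} {n : ℕ} (hb : orderOf b = 2 ^ n)
    (hg : g ∈ zpowers b) : g ∈ zpowers (b ^ 2) ∨ (b ∈ zpowers g ∧ b * g ∈ zpowers (b ^ 2)) := by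
  obtain ⟨j, rfl⟩ := PG.exists_pow_eq_of_mem_zpowers hg
  rcases Nat.even_or_odd' j with ⟨i, rfl | rfl⟩
  · exact Or.inl (pow_mul b 2 i ▸ pow_mem (mem_zpowers _) i)
  · refine Or.inr ⟨PG.mem_zpowers_pow_of_not_dvd Nat.prime_two hb (by omega), ?_⟩
    rw [← pow_succ', show 2 * i + 1 + 1 = 2 * (i + 1) by ring, pow_mul]
    exact pow_mem (mem_zpowers _) _

omit hM hT in
theorem normal_four [Finite G] {m : ℕ} (hG : Nat.card G = 2 ^ (m + 3))
    (h : (_root_.commutator G).index = 4) (R : Subgroup G) [hR : R.Normal] (hRc : Nat.card R = 4)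
    (hnc : ¬ IsCyclic R) : m = 0 ∧ ¬ R ≤ center G := by
  obtain ⟨C, hC1, hC2⟩ := Cfsg.Lib.Trans.exists_cyclic_index_two_of_commutator_index hG h
  have hn := normal_of_index_eq_two hC2
  have hco := PG.isCoatom_of_index_prime (hC2 ▸ Nat.prime_two : C.index.Prime)
  obtain ⟨r, hr, hrC⟩ := SetLike.not_le_iff_exists.mp
    (fun hle : R ≤ C => hnc (isCyclic_of_le hle))
  obtain ⟨φ, h3, h4⟩ := Cfsg.Lib.Trans.mem_commutator_iff_of_sup_zpowers C
    (PG.sup_zpowers_eq_top_of_isCoatom hco hrC)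
  have h5 := (_root_.commutator G).index_mul_card
  rw [h, hG] at h5
  constructor
  · have h6 : _root_.commutator G ≤ R ⊓ C := by
      rw [← h4]
      rintro _ ⟨c, rfl⟩
      rw [h3]
      refine mem_inf.mpr ⟨R.mul_mem (hR.conj_mem r hr c) (R.inv_mem hr), ?_⟩
      simpa only [commutatorElement_def, mul_assoc] using
        C.mul_mem c.2 (hn.conj_mem _ (C.inv_mem c.2) r)
    have h7 := PG.prime_mul_card_le_of_lt (p := 2) (IsPGroup.of_card (n := 2) hRc)
      (inf_lt_left.mpr fun hle => hrC (hle hr) : R ⊓ C < R)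
    have h8 := card_le_of_le h6
    have h9 : 2 ^ (m + 3) ≤ 2 ^ 3 := by omega
    have := (Nat.pow_le_pow_iff_right one_lt_two).mp h9
    omega
  · intro hle
    have h6 : _root_.commutator G = ⊥ := by
      rw [← h4, eq_bot_iff]
      rintro _ ⟨c, rfl⟩
      rw [h3, mem_bot, commutatorElement_eq_one_iff_mul_comm]
      exact mem_center_iff.mp (hle hr) c
    rw [h6, card_bot, pow_add] at h5
    omega

end

section
variable {G : Type*} [Group G] [Finite G] {m : ℕ} {a : G}

theorem sq_not_mem (ha : orderOf a = 2 ^ (m + 2)) : a ^ 2 ∉ zpowers (a ^ 2 ^ 2) := fun h => by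
  have h1 := orderOf_dvd_natCard (⟨_, h⟩ : zpowers (a ^ 2 ^ 2))
  have h2 := PG.orderOf_pow_prime_pow Nat.prime_two ha (k := 1) (by omega)
  rw [pow_one] at h2
  rw [orderOf_mk, h2, Nat.card_zpowers, PG.orderOf_pow_prime_pow Nat.prime_two ha (by omega),
    Nat.pow_dvd_pow_iff_le_right one_lt_two] at h1
  omega

theorem index_zpowers_sq (hG : Nat.card G = 2 ^ (m + 3)) (ha : orderOf a = 2 ^ (m + 2)) :
    (zpowers (a ^ 2)).index = 4 := by
  have h2 := PG.orderOf_pow_prime_pow Nat.prime_two ha (k := 1) (by omega)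
  rw [pow_one] at h2
  apply PG.index_eq_of_card_eq_mul
  rw [Nat.card_zpowers, h2, hG, show m + 2 - 1 = m + 1 from rfl]
  ring

theorem commutator_le_zpowers_sq (hG : Nat.card G = 2 ^ (m + 3)) (hnc : ¬ IsCyclic G)
    (ha : orderOf a = 2 ^ (m + 2)) : _root_.commutator G ≤ zpowers (a ^ 2) :=
  frattini_eq_zpowers_pow hG hnc ha ▸ commutator_le_frattini_of_isPGroup (IsPGroup.of_card hG)

theorem commutator_le_zpowers_four (hG : Nat.card G = 2 ^ (m + 3)) (hnc : ¬ IsCyclic G)
    (ha : orderOf a = 2 ^ (m + 2)) (hE : (_root_.commutator G).index ≠ 4) :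
    _root_.commutator G ≤ zpowers (a ^ 2 ^ 2) := by
  intro g hg
  have h2 := PG.orderOf_pow_prime_pow Nat.prime_two ha (k := 1) (by omega)
  rw [pow_one] at h2
  have h1 := commutator_le_zpowers_sq hG hnc ha
  rcases mem_zpowers_sq_or h2 (h1 hg) with h | ⟨h, -⟩
  · rwa [← pow_mul] at h
  · refine absurd ?_ hE
    rw [le_antisymm h1 (zpowers_le.mpr (zpowers_le.mpr hg h)), index_zpowers_sq hG ha]

theorem exists_normal_four (hG : Nat.card G = 2 ^ (m + 3)) (hnc : ¬ IsCyclic G)
    (hE : (_root_.commutator G).index ≠ 4) :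
    ∃ R : Subgroup G, R.Normal ∧ IsMulCommutative R ∧ (∀ v ∈ R, v ^ 2 = 1) ∧
      Nat.card R = 2 ^ 2 := by
  have hP : IsPGroup 2 G := IsPGroup.of_card hG
  by_cases h : ∀ A : Subgroup G, A.Normal → IsMulCommutative A → IsCyclic A
  · exfalso
    obtain ⟨a, x, n, -, ha, -, -, hn, hx⟩ :=
      (PG.two_group_of_forall_normal_abelian_isCyclic hP h).resolve_left hnc
    obtain rfl : n = m + 2 := by
      have := Nat.pow_right_injective le_rfl (hn.symm.trans hG)
      omega
    have h1 := commutator_le_zpowers_four hG hnc ha hE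
      (commutator_mem_commutator (mem_top a) (mem_top x))
    have h2 : ⁅a, x⁆ = a * (x * a * x⁻¹)⁻¹ := by simp only [commutatorElement_def]; group
    apply sq_not_mem ha
    rw [h2] at h1
    rcases hx with ⟨hx, -⟩ | ⟨-, -, hx⟩ | ⟨hm, -, hx⟩
    · rwa [hx, inv_inv, ← pow_two] at h1
    · rwa [hx, inv_inv, ← pow_two] at h1
    · obtain ⟨k, rfl⟩ : ∃ k, m = k + 1 := ⟨m - 1, by omega⟩
      have h3 : a ^ 2 = a * (a ^ (2 ^ (k + 1 + 2 - 1) - 1))⁻¹ * (a ^ 2 ^ 2) ^ 2 ^ k := by
        have h4 : 2 ^ 2 * 2 ^ k = (2 ^ (k + 1 + 2 - 1) - 1) + 1 := by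
          rw [Nat.sub_add_cancel Nat.one_le_two_pow, show k + 1 + 2 - 1 = 2 + k by omega, pow_add]
        rw [← pow_mul, h4, pow_succ a (_ - 1)]
        simp only [pow_two, mul_assoc, inv_mul_cancel_left]
      rw [h3]
      exact mul_mem (hx ▸ h1) (pow_mem (mem_zpowers _) _)
  · push Not at h
    obtain ⟨A, h1, h2, h3⟩ := h
    obtain ⟨V, -, h4⟩ := PG.exists_normal_elementary_sq hP A h3 (Or.inr h2)
    exact ⟨V, h4⟩

theorem cnt_even (hG : Nat.card G = 2 ^ (m + 3)) (hnc : ¬ IsCyclic G)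
    (hE : (_root_.commutator G).index ≠ 4) (c : Prop) (hc : c → 1 ≤ m) :
    2 ∣ cnt (fun M : Subgroup G => M.index = 2 ∧
      (IsCyclic M ∨ (c ∧ (_root_.commutator M).index = 4))) := by
  have hP : IsPGroup 2 G := IsPGroup.of_card hG
  obtain ⟨R, hRn, hRc, hR2, hR4⟩ := exists_normal_four hG hnc hE
  have hRnc := PG.not_isCyclic_of_card_eq_sq Nat.prime_two hR4 hR2
  have hcard : ∀ M : Subgroup G, M.index = 2 → Nat.card M = 2 ^ (m + 2) := fun M hM =>
    (card_eq_iff_index_eq (hG.trans (pow_succ 2 (m + 2))) M).mpr hM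
  obtain ⟨T, hT, hRT, hTC⟩ : ∃ T : Subgroup G, T.index = 2 ∧ R ≤ T ∧
      T ≤ centralizer (R : Set G) := by
    by_cases h : centralizer (R : Set G) = ⊤
    · obtain ⟨T, -, h1, h2⟩ := PG.exists_normal_index_eq_prime hP (H := R) (by
        rintro rfl
        rw [card_top, hG] at hR4
        have := Nat.pow_right_injective le_rfl hR4
        omega)
      exact ⟨T, h2, h1, h ▸ le_top⟩
    · refine ⟨_, ?_, le_centralizer R, le_rfl⟩
      have h1 := Cfsg.Lib.FT.BG4.index_centralizer_le hP R hR4.le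
      have h2 := index_eq_one.not.mpr h
      have h3 : (centralizer (R : Set G)).index ≠ 0 := index_ne_zero_of_finite
      omega
  have hsub : ∀ M : Subgroup G, M.index = 2 → R ≤ M → c → (_root_.commutator M).index = 4 →
      m = 1 ∧ ¬ M ≤ centralizer (R : Set G) := by
    intro M hM hRM h1 h2
    obtain ⟨k, rfl⟩ := Nat.exists_eq_add_of_le' (hc h1)
    obtain ⟨h3, h4⟩ := normal_four (m := k) (hcard M hM) h2 (R.subgroupOf M)
      ((card_subgroupOf_of_le hRM).trans hR4)
      (fun h => hRnc ((subgroupOfEquivOfLe hRM).isCyclic.mp h))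
    refine ⟨by omega, fun h5 => h4 fun r hr => mem_center_iff.mpr fun g => Subtype.ext ?_⟩
    exact (h5 g.2 r hr).symm
  rw [cnt_add _ (fun M => M = T), cnt_eq_zero, zero_add]
  · refine two_dvd_cnt hT _ fun M hM hne hB => ?_
    rcases hB with hB | ⟨h1, h2⟩
    · left
      obtain ⟨a, rfl, ha⟩ := exists_orderOf_of_isCyclic_max hG hM
      obtain ⟨r, hr, hra⟩ := SetLike.not_le_iff_exists.mp
        (fun hle : R ≤ zpowers a => hRnc (isCyclic_of_le hle))
      have haT : a ∉ T := fun h =>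
        hne (PG.eq_of_le_of_card_eq (zpowers_le.mpr h) ((hcard _ hM).trans (hcard _ hT).symm))
      refine (isCyclic_max_iff hG hnc ha (index_third hM hT hne)).mpr ⟨a * r, iff_of_false
        (by rwa [mul_mem_cancel_left (mem_zpowers a)]) (by rwa [mul_mem_cancel_right (hRT hr)]),
        fun h => sq_not_mem ha ?_⟩
      have h3 := commutator_le_zpowers_four hG hnc ha hE
        (commutator_mem_commutator (mem_top r) (mem_top a⁻¹))
      have h4 : a ^ 2 = (a * r) ^ 2 * (r ^ 2)⁻¹ * ⁅r, a⁻¹⁆ := by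
        simp only [commutatorElement_def, pow_two]; group
      rw [h4, hR2 r hr, inv_one, mul_one]
      exact mul_mem h h3
    · refine Or.inr ⟨h1, ?_⟩
      by_cases hRM : R ≤ M
      · obtain ⟨rfl, -⟩ := hsub M hM hRM h1 h2
        obtain ⟨r, hr, hrM⟩ := SetLike.not_le_iff_exists.mp (fun hle : T ≤ M =>
          hne (PG.eq_of_le_of_card_eq hle ((hcard _ hT).trans (hcard _ hM).symm)).symm)
        have hlt : R ≠ T := by
          rintro rfl
          have := hcard _ hT
          omega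
        obtain ⟨t, ht, htR⟩ := SetLike.not_le_iff_exists.mp (fun h => hlt (le_antisymm hRT h))
        have h3 := PG.isMulCommutative_sup_zpowers (hTC ht)
        rw [PG.sup_zpowers_eq_of_card_eq_prime_mul Nat.prime_two hRT
          (by rw [hcard _ hT, hR4]; rfl) ht htR] at h3
        rw [index_commutator_third hM hT hne hr hrM fun t ht => PG.mul_comm_of_mem hr ht, h2]
      · obtain ⟨r, hr, hrM⟩ := SetLike.not_le_iff_exists.mp hRM
        rw [index_commutator_third hM hT hne (hRT hr) hrM fun t ht => hTC ht r hr, h2]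
  · rintro M ⟨⟨hM, hB | ⟨h1, h2⟩⟩, rfl⟩
    · exact hRnc (isCyclic_of_le hRT)
    · exact (hsub M hM hRT h1 h2).2 hTC

theorem cnt_odd (hG : Nat.card G = 2 ^ (m + 3)) (hnc : ¬ IsCyclic G)
    (hE : (_root_.commutator G).index = 4) (c : Prop) :
    cnt (fun M : Subgroup G => M.index = 2 ∧
      (IsCyclic M ∨ (c ∧ (_root_.commutator M).index = 4))) % 2 = 1 := by
  have hP : IsPGroup 2 G := IsPGroup.of_card hG
  obtain ⟨A, hA, hT⟩ := Cfsg.Lib.Trans.exists_cyclic_index_two_of_commutator_index hG hE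
  obtain ⟨a, rfl, ha⟩ := exists_orderOf_of_isCyclic_max hG hT
  have hcard : ∀ M : Subgroup G, M.index = 2 → Nat.card M = 2 ^ (m + 2) := fun M hM =>
    (card_eq_iff_index_eq (hG.trans (pow_succ 2 (m + 2))) M).mpr hM
  have ha2 := PG.orderOf_pow_prime_pow Nat.prime_two ha (k := 1) (by omega)
  rw [pow_one] at ha2
  have hG' : _root_.commutator G = zpowers (a ^ 2) := by
    refine PG.eq_of_le_of_card_eq (commutator_le_zpowers_sq hG hnc ha) ?_
    have h1 := (_root_.commutator G).index_mul_card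
    rw [hE, ← (zpowers (a ^ 2)).index_mul_card, index_zpowers_sq hG ha] at h1
    omega
  rw [cnt_add _ (fun M => M = zpowers a), cnt_eq_one (a := zpowers a) ⟨⟨hT, Or.inl hA⟩, rfl⟩
    (fun M hM => hM.2)]
  suffices 2 ∣ cnt (fun M : Subgroup G => (M.index = 2 ∧
      (IsCyclic M ∨ (c ∧ (_root_.commutator M).index = 4))) ∧ ¬ M = zpowers a) by omega
  refine two_dvd_cnt hT _ fun M hM hne hB => ?_
  have haM : a ∉ M := fun h =>
    hne (PG.eq_of_le_of_card_eq (zpowers_le.mpr h) ((hcard _ hT).trans (hcard _ hM).symm)).symm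
  rcases hB with hB | ⟨h1, h2⟩
  · left
    obtain ⟨y, hyM, hy⟩ := (isCyclic_max_iff hG hnc ha hM).mp hB
    have hya : y ∉ zpowers a := fun h => by
      rcases mem_zpowers_sq_or ha h with h1 | ⟨h1, -⟩
      · obtain ⟨j, rfl⟩ := PG.exists_pow_eq_of_mem_zpowers h1
        apply hy
        rw [← pow_mul, mul_comm j, pow_mul, ← pow_mul a]
        exact pow_mem (mem_zpowers _) j
      · exact haM (zpowers_le.mpr hyM h1)
    refine (isCyclic_max_iff hG hnc ha (index_third hM hT hne)).mpr ⟨a * y, iff_of_false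
      (by rwa [mul_mem_cancel_right hyM]) (by rwa [mul_mem_cancel_left (mem_zpowers a)]),
      fun h => hy ?_⟩
    have h4 : (a * y) ^ 2 = a ^ 2 * ⁅a⁻¹, y⁆ * y ^ 2 := by
      simp only [commutatorElement_def, pow_two]; group
    rcases mem_zpowers_sq_or ha2
      (hG' ▸ commutator_mem_commutator (mem_top a⁻¹) (mem_top y) : ⁅a⁻¹, y⁆ ∈ _) with h1 | ⟨-, h1⟩
    · exfalso
      have hn := normal_of_index_eq_two hT
      obtain ⟨φ, h5, h6⟩ := Cfsg.Lib.Trans.mem_commutator_iff_of_sup_zpowers (zpowers a)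
        (PG.sup_zpowers_eq_top_of_isCoatom
          (PG.isCoatom_of_index_prime (hT ▸ Nat.prime_two : (zpowers a).index.Prime)) hya)
      apply sq_not_mem ha
      have h7 : a ^ 2 ∈ φ.range := h6 ▸ hG' ▸ mem_zpowers _
      obtain ⟨⟨_, j, rfl⟩, hj⟩ := h7
      have h8 : (⟨a ^ j, j, rfl⟩ : zpowers a) = (⟨a, mem_zpowers a⟩ : zpowers a)⁻¹ ^ (-j) :=
        Subtype.ext (by simp)
      rw [← hj]
      change φ ⟨a ^ j, j, rfl⟩ ∈ _
      rw [h8, map_zpow, h5]
      rw [← pow_mul] at h1
      exact zpow_mem h1 _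
    · rw [← pow_mul, ← pow_two 2] at h1
      rwa [h4, mul_mem_cancel_left h1] at h
  · refine Or.inr ⟨h1, ?_⟩
    rw [index_commutator_third hM hT hne (mem_zpowers a) haM
      fun t ht => PG.mul_comm_of_mem (mem_zpowers a) ht, h2]

end

universe u in
theorem aux {k : ℕ} (hk : 1 ≤ k) (d : ℕ) :
    ∀ (G : Type u) [Group G] [Finite G], Nat.card G = 2 ^ (k + 1 + d) → ¬ IsCyclic G →
      cnt (fun H : Subgroup G => Nat.card H = 2 ^ k) % 4 =
        if 1 ≤ d ∧ (_root_.commutator G).index = 4 then 1 else 3 := by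
  induction d with
  | zero =>
    intro G _ _ hG hnc
    rw [if_neg (by omega)]
    exact cnt_card_modEq_of_card_eq_succ hG hnc
  | succ d ih =>
    intro G _ _ hG hnc
    have hP : IsPGroup 2 G := IsPGroup.of_card hG
    have hM : ∀ M : Subgroup G, M.index = 2 → Nat.card M = 2 ^ (k + 1 + d) := fun M hM =>
      (card_eq_iff_index_eq (hG.trans (pow_succ 2 _)) _).mpr hM
    have h1 := cnt_add_mul_modEq hP hnc (k := k) (hG ▸ pow_dvd_pow 2 (by omega))
      (fun M : Subgroup G => IsCyclic M ∨ (1 ≤ d ∧ (_root_.commutator M).index = 4))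
      (fun M h1 h2 => by
        by_cases hc : IsCyclic M
        · rw [cnt_card_eq_one_of_isCyclic M (hM M h1 ▸ pow_dvd_pow 2 (by omega))]
        · rw [← cnt_card_subgroup]
          exact (ih M (hM M h1) hc).trans (if_pos (h2.resolve_left hc)))
      (fun M h1 h2 => by
        rw [← cnt_card_subgroup]
        exact (ih M (hM M h1) fun h => h2 (Or.inl h)).trans (if_neg fun h => h2 (Or.inr h)))
    have hG' : Nat.card G = 2 ^ (k - 1 + d + 3) := hG.trans (by congr 1; omega)
    simp only [Nat.ModEq] at h1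
    by_cases hE : (_root_.commutator G).index = 4
    · have h2 := cnt_odd hG' hnc hE (1 ≤ d)
      rw [if_pos ⟨by omega, hE⟩]
      omega
    · have h2 := cnt_even hG' hnc hE (1 ≤ d) (by omega)
      rw [if_neg fun h => hE h.2]
      omega

/-- Let G be a finite p-group of order p^m that is not cyclic and, when p = 2, not of maximal class (nilpotency class m − 1). Then for every 1 ≤ k < m the number of subgroups of G of order p^k is congruent to 1 + p modulo p². -/
theorem result {G : Type*} [Group G] [Finite G] {p : ℕ} [Fact p.Prime] (m : ℕ)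
    (hG : Nat.card G = p ^ m) (hnc : ¬ IsCyclic G) (h2 : p = 2 → Group.nilpotencyClass G ≠ m - 1)
    (k : ℕ) (hk1 : 1 ≤ k) (hk2 : k < m) :
    Nat.card {H : Subgroup G // Nat.card H = p ^ k} ≡ 1 + p [MOD p ^ 2] := by
  by_cases hp : p = 2
  · subst hp
    have h1 := aux hk1 (m - (k + 1)) G (hG.trans (by congr 1; omega)) hnc
    rw [if_neg] at h1
    · exact h1
    · rintro ⟨h3, h4⟩
      obtain ⟨n, rfl⟩ : ∃ n, m = n + 3 := ⟨m - 3, by omega⟩
      exact h2 rfl ((Cfsg.Lib.Trans.nilpotencyClass_eq_iff_lowerCentralSeries_ne_bot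
        (m := n + 1) hG).mpr (Cfsg.Lib.Trans.lowerCentralSeries_ne_bot_of_commutator_index hG h4))
  · exact kulakoff hp hG hnc hk1 hk2

end Cfsg.Agent.S4157
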