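import Cfsg.Statements.S4160
import Cfsg.Agent.Solv.CentralComm
import Cfsg.Agent.Trans.AutomizerOrder

set_option autoImplicit false
open Cfsg

namespace Cfsg.Agent.S4160

open Cfsg.Lib.Solv Cfsg.Lib.Solv.ClassSize Subgroup

theorem aux {G : Type*} [Group G] [Finite G] {p : ℕ} [Fact p.Prime]
    (h : ¬ Cfsg.HasNormalPComplement p G) :
    2 * {x : G | x ≠ 1 ∧ ¬ p ∣ (centralizer ({x} : Set G)).index}.ncard + 2 ≤ Nat.card G := by
  obtain ⟨P⟩ : Nonempty (Sylow p G) := inferInstance
  set C := centralizer ((P : Subgroup G) : Set G)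
  set N := normalizer ((P : Subgroup G) : Set G)
  have hlt : C < N := lt_of_le_of_ne (centralizer_le_normalizer _) fun he =>
    h (Cfsg.Lib.Trans.hasNormalPComplement_of_normalizer_le_centralizer P he.ge)
  have h1 := card_conj_mem_le (H := C) (M := N) (normalizer_le_normalizer_centralizer _)
  have h2 : {x : G | x ≠ 1 ∧ ¬ p ∣ (centralizer ({x} : Set G)).index}.ncard ≤
      Nat.card {x : G // x ≠ 1 ∧ ∃ g : G, g * x * g⁻¹ ∈ C} :=
    Set.ncard_le_ncard (t := {x : G | x ≠ 1 ∧ ∃ g : G, g * x * g⁻¹ ∈ C})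
      (fun x hx => ⟨hx.1, exists_conj_mem_centralizer_sylow P hx.2⟩)
  have h3 : 2 * Nat.card C ≤ Nat.card N := by
    rw [← relIndex_mul_card_of_le hlt.le]
    refine Nat.mul_le_mul_right _ ?_
    have h4 : C.relIndex N ≠ 1 := fun h => hlt.not_ge (relIndex_eq_one.1 h)
    have h5 : C.relIndex N ≠ 0 := index_ne_zero_of_finite
    omega
  have h6 := N.index_mul_card
  have h7 : 0 < N.index := Nat.pos_of_ne_zero index_ne_zero_of_finite
  have h8 : 0 < Nat.card C := Nat.card_pos
  obtain ⟨c, hc⟩ : ∃ c, Nat.card C = c + 1 := ⟨Nat.card C - 1, by omega⟩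
  rw [hc] at h1 h3
  simp only [Nat.add_sub_cancel] at h1
  nlinarith [Nat.mul_le_mul_left N.index h3]

/-- Let G be a finite group and p ≠ q primes each dividing the size of some conjugacy class of G, such that no conjugacy class size is divisible by pq. Then G has a normal p-complement or a normal q-complement. -/
theorem result {G : Type*} [Group G] [Finite G] (p q : ℕ) (hp : p.Prime) (hq : q.Prime) (hpq : p ≠ q)
    (hp' : ∃ x : G, p ∣ (Subgroup.centralizer ({x} : Set G)).index) (hq' : ∃ x : G, q ∣ (Subgroup.centralizer ({x} : Set G)).index) (h : ∀ x : G, ¬ p * q ∣ (Subgroup.centralizer ({x} : Set G)).index) :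
    Cfsg.HasNormalPComplement p G ∨ Cfsg.HasNormalPComplement q G := by
  have := Fact.mk hp
  have := Fact.mk hq
  by_contra hcon
  push Not at hcon
  have h1 := aux hcon.1
  have h2 := aux hcon.2
  have h3 : (Set.univ : Set G) ⊆ insert 1
      ({x : G | x ≠ 1 ∧ ¬ p ∣ (centralizer ({x} : Set G)).index} ∪
        {x : G | x ≠ 1 ∧ ¬ q ∣ (centralizer ({x} : Set G)).index}) := by
    intro x _
    by_cases hx : x = 1
    · exact Or.inl hx
    · by_contra h4
      simp only [Set.mem_insert_iff, hx, Set.mem_union, Set.mem_ofPred_eq, ne_eq, not_false_eq_true,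
        true_and, false_or, not_or, not_not] at h4
      exact h x (Nat.Coprime.mul_dvd_of_dvd_of_dvd ((Nat.coprime_primes hp hq).2 hpq) h4.1 h4.2)
  have h4 := Set.ncard_le_ncard h3
  have h5 := Set.ncard_insert_le (1 : G)
    ({x : G | x ≠ 1 ∧ ¬ p ∣ (centralizer ({x} : Set G)).index} ∪
        {x : G | x ≠ 1 ∧ ¬ q ∣ (centralizer ({x} : Set G)).index})
  have h6 := Set.ncard_union_le {x : G | x ≠ 1 ∧ ¬ p ∣ (centralizer ({x} : Set G)).index}
    {x : G | x ≠ 1 ∧ ¬ q ∣ (centralizer ({x} : Set G)).index}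
  rw [Set.ncard_univ] at h4
  omega

end Cfsg.Agent.S4160
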