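import Cfsg.Statements.S4161
import Cfsg.Agent.S4160

set_option autoImplicit false
open Cfsg

namespace Cfsg.Agent.S4161

open Cfsg.Lib.Solv Cfsg.Lib.Solv.ClassSize Subgroup

section
variable {G : Type*} [Group G] [Finite G]

theorem nd {p : ℕ} [Fact p.Prime] (P : Sylow p G) {x : G} (g : G)
    (h : g * x * g⁻¹ ∈ centralizer ((P : Subgroup G) : Set G)) :
    ¬ p ∣ (centralizer ({x} : Set G)).index := by
  rw [← index_cent_conj x g]
  exact not_dvd_index_of_sylow_le P (le_cent_iff.2 h)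

theorem l1 {p : ℕ} [Fact p.Prime] {N : Subgroup G} [N.Normal] {g : G} (hg : g ∈ N)
    (hgD : g ∉ centralizer (N : Set G))
    (hX : ∀ x : G, p ∣ (centralizer ({x} : Set G)).index → x ∈ centralizer (N : Set G)) (x : G) :
    ¬ p ∣ (centralizer ({x} : Set G)).index := by
  intro hx
  obtain ⟨P⟩ : Nonempty (Sylow p G) := inferInstance
  have h1 := sup_centralizer_sylow_eq_top P (centralizer (N : Set G)) fun y hy e => hy (hX y e)
  have h2 : ∀ y ∉ centralizer (N : Set G), ∃ d ∈ centralizer (N : Set G),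
      d * y * d⁻¹ ∈ centralizer ((P : Subgroup G) : Set G) := fun y hy => by
    obtain ⟨h, hh⟩ := exists_conj_mem_centralizer_sylow P (x := y) fun e => hy (hX y e)
    have h3 : h ∈ centralizer ((P : Subgroup G) : Set G) ⊔ centralizer (N : Set G) := by
      rw [sup_comm, h1]; trivial
    obtain ⟨c, hc, d, hd, rfl⟩ := mem_sup_of_normal_right.1 h3
    refine ⟨d, hd, ?_⟩
    have := mul_mem (mul_mem (inv_mem hc) hh) hc
    convert this using 1
    group
  obtain ⟨d, hd, h3⟩ := h2 g hgD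
  rw [← hd g hg, mul_inv_cancel_right] at h3
  obtain ⟨e, he, h4⟩ := h2 (g * x) fun h => hgD (by simpa using mul_mem h (inv_mem (hX x hx)))
  refine nd P e ?_ hx
  have := mul_mem (inv_mem h3) h4
  convert this using 1
  rw [← mul_assoc e, ← he g hg]
  group

theorem nc {p : ℕ} [Fact p.Prime] (h : HasNormalPComplement p G) :
    ∃ K : Subgroup G, K.Normal ∧ ¬ p ∣ Nat.card K ∧ ∃ k, K.index = p ^ k := by
  obtain ⟨P, K, hK, h1⟩ := h
  refine ⟨K, hK, h1.index_eq_card ▸ P.not_dvd_index, ?_⟩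
  rw [h1.symm.index_eq_card]
  exact IsPGroup.iff_card.1 P.2

omit [Finite G] in
theorem mem_cop {K : Subgroup G} [K.Normal] {x : G} (h : (orderOf x).Coprime K.index) : x ∈ K :=
  (QuotientGroup.eq_one_iff x).1 (orderOf_eq_one_iff.1 (Nat.eq_one_of_dvd_coprimes h
    (orderOf_map_dvd (QuotientGroup.mk' K) x) (orderOf_dvd_natCard _)))

omit [Finite G] in
theorem ord_sylow {p : ℕ} [Fact p.Prime] (P : Sylow p G) {u : G} (hu : u ∈ (P : Subgroup G)) :
    ∃ j, orderOf u = p ^ j := by
  simpa using IsPGroup.iff_orderOf.1 P.2 ⟨u, hu⟩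

theorem perf (hG : ¬ Group.IsSolvable G) : ∃ D : Subgroup G, D.Normal ∧
    (∃ g ∈ D, g ∉ centralizer (D : Set G)) ∧
    ∀ r : ℕ, r.Prime → HasNormalPComplement r G → ¬ r ∣ Nat.card D := by
  obtain ⟨n, hn⟩ := exists_minimalFor_of_wellFoundedLT (fun _ : ℕ => True)
    (fun n => Nat.card (derivedSeries G n)) ⟨0, trivial⟩
  have h1 : ∀ m, derivedSeries G (n + m) = derivedSeries G n := fun m =>
    eq_of_le_of_card_ge (derivedSeries_antitone G (Nat.le_add_right n m))
      (hn.2 trivial (card_le_of_le (derivedSeries_antitone G (Nat.le_add_right n m))))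
  refine ⟨derivedSeries G n, inferInstance, ?_, fun r hr h e => ?_⟩
  · by_contra h
    push Not at h
    refine hG ⟨n + 1, ?_⟩
    rw [derivedSeries_succ, commutator_eq_bot_iff_le_centralizer]
    exact h
  · have := Fact.mk hr
    obtain ⟨K, hK, h2, k, hk⟩ := nc h
    have h3 : IsPGroup r (G ⧸ K) := IsPGroup.of_card hk
    have := h3.isNilpotent
    obtain ⟨m, hm⟩ := (inferInstance : Group.IsSolvable (G ⧸ K))
    refine h2 (e.trans (card_dvd_of_le ?_))
    rw [← h1 m, ← QuotientGroup.ker_mk' K, ← Subgroup.map_eq_bot_iff, eq_bot_iff, ← hm]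
    exact (map_derivedSeries_le_derivedSeries _ _).trans
      (derivedSeries_antitone _ (Nat.le_add_left m n))

theorem lc {p : ℕ} [hp : Fact p.Prime] (P : Sylow p G) (h : HasNormalPComplement p G)
    (hx : ∃ x : G, p ∣ (centralizer ({x} : Set G)).index) :
    ∃ x ∈ normalClosure ((P : Subgroup G) : Set G), p ∣ (centralizer ({x} : Set G)).index := by
  by_contra h0
  push Not at h0
  obtain ⟨K, hK, h1, k, hk⟩ := nc h
  have hPU : (P : Subgroup G) ≤ normalClosure ((P : Subgroup G) : Set G) := le_normalClosure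
  have h2 := sylow_le_center_of_forall_not_dvd (P.subtype hPU)
    fun x e => h0 x x.2 (e.trans (index_cent_subtype_dvd_of_normal x))
  have h3 : ∀ y ∈ normalClosure ((P : Subgroup G) : Set G),
      y ∈ centralizer ((P : Subgroup G) : Set G) := fun y hy u hu =>
    (congrArg Subtype.val (mem_center_iff.1 (h2 (x := ⟨u, hPU hu⟩) hu) ⟨y, hy⟩)).symm
  have h4 : ∀ c ∈ K, c ∈ centralizer ((P : Subgroup G) : Set G) := fun c hc u hu => by
    obtain ⟨j, hj⟩ := ord_sylow P hu
    have e1 : Commute (c * u * c⁻¹) u⁻¹ :=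
      (Commute.inv_right (h3 _ (Normal.conj_mem inferInstance u (hPU hu) c) u hu).symm)
    have e2 : (c * u * c⁻¹ * u⁻¹) ^ p ^ j = 1 := by
      rw [e1.mul_pow, conj_pow, inv_pow, ← hj, pow_orderOf_eq_one]; simp
    have e3 : c * u * c⁻¹ * u⁻¹ ∈ K := by
      have := mul_mem hc (hK.conj_mem _ (inv_mem hc) u)
      convert this using 1
      group
    have e4 : c * u * c⁻¹ * u⁻¹ = 1 := orderOf_eq_one_iff.1 (Nat.eq_one_of_dvd_coprimes
      ((hp.out.coprime_iff_not_dvd.2 h1).pow_left j) (orderOf_dvd_of_pow_eq_one e2)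
      (K.orderOf_dvd_natCard e3))
    rw [mul_inv_eq_one, mul_inv_eq_iff_eq_mul] at e4
    exact e4.symm
  obtain ⟨x, hx⟩ := hx
  obtain ⟨a, ha, c, hc, rfl⟩ := forall_mul_sylow_of_index_dvd P hk.dvd x
  exact nd P 1 (by simpa using mul_mem (h3 a (hPU ha)) (h4 c hc)) hx

theorem ld {p q : ℕ} [hp : Fact p.Prime] [hq : Fact q.Prime] (hpq : p ≠ q)
    (P : Sylow p G) (Q : Sylow q G) (h : HasNormalPComplement q G)
    (N1 : ∀ x : G, p ∣ (centralizer ({x} : Set G)).index → ¬ q ∣ (centralizer ({x} : Set G)).index)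
    {x : G} (hx : x ∈ normalClosure ((P : Subgroup G) : Set G))
    (hx1 : p ∣ (centralizer ({x} : Set G)).index) {w : G} (hw : w ∈ (Q : Subgroup G)) :
    ∃ z : G, p ∣ (centralizer ({z} : Set G)).index ∧
      (centralizer ({w} : Set G)).index ∣ (centralizer ({z} : Set G)).index := by
  obtain ⟨L, hL, h1, k, hk⟩ := nc h
  have h2 : normalClosure ((P : Subgroup G) : Set G) ≤ L := normalClosure_le_normal fun u hu => by
    obtain ⟨j, hj⟩ := ord_sylow P hu
    exact mem_cop (by rw [hj, hk]; exact Nat.coprime_pow_primes _ _ hp.out hq.out hpq)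
  obtain ⟨g, hg⟩ := exists_conj_mem_centralizer_sylow Q (N1 x hx1)
  obtain ⟨j, hj⟩ := ord_sylow Q hw
  have h3 := cent_mul_of_coprime (x := g * x * g⁻¹) (y := w) (hg w hw).symm (by
    rw [hj]
    exact ((hq.out.coprime_iff_not_dvd.2 fun e => h1 (e.trans
      (L.orderOf_dvd_natCard (hL.conj_mem x (h2 hx) g)))).pow_left j).symm)
  refine ⟨g * x * g⁻¹ * w, ?_, h3 ▸ index_dvd_of_le inf_le_right⟩
  rw [h3]
  exact (index_cent_conj x g ▸ hx1).trans (index_dvd_of_le inf_le_left)

theorem both {p q : ℕ} [hp : Fact p.Prime] [hq : Fact q.Prime] (hpq : p ≠ q)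
    (h1 : HasNormalPComplement p G) (h2 : HasNormalPComplement q G)
    (hp' : ∃ x : G, p ∣ (centralizer ({x} : Set G)).index)
    (hq' : ∃ x : G, q ∣ (centralizer ({x} : Set G)).index)
    (N : ∀ x y : G, p ∣ (centralizer ({x} : Set G)).index → q ∣ (centralizer ({y} : Set G)).index →
      (centralizer ({x} : Set G)).index.Coprime (centralizer ({y} : Set G)).index) : False := by
  have N1 : ∀ x : G, p ∣ (centralizer ({x} : Set G)).index →
      ¬ q ∣ (centralizer ({x} : Set G)).index := fun x e f =>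
    hp.out.one_lt.ne' (Nat.eq_one_of_dvd_coprimes (N x x e f) e e)
  obtain ⟨P⟩ : Nonempty (Sylow p G) := inferInstance
  obtain ⟨K, hK, hK1, k, hk⟩ := nc h1
  obtain ⟨L, hL, hL1, l, hl⟩ := nc h2
  have hPL : (P : Subgroup G) ≤ L := fun u hu => by
    obtain ⟨j, hj⟩ := ord_sylow P hu
    exact mem_cop (by rw [hj, hl]; exact Nat.coprime_pow_primes _ _ hp.out hq.out hpq)
  have hF : normalizer ((P : Subgroup G) : Set G) ⊔ L = ⊤ := P.normalizer_sup_eq_top' hPL
  obtain ⟨Q, hQ⟩ := exists_sylow_le_of_not_dvd_index (p := q)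
    (C := normalizer ((P : Subgroup G) : Set G)) fun e => hL1 (by
      rw [← relIndex_top_right, ← hF, sup_comm, relIndex_sup_of_normal_of_le le_rfl] at e
      exact e.trans (relIndex_dvd_card _ _))
  have hc : ∀ u ∈ (P : Subgroup G), ∀ w ∈ (Q : Subgroup G), w * u = u * w := fun u hu w hw => by
    obtain ⟨j, hj⟩ := ord_sylow Q hw
    have e0 : w ∈ K :=
      mem_cop (by rw [hj, hk]; exact Nat.coprime_pow_primes _ _ hq.out hp.out hpq.symm)
    have e1 : w * u * w⁻¹ * u⁻¹ ∈ (P : Subgroup G) :=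
      mul_mem ((mem_normalizer_iff.1 (hQ hw) u).1 hu) (inv_mem hu)
    have e3 : w * u * w⁻¹ * u⁻¹ ∈ K := by
      have := mul_mem e0 (hK.conj_mem _ (inv_mem e0) u)
      convert this using 1
      group
    obtain ⟨i, hi⟩ := ord_sylow P e1
    have e4 : w * u * w⁻¹ * u⁻¹ = 1 := orderOf_eq_one_iff.1 (Nat.eq_one_of_dvd_coprimes
      ((hp.out.coprime_iff_not_dvd.2 hK1).pow_left i) hi.dvd (K.orderOf_dvd_natCard e3))
    rwa [mul_inv_eq_one, mul_inv_eq_iff_eq_mul] at e4
  obtain ⟨a, ha, ha1⟩ := lc P h1 hp'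
  obtain ⟨b, hb, hb1⟩ := lc Q h2 hq'
  have h3 : normalClosure ((P : Subgroup G) : Set G) ≤
      centralizer (normalClosure ((Q : Subgroup G) : Set G) : Set G) :=
    normalClosure_le_normal fun u hu => le_cent_iff.1 ((closure_le _).2 fun y hy => by
      obtain ⟨w, hw, e⟩ := Group.mem_conjugatesOfSet_iff.1 hy
      obtain ⟨g, rfl⟩ := isConj_iff.1 e
      obtain ⟨z, hz, hz1⟩ := ld hpq P Q h2 N1 ha ha1 hw
      obtain ⟨y, hy, hy1⟩ := ld hpq.symm Q P h1 (fun x e f => N1 x f e) hb hb1 hu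
      obtain ⟨c, hc1, d, hd, rfl⟩ := forall_mul_of_coprime_index
        (((N z y hz hy).symm.coprime_dvd_left hy1).coprime_dvd_right hz1) g
      have := mul_mem (mul_mem hc1 (mem_cent.2 (hc u hu w hw))) (inv_mem hc1)
      have e1 : c * d * w * (c * d)⁻¹ = c * w * c⁻¹ := by
        conv_rhs => rw [← mem_cent_iff_conj.1 hd]
        group
      rw [e1]
      exact this)
  by_cases h4 : p ∣ (centralizer ({a * b} : Set G)).index
  · obtain ⟨g, hg⟩ := exists_conj_mem_centralizer_sylow Q (N1 _ h4)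
    refine nd Q g ?_ hb1
    have e1 : g * a * g⁻¹ ∈ centralizer ((Q : Subgroup G) : Set G) := fun w hw =>
      h3 (Normal.conj_mem inferInstance a ha g) w (le_normalClosure hw)
    have := mul_mem (inv_mem e1) hg
    convert this using 1
    group
  · obtain ⟨g, hg⟩ := exists_conj_mem_centralizer_sylow P h4
    refine nd P g ?_ ha1
    have e1 : g * b * g⁻¹ ∈ centralizer ((P : Subgroup G) : Set G) := fun u hu =>
      (h3 (le_normalClosure hu) _ (Normal.conj_mem inferInstance b hb g)).symm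
    have := mul_mem hg (inv_mem e1)
    convert this using 1
    group

theorem one (hG : ¬ Group.IsSolvable G) {p q : ℕ} (hp : p.Prime) (hq : q.Prime)
    (h2 : ¬ HasNormalPComplement q G)
    (hp' : ∃ x : G, p ∣ (centralizer ({x} : Set G)).index)
    (hq' : ∃ x : G, q ∣ (centralizer ({x} : Set G)).index)
    (N : ∀ x y : G, p ∣ (centralizer ({x} : Set G)).index → q ∣ (centralizer ({y} : Set G)).index →
      (centralizer ({x} : Set G)).index.Coprime (centralizer ({y} : Set G)).index) : False := by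
  have := Fact.mk hp
  obtain ⟨D, hD, ⟨g, hg, hg1⟩, h3⟩ := perf hG
  obtain ⟨x, hx⟩ := hp'
  refine l1 hg hg1 (fun x hx => le_cent_iff.1 (le_cent_of_coprime
    (Nat.coprime_of_dvd fun r hr e f => ?_))) x hx
  have h4 : ∀ y : G, q ∣ (centralizer ({y} : Set G)).index →
      ¬ r ∣ (centralizer ({y} : Set G)).index := fun y hy e =>
    hr.one_lt.ne' (Nat.eq_one_of_dvd_coprimes (N x y hx hy) f e)
  rcases Cfsg.Agent.S4160.result r q hr hq (fun e => h4 x (e ▸ f) f) ⟨x, f⟩ hq'
    (fun y e => h4 y ((dvd_mul_left q r).trans e) ((dvd_mul_right r q).trans e)) with h5 | h5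
  · exact h3 r hr h5 e
  · exact h2 h5

end

/-- Let G be a finite non-solvable group and p ≠ q primes each dividing the size of some conjugacy class of G. Then either some class size is divisible by pq, or there is a prime r, different from p and q, such that some class size is divisible by pr and some class size is divisible by rq. -/
theorem result {G : Type*} [Group G] [Finite G] (hG : ¬ Group.IsSolvable G)
    (p q : ℕ) (hp : p.Prime) (hq : q.Prime) (hpq : p ≠ q) (hp' : ∃ x : G, p ∣ (Subgroup.centralizer ({x} : Set G)).index) (hq' : ∃ x : G, q ∣ (Subgroup.centralizer ({x} : Set G)).index) :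
    (∃ x : G, p * q ∣ (Subgroup.centralizer ({x} : Set G)).index) ∨ ∃ r : ℕ, r.Prime ∧ r ≠ p ∧ r ≠ q ∧ (∃ x : G, p * r ∣ (Subgroup.centralizer ({x} : Set G)).index) ∧ (∃ y : G, r * q ∣ (Subgroup.centralizer ({y} : Set G)).index) := by
  by_contra h
  push Not at h
  obtain ⟨h1, h2⟩ := h
  have h3 : ∀ {a b n : ℕ}, a.Prime → b.Prime → a ≠ b → a ∣ n → b ∣ n → a * b ∣ n :=
    fun ha hb hab e f => ((Nat.coprime_primes ha hb).2 hab).mul_dvd_of_dvd_of_dvd e f
  have N : ∀ x y : G, p ∣ (centralizer ({x} : Set G)).index →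
      q ∣ (centralizer ({y} : Set G)).index →
      (centralizer ({x} : Set G)).index.Coprime (centralizer ({y} : Set G)).index :=
    fun x y hx hy => Nat.coprime_of_dvd fun r hr e f => by
      have e1 : r ≠ p := fun g => h1 y (h3 hp hq hpq (g ▸ f) hy)
      have e2 : r ≠ q := fun g => h1 x (h3 hp hq hpq hx (g ▸ e))
      exact h2 r hr e1 e2 ⟨x, h3 hp hr e1.symm hx e⟩ y (h3 hr hq e2 f hy)
  by_cases hP : HasNormalPComplement p G
  · by_cases hQ : HasNormalPComplement q G
    · have := Fact.mk hp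
      have := Fact.mk hq
      exact both hpq hP hQ hp' hq' N
    · exact one hG hp hq hQ hp' hq' N
  · exact one hG hq hp hP hq' hp' fun x y hx hy => (N y x hy hx).symm

end Cfsg.Agent.S4161
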