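import Cfsg.Statements.S4168
import Cfsg.Agent.Solv.Schur2

set_option autoImplicit false
open Cfsg

namespace Cfsg.Agent.S4168

open Cfsg.Lib.Solv

/-- Let L be a finite quasisimple group (perfect with L/Z(L) simple). Then every prime dividing the order of the centre Z(L) also divides the order of L/Z(L). -/
theorem result {L : Type*} [Group L] [Finite L] (hL : Cfsg.IsQuasisimple L)
    (p : ℕ) (hp : p.Prime) (hdiv : p ∣ Nat.card (Subgroup.center L)) : p ∣ (Subgroup.center L).index := by
  obtain ⟨A, _, _, hA⟩ := exists_hasSchurMultiplier (L ⧸ Subgroup.center L)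
  obtain ⟨ρ, hρ⟩ := exists_surjective_ker_of_hasSchurMultiplier hA _
    (isStemExtension_of_isPerfect hL.1 (QuotientGroup.mk' (Subgroup.center L))
      (QuotientGroup.mk'_surjective _) (by rw [QuotientGroup.ker_mk']))
  have h := Subgroup.card_dvd_of_surjective ρ hρ
  rw [QuotientGroup.ker_mk'] at h
  exact dvd_card_of_dvd_card_multiplier hA hp (hdiv.trans h)

end Cfsg.Agent.S4168
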