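import Cfsg.Statements.S4169
import Cfsg.Agent.Solv.Mann

set_option autoImplicit false
open Cfsg

namespace Cfsg.Agent.S4169

open Cfsg.Lib.Solv Cfsg.Lib.Solv.ClassSize

/-- Let P be a finite p-group whose conjugacy classes have exactly two sizes (1 and one other value). Then P has nilpotency class at most 3. -/
theorem result {P : Type*} [Group P] [Finite P] {p : ℕ} [Fact p.Prime] (hP : IsPGroup p P)
    (m : ℕ) (hm : 1 < m) (h : ∀ x : P, (Subgroup.centralizer ({x} : Set P)).index = 1 ∨ (Subgroup.centralizer ({x} : Set P)).index = m) :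
    upperCentralSeries P 3 = ⊤ := by
  have := hP.isNilpotent
  obtain ⟨K, -, hK, hKc, hC⟩ := PG.exists_normal_scn_ge (⊥ : Subgroup P)
  have h1 := upperCentralSeries_three_eq_top (M := ⊤) hC.le
    (commutator_top_le_center_of_two_sizes h K)
  rw [Subgroup.eq_top_iff']
  intro x
  have h2 : (⟨x, Subgroup.mem_top x⟩ : (⊤ : Subgroup P)) ∈
      Subgroup.upperCentralSeries (⊤ : Subgroup P) 3 := by
    rw [h1]; exact Subgroup.mem_top _
  exact Subgroup.upperCentralSeries.map (f := (Subgroup.topEquiv : (⊤ : Subgroup P) ≃* P).toMonoidHom)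
    Subgroup.topEquiv.surjective 3 ⟨_, h2, rfl⟩

end Cfsg.Agent.S4169
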