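import Cfsg.Statements.S4170
import Cfsg.Agent.Trans.SylowIn

set_option autoImplicit false
open scoped Pointwise
open Cfsg

namespace Cfsg.Agent.S4170

open Cfsg.Lib.Trans

theorem key {G Ω : Type*} [Group G] [Finite G] [Finite Ω] [MulAction G Ω] (p : ℕ) [Fact p.Prime]
    (P₀ : Sylow p G) (ω₀ : Ω) (h₀ : ∃ g ∈ (P₀ : Subgroup G), g • ω₀ ≠ ω₀) :
    ∃ Δ₁ Δ₂ : Set Ω, Δ₁.Nonempty ∧ Δ₂.Nonempty ∧ Disjoint Δ₁ Δ₂ ∧
      p ∣ (MulAction.stabilizer G Δ₁ ⊓ MulAction.stabilizer G Δ₂).index := by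
  classical
  let orb : Sylow p G → Ω → Set Ω := fun P ω => {δ | ∃ g ∈ (P : Subgroup G), g • ω = δ}
  have hex : ∃ n, ∃ (P : Sylow p G) (ω : Ω),
      (∃ g ∈ (P : Subgroup G), g • ω ≠ ω) ∧ (orb P ω).ncard = n := ⟨_, P₀, ω₀, h₀, rfl⟩
  obtain ⟨P, ω, ⟨g₀, hg₀, hne⟩, hn⟩ := Nat.find_spec hex
  have hmin : ∀ (Q : Sylow p G) (δ : Ω), (orb Q δ).ncard < (orb P ω).ncard →
      ∀ g ∈ (Q : Subgroup G), g • δ = δ := by
    intro Q δ hlt g hg
    by_contra h
    rw [hn] at hlt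
    exact Nat.find_min hex hlt ⟨Q, δ, ⟨g, hg, h⟩, rfl⟩
  have hω : ω ∈ orb P ω := ⟨1, one_mem _, one_smul _ _⟩
  refine ⟨{ω}, orb P ω \ {ω}, Set.singleton_nonempty ω, ⟨g₀ • ω, ⟨g₀, hg₀, rfl⟩, hne⟩,
    Set.disjoint_sdiff_right, ?_⟩
  by_contra hnd
  set H := MulAction.stabilizer G ({ω} : Set Ω) ⊓ MulAction.stabilizer G (orb P ω \ {ω}) with hH
  obtain ⟨T, hT⟩ := exists_isSylowIn (p := p) H
  have hT' : IsSylowIn p T ⊤ := hT.trans le_top (by rwa [Subgroup.relIndex_top_right])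
  obtain ⟨Q, hQ⟩ := hT'.exists_sylow_eq
  have hQH : (Q : Subgroup G) ≤ H := hQ ▸ hT.le
  have hfix : ∀ δ ∈ orb P ω, ∀ g ∈ (Q : Subgroup G), g • δ = δ := by
    intro δ hδ g hg
    by_cases h : δ = ω
    · subst h
      have h1 : g • ({δ} : Set Ω) = {δ} := (hQH hg).1
      rw [Set.smul_set_singleton] at h1
      exact Set.singleton_injective h1
    · refine hmin Q δ (lt_of_le_of_lt (Set.ncard_le_ncard (t := orb P ω \ {ω}) ?_)
        (Set.ncard_diff_singleton_lt_of_mem hω)) g hg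
      rintro _ ⟨x, hx, rfl⟩
      have h1 : x • (orb P ω \ {ω}) = orb P ω \ {ω} := (hQH hx).2
      rw [← h1]
      exact Set.smul_mem_smul_set ⟨hδ, h⟩
  let L : Subgroup G :=
    { carrier := {x | ∀ δ, δ ∈ orb P ω ↔ x • δ ∈ orb P ω}
      one_mem' := fun δ => by rw [one_smul]
      mul_mem' := fun {a b} ha hb δ => by rw [mul_smul, ← ha, ← hb]
      inv_mem' := fun {a} ha δ => by rw [ha (a⁻¹ • δ), smul_inv_smul] }
  have hQL : (Q : Subgroup G) ≤ L := by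
    intro x hx δ
    refine ⟨fun h => by rwa [hfix δ h x hx], fun h => ?_⟩
    have h1 := hfix _ h x⁻¹ (inv_mem hx)
    rw [inv_smul_smul] at h1
    rwa [h1]
  have hPL : (P : Subgroup G) ≤ L := by
    intro x hx δ
    constructor
    · rintro ⟨y, hy, rfl⟩
      exact ⟨x * y, mul_mem hx hy, mul_smul _ _ _⟩
    · rintro ⟨y, hy, h⟩
      exact ⟨x⁻¹ * y, mul_mem (inv_mem hx) hy, by rw [mul_smul, h, inv_smul_smul]⟩
  obtain ⟨x, hx, hle⟩ := (isSylowIn_of_le Q hQL).exists_cj_le P.isPGroup' hPL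
  have h1 := hfix (x • ω) ((hx ω).mp hω) _ (hle (conj_mem_cj.mpr hg₀))
  rw [mul_smul, mul_smul, inv_smul_smul] at h1
  exact hne (smul_left_cancel x h1)

/-- Let p be an odd prime and G a nontrivial group of permutations of a finite set Ω that is generated by its elements of p-power order. Then Ω has two disjoint nonempty subsets Δ₁ and Δ₂ such that the index in G of the subgroup of elements mapping Δ₁ onto Δ₁ and Δ₂ onto Δ₂ (and hence also the complement of their union onto itself) is divisible by p. -/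
theorem result {Ω : Type*} [Fintype Ω] (p : ℕ) [Fact p.Prime] (hp : p ≠ 2) (G : Subgroup (Equiv.Perm Ω)) (hG : G ≠ ⊥) (hgen : Subgroup.closure {g : G | ∃ k : ℕ, orderOf g = p ^ k} = ⊤) :
    ∃ Δ₁ Δ₂ : Set Ω, Δ₁.Nonempty ∧ Δ₂.Nonempty ∧ Disjoint Δ₁ Δ₂ ∧ p ∣ (MulAction.stabilizer G Δ₁ ⊓ MulAction.stabilizer G Δ₂).index := by
  obtain ⟨P⟩ : Nonempty (Sylow p G) := inferInstance
  have h : ∃ (Q : Sylow p G) (ω : Ω), ∃ g ∈ (Q : Subgroup G), g • ω ≠ ω := by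
    by_contra h
    push Not at h
    apply hG
    have h1 : (⊤ : Subgroup G) ≤ ⊥ := by
      rw [← hgen]
      refine (Subgroup.closure_le _).mpr ?_
      rintro g ⟨k, hk⟩
      have h2 : IsPGroup p (Subgroup.zpowers g) :=
        IsPGroup.of_card (by rw [Nat.card_zpowers, hk])
      obtain ⟨Q, hQ⟩ := h2.exists_le_sylow
      have h3 : ∀ ω : Ω, g • ω = ω := fun ω => h Q ω g (hQ (Subgroup.mem_zpowers g))
      exact Subtype.ext (Equiv.ext h3)
    rw [eq_bot_iff]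
    intro g hg
    have h2 : (⟨g, hg⟩ : G) = 1 := h1 (Subgroup.mem_top _)
    exact congrArg Subtype.val h2
  obtain ⟨Q, ω, h⟩ := h
  exact key p Q ω h

end Cfsg.Agent.S4170
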