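import Cfsg.Statements.S4176
import Cfsg.Agent.Solv.SpanningOrbit
import Cfsg.Agent.S3744

set_option autoImplicit false
open Cfsg

namespace Cfsg.Agent.S4176

/-- Let k be a field of prime characteristic p, H a finite p-soluble group and ρ a k-linear representation of H on V. Let a be a vector that is fixed by some Sylow p-subgroup of H and whose H-orbit spans V. Then the space of H-fixed vectors has dimension at most 1, and every vector b whose H-orbit has size coprime to the size of the orbit of a is fixed by H. -/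
theorem result {k V H : Type*} [Field k] (p : ℕ) [Fact p.Prime] [CharP k p] [AddCommGroup V] [Module k V]
    [Group H] [Finite H] (hsol : Cfsg.IsPSolvable p H) (ρ : Representation k H V) (a : V)
    (hfix : ∃ P : Sylow p H, ∀ x : H, x ∈ (P : Subgroup H) → ρ x a = a)
    (hspan : Submodule.span k {u : V | ∃ h : H, ρ h a = u} = ⊤) :
    Module.finrank k ρ.invariants ≤ 1 ∧
    ∀ b : V, (Nat.card {u : V | ∃ h : H, ρ h a = u}).Coprime (Nat.card {u : V | ∃ h : H, ρ h b = u}) → ∀ h : H, ρ h b = b := by
  open Cfsg.Lib.Solv in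
  have hp : p.Prime := Fact.out
  have h0 : ∀ n : ℕ, n.Coprime p → (n : k) ≠ 0 := fun n hn h =>
    (hp.coprime_iff_not_dvd.mp hn.symm) ((CharP.cast_eq_zero_iff k p n).mp h)
  obtain ⟨P, hP⟩ := hfix
  have hle : (P : Subgroup H) ≤ repStab ρ a := fun x hx => mem_repStab.mpr (hP x hx)
  have ha : (repStab ρ a).index.Coprime p := by
    refine (hp.coprime_iff_not_dvd.mpr fun h => P.not_dvd_index ?_).symm
    exact h.trans (Subgroup.index_dvd_of_le hle)
  have key : ∀ B : Subgroup H, (repStab ρ a).index.Coprime B.index →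
      ∃ τ : V, (∀ h, ρ h τ = τ) ∧ ∀ v : V, (∀ u ∈ B, ρ u v = v) → ∃ c : k, c • τ = v := by
    intro B hB
    obtain ⟨U, hU, n, hn⟩ := (Cfsg.Agent.S3744.result (hsol.subgroup B)).1
    have h2 : (U.map B.subtype).index.Coprime (repStab ρ a).index := by
      rw [Subgroup.index_map_subtype, hn]
      exact Nat.Coprime.mul_left (ha.symm.pow_left n) hB.symm
    have h3 : (Nat.card (U.map B.subtype)).Coprime p := by rwa [Subgroup.card_subtype]
    obtain ⟨τ, h1, h⟩ := exists_fixed_of_span_orbit ρ a hspan (U.map B.subtype)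
      (h0 _ h3) (h0 _ ha) h2
    exact ⟨τ, h1, fun v hv => h v fun u hu => hv u (Subgroup.map_subtype_le _ hu)⟩
  constructor
  · obtain ⟨τ, -, h⟩ := key ⊤ (by simp)
    exact finrank_invariants_le_one_of_exists ρ fun v hv => h v fun u _ => hv u
  · intro b hb g
    rw [← index_repStab, ← index_repStab] at hb
    obtain ⟨τ, h1, h⟩ := key (repStab ρ b) hb
    obtain ⟨c, rfl⟩ := h b fun u hu => hu
    rw [map_smul, h1]

end Cfsg.Agent.S4176
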