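import Cfsg.Statements.S4177
import Cfsg.Agent.Solv.SpanningOrbit

set_option autoImplicit false
open Cfsg

namespace Cfsg.Agent.S4177

/-- Let k be a field whose characteristic does not divide the order of the finite group H (for instance a field of characteristic zero), and ρ a k-linear representation of H on V. Let a be a vector whose H-orbit spans V. Then the space of H-fixed vectors has dimension at most 1, and every vector b whose H-orbit has size coprime to the size of the orbit of a is fixed by H. -/
theorem result {k V H : Type*} [Field k] [AddCommGroup V] [Module k V] [Group H] [Finite H]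
    (hchar : ¬ ringChar k ∣ Nat.card H) (ρ : Representation k H V) (a : V)
    (hspan : Submodule.span k {u : V | ∃ h : H, ρ h a = u} = ⊤) :
    Module.finrank k ρ.invariants ≤ 1 ∧
    ∀ b : V, (Nat.card {u : V | ∃ h : H, ρ h a = u}).Coprime (Nat.card {u : V | ∃ h : H, ρ h b = u}) → ∀ h : H, ρ h b = b := by
  open Cfsg.Lib.Solv in
  have h0 : ∀ n : ℕ, n ∣ Nat.card H → (n : k) ≠ 0 := fun n hn h =>
    hchar (((ringChar.spec k n).mp h).trans hn)
  constructor
  · obtain ⟨τ, -, h⟩ := exists_fixed_of_span_orbit ρ a hspan ⊤
      (h0 _ (Subgroup.card_subgroup_dvd_card _)) (h0 _ (Subgroup.index_dvd_card _)) (by simp)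
    exact finrank_invariants_le_one_of_exists ρ fun v hv => h v fun u _ => hv u
  · intro b hb g
    rw [← index_repStab, ← index_repStab] at hb
    obtain ⟨τ, h1, h⟩ := exists_fixed_of_span_orbit ρ a hspan (repStab ρ b)
      (h0 _ (Subgroup.card_subgroup_dvd_card _)) (h0 _ (Subgroup.index_dvd_card _)) hb.symm
    obtain ⟨c, rfl⟩ := h b fun u hu => hu
    rw [map_smul, h1]

end Cfsg.Agent.S4177
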