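import Cfsg.Statements.S4178
import Mathlib.FieldTheory.Finiteness
import Mathlib.LinearAlgebra.FiniteDimensional.Lemmas

set_option autoImplicit false
open Cfsg

namespace Cfsg.Agent.S4178

theorem index_le {H X : Type*} [Group H] [Finite X] [Zero X] (R : Subgroup H) (f : H → X)
    (hf : ∀ g h, f g = f h → g⁻¹ * h ∈ R) (h0 : ∀ h, f h ≠ 0) : R.index ≤ Nat.card X - 1 := by
  classical
  have h1 : Nat.card {x : X // x ≠ 0} = Nat.card X - 1 := by
    have := Fintype.ofFinite X
    simp [Nat.card_eq_fintype_card]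
  rw [← h1]
  refine Nat.card_le_card_of_injective (fun c : H ⧸ R => (⟨f c.out, h0 _⟩ : {x : X // x ≠ 0})) ?_
  intro c d hcd
  rw [← c.out_eq, ← d.out_eq]
  exact QuotientGroup.eq.mpr (hf _ _ (congrArg Subtype.val hcd))

theorem real_le {q a b d n : ℕ} (hq : 0 < q) (hab : a + b = d) (h1 : n ≤ q ^ a - 1)
    (h2 : n ≤ q ^ b - 1) : (n : ℝ) ≤ Real.sqrt ((q : ℝ) ^ d) - 1 := by
  have ha : n + 1 ≤ q ^ a := by have := pow_pos hq a; omega
  have hb : n + 1 ≤ q ^ b := by have := pow_pos hq b; omega
  rw [le_sub_iff_add_le]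
  apply Real.le_sqrt_of_sq_le
  have : (n + 1) ^ 2 ≤ q ^ d := by rw [← hab, pow_add, sq]; exact Nat.mul_le_mul ha hb
  exact_mod_cast this

/-- Let F be a finite field with q elements, V a non-zero finite-dimensional F-space of dimension d, H a group of invertible linear maps of V, and R the subgroup of H generated by the elements of H that fix some non-zero vector (have eigenvalue 1). Then the index of R in H is at most q^d − 1; and if H leaves invariant some proper non-zero subspace, the index is at most q^(d/2) − 1. -/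
theorem result {F V : Type*} [Field F] [Fintype F] [AddCommGroup V] [Module F V] [FiniteDimensional F V] [Nontrivial V]
    (H : Subgroup (V ≃ₗ[F] V)) :
    (Subgroup.closure {h : ↥H | ∃ v : V, v ≠ 0 ∧ (h : V ≃ₗ[F] V) v = v}).index ≤ Fintype.card F ^ Module.finrank F V - 1 ∧
    ((∃ W : Submodule F V, W ≠ ⊥ ∧ W ≠ ⊤ ∧ ∀ h ∈ H, ∀ w ∈ W, h w ∈ W) →
      ((Subgroup.closure {h : ↥H | ∃ v : V, v ≠ 0 ∧ (h : V ≃ₗ[F] V) v = v}).index : ℝ) ≤ Real.sqrt ((Fintype.card F : ℝ) ^ Module.finrank F V) - 1) := by
  have hfin : Finite V := Module.finite_of_finite F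
  constructor
  · obtain ⟨v, hv⟩ := exists_ne (0 : V)
    rw [← Nat.card_eq_fintype_card, ← Module.natCard_eq_pow_finrank]
    refine index_le _ (fun h : H => (h : V ≃ₗ[F] V) v) (fun g h hgh => ?_) (fun h => by simpa)
    refine Subgroup.subset_closure ⟨v, hv, ?_⟩
    change (g : V ≃ₗ[F] V).symm ((h : V ≃ₗ[F] V) v) = v
    rw [LinearEquiv.symm_apply_eq]
    exact hgh.symm
  · rintro ⟨W, hW0, hW1, hW⟩
    refine real_le Fintype.card_pos (W.finrank_quotient_add_finrank) ?_ ?_
    · obtain ⟨v, hv⟩ : ∃ v, v ∉ W := by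
        by_contra h
        push Not at h
        exact hW1 (eq_top_iff.mpr fun v _ => h v)
      have : Finite (V ⧸ W) := Finite.of_surjective _ W.mkQ_surjective
      rw [← Nat.card_eq_fintype_card, ← Module.natCard_eq_pow_finrank]
      refine index_le _ (fun h : H => W.mkQ ((h : V ≃ₗ[F] V) v)) (fun g h hgh => ?_) (fun h h0 => ?_)
      · set x : H := g⁻¹ * h with hx
        have h1 : (x : V ≃ₗ[F] V) v - v ∈ W := by
          have h2 := hW _ (inv_mem g.2) _ ((Submodule.Quotient.eq W).mp hgh.symm)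
          rw [map_sub] at h2
          have h3 : (g : V ≃ₗ[F] V)⁻¹ ((g : V ≃ₗ[F] V) v) = v := (g : V ≃ₗ[F] V).symm_apply_apply v
          rw [h3] at h2
          exact h2
        apply Subgroup.subset_closure
        by_contra hcon
        simp only [Set.mem_ofPred_eq, not_exists, not_and] at hcon
        let T : V →ₗ[F] V := (x : V ≃ₗ[F] V).toLinearMap - LinearMap.id
        have hT : Function.Injective T := by
          rw [injective_iff_map_eq_zero]
          intro u hu
          by_contra hu0
          exact hcon u hu0 (sub_eq_zero.mp hu)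
        have hTW : ∀ w ∈ W, T w ∈ W := fun w hw => W.sub_mem (hW _ x.2 w hw) hw
        have hs : Function.Surjective (T.restrict hTW) :=
          Finite.surjective_of_injective fun a b hab => Subtype.ext (hT (congrArg Subtype.val hab))
        obtain ⟨w, hw⟩ := hs ⟨T v, h1⟩
        exact hv (hT (congrArg Subtype.val hw) ▸ w.2)
      · have h2 := hW _ (inv_mem h.2) _ ((Submodule.Quotient.mk_eq_zero W).mp h0)
        exact hv (((h : V ≃ₗ[F] V).symm_apply_apply v) ▸ h2)
    · obtain ⟨v, hvW, hv⟩ := W.ne_bot_iff.mp hW0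
      rw [← Nat.card_eq_fintype_card, ← Module.natCard_eq_pow_finrank]
      refine index_le _ (fun h : H => (⟨(h : V ≃ₗ[F] V) v, hW _ h.2 v hvW⟩ : W))
        (fun g h hgh => ?_) (fun h => by simpa)
      refine Subgroup.subset_closure ⟨v, hv, ?_⟩
      change (g : V ≃ₗ[F] V).symm ((h : V ≃ₗ[F] V) v) = v
      rw [LinearEquiv.symm_apply_eq]
      exact (congrArg Subtype.val hgh).symm

end Cfsg.Agent.S4178
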