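import Cfsg.Statements.S4182
import Cfsg.Agent.Trans.SylowIn
import Mathlib.GroupTheory.Perm.Cycle.Type
import Mathlib.Order.Preorder.Finite

set_option autoImplicit false
open Cfsg

namespace Cfsg.Agent.S4182

open Cfsg.Lib.Trans

section
variable {G : Type*} [Group G]

/-- The subgroup generated by the `p`-elements of `L`. -/
def pg (p : ℕ) (L : Subgroup G) : Subgroup G :=
  Subgroup.closure {g : G | g ∈ L ∧ ∃ k : ℕ, orderOf g = p ^ k}

theorem pg_le (p : ℕ) (L : Subgroup G) : pg p L ≤ L :=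
  (Subgroup.closure_le _).mpr fun _ hg => hg.1

theorem mem_pg {p : ℕ} {L : Subgroup G} {g : G} (h : g ∈ L) (hk : ∃ k : ℕ, orderOf g = p ^ k) :
    g ∈ pg p L := Subgroup.subset_closure ⟨h, hk⟩

theorem pg_mono (p : ℕ) {L M : Subgroup G} (h : L ≤ M) : pg p L ≤ pg p M :=
  Subgroup.closure_mono fun _ hg => ⟨h hg.1, hg.2⟩

theorem pg_pg (p : ℕ) (L : Subgroup G) : pg p L ≤ pg p (pg p L) :=
  (Subgroup.closure_le _).mpr fun _ hg => mem_pg (mem_pg hg.1 hg.2) hg.2

theorem cj_pg_le (p : ℕ) (g : G) (L : Subgroup G) : cj g (pg p L) ≤ pg p (cj g L) := by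
  rw [pg, cj_closure]
  refine Subgroup.closure_mono ?_
  rintro _ ⟨a, ⟨ha, k, hk⟩, rfl⟩
  refine ⟨conj_mem_cj.mpr ha, k, ?_⟩
  rw [← hk]
  exact (MulAut.conj g).orderOf_eq a

/-- A proper `p`-generated subgroup of `L`. -/
def PA (p : ℕ) (L L' : Subgroup G) : Prop := L' < L ∧ L' ≤ pg p L'

theorem PA.cj {p : ℕ} {L L' : Subgroup G} (h : PA p L L') {g : G} (hg : g ∈ L) :
    PA p L (cj g L') := by
  refine ⟨?_, (cj_mono g h.2).trans (cj_pg_le p g L')⟩
  have := (cj_lt_cj (g := g)).mpr h.1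
  rwa [cj_eq_of_mem hg] at this

theorem max_cj {p : ℕ} {L M : Subgroup G} (h : Maximal (PA p L) M) {g : G} (hg : g ∈ L) :
    Maximal (PA p L) (cj g M) := by
  refine ⟨h.1.cj hg, fun N hN hle => ?_⟩
  have h1 : PA p L (cj g⁻¹ N) := hN.cj (L.inv_mem hg)
  have h2 : M ≤ cj g⁻¹ N := cj_le_iff_le_cj_inv.mp hle
  exact cj_inv_le_iff_le_cj.mp (h.2 h1 h2)

theorem fix_all {α : Type*} [Finite α] {p : ℕ} [hp : Fact p.Prime] (hc : Nat.card α ≤ p)
    (f : Function.End α) {k : ℕ} (hf : f ^ p ^ k = 1) {a : α} (ha : f a = a) (b : α) :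
    f b = b := by
  classical
  have := Fintype.ofFinite α
  have h := Equiv.Perm.card_fixedPoints_modEq hf
  rw [Nat.card_eq_fintype_card] at hc
  have h1 : 0 < Fintype.card (Function.fixedPoints f) := Fintype.card_pos_iff.mpr ⟨⟨a, ha⟩⟩
  have h2 : Fintype.card (Function.fixedPoints f) ≤ Fintype.card α := Fintype.card_subtype_le _
  have h3 := (Nat.modEq_iff_dvd' h2).mp h.symm
  have h4 : Fintype.card α - Fintype.card (Function.fixedPoints f) = 0 :=
    Nat.eq_zero_of_dvd_of_lt h3 (by omega)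
  have h5 : Fintype.card (Function.fixedPoints f) = Fintype.card α := by omega
  have h6 : Function.fixedPoints f = Set.univ := by
    rw [← set_fintype_card_eq_univ_iff]
    convert h5
  have h7 : b ∈ Function.fixedPoints f := h6 ▸ Set.mem_univ b
  exact h7

theorem pgroup_case [Finite G] {p : ℕ} [hp : Fact p.Prime] {ι : Type*} [Fintype ι]
    (hι : Fintype.card ι ≤ p) (K : ι → Subgroup G) {L : Subgroup G} (hL : IsPGroup p L)
    (hK : ∀ i, ¬ L ≤ K i) (hcov : ∀ g ∈ L, ∃ i, g ∈ K i) : False := by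
  classical
  have := Fintype.ofFinite G
  obtain ⟨i0, -⟩ := hcov 1 L.one_mem
  obtain ⟨n, hn⟩ := IsPGroup.iff_card.mp hL
  have hd : ∀ i, p * Nat.card (L ⊓ K i : Subgroup G) ≤ Nat.card L := by
    intro i
    have h1 : (L ⊓ K i) < L := lt_of_le_of_ne inf_le_left fun h => hK i (inf_eq_left.mp h)
    have h2 := card_lt_of_lt h1
    obtain ⟨m, hm⟩ := IsPGroup.iff_card.mp (hL.to_le (inf_le_left : L ⊓ K i ≤ L))
    rw [hm, hn] at h2 ⊢
    have h3 : m < n := (Nat.pow_lt_pow_iff_right hp.out.one_lt).mp h2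
    rw [← pow_succ']
    exact Nat.pow_le_pow_right hp.out.pos h3
  have hc : ∀ T : Subgroup G,
      ((Finset.univ.filter (· ∈ T)).erase 1).card + 1 = Nat.card T := by
    intro T
    rw [Finset.card_erase_add_one (by simp), Nat.card_eq_fintype_card, Fintype.card_subtype]
  have hsub : (Finset.univ.filter (· ∈ L)).erase 1 ⊆
      Finset.univ.biUnion fun i => (Finset.univ.filter (· ∈ L ⊓ K i)).erase 1 := by
    intro g hg
    simp only [Finset.mem_erase, Finset.mem_filter, Finset.mem_univ, true_and] at hg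
    obtain ⟨i, hi⟩ := hcov g hg.2
    simp only [Finset.mem_biUnion, Finset.mem_erase, Finset.mem_filter, Finset.mem_univ, true_and]
    exact ⟨i, hg.1, hg.2, hi⟩
  have h1 := (Finset.card_le_card hsub).trans Finset.card_biUnion_le
  have hm : ∀ i, ((Finset.univ.filter (· ∈ L ⊓ K i)).erase 1).card ≤ Nat.card L / p - 1 := by
    intro i
    have h2 := hc (L ⊓ K i)
    have h3 : Nat.card (L ⊓ K i : Subgroup G) ≤ Nat.card L / p :=
      (Nat.le_div_iff_mul_le hp.out.pos).mpr (by rw [mul_comm]; exact hd i)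
    omega
  have h2 := h1.trans (Finset.sum_le_card_nsmul _ _ _ fun i _ => hm i)
  rw [Finset.card_univ, smul_eq_mul] at h2
  have h3 := h2.trans (Nat.mul_le_mul_right _ hι)
  have h4 := hc L
  have h5 : 1 ≤ Nat.card L / p := by
    have h6 : 0 < Nat.card (L ⊓ K i0 : Subgroup G) := Nat.card_pos
    have h7 : Nat.card (L ⊓ K i0 : Subgroup G) ≤ Nat.card L / p :=
      (Nat.le_div_iff_mul_le hp.out.pos).mpr (by rw [mul_comm]; exact hd i0)
    omega
  have h6 : p * (Nat.card L / p) ≤ Nat.card L := Nat.mul_div_le _ _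
  have h7 : p * (Nat.card L / p - 1) + p = p * (Nat.card L / p) := by
    rw [← Nat.mul_succ]; congr 1; omega
  have h8 := hp.out.two_le
  omega

theorem key [Finite G] {p : ℕ} [hp : Fact p.Prime] {ι : Type*} [Fintype ι]
    (hι : Fintype.card ι ≤ p) (K : ι → Subgroup G)
    (hcov : ∀ g : G, (∃ k : ℕ, orderOf g = p ^ k) → ∃ i, g ∈ K i) (L : Subgroup G) :
    L ≤ pg p L → ∃ i, L ≤ K i := by
  classical
  induction L using WellFoundedLT.induction with
  | ind L ih =>
  intro hL
  by_contra hno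
  push Not at hno
  have hN : ∀ i, PA p L (pg p (L ⊓ K i)) := fun i =>
    ⟨lt_of_le_of_lt (pg_le _ _)
      (lt_of_le_of_ne inf_le_left fun h => hno i (inf_eq_left.mp h)), pg_pg _ _⟩
  have hmax : ∀ M, Maximal (PA p L) M → ∃ i, pg p (L ⊓ K i) = M := by
    intro M hM
    obtain ⟨i, hi⟩ := ih M hM.1.1 hM.1.2
    have h1 : M ≤ pg p (L ⊓ K i) := hM.1.2.trans (pg_mono p (le_inf hM.1.1.le hi))
    exact ⟨i, le_antisymm (hM.2 (hN i) h1) h1⟩
  have hcard : Nat.card {M // Maximal (PA p L) M} ≤ p := by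
    choose f hf using hmax
    have hinj : Function.Injective fun M : {M // Maximal (PA p L) M} => f M.1 M.2 := by
      intro M M' h
      apply Subtype.ext
      rw [← hf M.1 M.2, ← hf M'.1 M'.2]
      simp only at h
      rw [h]
    have := Nat.card_le_card_of_injective _ hinj
    rw [Nat.card_eq_fintype_card (α := ι)] at this
    exact this.trans hι
  have hfix : ∀ x ∈ L, (∃ k : ℕ, orderOf x = p ^ k) →
      ∀ M, Maximal (PA p L) M → cj x M = M := by
    intro x hx ⟨k, hk⟩ M hM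
    let F : L →* Function.End {M // Maximal (PA p L) M} :=
      { toFun := fun g N => ⟨cj (g : G) N.1, max_cj N.2 g.2⟩
        map_one' := by
          funext N
          exact Subtype.ext (cj_one _)
        map_mul' := fun g h => by
          funext N
          exact Subtype.ext (cj_mul _ _ _) }
    have h1 : F ⟨x, hx⟩ ^ p ^ k = 1 := by
      rw [← map_pow]
      have : (⟨x, hx⟩ : L) ^ p ^ k = 1 := by
        apply Subtype.ext
        simp only [SubmonoidClass.mk_pow, OneMemClass.coe_one]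
        rw [← hk]; exact pow_orderOf_eq_one x
      rw [this, map_one]
    obtain ⟨i, hi⟩ := hcov x ⟨k, hk⟩
    obtain ⟨M', h2, h3⟩ := Finite.exists_le_maximal (hN i)
    have h4 : x ∈ M' := h2 (mem_pg ⟨hx, hi⟩ ⟨k, hk⟩)
    have h5 : F ⟨x, hx⟩ ⟨M', h3⟩ = ⟨M', h3⟩ := Subtype.ext (cj_eq_of_mem h4)
    exact congrArg Subtype.val (fix_all hcard _ h1 h5 ⟨M, hM⟩)
  have hnorm : ∀ M, Maximal (PA p L) M → ∀ x ∈ L, cj x M = M := by
    intro M hM x hx
    have h1 : pg p L ≤ Subgroup.normalizer (M : Set G) :=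
      (Subgroup.closure_le _).mpr fun y hy => cj_eq_self_iff.mp (hfix y hy.1 hy.2 M hM)
    exact cj_eq_self_iff.mpr (h1 (hL hx))
  have hpel : ∀ {S : Subgroup G}, IsPGroup p S → ∀ g ∈ S, ∃ k : ℕ, orderOf g = p ^ k := by
    intro S hS g hg
    obtain ⟨k, hk⟩ := IsPGroup.iff_orderOf.mp hS ⟨g, hg⟩
    exact ⟨k, by rw [← hk, Subgroup.orderOf_mk]⟩
  obtain ⟨S, hS⟩ := exists_isSylowIn (p := p) L
  rcases hS.le.eq_or_lt with h | h
  · subst h
    exact pgroup_case hι K hS.isPGroup hno fun g hg => hcov g (hpel hS.isPGroup g hg)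
  · have h1 : PA p L S := ⟨h, fun g hg => mem_pg hg (hpel hS.isPGroup g hg)⟩
    obtain ⟨M, h2, h3⟩ := Finite.exists_le_maximal h1
    have h4 : pg p L ≤ M := by
      refine (Subgroup.closure_le _).mpr fun y hy => ?_
      obtain ⟨hy, k, hk⟩ := hy
      have h5 : IsPGroup p (Subgroup.zpowers y) :=
        IsPGroup.of_card (by rw [Nat.card_zpowers, hk])
      obtain ⟨x, hx, h6⟩ := hS.exists_cj_le h5 ((Subgroup.zpowers_le).mpr hy)
      have h7 : x * y * x⁻¹ ∈ cj x M := by
        rw [hnorm M h3 x hx]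
        exact h2 (h6 (conj_mem_cj.mpr (Subgroup.mem_zpowers y)))
      exact conj_mem_cj.mp h7
    exact h3.1.1.not_ge (hL.trans h4)

end

/-- Let p be a prime and G a finite group generated by its p-elements. If a finite family of proper subgroups of G covers the set of p-elements of G (every element of p-power order lies in one of them), then the family has at least p + 1 members. -/
theorem result {G : Type*} [Group G] [Finite G] (p : ℕ) [Fact p.Prime] (hgen : Subgroup.closure {g : G | ∃ k : ℕ, orderOf g = p ^ k} = ⊤)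
    {ι : Type*} [Fintype ι] (K : ι → Subgroup G) (hK : ∀ i, K i ≠ ⊤)
    (hcov : ∀ g : G, (∃ k : ℕ, orderOf g = p ^ k) → ∃ i, g ∈ K i) :
    p + 1 ≤ Fintype.card ι := by
  by_contra h
  have h1 : (⊤ : Subgroup G) ≤ pg p ⊤ := by
    rw [← hgen]
    refine (Subgroup.closure_le _).mpr fun g hg => mem_pg ?_ hg
    exact Subgroup.subset_closure hg
  obtain ⟨i, hi⟩ := key (by omega) K hcov ⊤ h1
  exact hK i (top_le_iff.mp hi)

end Cfsg.Agent.S4182
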