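import Cfsg.Statements.S4184
import Cfsg.Agent.Solv.SylowDirect

set_option autoImplicit false
open Cfsg

namespace Cfsg.Agent.S4184

open Cfsg.Lib.Solv Cfsg.Lib.Solv.ClassSize

/-- The centraliser of a non-identity element only involves primes from one side. -/
theorem side {M : Type*} [Group M] [Finite M] {A : Set ℕ}
    (hA : ∀ a ∈ A, ∀ b ∉ A, a.Prime → b.Prime → a ∣ Nat.card M → b ∣ Nat.card M →
      ¬ ∃ x : M, orderOf x = a * b) {x : M} {r : ℕ} (hr : r.Prime) (hrA : r ∈ A)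
    (hx : r ∣ orderOf x) {b : ℕ} (hb : b.Prime) (hbA : b ∉ A) :
    ¬ b ∣ Nat.card (Subgroup.centralizer ({x} : Set M)) := by
  intro hd
  have := Fact.mk hb
  obtain ⟨y, hy⟩ := exists_prime_orderOf_dvd_card' b hd
  have hy' : orderOf (y : M) = b := by rw [Subgroup.orderOf_coe, hy]
  have hx0 : orderOf x ≠ 0 := (orderOf_pos x).ne'
  have hz : orderOf (x ^ (orderOf x / r)) = r := orderOf_pow_orderOf_div hx0 hx
  have hc : Commute (x ^ (orderOf x / r)) (y : M) :=
    ((mem_cent_iff_commute.1 y.2).symm).pow_left _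
  have hne : r ≠ b := fun e => hbA (e ▸ hrA)
  have hco : (orderOf (x ^ (orderOf x / r))).Coprime (orderOf (y : M)) := by
    rw [hz, hy']; exact (Nat.coprime_primes hr hb).2 hne
  refine hA r hrA b hbA hr hb (hx.trans (orderOf_dvd_natCard x))
    (hy' ▸ orderOf_dvd_natCard (y : M)) ⟨x ^ (orderOf x / r) * y, ?_⟩
  rw [hc.orderOf_mul_eq_mul_orderOf_of_coprime hco, hz, hy']

theorem exists_center_sylow {G : Type*} [Group G] [Finite G] {p : ℕ} [hp : Fact p.Prime]
    {D : Subgroup G} (hD : IsPGroup p D) (h1 : D ≠ ⊥) :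
    ∃ z ∈ D, z ≠ 1 ∧ D ≤ Subgroup.centralizer ({z} : Set G) := by
  have : Nontrivial D := (Subgroup.nontrivial_iff_ne_bot D).2 h1
  have := hD.center_nontrivial
  obtain ⟨z, hz⟩ := exists_ne (1 : Subgroup.center D)
  refine ⟨(z : D), (z : D).2, fun e => hz (Subtype.ext (Subtype.ext e)), fun d hd => ?_⟩
  rw [mem_cent]
  exact congrArg Subtype.val (Subgroup.mem_center_iff.1 z.2 ⟨d, hd⟩)

theorem key {G : Type*} [Group G] [Finite G] {m k : ℕ} (hk : Nat.card G = k * m) {A : Set ℕ}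
    (hT : ∀ g : G, g ≠ 1 → ∃ c, c ≠ 1 ∧ m = c * (Subgroup.centralizer ({g} : Set G)).index ∧
      ((∀ a ∈ A, a.Prime → ¬ a ∣ c) ∨ ∀ b ∉ A, b.Prime → ¬ b ∣ c))
    {p q : ℕ} (hp : p.Prime) (hq : q.Prime) (hpA : p ∈ A) (hqA : q ∉ A) (hpm : p ∣ m)
    (hqm : q ∣ m) : ¬ p ∣ k := by
  intro hpk
  have := Fact.mk hp
  have := Fact.mk hq
  have hcard : ∀ (g : G) (c : ℕ), m = c * (Subgroup.centralizer ({g} : Set G)).index →
      Nat.card (Subgroup.centralizer ({g} : Set G)) = k * c := by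
    intro g c hc
    have h1 := (Subgroup.centralizer ({g} : Set G)).card_mul_index
    rw [hk, hc, ← mul_assoc] at h1
    exact Nat.eq_of_mul_eq_mul_right (Nat.pos_of_ne_zero Subgroup.index_ne_zero_of_finite) h1
  have hm0 : m ≠ 0 := by
    rintro rfl
    exact Nat.card_pos.ne' (hk.trans (mul_zero k))
  -- an element `y` of the centre of a Sylow `q`-subgroup
  obtain ⟨Q⟩ : Nonempty (Sylow q G) := inferInstance
  have hQ : (Q : Subgroup G) ≠ ⊥ := Q.ne_bot_of_dvd_card (hk ▸ hqm.mul_left k)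
  obtain ⟨y, hyQ, hy1, hy⟩ := exists_center_sylow Q.isPGroup' hQ
  obtain ⟨c, -, hc, hcT⟩ := hT y hy1
  have hqc : q ∣ c := by
    have := not_dvd_index_of_sylow_le Q hy
    exact ((Nat.Prime.dvd_mul hq).1 (hc ▸ hqm)).resolve_right this
  have hcA : ∀ a ∈ A, a.Prime → ¬ a ∣ c := hcT.resolve_right fun h => h q hqA hq hqc
  obtain ⟨j, hj⟩ := Q.isPGroup' ⟨y, hyQ⟩
  have hyo : orderOf y ∣ q ^ j := orderOf_dvd_of_pow_eq_one (congrArg Subtype.val hj)
  have hpq : p ≠ q := fun e => hqA (e ▸ hpA)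
  -- `p`-elements centralising `y`
  have hB : ∀ z : G, z ≠ 1 → (∃ i, z ^ p ^ i = 1) → Commute y z →
      ∃ d, m = d * (Subgroup.centralizer ({z} : Set G)).index ∧ ¬ p ∣ d := by
    rintro z hz1 ⟨i, hi⟩ hyz
    have hco : (orderOf y).Coprime (orderOf z) :=
      Nat.Coprime.coprime_dvd_left hyo (Nat.Coprime.coprime_dvd_right
        (orderOf_dvd_of_pow_eq_one hi) (Nat.coprime_pow_primes _ _ hq hp hpq.symm))
    have hne : y * z ≠ 1 := by
      intro e
      have := right_mem_zpowers_mul_of_coprime hyz hco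
      rw [e, Subgroup.zpowers_one_eq_bot, Subgroup.mem_bot] at this
      exact hz1 this
    obtain ⟨e, he1, he, -⟩ := hT _ hne
    obtain ⟨d, -, hd, hdT⟩ := hT z hz1
    have key2 : ∀ (w : G) (f : ℕ), w ∈ Subgroup.zpowers (y * z) →
        m = f * (Subgroup.centralizer ({w} : Set G)).index → e ∣ f := by
      intro w f hw hf
      obtain ⟨s, hs⟩ := index_cent_dvd_of_mem_zpowers hw
      refine ⟨s, ?_⟩
      have h0 : 0 < (Subgroup.centralizer ({w} : Set G)).index :=
        Nat.pos_of_ne_zero Subgroup.index_ne_zero_of_finite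
      refine Nat.eq_of_mul_eq_mul_right h0 ?_
      rw [← hf, he, hs]; ring
    have h1 := key2 y c (left_mem_zpowers_mul_of_coprime hyz hco) hc
    have h2 := key2 z d (right_mem_zpowers_mul_of_coprime hyz hco) hd
    obtain ⟨r, hr, hre⟩ := Nat.exists_prime_and_dvd he1
    have hrA : r ∉ A := fun h => hcA r h hr (hre.trans h1)
    exact ⟨d, hd, (hdT.resolve_right fun h => h r hrA hr (hre.trans h2)) p hpA hp⟩
  -- a Sylow `p`-subgroup of the centraliser of `y`
  obtain ⟨D0⟩ : Nonempty (Sylow p (Subgroup.centralizer ({y} : Set G))) := inferInstance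
  set D : Subgroup G := (D0 : Subgroup _).map (Subgroup.centralizer ({y} : Set G)).subtype with hD
  have hDp : IsPGroup p D := D0.isPGroup'.map _
  have hDc : Nat.card D = p ^ (k * c).factorization p := by
    rw [hD, Subgroup.card_map_of_injective (Subgroup.subtype_injective _),
      D0.card_eq_multiplicity, hcard y c hc]
  have hDy : D ≤ Subgroup.centralizer ({y} : Set G) := Subgroup.map_subtype_le _
  have hkc : k * c ≠ 0 := by rw [← hcard y c hc]; exact Nat.card_pos.ne'
  have hD1 : D ≠ ⊥ := by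
    intro e
    rw [e, Subgroup.card_bot] at hDc
    have : 0 < (k * c).factorization p := hp.factorization_pos_of_dvd hkc (hpk.mul_right c)
    exact (Nat.one_lt_pow this.ne' hp.one_lt).ne hDc
  have hDB : ∀ z ∈ D, z ≠ 1 →
      ∃ d, m = d * (Subgroup.centralizer ({z} : Set G)).index ∧ ¬ p ∣ d := by
    intro z hz hz1
    obtain ⟨i, hi⟩ := hDp ⟨z, hz⟩
    exact hB z hz1 ⟨i, congrArg Subtype.val hi⟩ (mem_cent_iff_commute.1 (hDy hz)).symm
  obtain ⟨z, hzD, hz1, hz⟩ := exists_center_sylow hDp hD1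
  obtain ⟨d, hd, hpd⟩ := hDB z hzD hz1
  obtain ⟨P, hP⟩ := hDp.exists_le_sylow
  have hP1 : (P : Subgroup G) ≠ ⊥ := fun e => hD1 (le_bot_iff.1 (e ▸ hP))
  obtain ⟨x, hxP, hx1, hx⟩ := exists_center_sylow P.isPGroup' hP1
  have hE : (P : Subgroup G) ⊓ Subgroup.centralizer ({z} : Set G) = D := by
    symm
    refine Subgroup.eq_of_le_of_card_ge (le_inf hP hz) ?_
    obtain ⟨n, hn⟩ := IsPGroup.iff_card.1 (P.isPGroup'.to_inf_left
      (K := Subgroup.centralizer ({z} : Set G)))
    have h1 : p ^ n ∣ k * d := by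
      rw [← hn, ← hcard z d hd]; exact Subgroup.card_dvd_of_le inf_le_right
    have h2 : p ^ n ∣ k * c := ((Nat.Coprime.pow_left n
      ((Nat.Prime.coprime_iff_not_dvd hp).2 hpd)).dvd_of_dvd_mul_right h1).mul_right c
    rw [hn, hDc]
    exact Nat.pow_le_pow_right hp.pos ((hp.pow_dvd_iff_le_factorization hkc).1 h2)
  have hxD : x ∈ D := hE ▸ ⟨hxP, mem_cent_comm.1 (hx (hP hzD))⟩
  obtain ⟨f, hf, hpf⟩ := hDB x hxD hx1
  exact ((Nat.Prime.dvd_mul hp).1 (hf ▸ hpm)).elim hpf (not_dvd_index_of_sylow_le P hx)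


/-- Let G and M be finite groups with trivial centres and the same set of conjugacy class sizes, and suppose the prime graph of M is disconnected: the prime divisors of #M split into two non-empty parts such that M has no element of order pq with p in one part and q in the other. Then #G = #M. -/
theorem result {G M : Type*}
    [Group G] [Finite G] [Group M] [Finite M] (hZG : Subgroup.center G = ⊥) (hZM : Subgroup.center M = ⊥)
    (h : Set.range (fun g : G => (Subgroup.centralizer ({g} : Set G)).index) = Set.range (fun g : M => (Subgroup.centralizer ({g} : Set M)).index))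
    (hdisc : ∃ A : Set ℕ, (∃ a ∈ A, a.Prime ∧ a ∣ Nat.card M) ∧ (∃ b ∉ A, b.Prime ∧ b ∣ Nat.card M) ∧
      ∀ a ∈ A, ∀ b ∉ A, a.Prime → b.Prime → a ∣ Nat.card M → b ∣ Nat.card M → ¬ ∃ x : M, orderOf x = a * b) :
    Nat.card G = Nat.card M := by
  obtain ⟨A, ⟨a, haA, ha, haM⟩, ⟨b, hbA, hb, hbM⟩, hA⟩ := hdisc
  have hA' : ∀ a ∈ Aᶜ, ∀ b ∉ Aᶜ, a.Prime → b.Prime → a ∣ Nat.card M → b ∣ Nat.card M →
      ¬ ∃ x : M, orderOf x = a * b := fun a ha b hb h1 h2 h3 h4 => by
    rw [mul_comm]; exact hA b (not_not.1 hb) a ha h2 h1 h4 h3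
  have hGM : ∀ g : G, ∃ x : M, (Subgroup.centralizer ({x} : Set M)).index =
      (Subgroup.centralizer ({g} : Set G)).index := fun g => by
    have : (Subgroup.centralizer ({g} : Set G)).index ∈ Set.range
      (fun g : M => (Subgroup.centralizer ({g} : Set M)).index) := h ▸ ⟨g, rfl⟩
    exact this
  have hMG : ∀ x : M, ∃ g : G, (Subgroup.centralizer ({g} : Set G)).index =
      (Subgroup.centralizer ({x} : Set M)).index := fun x => by
    have : (Subgroup.centralizer ({x} : Set M)).index ∈ Set.range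
      (fun g : G => (Subgroup.centralizer ({g} : Set G)).index) := h ▸ ⟨x, rfl⟩
    exact this
  have hT : ∀ g : G, g ≠ 1 → ∃ c, c ≠ 1 ∧
      Nat.card M = c * (Subgroup.centralizer ({g} : Set G)).index ∧
      ((∀ a ∈ A, a.Prime → ¬ a ∣ c) ∨ ∀ b ∉ A, b.Prime → ¬ b ∣ c) := by
    intro g hg
    obtain ⟨x, hx⟩ := hGM g
    have hx1 : x ≠ 1 := by
      rintro rfl
      rw [index_cent_eq_one_iff.2 (Subgroup.one_mem _), eq_comm, index_cent_eq_one_iff, hZG,
        Subgroup.mem_bot] at hx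
      exact hg hx
    refine ⟨Nat.card (Subgroup.centralizer ({x} : Set M)), fun e => hx1 ?_,
      by rw [← hx, Subgroup.card_mul_index], ?_⟩
    · have := self_mem_cent x
      rwa [Subgroup.card_eq_one.1 e, Subgroup.mem_bot] at this
    · obtain ⟨r, hr, hrx⟩ := Nat.exists_prime_and_dvd (n := orderOf x) (by rwa [Ne, orderOf_eq_one_iff])
      by_cases hrA : r ∈ A
      · exact Or.inr fun b hbA hb => side hA hr hrA hrx hb hbA
      · exact Or.inl fun b hbA hb => side hA' hr hrA hrx hb (not_not.2 hbA)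
  have hdvd : Nat.card M ∣ Nat.card G := by
    rw [Nat.dvd_iff_prime_pow_dvd_dvd]
    intro p n hp hn
    have : ∃ y : M, ¬ p ∣ Nat.card (Subgroup.centralizer ({y} : Set M)) := by
      by_cases hpA : p ∈ A
      · have := Fact.mk hb
        obtain ⟨y, hy⟩ := exists_prime_orderOf_dvd_card' b hbM
        exact ⟨y, side hA' hb hbA (hy ▸ dvd_rfl) hp (not_not.2 hpA)⟩
      · have := Fact.mk ha
        obtain ⟨y, hy⟩ := exists_prime_orderOf_dvd_card' a haM
        exact ⟨y, side hA ha haA (hy ▸ dvd_rfl) hp hpA⟩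
    obtain ⟨y, hy⟩ := this
    obtain ⟨g, hg⟩ := hMG y
    rw [← (Subgroup.centralizer ({y} : Set M)).card_mul_index] at hn
    have := (Nat.Coprime.pow_left n ((Nat.Prime.coprime_iff_not_dvd hp).2 hy)).dvd_of_dvd_mul_left hn
    exact (hg ▸ this).trans (Subgroup.index_dvd_card _)
  obtain ⟨k, hk⟩ := hdvd
  rw [mul_comm] at hk
  by_cases hk1 : k = 1
  · rw [hk, hk1, one_mul]
  exfalso
  obtain ⟨p, hp, hpk⟩ := Nat.exists_prime_and_dvd hk1
  have := Fact.mk hp
  have hpm : p ∣ Nat.card M := by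
    by_contra hpm
    obtain ⟨P⟩ : Nonempty (Sylow p G) := inferInstance
    have hC : Subgroup.centralizer ((P : Subgroup G) : Set G) = ⊤ := by
      refine eq_top_of_forall_exists_conj_mem fun x => ?_
      obtain ⟨y, hy⟩ := hGM x
      obtain ⟨R, hR⟩ := exists_sylow_le_of_not_dvd_index (p := p)
        (C := Subgroup.centralizer ({x} : Set G))
        (fun hd => hpm ((hy ▸ hd).trans (Subgroup.index_dvd_card _)))
      obtain ⟨g, hg⟩ := MulAction.exists_smul_eq G R P
      refine ⟨g, fun u hu => ?_⟩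
      rw [← hg] at hu
      obtain ⟨v, hv, rfl⟩ := hu
      have := mem_cent.1 (hR hv)
      simp only [MulDistribMulAction.toMonoidEnd_apply,
        MulDistribMulAction.toMonoidHom_apply, MulAut.smul_def, MulAut.conj_apply]
      calc g * v * g⁻¹ * (g * x * g⁻¹) = g * (v * x) * g⁻¹ := by group
        _ = g * x * g⁻¹ * (g * v * g⁻¹) := by rw [this]; group
    refine P.ne_bot_of_dvd_card (hk ▸ hpk.mul_right _) (le_bot_iff.1 fun u hu => ?_)
    rw [← hZG, Subgroup.mem_center_iff]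
    intro g
    have : g ∈ Subgroup.centralizer ((P : Subgroup G) : Set G) := hC ▸ Subgroup.mem_top g
    exact (this u hu).symm
  by_cases hpA : p ∈ A
  · exact key hk hT hp hb hpA hbA hpm hbM hpk
  · refine key (A := Aᶜ) hk (fun g hg => ?_) hp ha hpA (not_not.2 haA) hpm haM hpk
    obtain ⟨c, h1, h2, h3⟩ := hT g hg
    exact ⟨c, h1, h2, h3.symm.imp id fun h b hb => h b (not_not.1 hb)⟩

end Cfsg.Agent.S4184
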