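import Cfsg.Statements.S4186
import Cfsg.Agent.Solv.RealElements

set_option autoImplicit false
open Cfsg

namespace Cfsg.Agent.S4186

open Cfsg.Lib.Solv Cfsg.Lib.Solv.Real

/-- Let T and X be subgroups of a group with T a finite 2-group normalizing X but not centralizing it. Then some element of T inverts some non-identity element of X under conjugation. -/
theorem result {G : Type*} [Group G] (T X : Subgroup G) [Finite ↥T] (hT : IsPGroup 2 ↥T) (hTN : T ≤ Subgroup.normalizer (X : Set G)) (hTC : ¬ T ≤ Subgroup.centralizer (X : Set G)) : ∃ t ∈ T, ∃ x ∈ X, x ≠ 1 ∧ t * x * t⁻¹ = x⁻¹ := by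
  -- choose `t ∈ T` not centralizing `X` of minimal order; then `t ^ 2` centralizes `X`.
  classical
  have hex : ∃ n, ∃ t ∈ T, t ∉ Subgroup.centralizer (X : Set G) ∧ orderOf t = n := by
    obtain ⟨t, ht, ht'⟩ := SetLike.not_le_iff_exists.1 hTC
    exact ⟨_, t, ht, ht', rfl⟩
  obtain ⟨t, htT, htC, hord⟩ := Nat.find_spec hex
  have hmin : ∀ s ∈ T, s ∉ Subgroup.centralizer (X : Set G) → orderOf t ≤ orderOf s := by
    intro s hs hs'
    rw [hord]
    exact Nat.find_min' hex ⟨s, hs, hs', rfl⟩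
  have hsq : t ^ 2 ∈ Subgroup.centralizer (X : Set G) := by
    by_contra h
    have h1 := hmin _ (T.pow_mem htT 2) h
    obtain ⟨k, hk⟩ := (IsPGroup.iff_orderOf.1 hT) ⟨t, htT⟩
    rw [← Subgroup.orderOf_coe] at hk
    simp only at hk
    have ht1 : t ≠ 1 := by
      rintro rfl
      exact htC (Subgroup.one_mem _)
    have hk0 : k ≠ 0 := by
      rintro rfl
      exact ht1 (orderOf_eq_one_iff.1 (by simpa using hk))
    have h2 : orderOf (t ^ 2) = orderOf t / 2 := by
      rw [orderOf_pow_of_dvd two_ne_zero]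
      rw [hk]
      exact dvd_pow_self 2 hk0
    have h3 : 0 < orderOf t := by rw [hk]; positivity
    omega
  rw [Subgroup.mem_centralizer_iff] at htC hsq
  push Not at htC
  obtain ⟨y, hy, hyt⟩ := htC
  refine ⟨t, htT, y⁻¹ * (t * y * t⁻¹), ?_, ?_, ?_⟩
  · exact X.mul_mem (X.inv_mem hy) ((Subgroup.mem_normalizer_iff.1 (hTN htT) y).1 hy)
  · intro h
    apply hyt
    calc y * t = y * (y⁻¹ * (t * y * t⁻¹)) * t := by rw [h, mul_one]
      _ = t * y := by group
  · have h := hsq y hy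
    calc t * (y⁻¹ * (t * y * t⁻¹)) * t⁻¹ = t * y⁻¹ * t⁻¹ * (t ^ 2 * y) * (t ^ 2)⁻¹ := by
          rw [sq]; group
      _ = (y⁻¹ * (t * y * t⁻¹))⁻¹ := by rw [← h]; group

end Cfsg.Agent.S4186
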