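import Cfsg.Statements.S4188
import Cfsg.Agent.Solv.CyclicIndexP
import Cfsg.Agent.Solv.SectionAut
import Cfsg.Agent.Solv.FrattiniP
import Cfsg.Agent.Solv.CoprimeBasic

set_option autoImplicit false
open Cfsg

namespace Cfsg.Agent.S4188

open Subgroup Cfsg.Lib.Solv

universe u v

theorem idx_le_card (P : Type*) [Group P] [Finite P] : (frattini P).index ≤ Nat.card P :=
  Nat.le_of_dvd Nat.card_pos (index_dvd_card _)

theorem idx_sub {P : Type*} [Group P] [Finite P] (hP : IsPGroup 2 P) (H : Subgroup P) :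
    (frattini P).index ≤ (frattini H).index * H.index := by
  rw [← index_map_subtype]
  exact Nat.le_of_dvd (Nat.pos_of_ne_zero index_ne_zero_of_finite)
    (index_dvd_of_le (map_frattini_le_frattini_of_isPGroup hP H))

theorem idx_le {P Q : Type*} [Group P] [Finite P] [Group Q] (hP : IsPGroup 2 P) (f : P →* Q) :
    (frattini P).index ≤ (frattini f.range).index * (frattini f.ker).index := by
  have h1 : (frattini f.range).index = (frattini P ⊔ f.ker).index := by
    rw [← map_frattini_of_surjective_of_isPGroup hP f.rangeRestrict_surjective, index_map,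
      MonoidHom.ker_rangeRestrict, MonoidHom.range_eq_top.2 f.rangeRestrict_surjective, index_top,
      mul_one]
  rw [h1, ← relIndex_mul_index (le_sup_left : frattini P ≤ frattini P ⊔ f.ker), mul_comm,
    relIndex_sup_left]
  refine Nat.mul_le_mul_left _ (Nat.le_of_dvd (Nat.pos_of_ne_zero index_ne_zero_of_finite)
    (index_dvd_of_le ?_))
  exact map_le_iff_le_comap.1 (map_frattini_le_frattini_of_isPGroup hP f.ker)

theorem card_le_two {P V : Type*} [Group P] [Group V] [Finite V] (φ : P →* MulAut V)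
    (hφ : Function.Injective φ) (h : Nat.card V = 3) : Nat.card P ≤ 2 := by
  have : Fact (Nat.Prime 3) := ⟨Nat.prime_three⟩
  have := isCyclic_of_prime_card h
  have h1 := Nat.card_le_card_of_injective φ hφ
  rwa [IsCyclic.card_mulAut, h] at h1

theorem inj_quot {P V : Type*} [Group P] [CommGroup V] [Finite V] (hP : IsPGroup 2 P)
    (hV : Odd (Nat.card V)) {φ : P →* MulAut V} (hφ : Function.Injective φ) {U : Subgroup V}
    (h : ∀ a, ∀ x ∈ U, φ a x ∈ U) :
    Function.Injective ((Coprime.quotAut φ U h).comp (Coprime.restrictAut φ U h).ker.subtype) := by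
  refine (injective_iff_map_eq_one _).2 fun ⟨a, ha⟩ h1 => Subtype.ext (hφ ?_)
  have h2 := (Coprime.mem_ker_restrictAut φ U h a).1 ha
  have h3 := (Coprime.mem_ker_quotAut φ U h a).1 h1
  rw [OneMemClass.coe_one, map_one]
  ext x
  have h4 : ∀ n : ℕ, φ (a ^ n) x = (φ a x * x⁻¹) ^ n * x := fun n => by
    induction n with
    | zero => simp
    | succ n ih =>
      rw [pow_succ', map_mul, MulAut.mul_apply, ih, map_mul, h2 _ (U.pow_mem (h3 x) n), pow_succ,
        mul_assoc, inv_mul_cancel_right]
  obtain ⟨k, hk⟩ := hP a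
  have h5 := h4 (2 ^ k)
  rw [hk, map_one, MulAut.one_apply, right_eq_mul] at h5
  exact mul_inv_eq_one.1 (orderOf_eq_one_iff.1 ((((Nat.coprime_two_right.2 hV).coprime_dvd_left
    (orderOf_dvd_natCard _)).pow_right k).eq_one_of_dvd (orderOf_dvd_of_pow_eq_one h5)))

theorem three_le {n : ℕ} (h : Odd n) (h1 : n ≠ 1) : 3 ≤ n := by
  obtain ⟨k, rfl⟩ := h
  omega

theorem main (n : ℕ) : ∀ (P : Type u) (V : Type v) [Group P] [Finite P] [CommGroup V] [Finite V],
    IsPGroup 2 P → Odd (Nat.card V) → ∀ φ : P →* MulAut V, Function.Injective φ →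
    Nat.card V = n → 3 < n → 2 * (frattini P).index < n := by
  induction n using Nat.strong_induction_on with
  | _ n ih =>
  intro P V _ _ _ _ hP hV φ hφ hn h3
  have red : ∀ (H : Type u) [Group H] [Finite H], IsPGroup 2 H → ∀ ψ : H →* MulAut V,
      Function.Injective ψ → ∀ U : Subgroup V, (∀ a, ∀ x ∈ U, ψ a x ∈ U) → U ≠ ⊥ → U ≠ ⊤ →
      ∃ i j c, (frattini H).index ≤ i * j ∧ Nat.card H ≤ c ∧ 3 ≤ Nat.card U ∧ 3 ≤ U.index ∧
        (Nat.card U = 3 → i ≤ 2) ∧ (U.index = 3 → j ≤ 2) ∧ (Nat.card U = 3 → U.index = 3 → c ≤ 4) ∧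
        (3 < Nat.card U → 2 * i < Nat.card U) ∧ (3 < U.index → 2 * j < U.index) := by
    intro H _ _ hH ψ hψ U hU h0 h1
    have hc := U.card_mul_index
    have ha := three_le (hV.of_dvd_nat (card_subgroup_dvd_card U)) (by rwa [Ne, card_eq_one])
    have hb := three_le (hV.of_dvd_nat (index_dvd_card U)) (by rwa [Ne, index_eq_one])
    let f := Coprime.restrictAut ψ U hU
    let e := QuotientGroup.quotientKerEquivRange f
    have hi := inj_quot hH hV hψ hU
    have hf : Function.Injective (f.range.subtype.comp e.toMonoidHom) :=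
      f.range.subtype_injective.comp e.injective
    have he : (frattini f.range).index = (frattini (H ⧸ f.ker)).index := by
      rw [← map_frattini_equiv e, index_map_equiv]
    refine ⟨_, _, f.ker.index * Nat.card f.ker, he ▸ idx_le hH f, f.ker.index_mul_card.ge, ha, hb,
      fun h => (idx_le_card _).trans (card_le_two _ hf h),
      fun h => (idx_le_card _).trans (card_le_two _ hi h),
      fun h h' => Nat.mul_le_mul (card_le_two _ hf h) (card_le_two _ hi h'),
      ih _ (by nlinarith) _ U (hH.to_quotient _) (hV.of_dvd_nat (card_subgroup_dvd_card U)) _ hf rfl,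
      ih _ (by nlinarith) _ (V ⧸ U) (hH.to_subgroup _) (hV.of_dvd_nat (index_dvd_card U)) _ hi rfl⟩
  by_cases hr : ∃ U : Subgroup V, (∀ a, ∀ x ∈ U, φ a x ∈ U) ∧ U ≠ ⊥ ∧ U ≠ ⊤
  · obtain ⟨U, h0, h1, h2⟩ := hr
    obtain ⟨i, j, c, h4, -, h5, h6, h7, h8, -, h9, h10⟩ := red P hP φ hφ U h0 h1 h2
    rw [← hn, ← U.card_mul_index]
    rcases h5.eq_or_lt with h5 | h5 <;> rcases h6.eq_or_lt with h6 | h6
    · have := h7 h5.symm; have := h8 h6.symm; rw [← h5, ← h6]; nlinarith
    · have := h7 h5.symm; have := h10 h6; rw [← h5]; nlinarith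
    · have := h8 h6.symm; have := h9 h5; rw [← h6]; nlinarith
    · have := h9 h5; have := h10 h6; nlinarith
  push Not at hr
  have hodd : ∀ v : V, v * v = 1 → v = 1 := fun v hv => orderOf_eq_one_iff.1
    (((Nat.coprime_two_right.2 hV).coprime_dvd_left (orderOf_dvd_natCard v)).eq_one_of_dvd
      (orderOf_dvd_of_pow_eq_one ((pow_two v).trans hv)))
  have hcen : ∀ z ∈ center P, z ≠ 1 → z ^ 2 = 1 → ∀ v, φ z v = v⁻¹ := by
    intro z hz h1 h2 v
    have h4 : (φ z).toMonoidHom.eqLocus (MonoidHom.id V) = ⊥ := by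
      by_contra h4
      refine h1 (hφ (MulEquiv.ext fun x => ?_))
      rw [map_one]
      exact (hr _ (fun a x (hx : φ z x = x) => show φ z (φ a x) = φ a x by
        rw [← MulAut.mul_apply, ← map_mul, ← mem_center_iff.1 hz, map_mul, MulAut.mul_apply, hx])
        h4).ge (mem_top x)
    refine eq_inv_of_mul_eq_one_left (mem_bot.1 (h4.le (show φ z _ = _ from ?_)))
    rw [map_mul, ← MulAut.mul_apply, ← map_mul, ← pow_two, h2, map_one, MulAut.one_apply, mul_comm]
    rfl
  by_cases hA : ∀ A : Subgroup P, A.Normal → IsMulCommutative A → IsCyclic A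
  · by_cases hc : IsCyclic P
    · have := (isCyclic_iff_index_frattini_le hP).1 hc
      obtain ⟨k, hk⟩ := hV
      omega
    obtain ⟨a, x, -, -, -, -, h4, -⟩ :=
      (PG.two_group_of_forall_normal_abelian_isCyclic hP hA).resolve_left hc
    classical
    have h5 := (index_frattini_le_pow_card hP (T := {a, x}) (by
      rw [← h4, zpowers_eq_closure, zpowers_eq_closure, ← Subgroup.closure_union]
      simp only [Finset.coe_insert, Finset.coe_singleton]
      rfl)).trans (Nat.pow_le_pow_right two_pos Finset.card_le_two)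
    by_contra h6
    have h7 : (Nat.card V).Prime := by
      obtain ⟨k, hk⟩ := hV
      have : Nat.card V = 5 ∨ Nat.card V = 7 := by omega
      rcases this with h | h <;> rw [h] <;> norm_num
    have := Fact.mk h7
    have : IsCyclic V := isCyclic_of_prime_card rfl
    have := hA ⊤ inferInstance
      ⟨⟨fun a b => Subtype.ext (hφ ((IsCyclic.mulAutMulEquiv V).injective (by
        simp only [coe_mul, map_mul, mul_comm])))⟩⟩
    exact hc (isCyclic_of_surjective _ (topEquiv (G := P)).surjective)
  push Not at hA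
  obtain ⟨A, hAn, hAc, hA⟩ := hA
  obtain ⟨E, -, hEn, hEc, hE2, hE4⟩ := PG.exists_normal_elementary_sq hP A hA (Or.inr hAc)
  have hEm : ∀ a ∈ E, ∀ b ∈ E, a * b = b * a := fun a ha b hb =>
    congrArg Subtype.val (hEc.1.1 (⟨a, ha⟩ : E) ⟨b, hb⟩)
  obtain ⟨z, hzE, hz, hz0⟩ := PG.exists_mem_center_orderOf_eq hP E (by
    rintro rfl; simp at hE4)
  have hz1 : z ≠ 1 := by rintro rfl; simp at hz0
  obtain ⟨e, heE, he⟩ := SetLike.exists_of_lt (lt_of_le_of_ne (zpowers_le.2 hzE) fun h => by
    rw [← h, Nat.card_zpowers, orderOf_eq_prime (hE2 z hzE) hz1] at hE4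
    omega)
  have he1 : e ≠ 1 := by rintro rfl; exact he (one_mem _)
  have hez : e ∉ center P := fun h =>
    he (hφ (MulEquiv.ext fun v => (hcen e h he1 (hE2 e heE) v).trans
      (hcen z hz hz1 (hE2 z hzE) v).symm) ▸ mem_zpowers z)
  have hconj : ∀ g : P, g * e * g⁻¹ = e ∨ g * e * g⁻¹ = z * e := by
    classical
    intro g
    by_contra! h
    have := Fintype.ofFinite E
    have h4 := Finset.card_le_univ ({1, ⟨z, hzE⟩, ⟨e, heE⟩, ⟨z * e, E.mul_mem hzE heE⟩,
      ⟨_, hEn.conj_mem e heE g⟩} : Finset E)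
    have h5 : e ≠ z := by rintro rfl; exact he (mem_zpowers _)
    have h6 : z * e ≠ 1 := fun h => he (by
      rw [← inv_eq_of_mul_eq_one_right h]; exact inv_mem (mem_zpowers z))
    have h7 : g * e * g⁻¹ ≠ z := fun h => h5 (by
      rw [mul_inv_eq_iff_eq_mul, ← mem_center_iff.1 hz] at h; exact mul_left_cancel h)
    rw [← Nat.card_eq_fintype_card, hE4, Finset.card_insert_of_notMem (by
      simp [Subtype.ext_iff, hz1.symm, he1.symm, h6.symm, eq_comm (a := (1 : P)), he1]),
      Finset.card_insert_of_notMem (by simp [h5.symm, he1, h7.symm]),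
      Finset.card_insert_of_notMem (by simp [hz1, h.1.symm]),
      Finset.card_insert_of_notMem (by simp [h.2.symm])] at h4
    simp at h4
  obtain ⟨t, ht⟩ : ∃ t, t * e * t⁻¹ = z * e := by
    by_contra! h
    exact hez (mem_center_iff.2 fun g => mul_inv_eq_iff_eq_mul.1 ((hconj g).resolve_right (h g)))
  have hH : ∀ g, g ∈ centralizer {e} ↔ g * e * g⁻¹ = e := fun g => by
    rw [mem_centralizer_singleton_iff, mul_inv_eq_iff_eq_mul]
  have hze : z * e ≠ e := by simpa using hz1
  have hzz : z * z = 1 := (pow_two z).symm.trans (hE2 z hzE)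
  have hidx : (centralizer {e}).index = 2 := by
    refine index_eq_two_iff.2 ⟨t, fun b => ?_⟩
    have h4 : b * t * e * (b * t)⁻¹ = z * (b * e * b⁻¹) := by
      rw [show b * t * e * (b * t)⁻¹ = b * (t * e * t⁻¹) * b⁻¹ by group, ht, ← mul_assoc b,
        mem_center_iff.1 hz]
      group
    rw [hH, hH, h4]
    rcases hconj b with h | h <;> rw [h]
    · exact Or.inr ⟨rfl, hze⟩
    · exact Or.inl ⟨by rw [← mul_assoc, hzz, one_mul], hze⟩
  let U : P → Subgroup V := fun e => (φ e).toMonoidHom.eqLocus (MonoidHom.id V)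
  have hU : ∀ e v, v ∈ U e ↔ φ e v = v := fun _ _ => Iff.rfl
  have hU' : ∀ v, v ∈ U (z * e) ↔ φ e v = v⁻¹ := fun v => by
    rw [hU, map_mul, MulAut.mul_apply, hcen z hz hz1 (hE2 z hzE), inv_eq_iff_eq_inv]
  have h4 : Nat.card (U (z * e)) = Nat.card (U e) := by
    refine Nat.card_congr (Equiv.subtypeEquiv (φ t).toEquiv fun v => ?_).symm
    change φ e v = v ↔ φ (z * e) (φ t v) = φ t v
    rw [← ht, ← MulAut.mul_apply, ← map_mul, inv_mul_cancel_right, map_mul, MulAut.mul_apply,
      (φ t).injective.eq_iff]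
  have h5 : (U e).index = Nat.card (U e) := by
    let f : V →* V := (φ e).toMonoidHom / MonoidHom.id V
    have hk : f.ker = U e := SetLike.ext fun v => div_eq_one
    have hr : f.range = U (z * e) := le_antisymm (by
      rintro _ ⟨v, rfl⟩
      rw [hU']
      change φ e (φ e v / v) = (φ e v / v)⁻¹
      rw [map_div, ← MulAut.mul_apply, ← map_mul, ← pow_two, hE2 e heE, map_one, inv_div]
      rfl) fun v hv => by
        obtain ⟨k, hk⟩ := hV.of_dvd_nat (orderOf_dvd_natCard v)
        refine ⟨v ^ k, ?_⟩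
        change φ e (v ^ k) / v ^ k = v
        rw [map_pow, (hU' v).1 hv, div_eq_mul_inv, inv_pow, ← mul_inv, ← pow_add,
          inv_eq_iff_mul_eq_one, ← pow_succ, ← two_mul, ← hk, pow_orderOf_eq_one]
    rw [← hk, index_ker, hr, h4, hk]
  have h6 : U e ≠ ⊤ := fun h => he1 (hφ (MulEquiv.ext fun v => by
    rw [map_one]; exact h.ge (mem_top v)))
  obtain ⟨i, j, c, h7, h8, h9, -, -, -, h10, h11, h12⟩ := red (centralizer {e}) (hP.to_subgroup _)
    (φ.comp (Subgroup.subtype _)) (hφ.comp (subtype_injective _)) (U e)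
    (fun a x (hx : φ e x = x) => show φ e (φ a x) = φ a x by
      rw [← MulAut.mul_apply, ← map_mul, ← mem_centralizer_singleton_iff.1 a.2, map_mul,
        MulAut.mul_apply, hx])
    (fun h => h6 (by rwa [h, card_bot, index_eq_one, ← h] at h5)) h6
  rw [← hn, ← (U e).card_mul_index]
  rw [h5] at h10 h12 ⊢
  rcases h9.eq_or_lt with h9 | h9
  · have h13 := (centralizer {e}).card_mul_index
    have h14 := (frattini P).card_mul_index
    have h15 : 2 ≤ Nat.card (frattini P) := (one_lt_card_iff_ne_bot _).2 fun h =>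
      hez (mem_center_iff.2 fun g => commutatorElement_eq_one_iff_mul_comm.1 (mem_bot.1
        (h.le (commutator_le_frattini_of_isPGroup hP
          (commutator_mem_commutator (mem_top g) (mem_top e))))))
    have := h10 h9.symm h9.symm
    rw [← h9]
    nlinarith
  · have h13 := idx_sub hP (centralizer {e})
    have := h11 h9
    have := h12 h9
    rw [hidx] at h13
    nlinarith

/-- Let G be a finite group that is the semidirect product of a normal abelian subgroup N of odd order by a 2-subgroup P, and suppose N is the unique minimal normal subgroup of G. Then the index of the Frattini subgroup of P in P is at most #N − 1. -/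
theorem result {G : Type*} [Group G] [Finite G] (N P : Subgroup G) (hN : N.Normal) (hNab : IsMulCommutative ↥N) (hNodd : Odd (Nat.card ↥N)) (hP : IsPGroup 2 ↥P) (hdisj : N ⊓ P = ⊥) (hprod : N ⊔ P = ⊤) (hmin : N ≠ ⊥ ∧ ∀ M : Subgroup G, M.Normal → M ≠ ⊥ → N ≤ M) : (frattini ↥P).index ≤ Nat.card ↥N - 1 := by
  open scoped IsMulCommutative in
  have hφ : Function.Injective ((MulAut.conjNormal : G →* MulAut N).comp P.subtype) := by
    rw [injective_iff_map_eq_one]
    intro a ha
    by_contra h1
    have hn : (P ⊓ centralizer (N : Set G)).Normal := by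
      rw [← normalizer_eq_top_iff, eq_top_iff, ← hprod]
      exact sup_le ((le_centralizer_iff.1 inf_le_right).trans (centralizer_le_normalizer _))
        ((le_inf le_normalizer le_normalizer_of_normal).trans
          inf_normalizer_le_normalizer_inf)
    have h2 := hmin.2 _ hn fun h => h1 (Subtype.ext (mem_bot.1 (h.le ⟨a.2, fun x hx =>
      (mul_inv_eq_iff_eq_mul.1 (congrArg Subtype.val (DFunLike.congr_fun ha (⟨x, hx⟩ : N)))).symm⟩)))
    exact hmin.1 (hdisj ▸ (inf_eq_left.2 (h2.trans inf_le_left)).symm)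
  have h3 := three_le hNodd (by rw [Ne, card_eq_one]; exact hmin.1)
  rcases h3.eq_or_lt with h | h
  · rw [← h]
    exact (idx_le_card _).trans (card_le_two _ hφ h.symm)
  · open scoped IsMulCommutative in
    have := main _ P N hP hNodd _ hφ rfl h
    omega

end Cfsg.Agent.S4188
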