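import Cfsg.Statements.S4189
import Cfsg.Agent.Trans.MaxClassTwo
import Cfsg.Agent.Solv.AutP

set_option autoImplicit false
open Cfsg

namespace Cfsg.Agent.S4189

open Subgroup Cfsg.Lib.Solv.PG Cfsg.Lib.Trans

/-- Let P be a finite non-abelian 2-group whose commutator subgroup has index 4 and whose automorphism group is not a 2-group (some automorphism has order that is not a power of 2). Then P is isomorphic to the quaternion group of order 8. -/
theorem result {P : Type*} [Group P] [Finite P] (hP : IsPGroup 2 P) (hna : ¬ IsMulCommutative P) (h4 : (commutator P).index = 4) (haut : ¬ IsPGroup 2 (MulAut P)) : Nonempty (P ≃* QuaternionGroup 2) := by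
  obtain ⟨n, hn⟩ := hP.exists_card_eq
  have h1 : 2 ^ 2 ∣ 2 ^ n := by rw [← hn, show 2 ^ 2 = 4 from rfl, ← h4]; exact index_dvd_card _
  rw [Nat.pow_dvd_pow_iff_le_right (by norm_num)] at h1
  rcases h1.eq_or_lt with rfl | h1
  · exact absurd ⟨⟨(IsPGroup.commGroupOfCardEqPrimeSq hn).mul_comm⟩⟩ hna
  obtain ⟨m, rfl⟩ : ∃ m, n = m + 3 := ⟨n - 3, by omega⟩
  obtain ⟨a, b, ha, hb, h⟩ := generators_of_commutator_index hn h4
  have hi : (zpowers a).index = 2 :=
    index_eq_of_card_eq_mul (by rw [hn, Nat.card_zpowers, ha]; ring)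
  have key : ∀ k : ℕ, ¬ 4 * 2 ^ m ∣ k → (∀ i : ℤ, (a ^ i * b) ^ k = 1) → False := fun k hk hx =>
    haut (isPGroup_mulAut_of_cyclic_index_two (m := m + 2) (by rw [ha]; ring) hi
      (aut_apply_mem_zpowers_of_pow (n := k) (by rwa [Ne, ← orderOf_dvd_iff_pow_eq_one, ha])
        fun x hx' => by
          obtain ⟨i, rfl⟩ := exists_zpow_mul_eq_of_index_two hi hb hx'
          exact hx i))
  have hpos : 1 ≤ 2 ^ m := Nat.one_le_two_pow
  have h8 : 1 ≤ m → ¬ 4 * 2 ^ m ∣ 2 * 2 := fun hm hd => by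
    have := Nat.le_of_dvd (by norm_num) hd
    have : 2 ^ 1 ≤ 2 ^ m := Nat.pow_le_pow_right (by norm_num) hm
    omega
  have ho : ∀ j : ℤ, a ^ (j * (4 * 2 ^ m)) = 1 := fun j => by
    rw [← orderOf_dvd_iff_zpow_eq_one, ha]; push_cast; exact Dvd.intro_left _ rfl
  rcases h with ⟨h1, h2⟩ | ⟨h1, h2⟩ | ⟨hm, h1, h2⟩
  · refine (key 2 (fun hd => ?_) fun i => ?_).elim
    · have := Nat.le_of_dvd (by norm_num) hd
      omega
    · rw [zpow_mul_sq_of_conj_eq (k := -1) (j := 0) (by simpa using h2) (by simpa using h1)]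
      simp
  · rcases Nat.eq_zero_or_pos m with rfl | hm
    · exact nonempty_mulEquiv_quaternion a b (by rw [ha]; rfl) hb h2 (by rw [← sq, h1]; rfl)
        (by rw [hn]; rfl)
    · refine (key (2 * 2) (h8 hm) fun i => ?_).elim
      rw [pow_mul, zpow_mul_sq_of_conj_eq (k := -1) (j := 2 * 2 ^ m) (by simpa using h2)
        (by rw [h1, ← zpow_natCast]; push_cast; rfl), ← zpow_natCast, ← zpow_mul, ← ho 1]
      congr 1; push_cast; ring
  · refine (key (2 * 2) (h8 hm) fun i => ?_).elim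
    rw [pow_mul, zpow_mul_sq_of_conj_eq (j := 0) h2 (by simpa using h1), ← zpow_natCast,
      ← zpow_mul, ← ho i]
    congr 1; push_cast; ring

end Cfsg.Agent.S4189
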