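import Cfsg.Statements.S4196
import Cfsg.Agent.Solv.RealElements

set_option autoImplicit false
open Cfsg

namespace Cfsg.Agent.S4196

open Cfsg.Lib.Solv Cfsg.Lib.Solv.Real

/-- A finite group G has elementary abelian Sylow 2-subgroups (commutative with every element squaring to the identity) if and only if every 2-element of G has a Sylow 2-subgroup in its centralizer and is conjugate to its inverse. -/
theorem result {G : Type*} [Group G] [Finite G] (P : Sylow 2 G) :
    (IsMulCommutative (P : Subgroup G) ∧ ∀ x ∈ (P : Subgroup G), x ^ 2 = 1) ↔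
      ∀ x : G, (∃ k : ℕ, orderOf x = 2 ^ k) → (∃ Q : Sylow 2 G, (Q : Subgroup G) ≤ Subgroup.centralizer ({x} : Set G)) ∧ IsConj x x⁻¹ := by
    constructor
    · rintro ⟨h1, h2⟩ x ⟨k, hk⟩
      obtain ⟨Q, hQ⟩ := ClassSize.exists_sylow_mem_of_pow_eq_one (p := 2) (k := k) (x := x)
        (by rw [← hk, pow_orderOf_eq_one])
      obtain ⟨g, rfl⟩ := MulAction.exists_smul_eq G P Q
      have h3 : ∀ y ∈ ((g • P : Sylow 2 G) : Subgroup G), y ^ 2 = 1 := by
        intro y hy
        rw [coe_sylow_smul, mem_conj_smul_iff_exists] at hy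
        obtain ⟨z, hz, rfl⟩ := hy
        rw [conj_pow, h2 z hz, mul_one, mul_inv_cancel]
      refine ⟨⟨g • P, fun y hy => ClassSize.mem_cent.2 (mul_comm_of_forall_sq_eq_one h3 hy hQ)⟩, ?_⟩
      rw [show x⁻¹ = x by rw [inv_eq_iff_mul_eq_one, ← sq, h3 x hQ]]
    · intro h
      have h2 : ∀ x ∈ (P : Subgroup G), x ^ 2 = 1 := by
        intro x hx
        obtain ⟨⟨Q, hQ⟩, hr⟩ := h x (exists_orderOf_eq_pow_of_mem P.isPGroup' hx)
        exact sq_eq_one_of_sylow_le hr Q hQ
      exact ⟨⟨⟨fun a b => Subtype.ext (mul_comm_of_forall_sq_eq_one h2 a.2 b.2)⟩⟩, h2⟩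

end Cfsg.Agent.S4196
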