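import Cfsg.Statements.S4211
import Cfsg.Agent.Solv.ElemAb
import Cfsg.Agent.Solv.CyclicP
import Cfsg.Agent.Solv.Quaternion
import Cfsg.Agent.Trans.ClassTwo

set_option autoImplicit false
open Cfsg

namespace Cfsg.Agent.S4211


open Cfsg.Lib.Solv Cfsg.Lib.Trans Subgroup
open scoped commutatorElement

section
variable {G : Type*} [Group G] [Finite G]

theorem eq_of_mem_zpowers_two {c u : G} (hc : c ^ 2 = 1) (hu : u ∈ zpowers c) (h1 : u ≠ 1) :
    u = c := by
  obtain ⟨j, rfl⟩ := PG.exists_pow_eq_of_mem_zpowers hu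
  rcases Nat.even_or_odd' j with ⟨i, rfl | rfl⟩
  · exact absurd (by rw [pow_mul, hc, one_pow]) h1
  · rw [pow_succ, pow_mul, hc, one_pow, one_mul]

theorem cases_of_mem_zpowers_four {x u : G} (hx : x ^ 4 = 1) (hu : u ∈ zpowers x) :
    u = 1 ∨ u = x ∨ u = x ^ 2 ∨ u = x ^ 3 := by
  obtain ⟨j, rfl⟩ := PG.exists_pow_eq_of_mem_zpowers hu
  rw [pow_eq_pow_mod j hx]
  have : j % 4 < 4 := Nat.mod_lt j (by norm_num)
  interval_cases j % 4 <;> simp

variable (hn : ∀ H : Subgroup G, H.Normal)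
include hn

omit [Finite G] in
theorem comm_mem_left (u v : G) : ⁅u, v⁆ ∈ zpowers u := by
  simpa only [commutatorElement_def, mul_assoc] using
    (zpowers u).mul_mem (mem_zpowers u) ((hn _).conj_mem _ (inv_mem (mem_zpowers u)) v)

omit [Finite G] in
theorem comm_mem_right (u v : G) : ⁅u, v⁆ ∈ zpowers v := by
  rw [← commutatorElement_inv]
  exact inv_mem (comm_mem_left hn v u)

omit [Finite G] hn in
theorem commute_of_mem {u c : G} (h : c ∈ zpowers u) : Commute c u := by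
  obtain ⟨k, rfl⟩ := h
  exact (Commute.refl u).zpow_left k

theorem exists_q8_aux {H : Subgroup G} {x y : G} (hx : x ∈ H) (hy : y ∈ H) (hxy : ¬ Commute y x)
    (hle : orderOf y ≤ orderOf x)
    (hmin : ∀ u ∈ H, ∀ v ∈ H, orderOf u + orderOf v < orderOf x + orderOf y → Commute u v) :
    orderOf x = 4 ∧ y * y = x ^ 2 ∧ y * x * y⁻¹ = x⁻¹ := by
  set c := ⁅y, x⁆ with hc
  have hc1 : c ≠ 1 := fun h => hxy (commutatorElement_eq_one_iff_commute.mp h)
  have hcx := comm_mem_right hn y x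
  have hcy := comm_mem_left hn y x
  have hlt : ∀ (u : G) (q : ℕ), q.Prime → q ∣ orderOf u → orderOf (u ^ q) < orderOf u := by
    intro u q hq h
    rw [orderOf_pow_of_dvd hq.ne_zero h]
    exact Nat.div_lt_self (orderOf_pos u) hq.one_lt
  have h1 : ∀ q : ℕ, q.Prime → q ∣ orderOf x → q = orderOf c := fun q hq h => by
    have := Fact.mk hq
    refine (orderOf_eq_prime ?_ hc1).symm
    rw [hc, ← commutatorElement_pow_right_of_commute (commute_of_mem hcx),
      commutatorElement_eq_one_iff_commute]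
    exact hmin y hy _ (pow_mem hx q) (by have := hlt x q hq h; omega)
  have h2 : ∀ q : ℕ, q.Prime → q ∣ orderOf y → q = orderOf c := fun q hq h => by
    have := Fact.mk hq
    refine (orderOf_eq_prime ?_ hc1).symm
    rw [hc, ← commutatorElement_pow_left_of_commute (commute_of_mem hcy),
      commutatorElement_eq_one_iff_commute]
    exact hmin _ (pow_mem hy q) x hx (by have := hlt y q hq h; omega)
  have hy1 : orderOf y ≠ 1 := fun h => hxy (orderOf_eq_one_iff.mp h ▸ Commute.one_left x)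
  obtain ⟨p, hp, hpy⟩ := Nat.exists_prime_and_dvd hy1
  have hpc := (h2 p hp hpy).symm
  rw [hpc] at h1 h2
  obtain ⟨m, hm⟩ : ∃ m, orderOf x = p ^ m :=
    ⟨_, Nat.eq_prime_pow_of_unique_prime_dvd (orderOf_pos x).ne' fun {q} => h1 q⟩
  obtain ⟨n, hnn⟩ : ∃ n, orderOf y = p ^ n :=
    ⟨_, Nat.eq_prime_pow_of_unique_prime_dvd (orderOf_pos y).ne' fun {q} => h2 q⟩
  have hn1 : 1 ≤ n := Nat.pos_of_ne_zero fun h => hy1 (by rw [hnn, h, pow_zero])
  have hnm : n ≤ m := by rwa [hm, hnn, Nat.pow_le_pow_iff_right hp.one_lt] at hle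
  have h3 : y ^ p ^ (n - 1) ∈ zpowers c := by
    refine PG.mem_of_pow_card_eq_one (A := zpowers y) (zpowers_le.mpr hcy)
      (pow_mem (mem_zpowers y) _) ?_
    rw [Nat.card_zpowers, hpc, ← pow_mul, ← pow_succ, Nat.sub_add_cancel hn1, ← hnn,
      pow_orderOf_eq_one]
  have h4 : (y ^ p ^ (n - 1))⁻¹ ∈ zpowers (x ^ p ^ (m - 1)) := by
    refine inv_mem (PG.mem_of_pow_card_eq_one (A := zpowers x)
      (zpowers_le.mpr (pow_mem (mem_zpowers x) _)) (zpowers_le.mpr hcx h3) ?_)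
    rw [Nat.card_zpowers, PG.orderOf_pow_prime_pow hp hm (Nat.sub_le m 1), ← pow_mul,
      ← pow_add, ← orderOf_dvd_iff_pow_eq_one, hnn]
    exact pow_dvd_pow p (by omega)
  obtain ⟨j, hj⟩ := PG.exists_pow_eq_of_mem_zpowers h4
  set k := p ^ (m - n) * j with hk
  have h5 : (x ^ k) ^ p ^ (n - 1) = (y ^ p ^ (n - 1))⁻¹ := by
    rw [hj, ← pow_mul, ← pow_mul, hk, mul_right_comm, ← pow_add]
    congr 3
    omega
  have h6 : (x ^ k * y) ^ p ^ (n - 1) = c ^ (k * (p ^ (n - 1)).choose 2) := by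
    rw [mul_pow_of_commute_commutator (commute_of_mem (comm_mem_right hn _ _))
      (commute_of_mem (comm_mem_left hn _ _)), h5, inv_mul_cancel, one_mul,
      commutatorElement_pow_right_of_commute (commute_of_mem hcx), pow_mul c k]
  have h7 : ¬ p ∣ k * (p ^ (n - 1)).choose 2 := fun h => by
    replace h := orderOf_dvd_iff_pow_eq_one.mp (hpc.dvd.trans h)
    rw [← h6] at h
    have h8 := orderOf_le_of_pow_eq_one (pow_pos hp.pos _) h
    have h9 : p ^ (n - 1) < p ^ n := Nat.pow_lt_pow_right hp.one_lt (by omega)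
    have h10 := hmin x hx _ (mul_mem (pow_mem hx k) hy) (by omega)
    have h11 := ((Commute.refl x).pow_right k).inv_right.mul_right h10
    rw [inv_mul_cancel_left] at h11
    exact hxy h11.symm
  have h8 : 2 = p ^ (n - 1) := by
    by_contra h
    exact h7 ((hp.dvd_choose_pow two_ne_zero h).mul_left k)
  have h9 : m = n := by
    by_contra h
    exact h7 (((dvd_pow_self p (by omega)).mul_right j).mul_right _)
  obtain ⟨rfl, h10⟩ := (Nat.Prime.pow_eq_iff Nat.prime_two).mp h8.symm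
  obtain rfl : n = 2 := by omega
  subst h9
  have hc2 : c ^ 2 = 1 := hpc ▸ pow_orderOf_eq_one c
  have h11 : y ^ 2 = c := eq_of_mem_zpowers_two hc2 h3 (pow_ne_one_of_lt_orderOf two_ne_zero
    (by rw [hnn]; norm_num))
  have h12 : x ^ 2 = c := by
    refine eq_of_mem_zpowers_two hc2 (PG.mem_of_pow_card_eq_one (A := zpowers x)
      (zpowers_le.mpr hcx) (pow_mem (mem_zpowers x) _) ?_)
      (pow_ne_one_of_lt_orderOf two_ne_zero (by rw [hm]; norm_num))
    rw [Nat.card_zpowers, hpc, ← pow_mul, ← sq, ← hm, pow_orderOf_eq_one]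
  refine ⟨hm, by rw [← sq, h11, h12], ?_⟩
  have h13 : x ^ 4 = 1 := orderOf_dvd_iff_pow_eq_one.mp (by rw [hm]; norm_num)
  calc y * x * y⁻¹ = c * x := by rw [hc, commutatorElement_def]; group
    _ = x ^ 4 * x⁻¹ := by rw [← h12]; group
    _ = x⁻¹ := by rw [h13, one_mul]

theorem exists_q8 {H : Subgroup G} {a b : G} (ha : a ∈ H) (hb : b ∈ H) (hab : ¬ Commute a b) :
    ∃ x ∈ H, ∃ y ∈ H, orderOf x = 4 ∧ y * y = x ^ 2 ∧ y * x * y⁻¹ = x⁻¹ := by
  obtain ⟨⟨x, y⟩, ⟨hx, hy, hxy⟩, hmin⟩ := Set.Finite.exists_minimalFor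
    (fun t : G × G => orderOf t.1 + orderOf t.2) {t | t.1 ∈ H ∧ t.2 ∈ H ∧ ¬ Commute t.1 t.2}
    (Set.toFinite _) ⟨(a, b), ha, hb, hab⟩
  have h : ∀ u ∈ H, ∀ v ∈ H, orderOf u + orderOf v < orderOf x + orderOf y → Commute u v := by
    intro u hu v hv h
    by_contra hc
    exact h.not_ge (hmin (j := (u, v)) ⟨hu, hv, hc⟩ h.le)
  rcases le_total (orderOf y) (orderOf x) with h1 | h1
  · exact ⟨x, hx, y, hy, exists_q8_aux hn hx hy (fun h => hxy h.symm) h1 h⟩
  · exact ⟨y, hy, x, hx, exists_q8_aux hn hy hx hxy h1 (by rwa [add_comm (orderOf y)])⟩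

theorem commute_of_odd {u v : G} (hu : Odd (orderOf u)) (hv : Odd (orderOf v)) : Commute u v := by
  by_contra h
  obtain ⟨x, hx, -, -, h1, -⟩ := exists_q8 hn (H := zpowers u ⊔ zpowers v)
    (mem_sup_left (mem_zpowers u)) (mem_sup_right (mem_zpowers v)) h
  have := hn (zpowers u)
  have h2 := PG.card_sup_mul_card_inf (K := zpowers u) (H := zpowers v) le_normalizer_of_normal
  have h3 := (orderOf_dvd_natCard (⟨x, hx⟩ : ↥(zpowers u ⊔ zpowers v))).trans (Dvd.intro _ h2)
  rw [orderOf_mk, h1, Nat.card_zpowers, Nat.card_zpowers] at h3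
  exact absurd ((hu.mul hv).of_dvd_nat h3) (by decide)

theorem mem_center_of_sq {z : G} (hz : z ^ 2 = 1) : z ∈ center G := by
  refine mem_center_iff.mpr fun g => ?_
  by_cases h : z = 1
  · simp [h]
  · rw [← mul_inv_eq_iff_eq_mul]
    exact eq_of_mem_zpowers_two hz ((hn _).conj_mem _ (mem_zpowers z) g) (by simpa using h)

end

/-- A finite non-abelian group in which every subgroup is normal is the internal direct product of a subgroup isomorphic to the quaternion group of order `8`, an elementary abelian `2`-subgroup and an abelian subgroup of odd order. -/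
theorem result {G : Type*} [Group G] [Finite G] (hna : ¬ IsMulCommutative G) (hn : ∀ H : Subgroup G, H.Normal) : ∃ Q E A : Subgroup G, Nonempty (Q ≃* QuaternionGroup 2) ∧ Cfsg.IsElementaryAbelian 2 E ∧ IsMulCommutative A ∧ Odd (Nat.card A) ∧ E ⊓ A = ⊥ ∧ Q ⊓ (E ⊔ A) = ⊥ ∧ Q ⊔ (E ⊔ A) = ⊤ := by
  obtain ⟨a, b, hab⟩ : ∃ a b : G, ¬ Commute a b := by
    by_contra h
    push Not at h
    exact hna ⟨⟨h⟩⟩
  obtain ⟨x, -, y, -, hx, hy, hyx⟩ := exists_q8 hn (mem_top a) (mem_top b) hab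
  have hx4 : x ^ 4 = 1 := hx ▸ pow_orderOf_eq_one x
  have hx2 : x ^ 2 ≠ 1 := pow_ne_one_of_lt_orderOf two_ne_zero (by rw [hx]; norm_num)
  have hnc : y * x ≠ x * y := fun h => hx2 (by
    rw [h, mul_inv_cancel_right] at hyx
    rw [sq]; nth_rewrite 1 [hyx]; exact inv_mul_cancel x)
  have hy2 : y ^ 2 = x ^ 2 := by rw [sq, hy]
  have hy4 : y ^ 4 = 1 := by rw [show 4 = 2 * 2 from rfl, pow_mul, hy2, ← pow_mul, hx4]
  have hxy : x * y * x⁻¹ = y⁻¹ := by
    have h1 : y⁻¹ * x * y = x⁻¹ := by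
      have := congrArg (fun t => y⁻¹ * t⁻¹ * y) hyx
      simp only [inv_inv] at this
      rw [← this]; group
    calc x * y * x⁻¹ = y * (y⁻¹ * x * y) * x⁻¹ := by group
      _ = y * (x ^ 2)⁻¹ := by rw [h1]; group
      _ = y⁻¹ := by rw [← hy2]; group
  have hconj : ∀ u : G, u ^ 4 = 1 → u ^ 2 ≠ 1 → ∀ g : G, g * u * g⁻¹ = u ∨ g * u * g⁻¹ = u⁻¹ := by
    intro u h1 h2 g
    have h3 : (g * u * g⁻¹) ^ 2 ≠ 1 := by rw [conj_pow]; simpa using h2
    rcases cases_of_mem_zpowers_four h1 ((hn _).conj_mem _ (mem_zpowers u) g) with h | h | h | h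
    · exact absurd (by rw [h, one_pow]) h3
    · exact Or.inl h
    · exact absurd (by rw [h, ← pow_mul, h1]) h3
    · exact Or.inr (h.trans (eq_inv_of_mul_eq_one_left (by rw [← pow_succ, h1])))
  set Q := zpowers x ⊔ zpowers y with hQ
  have hxQ : x ∈ Q := mem_sup_left (mem_zpowers x)
  have hyQ : y ∈ Q := mem_sup_right (mem_zpowers y)
  let E₀ : Subgroup G :=
    { carrier := {z | z ^ 2 = 1}
      one_mem' := one_pow 2
      mul_mem' := fun {u v} (hu : u ^ 2 = 1) (hv : v ^ 2 = 1) => show (u * v) ^ 2 = 1 by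
        rw [Commute.mul_pow (mem_center_iff.mp (mem_center_of_sq hn hv) u), hu, hv, one_mul]
      inv_mem' := fun {u} (hu : u ^ 2 = 1) => show u⁻¹ ^ 2 = 1 by rw [inv_pow, hu, inv_one] }
  have hE₀ : ElemAb 2 E₀ := ⟨fun u v => Subtype.ext (mem_center_iff.mp (mem_center_of_sq hn v.2) u),
    fun u => Subtype.ext u.2⟩
  obtain ⟨E, hE1, hE2, hE3⟩ := ElemAb.exists_complement_of_le 2 (V := E₀) (U := zpowers (x ^ 2))
    (zpowers_le.mpr (show (x ^ 2) ^ 2 = 1 by rw [← pow_mul, hx4]))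
  let A : Subgroup G :=
    { carrier := {z | Odd (orderOf z)}
      one_mem' := show Odd (orderOf 1) by rw [orderOf_one]; exact odd_one
      mul_mem' := fun {u v} (hu : Odd (orderOf u)) (hv : Odd (orderOf v)) =>
        (hu.mul hv).of_dvd_nat (commute_of_odd hn hu hv).orderOf_mul_dvd_mul_orderOf
      inv_mem' := fun {u} (hu : Odd (orderOf u)) => show Odd (orderOf u⁻¹) by rwa [orderOf_inv] }
  have hA1 : ∀ u ∈ A, u ^ 8 = 1 → u = 1 := fun u hu h =>
    orderOf_eq_one_iff.mp (Nat.Coprime.eq_one_of_dvd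
      ((Odd.coprime_two_right hu).pow_right 3) (orderOf_dvd_of_pow_eq_one h))
  have hC : ∀ z : G, z * x = x * z → z * y = y * z → z ∈ Q ⊔ (E ⊔ A) := by
    intro z h1 h2
    have h4 : ¬ 4 ∣ orderOf z := by
      rintro ⟨k, hk⟩
      have hk0 : k ≠ 0 := by
        rintro rfl
        exact (orderOf_pos z).ne' hk
      have hw : orderOf (z ^ k) = 4 := by
        rw [orderOf_pow_of_dvd hk0 (Dvd.intro_left 4 hk.symm), hk, Nat.mul_div_cancel _ (by omega)]
      set w := z ^ k
      have hw4 : w ^ 4 = 1 := hw ▸ pow_orderOf_eq_one w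
      have hw2 : w ^ 2 ≠ 1 := pow_ne_one_of_lt_orderOf two_ne_zero (by rw [hw]; norm_num)
      have hwx : Commute x w := (Commute.pow_left h1 k).symm
      have hwy : Commute y w := (Commute.pow_left h2 k).symm
      have h5 : y * (x * w) * y⁻¹ = x⁻¹ * w := by
        rw [← hyx, mul_assoc _ y⁻¹, hwy.inv_left.eq]; group
      have hne : w ≠ x := fun h => hnc (h ▸ hwy.eq)
      have h6 := (hn _).conj_mem _ (mem_zpowers (x * w)) y
      rw [h5] at h6
      rcases cases_of_mem_zpowers_four (by rw [hwx.mul_pow, hx4, hw4, one_mul]) h6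
        with h | h | h | h
      · exact hne (inv_mul_eq_one.mp h).symm
      · exact hx2 (by rw [sq]; nth_rewrite 1 [← mul_right_cancel h]; exact inv_mul_cancel x)
      · rw [hwx.mul_pow, sq w, ← mul_assoc] at h
        apply hne
        calc w = x ^ 4 * w := by rw [hx4, one_mul]
          _ = x ^ 2 * (x ^ 2 * w) := by group
          _ = x := by rw [← mul_right_cancel h]; group
      · rw [hwx.mul_pow, show x ^ 3 = x⁻¹ from eq_inv_of_mul_eq_one_left (by rw [← pow_succ, hx4]),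
          pow_succ w 2] at h
        exact hw2 (mul_eq_right.mp (mul_left_cancel h).symm)
    have h5 : Odd (orderOf (z ^ 2)) := by
      rw [orderOf_pow]
      rcases Nat.even_or_odd' (orderOf z) with ⟨k, hk | hk⟩
      · rw [hk, Nat.gcd_mul_right_left, Nat.mul_div_cancel_left _ two_pos]
        rw [hk] at h4
        rcases Nat.even_or_odd k with ⟨j, rfl⟩ | h
        · exact absurd ⟨j, by ring⟩ h4
        · exact h
      · exact (show Odd (orderOf z) from ⟨k, hk⟩).of_dvd_nat (Nat.div_dvd_of_dvd (Nat.gcd_dvd_left _ _))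
    obtain ⟨t, ht⟩ := h5
    have h6 : z ^ (2 * t + 1) ∈ E₀ := show _ = _ by
      rw [← pow_mul, mul_comm, pow_mul, ← ht, pow_orderOf_eq_one]
    have h7 : E₀ ≤ Q ⊔ (E ⊔ A) :=
      hE3 ▸ sup_le_sup (zpowers_le.mpr (pow_mem hxQ 2)) le_sup_left
    have h8 : z ^ 2 ∈ Q ⊔ (E ⊔ A) := mem_sup_right (mem_sup_right (show Odd _ from ⟨t, ht⟩))
    have h9 := h7 h6
    rwa [pow_succ, pow_mul, mul_mem_cancel_left (pow_mem h8 t)] at h9
  refine ⟨Q, E, A, PG.nonempty_sup_mulEquiv_quaternionGroup (n := 2) hx hy hyx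
    (fun h => hnc (commute_of_mem h).eq), (ElemAb.of_le hE1).isElementaryAbelian 2 E,
    ⟨⟨fun u v => Subtype.ext (commute_of_odd hn u.2 v.2).eq⟩⟩, ?_, ?_, ?_, ?_⟩
  · by_contra h
    obtain ⟨u, hu⟩ := exists_prime_orderOf_dvd_card' (G := A) 2
      (even_iff_two_dvd.mp (Nat.not_odd_iff_even.mp h))
    have h1 : Odd (orderOf (u : G)) := u.2
    rw [orderOf_coe, hu] at h1
    exact absurd h1 (by decide)
  · refine eq_bot_iff.mpr fun u hu => mem_bot.mpr (hA1 u hu.2 ?_)
    rw [show 8 = 2 * 4 from rfl, pow_mul, show u ^ 2 = 1 from hE1 hu.1, one_pow]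
  · refine eq_bot_iff.mpr fun w hw => ?_
    have := hn A
    have := hn (zpowers x)
    obtain ⟨e, he, u, hu, rfl⟩ := mem_sup_of_normal_right.mp hw.2
    have he2 : e ^ 2 = 1 := hE1 he
    have hc := mem_center_iff.mp (mem_center_of_sq hn he2)
    have h1 : Nat.card Q = 8 := by
      rw [hQ, PG.card_sup_zpowers Nat.prime_two (le_normalizer_of_normal (mem_top y))
        (fun h => hnc (commute_of_mem h).eq) (hy2 ▸ pow_mem (mem_zpowers x) 2), Nat.card_zpowers, hx]
    have h2 := PG.pow_card_eq_one_of_mem hw.1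
    rw [h1, Commute.mul_pow (hc u).symm, show 8 = 2 * 4 from rfl, pow_mul, he2, one_pow,
      one_mul] at h2
    obtain rfl := hA1 u hu h2
    rw [mul_one] at hw ⊢
    have h3 : e ∈ zpowers x := by
      by_contra h3
      have h4 := PG.sup_zpowers_eq_of_card_eq_prime_mul Nat.prime_two
        (le_sup_left : zpowers x ≤ Q) (by rw [h1, Nat.card_zpowers, hx]) hw.1 h3
      have h5 := PG.isMulCommutative_sup_zpowers (A := zpowers x) (x := e)
        (fun g _ => hc g)
      rw [h4] at h5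
      exact hnc (PG.mul_comm_of_mem hyQ hxQ)
    rw [← hE2]
    refine ⟨PG.mem_of_pow_card_eq_one (A := zpowers x) (zpowers_le.mpr (pow_mem (mem_zpowers x) 2))
      h3 ?_, he⟩
    rw [Nat.card_zpowers, orderOf_pow_of_dvd two_ne_zero (by rw [hx]; norm_num), hx, he2]
  · refine eq_top_iff.mpr fun g _ => ?_
    have key : ∀ q ∈ Q, g * x * g⁻¹ = q * x * q⁻¹ → g * y * g⁻¹ = q * y * q⁻¹ →
        g ∈ Q ⊔ (E ⊔ A) := by
      intro q hq h1 h2
      have h3 := hC (q⁻¹ * g) (by
        calc q⁻¹ * g * x = q⁻¹ * (g * x * g⁻¹) * g := by group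
          _ = _ := by rw [h1]; group) (by
        calc q⁻¹ * g * y = q⁻¹ * (g * y * g⁻¹) * g := by group
          _ = _ := by rw [h2]; group)
      rwa [mul_mem_cancel_left (inv_mem (mem_sup_left hq))] at h3
    rcases hconj x hx4 hx2 g with h1 | h1 <;> rcases hconj y hy4 (hy2 ▸ hx2) g with h2 | h2
    · exact key 1 (one_mem _) (by simpa using h1) (by simpa using h2)
    · exact key x hxQ (by simpa using h1) (h2.trans hxy.symm)
    · exact key y hyQ (h1.trans hyx.symm) (by simpa using h2)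
    · refine key (x * y) (mul_mem hxQ hyQ) (h1.trans ?_) (h2.trans ?_)
      · calc x⁻¹ = x * x⁻¹ * x⁻¹ := by group
          _ = x * (y * x * y⁻¹) * x⁻¹ := by rw [hyx]
          _ = _ := by group
      · rw [← hxy]; group

end Cfsg.Agent.S4211
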