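import Cfsg.Statements.S4230
-- import your own Cfsg.Agent.* helpers here

set_option autoImplicit false
open Cfsg

namespace Cfsg.Agent.S4230

/-- Let p be an odd prime, q a natural number not divisible by p, and e the multiplicative order of q modulo p. For a natural number f, p divides the value at q of the f-th cyclotomic polynomial if and only if f = e·p^j for some j ≥ 0. -/
theorem result (p q f : ℕ) (hp : p.Prime) (hp2 : p ≠ 2) (hpq : ¬ p ∣ q) :
    ((p : ℤ) ∣ (Polynomial.cyclotomic f ℤ).eval (q : ℤ)) ↔ ∃ j : ℕ, f = orderOf (q : ZMod p) * p ^ j := by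
  have := Fact.mk hp
  have hq : (q : ZMod p) ≠ 0 := by rwa [Ne, ZMod.natCast_eq_zero_iff]
  have he := ZMod.orderOf_dvd_card_sub_one hq
  have hep : ¬ p ∣ orderOf (q : ZMod p) := by
    intro h
    have := Nat.le_of_dvd (by have := hp.two_le; omega) (h.trans he)
    have := hp.two_le
    omega
  rcases eq_or_ne f 0 with rfl | hf
  · simp only [Polynomial.cyclotomic_zero, Polynomial.eval_one]
    constructor
    · intro h
      exact absurd (Int.natCast_dvd_natCast.mp h) (by simpa using hp.one_lt.ne')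
    · rintro ⟨j, hj⟩
      rcases mul_eq_zero.mp hj.symm with h | h
      · exact absurd (h ▸ dvd_zero p) hep
      · exact absurd h (pow_ne_zero _ hp.ne_zero)
  have h1 : ((p : ℤ) ∣ (Polynomial.cyclotomic f ℤ).eval (q : ℤ)) ↔
      (Polynomial.cyclotomic f (ZMod p)).IsRoot (q : ZMod p) := by
    rw [← ZMod.intCast_zmod_eq_zero_iff_dvd, Polynomial.IsRoot.def,
      ← Polynomial.map_cyclotomic_int f (ZMod p), ← Int.cast_natCast (R := ZMod p), ← eq_intCast (Int.castRingHom (ZMod p)) (q : ℤ),
      Polynomial.eval_map_apply, eq_intCast]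
  obtain ⟨k, m, hm, rfl⟩ := Nat.exists_eq_pow_mul_and_not_dvd hf p hp.ne_one
  have : NeZero (m : ZMod p) := ⟨by rwa [Ne, ZMod.natCast_eq_zero_iff]⟩
  rw [h1, Polynomial.isRoot_cyclotomic_prime_pow_mul_iff_of_charP]
  constructor
  · intro h
    exact ⟨k, by rw [← h.eq_orderOf, mul_comm]⟩
  · rintro ⟨j, hj⟩
    have h2 : m = orderOf (q : ZMod p) := by
      apply Nat.dvd_antisymm
      · exact ((Nat.Prime.coprime_iff_not_dvd hp).mpr hm).symm.pow_right j |>.dvd_of_dvd_mul_right
          (hj ▸ dvd_mul_left m _)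
      · exact ((Nat.Prime.coprime_iff_not_dvd hp).mpr hep).symm.pow_right k |>.dvd_of_dvd_mul_left
          (hj ▸ dvd_mul_right _ _)
    rw [h2]
    exact IsPrimitiveRoot.orderOf _

end Cfsg.Agent.S4230
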