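import Cfsg.Statements.S4234
import Cfsg.Agent.Known.SmallSimple
import Cfsg.Agent.Known.SylowCount
import Cfsg.Agent.Known.PSL2Basic
import Cfsg.Agent.Class.SL2Dickson

set_option autoImplicit false
open Cfsg

namespace Cfsg.Agent.S4234

open Subgroup Cfsg.Lib.Known Cfsg.Lib.Known.SC Cfsg.Lib.Known.GL2
open scoped commutatorElement

theorem le_norm_of_card {G : Type*} [Group G] [Finite G] {H K : Subgroup G} (h : H ≤ K)
    (h2 : Nat.card K ≤ 2 * Nat.card H) : K ≤ normalizer (H : Set G) := by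
  have h3 := card_inf_mul_relIndex H K
  rw [inf_eq_left.2 h] at h3
  have h4 : 0 < Nat.card H := Nat.card_pos
  have h5 : 0 < Nat.card K := Nat.card_pos
  have h6 : H.relIndex K = 1 ∨ H.relIndex K = 2 := by
    rcases hr : H.relIndex K with _ | _ | _ | n <;> rw [hr] at h3 <;> first | omega | nlinarith
  rcases h6 with h6 | h6
  · exact (relIndex_eq_one.1 h6).trans le_normalizer
  · exact (normal_subgroupOf_iff_le_normalizer h).1 (normal_of_index_eq_two h6)

section
variable {G : Type*} [Group G] [Finite G] [IsSimpleGroup G] (hc : Nat.card G = 1092)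
include hc

theorem le84 {M : Subgroup G} (hM : M ≠ ⊤) : Nat.card M ≤ 84 := by
  have h1 : M.normalCore = ⊥ := (IsSimpleGroup.eq_bot_or_eq_top_of_normal _ inferInstance).resolve_right
    fun e => hM (top_le_iff.1 (e ▸ M.normalCore_le))
  have h2 : Nat.card G ∣ M.index.factorial := by
    have := Subgroup.card_dvd_of_injective (MulAction.toPermHom G (G ⧸ M))
      (by rwa [← MonoidHom.ker_eq_bot_iff, ← normalCore_eq_ker])
    rwa [Nat.card_perm] at this
  have h3 : 13 ≤ M.index := (Nat.Prime.dvd_factorial (by norm_num)).1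
    (Dvd.dvd.trans (by rw [hc]; norm_num) h2)
  have := M.card_mul_index
  nlinarith

omit [IsSimpleGroup G] in
theorem syl (p k m : ℕ) [Fact p.Prime] (e : 1092 = p ^ k * m) (hm : ¬ p ∣ m) {H : Subgroup G}
    (hH : Nat.card H = p ^ k) : ∃ P : Sylow p G, (P : Subgroup G) = H := by
  obtain ⟨P, hP⟩ := (IsPGroup.of_card hH).exists_le_sylow
  exact ⟨P, (eq_of_le_of_card_ge hP (by rw [hH, sylow_card_eq_pow P (hc.trans e) hm])).symm⟩

omit [IsSimpleGroup G] in
theorem key (p k m : ℕ) [Fact p.Prime] (e : 1092 = p ^ k * m) (hm : ¬ p ∣ m) {H K : Subgroup G}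
    (hH : Nat.card H = p ^ k) (hK : H ≤ K) : ∃ a b : ℕ,
      Nat.card ↥(normalizer (H : Set G) ⊓ K) = p ^ k * a ∧ p ^ k * a * b = Nat.card K ∧
        b % p = 1 % p := by
  obtain ⟨P, rfl⟩ := syl hc p k m e hm hH
  obtain ⟨a, ha⟩ := card_dvd_of_le (le_inf (le_normalizer (H := (P : Subgroup G))) hK)
  exact ⟨a, _, hH ▸ ha, by rw [← hH, ← ha, card_inf_mul_relIndex], relIndex_normalizer_modEq P hK⟩

theorem norm_ne {H : Subgroup G} (h1 : H ≠ ⊥) (h2 : H ≠ ⊤) : normalizer (H : Set G) ≠ ⊤ :=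
  fun e => (IsSimpleGroup.eq_bot_or_eq_top_of_normal H (normalizer_eq_top_iff.1 e)).elim h1 h2

theorem norm_ne' {H : Subgroup G} (h1 : Nat.card H ≠ 1) (h2 : Nat.card H ≠ 1092) :
    normalizer (H : Set G) ≠ ⊤ :=
  norm_ne hc (fun e => h1 (by rw [e, card_bot])) fun e => h2 (by rw [e, card_top, hc])

theorem card_norm (p m : ℕ) [Fact p.Prime] (hp : p = 7 ∧ m = 14 ∨ p = 13 ∧ m = 78)
    {H : Subgroup G} (hH : Nat.card H = p) : Nat.card (normalizer (H : Set G)) = m := by
  have h1 := le84 hc (norm_ne' hc (H := H) (by omega) (by omega))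
  obtain ⟨a, b, ha, hb, h⟩ := key hc p 1 (1092 / p) (by rcases hp with ⟨rfl, -⟩ | ⟨rfl, -⟩ <;> rfl)
    (by rcases hp with ⟨rfl, -⟩ | ⟨rfl, -⟩ <;> decide) (hH.trans (pow_one p).symm) le_top
  rw [inf_top_eq] at ha
  rw [card_top, hc] at hb
  rw [ha] at h1 ⊢
  rcases hp with ⟨rfl, rfl⟩ | ⟨rfl, rfl⟩ <;>
  · have : a ≤ 12 := by omega
    interval_cases a <;> omega

theorem le_norm (p : ℕ) [Fact p.Prime] (hp : p = 7 ∨ p = 13) {H M : Subgroup G}
    (hH : Nat.card H = p) (hM : M ≠ ⊤) (h : H ≤ M) : M ≤ normalizer (H : Set G) := by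
  have h1 := le84 hc hM
  have h2 := hc ▸ M.card_subgroup_dvd_card
  obtain ⟨a, b, ha, hb, h3⟩ := key hc p 1 (1092 / p) (by rcases hp with rfl | rfl <;> rfl)
    (by rcases hp with rfl | rfl <;> decide) (hH.trans (pow_one p).symm) h
  have h4 : b = 1 := by
    rw [← hb] at h1 h2
    have h5 := (Dvd.intro_left _ rfl).trans h2
    rcases Nat.eq_zero_or_pos a with rfl | h0
    · simp at h2
    have : b ≤ 12 := by rcases hp with rfl | rfl <;> nlinarith
    rcases hp with rfl | rfl <;> interval_cases b <;> omega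
  exact inf_eq_right.1 (eq_of_le_of_card_ge inf_le_right (by rw [ha, ← hb, h4, mul_one]))

omit [IsSimpleGroup G] hc in
theorem exists_card (p : ℕ) [Fact p.Prime] {M : Subgroup G} (h : p ∣ Nat.card M) :
    ∃ H ≤ M, Nat.card H = p := by
  obtain ⟨x, hx⟩ := exists_prime_orderOf_dvd_card' p h
  exact ⟨zpowers x.1, zpowers_le.2 x.2, by rw [Nat.card_zpowers, Subgroup.orderOf_coe, hx]⟩

theorem dvd_cases {M : Subgroup G} (hM : M ≠ ⊤) :
    Nat.card M ∣ 14 ∨ Nat.card M ∣ 78 ∨ Nat.card M ∣ 12 := by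
  have := Fact.mk (by norm_num : Nat.Prime 7)
  have := Fact.mk (by norm_num : Nat.Prime 13)
  by_cases h7 : 7 ∣ Nat.card M
  · obtain ⟨H, h, hH⟩ := exists_card 7 h7
    exact Or.inl (card_norm hc 7 14 (by simp) hH ▸ card_dvd_of_le (le_norm hc 7 (by simp) hH hM h))
  by_cases h13 : 13 ∣ Nat.card M
  · obtain ⟨H, h, hH⟩ := exists_card 13 h13
    exact Or.inr (Or.inl
      (card_norm hc 13 78 (by simp) hH ▸ card_dvd_of_le (le_norm hc 13 (by simp) hH hM h)))
  refine Or.inr (Or.inr ?_)
  have h1 := le84 hc hM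
  have h2 := hc ▸ M.card_subgroup_dvd_card
  generalize Nat.card M = n at *
  interval_cases n <;> omega

theorem coatom {M : Subgroup G} (hM : M ≠ ⊤)
    (h : 14 ∣ Nat.card M ∨ 78 ∣ Nat.card M ∨ 12 ∣ Nat.card M) : IsCoatom M := by
  refine ⟨hM, fun K hK => by_contra fun hK' => hK.ne (eq_of_le_of_card_ge hK.le ?_)⟩
  have h1 := card_dvd_of_le hK.le
  have h0 : 0 < Nat.card M := Nat.card_pos
  rcases h with h | h | h <;> rcases dvd_cases hc hK' with h2 | h2 | h2 <;>
    first
    | exact (Nat.le_of_dvd (by norm_num) h2).trans (Nat.le_of_dvd h0 h)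
    | exact absurd ((h.trans h1).trans h2) (by norm_num)

theorem three {H : Subgroup G} (hH : Nat.card H = 3) :
    Nat.card (normalizer (H : Set G)) = 12 ∧ Nat.card (centralizer (H : Set G)) = 6 := by
  have := Fact.mk Nat.prime_three
  have h1 := dvd_cases hc (norm_ne' hc (H := H) (by omega) (by omega))
  obtain ⟨a, b, ha, hb, h⟩ := key hc 3 1 364 rfl (by decide) hH le_top
  obtain ⟨P, rfl⟩ := syl hc 3 1 364 rfl (by decide) hH
  have h2 := relIndex_centralizer_ne_one P (fun e => by simp [e] at hH)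
    (fun e => by rw [e, card_top] at hH; omega)
  have h3 := ((Nat.dvd_prime Nat.prime_two).1
    (relIndex_centralizer_dvd_sub_one Nat.prime_three _ hH)).resolve_left h2
  have h4 := card_normalizer_eq_mul (P : Subgroup G)
  rw [inf_top_eq] at ha
  rw [card_top, hc] at hb
  rw [h3] at h4
  rw [ha] at h1 h4 ⊢
  have : a ≤ 26 := by
    rcases h1 with h1 | h1 | h1 <;> have := Nat.le_of_dvd (by norm_num) h1 <;> omega
  interval_cases a <;> omega

variable (hcl : ∀ s t : G, orderOf s = 2 → orderOf t = 2 → IsConj s t)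
include hcl

theorem two {t : G} (ht : orderOf t = 2) : 12 ∣ Nat.card (centralizer ({t} : Set G)) := by
  have := Fact.mk Nat.prime_three
  obtain ⟨H, -, hH⟩ := exists_card (G := G) 3 (M := ⊤) (by rw [card_top, hc]; norm_num)
  obtain ⟨s, hs⟩ := exists_prime_orderOf_dvd_card' (G := centralizer (H : Set G)) 2
    (by rw [(three hc hH).2]; norm_num)
  rw [← Subgroup.orderOf_coe] at hs
  rw [card_centralizer_eq_of_isConj (hcl _ _ ht hs)]
  obtain ⟨S, hS⟩ := exists_sylow_mem_of_orderOf (p := 2) (k := 1) hs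
  have h4 := sylow_card_eq_pow S (k := 2) (m := 273) hc (by decide)
  have := IsPGroup.isMulCommutative_of_card_eq_prime_sq h4
  refine Nat.Coprime.mul_dvd_of_dvd_of_dvd (m := 3) (n := 2 ^ 2) (by norm_num) ?_ ?_
  · exact hH ▸ card_dvd_of_le fun x hx => mem_centralizer_singleton_iff.2 (s.2 x hx)
  · exact h4 ▸ card_dvd_of_le fun x hx => mem_centralizer_singleton_iff.2
      (setLike_mul_comm hx hS)

theorem cent13 {H : Subgroup G} (hH : Nat.card H = 13) : centralizer (H : Set G) ≤ H := by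
  have := Fact.mk (by norm_num : Nat.Prime 13)
  have := Fact.mk Nat.prime_three
  have := isCyclic_of_prime_card hH
  have h1 := card_norm hc 13 78 (by simp) hH ▸ card_dvd_of_le (centralizer_le_normalizer (H : Set G))
  have h0 : H ≤ centralizer (H : Set G) := le_centralizer H
  have h2 := hH ▸ card_dvd_of_le h0
  have h3 : ∀ x ∈ centralizer (H : Set G), 13 ∣ Nat.card (centralizer ({x} : Set G)) :=
    fun x hx => hH ▸ card_dvd_of_le fun y hy => mem_centralizer_singleton_iff.2 (hx y hy)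
  have h4 : ¬ 2 ∣ Nat.card (centralizer (H : Set G)) := fun h => by
    obtain ⟨s, hs⟩ := exists_prime_orderOf_dvd_card' 2 h
    rw [← Subgroup.orderOf_coe] at hs
    have h5 := two hc hcl hs
    have h6 := h3 s s.2
    have h7 := le84 hc (M := centralizer ({s.1} : Set G)) fun e =>
      norm_ne' hc (H := zpowers s.1) (by rw [Nat.card_zpowers]; omega)
        (by rw [Nat.card_zpowers]; omega) (top_le_iff.1 (by
          rw [← e, ← centralizer_zpowers]; exact centralizer_le_normalizer _))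
    have : 0 < Nat.card (centralizer ({s.1} : Set G)) := Nat.card_pos
    omega
  have h5 : ¬ 3 ∣ Nat.card (centralizer (H : Set G)) := fun h => by
    obtain ⟨s, hs⟩ := exists_prime_orderOf_dvd_card' 3 h
    rw [← Subgroup.orderOf_coe, ← Nat.card_zpowers] at hs
    have h6 := h3 s s.2
    rw [← centralizer_zpowers, (three hc hs).2] at h6
    omega
  refine (eq_of_le_of_card_ge h0 ?_).ge
  have := Nat.le_of_dvd (by norm_num) h1
  rw [hH]
  generalize Nat.card (centralizer (H : Set G)) = n at *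
  interval_cases n <;> omega

theorem main {H : Subgroup G} (h1 : H ≠ ⊥) (h2 : H ≠ ⊤) : IsCoatom (normalizer (H : Set G)) := by
  have := Fact.mk (by norm_num : Nat.Prime 7)
  have := Fact.mk (by norm_num : Nat.Prime 13)
  have := Fact.mk Nat.prime_three
  have h0 : 1 < Nat.card H := (one_lt_card_iff_ne_bot H).2 h1
  refine coatom hc (norm_ne hc h1 h2) ?_
  by_cases h7 : 7 ∣ Nat.card H
  · obtain ⟨P, h, hP⟩ := exists_card 7 h7
    have h3 := card_norm hc 7 14 (by simp) hP
    exact Or.inl (h3 ▸ card_dvd_of_le (le_norm_of_card (le_norm hc 7 (by simp) hP h2 h) (by omega)))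
  by_cases h13 : 13 ∣ Nat.card H
  · obtain ⟨P, h, hP⟩ := exists_card 13 h13
    have h3 := le_norm hc 13 (by simp) hP h2 h
    have := isCyclic_of_prime_card hP
    refine Or.inr (Or.inl (card_norm hc 13 78 (by simp) hP ▸ card_dvd_of_le fun g hg =>
      mem_normalizer_fintype fun x hx => ?_))
    have h4 : ⁅(⟨g, hg⟩ : normalizer (P : Set G)), (⟨x, h3 hx⟩ : normalizer (P : Set G))⁆ ∈
        (P.normalizerMonoidHom).ker := by
      rw [MonoidHom.mem_ker, map_commutatorElement, commutatorElement_eq_one_iff_mul_comm]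
      exact (IsCyclic.mulAutMulEquiv P).injective (by rw [map_mul, map_mul, mul_comm])
    rw [normalizerMonoidHom_ker] at h4
    simpa [commutatorElement_def] using mul_mem (h (cent13 hc hcl hP h4)) hx
  refine Or.inr (Or.inr ?_)
  have h3 : Nat.card H ∣ 12 := by
    have h4 := le84 hc h2
    have h5 := hc ▸ H.card_subgroup_dvd_card
    generalize Nat.card H = n at *
    interval_cases n <;> omega
  have h4 : Nat.card H = 2 ∨ Nat.card H = 3 ∨ Nat.card H = 4 ∨ Nat.card H = 6 ∨ Nat.card H = 12 := by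
    have := Nat.le_of_dvd (by norm_num) h3
    generalize Nat.card H = n at *
    interval_cases n <;> omega
  rcases h4 with h | h | h | h | h
  · obtain ⟨s, hs⟩ := exists_prime_orderOf_dvd_card' (G := H) 2 h.symm.dvd
    rw [← Subgroup.orderOf_coe] at hs
    rw [← zpowers_eq_of_card_prime Nat.prime_two h s.2 (fun e => by simp [e] at hs)]
    exact (two hc hcl hs).trans
      (centralizer_zpowers s.1 ▸ card_dvd_of_le (centralizer_le_normalizer _))
  · exact (three hc h).1.symm.dvd
  · obtain ⟨P, rfl⟩ := syl hc 2 2 273 rfl (by decide) h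
    have := IsPGroup.isMulCommutative_of_card_eq_prime_sq (p := 2) h
    have h5 := h ▸ card_dvd_of_le (le_normalizer (H := (P : Subgroup G)))
    have h6 : Nat.card (normalizer ((P : Subgroup G) : Set G)) ≠ 4 := fun e =>
      not_normalizer_le_centralizer P h1 h2
        ((eq_of_le_of_card_ge le_normalizer (by omega)).ge.trans (le_centralizer _))
    rcases dvd_cases hc (norm_ne hc h1 h2) with h8 | h8 | h8 <;>
    · have := Nat.le_of_dvd (by norm_num) h8
      generalize Nat.card (normalizer ((P : Subgroup G) : Set G)) = n at *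
      interval_cases n <;> omega
  · obtain ⟨P, h5, hP⟩ := exists_card 3 (M := H) (by omega)
    have h6 := (three hc hP).1
    exact h6 ▸ card_dvd_of_le (le_norm_of_card (le_norm_of_card h5 (by omega)) (by omega))
  · exact h ▸ card_dvd_of_le le_normalizer

end

theorem aux {K S L : Type*} [Group K] [CommGroup S] [Finite K] [Finite S] [Group L]
    (hL : ∀ H : Subgroup L, H ≠ ⊥ → H ≠ ⊤ → IsCoatom (normalizer (H : Set L))) (f : K →* L)
    (hf : Function.Surjective f) (h1 : ∀ z, f z = 1 → z * z = 1 ∧ ∀ g, g * z = z * g)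
    (h2 : ∀ z u, f z = 1 → z ≠ 1 → orderOf u = 2 → u = z)
    (hKS : (Nat.card K).Coprime (Nat.card S)) (H : Subgroup (K × S)) (hH : ¬ H.Normal) :
    IsCoatom (normalizer (H : Set (K × S))) := by
  obtain ⟨φ, hφ'⟩ : ∃ φ : K × S →* L, ∀ x, φ x = f x.1 := ⟨f.comp (MonoidHom.fst K S), fun _ => rfl⟩
  have hφ : Function.Surjective φ := fun l => (hf l).elim fun k hk => ⟨(k, 1), (hφ' _).trans hk⟩
  have hz : ∀ z, φ z = 1 → ∀ g, g * z = z * g := fun z hz g =>
    Prod.ext ((h1 z.1 ((hφ' z).symm.trans hz)).2 g.1) (mul_comm _ _)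
  have hK : ∀ x ∈ H, (x.1, 1) ∈ H := fun x hx => by
    obtain ⟨n, h3, h4⟩ := Nat.chineseRemainder hKS 1 0
    have h5 : x.1 ^ n = x.1 ^ 1 := pow_eq_pow_iff_modEq.2 (h3.of_dvd (orderOf_dvd_natCard _))
    have h6 : x.2 ^ n = x.2 ^ 0 := pow_eq_pow_iff_modEq.2 (h4.of_dvd (orderOf_dvd_natCard _))
    have : x ^ n = (x.1, 1) := Prod.ext (h5.trans (pow_one _)) (h6.trans (pow_zero _))
    exact this ▸ pow_mem hx n
  have e : normalizer (H : Set (K × S)) = (normalizer (H.map φ : Set L)).comap φ := by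
    refine le_antisymm (map_le_iff_le_comap.1 (le_normalizer_map φ)) fun g hg => ?_
    refine mem_normalizer_fintype fun x hx => ?_
    rw [mem_comap] at hg
    obtain ⟨y, hy, hxy⟩ := (mem_normalizer_iff.1 hg (φ x)).1 ⟨x, hx, rfl⟩
    have h3 : f (y.1⁻¹ * (g.1 * x.1 * g.1⁻¹)) = 1 := by
      simp only [map_mul, map_inv, ← hφ']
      exact inv_mul_eq_one.2 hxy
    have h4 : (y.1⁻¹ * (g.1 * x.1 * g.1⁻¹), (1 : S)) ∈ H := by
      generalize hc : y.1⁻¹ * (g.1 * x.1 * g.1⁻¹) = c at h3
      by_cases hc1 : c = 1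
      · exact hc1 ▸ one_mem _
      have key : ∀ w ∈ H, 2 ∣ orderOf w.1 → (c, (1 : S)) ∈ H := fun w hw hd => by
        rw [← h2 c _ h3 hc1 (orderOf_pow_orderOf_div (orderOf_pos _).ne' hd)]
        simpa using pow_mem (hK w hw) (orderOf w.1 / 2)
      by_cases h5 : 2 ∣ orderOf x.1
      · exact key x hx h5
      by_cases h6 : 2 ∣ orderOf y.1
      · exact key y hy h6
      exfalso
      have h7 : (y.1 * c) ^ (orderOf x.1 * orderOf y.1) = 1 := by
        rw [← hc, mul_inv_cancel_left, conj_pow, pow_mul, pow_orderOf_eq_one]; simp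
      obtain ⟨k, hk⟩ : Odd (orderOf x.1 * orderOf y.1) :=
        (Nat.odd_iff.2 (by omega)).mul (Nat.odd_iff.2 (by omega))
      rw [Commute.mul_pow ((h1 c h3).2 _), pow_mul', pow_orderOf_eq_one, one_pow, one_mul, hk,
        pow_succ, pow_mul, pow_two, (h1 c h3).1, one_pow, one_mul] at h7
      exact hc1 h7
    have h5 := mul_mem (mul_mem (hK y hy) h4) (mul_mem (inv_mem (hK x hx)) hx)
    rwa [show (y.1, 1) * (y.1⁻¹ * (g.1 * x.1 * g.1⁻¹), 1) * ((x.1, 1)⁻¹ * x) = g * x * g⁻¹ by
      ext <;> simp] at h5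
  rw [e]
  refine (isCoatom_comap_of_surjective hφ (hL _ (fun h => hH ⟨fun x hx g => ?_⟩)
    fun h => hH ⟨fun x hx g => ?_⟩))
  · rwa [hz x ((map_eq_bot_iff H).1 h hx), mul_inv_cancel_right]
  · obtain ⟨y, hy, e⟩ : φ g ∈ H.map φ := h ▸ mem_top _
    have h3 := hz (y⁻¹ * g) (by rw [map_mul, map_inv, e, inv_mul_cancel]) x
    rw [show g * x * g⁻¹ = y * (y⁻¹ * g * x) * g⁻¹ by group, ← h3,
      show y * (x * (y⁻¹ * g)) * g⁻¹ = y * x * y⁻¹ by group]
    exact mul_mem (mul_mem hy hx) (inv_mem hy)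

/-- Let K be isomorphic to PSL(2, 13) or to SL(2, 13) and let S be a finite abelian group of order coprime to the order of K. Then in the direct product K × S every subgroup that is not normal has a normalizer that is a maximal subgroup. -/
theorem result {K S : Type*} [Group K] [CommGroup S] [Finite K] [Finite S]
    (hK : Nonempty (K ≃* Matrix.ProjectiveSpecialLinearGroup (Fin 2) (ZMod 13)) ∨
      Nonempty (K ≃* Matrix.SpecialLinearGroup (Fin 2) (ZMod 13)))
    (hKS : (Nat.card K).Coprime (Nat.card S)) (H : Subgroup (K × S)) (hH : ¬ H.Normal) :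
    IsCoatom (Subgroup.normalizer (H : Set (K × S))) := by
  have := Fact.mk (by norm_num : Nat.Prime 13)
  have h2 : (2 : ZMod 13) ≠ 0 := by decide +revert
  have := finite_PSL2 (F := ZMod 13)
  have := Matrix.ProjectiveSpecialLinearGroup.rank_two_simple (F := ZMod 13) (by simp)
  have hc := two_mul_card_PSL2 h2
  rw [ZMod.card] at hc
  have hL := fun H => main (G := PSL2 (ZMod 13)) (H := H) (by omega)
    fun _ _ => isConj_of_orderOf_two_PSL
  rcases hK with ⟨⟨e⟩⟩ | ⟨⟨e⟩⟩
  · have h : ∀ z, e.toMonoidHom z = 1 → z = 1 := fun z hz => e.map_eq_one_iff.1 hz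
    exact aux hL e.toMonoidHom e.surjective (fun z hz => by simp [h z hz])
      (fun z u hz h1 => absurd (h z hz) h1) hKS H hH
  · have h : ∀ z, (piSL (ZMod 13)).comp e.toMonoidHom z = 1 → z * z = 1 ∧ ∀ g, g * z = z * g :=
      fun z hz => by
        rcases piSL_eq_iff.1 (hz.trans (map_one _).symm) with h | h <;>
        exact ⟨e.injective (by simp [show e z = _ from h]),
          fun g => e.injective (by simp [show e z = _ from h])⟩
    refine aux hL ((piSL (ZMod 13)).comp e.toMonoidHom) (piSL_surjective.comp e.surjective) h (fun z u hz h1 hu => e.injective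
      (Cfsg.Lib.Class.sl2_involution_unique h2 (fun e' => ?_) (fun e' => h1 (e.map_eq_one_iff.1 e'))
        ?_ ?_)) hKS H hH
    · simp [e.map_eq_one_iff.1 e'] at hu
    · rw [← map_pow, orderOf_dvd_iff_pow_eq_one.1 hu.dvd, map_one]
    · rw [pow_two, ← map_mul, (h z hz).1, map_one]

end Cfsg.Agent.S4234
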