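import Cfsg.Statements.S4236
import Cfsg.Agent.PrimeOne.SylowNum
import Cfsg.Agent.PrimeOne.Good
import Cfsg.Agent.PrimeOne.Brauer3

set_option autoImplicit false
open Cfsg

namespace Cfsg.Agent.S4236

/-- No finite group has exactly 35 Sylow 17-subgroups. -/
theorem result {G : Type*} [Group G] [Finite G] : Nat.card (Sylow 17 G) ≠ 35 := by
  open Cfsg.Lib.PrimeOne in focus
  intro h
  have : Fact (Nat.Prime 17) := ⟨by norm_num⟩
  obtain ⟨S, _, _, _, hS⟩ := exists_simple_card_sylow h (by norm_num) (by decide +kernel)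
    (by decide +kernel)
  have hG := not_comm_of_card_sylow (p := 17) (G := S) (by omega)
  obtain ⟨P⟩ : Nonempty (Sylow 17 S) := inferInstance
  have hP := card_sylow_eq_prime (by omega) (by omega) P
  have h1 : 17 ∣ Nat.card S := (dvd_of_eq hP.symm).trans (Subgroup.card_subgroup_dvd_card _)
  have h2 : 35 ∣ Nat.card S := hS ▸ P.card_dvd_index.trans (Subgroup.index_dvd_card _)
  obtain ⟨-, h3 | ⟨m, -, h3, -⟩⟩ := concl_of_lt hP (commutator_eq_top hG)
    (pPrimeCore_eq_bot hG (by norm_num) h1) (by omega)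
  · have := h3.1
    omega
  · omega

end Cfsg.Agent.S4236
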