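import Cfsg.Statements.S4237
import Cfsg.Agent.Solv.Kulakoff

set_option autoImplicit false
open Cfsg

namespace Cfsg.Agent.S4237


open Subgroup Finset Cfsg.Lib.Solv Cfsg.Lib.Solv.Count
open scoped Pointwise

theorem dvd_fibre {G : Type*} [Group G] [Finite G] {p : ℕ} [hp : Fact p.Prime] {P Q : Subgroup G}
    (hQ : IsPGroup p Q) (h : Nat.card Q = p * Nat.card (Q ⊓ P : Subgroup G)) {a : ℕ}
    (ha : p ^ (a + 1) ∣ Nat.card Q) :
    p ∣ cnt (fun H : Subgroup G => (Nat.card H = p ^ a ∧ ¬ H ≤ P) ∧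
      (H ≤ Q ∧ Q ≤ normalizer (H : Set G))) := by
  have h1 := cnt_invariant_modEq hQ (K := Q) le_normalizer (s := a)
    ((pow_dvd_pow p (Nat.le_succ a)).trans ha)
  have h2 := cnt_invariant_modEq hQ (K := Q ⊓ P)
    (PG.le_normalizer_of_card_eq_prime_mul hQ inf_le_left h) (s := a) (by
      rw [h, pow_succ'] at ha
      exact Nat.dvd_of_mul_dvd_mul_left hp.out.pos ha)
  rw [cnt_add _ (fun H => H ≤ P)] at h1
  have h3 : cnt (fun H : Subgroup G => ((Nat.card H = p ^ a ∧ H ≤ Q) ∧
      Q ≤ normalizer (H : Set G)) ∧ H ≤ P) ≡ 1 [MOD p] := by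
    refine eq_trans_modEq (cnt_congr fun H => ?_) h2
    rw [le_inf_iff]; tauto
  have h4 := Nat.ModEq.add_left_cancel h3 (h1.trans (by rw [add_zero 1] : 1 ≡ 1 + 0 [MOD p]))
  rw [← Nat.modEq_zero_iff_dvd]
  refine eq_trans_modEq (cnt_congr fun H => ?_) h4
  tauto

theorem cnt_modEq_sylow {G : Type*} [Group G] [Finite G] {p : ℕ} [hp : Fact p.Prime]
    (P : Sylow p G) {a : ℕ} (ha : p ^ (a + 1) ∣ Nat.card G) :
    cnt (fun H : Subgroup G => Nat.card H = p ^ a) ≡
      cnt (fun H : Subgroup G => Nat.card H = p ^ a ∧ H ≤ P) [MOD p ^ 2] := by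
  classical
  have := Fintype.ofFinite (Subgroup G)
  have hP := P.isPGroup'
  have haP := P.pow_dvd_card_of_pow_dvd_card ha
  have hle : ∀ H : Subgroup G, IsPGroup p H → (P : Subgroup G) ≤ normalizer (H : Set G) →
      H ≤ P := fun H hH h => by
    rw [← P.is_maximal' (hP.to_sup_of_normal_right' hH h) le_sup_left]
    exact le_sup_right
  have hcard : ∀ Q : Subgroup G, IsPGroup p Q → Nat.card Q ≤ Nat.card P := fun Q hQ => by
    obtain ⟨Q', hQ'⟩ := hQ.exists_le_sylow
    exact (card_le_of_le hQ').trans (Nat.card_congr (Q'.equiv P).toEquiv).le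
  let S : Subgroup G → Prop := fun H => Nat.card H = p ^ a ∧ ¬ H ≤ P
  let J : Subgroup G → Prop := fun H => p ^ 2 ∣ (normalizer (H : Set G)).relIndex P
  have hS : ∀ g ∈ (P : Subgroup G), ∀ H, S (MulAut.conj g • H) ↔ S H := fun g hg H => by
    simp only [S, card_conj_smul, conj_smul_le_iff_of_mem_normalizer (le_normalizer hg)]
  have hJ : ∀ g ∈ (P : Subgroup G), ∀ H, J (MulAut.conj g • H) ↔ J H := fun g hg H => by
    simp only [J]
    rw [← conj_smul_normalizer]
    conv_lhs => rw [← conj_smul_eq_of_mem_normalizer (le_normalizer hg)]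
    rw [relIndex_conj_smul]
  have h1 : p ^ 2 ∣ cnt (fun H => S H ∧ J H) :=
    dvd_cnt_of_dvd_relIndex (P : Subgroup G) (fun H => S H ∧ J H)
      (fun g hg H hH => And.intro ((hS g hg H).mpr hH.1) ((hJ g hg H).mpr hH.2))
      fun H hH => by simpa only [J] using hH.2
  let T : Subgroup G → Prop := fun Q =>
    Nat.card Q = Nat.card P ∧ Nat.card P = p * Nat.card (Q ⊓ P : Subgroup G)
  let r : Subgroup G → Subgroup G → Prop := fun Q H => H ≤ Q ∧ Q ≤ normalizer (H : Set G)
  have hTp : ∀ Q, T Q → IsPGroup p Q := fun Q hQ => by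
    obtain ⟨n, hn⟩ := IsPGroup.iff_card.mp hP
    exact IsPGroup.of_card (hQ.1.trans hn)
  have hT : ∀ g ∈ (P : Subgroup G), ∀ Q, T Q → T (MulAut.conj g • Q) := fun g hg Q hQ => by
    refine ⟨(card_conj_smul g Q).trans hQ.1, ?_⟩
    conv_rhs => rw [← conj_smul_eq_of_mem_normalizer (le_normalizer hg)]
    rw [← smul_inf, card_conj_smul]
    exact hQ.2
  have hrel : ∀ H : Subgroup G, IsPGroup p H → ¬ H ≤ P →
      p ∣ (normalizer (H : Set G)).relIndex P := fun H hH h => by
    obtain ⟨j, hj⟩ := hP.index ((normalizer (H : Set G)).subgroupOf P)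
    rw [relIndex, hj]
    refine dvd_pow_self p ?_
    rintro rfl
    exact h (hle H hH (relIndex_eq_one.mp hj))
  have h2 : p * p ∣ ∑ Q ∈ univ.filter T, cnt (fun H => S H ∧ r Q H) := by
    refine mul_dvd_sum_of_dvd_relIndex (P : Subgroup G) T hT (m := p) (n := p) (fun Q hQ => ?_) _
      (fun g hg Q hQ => ?_) (fun Q hQ => ?_)
    rotate_right
    · exact dvd_fibre (hTp Q hQ) (hQ.1.trans hQ.2) (by rw [hQ.1]; exact haP)
    · apply hrel Q (hTp Q hQ)
      intro h
      have h3 := hQ.2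
      rw [inf_eq_left.mpr h, hQ.1] at h3
      exact hp.out.one_lt.ne (Nat.eq_of_mul_eq_mul_right Nat.card_pos ((one_mul _).trans h3))
    · refine (cnt_congr_equiv (MulAction.toPerm (MulAut.conj g)) fun H => ?_).symm
      simp only [MulAction.toPerm_apply, hS g hg, r, ← conj_smul_normalizer,
        pointwise_smul_le_pointwise_smul_iff]
  have hR : ∀ Q H, T Q → S H → r Q H → normalizer (H : Set G) ⊓ P = Q ⊓ P := fun Q H hQ hH hr => by
    refine (PG.eq_or_eq_of_card_eq_prime_mul hp.out hQ.2 (inf_le_inf_right _ hr.2)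
      inf_le_right).resolve_right fun h => ?_
    exact hH.2 (hle H (IsPGroup.of_card hH.1) (inf_eq_right.mp h))
  have h3 : ∑ H ∈ univ.filter S, cnt (fun Q => T Q ∧ r Q H) = cnt (fun H => S H ∧ ¬ J H) := by
    rw [sum_filter_split _ J, sum_eq_cnt_mul (fun H => S H ∧ J H) _ (c := 0),
      sum_eq_cnt_mul (fun H => S H ∧ ¬ J H) _ (c := 1), mul_zero, zero_add, mul_one]
    · rintro H ⟨hH, hJ⟩
      have hHp : IsPGroup p H := IsPGroup.of_card hH.1
      set R := normalizer (H : Set G) ⊓ P with hRdef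
      have hidx : (normalizer (H : Set G)).relIndex P = p := by
        obtain ⟨j, hj⟩ := hP.index ((normalizer (H : Set G)).subgroupOf P)
        have h4 := hrel H hHp hH.2
        simp only [J, relIndex, hj] at hJ h4 ⊢
        rcases j with _ | _ | j
        · exact absurd (Nat.dvd_one.mp h4) hp.out.one_lt.ne'
        · exact pow_one p
        · exact absurd (pow_dvd_pow p (by omega)) hJ
      have hRc : Nat.card P = p * Nat.card R := by
        rw [← PG.relIndex_mul_card_inf (normalizer (H : Set G)) P, hidx]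
      have hQp : IsPGroup p ↥(R ⊔ H) :=
        (hP.to_le inf_le_right).to_sup_of_normal_right' hHp inf_le_left
      have hlt : R < R ⊔ H := left_lt_sup.mpr fun h => hH.2 (h.trans inf_le_right)
      have hQc : Nat.card ↥(R ⊔ H) = Nat.card P :=
        le_antisymm (hcard _ hQp) (hRc ▸ PG.prime_mul_card_le_of_lt hQp hlt)
      refine cnt_eq_one (a := R ⊔ H) ⟨⟨hQc, ?_⟩, le_sup_right, sup_le inf_le_left le_normalizer⟩ ?_
      · rcases PG.eq_or_eq_of_card_eq_prime_mul hp.out hRc
          (le_inf le_sup_left inf_le_right : R ≤ (R ⊔ H) ⊓ P) inf_le_right with h | h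
        · rw [h]; exact hRc
        · have h5 := PG.eq_of_le_of_card_eq (inf_eq_right.mp h) hQc.symm
          exact absurd (h5 ▸ le_sup_right) hH.2
      · rintro Q ⟨hQ, hr⟩
        refine (PG.eq_of_le_of_card_eq (sup_le ?_ hr.1) (hQc.trans hQ.1.symm)).symm
        rw [hRdef, hR Q H hQ hH hr]
        exact inf_le_left
    · rintro H ⟨hH, hJ⟩
      refine cnt_eq_zero ?_
      rintro Q ⟨hQ, hr⟩
      have h4 := PG.relIndex_mul_card_inf (normalizer (H : Set G)) P
      rw [hR Q H hQ hH hr, hQ.2] at h4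
      simp only [J, Nat.eq_of_mul_eq_mul_right Nat.card_pos h4] at hJ
      have h5 : p ^ 2 ∣ p ^ 1 := by rwa [pow_one]
      rw [Nat.pow_dvd_pow_iff_le_right hp.out.one_lt] at h5
      omega
  rw [sum_cnt_comm T S r, h3, ← pow_two] at h2
  have h4 := dvd_add h1 h2
  rw [← cnt_add S J] at h4
  rw [cnt_add _ (fun H : Subgroup G => H ≤ P)]
  exact Nat.add_modEq_left_iff.mpr h4

/-- Let G be a finite group, p a prime and a a natural number such that p^(a+1) divides the order of G. Then the number of subgroups of G of order p^a is congruent to 1 or to 1 + p modulo p². -/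
theorem result {G : Type*} [Group G] [Finite G] (p a : ℕ) (hp : p.Prime) (hdvd : p ^ (a + 1) ∣ Nat.card G) :
    Nat.card {H : Subgroup G // Nat.card H = p ^ a} ≡ 1 [MOD p ^ 2] ∨
      Nat.card {H : Subgroup G // Nat.card H = p ^ a} ≡ 1 + p [MOD p ^ 2] := by
  have := Fact.mk hp
  change cnt (fun H : Subgroup G => Nat.card H = p ^ a) ≡ _ [MOD _] ∨
    cnt (fun H : Subgroup G => Nat.card H = p ^ a) ≡ _ [MOD _]
  by_cases h2 : p = 2
  · have h1 := cnt_card_pow_modEq (G := G) ((pow_dvd_pow p (Nat.le_succ a)).trans hdvd)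
    subst h2
    simp only [Nat.ModEq] at h1 ⊢
    omega
  obtain ⟨P⟩ : Nonempty (Sylow p G) := inferInstance
  have h1 := cnt_modEq_sylow P hdvd
  have haP := P.pow_dvd_card_of_pow_dvd_card hdvd
  by_cases hc : IsCyclic P
  · left
    rwa [cnt_card_eq_one_of_isCyclic _ ((pow_dvd_pow p (Nat.le_succ a)).trans haP)] at h1
  rcases Nat.eq_zero_or_pos a with rfl | ha
  · left
    rw [cnt_eq_one (P := fun H : Subgroup G => Nat.card H = p ^ 0) (a := ⊥) (by simp)
      fun H hH => card_eq_one.mp hH]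
  · right
    obtain ⟨n, hn⟩ := IsPGroup.iff_card.mp P.isPGroup'
    rw [← cnt_card_subgroup] at h1
    refine h1.trans (kulakoff h2 hn hc ha ?_)
    rwa [hn, Nat.pow_dvd_pow_iff_le_right hp.one_lt] at haP

end Cfsg.Agent.S4237
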