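import Cfsg.Statements.S4238
import Cfsg.Agent.Trans.PNilpMore

set_option autoImplicit false
open Cfsg

namespace Cfsg.Agent.S4238

open Cfsg.Lib.Trans Cfsg.Lib.Solv Subgroup

universe u

theorem aux {p : ℕ} [hp : Fact p.Prime] (n : ℕ) : ∀ {K : Type u} [Group K] [Finite K],
    Nat.card K = n → ∀ (Q : Subgroup K) [Q.Normal] (g : K), IsPGroup p Q → (orderOf g).Coprime p →
    Q ⊔ zpowers g = ⊤ →
    (∀ (L : Type u) [Group L] (f : K →* L), Function.Surjective f → pPrimeCore p L = ⊥ →
      ∃ k : L, orderOf k = Monoid.exponent L) → HasNormalPComplement p K := by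
  induction n using Nat.strong_induction_on with
  | _ n ih =>
  intro K _ _ hn Q _ g hQ hg hQg h
  have hq : ∀ (N : Subgroup K) [N.Normal], N ≠ ⊥ → HasNormalPComplement p (K ⧸ N) := by
    intro N _ hN
    have hs := QuotientGroup.mk'_surjective N
    have := Normal.map ‹Q.Normal› _ hs
    refine ih _ ?_ rfl (Q.map (QuotientGroup.mk' N)) (QuotientGroup.mk' N g) (hQ.map _)
      (Nat.Coprime.coprime_dvd_left (orderOf_map_dvd _ g) hg) ?_
      fun L _ f hf => h L (f.comp (QuotientGroup.mk' N)) (hf.comp hs)
    · rw [← hn, ← N.index_mul_card, ← index_eq_card]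
      exact lt_mul_of_one_lt_right (Nat.pos_of_ne_zero FiniteIndex.index_ne_zero)
        ((one_lt_card_iff_ne_bot N).mpr hN)
    · rw [← MonoidHom.map_zpowers, ← Subgroup.map_sup, hQg, map_top_of_surjective _ hs]
  by_cases h1 : pPrimeCore p K = ⊥
  swap
  · exact hasNormalPComplement_of_quotient_coprime _ (coprime_card_pPrimeCore p K) (hq _ h1)
  obtain ⟨k, hk⟩ := h K (MonoidHom.id K) Function.surjective_id h1
  have hcard := PG.card_sup_mul_card_inf (K := Q) (H := zpowers g)
    (le_top.trans (normalizer_eq_top Q).ge)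
  rw [hQg, card_top, Nat.card_zpowers] at hcard
  have hi : ¬ p ∣ Q.index := by
    rw [← relIndex_top_right, ← hQg, relIndex_sup_left]
    intro hd
    exact coprime_iff_not_dvd'.mp hg (hd.trans ((relIndex_dvd_card _ _).trans
      (Nat.card_zpowers g).dvd))
  by_cases h2 : (frattini Q).map Q.subtype = ⊥
  swap
  · exact hasNormalPComplement_of_quotient_of_inf_le_frattini (hQ.toSylow hi)
      ((frattini Q).map Q.subtype) inf_le_left
      (hq _ h2)
  have hc := ((map_frattini_eq_bot_iff hQ).mp h2).1
  by_cases h3 : p ∣ Nat.card K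
  swap
  · exact hasNormalPComplement_of_coprime (coprime_iff_not_dvd'.mpr h3)
  obtain ⟨y, hy⟩ := exists_prime_orderOf_dvd_card' p h3
  have h4 : p ∣ orderOf k := by rw [hk, ← hy]; exact Monoid.order_dvd_exponent y
  have h5 : orderOf (k ^ (orderOf k / p)) = p := orderOf_pow_orderOf_div (orderOf_pos k).ne' h4
  set v := k ^ (orderOf k / p)
  have hv : zpowers v ≤ Q := le_of_coprime_card_index (by
    rw [Nat.card_zpowers, h5]; exact (coprime_iff_not_dvd'.mpr hi).symm)
  have h6 : Q ⊔ zpowers k = ⊤ := by
    apply eq_top_of_le_card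
    refine Nat.le_of_dvd Nat.card_pos ((Dvd.intro _ hcard).trans ?_)
    refine Nat.Coprime.mul_dvd_of_dvd_of_dvd (coprime_card_of_isPGroup hQ hg)
      (card_dvd_of_le le_sup_left) ?_
    refine (Monoid.order_dvd_exponent g).trans ?_
    rw [← hk, ← Nat.card_zpowers]
    exact card_dvd_of_le le_sup_right
  have h7 : zpowers v ≤ center K := by
    rw [← centralizer_univ, ← coe_top, ← le_centralizer_iff, ← h6]
    refine sup_le ((le_centralizer Q).trans (centralizer_le hv)) ?_
    exact (le_centralizer _).trans (centralizer_le (zpowers_le.mpr (npow_mem_zpowers k _)))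
  have : (zpowers v).Normal := ⟨fun a ha b => by
    rw [mem_center_iff.mp (h7 ha) b, mul_inv_cancel_right]; exact ha⟩
  refine hasNormalPComplement_of_quotient_of_le_center _ h7 (hq _ fun h8 => ?_)
  rw [zpowers_eq_bot, ← orderOf_eq_one_iff, h5] at h8
  exact hp.out.ne_one h8


/-- Let G be a finite group and p a prime. Then G has a normal p-complement if and only if every section K = H/N of G (N a normal subgroup of a subgroup H) whose largest normal subgroup of order prime to p is trivial contains an element whose order equals the exponent of K. -/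
theorem result {G : Type*} [Group G] [Finite G] (p : ℕ) [Fact p.Prime] :
    Cfsg.HasNormalPComplement p G ↔
      ∀ (H : Subgroup G) (N : Subgroup H) [N.Normal], Cfsg.pPrimeCore p (H ⧸ N) = ⊥ →
        ∃ k : H ⧸ N, orderOf k = Monoid.exponent (H ⧸ N) := by
  have hp : p.Prime := Fact.out
  constructor
  · intro h H N _ h1
    have h2 := hasNormalPComplement_quotient (hasNormalPComplement_subgroup h H) N
    have h3 : IsPGroup p (H ⧸ N) := by
      rw [← pResidual_eq_bot_iff, eq_bot_iff, ← h1]
      exact le_pPrimeCore inferInstance (hasNormalPComplement_iff_coprime.mp h2)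
    obtain ⟨k, hk⟩ := hp.exists_orderOf_eq_pow_factorization_exponent (H ⧸ N)
    obtain ⟨m, hm⟩ := IsPGroup.iff_card.mp h3
    obtain ⟨j, -, hj⟩ := (Nat.dvd_prime_pow hp).mp (hm ▸ Group.exponent_dvd_nat_card)
    exact ⟨k, by rw [hk, hj, hp.factorization_pow]; simp⟩
  · intro h
    apply hasNormalPComplement_of_forall_normalizer
    intro Q hQ _ g hg hc
    have hgH : g ∈ Q ⊔ zpowers g := mem_sup_right (mem_zpowers g)
    refine mem_centralizer_of_hasNormalPComplement_subgroup (K := Q ⊔ zpowers g) ?_ hQ le_sup_left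
      hgH hg hc
    have := normal_subgroupOf_of_le_normalizer (sup_le le_normalizer (zpowers_le.mpr hg))
    refine aux _ rfl (Q.subgroupOf _) ⟨g, hgH⟩ hQ.comap_subtype (by rwa [orderOf_mk]) ?_
      fun L _ f hf h1 => ?_
    · apply map_injective (Q ⊔ zpowers g).subtype_injective
      rw [Subgroup.map_sup, MonoidHom.map_zpowers, subgroupOf_map_subtype,
        inf_eq_left.mpr le_sup_left, ← MonoidHom.range_eq_map, range_subtype]
      rfl
    · let e := QuotientGroup.quotientKerEquivOfSurjective f hf
      obtain ⟨k, hk⟩ := h _ f.ker ((pPrimeCore_eq_bot_congr e).mpr h1)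
      exact ⟨e k, by rw [e.orderOf_eq, hk, Monoid.exponent_eq_of_mulEquiv e]⟩

end Cfsg.Agent.S4238
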