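import Cfsg.Statements.S4242
import Cfsg.Agent.Solv.CoprimeSylow
import Cfsg.Agent.Solv.Nilpotent
import Cfsg.Agent.Solv.Fitting
import Cfsg.Agent.Solv.PGroupBasic
import Cfsg.Agent.Solv.FrobeniusGroup
import Cfsg.Agent.Solv.NilpotentHall
import Cfsg.Agent.S0072
import Cfsg.Agent.Solv.Cores

set_option autoImplicit false
open Cfsg

namespace Cfsg.Agent.S4242

open Subgroup Cfsg.Lib.Solv

theorem aux {G : Type*} [Group G] [Finite G] {p : ℕ} [hp : Fact p.Prime]
    (h : ∀ H : Subgroup G, H ≠ ⊤ → p ∣ Nat.card H → Group.IsNilpotent H) {K : Subgroup G}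
    (hK : IsCoatom K) (hKn : ¬ Group.IsNilpotent K) {U : Subgroup G} [U.Normal]
    (hU : IsPGroup p U) (hUb : U ≠ ⊥) :
    U ⊓ K = ⊥ ∧ U ⊔ K = ⊤ ∧ K.Normal ∧ Nat.card U = p ∧ IsMinimalNonNilpotent K := by
  have hpK : ¬ p ∣ Nat.card K := fun h' => hKn (h K hK.1 h')
  have hcop := ((Nat.Prime.coprime_iff_not_dvd hp.out).2 hpK).symm
  have hinf := inf_eq_bot_of_isPGroup_of_coprime hU hcop
  have hsup : U ⊔ K = ⊤ := hK.2 _ (right_lt_sup.2 fun hle => hUb (by rwa [inf_eq_left.2 hle] at hinf))
  have hpU : p ∣ Nat.card U := hU.card_eq_or_dvd.resolve_left fun e => hUb (card_eq_one.1 e)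
  have h1 : ∀ H < K, Group.IsNilpotent (U ⊔ H : Subgroup G) := fun H hH =>
    h _ (fun e => hH.ne (by
      rw [← inf_eq_right.2 (le_top (a := K)), ← e, sup_inf_assoc_of_le_normalizer'
        (Fpf.le_normalizer_of_normal' _ _) hH.le, hinf, bot_sup_eq]))
      (hpU.trans (card_dvd_of_le le_sup_left))
  have h2 : K ≤ centralizer (U : Set G) := fun k hk => by
    have h3 : zpowers k < K := lt_of_le_of_ne (zpowers_le.2 hk) fun e =>
      hKn (e ▸ isNilpotent_of_isMulCommutative _)
    exact le_centralizer_of_coprime_of_isNilpotent (h1 _ h3) le_sup_right le_sup_left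
      (coprime_card_of_isPGroup hU (Nat.Coprime.coprime_dvd_left (card_dvd_of_le h3.le)
        hcop)).symm (mem_zpowers k)
  have hKN : K.Normal := normalizer_eq_top_iff.1 (top_le_iff.1 (hsup.ge.trans (sup_le
    ((le_centralizer_iff.1 h2).trans (centralizer_le_normalizer _)) le_normalizer)))
  refine ⟨hinf, hsup, hKN, ?_, hKn, fun H hH => (isNilpotent_map_subtype_iff H).1
    (isNilpotent_of_le le_sup_right (h1 _ (lt_of_le_of_ne (map_subtype_le H) fun e => hH ?_)))⟩
  · obtain ⟨x, hx⟩ := exists_prime_orderOf_dvd_card' p hpU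
    rw [← Subgroup.orderOf_coe] at hx
    have h3 : zpowers (x : G) ≤ U := zpowers_le.2 x.2
    have h4 : K ⊔ zpowers (x : G) = ⊤ := hK.2 _ (left_lt_sup.2 fun hle =>
      hpK (hx ▸ orderOf_dvd_natCard _ (hle (mem_zpowers _))))
    rw [← inf_eq_right.2 (le_top (a := U)), ← h4, sup_inf_assoc_of_le_normalizer'
      (Fpf.le_normalizer_of_normal' _ _) h3, inf_comm, hinf, bot_sup_eq, Nat.card_zpowers, hx]
  · exact map_injective K.subtype_injective (by rw [e, ← MonoidHom.range_eq_map, range_subtype])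

/-- Let G be a finite group and p a prime dividing its order. Every maximal subgroup of G of order divisible by p is nilpotent if and only if G is nilpotent, or G is a minimal non-nilpotent group, or G is the internal direct product of a normal subgroup of order p and a normal minimal non-nilpotent subgroup of order prime to p. -/
theorem result {G : Type*} [Group G] [Finite G] (p : ℕ) (hp : p.Prime) (hpG : p ∣ Nat.card G) :
    (∀ M : Subgroup G, IsCoatom M → p ∣ Nat.card M → Group.IsNilpotent M) ↔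
      (Group.IsNilpotent G ∨ Cfsg.IsMinimalNonNilpotent G ∨
        ∃ Z K : Subgroup G, Z.Normal ∧ K.Normal ∧ Z ⊓ K = ⊥ ∧ Z ⊔ K = ⊤ ∧ Nat.card Z = p ∧
          Cfsg.IsMinimalNonNilpotent K ∧ ¬ p ∣ Nat.card K) := by
  have := Fact.mk hp
  constructor
  · intro hM
    have h : ∀ H : Subgroup G, H ≠ ⊤ → p ∣ Nat.card H → Group.IsNilpotent H := fun H hH hpH => by
      obtain ⟨M, hM', hle⟩ := (eq_top_or_exists_le_coatom H).resolve_left hH
      exact isNilpotent_of_le hle (hM M hM' (hpH.trans (card_dvd_of_le hle)))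
    by_cases hG : Group.IsNilpotent G
    · exact Or.inl hG
    by_cases hG' : ∀ H : Subgroup G, H ≠ ⊤ → Group.IsNilpotent H
    · exact Or.inr (Or.inl ⟨hG, hG'⟩)
    simp only [not_forall] at hG'
    obtain ⟨H, hH, hHn⟩ := hG'
    obtain ⟨K, hK, hle⟩ := (eq_top_or_exists_le_coatom H).resolve_left hH
    have hKn : ¬ Group.IsNilpotent K := fun h => hHn (isNilpotent_of_le hle h)
    have hpK : ¬ p ∣ Nat.card K := fun h' => hKn (h K hK.1 h')
    obtain ⟨U, hU, hUp, hUb⟩ : ∃ U : Subgroup G, U.Normal ∧ IsPGroup p U ∧ U ≠ ⊥ := by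
      by_contra! hO
      have hpU : ∀ {U : Subgroup G}, IsPGroup p U → U ≠ ⊥ → p ∣ Nat.card U := fun hU hUb =>
        hU.card_eq_or_dvd.resolve_left fun e => hUb (card_eq_one.1 e)
      obtain ⟨P, N, hN, hc⟩ : HasNormalPComplement p G := (S0072.result p).2 fun U hU hUb => by
        have := h _ (fun e => hUb (hO U (normalizer_eq_top_iff.1 e) hU))
          ((hpU hU hUb).trans (card_dvd_of_le le_normalizer))
        exact hasNormalPComplement_of_isNilpotent p
      have hPb : (P : Subgroup G) ≠ ⊥ := P.ne_bot_of_dvd_card hpG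
      have hcop : (Nat.card (P : Subgroup G)).Coprime (Nat.card N) :=
        hc.index_eq_card ▸ P.card_coprime_index
      have hKN : K = N := by
        refine (le_of_coprime_card_index ?_).eq_or_lt.resolve_right fun e => hPb ?_
        · rw [hc.symm.index_eq_card]
          exact (coprime_card_of_isPGroup P.isPGroup'
            ((Nat.Prime.coprime_iff_not_dvd hp).2 hpK).symm).symm
        · rw [← top_inf_eq (P : Subgroup G), ← hK.2 N e, disjoint_iff.1 hc.disjoint]
      refine hPb (hO _ (normalizer_eq_top_iff.1 (top_le_iff.1 (hc.sup_eq_top.ge.trans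
        (sup_le (le_trans ?_ (centralizer_le_normalizer _)) le_normalizer)))) P.isPGroup')
      refine Coprime.le_of_forall_invariant_pgroup_le (Fpf.le_normalizer_of_normal' _ _) hcop
        (Or.inl (Coprime.isSolvable_of_isPGroup P.isPGroup')) fun q _ Q hQ hQq hPQ => ?_
      refine le_centralizer_of_coprime_of_isNilpotent (h (Q ⊔ P) (fun e => hKn ?_)
        ((hpU P.isPGroup' hPb).trans (card_dvd_of_le le_sup_right))) le_sup_left le_sup_right
        (Nat.Coprime.coprime_dvd_left (card_dvd_of_le hQ) hcop.symm)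
      rw [hKN, ← inf_eq_right.2 (le_top (a := N)), ← e, sup_inf_assoc_of_le_normalizer hPQ hQ,
        inf_comm (P : Subgroup G), disjoint_iff.1 hc.disjoint, sup_bot_eq]
      exact hQq.isNilpotent
    obtain ⟨h1, h2, h3, h4, h5⟩ := aux h hK hKn hUp hUb
    exact Or.inr (Or.inr ⟨U, K, hU, h3, h1, h2, h4, h5, hpK⟩)
  · rintro (hG | hG | ⟨Z, K, hZ, hK, hinf, hsup, hc, hS, hpK⟩) M hM hpM
    · infer_instance
    · exact hG.2 M hM.1
    · have hZM : Z ≤ M := by
        obtain ⟨x, hx⟩ := exists_prime_orderOf_dvd_card' p hpM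
        rw [← Subgroup.orderOf_coe] at hx
        have h1 : (x : G) ∈ Z := mem_of_coprime_orderOf_index_of_normal (by
          rw [hx, (Fpf.isComplement'_of_normal hinf hsup).symm.index_eq_card]
          exact (Nat.Prime.coprime_iff_not_dvd hp).2 hpK)
        rw [← PG.eq_of_le_of_card_eq (zpowers_le.2 h1) (by rw [Nat.card_zpowers, hx, hc])]
        exact zpowers_le.2 x.2
      have h1 : Z ⊔ K ⊓ M = M := by
        rw [← sup_inf_assoc_of_le_normalizer (Fpf.le_normalizer_of_normal' _ _) hZM, hsup, top_inf_eq]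
      rw [← h1]
      refine isNilpotent_sup_of_le_centralizer (IsPGroup.of_card (n := 1) (by simpa)).isNilpotent ?_
        ((le_centralizer_of_disjoint (Fpf.le_normalizer_of_normal' _ _)
          (Fpf.le_normalizer_of_normal' _ _) hinf).trans (centralizer_le inf_le_left))
      rw [inf_comm, ← subgroupOf_map_subtype, isNilpotent_map_subtype_iff]
      exact hS.2 _ fun e => hM.1 (top_le_iff.1 (hsup.ge.trans (sup_le hZM (subgroupOf_eq_top.1 e))))

end Cfsg.Agent.S4242
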