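import Cfsg.Statements.S4244
import Cfsg.Agent.Solv.Subnormal

set_option autoImplicit false
open Cfsg

namespace Cfsg.Agent.S4244

open Cfsg.Lib.Solv

/-- Let H be a subnormal subgroup of a finite group G. Then for every subgroup K of G the index of H ∩ K in H divides the index of K in G. -/
theorem result {G : Type*} [Group G] [Finite G] (H : Subgroup G) (hH : H.IsSubnormal) (K : Subgroup G) :
    (H ⊓ K).relIndex H ∣ K.index := by
  rw [Subgroup.inf_relIndex_left]
  exact relIndex_dvd_index_of_isSubnormal hH K

end Cfsg.Agent.S4244
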