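import Cfsg.Statements.S4245
import Cfsg.Agent.Cor.OddSol
import Cfsg.Agent.Char.Burnside
import Cfsg.Agent.FT.Elem

set_option autoImplicit false
open Cfsg

namespace Cfsg.Agent.S4245

open Cfsg.Lib

universe u

/-- The hypothesis in a form inherited by normal subgroups and quotients. -/
structure Hyp (p : ℕ) {G : Type u} [Group G] (A B : Subgroup G) : Prop where
  le : B ≤ A
  idx : ∃ s, A.index = p ^ s
  norm : ∀ a ∈ A, ∀ b ∈ B, a * b * a⁻¹ ∈ B
  cyc : IsCyclic B
  pow : ∃ r, ∀ a ∈ A, a ^ (2 ^ r) ∈ B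
  chain : ∀ x ∈ A, ∀ y ∈ A, (∃ k : ℕ, x * (y ^ k)⁻¹ ∈ B) ∨ (∃ k : ℕ, y * (x ^ k)⁻¹ ∈ B)

theorem relIndex_dvd_index {G : Type u} [Group G] [Finite G] (A N : Subgroup G) [N.Normal] :
    A.relIndex N ∣ A.index := by
  have h1 : A.relIndex N * Nat.card (A ⊓ N : Subgroup G) = Nat.card N := by
    rw [← Subgroup.inf_relIndex_right, mul_comm]
    have := Subgroup.card_mul_index ((A ⊓ N).subgroupOf N)
    rw [Nat.card_congr (Subgroup.subgroupOfEquivOfLe (inf_le_right : A ⊓ N ≤ N)).toEquiv] at this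
    exact this
  have h2 : N.relIndex A * Nat.card (A ⊓ N : Subgroup G) = Nat.card A := by
    rw [← Subgroup.inf_relIndex_left, mul_comm]
    have := Subgroup.card_mul_index ((A ⊓ N).subgroupOf A)
    rw [Nat.card_congr (Subgroup.subgroupOfEquivOfLe (inf_le_left : A ⊓ N ≤ A)).toEquiv] at this
    exact this
  obtain ⟨c, hc⟩ := Subgroup.relIndex_dvd_index_of_normal N A
  have h3 := Subgroup.card_mul_index A
  have h4 := Subgroup.card_mul_index N
  refine ⟨c, ?_⟩
  have hpos : 0 < N.relIndex A * Nat.card (A ⊓ N : Subgroup G) := by rw [h2]; exact Nat.card_pos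
  apply Nat.eq_of_mul_eq_mul_left hpos
  rw [h2, h3, ← h4, hc, ← h1, ← h2]
  ring

theorem Hyp.sub {p : ℕ} (hp : p.Prime) {G : Type u} [Group G] [Finite G] {A B : Subgroup G}
    (h : Hyp p A B) (N : Subgroup G) [N.Normal] : Hyp p (A.subgroupOf N) (B.subgroupOf N) where
  le := fun x hx => h.le hx
  idx := by
    obtain ⟨s, hs⟩ := h.idx
    have := relIndex_dvd_index A N
    rw [hs] at this
    obtain ⟨k, -, hk⟩ := (Nat.dvd_prime_pow hp).1 this
    exact ⟨k, hk⟩
  norm := fun a ha b hb => h.norm a ha b hb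
  cyc := by
    have := h.cyc
    exact isCyclic_of_injective (G' := B)
      ((N.subtype.comp (B.subgroupOf N).subtype).codRestrict B (fun x => x.2)) (by
        intro x y hxy
        apply Subtype.ext; apply Subtype.ext
        exact congrArg (fun t : B => (t : G)) hxy)
  pow := by
    obtain ⟨r, hr⟩ := h.pow
    exact ⟨r, fun a ha => hr a ha⟩
  chain := fun x hx y hy => h.chain x hx y hy

theorem Hyp.quo {p : ℕ} (hp : p.Prime) {G H : Type u} [Group G] [Finite G] [Group H]
    {A B : Subgroup G} (h : Hyp p A B) (f : G →* H) (hf : Function.Surjective f) :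
    Hyp p (A.map f) (B.map f) where
  le := Subgroup.map_mono h.le
  idx := by
    obtain ⟨s, hs⟩ := h.idx
    have := Subgroup.index_map_dvd A hf
    rw [hs] at this
    obtain ⟨k, -, hk⟩ := (Nat.dvd_prime_pow hp).1 this
    exact ⟨k, hk⟩
  norm := by
    rintro _ ⟨a, ha, rfl⟩ _ ⟨b, hb, rfl⟩
    exact ⟨a * b * a⁻¹, h.norm a ha b hb, by simp⟩
  cyc := by
    have := h.cyc
    exact isCyclic_of_surjective (f.subgroupMap B) (f.subgroupMap_surjective B)
  pow := by
    obtain ⟨r, hr⟩ := h.pow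
    refine ⟨r, ?_⟩
    rintro _ ⟨a, ha, rfl⟩
    exact ⟨_, hr a ha, by simp⟩
  chain := by
    rintro _ ⟨x, hx, rfl⟩ _ ⟨y, hy, rfl⟩
    rcases h.chain x hx y hy with ⟨k, hk⟩ | ⟨k, hk⟩
    · exact Or.inl ⟨k, _, hk, by simp⟩
    · exact Or.inr ⟨k, _, hk, by simp⟩

theorem solv_of_prime {G : Type u} [Group G] [Finite G] (h : (Nat.card G).Prime) :
    Group.IsSolvable G := by
  have := Fact.mk h
  have := isCyclic_of_prime_card (α := G) rfl
  exact Group.isSolvable_of_comm fun a b => (IsCyclic.commGroup (α := G)).mul_comm a b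

theorem simple_case {p : ℕ} (hp : p.Prime) {G : Type u} [Group G] [Finite G] [IsSimpleGroup G]
    {A B : Subgroup G} (h : Hyp p A B) : Group.IsSolvable G := by
  classical
  obtain ⟨s, hs⟩ := h.idx
  obtain ⟨r, hr⟩ := h.pow
  have := h.cyc
  have hcommB : ∀ x ∈ B, ∀ y ∈ B, x * y = y * x := fun x hx y hy =>
    congrArg Subtype.val ((IsCyclic.commGroup (α := B)).mul_comm ⟨x, hx⟩ ⟨y, hy⟩)
  by_cases hB2 : 2 ∣ Nat.card B
  · -- the involution of `B` is central in `A`
    obtain ⟨z, hz⟩ := exists_prime_orderOf_dvd_card' (G := B) 2 hB2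
    have hz1 : (z : G) ≠ 1 := by
      intro h1
      have : z = 1 := Subtype.ext h1
      rw [this, orderOf_one] at hz
      omega
    refine solv_of_prime (Char.prime_card_of_simple_of_center_index hp A hs hz1 ?_)
    intro a ha
    let w : B := ⟨a * z * a⁻¹, h.norm a ha z z.2⟩
    have hw : orderOf w = 2 := by
      rw [← hz, ← Subgroup.orderOf_coe w, ← Subgroup.orderOf_coe z]
      exact orderOf_injective (MulAut.conj a).toMonoidHom (MulAut.conj a).injective (z : G)
    have := Fintype.ofFinite B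
    have hcard := IsCyclic.card_orderOf_eq_totient (α := B) (d := 2) (by
      rw [← Nat.card_eq_fintype_card]; exact hB2)
    rw [Nat.totient_two, Finset.card_eq_one] at hcard
    obtain ⟨c, hc⟩ := hcard
    have h1 : w ∈ ({c} : Finset B) := by rw [← hc]; simp [hw]
    have h2 : z ∈ ({c} : Finset B) := by rw [← hc]; simp [hz]
    rw [Finset.mem_singleton] at h1 h2
    have : a * z * a⁻¹ = z := congrArg Subtype.val (h1.trans h2.symm)
    exact mul_inv_eq_iff_eq_mul.1 this
  · by_cases hp2 : p = 2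
    · subst hp2
      have hBA : ∃ k, B.relIndex A = 2 ^ k := by
        have : (B.subgroupOf A).Normal := ⟨fun n hn g => h.norm g g.2 n hn⟩
        have : IsPGroup 2 (A ⧸ B.subgroupOf A) := by
          intro x
          obtain ⟨a, rfl⟩ := QuotientGroup.mk_surjective x
          refine ⟨r, ?_⟩
          rw [← QuotientGroup.mk_pow, QuotientGroup.eq_one_iff]
          exact hr a a.2
        exact IsPGroup.iff_card.1 this
      obtain ⟨k, hk⟩ := hBA
      have hBi : B.index = 2 ^ (k + s) := by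
        rw [← Subgroup.relIndex_mul_index h.le, hk, hs, pow_add]
      by_cases hB : B = ⊥
      · rw [hB, Subgroup.index_bot] at hBi
        exact Cor.isSolvable_of_isPGroup (IsPGroup.iff_card.2 ⟨_, hBi⟩)
      · obtain ⟨b, hb, hb1⟩ := (Subgroup.bot_or_exists_ne_one B).resolve_left hB
        exact solv_of_prime (Char.prime_card_of_simple_of_center_index hp B hBi hb1
          (fun x hx => hcommB x hx b hb))
    · -- a Sylow `2`-subgroup of `A` is one of `G`, and is cyclic
      obtain ⟨S⟩ : Nonempty (Sylow 2 A) := inferInstance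
      have hP : IsPGroup 2 ((S : Subgroup A).map A.subtype) := S.isPGroup'.map _
      have hidx : ¬ 2 ∣ ((S : Subgroup A).map A.subtype).index := by
        rw [Subgroup.index_map_subtype, hs]
        intro h2
        rcases (Nat.prime_two.dvd_mul).1 h2 with h2 | h2
        · exact S.not_dvd_index h2
        · exact hp2 ((Nat.prime_dvd_prime_iff_eq Nat.prime_two hp).1
            (Nat.prime_two.dvd_of_dvd_pow h2)).symm
      let T : Sylow 2 G := hP.toSylow hidx
      have hTA : (T : Subgroup G) ≤ A := Subgroup.map_subtype_le _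
      have hTB : ∀ x ∈ (T : Subgroup G), x ∈ B → x = 1 := by
        intro x hx hxB
        obtain ⟨k, hk⟩ := IsPGroup.iff_orderOf.1 T.isPGroup' ⟨x, hx⟩
        rw [← Subgroup.orderOf_coe] at hk
        have h1 : orderOf x ∣ Nat.card B := by
          have := orderOf_dvd_natCard (⟨x, hxB⟩ : B)
          rwa [← Subgroup.orderOf_coe] at this
        simp only at hk
        rcases k with _ | k
        · exact orderOf_eq_one_iff.1 (by simpa using hk)
        · exact absurd ((dvd_pow_self 2 (Nat.succ_ne_zero k)).trans (hk ▸ h1)) hB2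
      refine Cor.isSolvable_of_isCyclic_sylow_two T ?_
      obtain ⟨y, hy⟩ := Finite.exists_max (fun x : (T : Subgroup G) => orderOf x)
      refine ⟨y, fun x => ?_⟩
      rcases h.chain x (hTA x.2) y (hTA y.2) with ⟨k, hk⟩ | ⟨k, hk⟩
      · have := hTB _ (x * (y ^ k)⁻¹ : (T : Subgroup G)).2 hk
        have h2 : x * (y ^ k)⁻¹ = 1 := Subtype.ext this
        exact ⟨k, by rw [mul_inv_eq_one] at h2; simp [h2]⟩
      · have := hTB _ (y * (x ^ k)⁻¹ : (T : Subgroup G)).2 hk
        have h2 : y * (x ^ k)⁻¹ = 1 := Subtype.ext this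
        rw [mul_inv_eq_one] at h2
        have hle : Subgroup.zpowers y ≤ Subgroup.zpowers x := by
          rw [Subgroup.zpowers_le, h2]; exact Subgroup.npow_mem_zpowers x k
        have heq : Subgroup.zpowers y = Subgroup.zpowers x :=
          Subgroup.eq_of_le_of_card_ge hle (by rw [Nat.card_zpowers, Nat.card_zpowers]; exact hy x)
        have : x ∈ Subgroup.zpowers y := heq ▸ Subgroup.mem_zpowers x
        exact this

theorem main {p : ℕ} (hp : p.Prime) (n : ℕ) : ∀ (G : Type u) [Group G] [Finite G],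
    Nat.card G = n → ∀ A B : Subgroup G, Hyp p A B → Group.IsSolvable G := by
  induction n using Nat.strong_induction_on with
  | _ n ih =>
    intro G _ _ hn A B h
    rcases subsingleton_or_nontrivial G with hG | hG
    · infer_instance
    by_cases hs : IsSimpleGroup G
    · exact simple_case hp h
    have : ∃ N : Subgroup G, N.Normal ∧ N ≠ ⊥ ∧ N ≠ ⊤ := by
      by_contra hne
      push Not at hne
      exact hs ⟨fun N hN => by
        by_cases h0 : N = ⊥
        · exact Or.inl h0
        · exact Or.inr (hne N hN h0)⟩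
    obtain ⟨N, hN, h0, h1⟩ := this
    have hc := Subgroup.card_mul_index N
    have hi : 1 < N.index := Subgroup.one_lt_index_of_ne_top h1
    have hk : 1 < Nat.card N := (Subgroup.one_lt_card_iff_ne_bot N).2 h0
    refine Cor.isSolvable_of_normal_quotient N
      (ih (Nat.card N) (by rw [← hn, ← hc]; nlinarith) N rfl _ _ (h.sub hp N))
      (ih (Nat.card (G ⧸ N)) (by rw [← hn, ← hc, ← Subgroup.index_eq_card]; nlinarith) _ rfl _ _
        (h.quo hp (QuotientGroup.mk' N) (QuotientGroup.mk'_surjective N)))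

/-- Let G be a finite group with a subgroup A of prime-power index. Suppose A has a normal cyclic subgroup B such that A/B is cyclic of order a power of 2. Then G is solvable. -/
theorem result {G : Type*} [Group G] [Finite G] (A : Subgroup G) (p s : ℕ) (hp : p.Prime) (hA : A.index = p ^ s)
    (B : Subgroup A) [B.Normal] (hB : IsCyclic B) (hAB : IsCyclic (A ⧸ B)) (r : ℕ) (hr : Nat.card (A ⧸ B) = 2 ^ r) :
    Group.IsSolvable G := by
  refine main hp _ G rfl A (B.map A.subtype) ⟨Subgroup.map_subtype_le _, ⟨s, hA⟩, ?_, ?_, ⟨r, ?_⟩, ?_⟩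
  · rintro a ha _ ⟨b, hb, rfl⟩
    exact ⟨⟨a, ha⟩ * b * ⟨a, ha⟩⁻¹, Subgroup.Normal.conj_mem inferInstance b hb _, rfl⟩
  · exact isCyclic_of_surjective (A.subtype.subgroupMap B) (A.subtype.subgroupMap_surjective B)
  · intro a ha
    refine ⟨⟨a, ha⟩ ^ (2 ^ r), ?_, rfl⟩
    have : ((⟨a, ha⟩ ^ (2 ^ r) : A) : A ⧸ B) = 1 := by
      rw [QuotientGroup.mk_pow, ← hr]; exact pow_card_eq_one'
    exact (QuotientGroup.eq_one_iff _).1 this
  · intro x hx y hy
    have hP : IsPGroup 2 (A ⧸ B) := IsPGroup.iff_card.2 ⟨r, hr⟩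
    have key : ∀ a b : A ⧸ B, orderOf a ∣ orderOf b → ∃ k : ℕ, a = b ^ k := by
      intro a b hab
      have hle : Subgroup.zpowers a ≤ Subgroup.zpowers b := by
        refine (FT.cardSg_cyclic (X := ⊤) ?_ le_top le_top).1 ?_
        · exact isCyclic_of_surjective Subgroup.topEquiv.symm Subgroup.topEquiv.symm.surjective
        · rwa [Nat.card_zpowers, Nat.card_zpowers]
      obtain ⟨k, hk⟩ := (mem_powers_iff_mem_zpowers (x := b) (y := a)).2 (hle (Subgroup.mem_zpowers a))
      exact ⟨k, hk.symm⟩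
    have fin : ∀ u v : A, orderOf (u : A ⧸ B) ∣ orderOf (v : A ⧸ B) →
        ∃ k : ℕ, (u : G) * ((v : G) ^ k)⁻¹ ∈ B.map A.subtype := by
      intro u v huv
      obtain ⟨k, hk⟩ := key _ _ huv
      refine ⟨k, u * (v ^ k)⁻¹, ?_, rfl⟩
      apply (QuotientGroup.eq_one_iff _).1
      rw [QuotientGroup.mk_mul, QuotientGroup.mk_inv, QuotientGroup.mk_pow, ← hk, mul_inv_cancel]
    obtain ⟨i, hi⟩ := IsPGroup.iff_orderOf.1 hP ((⟨x, hx⟩ : A) : A ⧸ B)
    obtain ⟨j, hj⟩ := IsPGroup.iff_orderOf.1 hP ((⟨y, hy⟩ : A) : A ⧸ B)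
    rcases le_total i j with hij | hij
    · exact Or.inl (fin ⟨x, hx⟩ ⟨y, hy⟩ (by rw [hi, hj]; exact pow_dvd_pow 2 hij))
    · exact Or.inr (fin ⟨y, hy⟩ ⟨x, hx⟩ (by rw [hi, hj]; exact pow_dvd_pow 2 hij))

end Cfsg.Agent.S4245
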