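import Cfsg.Statements.S4250
import Cfsg.Agent.Trans.ConjFamily
import Cfsg.Agent.Trans.NormalComplement
import Cfsg.Agent.Solv.Conj

set_option autoImplicit false
open Cfsg

namespace Cfsg.Agent.S4250

open Cfsg.Lib.Trans Subgroup
open scoped commutatorElement


/-- Let P be a Sylow p-subgroup of a finite group G. Call an intersection H = P ∩ Q with a Sylow p-subgroup Q tame when N_P(H) and N_Q(H) are Sylow p-subgroups of N_G(H). Then P ∩ G′ is generated by [P, N_G(P)] together with the commutator subgroups [P ∩ Q, ⟨x⟩] for all tame intersections P ∩ Q and all p-elements x of N_G(P ∩ Q). -/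
theorem result {G : Type*} [Group G] [Finite G] (p : ℕ) [Fact p.Prime] (P : Sylow p G) :
    (P : Subgroup G) ⊓ commutator G =
      ⁅(P : Subgroup G), Subgroup.normalizer ((P : Subgroup G) : Set G)⁆ ⊔
        ⨆ (Q : Sylow p G) (_ : (¬ p ∣ ((P : Subgroup G) ⊓ Subgroup.normalizer (((P : Subgroup G) ⊓ (Q : Subgroup G) : Subgroup G) : Set G)).relIndex (Subgroup.normalizer (((P : Subgroup G) ⊓ (Q : Subgroup G) : Subgroup G) : Set G)) ∧ ¬ p ∣ ((Q : Subgroup G) ⊓ Subgroup.normalizer (((P : Subgroup G) ⊓ (Q : Subgroup G) : Subgroup G) : Set G)).relIndex (Subgroup.normalizer (((P : Subgroup G) ⊓ (Q : Subgroup G) : Subgroup G) : Set G))))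
          (x : G) (_ : x ∈ Subgroup.normalizer (((P : Subgroup G) ⊓ (Q : Subgroup G) : Subgroup G) : Set G) ∧ ∃ k : ℕ, orderOf x = p ^ k),
          ⁅(P : Subgroup G) ⊓ (Q : Subgroup G), Subgroup.zpowers x⁆ := by
  refine le_antisymm ?_ (sup_le (le_inf (Cfsg.Lib.Solv.commutator_le_left_of_le_normalizer le_rfl)
    (commutator_mono le_top le_top)) (iSup_le fun Q => iSup_le fun _ => iSup_le fun x =>
      iSup_le fun hx => le_inf ((Cfsg.Lib.Solv.commutator_le_left_of_le_normalizer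
        (zpowers_le.mpr hx.1)).trans inf_le_left) (commutator_mono le_top le_top)))
  rw [inf_comm, commutator_inf_eq_focalSubgroup, focalSubgroup_def, closure_le]
  rintro _ ⟨h1, x, hx, u, rfl⟩
  have h2 := rchain_tame P (A := {x⁻¹}) (g := u⁻¹) 
    (Set.singleton_subset_iff.mpr ((P : Subgroup G).inv_mem hx)) (by
      have := mul_mem (inv_mem hx) h1
      simp only [commutatorElement_def, mul_assoc, inv_mul_cancel_left] at this
      rintro _ ⟨_, rfl, rfl⟩
      simp only [inv_inv, mul_assoc]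
      exact this)
  have e : ⁅x, u⁆ = x⁻¹⁻¹ * (u⁻¹⁻¹ * x⁻¹ * u⁻¹) := by simp [commutatorElement_def, mul_assoc]
  rw [e]
  have h3 : x⁻¹ ∈ ({x⁻¹} : Set G) := rfl
  generalize x⁻¹ = a at h2 h3 ⊢
  generalize u⁻¹ = g at h2 ⊢
  generalize ({a} : Set G) = A at h2 h3
  clear h1 e
  induction h2 generalizing a with
  | nil A => simp
  | @cons A y g hy _ ih =>
    have e : a⁻¹ * ((y * g)⁻¹ * a * (y * g)) =
        ⁅a⁻¹, y⁻¹⁆ * ((y⁻¹ * a * y)⁻¹ * (g⁻¹ * (y⁻¹ * a * y) * g)) := by
      simp only [commutatorElement_def]; group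
    rw [e]
    refine mul_mem ?_ (ih _ ⟨a, h3, rfl⟩)
    obtain ⟨Q, hA, hN, hP, hQ, h | h⟩ := hy
    · rw [h, inf_idem] at hN
      exact mem_sup_left (commutator_mem_commutator (inv_mem (hA h3).1) (inv_mem hN))
    · refine mem_sup_right (mem_iSup_of_mem Q (mem_iSup_of_mem
        ⟨(fullyNorm_top_iff P.isPGroup').mp hP, (fullyNorm_top_iff Q.isPGroup').mp hQ⟩
        (mem_iSup_of_mem y (mem_iSup_of_mem ⟨hN, h⟩ ?_))))
      exact commutator_mem_commutator (inv_mem (hA h3)) (inv_mem (mem_zpowers y))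

end Cfsg.Agent.S4250
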