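import Cfsg.Statements.S4251
import Cfsg.Agent.Trans.ConjFamily
import Cfsg.Agent.Trans.Frobenius
import Cfsg.Agent.Trans.LocalTools

set_option autoImplicit false
open Cfsg

namespace Cfsg.Agent.S4251

open Cfsg.Lib.Trans Subgroup


/-- Let P be a Sylow p-subgroup of a finite group G. Call an intersection H = P ∩ Q with a Sylow p-subgroup Q tame when N_P(H) and N_Q(H) are Sylow p-subgroups of N_G(H). If N_G(H)/C_G(H) is a p-group for every nontrivial tame intersection H = P ∩ Q, then G has a normal p-complement. -/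
theorem result {G : Type*} [Group G] [Finite G] (p : ℕ) [Fact p.Prime] (P : Sylow p G)
    (h : ∀ Q : Sylow p G, (P : Subgroup G) ⊓ (Q : Subgroup G) ≠ ⊥ → (¬ p ∣ ((P : Subgroup G) ⊓ Subgroup.normalizer (((P : Subgroup G) ⊓ (Q : Subgroup G) : Subgroup G) : Set G)).relIndex (Subgroup.normalizer (((P : Subgroup G) ⊓ (Q : Subgroup G) : Subgroup G) : Set G)) ∧ ¬ p ∣ ((Q : Subgroup G) ⊓ Subgroup.normalizer (((P : Subgroup G) ⊓ (Q : Subgroup G) : Subgroup G) : Set G)).relIndex (Subgroup.normalizer (((P : Subgroup G) ⊓ (Q : Subgroup G) : Subgroup G) : Set G))) →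
      IsPGroup p (Subgroup.normalizer (((P : Subgroup G) ⊓ (Q : Subgroup G) : Subgroup G) : Set G) ⧸
        (Subgroup.centralizer (((P : Subgroup G) ⊓ (Q : Subgroup G) : Subgroup G) : Set G)).subgroupOf
          (Subgroup.normalizer (((P : Subgroup G) ⊓ (Q : Subgroup G) : Subgroup G) : Set G)))) :
    Cfsg.HasNormalPComplement p G := by
  rw [hasNormalPComplement_iff_controls_own_fusion P]
  intro a ha u hu
  have h2 := rchain_tame P (A := {a}) (g := u⁻¹) (Set.singleton_subset_iff.mpr ha) (by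
    rintro _ ⟨_, rfl, rfl⟩
    simp only [inv_inv]
    exact hu)
  suffices ∃ v ∈ (P : Subgroup G), v * a * v⁻¹ = u⁻¹⁻¹ * a * u⁻¹ by simpa using this
  have h3 : a ∈ ({a} : Set G) := rfl
  generalize u⁻¹ = g at h2 ⊢
  generalize ({a} : Set G) = A at h2 h3
  clear hu ha
  induction h2 generalizing a with
  | nil A => exact ⟨1, one_mem _, by simp⟩
  | @cons A y g hy _ ih =>
    obtain ⟨v, hv, e⟩ := ih _ ⟨a, h3, rfl⟩
    obtain ⟨Q, hA, hN, hP, hQ, -⟩ := hy
    by_cases hb : (P : Subgroup G) ⊓ (Q : Subgroup G) = ⊥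
    · have := hA h3
      rw [hb] at this
      exact ⟨1, one_mem _, by rw [mem_bot.mp this]; simp⟩
    have h4 := h Q hb ⟨(fullyNorm_top_iff P.isPGroup').mp hP, (fullyNorm_top_iff Q.isPGroup').mp hQ⟩
    obtain ⟨t, ht, c, hc, -, rfl⟩ := (fullyNorm_top_iff'.mp hP).exists_mul_eq
      (C := centralizer (((P : Subgroup G) ⊓ (Q : Subgroup G) : Subgroup G) : Set G))
      (fun d hd hc => pResidual_le_of_isPGroup_quotient _ h4
        (mem_pResidual_of_coprime (g := ⟨d, hd⟩) (by rwa [orderOf_mk]))) hN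
    refine ⟨v * t⁻¹, mul_mem hv (inv_mem ht.1), ?_⟩
    have h5 := conj_eq_of_mem_centralizer' hc (mem_normalizer_conj' ht.2 (hA h3))
    calc v * t⁻¹ * a * (v * t⁻¹)⁻¹ = v * (t⁻¹ * a * t) * v⁻¹ := by group
      _ = v * ((t * c)⁻¹ * a * (t * c)) * v⁻¹ := by rw [← h5]; group
      _ = _ := by rw [e]; group

end Cfsg.Agent.S4251
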