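import Cfsg.Statements.S4252
import Cfsg.Agent.Solv.FrobeniusGroup

set_option autoImplicit false
open Cfsg

namespace Cfsg.Agent.S4252

/-- Let a finite group G act on a finite set Ω with more than one point, transitively but not regularly, so that no non-identity element of G fixes two distinct points. Then the stabilizer H of any point is a Frobenius complement in G (nontrivial, proper, meeting its other conjugates trivially), and the Frobenius kernel of G with respect to H (the identity together with the elements lying in no conjugate of H) is exactly the set consisting of the identity and the elements fixing no point. -/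
theorem result {G Ω : Type*} [Group G] [Finite G] [Fintype Ω] [MulAction G Ω] (hΩ : 1 < Fintype.card Ω)
    (htrans : ∀ α β : Ω, ∃ g : G, g • α = β) (hnreg : ∃ g : G, g ≠ 1 ∧ ∃ α : Ω, g • α = α)
    (hfix : ∀ g : G, g ≠ 1 → ∀ α β : Ω, g • α = α → g • β = β → α = β) (α : Ω) :
    Cfsg.IsFrobeniusComplement (MulAction.stabilizer G α) ∧
      Cfsg.frobeniusKernel (MulAction.stabilizer G α) = {g : G | g = 1 ∨ ∀ ω : Ω, g • ω ≠ ω} := by
  refine ⟨Cfsg.Lib.Solv.isFrobeniusComplement_iff.2 ⟨?_, ?_, ?_⟩, ?_⟩
  · obtain ⟨g, hg, β, hβ⟩ := hnreg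
    obtain ⟨x, rfl⟩ := htrans α β
    intro h
    have : x⁻¹ * g * x ∈ MulAction.stabilizer G α := by
      rw [MulAction.mem_stabilizer_iff, mul_smul, mul_smul, hβ, inv_smul_smul]
    rw [h, Subgroup.mem_bot] at this
    apply hg
    calc g = x * (x⁻¹ * g * x) * x⁻¹ := by group
      _ = 1 := by rw [this]; group
  · obtain ⟨β, hβ⟩ := Fintype.exists_ne_of_one_lt_card hΩ α
    obtain ⟨x, rfl⟩ := htrans α β
    intro h
    exact hβ (MulAction.mem_stabilizer_iff.1 (h ▸ Subgroup.mem_top x))
  · rw [Cfsg.Lib.Solv.isMalnormal_iff]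
    intro g hg
    rw [eq_bot_iff]
    rintro x ⟨hx, hx'⟩
    by_contra hx1
    have h1 := MulAction.mem_stabilizer_iff.1 (Cfsg.Lib.Solv.mem_conj_smul.1 hx')
    rw [mul_smul, mul_smul, inv_smul_eq_iff] at h1
    exact hg (hfix x hx1 _ _ h1 hx)
  · ext g
    rw [Cfsg.Lib.Solv.mem_frobeniusKernel_iff]
    refine or_congr Iff.rfl ⟨fun h ω hω => ?_, fun h x hx => ?_⟩
    · obtain ⟨x, rfl⟩ := htrans α ω
      apply h x
      rw [MulAction.mem_stabilizer_iff, mul_smul, mul_smul, hω, inv_smul_smul]
    · have h1 := MulAction.mem_stabilizer_iff.1 hx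
      rw [mul_smul, mul_smul, inv_smul_eq_iff] at h1
      exact h _ h1

end Cfsg.Agent.S4252
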