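import Cfsg.Statements.S4258
import Cfsg.Agent.Solv.TwoLenMain

set_option autoImplicit false
open Cfsg

namespace Cfsg.Agent.S4258

/-- Let G be a finite 2-soluble group whose Sylow 2-subgroups have exponent dividing 2^e. Then the 2-length of G is at most e. -/
theorem result {G : Type*} [Group G] [Finite G] (hG : Cfsg.IsPSolvable 2 G) (e : ℕ)
    (hexp : ∀ (P : Sylow 2 G), ∀ x ∈ (P : Subgroup G), x ^ 2 ^ e = 1) : Cfsg.PLengthLE 2 e G := by
  exact Cfsg.Lib.Solv.TwoLen.pLengthLE_two_of_sylowExp hG hexp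

end Cfsg.Agent.S4258
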