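import Cfsg.Statements.S4259
import Cfsg.Agent.Solv.TwoLenDer

set_option autoImplicit false
open Cfsg

namespace Cfsg.Agent.S4259

/-- Let G be a finite 2-soluble group whose Sylow 2-subgroups have derived length at most d. Then the 2-length of G is at most d. -/
theorem result {G : Type*} [Group G] [Finite G] (hG : Cfsg.IsPSolvable 2 G) (d : ℕ)
    (hd : ∀ P : Sylow 2 G, derivedSeries (P : Subgroup G) d = ⊥) : Cfsg.PLengthLE 2 d G := by
  exact Cfsg.Lib.Solv.TwoLen.pLengthLE_two_of_derivedSeries hG hd

end Cfsg.Agent.S4259
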