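import Cfsg.Statements.S4260
import Cfsg.Agent.Trans.NormalComplement

set_option autoImplicit false
open Cfsg

namespace Cfsg.Agent.S4260


/-- Let H be a Hall subgroup of a finite group G (the order of H is coprime to its index) such that x^[G : H] lies in H for every x in G. Then H is normal in G. -/
theorem result {G : Type*} [Group G] [Finite G] (H : Subgroup G) (hHall : (Nat.card H).Coprime H.index)
    (hexp : ∀ x : G, x ^ H.index ∈ H) : H.Normal := by
---
  refine ⟨fun h hh g => ?_⟩
  have h1 : orderOf (g * h * g⁻¹) = orderOf h := (MulAut.conj g).orderOf_eq h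
  refine Subgroup.zpowers_le.mpr (hexp _) (mem_zpowers_pow_iff.mpr ?_)
  rw [h1]
  exact (Nat.Coprime.coprime_dvd_left (H.orderOf_dvd_natCard hh) hHall).symm

end Cfsg.Agent.S4260
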