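import Cfsg.Statements.S4261
import Cfsg.Agent.Trans.NormalComplement
import Cfsg.Agent.Solv.MinNormal
import Cfsg.Agent.Solv.PGroupNormal
import Cfsg.Agent.Solv.Frattini

set_option autoImplicit false
open Cfsg

namespace Cfsg.Agent.S4261

open Cfsg.Lib.Trans Cfsg.Lib.Solv Subgroup


/-- Let M be a maximal subgroup of a finite solvable group G such that x^[G : M] lies in M for every x in G. Then M is normal in G. -/
theorem result {G : Type*} [Group G] [Finite G] (hG : Group.IsSolvable G) (M : Subgroup G) (hM : IsCoatom M)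
    (hexp : ∀ x : G, x ^ M.index ∈ M) : M.Normal := by
  obtain ⟨p, k, hp, -, hk⟩ := (isPrimePow_nat_iff _).mp (isPrimePow_index_of_isCoatom M hM)
  haveI := Fact.mk hp
  have h1 : pResidual p G ≤ M := by
    rw [pResidual_le_iff_forall]
    intro g hg
    refine zpowers_le.mpr (hexp g) (mem_zpowers_pow_iff.mpr ?_)
    rw [← hk]
    exact (hg.pow_right k).symm
  have h2 := PG.normal_of_isCoatom (isPGroup_quotient_pResidual (p := p) (G := G))
    (isCoatom_map_of_ker_le (QuotientGroup.mk'_surjective _) hM (by rwa [QuotientGroup.ker_mk']))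
  have h3 := h2.comap (QuotientGroup.mk' (pResidual p G))
  rwa [comap_map_eq_self (by rwa [QuotientGroup.ker_mk'])] at h3

end Cfsg.Agent.S4261
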