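import Cfsg.Statements.S4263
import Cfsg.Agent.Solv.ClassSize
import Cfsg.Agent.Solv.NilpotentHall
import Cfsg.Agent.Trans.Frobenius

set_option autoImplicit false
open Cfsg

namespace Cfsg.Agent.S4263

open Cfsg.Lib.Solv

/-- Let G be a finite group. An element x lies in the Fitting subgroup F(G) if and only if, for every subgroup H of G, the power x^[G : H] lies in H. -/
theorem result {G : Type*} [Group G] [Finite G] (x : G) :
    x ∈ Cfsg.fittingSubgroup G ↔ ∀ H : Subgroup G, x ^ H.index ∈ H := by
    constructor
    · intro hx H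
      have hF := fitting_normal G
      have hnil := fitting_isNilpotent G
      have hsub : (Subgroup.zpowers x).IsSubnormal := by
        have h1 : ((Subgroup.zpowers x).subgroupOf (fittingSubgroup G)).IsSubnormal :=
          isSubnormal_of_isNilpotent _
        exact h1.trans (Subgroup.zpowers_le.2 hx) hF.isSubnormal
      obtain ⟨m, hm⟩ := relIndex_dvd_index_of_isSubnormal hsub H
      have h2 : (⟨x, Subgroup.mem_zpowers x⟩ : Subgroup.zpowers x) ^
          (H.subgroupOf (Subgroup.zpowers x)).index ∈ H.subgroupOf (Subgroup.zpowers x) :=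
        Subgroup.pow_index_mem (H.subgroupOf (Subgroup.zpowers x)) _
      rw [hm, pow_mul]
      exact H.pow_mem h2 m
    · intro h
      refine Cfsg.Lib.Trans.mem_of_forall_prime_pow_mem x fun y hy q hq _ hyq => ?_
      have : Fact q.Prime := ⟨hq⟩
      refine pCore_le_fitting q G ?_
      rw [pCore_eq_iInf_sylow, Subgroup.mem_iInf]
      intro P
      obtain ⟨n, rfl⟩ := hy
      obtain ⟨k, hk⟩ := hyq
      have h1 : (x ^ n) ^ (P : Subgroup G).index ∈ (P : Subgroup G) := by
        rw [← zpow_natCast, ← zpow_mul, mul_comm, zpow_mul, zpow_natCast]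
        exact Subgroup.zpow_mem _ (h P) n
      have hco : (P : Subgroup G).index.Coprime (orderOf (x ^ n)) := by
        show (P : Subgroup G).index.Coprime (orderOf ((fun m : ℤ => x ^ m) n))
        rw [hk]
        exact ClassSize.sylow_index_coprime_pow P k
      obtain ⟨m, hm⟩ := exists_pow_eq_self_of_coprime hco
      show x ^ n ∈ (P : Subgroup G)
      rw [← hm]
      exact Subgroup.pow_mem _ h1 m

end Cfsg.Agent.S4263
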