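import Cfsg.Statements.S4269
import Cfsg.Agent.Solv.Pronormal

set_option autoImplicit false
open Cfsg

namespace Cfsg.Agent.S4269

open Cfsg.Lib.Solv
open scoped Pointwise

/-- Let G be a finite group, V an abelian normal subgroup and H a subgroup with HV = G. Then H is pronormal in G (H and gHg⁻¹ are conjugate inside the subgroup they generate, for every g) if and only if every H-invariant subgroup U of V satisfies U = N_U(H)·[H, U], that is, U is the join of U ∩ N_G(H) and the commutator subgroup [H, U]. -/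
theorem result {G : Type*} [Group G] [Finite G]
    (V : Subgroup G) [V.Normal] (hV : IsMulCommutative ↥V) (H : Subgroup G) (hHV : H ⊔ V = ⊤) :
    Cfsg.IsPronormal H ↔
      ∀ U : Subgroup G, U ≤ V → (∀ h ∈ H, U.map (MulAut.conj h).toMonoidHom = U) →
        U = (U ⊓ Subgroup.normalizer (H : Set G)) ⊔ ⁅H, U⁆ := by
  have hcomm : ∀ x ∈ V, ∀ y ∈ V, x * y = y * x := fun x hx y hy =>
    congrArg Subtype.val (hV.is_comm.comm (⟨x, hx⟩ : V) ⟨y, hy⟩)
  rw [isPronormal_iff]
  constructor
  · intro h U hUV hU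
    have hHU : H ≤ Subgroup.normalizer (U : Set G) := fun x hx =>
      mem_normalizer_iff_conj_smul_eq.2 (hU x hx)
    have hc : ⁅H, U⁆ ≤ U := Subgroup.le_normalizer_iff_commutator_le_right.1 hHU
    refine le_antisymm (fun u hu => ?_) (sup_le inf_le_left hc)
    obtain ⟨x, hx, hxe⟩ := h u
    have h1 : H ⊔ MulAut.conj u • H ≤ ⁅H, U⁆ ⊔ H := by
      refine sup_le le_sup_right (conj_smul_le_of_mem_normalizer ?_ le_sup_right)
      rw [Subgroup.commutator_comm]
      exact sup_le_normalizer_commutator_sup U H (Subgroup.mem_sup_left hu)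
    obtain ⟨c, hc', k, hk, rfl⟩ :=
      (mem_sup_of_le_normalizer (Subgroup.normalizer_commutator_ge_left H U)).1 (h1 hx)
    rw [conj_mul_smul, Subgroup.conj_smul_eq_self_of_mem hk, conj_smul_eq_conj_smul_iff] at hxe
    have h2 : u = c * (c⁻¹ * u) := by group
    rw [h2]
    exact Subgroup.mul_mem _ (Subgroup.mem_sup_right hc')
      (Subgroup.mem_sup_left ⟨U.mul_mem (U.inv_mem (hc hc')) hu, hxe⟩)
  · intro h g
    obtain ⟨v, hv, k, hk, rfl⟩ :=
      Subgroup.mem_sup_of_normal_left.1 ((sup_comm H V ▸ hHV) ▸ Subgroup.mem_top g)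
    rw [conj_mul_smul, Subgroup.conj_smul_eq_self_of_mem hk]
    set L := H ⊔ MulAut.conj v • H with hL
    have hVn : V ≤ Subgroup.normalizer ((L ⊓ V : Subgroup G) : Set G) := by
      rw [Subgroup.le_normalizer_iff]
      intro x hx y hy
      rw [hcomm x hx y hy.2, mul_inv_cancel_right]
      exact hy
    have hHn : H ≤ Subgroup.normalizer ((L ⊓ V : Subgroup G) : Set G) :=
      le_normalizer_inf (le_sup_left.trans Subgroup.le_normalizer) Subgroup.le_normalizer_of_normal
    set U := V ⊓ commLe H (L ⊓ V) with hU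
    have hHU : H ≤ Subgroup.normalizer (U : Set G) := by
      rw [Subgroup.le_normalizer_iff]
      rintro x hx y ⟨hy1, hy2, hy3⟩
      have h1 : x * y * x⁻¹ ∈ V := ‹V.Normal›.conj_mem y hy1 x
      refine ⟨h1, hVn h1, fun c hc => ?_⟩
      have h2 := conj_mem_of_mem_normalizer (hHn hx)
        (hy3 (x⁻¹ * c * x) (H.mul_mem (H.mul_mem (H.inv_mem hx) hc) hx))
      rw [conjugate_commutatorElement] at h2
      simpa [mul_assoc] using h2
    have hvU : v ∈ U := by
      refine ⟨hv, hVn hv, fun c hc => ⟨?_, ?_⟩⟩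
      · exact L.mul_mem (Subgroup.mem_sup_right (conj_mem_conj_smul v hc))
          (Subgroup.mem_sup_left (H.inv_mem hc))
      · have := V.mul_mem hv (‹V.Normal›.conj_mem _ (V.inv_mem hv) c)
        simpa [commutatorElement_def, mul_assoc] using this
    have h1 := h U inf_le_left fun x hx => mem_normalizer_iff_conj_smul_eq.1 (hHU hx)
    have h2 : ⁅H, U⁆ ≤ L ⊓ V := by
      rw [Subgroup.commutator_comm]
      exact (le_commLe_iff.1 inf_le_right).2
    rw [h1, sup_comm] at hvU
    obtain ⟨c, hc, n, hn, rfl⟩ := (mem_sup_of_le_normalizer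
      (inf_le_left.trans (Subgroup.normalizer_commutator_ge_right H U))).1 hvU
    refine ⟨c, (h2 hc).1, ?_⟩
    rw [conj_mul_smul, conj_smul_eq_of_mem_normalizer hn.2]

end Cfsg.Agent.S4269
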