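import Cfsg.Statements.S4271
import Cfsg.Agent.Solv.PronormalSylow

set_option autoImplicit false
open Cfsg

namespace Cfsg.Agent.S4271

open Cfsg.Lib.Solv
open scoped Pointwise

/-- Let p be a prime and G a finite group with a normal subgroup A such that every subgroup of A containing a Sylow p-subgroup of A is pronormal in A, and the Sylow p-subgroups of G/A are self-normalizing. Let T be a Sylow p-subgroup of A. Then every subgroup of G containing a Sylow p-subgroup of G is pronormal in G if and only if every subgroup of N_G(T)/T containing a Sylow p-subgroup of N_G(T)/T is pronormal in N_G(T)/T. (Pronormal: H and gHg⁻¹ are conjugate inside the subgroup they generate, for every g.) -/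
theorem result {G : Type*} [Group G] [Finite G] {p : ℕ} [Fact p.Prime]
    (A : Subgroup G) [A.Normal] (hA : (∀ K : Subgroup ↥A, (∃ P : Sylow p ↥A, (P : Subgroup ↥A) ≤ K) → Cfsg.IsPronormal K))
    (hQ : ∀ P : Sylow p (G ⧸ A), Subgroup.normalizer ((P : Subgroup (G ⧸ A)) : Set (G ⧸ A)) = P)
    (T : Subgroup G) (hT : ∃ P : Sylow p ↥A, (P : Subgroup ↥A).map A.subtype = T) [(T.subgroupOf (Subgroup.normalizer (T : Set G))).Normal] :
    (∀ K : Subgroup G, (∃ P : Sylow p G, (P : Subgroup G) ≤ K) → Cfsg.IsPronormal K) ↔ (∀ K : Subgroup (↥(Subgroup.normalizer (T : Set G)) ⧸ T.subgroupOf (Subgroup.normalizer (T : Set G))), (∃ P : Sylow p (↥(Subgroup.normalizer (T : Set G)) ⧸ T.subgroupOf (Subgroup.normalizer (T : Set G))), (P : Subgroup (↥(Subgroup.normalizer (T : Set G)) ⧸ T.subgroupOf (Subgroup.normalizer (T : Set G)))) ≤ K) → Cfsg.IsPronormal K) := by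
  obtain ⟨P0, hP0⟩ := hT
  have hTs : Cfsg.Lib.Trans.IsSylowIn p T A := hP0 ▸ Cfsg.Lib.Trans.isSylowIn_map_subtype P0
  have hq := (sylPron_top_quotient_iff (N := T.subgroupOf (Subgroup.normalizer (T : Set G)))
    (Cfsg.Lib.Trans.isPGroup_subgroupOf hTs.isPGroup _)).trans sylPron_top_subgroup_iff
  rw [← sylPron_top_iff, ← sylPron_top_iff, hq]
  constructor
  · intro h
    exact h.mono_of_not_dvd le_top (not_dvd_index_normalizer_of_isSylowIn_normal hTs)
  · intro h1
    refine sylPron_top_of_normal (sylPron_iff.2 hA) (sylPron_top_of_self_normalizing hQ) hTs h1 ?_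
    rintro K ⟨P, hP⟩
    refine le_antisymm (Subgroup.le_normalizer_map _) ?_
    have h1 := (Cfsg.Lib.Trans.isSylowIn_top P).map (QuotientGroup.mk' A)
    rw [Subgroup.map_top_of_surjective _ (QuotientGroup.mk'_surjective A)] at h1
    obtain ⟨Q, hQe⟩ := h1.exists_sylow_eq
    rw [normalizer_eq_of_self_normalizing_sylow Q (hQ Q) (hQe ▸ Subgroup.map_mono hP)]
    exact Subgroup.map_mono Subgroup.le_normalizer

end Cfsg.Agent.S4271
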