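import Cfsg.Statements.S4292
import Cfsg.Agent.Perm.FCLift
import Mathlib.RingTheory.Flat.Basic

set_option autoImplicit false
open Cfsg

namespace Cfsg.Agent.S4292

open Cfsg.Lib.Perm Subgroup
open scoped TensorProduct


/-- Let A and B be nontrivial finite groups. Then the direct product A × B occurs as a Frobenius complement if and only if A and B both occur as Frobenius complements and the orders of A and B are coprime. -/
theorem result {A B : Type*} [Group A] [Finite A] [Nontrivial A] [Group B] [Finite B] [Nontrivial B] :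
    (∃ (L : Type) (_ : Group L) (_ : Finite L) (H : Subgroup L), Cfsg.IsFrobeniusComplement H ∧ Nonempty ((A × B) ≃* H)) ↔
    ((∃ (L : Type) (_ : Group L) (_ : Finite L) (H : Subgroup L), Cfsg.IsFrobeniusComplement H ∧ Nonempty (A ≃* H)) ∧
     (∃ (L : Type) (_ : Group L) (_ : Finite L) (H : Subgroup L), Cfsg.IsFrobeniusComplement H ∧ Nonempty (B ≃* H)) ∧
     (Nat.card A).Coprime (Nat.card B)) := by
  constructor
  · intro h
    have h := isFC_of_exists h
    refine ⟨(h.of_injective (MonoidHom.inl A B) (fun _ _ e => congrArg Prod.fst e)).exists_frobenius,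
      (h.of_injective (MonoidHom.inr A B) (fun _ _ e => congrArg Prod.snd e)).exists_frobenius,
      Nat.coprime_of_dvd fun p hp h1 h2 => ?_⟩
    have := Fact.mk hp
    obtain ⟨a, ha⟩ := exists_prime_orderOf_dvd_card' p h1
    obtain ⟨b, hb⟩ := exists_prime_orderOf_dvd_card' p h2
    obtain ⟨k, hk⟩ := h.mem_zpowers_of_commute (u := (a, 1)) (b := (1, b)) (by simp) (by
      rw [Prod.orderOf_mk, orderOf_one, ha, ← hb]; simp)
    have h3 : b = 1 := by simpa using (congrArg Prod.snd hk).symm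
    rw [h3, orderOf_one] at hb
    exact hp.one_lt.ne hb
  rintro ⟨hA, hB, hc⟩
  obtain ⟨n, ρ, h1, -⟩ := (isFC_of_exists hA).exists_rep_charZero ℚ
  obtain ⟨m, σ, h2, -⟩ := (isFC_of_exists hB).exists_rep_charZero ℚ
  let R := Module.End ℚ (Fin (n + 1) → ℚ)
  let S := Module.End ℚ (Fin (m + 1) → ℚ)
  have : Nontrivial (R ⊗[ℚ] S) :=
    Algebra.TensorProduct.nontrivial_of_algebraMap_injective_of_flat_left ℚ R S
      (algebraMap ℚ S).injective
  have h3 := h1.map (S := R ⊗[ℚ] S) (Algebra.TensorProduct.includeLeftRingHom : R →+* R ⊗[ℚ] S)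
  have h4 := h2.map (S := R ⊗[ℚ] S) (Algebra.TensorProduct.includeRight : S →ₐ[ℚ] R ⊗[ℚ] S).toRingHom
  let τ : A × B →* R ⊗[ℚ] S :=
    { toFun := fun x => ρ x.1 ⊗ₜ σ x.2
      map_one' := by simp [Algebra.TensorProduct.one_def]
      map_mul' := fun x y => by simp }
  have hτ : ∀ x, τ x = ρ x.1 ⊗ₜ σ x.2 := fun _ => rfl
  refine (FPF.of_pow (R := R ⊗[ℚ] S) (ρ := τ) fun x hx => ?_).exists_frobenius
  by_cases ha : x.1 = 1
  · refine ⟨1, ?_⟩
    have := h4 x.2 fun e => hx (Prod.ext ha e)
    rw [pow_one, hτ, ha, map_one]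
    exact this
  · refine ⟨Nat.card B, ?_⟩
    have := h3 (x.1 ^ Nat.card B) fun e => ha (orderOf_eq_one_iff.mp
      (Nat.eq_one_of_dvd_coprimes hc (_root_.orderOf_dvd_natCard _) (orderOf_dvd_of_pow_eq_one e)))
    rw [← map_pow, hτ, Prod.pow_snd, pow_card_eq_one', map_one]
    exact this

end Cfsg.Agent.S4292
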