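import Cfsg.Statements.S4296
import Cfsg.Agent.Perm.FCTri

set_option autoImplicit false
open Cfsg

namespace Cfsg.Agent.S4296

open Cfsg.Lib.Perm Cfsg.Lib.Solv Subgroup
open scoped IsMulCommutative

universe u

theorem isSquare_card (n : ℕ) : ∀ (A : Type u) [AddCommGroup A] [Finite A], Nat.card A = n →
    Odd n → ∀ I J : Module.End ℤ A, I * I = -1 → J * J = -1 → J * I = -(I * J) → IsSquare n := by
  induction n using Nat.strong_induction_on with
  | _ n ih =>
  intro A _ _ hn ho I J hI hJ hJI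
  by_cases h1 : n = 1
  · rw [h1]; exact IsSquare.one
  obtain ⟨p, hp, hd⟩ := Nat.exists_prime_and_dvd h1
  have := Fact.mk hp
  let Ω : Submodule ℤ A := LinearMap.ker ((p : ℤ) • LinearMap.id)
  have hΩ : ∀ (T : Module.End ℤ A), Ω ≤ Ω.comap T := fun T x hx => by
    change (p : ℤ) • T x = 0
    rw [← map_smul, show (p : ℤ) • x = 0 from hx, map_zero]
  have h2 : Nat.card Ω * Nat.card (A ⧸ Ω) = n := by
    rw [← hn, Submodule.card_eq_card_quotient_mul_card Ω]
  have h3 : 1 < Nat.card Ω := by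
    obtain ⟨x, hx⟩ := exists_prime_addOrderOf_dvd_card' p (hn ▸ hd)
    have : Nontrivial Ω := ⟨⟨x, by
      change (p : ℤ) • x = 0
      rw [natCast_zsmul, ← hx, addOrderOf_nsmul_eq_zero]⟩, 0, fun e => by
      rw [show x = 0 from congrArg Subtype.val e, addOrderOf_zero] at hx
      exact hp.one_lt.ne hx⟩
    exact Finite.one_lt_card
  have h4 : IsSquare (Nat.card (A ⧸ Ω)) := by
    have : Finite (A ⧸ Ω) := Finite.of_surjective _ Ω.mkQ_surjective
    refine ih _ ?_ (A ⧸ Ω) rfl (ho.of_dvd_nat (Dvd.intro_left _ h2)) (Ω.mapQ Ω I (hΩ I))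
      (Ω.mapQ Ω J (hΩ J)) ?_ ?_ ?_
    · rw [← h2]; exact lt_mul_of_one_lt_left Nat.card_pos h3
    all_goals
      refine LinearMap.ext fun x => ?_
      obtain ⟨x, rfl⟩ := Ω.mkQ_surjective x
    · exact (congrArg Ω.mkQ (DFunLike.congr_fun hI x)).trans (map_neg _ _)
    · exact (congrArg Ω.mkQ (DFunLike.congr_fun hJ x)).trans (map_neg _ _)
    · exact (congrArg Ω.mkQ (DFunLike.congr_fun hJI x)).trans (map_neg _ _)
  let _ : Module (ZMod p) Ω := AddCommGroup.zmodModule fun x => Subtype.ext (by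
    have : (p : ℤ) • (x : A) = 0 := x.2
    rwa [natCast_zsmul] at this)
  obtain ⟨x, y, hxy⟩ := ZMod.sq_add_sq p (-1)
  obtain ⟨U, hU, -⟩ := exists_half (I := (I.restrict (hΩ I)).toAddMonoidHom.toZModLinearMap p)
    (J := (J.restrict (hΩ J)).toAddMonoidHom.toZModLinearMap p)
    (LinearMap.ext fun x => Subtype.ext (DFunLike.congr_fun hI x.1))
    (LinearMap.ext fun x => Subtype.ext (DFunLike.congr_fun hJ x.1))
    (LinearMap.ext fun x => Subtype.ext (DFunLike.congr_fun hJI x.1)) (fun e => by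
      have := (Nat.prime_dvd_prime_iff_eq hp Nat.prime_two).mp
        ((ZMod.natCast_eq_zero_iff 2 p).mp e)
      exact ho.not_two_dvd_nat (this ▸ hd)) hxy
  rw [← h2, hU]
  exact (IsSquare.sq _).mul h4


/-- Let H be a Frobenius complement in a finite group, and suppose some Sylow subgroup of H is not cyclic. Then the number of elements of the Frobenius kernel (the identity together with the elements lying in no conjugate of H) is an odd perfect square. -/
theorem result {L : Type*} [Group L] [Finite L] (H : Subgroup L) (hF : Cfsg.IsFrobeniusComplement H)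
    (hZ : ∃ (p : ℕ) (_ : Fact p.Prime) (P : Sylow p H), ¬ IsCyclic P) :
    Odd (Nat.card (Cfsg.frobeniusKernel H)) ∧ IsSquare (Nat.card (Cfsg.frobeniusKernel H)) := by
  obtain ⟨K, hK, hn, -, -, hfpf, -⟩ := Fpf.exists_kernel' hF
  have h := IsFC.of_isFrobeniusComplement hF
  obtain ⟨p, _, P, hP⟩ := hZ
  obtain rfl : p = 2 := by
    by_contra hp
    exact hP (h.isCyclic_of_odd_prime hp P.2)
  obtain ⟨n, ⟨e⟩⟩ := (h.isCyclic_or_quaternion P.2).resolve_left hP
  obtain ⟨r, s, ho, h1, h2, -⟩ := PG.exists_gens_of_mulEquiv_quaternionGroup e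
  obtain ⟨i, j, hi, h3, h4, h5, h6⟩ : ∃ i j : L, i * i ∈ H ∧ i * i ≠ 1 ∧ i * i * (i * i) = 1 ∧
      j * j = i * i ∧ j * i = i * i * (i * j) := by
    have h7 : (r ^ 2 ^ n) * r ^ 2 ^ n = r ^ 2 ^ (n + 1) := by rw [← pow_add, pow_succ, mul_two]
    have h8 : r ^ 2 ^ (n + 1) * r ^ 2 ^ (n + 1) = 1 := by
      rw [← pow_add, ← two_mul, ← ho, pow_orderOf_eq_one]
    have h9 : r ^ 2 ^ (n + 1) ≠ 1 := pow_ne_one_of_lt_orderOf (by positivity) (by
      rw [ho]; have := Nat.two_pow_pos (n + 1); omega)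
    have h10 : s * r ^ 2 ^ n = r ^ 2 ^ n * r ^ 2 ^ n * (r ^ 2 ^ n * s) := by
      rw [← mul_assoc, ← mul_inv_eq_iff_eq_mul, ← conj_pow, h2, inv_pow, inv_eq_iff_mul_eq_one,
        ← mul_assoc, ← mul_assoc, mul_assoc, h7, h8]
    let f := H.subtype.comp (P : Subgroup H).subtype
    have hf : Function.Injective f := H.subtype_injective.comp (subtype_injective _)
    refine ⟨f (r ^ 2 ^ n), f s, ?_, ?_, ?_, ?_, ?_⟩ <;> simp only [← map_mul, h7]
    · exact (r ^ 2 ^ (n + 1)).1.2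
    · exact fun e => h9 (hf (e.trans f.map_one.symm))
    · rw [h8, map_one]
    · rw [h1]
    · rw [h10, h7]
  have h7 := fun k hk => Fpf.conj_eq_inv_of_involution (Fpf.mem_normalizer_of_normal K _)
    (hfpf _ hi h3) h4 (k := k) hk
  have := Fpf.isMulCommutative_of_inverted h7
  have ho : Odd (Nat.card K) := by
    have h8 : 2 ∣ Nat.card H := by
      rw [← orderOf_eq_prime (p := 2) (by rwa [pow_two]) h3]
      exact H.orderOf_dvd_natCard hi
    exact Nat.coprime_two_left.mp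
      ((Fpf.coprime_card (Fpf.le_normalizer_of_normal' K H) hfpf).coprime_dvd_left h8)
  rw [hK]
  refine ⟨ho, isSquare_card _ (Additive K) rfl ho
    (MonoidHom.toAdditive (MulAut.conjNormal i).toMonoidHom).toIntLinearMap
    (MonoidHom.toAdditive (MulAut.conjNormal j).toMonoidHom).toIntLinearMap
    (LinearMap.ext fun k => Subtype.ext ?_) (LinearMap.ext fun k => Subtype.ext ?_)
    (LinearMap.ext fun k => Subtype.ext ?_)⟩
  · refine Eq.trans ?_ (h7 _ k.toMul.2)
    change i * (i * k.toMul * i⁻¹) * i⁻¹ = i * i * k.toMul * (i * i)⁻¹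
    group
  · refine Eq.trans ?_ (h7 _ k.toMul.2)
    change j * (j * k.toMul * j⁻¹) * j⁻¹ = i * i * k.toMul * (i * i)⁻¹
    rw [← h5]
    group
  · refine Eq.trans ?_ (h7 _ (MulAut.conjNormal i (MulAut.conjNormal j k.toMul)).2)
    change j * (i * k.toMul * i⁻¹) * j⁻¹ = i * i * (i * (j * k.toMul * j⁻¹) * i⁻¹) * (i * i)⁻¹
    rw [show j * (i * k.toMul * i⁻¹) * j⁻¹ = (j * i) * k.toMul * (j * i)⁻¹ by group, h6]
    group

end Cfsg.Agent.S4296
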