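import Cfsg.Statements.S4295
import Cfsg.Agent.Perm.FCExist
import Cfsg.Agent.S4296

set_option autoImplicit false
open Cfsg

namespace Cfsg.Agent.S4295

open Cfsg.Lib.Perm Cfsg.Lib.Solv Subgroup

theorem exists_rep (k : ℕ) (hk : Odd k) : ∃ (A : Type) (_ : AddCommGroup A) (_ : Finite A)
    (I J : Module.End ℤ A), Nat.card A = k * k ∧ I * I = -1 ∧ J * J = -1 ∧ J * I = -(I * J) := by
  induction k using Nat.recOnMul with
  | zero => simp at hk
  | one => exact ⟨Unit, inferInstance, inferInstance, 0, 0, by simp, Subsingleton.elim _ _,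
      Subsingleton.elim _ _, Subsingleton.elim _ _⟩
  | prime p hp =>
    have := Fact.mk hp
    obtain ⟨x, y, h⟩ := ZMod.sq_add_sq p (-1)
    refine ⟨Fin 2 → ZMod p, inferInstance, inferInstance,
      (Matrix.toLin' !![0, -1; 1, 0]).restrictScalars ℤ,
      (Matrix.toLin' !![x, y; y, -x]).restrictScalars ℤ, by simp [pow_two], ?_, ?_, ?_⟩
    · refine LinearMap.ext fun v => funext fun i => ?_
      fin_cases i <;> simp [Matrix.mulVec, dotProduct, Fin.sum_univ_two]
    · refine LinearMap.ext fun v => funext fun i => ?_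
      fin_cases i <;> simp [Matrix.mulVec, dotProduct, Fin.sum_univ_two]
      · linear_combination v 0 * h
      · linear_combination v 1 * h
    · refine LinearMap.ext fun v => funext fun i => ?_
      fin_cases i <;> simp [Matrix.mulVec, dotProduct, Fin.sum_univ_two]
      ring
  | mul a b ha hb =>
    obtain ⟨A, _, _, I, J, h1, h2, h3, h4⟩ := ha (Nat.odd_mul.mp hk).1
    obtain ⟨B, _, _, I', J', h5, h6, h7, h8⟩ := hb (Nat.odd_mul.mp hk).2
    refine ⟨A × B, inferInstance, inferInstance, I.prodMap I', J.prodMap J',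
      by rw [Nat.card_prod, h1, h5]; ring, ?_, ?_, ?_⟩
    · exact LinearMap.ext fun v => Prod.ext (DFunLike.congr_fun h2 v.1) (DFunLike.congr_fun h6 v.2)
    · exact LinearMap.ext fun v => Prod.ext (DFunLike.congr_fun h3 v.1) (DFunLike.congr_fun h7 v.2)
    · exact LinearMap.ext fun v => Prod.ext (DFunLike.congr_fun h4 v.1) (DFunLike.congr_fun h8 v.2)

theorem exists_hom {R : Type*} [Ring R] {I J : R} (h2 : I * I = -1) (h3 : J * J = -1)
    (h4 : J * I = -(I * J)) : ∃ ρ : QuaternionGroup 2 →* R, ρ (QuaternionGroup.a 2) = -1 := by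
  have h5 : I ^ 4 = 1 := by
    rw [show I ^ 4 = I * I * (I * I) by noncomm_ring, h2]; simp
  let ψ : AddChar (ZMod (2 * 2)) R :=
    { toFun := fun i => I ^ i.val
      map_zero_eq_one' := pow_zero I
      map_add_eq_mul' := fun i j => by rw [ZMod.val_add, ← pow_eq_pow_mod _ h5, pow_add] }
  have h6 : ψ 1 = I := pow_one I
  have h7 : ψ 2 = -1 := (pow_two I).trans h2
  have h8 : ∀ i, ψ i * J = J * ψ (-i) := by
    have h9 : ∀ n : ℕ, ψ n * J = J * ψ (-n) := fun n => by
      induction n with
      | zero => simp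
      | succ n ih =>
        rw [Nat.cast_succ, AddChar.map_add_eq_mul, neg_add, add_comm, AddChar.map_add_eq_mul,
          mul_assoc, h6, show (-1 : ZMod (2 * 2)) = 2 + 1 by decide, AddChar.map_add_eq_mul, h7, h6,
          ← mul_assoc J, neg_one_mul, mul_neg, h4, neg_neg, mul_assoc I, ← ih, ← mul_assoc,
          ← mul_assoc, ← h6, ← AddChar.map_add_eq_mul, ← AddChar.map_add_eq_mul, add_comm]
    intro i
    obtain ⟨n, rfl⟩ := ZMod.natCast_zmod_surjective i
    exact h9 n
  refine ⟨{ toFun := fun x => match x with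
              | QuaternionGroup.a i => ψ i
              | QuaternionGroup.xa i => J * ψ i
            map_one' := AddChar.map_zero_eq_one ψ
            map_mul' := ?_ }, h7⟩
  rintro (i | i) (j | j)
  · simp only [QuaternionGroup.a_mul_a, AddChar.map_add_eq_mul]
  · simp only [QuaternionGroup.a_mul_xa]
    rw [← mul_assoc, h8, mul_assoc, ← AddChar.map_add_eq_mul, neg_add_eq_sub]
  · simp only [QuaternionGroup.xa_mul_a, AddChar.map_add_eq_mul, mul_assoc]
  · simp only [QuaternionGroup.xa_mul_xa]
    rw [mul_assoc, ← mul_assoc _ J, h8, ← mul_assoc, ← mul_assoc, h3, ← h7,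
      ← AddChar.map_add_eq_mul, ← AddChar.map_add_eq_mul]
    congr 1
    push_cast
    ring

theorem q8_pow : ∀ g : QuaternionGroup 2, g ≠ 1 →
    g = QuaternionGroup.a 2 ∨ g * g = QuaternionGroup.a 2 := by decide


/-- For a natural number m the following are equivalent: (a) some finite group has a Frobenius complement isomorphic to the quaternion group of order 8 whose Frobenius kernel (the identity together with the elements lying in no conjugate of the complement) has exactly m elements; (b) m is an odd perfect square greater than 1. -/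
theorem result (m : ℕ) :
    (∃ (L : Type) (_ : Group L) (_ : Finite L) (H : Subgroup L), Cfsg.IsFrobeniusComplement H ∧
        Nonempty (H ≃* QuaternionGroup 2) ∧ Nat.card (Cfsg.frobeniusKernel H) = m) ↔
    (Odd m ∧ IsSquare m ∧ 1 < m) := by
  constructor
  · rintro ⟨L, _, _, H, hH, ⟨e⟩, rfl⟩
    have : Fact (Nat.Prime 2) := ⟨Nat.prime_two⟩
    let P : Sylow 2 H := default
    have hP : (P : Subgroup H) = ⊤ :=
      (P.3 ((Lib.Trans.q8_isPGroup e).to_subgroup ⊤) le_top).symm
    obtain ⟨h1, h2⟩ := S4296.result H hH ⟨2, this, P, fun hc => by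
      have := (((MulEquiv.subgroupCongr hP).trans topEquiv).trans e).isCyclic.mp hc
      exact absurd (mul_comm' (QuaternionGroup.a 1 : QuaternionGroup 2) (QuaternionGroup.xa 0))
        (by decide)⟩
    refine ⟨h1, h2, ?_⟩
    rw [(isMalnormal_of_isFrobeniusComplement hH).card_frobeniusKernel]
    exact one_lt_index_of_ne_top hH.2.1
  rintro ⟨h1, ⟨k, rfl⟩, h2⟩
  obtain ⟨A, _, _, I, J, h3, h4, h5, h6⟩ := exists_rep k (Nat.odd_mul.mp h1).1
  obtain ⟨ρ, hρ⟩ := exists_hom h4 h5 h6
  have : Nontrivial A := Finite.one_lt_card_iff_nontrivial.mp (h3 ▸ h2)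
  obtain ⟨L, _, _, H, h7, ⟨e⟩, h8⟩ := exists_frobenius_of_rep.{0} ρ fun g hg a ha => by
    have h9 : ρ (QuaternionGroup.a 2) a = a := by
      rcases q8_pow g hg with h | h <;> rw [← h]
      · exact ha
      · rw [map_mul, Module.End.mul_apply, ha, ha]
    rw [hρ, LinearMap.neg_apply, Module.End.one_apply, neg_eq_iff_add_eq_zero, ← two_nsmul] at h9
    exact AddMonoid.addOrderOf_eq_one_iff.mp (Nat.eq_one_of_dvd_coprimes
      (Nat.coprime_two_left.mpr (h3 ▸ h1)) (addOrderOf_dvd_of_nsmul_eq_zero h9)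
      (addOrderOf_dvd_natCard a))
  exact ⟨L, inferInstance, inferInstance, H, h7, ⟨e.symm⟩, h8.trans h3⟩

end Cfsg.Agent.S4295
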