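import Cfsg.Statements.S4297
import Cfsg.Agent.Perm.FCExist
import Mathlib.Analysis.Quaternion
import Mathlib.Analysis.SpecialFunctions.Complex.CircleAddChar

set_option autoImplicit false
open Cfsg

namespace Cfsg.Agent.S4297

open Cfsg.Lib.Perm Quaternion

/-- The quaternion `j`. -/
def qj : ℍ[ℝ] := ⟨0, 0, 1, 0⟩

theorem qj_re : qj.re = 0 := rfl
theorem qj_imI : qj.imI = 0 := rfl
theorem qj_imJ : qj.imJ = 1 := rfl
theorem qj_imK : qj.imK = 0 := rfl

theorem mul_qj (z : ℂ) : (z : ℍ[ℝ]) * qj = qj * (starRingEnd ℂ z : ℂ) := by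
  ext <;> simp [qj_re, qj_imI, qj_imJ, qj_imK]

theorem qj_mul_qj : qj * qj = ((-1 : ℂ) : ℍ[ℝ]) := by
  ext <;> simp [qj_re, qj_imI, qj_imJ, qj_imK]


/-- For every n ≥ 2 the dicyclic group of order 4n (generated by an element a of order 2n and an element x with x² = aⁿ and x a x⁻¹ = a⁻¹) occurs as a Frobenius complement of some finite Frobenius group. -/
theorem result (n : ℕ) (hn : 2 ≤ n) :
    ∃ (L : Type) (_ : Group L) (_ : Finite L) (H : Subgroup L), Cfsg.IsFrobeniusComplement H ∧ Nonempty (H ≃* QuaternionGroup n) := by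
  have : NeZero (2 * n) := ⟨by omega⟩
  have : NeZero n := ⟨by omega⟩
  let ψ := ZMod.stdAddChar (N := 2 * n)
  have hn' : ψ n = -1 := by
    have h1 : ψ n * ψ n = 1 := by
      rw [← AddChar.map_add_eq_mul, ← Nat.cast_add, ← two_mul, ZMod.natCast_self,
        AddChar.map_zero_eq_one]
    refine (mul_self_eq_one_iff.mp h1).resolve_left fun e => ?_
    have := ZMod.injective_stdAddChar (e.trans (AddChar.map_zero_eq_one ψ).symm)
    rw [ZMod.natCast_eq_zero_iff] at this
    have := Nat.le_of_dvd (by omega) this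
    omega
  let ρ : QuaternionGroup n →* ℍ[ℝ] :=
    { toFun := fun x => match x with
        | QuaternionGroup.a i => (ψ i : ℂ)
        | QuaternionGroup.xa i => qj * (ψ i : ℂ)
      map_one' := by
        change ((ψ 0 : ℂ) : ℍ[ℝ]) = 1
        rw [AddChar.map_zero_eq_one, coeComplex_one]
      map_mul' := by
        rintro (i | i) (j | j)
        · simp only [QuaternionGroup.a_mul_a, AddChar.map_add_eq_mul, coeComplex_mul]
        · simp only [QuaternionGroup.a_mul_xa]
          rw [← mul_assoc, mul_qj, mul_assoc, ← coeComplex_mul, ← AddChar.map_neg_eq_conj,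
            ← AddChar.map_add_eq_mul, neg_add_eq_sub]
        · simp only [QuaternionGroup.xa_mul_a, AddChar.map_add_eq_mul, coeComplex_mul, mul_assoc]
        · simp only [QuaternionGroup.xa_mul_xa]
          rw [mul_assoc, ← mul_assoc _ qj, mul_qj, ← mul_assoc, ← mul_assoc, qj_mul_qj,
            ← coeComplex_mul, ← coeComplex_mul, ← AddChar.map_neg_eq_conj, ← hn',
            ← AddChar.map_add_eq_mul, ← AddChar.map_add_eq_mul]
          congr 2
          ring }
  have hρ : Function.Injective ρ := (injective_iff_map_eq_one ρ).mpr (by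
    rintro (i | i) h
    · have h1 : ψ i = ψ 0 := by
        rw [AddChar.map_zero_eq_one]
        exact ofComplex.toRingHom.injective (h.trans (map_one _).symm)
      rw [ZMod.injective_stdAddChar h1]
      rfl
    · have h1 := congrArg QuaternionAlgebra.re h
      simp [ρ, qj_re, qj_imI, qj_imJ, qj_imK] at h1)
  obtain ⟨L, _, _, H, h1, ⟨e⟩⟩ := (FPF.of_injective hρ).exists_frobenius.{0}
  exact ⟨L, inferInstance, inferInstance, H, h1, ⟨e.symm⟩⟩

end Cfsg.Agent.S4297
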