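import Cfsg.Statements.S4298
import Cfsg.Agent.Perm.FCExist

set_option autoImplicit false
open Cfsg

namespace Cfsg.Agent.S4298

open Cfsg.Lib.Perm

/-- An entry of the embedding of `SL₂(3)` in `SL₂(5)`. -/
def ent (x : SL23) (k : ℕ) : ZMod 5 :=
  ((0x42410000000000000224114000000000000000003121000020230000041100000000324300000000331300000000400400000000303200000000000000002434000001440000000000000331131400000000000044100000000022420000000023120000000010010000000000000000143312203402000000000000433041222103000000000000000000000000000000000000000000000000000000000000 >>>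
    (16 * ((((x.1 0 0).val * 3 + (x.1 0 1).val) * 3 + (x.1 1 0).val) * 3 + (x.1 1 1).val) + 4 * k)
    % 16 : ℕ) : ZMod 5)

/-- An embedding of `SL₂(3)` in `SL₂(5)`. -/
def emb (x : SL23) : Matrix (Fin 2) (Fin 2) (ZMod 5) := !![ent x 0, ent x 1; ent x 2, ent x 3]

theorem emb_mul : ∀ x y : SL23, emb (x * y) = emb x * emb y := by
  simp only [forall_sl2]
  decide +kernel

theorem emb_one : emb 1 = 1 := by decide +kernel

theorem emb_det : ∀ x : SL23, x ≠ 1 → (ent x 0 - 1) * (ent x 3 - 1) - ent x 1 * ent x 2 ≠ 0 := by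
  simp only [forall_sl2]
  decide +kernel


/-- The group SL(2,3) of order 24 (the binary tetrahedral group) occurs as a Frobenius complement of some finite Frobenius group. -/
theorem result :
    ∃ (L : Type) (_ : Group L) (_ : Finite L) (H : Subgroup L), Cfsg.IsFrobeniusComplement H ∧ Nonempty (H ≃* Matrix.SpecialLinearGroup (Fin 2) (ZMod 3)) := by
  have : Fact (Nat.Prime 5) := ⟨by norm_num⟩
  have : Nontrivial SL23 := Finite.one_lt_card_iff_nontrivial.mp (by rw [card_SL23]; norm_num)
  let ρ : SL23 →* Matrix (Fin 2) (Fin 2) (ZMod 5) := ⟨⟨emb, emb_one⟩, emb_mul⟩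
  have h : FPF ρ := fun x hx => (Matrix.isUnit_iff_isUnit_det _).mpr (IsUnit.mk0 _ (by
    rw [Matrix.det_fin_two]
    simpa [ρ, emb] using emb_det x hx))
  obtain ⟨L, _, _, H, h1, ⟨e⟩⟩ := h.exists_frobenius.{0}
  exact ⟨L, inferInstance, inferInstance, H, h1, ⟨e.symm⟩⟩

end Cfsg.Agent.S4298
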