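import Cfsg.Statements.S4330
-- import your own Cfsg.Agent.* helpers here
import Cfsg.Agent.Solv.RegOrb
import Cfsg.Agent.Solv.NilpotentHall
import Cfsg.Agent.Solv.Fitting

set_option autoImplicit false
open Pointwise
open Cfsg

namespace Cfsg.Agent.S4330

section
open Subgroup Cfsg.Lib.Solv

universe u

theorem mem_pCore {p : ℕ} [hp : Fact p.Prime] (hp2 : p ≠ 2) (G : Type u) [Group G] [Finite G] :
    Group.IsSolvable G → ∀ a : G, (∀ c : G, ∃ g, IsConj c g ∧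
      IsPGroup p (zpowers a ⊔ zpowers (g * a * g⁻¹) : Subgroup G)) → a ∈ pCore p G := by
  refine card_induction (P := fun G _ _ => Group.IsSolvable G → ∀ a : G, (∀ c : G, ∃ g, IsConj c g ∧
      IsPGroup p (zpowers a ⊔ zpowers (g * a * g⁻¹) : Subgroup G)) → a ∈ pCore p G) ?_ G
  intro G _ _ ih _ a h
  have hq : ∀ (N : Subgroup G) [N.Normal], N ≠ ⊥ → ∀ a : G, (∀ c : G, ∃ g, IsConj c g ∧
      IsPGroup p (zpowers a ⊔ zpowers (g * a * g⁻¹) : Subgroup G)) →
      (a : G ⧸ N) ∈ pCore p (G ⧸ N) := fun N _ hN a h =>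
    ih _ (card_quotient_lt hN) inferInstance _ fun c => by
      obtain ⟨c, rfl⟩ := QuotientGroup.mk_surjective c
      obtain ⟨g, h1, h2⟩ := h c
      refine ⟨g, (QuotientGroup.mk' N).map_isConj h1, ?_⟩
      have h3 := h2.map (QuotientGroup.mk' N)
      rwa [Subgroup.map_sup, MonoidHom.map_zpowers, MonoidHom.map_zpowers] at h3
  by_cases h0 : pCore p G = ⊥
  swap
  · have h1 := hq _ h0 a h
    rwa [pCore_quotient_pCore, mem_bot, QuotientGroup.eq_one_iff] at h1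
  by_contra hna
  have ha1 : a ≠ 1 := fun h1 => hna (h1 ▸ one_mem _)
  obtain ⟨k, hk⟩ : ∃ k, orderOf a = p ^ k := by
    obtain ⟨g, -, h1⟩ := h 1
    obtain ⟨k, hk⟩ := IsPGroup.iff_orderOf.1 h1 ⟨a, mem_sup_left (mem_zpowers a)⟩
    exact ⟨k, by rw [← hk, ← orderOf_coe]⟩
  obtain ⟨k, rfl⟩ : ∃ j, k = j + 1 := ⟨k - 1, by
    have : k ≠ 0 := fun h1 => ha1 (orderOf_eq_one_iff.1 (by rw [hk, h1, pow_zero]))
    omega⟩
  obtain ⟨b, hb⟩ : ∃ b, b = a ^ p ^ k := ⟨_, rfl⟩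
  have hbp : b ^ p = 1 := by rw [hb, ← pow_mul, ← pow_succ, ← hk, pow_orderOf_eq_one]
  have hb1 : b ≠ 1 := by
    rw [hb, Ne, ← orderOf_dvd_iff_pow_eq_one, hk, Nat.pow_dvd_pow_iff_le_right hp.out.one_lt]
    omega
  have hb' : ∀ c : G, ∃ g, IsConj c g ∧
      IsPGroup p (zpowers b ⊔ zpowers (g * b * g⁻¹) : Subgroup G) := fun c => by
    obtain ⟨g, h1, h2⟩ := h c
    refine ⟨g, h1, h2.to_le (sup_le_sup (zpowers_le.2 ?_) (zpowers_le.2 ?_))⟩
    · exact hb ▸ pow_mem (mem_zpowers a) _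
    · rw [hb, ← conj_pow]
      exact pow_mem (mem_zpowers _) _
  have : Nontrivial G := ⟨⟨b, 1, hb1⟩⟩
  obtain ⟨q, V, hqp, hV, hVc, -, hqV⟩ := exists_isMinNormal_elementary G
  have := hV.normal
  have : Fact q.Prime := ⟨hqp⟩
  have hne : q ≠ p := by
    rintro rfl
    exact hV.ne_bot (eq_bot_iff.2 (h0 ▸ le_pCore hV.normal hqV))
  have hcop : (Nat.card V).Coprime p :=
    coprime_card_of_isPGroup hqV ((Nat.coprime_primes hp.out hqp).2 hne.symm)
  by_cases hc : b ∈ centralizer (V : Set G)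
  · let L := (pCore p (G ⧸ V)).comap (QuotientGroup.mk' V) ⊓ centralizer (V : Set G)
    have hL : Group.IsNilpotent L := isNilpotent_of_map_mk'_of_le_centralizer inf_le_right
      ((pCore_isPGroup p (G ⧸ V)).to_le (map_le_iff_le_comap.2 inf_le_left)).isNilpotent
    have h1 := map_pCore_le_of_normal L ((mem_map_pCore_iff_of_isNilpotent hL (p := p)).2
      ⟨⟨hq V hV.ne_bot b hb', hc⟩, 1, by rw [pow_one, orderOf_eq_prime hbp hb1]⟩)
    rw [h0] at h1
    exact hb1 h1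
  let _ : CommGroup V := { (inferInstance : Group V) with mul_comm := mul_comm' }
  let ψ : G →* MulAut V := MulAut.conjNormal
  have hker : ∀ g, g ∈ ψ.ker ↔ g ∈ centralizer (V : Set G) := fun g => by
    rw [MonoidHom.mem_ker, mem_centralizer_iff]
    refine ⟨fun h v hv => ?_, fun h => MulEquiv.ext fun v => Subtype.ext ?_⟩
    · have h1 : g * v * g⁻¹ = v := congrArg Subtype.val (DFunLike.congr_fun h (⟨v, hv⟩ : V))
      rw [← h1, inv_mul_cancel_right, h1]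
    · change g * v * g⁻¹ = v
      rw [← h v v.2, mul_inv_cancel_right]
  obtain ⟨v, hv⟩ := RegOrb.avoid hp2 _ (G ⧸ ψ.ker) V le_rfl (QuotientGroup.kerLift ψ) (pCore p _)
    (b : G ⧸ ψ.ker) inferInstance (pCore_isPGroup p _)
    (hq _ (fun h => hV.ne_bot (eq_bot_iff.2 fun v hv => h.le ((hker v).2 fun w hw =>
      congrArg Subtype.val (mul_comm (⟨w, hw⟩ : V) ⟨v, hv⟩)))) b hb')
    (by rw [← QuotientGroup.mk_pow, hbp]; rfl) hcop (fun h => hc ((hker b).1 h))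
  obtain ⟨g, h1, h2⟩ := hb' v
  obtain ⟨x, rfl⟩ := isConj_iff.1 h1
  have h3 := hV.normal.conj_mem _ v.2 x
  refine hv (x⁻¹ : G) (Subtype.ext ?_)
  change x⁻¹ * b * x⁻¹⁻¹ * v * (x⁻¹ * b * x⁻¹⁻¹)⁻¹ = v
  have h4 : x * v * x⁻¹ * (b * (x * v * x⁻¹)⁻¹ * b⁻¹) = 1 :=
    (inf_eq_bot_of_coprime_card (coprime_card_of_isPGroup h2 hcop)).le (mem_inf.2 ⟨by
      rw [show x * v * x⁻¹ * (b * (x * v * x⁻¹)⁻¹ * b⁻¹) =
        x * v * x⁻¹ * b * (x * v * x⁻¹)⁻¹ * b⁻¹ by group]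
      exact mul_mem (mem_sup_right (mem_zpowers _)) (mem_sup_left (inv_mem (mem_zpowers _))),
      V.mul_mem h3 (hV.normal.conj_mem _ (V.inv_mem h3) b)⟩)
  calc x⁻¹ * b * x⁻¹⁻¹ * v * (x⁻¹ * b * x⁻¹⁻¹)⁻¹
      = x⁻¹ * (x * v * x⁻¹ * (b * (x * v * x⁻¹)⁻¹ * b⁻¹))⁻¹ * x * v := by group
    _ = v := by rw [h4]; group

end

/-- Let G be a finite solvable group, p an odd prime and A a p-subgroup of G such that every conjugacy class of G contains an element g for which A is subnormal in the subgroup generated by A and its conjugate by g. Then A is contained in O_p(G). (The hypothesis that p is odd is needed.) -/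
theorem result {G : Type*} [Group G] [Finite G]
    (hG : Group.IsSolvable G) (p : ℕ) [Fact p.Prime] (hp : p ≠ 2) (A : Subgroup G) (hA : IsPGroup p A)
    (h : ∀ c : G, ∃ g : G, IsConj c g ∧ (A.subgroupOf (A ⊔ MulAut.conj g • A)).IsSubnormal) :
    A ≤ Cfsg.pCore p G := by
  refine fun a ha => mem_pCore hp G hG a fun c => ?_
  obtain ⟨g, h1, h2⟩ := h c
  refine ⟨g, h1, IsPGroup.to_le (K := A ⊔ MulAut.conj g • A) ?_ (sup_le_sup (Subgroup.zpowers_le.2 ha)
    (Subgroup.zpowers_le.2 (Lib.Solv.conj_mem_conj_smul g ha)))⟩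
  have h3 := Lib.Solv.map_pCore_le_of_isSubnormal (p := p) h2
  have h5 : IsPGroup p (A.subgroupOf (A ⊔ MulAut.conj g • A)) := hA.comap_subtype
  rw [(Lib.Solv.pCore_eq_top_iff).2 h5, ← MonoidHom.range_eq_map, Subgroup.range_subtype] at h3
  have h4 := IsPGroup.to_sup_of_normal_left (Lib.Solv.pCore_isPGroup p ↥(A ⊔ MulAut.conj g • A))
    (Lib.Solv.isPGroup_conj_smul hA g).comap_subtype
  refine (h4.to_le (K := _) (H := ⊤) ?_).of_equiv Subgroup.topEquiv
  rw [← Subgroup.subgroupOf_self, Subgroup.subgroupOf_sup le_sup_left le_sup_right]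
  exact sup_le_sup_right h3 _

end Cfsg.Agent.S4330
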