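import Cfsg.Statements.S4331
import Cfsg.Agent.Char.Burnside
import Cfsg.Agent.Solv.Cores
import Cfsg.Agent.Solv.SylowChain
import Cfsg.Agent.Solv.Nilpotent

set_option autoImplicit false
open Cfsg

namespace Cfsg.Agent.S4331

open Subgroup

/-- The semidihedral group of order sixteen. -/
def SD : Type := ZMod 8 × ZMod 2

instance : Fintype SD := inferInstanceAs (Fintype (ZMod 8 × ZMod 2))
instance : DecidableEq SD := inferInstanceAs (DecidableEq (ZMod 8 × ZMod 2))
instance : Mul SD := ⟨fun x y => (x.1 + 3 ^ x.2.val * y.1, x.2 + y.2)⟩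
instance : One SD := ⟨(0, 0)⟩
instance : Inv SD := ⟨fun x => (-(3 ^ x.2.val * x.1), x.2)⟩
instance : Group SD := Group.ofLeftAxioms (by decide +kernel) (by decide) (by decide)

/-- The additive group of the field with nine elements. -/
abbrev V : Type := Multiplicative (ZMod 3 × ZMod 3)

instance : MulDistribMulAction SD V where
  smul h v := (fun w : ZMod 3 × ZMod 3 => (w.1 - w.2, w.1 + w.2))^[h.1.val]
    (v.toAdd.1, (-1) ^ h.2.val * v.toAdd.2)
  mul_smul := by decide +kernel
  one_smul := by decide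
  smul_mul := by decide +kernel
  smul_one := by decide

/-- The semilinear affine group of the field with nine elements. -/
abbrev Γ : Type := V ⋊[MulDistribMulAction.toMulAut SD V] SD

/-- A reflection. -/
def a : Γ := ⟨1, (0, 1)⟩

/-- A translation inverted by the reflection. -/
def b : Γ := ⟨Multiplicative.ofAdd (0, 1), 1⟩

theorem exists_conj : ∀ v h, ∃ w k, a * ((⟨w, k⟩ : Γ) * ⟨v, h⟩ * (⟨w, k⟩ : Γ)⁻¹) =
    (⟨w, k⟩ : Γ) * ⟨v, h⟩ * (⟨w, k⟩ : Γ)⁻¹ * a ∨
    ((⟨w, k⟩ : Γ) * ⟨v, h⟩ * (⟨w, k⟩ : Γ)⁻¹).left = 1 := by decide +kernel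


/-- There is a finite solvable group G with a subgroup A of order 2 such that every conjugacy class of G contains an element g for which A is subnormal in the subgroup generated by A and g, and yet A is not contained in O_2(G). (So the corresponding criteria for odd primes fail at the prime 2, even for solvable groups.) -/
theorem result :
    ∃ (G : Type) (_ : Group G) (_ : Finite G) (A : Subgroup G), Group.IsSolvable G ∧ Nat.card A = 2 ∧
      (∀ c : G, ∃ g : G, IsConj c g ∧ (A.subgroupOf (A ⊔ Subgroup.zpowers g)).IsSubnormal) ∧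
      ¬ A ≤ Cfsg.pCore 2 G := by
  have hc : Nat.card Γ = 2 ^ 4 * 3 ^ 2 := by
    rw [SemidirectProduct.card, Nat.card_eq_fintype_card, Nat.card_eq_fintype_card]; rfl
  have : Finite Γ := Nat.finite_of_card_ne_zero (by rw [hc]; decide)
  have ha : orderOf a = 2 := orderOf_eq_prime (by decide) (by decide)
  refine ⟨Γ, inferInstance, this, zpowers a, Lib.Char.isSolvable_of_card_dvd Nat.prime_two
    Nat.prime_three _ hc.dvd, by rw [Nat.card_zpowers, ha], fun c => ?_, fun h => ?_⟩
  · obtain ⟨v, k, h⟩ := exists_conj c.left c.right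
    refine ⟨_, isConj_iff.2 ⟨⟨v, k⟩, rfl⟩, ?_⟩
    rcases h with h | h
    · have := Lib.Solv.isMulCommutative_zpowers_sup h
      exact Normal.isSubnormal inferInstance
    · have h2 : IsPGroup 2 (SemidirectProduct.inr : SD →* Γ).range :=
        (IsPGroup.of_card (n := 4) (G := SD) (Nat.card_eq_fintype_card.trans rfl)).of_surjective _
          (MonoidHom.rangeRestrict_surjective _)
      have := (h2.to_le (sup_le (a := zpowers a) (zpowers_le.2 ⟨a.right, rfl⟩) (zpowers_le.2
        ⟨_, SemidirectProduct.ext h.symm rfl⟩))).isNilpotent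
      exact Lib.Solv.isSubnormal_of_isNilpotent _
  · have h1 := h (mem_zpowers a)
    obtain ⟨k, hk⟩ := Lib.Solv.pCore_isPGroup 2 _
      ⟨_, mul_mem h1 ((inferInstance : (pCore 2 Γ).Normal).conj_mem _ h1 b)⟩
    have h2 : orderOf (a * (b * a * b⁻¹)) = 3 := orderOf_eq_prime (by decide) (by decide)
    exact absurd (Nat.prime_three.dvd_of_dvd_pow
      (h2 ▸ orderOf_dvd_of_pow_eq_one (congrArg Subtype.val hk))) (by decide)

end Cfsg.Agent.S4331
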