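import Cfsg.Statements.S4332
import Cfsg.Agent.Perm.SpecAlt
import Cfsg.Agent.Solv.Cores
import Cfsg.Agent.Solv.SylowChain

set_option autoImplicit false
open Pointwise
open Cfsg

namespace Cfsg.Agent.S4332

open Equiv Equiv.Perm Cfsg.Lib.Perm

/-- A permutation with prescribed cycle lengths. -/
def rep : ℕ → List ℕ → Perm (Fin 8)
  | _, [] => 1
  | s, a :: l => ((List.range a).map fun i => Fin.ofNat 8 (s + i)).formPerm * rep (s + a) l

theorem cycleType_rep : ∀ l ∈ comps 8 8, (rep 0 l).cycleType = l := by decide +kernel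

theorem exists_comm : ∀ l ∈ comps 8 8, ∃ x y z : Fin 8, x ≠ y ∧ x ≠ z ∧ y ≠ z ∧ ∀ w,
    (swap x y * swap x z) ((rep 0 l * (swap x y * swap x z) * (rep 0 l)⁻¹) w) =
      (rep 0 l * (swap x y * swap x z) * (rep 0 l)⁻¹) ((swap x y * swap x z) w) := by
  decide +kernel


/-- In the symmetric group of degree 8, let A be the subgroup generated by a 3-cycle. Then every conjugacy class contains an element g for which A is subnormal in the subgroup generated by A and its conjugate by g, although O_3 of the symmetric group of degree 8 is trivial. -/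
theorem result
    (σ : Equiv.Perm (Fin 8)) (hσ : σ.IsThreeCycle) :
    (∀ c : Equiv.Perm (Fin 8), ∃ g : Equiv.Perm (Fin 8), IsConj c g ∧
      ((Subgroup.zpowers σ).subgroupOf (Subgroup.zpowers σ ⊔ MulAut.conj g • Subgroup.zpowers σ)).IsSubnormal) ∧
    Cfsg.pCore 3 (Equiv.Perm (Fin 8)) = ⊥ := by
  refine ⟨fun c => ?_, by_contra fun h => ?_⟩
  · obtain ⟨l, hl, hc⟩ := (exists_cycleType_eq_iff_comps (Fintype.card_fin 8) _).1 ⟨c, rfl⟩
    obtain ⟨x, y, z, h1, h2, h3, h4⟩ := exists_comm l hl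
    obtain ⟨u, hu⟩ := isConj_iff.1 (isConj_iff_cycleType_eq.2
      ((isThreeCycle_swap_mul_swap_same h1 h2 h3).trans hσ.symm))
    refine ⟨u * rep 0 l * u⁻¹, (isConj_iff_cycleType_eq.2
      (hc.symm.trans (cycleType_rep l hl).symm)).trans (isConj_iff.2 ⟨u, rfl⟩), ?_⟩
    rw [Lib.Solv.conj_smul_zpowers]
    have := Lib.Solv.isMulCommutative_zpowers_sup (x := σ)
      (y := u * rep 0 l * u⁻¹ * σ * (u * rep 0 l * u⁻¹)⁻¹) (by
        have h5 := congrArg (fun t => u * t * u⁻¹) (Equiv.ext h4 : swap x y * swap x z *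
          (rep 0 l * (swap x y * swap x z) * (rep 0 l)⁻¹) =
          rep 0 l * (swap x y * swap x z) * (rep 0 l)⁻¹ * (swap x y * swap x z))
        simpa [← hu, mul_assoc] using h5)
    exact Subgroup.Normal.isSubnormal inferInstance
  · have h1 := alternatingGroup_le_of_normal (N := pCore 3 (Perm (Fin 8))) (by simp)
      ((Subgroup.nontrivial_iff_ne_bot _).2 h)
    obtain ⟨k, hk⟩ := Lib.Solv.pCore_isPGroup 3 _
      ⟨swap 0 1 * swap 2 3, h1 (by simp [mem_alternatingGroup])⟩
    have h2 : orderOf (swap 0 1 * swap 2 3 : Perm (Fin 8)) = 2 :=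
      orderOf_eq_prime (by decide) (by decide)
    exact absurd (Nat.prime_two.dvd_of_dvd_pow
      (h2 ▸ orderOf_dvd_of_pow_eq_one (congrArg Subtype.val hk))) (by decide)

end Cfsg.Agent.S4332
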