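import Cfsg.Statements.S4337
import Cfsg.Agent.Known.SymMisc
import Cfsg.Agent.Char.Burnside

set_option autoImplicit false
open Cfsg

namespace Cfsg.Agent.S4337

open Cfsg.Lib.Known Equiv

theorem solv_of_card_le {n : ℕ} (s : Finset (Fin n)) (hs : s.card ≤ 4) (T : Set (Perm (Fin n)))
    (h : ∀ g ∈ T, g.support ⊆ s) : Group.IsSolvable (Subgroup.closure T) := by
  refine Cfsg.Lib.Char.isSolvable_of_card_dvd (a := 3) (b := 1) Nat.prime_two Nat.prime_three _ ?_
  have h1 : Subgroup.closure T ≤ (Perm.ofSubtype : Perm {x // x ∈ s} →* Perm (Fin n)).range :=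
    (Subgroup.closure_le _).2 fun g hg => mem_range_ofSubtype fun x hx => by
      by_contra e
      exact hx (h g hg (Perm.mem_support.2 e))
  refine (Subgroup.card_dvd_of_le h1).trans ((Subgroup.card_range_dvd _).trans ?_)
  rw [Nat.card_perm, Nat.card_eq_fintype_card, Fintype.card_coe]
  exact Nat.factorial_dvd_factorial hs

theorem solv_of_disjoint {n : ℕ} {a b c : Perm (Fin n)} (ha : a.IsSwap) (hb : b.IsSwap)
    (h1 : Disjoint a.support c.support) (h2 : Disjoint b.support c.support) :
    Group.IsSolvable (Subgroup.closure ({a, b, c} : Set (Perm (Fin n)))) := by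
  have := solv_of_card_le (a.support ∪ b.support) ((Finset.card_union_le _ _).trans (by
    rw [Perm.card_support_eq_two.2 ha, Perm.card_support_eq_two.2 hb])) {a, b} (by
      rintro g (rfl | rfl)
      · exact Finset.subset_union_left
      · exact Finset.subset_union_right)
  have hc : ∀ (x : Subgroup.closure ({a, b} : Set (Perm (Fin n)))) (y : Subgroup.zpowers c),
      Commute ((Subgroup.closure ({a, b} : Set (Perm (Fin n)))).subtype x)
        ((Subgroup.zpowers c).subtype y) := by
    rintro ⟨x, hx⟩ ⟨_, k, rfl⟩
    refine Commute.zpow_right ?_ k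
    have : Subgroup.closure ({a, b} : Set (Perm (Fin n))) ≤ Subgroup.centralizer {c} := by
      rw [Subgroup.closure_le]
      rintro g (rfl | rfl)
      · exact Subgroup.mem_centralizer_singleton_iff.2
          (Perm.disjoint_iff_disjoint_support.2 h1).commute
      · exact Subgroup.mem_centralizer_singleton_iff.2
          (Perm.disjoint_iff_disjoint_support.2 h2).commute
    exact Subgroup.mem_centralizer_singleton_iff.1 (this hx)
  have h3 : Subgroup.closure ({a, b, c} : Set (Perm (Fin n))) ≤
      (MonoidHom.noncommCoprod _ _ hc).range := by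
    rw [Subgroup.closure_le]
    rintro g (rfl | rfl | rfl)
    · exact ⟨(⟨g, Subgroup.subset_closure (by simp)⟩, 1), by simp⟩
    · exact ⟨(⟨g, Subgroup.subset_closure (by simp)⟩, 1), by simp⟩
    · exact ⟨(1, ⟨g, Subgroup.mem_zpowers g⟩), by simp⟩
  have : Group.IsSolvable (Subgroup.zpowers c) :=
    Group.isSolvable_of_comm (IsMulCommutative.is_comm (M := Subgroup.zpowers c)).1
  have := Group.isSolvable_of_surjective (MonoidHom.noncommCoprod _ _ hc).rangeRestrict_surjective
  exact Group.isSolvable_of_isSolvable_injective (Subgroup.inclusion_injective h3)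

theorem card_union_lt {n : ℕ} {s t : Finset (Fin n)} (h : ¬ Disjoint s t) :
    (s ∪ t).card + 1 ≤ s.card + t.card := by
  rw [← Finset.card_union_add_card_inter]
  exact Nat.add_le_add_left (Finset.card_pos.2 (Finset.not_disjoint_iff_nonempty_inter.1 h)) _

theorem solv_of_meet {n : ℕ} {a b c : Perm (Fin n)} (ha : a.IsSwap) (hb : b.IsSwap)
    (hc : c.IsSwap) (h1 : ¬ Disjoint a.support b.support)
    (h2 : ¬ Disjoint (a.support ∪ b.support) c.support) :
    Group.IsSolvable (Subgroup.closure ({a, b, c} : Set (Perm (Fin n)))) := by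
  have e1 := card_union_lt h1
  have e2 := card_union_lt h2
  rw [Perm.card_support_eq_two.2 ha, Perm.card_support_eq_two.2 hb] at e1
  rw [Perm.card_support_eq_two.2 hc] at e2
  refine solv_of_card_le (a.support ∪ b.support ∪ c.support) (by omega) _ ?_
  rintro g (rfl | rfl | rfl)
  · exact Finset.subset_union_left.trans Finset.subset_union_left
  · exact Finset.subset_union_right.trans Finset.subset_union_left
  · exact Finset.subset_union_right

/-- In a finite symmetric group, any three transpositions generate a solvable subgroup. -/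
theorem result (n : ℕ) (a b c : Equiv.Perm (Fin n))
    (ha : a.IsSwap) (hb : b.IsSwap) (hc : c.IsSwap) :
    Group.IsSolvable (Subgroup.closure ({a, b, c} : Set (Equiv.Perm (Fin n)))) := by
  by_cases h1 : Disjoint (a.support ∪ b.support) c.support
  · rw [Finset.disjoint_union_left] at h1
    exact solv_of_disjoint ha hb h1.1 h1.2
  by_cases h2 : Disjoint a.support b.support
  · by_cases h3 : Disjoint a.support c.support
    · rw [show ({a, b, c} : Set (Perm (Fin n))) = {b, c, a} by ext; simp; tauto]
      exact solv_of_disjoint hb hc h2.symm h3.symm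
    · rw [show ({a, b, c} : Set (Perm (Fin n))) = {a, c, b} by ext; simp; tauto]
      by_cases h4 : Disjoint c.support b.support
      · exact solv_of_disjoint ha hc h2 h4
      · exact solv_of_meet ha hc hb h3 fun h => h4 (Finset.disjoint_union_left.1 h).2
  · exact solv_of_meet ha hb hc h2 h1

end Cfsg.Agent.S4337
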