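import Cfsg.Statements.S4342
import Cfsg.Agent.Solv.SylowNumber
import Cfsg.Agent.Solv.Cores

set_option autoImplicit false
open Cfsg

namespace Cfsg.Agent.S4342

open Cfsg.Lib.Solv

/-- Let H be a normal subgroup of a finite group G and p a prime not dividing the index of H. Then the number of Sylow p-subgroups of H/Z(H) equals the number of Sylow p-subgroups of G. -/
theorem result {G : Type*} [Group G] [Finite G]
    (p : ℕ) [Fact p.Prime] (H : Subgroup G) [H.Normal] (hp : ¬ p ∣ H.index) :
    Nat.card (Sylow p (H ⧸ Subgroup.center H)) = Nat.card (Sylow p G) := by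
  obtain ⟨P⟩ : Nonempty (Sylow p G) := inferInstance
  have hPH : (P : Subgroup G) ≤ H := le_of_coprime_card_index
    (coprime_card_of_isPGroup P.2 ((Nat.Prime.coprime_iff_not_dvd Fact.out).2 hp).symm)
  rw [card_sylow_quotient_of_le_normalizer (P.subtype hPH) _ (Subgroup.center_le_normalizer _),
    card_sylow_subgroup_of_le P hPH, P.card_eq_index_normalizer,
    ← relIndex_sup_of_le_normalizer Subgroup.le_normalizer_of_normal]
  have := Sylow.normalizer_sup_eq_top' P hPH
  erw [this]
  exact Subgroup.relIndex_top_right _

end Cfsg.Agent.S4342
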