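import Cfsg.Statements.S4343
import Cfsg.Agent.Solv.SylowNumber
import Cfsg.Agent.Solv.PGroupNormal
import Cfsg.Agent.Solv.FrattiniP
import Cfsg.Agent.Solv.Cores
import Cfsg.Agent.S0060

set_option autoImplicit false
open Cfsg

namespace Cfsg.Agent.S4343

open Cfsg.Lib.Solv
open scoped Pointwise

/-- Let S be a finite non-abelian simple group and p a prime dividing its order. If S has fewer than p² Sylow p-subgroups, then its Sylow p-subgroups have order p. -/
theorem result {S : Type*} [Group S] [Finite S]
    [IsSimpleGroup S] (hS : ¬ IsMulCommutative S) (p : ℕ) [Fact p.Prime] (hp : p ∣ Nat.card S)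
    (hn : Nat.card (Sylow p S) < p ^ 2) (P : Sylow p S) : Nat.card P = p := by
  have hpp : p.Prime := Fact.out
  have hO : pCore p S = ⊥ := by
    rcases (inferInstance : (pCore p S).Normal).eq_bot_or_eq_top with h | h
    · exact h
    · exfalso
      have h1 : IsPGroup p S := pCore_eq_top_iff.1 h
      have := h1.isNilpotent
      exact hS ⟨⟨fun a b => IsSimpleGroup.comm_iff_isSolvable.2 inferInstance a b⟩⟩
  -- the index of `P ∩ Q` in `P` is `1` or `p`
  have key : ∀ Q : Sylow p S, Nat.card P = Nat.card ↥((P : Subgroup S) ⊓ Q) ∨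
      Nat.card P = p * Nat.card ↥((P : Subgroup S) ⊓ Q) := by
    intro Q
    have h1 : (MulAction.stabilizer (P : Subgroup S) Q).index =
        (Q : Subgroup S).relIndex (P : Subgroup S) := by
      rw [Subgroup.relIndex]
      congr 1
      ext x
      rw [MulAction.mem_stabilizer_iff, Subgroup.mem_subgroupOf, Subgroup.smul_def,
        Sylow.smul_eq_iff_mem_normalizer]
      constructor
      · intro hx
        have : (x : S) ∈ (P : Subgroup S) ⊓ Subgroup.normalizer Q := ⟨x.2, hx⟩
        rw [IsPGroup.inf_normalizer_sylow P.2 Q] at this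
        exact this.2
      · intro hx
        exact Subgroup.le_normalizer hx
    have h2 : (Q : Subgroup S).relIndex (P : Subgroup S) < p ^ 2 := by
      rw [← h1, MulAction.index_stabilizer]
      exact lt_of_le_of_lt (Set.ncard_le_card _) hn
    obtain ⟨k, hk⟩ := IsPGroup.iff_card.1 P.2
    have h3 : (Q : Subgroup S).relIndex (P : Subgroup S) ∣ p ^ k :=
      hk ▸ Subgroup.relIndex_dvd_card _ _
    obtain ⟨j, -, hj⟩ := (Nat.dvd_prime_pow hpp).1 h3
    rw [hj, Nat.pow_lt_pow_iff_right hpp.one_lt] at h2
    have h4 := card_inf_mul_relIndex (Q : Subgroup S) (P : Subgroup S)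
    rw [hj, inf_comm] at h4
    interval_cases j
    · left; simpa using h4.symm
    · right; rw [mul_comm]; simpa using h4.symm
  have hab : IsMulCommutative P := by
    rw [← Subgroup.commutator_self_eq_bot_iff (H := (P : Subgroup S)), ← le_bot_iff, ← hO,
      pCore_eq_iInf_sylow]
    refine le_iInf fun Q => ?_
    rcases key Q with h | h
    · have := PG.eq_of_le_of_card_eq (inf_le_left : (P : Subgroup S) ⊓ Q ≤ P) h.symm
      exact (Subgroup.commutator_le_self _).trans (this.ge.trans inf_le_right)
    · exact (PG.commutator_le_of_card_eq_prime_mul P.2 P.2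
        (PG.le_normalizer_of_card_eq_prime_mul P.2 inf_le_left h) Subgroup.le_normalizer
        inf_le_left h).1.trans inf_le_right
  obtain ⟨g, hg⟩ := Cfsg.Agent.S0060.result p P hab hO
  have h1 := key (g • P)
  rw [coe_sylow_smul, hg, Subgroup.card_bot] at h1
  rcases h1 with h | h
  · exact absurd (Subgroup.card_eq_one.1 h) (P.ne_bot_of_dvd_card hp)
  · simpa using h

end Cfsg.Agent.S4343
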