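import Cfsg.Statements.S4345
import Cfsg.Agent.Solv.SylowNumber
import Cfsg.Agent.Solv.MinNormal

set_option autoImplicit false
open Cfsg

namespace Cfsg.Agent.S4345

open Cfsg.Lib.Solv
open scoped Pointwise

theorem aux (p ℓ : ℕ) [Fact p.Prime] (hℓ : ℓ.Prime) (G : Type*) [Group G] [Finite G]
    [Group.IsSolvable G] : ℓ ^ (Nat.card (Sylow p G)).factorization ℓ ≡ 1 [MOD p] := by
  refine solvable_induction
    (P := fun G _ _ _ => ℓ ^ (Nat.card (Sylow p G)).factorization ℓ ≡ 1 [MOD p]) ?_ ?_ G
  · intro G _ _ _ hG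
    have : Nat.card (Sylow p G) = 1 := by
      have h1 := (Classical.arbitrary (Sylow p G)).card_dvd_index
      have h2 : ((Classical.arbitrary (Sylow p G)) : Subgroup G).index ∣ 1 := by
        have := ((Classical.arbitrary (Sylow p G)) : Subgroup G).index_dvd_card
        rwa [Nat.card_unique] at this
      exact Nat.dvd_one.1 (h1.trans h2)
    rw [this]; simp [Nat.ModEq.refl]
  · intro G _ _ _ q N _ hq hN hc he hNq ih
    obtain ⟨P⟩ : Nonempty (Sylow p G) := inferInstance
    have h1 := card_sylow_eq_card_sylow_quotient_mul P N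
    have h2 := card_sylow_sup_normal P N
    haveI : Fact q.Prime := ⟨hq⟩
    obtain ⟨k, hk⟩ := IsPGroup.iff_card.1 hNq
    have h3 : (Subgroup.normalizer ((P : Subgroup G) : Set G)).relIndex N ∣ q ^ k :=
      hk ▸ Subgroup.relIndex_dvd_card _ _
    obtain ⟨j, -, hj⟩ := (Nat.dvd_prime_pow hq).1 h3
    have h4 : q ^ j ≡ 1 [MOD p] := by rw [← hj, ← h2]; exact card_sylow_modEq_one p _
    rw [h1, hj, Nat.factorization_mul Nat.card_pos.ne' (pow_ne_zero _ hq.ne_zero), Finsupp.add_apply,
      pow_add]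
    have h5 := ih (G ⧸ N) (card_quotient_lt hN.ne_bot)
    have h6 : ℓ ^ (q ^ j).factorization ℓ ≡ 1 [MOD p] := by
      rw [hq.factorization_pow]
      by_cases h : q = ℓ
      · subst h; rw [Finsupp.single_eq_same]; exact h4
      · rw [Finsupp.single_eq_of_ne (Ne.symm h), pow_zero]
    simpa using h5.mul h6

/-- Let G be a finite solvable group and p, ℓ primes. Then the largest power of ℓ dividing the number of Sylow p-subgroups of G is congruent to 1 modulo p. -/
theorem result {G : Type*} [Group G] [Finite G]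
    (hG : Group.IsSolvable G) (p ℓ : ℕ) [Fact p.Prime] (hℓ : ℓ.Prime) :
    ℓ ^ (Nat.card (Sylow p G)).factorization ℓ ≡ 1 [MOD p] := by
  exact aux p ℓ hℓ G

end Cfsg.Agent.S4345
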