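import Cfsg.Statements.S4346
import Cfsg.Agent.FT.Core
import Cfsg.Agent.FT.Elem

set_option autoImplicit false
open Cfsg

namespace Cfsg.Agent.S4346

open Cfsg.Lib.FT Cfsg.Lib.Solv Pointwise MulAction

set_option linter.unusedSectionVars false

section Tools
variable {G : Type*} [Group G] [Finite G] {X : Type*} [MulAction G X] [Finite X]

theorem fix_modEq {g h : G} {p : ℕ} [Fact p.Prime] (hc : g * h = h * g) (hp : h ^ p = 1) :
    (fixedBy X g).ncard ≡ (fixedBy X g ∩ fixedBy X h).ncard [MOD p] := by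
  classical
  have := Fintype.ofFinite X
  let f : Function.End (fixedBy X g) := fun x => ⟨h • x.1, by
    rw [mem_fixedBy, smul_smul, hc, mul_smul, x.2]⟩
  have h1 : ∀ (k : ℕ) (x : fixedBy X g), ((f ^ k) x).1 = h ^ k • x.1 := by
    intro k
    induction k with
    | zero => intro x; rw [pow_zero, pow_zero, one_smul]; rfl
    | succ k ih => intro x; rw [pow_succ', pow_succ', mul_smul, ← ih]; rfl
  have h2 := Equiv.Perm.card_fixedPoints_modEq (f := f) (p := p) (n := 1)
    (funext fun x => Subtype.ext (by rw [h1, pow_one, hp, one_smul]; rfl))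
  rw [← Nat.card_eq_fintype_card, ← Nat.card_eq_fintype_card, Nat.card_coe_set_eq,
    Nat.card_coe_set_eq] at h2
  rw [← Set.ncard_image_of_injective f.fixedPoints Subtype.val_injective] at h2
  convert h2 using 2
  ext x
  exact ⟨fun hx => ⟨⟨x, hx.1⟩, Subtype.ext hx.2, rfl⟩,
    fun ⟨y, hy, e⟩ => e ▸ ⟨y.2, congrArg Subtype.val hy⟩⟩

theorem card_modEq {h : G} {p : ℕ} [Fact p.Prime] (hp : h ^ p = 1) :
    Nat.card X ≡ (fixedBy X h).ncard [MOD p] := by
  have := fix_modEq (X := X) (g := 1) (by rw [one_mul, mul_one]) hp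
  rwa [fixedBy_one_eq_univ, Set.univ_inter, Set.ncard_univ] at this

theorem even_of_index (hG : ∀ K : Subgroup G, K.Normal → ¬ 3 ∣ K.index → K = ⊤) {t : G}
    (ht : t ^ 2 = 1) : (Nat.card X - (fixedBy X t).ncard) / 2 % 2 = 0 := by
  classical
  have := Fintype.ofFinite X
  let f := Equiv.Perm.sign.comp (toPermHom G X)
  have h1 : f.ker = ⊤ := hG _ inferInstance fun h => by
    have h2 := h.trans (Subgroup.index_ker f ▸ f.range.card_subgroup_dvd_card)
    rw [Nat.card_eq_fintype_card, Fintype.card_units_int] at h2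
    omega
  have h2 : Equiv.Perm.sign (toPermHom G X t) = 1 := (h1 ▸ Subgroup.mem_top t : t ∈ f.ker)
  rw [Equiv.Perm.sign_of_pow_two_eq_one (by rw [← map_pow, ht, map_one]),
    neg_one_pow_eq_one_iff_even (by decide), ← Nat.card_eq_fintype_card,
    ← Nat.card_eq_fintype_card, Nat.card_coe_set_eq] at h2
  exact Nat.even_iff.1 h2

theorem mul_le_of_semireg {R : Subgroup G} {z : G} (hz : z ∈ 𝐍 R) (hc : R ⊓ 𝐂₁ z = ⊥)
    {S : Set X} (hS : ∀ y ∈ R, ∀ x ∈ S, y • x ∈ S) (hr : ∀ y ∈ R, ∀ x ∈ S, y • x = x → y = 1) :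
    Nat.card R * (S ∩ fixedBy X z).ncard ≤ S.ncard := by
  rw [← Nat.card_coe_set_eq, ← Nat.card_coe_set_eq, ← Nat.card_prod]
  refine Nat.card_le_card_of_injective (fun a => ⟨a.1.1 • a.2.1, hS _ a.1.2 _ a.2.2.1⟩) ?_
  rintro ⟨⟨y, hy⟩, ⟨x, hx, hx'⟩⟩ ⟨⟨y', hy'⟩, ⟨x', hw, hw'⟩⟩ h
  replace h : y • x = y' • x' := congrArg Subtype.val h
  have h1 : x' = (y'⁻¹ * y) • x := by rw [mul_smul, h, inv_smul_smul]
  have h2 := mul_mem (inv_mem hy') hy
  have h3 := hr _ (mul_mem (inv_mem h2) ((memJ_norm hz).2 h2)) x hx (by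
    rw [mul_smul, mul_smul, mul_smul, show z⁻¹ • x = x from inv_smul_eq_iff.2 (Eq.symm hx'), ← h1,
      hw', h1, inv_smul_smul])
  rw [inv_mul_eq_one, eq_mul_inv_iff_mul_eq] at h3
  have h4 : y'⁻¹ * y = 1 := Subgroup.mem_bot.1 (hc ▸ ⟨h2, mem_cent1.2 h3⟩)
  rw [h4, one_smul] at h1
  rw [inv_mul_eq_one] at h4
  subst h1 h4
  rfl

theorem dvd_ncard {n : ℕ} (S : Set X) (hS : ∀ (g : G), ∀ x ∈ S, g • x ∈ S)
    (h : ∀ x ∈ S, n ∣ (orbit G x).ncard) : n ∣ S.ncard := by
  induction hk : S.ncard using Nat.strong_induction_on generalizing S with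
  | _ k ih =>
  rcases S.eq_empty_or_nonempty with rfl | ⟨x, hx⟩
  · rw [← hk, Set.ncard_empty]; exact dvd_zero n
  have h1 : orbit G x ⊆ S := by rintro _ ⟨g, rfl⟩; exact hS g x hx
  have h2 := Set.ncard_sdiff_add_ncard_of_subset h1
  have h3 : 0 < (orbit G x).ncard := (Set.ncard_pos (Set.toFinite _)).2 ⟨x, mem_orbit_self x⟩
  rw [← hk, ← h2]
  refine dvd_add (ih _ (by omega) (S \ orbit G x) (fun g y hy => ⟨hS g y hy.1, fun h => hy.2 ?_⟩)
    (fun y hy => h y hy.1) rfl) (h x hx)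
  have h4 := mem_orbit_of_mem_orbit g⁻¹ h
  rwa [inv_smul_smul] at h4

theorem relIndex_cent_dvd {H : Subgroup G} (hH : (Nat.card H).Prime) :
    (𝐂 H).relIndex (𝐍 H) ∣ Nat.card H - 1 := by
  have := prime_cyclic hH
  rw [← Nat.totient_prime hH, ← IsCyclic.card_mulAut, Subgroup.relIndex,
    ← Subgroup.normalizerMonoidHom_ker, Subgroup.index_ker]
  exact Subgroup.card_subgroup_dvd_card _

theorem smul_eq_iff {p : ℕ} [Fact p.Prime] {R : Subgroup G} (hR : IsPGroup p R) {d : G} (hd : d ∈ R)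
    (Q : Sylow p G) : d • Q = Q ↔ d ∈ (Q : Subgroup G) := by
  rw [Sylow.smul_eq_iff_mem_normalizer]
  refine ⟨fun h => ?_, fun h => normG _ h⟩
  exact norm_sub_Hall' (Sylow_top Q) (pgroup_iff.2 (hR.to_le (Subgroup.zpowers_le.2 hd))) le_top
    (Subgroup.zpowers_le.2 h) (Subgroup.mem_zpowers d)

theorem sylow_eq {p : ℕ} [Fact p.Prime] {P Q : Sylow p G} (h : (P : Subgroup G) ≤ Q) : P = Q :=
  Sylow.ext (P.is_maximal' Q.isPGroup' h).symm

theorem card_sylow {p : ℕ} [Fact p.Prime] (P Q : Sylow p G) :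
    Nat.card (P : Subgroup G) = Nat.card (Q : Subgroup G) := eq_card_Hall (Sylow_top P) (Sylow_top Q)

theorem ncard_orbit {p : ℕ} [Fact p.Prime] (P Q : Sylow p G) :
    (orbit (P : Subgroup G) Q).ncard = (Q : Subgroup G).relIndex P := by
  rw [← index_stabilizer, Subgroup.relIndex]
  congr 1
  ext g
  rw [mem_stabilizer_iff, Subgroup.mem_subgroupOf]
  exact smul_eq_iff P.isPGroup' g.2 Q

end Tools

section Lines
variable {G : Type*} [Group G] [Finite G]

/-- two Sylow subgroups meeting in a subgroup of index three -/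
def Adj (P Q : Sylow 3 G) : Prop :=
  Nat.card ↥((P : Subgroup G) ⊓ Q) * 3 = Nat.card (P : Subgroup G)

theorem adj_iff {P Q : Sylow 3 G} : Adj P Q ↔ (Q : Subgroup G).relIndex P = 3 := by
  rw [Adj, inf_comm, ← card_inf_mul_relIndex (Q : Subgroup G) P, eq_comm]
  exact Nat.mul_right_inj Nat.card_pos.ne'

theorem Adj.symm {P Q : Sylow 3 G} (h : Adj P Q) : Adj Q P := by
  rw [Adj, inf_comm, h, card_sylow P Q]

theorem Adj.ne {P Q : Sylow 3 G} (h : Adj P Q) : P ≠ Q := by
  rintro rfl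
  rw [adj_iff, Subgroup.relIndex_self] at h
  omega

theorem norm_of_card {D : Subgroup G} {R : Sylow 3 G} (h : D ≤ R)
    (hc : Nat.card D * 3 = Nat.card (R : Subgroup G)) : (R : Subgroup G) ≤ 𝐍 D := by
  have h1 : D < R := lt_of_le_of_ne h fun e => by
    rw [e] at hc; have := cardG_gt0 (R : Subgroup G); omega
  have h2 := nilpotent_proper_norm (pgroup_nil R.isPGroup') h1
  obtain ⟨k, hk⟩ := cardSg h2.le
  obtain ⟨l, hl⟩ := cardSg (inf_le_left : (R : Subgroup G) ⊓ 𝐍 D ≤ R)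
  have h3 := proper_card h2
  rw [← hc, hk, mul_assoc, Nat.mul_right_inj Nat.card_pos.ne'] at hl
  have h4 : k = 3 := ((Nat.dvd_prime Nat.prime_three).1 ⟨l, hl⟩).resolve_left fun e => by
    rw [hk, e] at h3; omega
  exact (eq_of_le_of_card_le (inf_le_left : (R : Subgroup G) ⊓ 𝐍 D ≤ R) (by
    rw [hk, h4, hc])).ge.trans inf_le_right

theorem inf_eq_of_card {D : Subgroup G} {R S : Sylow 3 G} (h : D ≤ R) (h' : D ≤ S) (hne : R ≠ S)
    (hc : Nat.card D * 3 = Nat.card (R : Subgroup G)) : (R : Subgroup G) ⊓ S = D := by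
  obtain ⟨k, hk⟩ := cardSg (le_inf h h')
  obtain ⟨l, hl⟩ := cardSg (inf_le_left : (R : Subgroup G) ⊓ S ≤ R)
  have hl' := hl
  rw [← hc, hk, mul_assoc, Nat.mul_right_inj Nat.card_pos.ne'] at hl
  rcases (Nat.dvd_prime Nat.prime_three).1 ⟨l, hl⟩ with e | e
  · exact (eq_of_le_of_card_le (le_inf h h') (by rw [hk, e, mul_one])).symm
  · exact absurd (sylow_eq ((eq_of_le_of_card_le (inf_le_left : (R : Subgroup G) ⊓ S ≤ R) (by
      rw [hk, e, hc])).ge.trans inf_le_right)) hne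

theorem Adj.triangle {P Q S : Sylow 3 G} (h : Adj P Q) (h1 : Adj P S) (h2 : Adj Q S) :
    (P : Subgroup G) ⊓ Q ≤ S := by
  intro d hd
  by_contra hdS
  have hne : S ≠ d • S := fun e => hdS ((smul_eq_iff P.isPGroup' hd.1 S).1 e.symm)
  have key : ∀ R : Sylow 3 G, Adj R S → d ∈ (R : Subgroup G) →
      (S : Subgroup G) ⊓ (d • S : Sylow 3 G) = (R : Subgroup G) ⊓ S := by
    intro R hR hdR
    refine inf_eq_of_card inf_le_right ?_ hne (hR.trans (card_sylow R S))
    rw [coe_sylow_smul, ← normP.1 (norm_of_card inf_le_left hR hdR)]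
    exact conj_smul_mono d inf_le_right
  have h3 : (P : Subgroup G) ⊓ S = (P : Subgroup G) ⊓ Q := eq_of_le_of_card_le (le_inf inf_le_left
    (((key P h1 hd.1).symm.trans (key Q h2 hd.2)).le.trans inf_le_left))
    (by unfold Adj at h h1; omega)
  exact hdS (h3.ge hd).2

theorem adj_smul {P Q : Sylow 3 G} {g : G} (hg : g • P = P) (h : Adj P Q) : Adj P (g • Q) := by
  unfold Adj at h ⊢
  rw [← h]
  nth_rw 1 [← hg]
  rw [coe_sylow_smul, coe_sylow_smul, ← conjIg, card_conj_smul]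

theorem card_adj (h22 : Nat.card (Sylow 3 G) = 22) (P : Sylow 3 G) :
    {Q | Adj P Q}.ncard % 9 = 3 ∧ {Q | Adj P Q}.ncard ≤ 21 := by
  have h1 : 9 ∣ ({P}ᶜ \ {Q | Adj P Q} : Set (Sylow 3 G)).ncard := by
    refine dvd_ncard (G := (P : Subgroup G)) _ (fun g Q hQ => ?_) fun Q hQ => ?_
    · have hg : (g : G) • P = P := (smul_eq_iff P.isPGroup' g.2 P).2 g.2
      refine ⟨fun e => hQ.1 ?_, fun e => hQ.2 ?_⟩
      · exact smul_left_cancel (g : G) (e.trans hg.symm)
      · have := adj_smul (inv_smul_eq_iff.2 hg.symm) e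
        rwa [Subgroup.smul_def, inv_smul_smul] at this
    · rw [ncard_orbit]
      obtain ⟨k, hk⟩ := P.isPGroup'.index ((Q : Subgroup G).subgroupOf P)
      change (Q : Subgroup G).relIndex P = _ at hk
      rcases k with _ | _ | k
      · exact absurd (sylow_eq (Subgroup.relIndex_eq_one.1 hk)).symm hQ.1
      · exact absurd (adj_iff.2 hk) hQ.2
      · rw [hk]; exact ⟨3 ^ k, by ring⟩
  have h2 := Set.ncard_sdiff_add_ncard_of_subset
    (show {Q | Adj P Q} ⊆ {P}ᶜ from fun Q hQ e => Adj.ne hQ (Eq.symm e))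
  have h3 := Set.ncard_add_ncard_compl ({P} : Set (Sylow 3 G))
  rw [Set.ncard_singleton, h22] at h3
  omega

theorem card_eq_three (h22 : Nat.card (Sylow 3 G) = 22)
    (hf : ∀ g : G, (∀ Q : Sylow 3 G, g • Q = Q) → g = 1) (P : Sylow 3 G) :
    Nat.card (P : Subgroup G) = 3 := by
  classical
  obtain ⟨Q, hQ⟩ : {Q | Adj P Q}.Nonempty :=
    Set.nonempty_of_ncard_ne_zero (by have := (card_adj h22 P).1; omega)
  replace hQ : Adj P Q := hQ
  obtain ⟨D, hD⟩ : ∃ D, D = (P : Subgroup G) ⊓ Q := ⟨_, rfl⟩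
  have hc : ∀ R : Sylow 3 G, Nat.card D * 3 = Nat.card (R : Subgroup G) := fun R =>
    hD ▸ hQ.trans (card_sylow P R)
  let L : Set (Sylow 3 G) := {R | D ≤ R}
  have hL : ∀ R ∈ L, L \ {R} ⊆ {S | Adj R S} := fun R hR S hS => by
    change Nat.card _ * 3 = _
    rw [inf_eq_of_card hR hS.1 (Ne.symm hS.2) (hc R), hc R]
  have hPL : P ∈ L := hD.le.trans inf_le_left
  have h4 : 4 ≤ L.ncard := by
    have h1 : orbit (P : Subgroup G) Q ⊆ L \ {P} := by
      rintro _ ⟨g, rfl⟩
      refine ⟨?_, fun e => hQ.ne (smul_left_cancel (g : G)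
        (((smul_eq_iff P.isPGroup' g.2 P).2 g.2).trans (Eq.symm e)))⟩
      change D ≤ ((g : G) • Q : Sylow 3 G)
      rw [coe_sylow_smul, ← normP.1 (norm_of_card hPL (hc P) g.2)]
      exact conj_smul_mono _ (hD ▸ inf_le_right)
    have h2 := Set.ncard_le_ncard h1
    rw [ncard_orbit, adj_iff.1 hQ, Set.ncard_sdiff_singleton_of_mem hPL] at h2
    omega
  by_cases h : ∃ R ∈ L, {S | Adj R S} ⊆ L
  · obtain ⟨R, hR, h⟩ := h
    have h1 : L \ {R} = {S | Adj R S} :=
      Set.Subset.antisymm (hL R hR) fun S hS => ⟨h hS, fun e => Adj.ne hS (Eq.symm e)⟩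
    have h2 : orbit (𝐍 D) R = L := by
      ext S
      constructor
      · rintro ⟨g, rfl⟩
        exact (normP.1 g.2).ge.trans (conj_smul_mono _ hR)
      · intro hS
        obtain ⟨g, hg, e⟩ := Sylow_trans (pHall_subl (norm_of_card hR (hc R)) le_top (Sylow_top R))
          (pHall_subl (norm_of_card hS (hc S)) le_top (Sylow_top S))
        exact ⟨⟨g, hg⟩, Sylow.ext e.symm⟩
    have h3 : 𝐍 (R : Subgroup G) ≤ 𝐍 D := by
      intro g hg
      have hg' := Sylow.smul_eq_iff_mem_normalizer.2 hg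
      obtain ⟨S, hS⟩ : {S | Adj R S}.Nonempty :=
        Set.nonempty_of_ncard_ne_zero (by have := (card_adj h22 R).1; omega)
      rw [normP, ← inf_eq_of_card hR (h hS) (Adj.ne hS) (hc R), conjIg, normP.1 hg,
        ← coe_sylow_smul, inf_eq_of_card hR (h hS) (Adj.ne hS) (hc R),
        inf_eq_of_card hR (h (adj_smul hg' hS)) (Adj.ne (adj_smul hg' hS)) (hc R)]
    have h5 : L.ncard ∣ 22 := by
      rw [← h2, ← index_stabilizer, ← h22, Sylow.card_eq_index_normalizer R]
      refine (dvd_of_eq ?_).trans (Subgroup.relIndex_dvd_index_of_le h3)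
      rw [Subgroup.relIndex]
      congr 1
      ext g
      rw [mem_stabilizer_iff, Subgroup.mem_subgroupOf]
      exact Sylow.smul_eq_iff_mem_normalizer
    have h6 := card_adj h22 R
    rw [← h1, Set.ncard_sdiff_singleton_of_mem hR] at h6
    have h7 : L.ncard = 22 := by
      have := Nat.le_of_dvd (by omega) h5
      interval_cases L.ncard <;> omega
    have h8 : L = Set.univ := Set.eq_univ_iff_ncard _ |>.2 (h7.trans h22.symm)
    have h9 : D = ⊥ := eq_bot_iff.2 fun d hd => hf d fun S =>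
      Sylow.smul_eq_iff_mem_normalizer.2 (normG _ ((h8 ▸ Set.mem_univ S : S ∈ L) hd))
    rw [← hc P, h9, Subgroup.card_bot]
  exfalso
  push Not at h
  have := Fintype.ofFinite (Sylow 3 G)
  have h1 : ∀ R ∈ L, L.ncard ≤ {S | Adj R S}.ncard ∧
      ({S | Adj R S} \ L).ncard + L.ncard = {S | Adj R S}.ncard + 1 := by
    intro R hR
    have h2 := Set.ncard_lt_ncard (Set.ssubset_iff_subset_ne.2 ⟨hL R hR,
      fun e => h R hR (e ▸ Set.sdiff_subset)⟩)
    have h3 := Set.ncard_sdiff_add_ncard_of_subset (hL R hR)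
    have h5 : {S | Adj R S} \ (L \ {R}) = {S | Adj R S} \ L := by
      ext S
      exact ⟨fun h => ⟨h.1, fun h' => h.2 ⟨h', fun e => Adj.ne h.1 (Eq.symm e)⟩⟩,
        fun h => ⟨h.1, fun h' => h.2 h'.1⟩⟩
    rw [Set.ncard_sdiff_singleton_of_mem hR] at h2 h3
    rw [h5] at h3
    omega
  have h2 : (L.toFinset.biUnion fun R => ({S | Adj R S} \ L).toFinset) ⊆ Lᶜ.toFinset := by
    intro S hS
    simp only [Finset.mem_biUnion, Set.mem_toFinset] at hS ⊢
    obtain ⟨R, -, h⟩ := hS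
    exact h.2
  have h3 := Finset.card_le_card h2
  rw [Finset.card_biUnion] at h3
  · have h5 := Set.ncard_add_ncard_compl L
    rw [← Set.ncard_eq_toFinset_card'] at h3
    have h6 := Finset.card_nsmul_le_sum L.toFinset (fun R => ({S | Adj R S} \ L).toFinset.card)
      (if L.ncard ≤ 12 then 13 - L.ncard else 22 - L.ncard) fun R hR => by
        rw [← Set.ncard_eq_toFinset_card']
        have h7 := h1 R (Set.mem_toFinset.1 hR)
        have h8 := card_adj h22 R
        split_ifs <;> omega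
    rw [← Set.ncard_eq_toFinset_card', smul_eq_mul] at h6
    have h7 := h6.trans h3
    have h8 := (h1 P hPL).1.trans (card_adj h22 P).2
    rw [h22] at h5
    generalize L.ncard = m at h4 h5 h7 h8
    interval_cases m <;> simp at h7 <;> omega
  · intro R hR S hS hne
    rw [Set.coe_toFinset] at hR hS
    refine Finset.disjoint_left.2 fun T h1 h2 => ?_
    rw [Set.mem_toFinset] at h1 h2
    refine h1.2 (le_trans ?_ (Adj.triangle (hL R hR ⟨hS, Ne.symm hne⟩) h1.1 h2.1))
    exact le_inf hR hS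

theorem card_cent_dvd (h22 : Nat.card (Sylow 3 G) = 22)
    (hf : ∀ g : G, (∀ Q : Sylow 3 G, g • Q = Q) → g = 1) (Q : Sylow 3 G)
    (hx : ∀ x ∈ (Q : Subgroup G), x ≠ 1 → fixedBy (Sylow 3 G) x = {Q}) :
    (Q : Subgroup G).relIndex (𝐂 (Q : Subgroup G)) ∣ 5040 := by
  classical
  have h3 := card_eq_three h22 hf Q
  let X := orbitRel.Quotient (Q : Subgroup G) (Sylow 3 G)
  have hX : Nat.card X = 8 := by
    have := Fintype.ofFinite (Sylow 3 G)
    have := Fintype.ofFinite (Q : Subgroup G)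
    have := Fintype.ofFinite X
    have h1 := sum_card_fixedBy_eq_card_orbits_mul_card_group (Q : Subgroup G) (Sylow 3 G)
    rw [← Finset.add_sum_erase _ _ (Finset.mem_univ 1), Finset.sum_const_nat (m := 1),
      Finset.card_erase_of_mem (Finset.mem_univ 1), Finset.card_univ] at h1
    · simp only [← Nat.card_eq_fintype_card, fixedBy_one_eq_univ, Nat.card_univ, h22, h3] at h1
      change _ = Nat.card X * 3 at h1
      omega
    · intro x hx1
      rw [← Nat.card_eq_fintype_card, Nat.card_coe_set_eq, Set.ncard_eq_one]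
      exact ⟨Q, hx x x.2 fun e => (Finset.mem_erase.1 hx1).1 (Subtype.ext e)⟩
  let : MulAction (𝐂 (Q : Subgroup G)) X :=
    { smul := fun c => Quotient.map' (fun ω => (c : G) • ω) (by
        rintro _ ω ⟨q, rfl⟩
        exact ⟨q, by
          change (q : G) • (c : G) • ω = (c : G) • (q : G) • ω
          rw [smul_smul, smul_smul, mem_cent.1 c.2 q q.2]⟩)
      one_smul := fun x => Quotient.inductionOn' x fun ω => congrArg Quotient.mk'' (one_smul G ω)
      mul_smul := fun c d x => Quotient.inductionOn' x fun ω =>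
        congrArg Quotient.mk'' (mul_smul (c : G) (d : G) ω) }
  have hk : (toPermHom (𝐂 (Q : Subgroup G)) X).ker ≤ (Q : Subgroup G).subgroupOf _ := by
    intro c hc
    have h1 : (c : G) ^ 3 = 1 := hf _ fun ω => by
      have h2 : (Quotient.mk'' ((c : G) • ω) : X) = Quotient.mk'' ω :=
        DFunLike.congr_fun (MonoidHom.mem_ker.1 hc) (Quotient.mk'' ω)
      obtain ⟨q, hq⟩ := Quotient.exact' h2
      replace hq : (q : G) • ω = (c : G) • ω := hq
      have h4 : (q : G) ^ 3 = 1 := by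
        have h8 := pow_card_eq_one' (x := q)
        rw [h3] at h8
        exact congrArg Subtype.val h8
      have h5 : Commute (q : G) c := mem_cent.1 c.2 q q.2
      have h6 : ((q : G)⁻¹ * c) ∈ stabilizer G ω := by
        rw [mem_stabilizer_iff, mul_smul, ← hq, inv_smul_smul]
      have h7 := pow_mem h6 3
      rwa [h5.inv_left.mul_pow, inv_pow, h4, inv_one, one_mul] at h7
    exact (smul_eq_iff (abelem_pgroup (abelem_zpowers h1)) (Subgroup.mem_zpowers _) Q).1
      (Sylow.smul_eq_iff_mem_normalizer.2 (cent_sub _ c.2))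
  refine (Subgroup.index_dvd_of_le hk).trans ?_
  have : Finite X := Nat.finite_of_card_ne_zero (by omega)
  have := Fintype.ofFinite X
  have h1 := (stabilizer (Equiv.Perm X) (Quotient.mk'' Q : X)).card_mul_index
  rw [index_stabilizer_of_transitive, Nat.card_perm, hX] at h1
  rw [Subgroup.index_ker, show 5040 = Nat.card (stabilizer (Equiv.Perm X) (Quotient.mk'' Q : X)) by
    simp only [Nat.factorial] at h1; omega]
  refine cardSg ?_
  rintro _ ⟨c, rfl⟩
  exact congrArg Quotient.mk'' (Sylow.smul_eq_iff_mem_normalizer.2 (cent_sub _ c.2))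

theorem arith {c : ℕ} (h : c ∣ 5040) (h1 : 6 * c % 11 = 1) (h3 : ¬ 3 ∣ c) :
    c = 2 ∨ c = 35 ∨ c = 112 := by
  have h2 : c ∣ 560 := Nat.Coprime.dvd_of_dvd_mul_left (m := 3 ^ 2) (Nat.Coprime.pow_right 2
    ((Nat.Prime.coprime_iff_not_dvd Nat.prime_three).2 h3).symm) h
  obtain ⟨k, rfl⟩ : ∃ k, c = 11 * k + 2 := ⟨c / 11, by omega⟩
  have := Nat.le_of_dvd (by norm_num) h2
  have : k ≤ 50 := by omega
  interval_cases k <;> omega

theorem main (h22 : Nat.card (Sylow 3 G) = 22)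
    (hf : ∀ g : G, (∀ Q : Sylow 3 G, g • Q = Q) → g = 1)
    (hG : ∀ K : Subgroup G, K.Normal → ¬ 3 ∣ K.index → K = ⊤) : False := by
  have h3 := card_eq_three h22 hf
  have : Fact (Nat.Prime 11) := ⟨by norm_num⟩
  have : Fact (Nat.Prime 7) := ⟨by norm_num⟩
  have : Fact (Nat.Prime 5) := ⟨by norm_num⟩
  have hx : ∀ Q : Sylow 3 G, ∀ x ∈ (Q : Subgroup G), x ≠ 1 → fixedBy (Sylow 3 G) x = {Q} := by
    intro Q x hx hx1
    ext R
    rw [mem_fixedBy, smul_eq_iff Q.isPGroup' hx]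
    exact ⟨fun h => (sylow_eq (prime_meetG (by rw [h3]; exact Nat.prime_three)
      (trivgPn.2 ⟨x, ⟨hx, h⟩, hx1⟩))).symm, fun h => h ▸ hx⟩
  have hcent : ∀ (Q : Sylow 3 G) (z : G), z ∈ 𝐂 (Q : Subgroup G) →
      (fixedBy (Sylow 3 G) z).ncard % 3 = 1 := by
    intro Q z hz
    obtain ⟨x, hxQ, hxo⟩ := Cauchy Nat.prime_three (H := (Q : Subgroup G)) (h3 Q).symm.dvd
    have h1 := fix_modEq (X := Sylow 3 G) (mem_cent.1 hz x hxQ).symm (hxo ▸ pow_orderOf_eq_one x)
    rw [hx Q x hxQ (fun e => by rw [e, orderOf_one] at hxo; omega), Set.inter_eq_right.2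
      (Set.singleton_subset_iff.2 (show Q ∈ fixedBy _ z from
        Sylow.smul_eq_iff_mem_normalizer.2 (cent_sub _ hz))),
      Set.ncard_singleton] at h1
    exact h1
  have hlt : ∀ z : G, z ≠ 1 → (fixedBy (Sylow 3 G) z).ncard < 22 := fun z hz => by
    rw [← h22, ← Set.ncard_univ]
    exact Set.ncard_lt_ncard (Set.ssubset_univ_iff.2 fun e => hz (hf z fun Q =>
      (e ▸ Set.mem_univ Q : Q ∈ fixedBy _ z)))
  have hodd : ∀ z : G, Odd (orderOf z) → (fixedBy (Sylow 3 G) z).ncard = 0 ∨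
      (fixedBy (Sylow 3 G) z).ncard % 3 = 1 := by
    rintro z ⟨k, hk⟩
    rcases (fixedBy (Sylow 3 G) z).eq_empty_or_nonempty with h | ⟨Q, hQ⟩
    · rw [h, Set.ncard_empty]; exact Or.inl rfl
    refine Or.inr (hcent Q z ?_)
    have h1 := relIndex_cent_dvd (H := (Q : Subgroup G)) (by rw [h3]; exact Nat.prime_three)
    rw [h3] at h1
    obtain ⟨j, hj⟩ := h1
    have := normal_subgroupOf (cent_normal (Q : Subgroup G)).norm
    have h2 : z ^ _ ∈ 𝐂 (Q : Subgroup G) := ((𝐂 (Q : Subgroup G)).subgroupOf (𝐍 (Q : Subgroup G))).pow_index_mem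
      ⟨z, Sylow.smul_eq_iff_mem_normalizer.1 hQ⟩
    have h4 := pow_mem (pow_mem h2 j) (k + 1)
    rwa [← Subgroup.relIndex, ← pow_mul, ← pow_mul, ← mul_assoc, ← hj,
      show (3 - 1) * (k + 1) = (2 * k + 1) + 1 by ring, ← hk, pow_succ, pow_orderOf_eq_one,
      one_mul] at h4
  have hmod : ∀ (q : ℕ) (z : G), q.Prime → orderOf z = q →
      22 % q = (fixedBy (Sylow 3 G) z).ncard % q ∧ (fixedBy (Sylow 3 G) z).ncard < 22 ∧
        (q = 2 → (fixedBy (Sylow 3 G) z).ncard % 4 = 2) ∧ (q ≠ 2 →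
        (fixedBy (Sylow 3 G) z).ncard = 0 ∨ (fixedBy (Sylow 3 G) z).ncard % 3 = 1) := by
    intro q z hq hz
    have := Fact.mk hq
    have h1 := card_modEq (X := Sylow 3 G) (hz ▸ pow_orderOf_eq_one z : z ^ q = 1)
    have h2 := hlt z fun e => by rw [e, orderOf_one] at hz; exact hq.one_lt.ne hz
    rw [h22] at h1
    refine ⟨h1, h2, fun e => ?_, fun e => hodd z (hz ▸ hq.odd_of_ne_two e)⟩
    subst e
    have h4 := even_of_index (X := Sylow 3 G) hG (hz ▸ pow_orderOf_eq_one z : z ^ 2 = 1)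
    rw [h22] at h4
    unfold Nat.ModEq at h1
    omega
  have h11 : ∀ y : G, orderOf y = 11 → fixedBy (Sylow 3 G) y = ∅ := fun y hy => by
    have h1 := hmod 11 y Fact.out hy
    exact (Set.ncard_eq_zero (Set.toFinite _)).1 (by omega)
  obtain ⟨R⟩ : Nonempty (Sylow 11 G) := inferInstance
  have hsr : ∀ y ∈ (R : Subgroup G), ∀ ω ∈ (Set.univ : Set (Sylow 3 G)), y • ω = ω → y = 1 := by
    intro y hy ω _ h
    by_contra hy1
    obtain ⟨y', hy', ho⟩ := Cauchy (p := 11) Fact.out (pgroup_dvd_card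
      (R.isPGroup'.to_le (Subgroup.zpowers_le.2 hy)) (Subgroup.zpowers_ne_bot.2 hy1))
    have h1 : ω ∈ fixedBy (Sylow 3 G) y' :=
      (Subgroup.zpowers_le (H := stabilizer G ω)).2 h hy'
    rw [h11 y' ho] at h1
    exact h1
  obtain ⟨Q₀⟩ : Nonempty (Sylow 3 G) := inferInstance
  have hR : Nat.card (R : Subgroup G) = 11 := by
    have h1 : Nat.card (R : Subgroup G) ∣ (Set.univ : Set (Sylow 3 G)).ncard :=
      dvd_ncard (G := (R : Subgroup G)) _ (fun _ _ _ => trivial) fun ω _ => by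
        rw [← index_stabilizer, show stabilizer (R : Subgroup G) ω = ⊥ from eq_bot_iff.2
          fun y hy => Subtype.ext (hsr y y.2 ω trivial hy), Subgroup.index_bot]
    rw [Set.ncard_univ, h22] at h1
    have h2 : 11 ∣ Nat.card (R : Subgroup G) := by
      refine pgroup_dvd_card R.isPGroup' (Sylow_ne_bot (Sylow_top R) ?_)
      rw [Subgroup.card_top]
      refine Dvd.dvd.trans ?_ (𝐍 (Q₀ : Subgroup G)).index_dvd_card
      rw [← show Nat.card (Sylow 3 G) = (𝐍 (Q₀ : Subgroup G)).index from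
        Sylow.card_eq_index_normalizer Q₀, h22]
      norm_num
    obtain ⟨k, hk⟩ := R.isPGroup'.exists_card_eq
    have h4 := Nat.le_of_dvd (by omega) h1
    have h5 : ¬ 2 ∣ Nat.card (R : Subgroup G) := fun h => by
      have := Nat.prime_two.dvd_of_dvd_pow (hk ▸ h); omega
    omega
  have hRp : (Nat.card (R : Subgroup G)).Prime := by rw [hR]; norm_num
  have hRC : (R : Subgroup G) ≤ 𝐂 (R : Subgroup G) :=
    abelian_le_cent (cyclic_abelian (prime_cyclic hRp))
  have hCR : 𝐂 (R : Subgroup G) = R := by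
    refine le_antisymm (Subgroup.relIndex_eq_one.1 (by_contra fun h => ?_)) hRC
    obtain ⟨q, hq, hqd⟩ := Nat.exists_prime_and_dvd h
    obtain ⟨z, hz, hzo⟩ := Cauchy hq (hqd.trans (Subgroup.relIndex_dvd_card _ _))
    obtain ⟨y, hy, hyo⟩ := Cauchy (p := 11) Fact.out (H := (R : Subgroup G)) hR.symm.dvd
    have h1 := fix_modEq (X := Sylow 3 G) (mem_cent.1 hz y hy).symm (hyo ▸ pow_orderOf_eq_one y)
    rw [h11 y hyo, Set.inter_empty, Set.ncard_empty] at h1
    obtain ⟨h2, h4, h5, h6⟩ := hmod q z hq hzo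
    unfold Nat.ModEq at h1
    by_cases h7 : q = 2
    · have := h5 h7; omega
    have h8 : (fixedBy (Sylow 3 G) z).ncard = 0 := by have := h6 h7; omega
    rw [h8, Nat.zero_mod] at h2
    rcases (Nat.Prime.dvd_mul hq).1 (show q ∣ 2 * 11 from Nat.dvd_of_mod_eq_zero h2) with h9 | h9
    · exact h7 ((Nat.prime_dvd_prime_iff_eq hq Nat.prime_two).1 h9)
    · exact Sylow_index (pHall_subl hRC le_top (Sylow_top R))
        ((Nat.prime_dvd_prime_iff_eq hq Fact.out).1 h9 ▸ hqd)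
  have hNR : ∀ z : G, z ∉ (R : Subgroup G) → (R : Subgroup G) ⊓ 𝐂₁ z = ⊥ := fun z hz =>
    prime_TIg hRp fun h => hz (hCR ▸ le_cent1_iff.1 h)
  have hfix : ∀ z ∈ 𝐍 (R : Subgroup G), z ∉ (R : Subgroup G) →
      (fixedBy (Sylow 3 G) z).ncard ≤ 2 := fun z hz hzR => by
    have h1 := mul_le_of_semireg (S := Set.univ) hz (hNR z hzR) (fun _ _ _ _ => trivial) hsr
    rw [Set.univ_inter, Set.ncard_univ, h22, hR] at h1
    omega
  have hno : ∀ {z : G} {q : ℕ}, orderOf z = q → ¬ q ∣ 11 → z ∉ (R : Subgroup G) :=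
    fun hz hq h => hq (hz ▸ hR ▸ order_dvdG h)
  have he : (R : Subgroup G).relIndex (𝐍 (R : Subgroup G)) = 2 := by
    have h1 := relIndex_cent_dvd hRp
    rw [hCR, hR] at h1
    have h2 : ¬ 5 ∣ (R : Subgroup G).relIndex (𝐍 (R : Subgroup G)) := fun h => by
      obtain ⟨z, hz, hzo⟩ := Cauchy (p := 5) Fact.out (h.trans (Subgroup.relIndex_dvd_card _ _))
      have h4 := hfix z hz (hno hzo (by norm_num))
      have h5 := hmod 5 z Fact.out hzo
      omega
    have h4 : (R : Subgroup G).relIndex (𝐍 (R : Subgroup G)) ≠ 1 := fun h => by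
      obtain ⟨K, hK, h5⟩ : ∃ K : Subgroup G, K.Normal ∧ K.IsComplement' R :=
        ⟨_, MonoidHom.normal_ker _, MonoidHom.ker_transferSylow_isComplement' R
          ((Subgroup.relIndex_eq_one.1 h).trans hRC)⟩
      have h6 := h5.symm.index_eq_card
      rw [hR] at h6
      have h7 := hG K hK (by rw [h6]; norm_num)
      rw [h7, Subgroup.index_top] at h6
      omega
    have := Nat.le_of_dvd (by omega) h1
    interval_cases (R : Subgroup G).relIndex (𝐍 (R : Subgroup G)) <;> omega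
  obtain ⟨t, ht, hto⟩ := Cauchy Nat.prime_two (he.symm.dvd.trans (Subgroup.relIndex_dvd_card _ _))
  have htR := hno hto (by norm_num)
  have ht2 : (fixedBy (Sylow 3 G) t).ncard = 2 := by
    have h4 := hfix t ht htR
    have h5 := (hmod 2 t Nat.prime_two hto).2.2.1 rfl
    omega
  obtain ⟨Q, hQ⟩ := Set.nonempty_of_ncard_ne_zero (ht2 ▸ two_ne_zero)
  have hQp : (Nat.card (Q : Subgroup G)).Prime := by rw [h3]; exact Nat.prime_three
  have hQC : (Q : Subgroup G) ≤ 𝐂 (Q : Subgroup G) :=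
    abelian_le_cent (cyclic_abelian (prime_cyclic hQp))
  have hi : (𝐂 (Q : Subgroup G)).relIndex (𝐍 (Q : Subgroup G)) = 2 := by
    have h1 := relIndex_cent_dvd hQp
    rw [h3] at h1
    refine ((Nat.dvd_prime Nat.prime_two).1 h1).resolve_left fun h => ?_
    have := hcent Q t (Subgroup.relIndex_eq_one.1 h (Sylow.smul_eq_iff_mem_normalizer.1 hQ))
    omega
  have hdv := card_cent_dvd h22 hf Q (hx Q)
  have hc3 := Sylow_index (pHall_subl hQC le_top (Sylow_top Q))
  have hcC := card_mul_relIndex_of_le hQC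
  generalize (Q : Subgroup G).relIndex (𝐂 (Q : Subgroup G)) = c at hdv hc3 hcC
  have hGc : Nat.card G = 132 * c := by
    rw [← (𝐍 (Q : Subgroup G)).card_mul_index, ← card_mul_relIndex_of_le (cent_sub (Q : Subgroup G)),
      hi, ← hcC, h3, ← show Nat.card (Sylow 3 G) = (𝐍 (Q : Subgroup G)).index from
        Sylow.card_eq_index_normalizer Q, h22]
    ring
  have hn11 : Nat.card (Sylow 11 G) = 6 * c := by
    have h1 := (𝐍 (R : Subgroup G)).card_mul_index
    rw [← card_mul_relIndex_of_le (normG (R : Subgroup G)), he, hR, hGc,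
      ← show Nat.card (Sylow 11 G) = (𝐍 (R : Subgroup G)).index from
        Sylow.card_eq_index_normalizer R] at h1
    omega
  have hc := arith hdv (hn11 ▸ card_sylow_modEq_one 11 G) hc3
  rcases hc with rfl | hc
  · have h1 := mul_le_of_semireg (X := Sylow 11 G) (S := {R}ᶜ) ht (hNR t htR)
      (fun y hy ω hω e => hω (smul_left_cancel y (Eq.trans e ((smul_eq_iff R.isPGroup' hy R).2 hy).symm)))
      (fun y hy ω hω e => by_contra fun hy1 => hω (sylow_eq (prime_meetG hRp (trivgPn.2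
        ⟨y, ⟨hy, (smul_eq_iff R.isPGroup' hy ω).1 e⟩, hy1⟩))).symm)
    have h2 := Set.ncard_add_ncard_compl ({R} : Set (Sylow 11 G))
    have h4 := even_of_index (X := Sylow 11 G) hG (hto ▸ pow_orderOf_eq_one t : t ^ 2 = 1)
    have h5 : R ∈ fixedBy (Sylow 11 G) t := Sylow.smul_eq_iff_mem_normalizer.2 ht
    rw [Set.inter_comm, ← Set.sdiff_eq, Set.ncard_sdiff_singleton_of_mem h5, hR] at h1
    have h6 := (Set.ncard_pos (Set.toFinite _)).2 ⟨R, h5⟩
    rw [Set.ncard_singleton] at h2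
    omega
  obtain ⟨w, hw, hwo⟩ := Cauchy (p := 7) Fact.out (H := 𝐂 (Q : Subgroup G)) (by rw [h3] at hcC; omega)
  have hwQ : Q ∈ fixedBy (Sylow 3 G) w := Sylow.smul_eq_iff_mem_normalizer.2 (cent_sub _ hw)
  have hfw : fixedBy (Sylow 3 G) w = {Q} := by
    have h1 := hmod 7 w Fact.out hwo
    have h2 := hcent Q w hw
    obtain ⟨a, ha⟩ := Set.ncard_eq_one.1 (show (fixedBy (Sylow 3 G) w).ncard = 1 by omega)
    rw [ha] at hwQ ⊢
    rw [hwQ]
  have hT : Nat.card (Subgroup.zpowers w) = 7 := (Nat.card_zpowers w).trans hwo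
  obtain ⟨T, hT'⟩ := exists_sylow_top (Sylow_of (p := 7) le_top (isPGroup_of_card_prime hT) (by
    have h1 := (Subgroup.zpowers w).card_mul_index
    rw [Subgroup.relIndex_top_right]
    rw [hT, hGc] at h1
    omega))
  have hk : ∀ q : ℕ, q.Prime → q = 2 ∨ q = 5 ∨ q = 11 → ¬ q ∣ Nat.card (𝐂₁ w) := by
    intro q hq hq' h
    obtain ⟨z, hz, hzo⟩ := Cauchy hq h
    have h1 := fix_modEq (X := Sylow 3 G) (mem_cent1.1 hz) (hwo ▸ pow_orderOf_eq_one w)
    have h2 : z • Q ∈ fixedBy (Sylow 3 G) w := by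
      rw [mem_fixedBy, smul_smul, ← mem_cent1.1 hz, mul_smul, hwQ]
    rw [hfw] at h2 h1
    rw [Set.inter_eq_right.2 (Set.singleton_subset_iff.2 (show Q ∈ fixedBy _ z from h2)), Set.ncard_singleton] at h1
    have h4 := hmod q z hq hzo
    unfold Nat.ModEq at h1
    rcases hq' with rfl | rfl | rfl <;> omega
  have hk21 : Nat.card (𝐂₁ w) = 21 := by
    have h1 : Nat.card (𝐂₁ w) ∣ (2 ^ 6 * 5 * 11) * 21 :=
      (Subgroup.card_subgroup_dvd_card _).trans (by rcases hc with rfl | rfl <;> norm_num [hGc])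
    have h2 := Nat.Coprime.dvd_of_dvd_mul_left (Nat.Coprime.symm (Nat.Coprime.mul_left
      (Nat.Coprime.mul_left (Nat.Coprime.pow_left 6 ((Nat.Prime.coprime_iff_not_dvd Nat.prime_two).2
        (hk 2 Nat.prime_two (by omega)))) ((Nat.Prime.coprime_iff_not_dvd Fact.out).2
        (hk 5 Fact.out (by omega)))) ((Nat.Prime.coprime_iff_not_dvd Fact.out).2
        (hk 11 Fact.out (by omega))))) h1
    have h4 : 3 ∣ Nat.card (𝐂₁ w) := h3 Q ▸ cardSg (le_cent1_iff.2 hw)
    have h5 : 7 ∣ Nat.card (𝐂₁ w) := hwo ▸ order_dvdG (cent1id w)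
    have := Nat.le_of_dvd (by norm_num) h2
    have := cardG_gt0 (𝐂₁ w)
    omega
  have h1 := relIndex_cent_dvd (by rw [hT]; norm_num : (Nat.card (Subgroup.zpowers w)).Prime)
  have h2 := (𝐍 (T : Subgroup G)).card_mul_index
  rw [← show Nat.card (Sylow 7 G) = (𝐍 (T : Subgroup G)).index from
    Sylow.card_eq_index_normalizer T, hT', ← card_mul_relIndex_of_le (cent_sub _), hGc] at h2
  have h4 := card_sylow_modEq_one 7 G
  rw [hT] at h1
  generalize (𝐂 (Subgroup.zpowers w)).relIndex (𝐍 (Subgroup.zpowers w)) = e at h1 h2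
  rw [cent_zpowers, hk21] at h2
  unfold Nat.ModEq at h4
  have := Nat.le_of_dvd (by norm_num) h1
  interval_cases e <;> omega

end Lines

universe u

theorem aux (n : ℕ) : ∀ (G : Type u) [Group G] [Finite G], Nat.card G = n →
    Nat.card (Sylow 3 G) ≠ 22 := by
  induction n using Nat.strong_induction_on with
  | _ n ih =>
  intro G _ _ hn h22
  refine main h22 (fun g hg => by_contra fun hg1 => ?_) fun K hK h3 => by_contra fun hK' => ?_
  · let K := (toPermHom G (Sylow 3 G)).ker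
    have hK : ∀ Q : Sylow 3 G, K ≤ 𝐍 (Q : Subgroup G) := fun Q k hk =>
      Sylow.smul_eq_iff_mem_normalizer.1 (DFunLike.congr_fun (MonoidHom.mem_ker.1 hk) Q)
    refine ih _ ?_ (G ⧸ K) rfl (Eq.trans (Nat.card_eq_of_bijective _ ⟨fun P Q h => ?_,
      Sylow.mapSurjective_surjective (QuotientGroup.mk'_surjective K) 3⟩).symm h22)
    · rw [← hn, ← K.card_mul_index, ← Subgroup.index_eq_card]
      refine lt_mul_of_one_lt_left (Nat.pos_of_ne_zero K.index_ne_zero_of_finite)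
        (cardG_gt1.2 (trivgPn.2 ⟨g, MonoidHom.mem_ker.2 (Equiv.ext hg), hg1⟩))
    · have h1 := congrArg (fun S : Sylow 3 (G ⧸ K) => (S : Subgroup (G ⧸ K)).comap
        (QuotientGroup.mk' K)) h
      simp only [Sylow.coe_mapSurjective, Subgroup.comap_map_eq, QuotientGroup.ker_mk'] at h1
      exact sylow_eq (norm_sub_Hall' (Sylow_top Q) (pHall_pgroup (Sylow_top P)) le_top
        ((le_sup_left.trans h1.le).trans (sup_le (normG _) (hK Q))))
  · have hQ : ∀ Q : Sylow 3 G, (Q : Subgroup G) ≤ K := fun Q => by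
      rw [← QuotientGroup.ker_mk' K, ← Subgroup.map_eq_bot_iff]
      by_contra h
      exact h3 ((pgroup_dvd_card (Q.isPGroup'.map _) h).trans (Subgroup.card_subgroup_dvd_card _))
    refine ih _ ?_ K rfl (Eq.trans (Nat.card_eq_of_bijective (fun Q : Sylow 3 G => Q.subtype (hQ Q))
      ⟨fun P Q h => Sylow.subtype_injective h, fun R => ?_⟩).symm h22)
    · rw [← hn, ← Subgroup.card_top (G := G)]
      exact proper_card (lt_top_iff_ne_top.2 hK')
    · obtain ⟨Q, hQ'⟩ := (R.isPGroup'.map K.subtype).exists_le_sylow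
      exact ⟨Q, (sylow_eq (Subgroup.map_le_iff_le_comap.1 hQ')).symm⟩

/-- No finite group has exactly 22 Sylow 3-subgroups. -/
theorem result {G : Type*} [Group G] [Finite G] : Nat.card (Sylow 3 G) ≠ 22 := by
  exact aux _ G rfl

end Cfsg.Agent.S4346
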