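import Cfsg.Statements.S4354
import Cfsg.Agent.Solv.CoprimeSylow
import Cfsg.Agent.Solv.SylowNumber

set_option autoImplicit false
open Cfsg

namespace Cfsg.Agent.S4354

open Cfsg.Lib.Solv
open scoped Pointwise

theorem exists_sylow_le_of_not_dvd {G : Type*} [Group G] [Finite G] {p : ℕ} [Fact p.Prime]
    {H U : Subgroup G} (h : ¬ p ∣ H.index) (hU : IsPGroup p U) (hUH : U ≤ H) :
    ∃ R : Sylow p G, U ≤ R ∧ (R : Subgroup G) ≤ H := by
  obtain ⟨P, h1, h2, h3, h4⟩ := Coprime.exists_le_sylow_ambient hUH hU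
  refine ⟨h3.toSylow fun h5 => ?_, h1, h2⟩
  rw [← Subgroup.relIndex_mul_index h2] at h5
  exact ((Fact.out : p.Prime).dvd_mul.1 h5).elim h4 h

theorem not_dvd_relIndex_normal {G : Type*} [Group G] [Finite G] {p : ℕ} [Fact p.Prime]
    (R : Sylow p G) (N : Subgroup G) [N.Normal] : ¬ p ∣ (R : Subgroup G).relIndex N := by
  rw [← relIndex_sup_of_le_normalizer Subgroup.le_normalizer_of_normal]
  exact fun h => R.not_dvd_index (h.trans (Subgroup.relIndex_dvd_index_of_le le_sup_left))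

theorem isPGroup_zpowers {G : Type*} [Group G] [Finite G] {p : ℕ} [Fact p.Prime] {x : G}
    (h : ∃ k : ℕ, orderOf x = p ^ k) : IsPGroup p (Subgroup.zpowers x) := by
  obtain ⟨k, hk⟩ := h
  exact IsPGroup.of_card ((Nat.card_zpowers x).trans hk)

theorem order_of_mem {G : Type*} [Group G] [Finite G] {p : ℕ} [Fact p.Prime] {x : G}
    {P : Subgroup G} (hP : IsPGroup p P) (hx : x ∈ P) : ∃ k : ℕ, orderOf x = p ^ k := by
  obtain ⟨k, hk⟩ := IsPGroup.iff_orderOf.1 hP ⟨x, hx⟩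
  exact ⟨k, (Subgroup.orderOf_mk x hx).symm.trans hk⟩


/-- Let G be a finite group and p a prime such that the Sylow p-subgroups of G are non-abelian while every element of p-power order has conjugacy class size prime to p, and suppose no nontrivial proper normal subgroup N of G has this property and no quotient G/N by such an N has it. Then G is simple. -/
theorem result {G : Type*} [Group G] [Finite G]
    (p : ℕ) [Fact p.Prime] (h : ((∃ P : Sylow p G, ¬ IsMulCommutative P) ∧ ∀ x : G, (∃ k : ℕ, orderOf x = p ^ k) → ¬ p ∣ (Subgroup.centralizer ({x} : Set G)).index))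
    (hmin : ∀ (N : Subgroup G) [N.Normal], N ≠ ⊥ → N ≠ ⊤ →
      ¬ ((∃ P : Sylow p N, ¬ IsMulCommutative P) ∧ ∀ x : N, (∃ k : ℕ, orderOf x = p ^ k) → ¬ p ∣ (Subgroup.centralizer ({x} : Set N)).index) ∧
      ¬ ((∃ P : Sylow p (G ⧸ N), ¬ IsMulCommutative P) ∧ ∀ x : (G ⧸ N), (∃ k : ℕ, orderOf x = p ^ k) → ¬ p ∣ (Subgroup.centralizer ({x} : Set (G ⧸ N))).index)) :
    IsSimpleGroup G := by
  obtain ⟨⟨P₀, hP₀⟩, hc⟩ := h
  have hR : ∀ x : G, (∃ k : ℕ, orderOf x = p ^ k) →
      ∃ R : Sylow p G, x ∈ (R : Subgroup G) ∧ (R : Subgroup G) ≤ Subgroup.centralizer {x} :=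
    fun x hx => by
      obtain ⟨R, h1, h2⟩ := exists_sylow_le_of_not_dvd (hc x hx) (isPGroup_zpowers hx)
        (Subgroup.zpowers_le.2 (Subgroup.mem_centralizer_singleton_iff.2 rfl))
      exact ⟨R, h1 (Subgroup.mem_zpowers x), h2⟩
  have hna : ∀ P : Sylow p G, ¬ ∀ x ∈ (P : Subgroup G), ∀ y ∈ (P : Subgroup G), x * y = y * x := by
    intro P hP
    obtain ⟨g, rfl⟩ := MulAction.exists_smul_eq G P₀ P
    refine hP₀ ⟨⟨fun a b => Subtype.ext ?_⟩⟩
    have := hP _ (conj_mem_conj_smul g a.2) _ (conj_mem_conj_smul g b.2)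
    rw [conj_mul, conj_mul] at this
    exact (MulAut.conj g).injective this
  have : Nontrivial G := by
    by_contra h
    have := not_nontrivial_iff_subsingleton.1 h
    exact hna P₀ fun x _ y _ => Subsingleton.elim _ _
  refine ⟨fun N hN => ?_⟩
  by_contra hcon
  push Not at hcon
  obtain ⟨h1, h2⟩ := hmin N hcon.1 hcon.2
  have hA : ∀ S : Sylow p N, IsMulCommutative S := by
    intro S
    by_contra hS
    refine h1 ⟨⟨S, hS⟩, fun x hx hd => ?_⟩
    obtain ⟨R, -, hR2⟩ := hR x (by simpa using hx)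
    refine not_dvd_relIndex_normal R N (hd.trans (Subgroup.index_dvd_of_le fun y hy => ?_))
    exact Subgroup.mem_centralizer_singleton_iff.2
      (Subtype.ext (Subgroup.mem_centralizer_singleton_iff.1 (hR2 hy)))
  have hB : ∀ S : Sylow p (G ⧸ N), IsMulCommutative S := by
    intro S
    by_contra hS
    refine h2 ⟨⟨S, hS⟩, fun x hx hd => ?_⟩
    obtain ⟨T, hT⟩ := (isPGroup_zpowers hx).exists_le_sylow
    obtain ⟨T, rfl⟩ := Sylow.mapSurjective_surjective (QuotientGroup.mk'_surjective N) p T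
    obtain ⟨y, hy, rfl⟩ := hT (Subgroup.mem_zpowers x)
    obtain ⟨R, -, hR2⟩ := hR y (order_of_mem T.2 hy)
    refine (R.mapSurjective (QuotientGroup.mk'_surjective N)).not_dvd_index
      (hd.trans (Subgroup.index_dvd_of_le ?_))
    rintro _ ⟨z, hz, rfl⟩
    rw [Subgroup.mem_centralizer_singleton_iff, ← map_mul, ← map_mul,
      Subgroup.mem_centralizer_singleton_iff.1 (hR2 hz)]
  have hQ : ∀ R : Sylow p G, ¬ p ∣ ((R : Subgroup G) ⊓ N).relIndex N := fun R => by
    rw [Subgroup.inf_relIndex_right]; exact not_dvd_relIndex_normal R N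
  obtain ⟨Q, hQdef⟩ : ∃ Q, Q = (P₀ : Subgroup G) ⊓ N := ⟨_, rfl⟩
  have hQp : IsPGroup p Q := hQdef ▸ P₀.2.to_inf_left
  have hQN : Q ≤ N := hQdef ▸ inf_le_right
  have hQi : ¬ p ∣ Q.relIndex N := hQdef ▸ hQ P₀
  have hQC : Q ≤ Subgroup.centralizer (Q : Set G) := by
    obtain ⟨S, rfl⟩ := Coprime.exists_sylow_map_eq hQN hQp hQi
    have := hA S
    exact Subgroup.le_centralizer _
  have hPK : (P₀ : Subgroup G) ≤ Subgroup.centralizer (Q : Set G) ⊔ N := by
    intro x hx
    obtain ⟨R, -, hR2⟩ := hR x (order_of_mem P₀.2 hx)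
    obtain ⟨n, hn, he⟩ := Coprime.exists_conj_eq_of_sylow hQN hQp hQi inf_le_right
      R.2.to_inf_left (hQ R)
    have h3 : n⁻¹ * x * n ∈ Subgroup.centralizer (Q : Set G) := by
      rw [← mem_conj_smul, conj_smul_centralizer, he]
      intro y hy
      exact Subgroup.mem_centralizer_singleton_iff.1 (hR2 hy.1)
    have h4 : x = n * (n⁻¹ * x * n) * n⁻¹ := by group
    rw [h4]
    exact Subgroup.mul_mem _ (Subgroup.mul_mem _ (Subgroup.mem_sup_right hn)
      (Subgroup.mem_sup_left h3)) (Subgroup.mem_sup_right (N.inv_mem hn))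
  have hCi : ¬ p ∣ (Subgroup.centralizer (Q : Set G)).index := by
    rw [← Subgroup.relIndex_mul_index (le_sup_left : _ ≤ Subgroup.centralizer (Q : Set G) ⊔ N),
      relIndex_sup_of_le_normalizer Subgroup.le_normalizer_of_normal]
    intro h
    rcases (Fact.out : p.Prime).dvd_mul.1 h with h | h
    · exact hQi (h.trans (Subgroup.relIndex_dvd_of_le_left _ hQC))
    · exact P₀.not_dvd_index (h.trans (Subgroup.index_dvd_of_le hPK))
  obtain ⟨P, hP1, hP2⟩ := exists_sylow_le_of_not_dvd hCi hQp hQC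
  have hPN : (P : Subgroup G) ⊓ N = Q :=
    Coprime.eq_of_sylow_le hQp hQi (le_inf hP1 hQN) inf_le_right P.2.to_inf_left
  refine hna P fun x hx y hy => ?_
  obtain ⟨R, hR1, hR2⟩ := hR x (order_of_mem P.2 hx)
  have := hB (P.mapSurjective (QuotientGroup.mk'_surjective N))
  obtain ⟨d, hd, rfl⟩ := exists_mem_smul_sylow_eq
    (H := (Subgroup.centralizer {(x : G ⧸ N)}).comap (QuotientGroup.mk' N)) P R
    (fun z hz => Subgroup.mem_centralizer_singleton_iff.2 (Subgroup.mul_comm_of_mem_isMulCommutative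
      (P.mapSurjective (QuotientGroup.mk'_surjective N) : Subgroup (G ⧸ N)) ⟨z, hz, rfl⟩ ⟨x, hx, rfl⟩))
    (fun z hz => Subgroup.mem_centralizer_singleton_iff.2 (by
      change ((z * x : G) : G ⧸ N) = ((x * z : G) : G ⧸ N)
      rw [Subgroup.mem_centralizer_singleton_iff.1 (hR2 hz)]))
  have h5 : d⁻¹ * x * d ∈ (P : Subgroup G) := mem_conj_smul.1 hR1
  have h6 : y * (d⁻¹ * x * d) = (d⁻¹ * x * d) * y := by
    have := Subgroup.mem_centralizer_singleton_iff.1 (hR2 (conj_mem_conj_smul d hy))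
    calc y * (d⁻¹ * x * d) = d⁻¹ * (d * y * d⁻¹ * x) * d := by group
      _ = _ := by rw [this]; group
  have h7 : x⁻¹ * (d⁻¹ * x * d) ∈ Q := by
    rw [← hPN]
    refine ⟨Subgroup.mul_mem _ (Subgroup.inv_mem _ hx) h5, QuotientGroup.eq.1 ?_⟩
    have : (d : G ⧸ N) * x = x * d := Subgroup.mem_centralizer_singleton_iff.1 hd
    rw [QuotientGroup.mk_mul, QuotientGroup.mk_mul, QuotientGroup.mk_inv, mul_assoc, ← this,
      inv_mul_cancel_left]
  have h8 := hP2 hy _ h7
  have h9 : x = (d⁻¹ * x * d) * (x⁻¹ * (d⁻¹ * x * d))⁻¹ := by group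
  have c1 : Commute y (d⁻¹ * x * d) := h6
  have c2 : Commute y (x⁻¹ * (d⁻¹ * x * d)) := h8.symm
  have c3 := c1.mul_right c2.inv_right
  rw [← h9] at c3
  exact c3.symm.eq

end Cfsg.Agent.S4354
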