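import Cfsg.Statements.S4359
import Cfsg.Agent.Local.Sims

set_option autoImplicit false
open Pointwise
open Cfsg

namespace Cfsg.Agent.S4359

open Subgroup Cfsg.Lib.Solv Cfsg.Lib.FT Cfsg.Lib.Local.Sims

/-- Let P be a subgroup of a finite group G and g an element such that P ∩ g⁻¹Pg is a normal subgroup of prime index p in g⁻¹Pg. Let n ≥ 1 and let K be the subgroup generated by P and its conjugates g⁻ⁱPgⁱ for i ≤ n. Suppose that g normalizes no non-identity normal subgroup of P and that P meets the center of K trivially. Then the order of P is pᵗ for some t with 1 ≤ t ≤ 3n and t ≠ 3n - 1. -/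
theorem result {G : Type*} [Group G] [Finite G]
    (P : Subgroup G) (g : G) (p : ℕ) (hp : p.Prime)
    (hN : ((P ⊓ MulAut.conj g⁻¹ • P).subgroupOf (MulAut.conj g⁻¹ • P)).Normal)
    (hidx : (P ⊓ MulAut.conj g⁻¹ • P).relIndex (MulAut.conj g⁻¹ • P) = p)
    (n : ℕ) (hn : 1 ≤ n) (K : Subgroup G) (hK : K = ⨆ i ∈ Finset.range (n + 1), MulAut.conj (g ^ i)⁻¹ • P)
    (h1 : ∀ Q : Subgroup G, Q ≤ P → (Q.subgroupOf P).Normal → MulAut.conj g • Q = Q → Q = ⊥)
    (h2 : P ⊓ (Subgroup.center K).map K.subtype = ⊥) :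
    ∃ t : ℕ, Nat.card P = p ^ t ∧ 1 ≤ t ∧ t ≤ 3 * n ∧ t ≠ 3 * n - 1 := by

  have e1 : Pk P g 1 = MulAut.conj g⁻¹ • P := by rw [Pk, zpow_one]
  have e2 : I P g 0 1 = P ⊓ MulAut.conj g⁻¹ • P := by
    rw [← e1]
    refine le_antisymm (le_inf ((I_le_Pk le_rfl (by omega)).trans Pk_zero.le)
      (I_le_Pk (by omega) le_rfl)) fun z hz => ?_
    exact mem_I_right (b := 0) ((Pk_zero.symm.trans (I_self 0).symm).le hz.1) hz.2
  have H : Hyp p P g := by
    refine ⟨hp, ?_, by rw [e1, e2, hidx], fun Q q1 q2 q3 => h1 Q q1 (normal_subgroupOf q2)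
      (normP.1 q3)⟩
    rw [e1, e2]
    exact (normal_of_subgroupOf inf_le_right hN).norm
  obtain ⟨t, x, F⟩ := H.exists_frame
  obtain ⟨u, u1, u2, hu, u3⟩ := F.exists_near
  have h3 : 2 * u ≤ t + n := by
    refine F.two_mul_le' hu u2 fun z hz hc _ => ?_
    rw [map_subtype_center] at h2
    have hPK : P ≤ K := by
      rw [hK]
      refine le_iSup₂_of_le 0 (Finset.mem_range.2 (by omega)) ?_
      simp
    refine mem_bot.1 (h2.le ⟨hz, hPK hz, ?_⟩)
    refine le_cent1_iff.1 ?_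
    rw [hK]
    refine iSup₂_le fun i hi => le_cent1_iff.2 ?_
    have := hc i (by omega) (by have := Finset.mem_range.1 hi; omega)
    rwa [Pk, zpow_natCast] at this
  refine ⟨t, F.card_P, F.pos, ?_⟩
  rcases u2.eq_or_lt with rfl | hlt
  · omega
  · have := F.two_mul_le hu (u3.resolve_left hlt.ne) hlt
    omega

end Cfsg.Agent.S4359
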