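import Cfsg.Statements.S4370
import Cfsg.Agent.Solv.UniqueInvol
import Cfsg.Agent.Solv.Quaternion
import Cfsg.Agent.Solv.NilpotentHall
import Cfsg.Agent.Solv.Cores

set_option autoImplicit false
open Cfsg

namespace Cfsg.Agent.S4370

open Cfsg Cfsg.Lib.Solv

open QuaternionGroup in
theorem quat_centralizer {n : ℕ} [NeZero n] (q : QuaternionGroup n)
    (hq : q ∉ Subgroup.center (QuaternionGroup n)) :
    ∃ g : QuaternionGroup n, ∀ y, y * q = q * y → y ∈ Subgroup.zpowers g := by
  have key : ∀ j : ZMod (2 * n), j + j = 0 → j = 0 ∨ j = n := by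
    intro j hj
    rcases (ZMod.neg_eq_self_iff j).1 (neg_eq_of_add_eq_zero_left hj) with h | h
    · exact Or.inl h
    · right
      have : j.val = n := by omega
      rw [← ZMod.natCast_zmod_val j, this]
  have hnn : (n : ZMod (2 * n)) + n = 0 := by
    rw [← two_mul]; exact_mod_cast ZMod.natCast_self (2 * n)
  rcases q with i | i
  · refine ⟨a 1, ?_⟩
    rintro (j | j) hy
    · exact ⟨(j.val : ℤ), by simp only []; rw [PG.quaternion_a_one_zpow]; simp⟩
    · exfalso
      apply hq
      simp only [xa_mul_a, a_mul_xa, xa.injEq] at hy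
      refine Subgroup.mem_center_iff.2 ?_
      rintro (l | l)
      · simp [add_comm]
      · simp only [xa_mul_a, a_mul_xa, xa.injEq]
        linear_combination hy
  · refine ⟨xa i, ?_⟩
    have h2 : (xa i : QuaternionGroup n) ^ 2 = a n := by rw [sq]; simp
    rintro (j | j) hy
    · simp only [xa_mul_a, a_mul_xa, xa.injEq] at hy
      rcases key j (by linear_combination -hy) with h | h
      · rw [h]; exact one_mem _
      · rw [h, ← h2]; exact Subgroup.npow_mem_zpowers _ _
    · simp only [xa_mul_xa, a.injEq] at hy
      rcases key (j - i) (by linear_combination -hy) with h | h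
      · rw [sub_eq_zero.1 h]; exact Subgroup.mem_zpowers _
      · have : (xa j : QuaternionGroup n) = xa i * (xa i) ^ 2 := by
          rw [h2, xa_mul_a, ← h]; simp
        rw [this]
        exact mul_mem (Subgroup.mem_zpowers _) (Subgroup.npow_mem_zpowers _ _)


/-- Let G be a finite non-abelian nilpotent group. Then the centralizer of every non-central element of G is cyclic if and only if G is isomorphic to the direct product of a generalized quaternion group and a cyclic group of odd order. -/
theorem result {G : Type*} [Group G] [Finite G] (hG : Group.IsNilpotent G)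
    (hna : ¬ IsMulCommutative G) :
    (∀ x : G, x ∉ Subgroup.center G → IsCyclic (Subgroup.centralizer ({x} : Set G))) ↔
      ∃ (k m : ℕ), 1 ≤ k ∧ Odd m ∧ Nonempty (G ≃* QuaternionGroup (2 ^ k) × Multiplicative (ZMod m)) := by
  haveI : Fact (Nat.Prime 2) := ⟨Nat.prime_two⟩
  constructor
  · intro h
    obtain ⟨x0, hx0⟩ : ∃ x : G, x ∉ Subgroup.center G := by
      by_contra h0
      push Not at h0
      exact hna ⟨⟨fun a b => (Subgroup.mem_center_iff.1 (h0 b) a)⟩⟩
    have hab : ∀ A : Subgroup G, IsMulCommutative A → IsCyclic A := by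
      intro A hA
      by_cases h1 : A ≤ Subgroup.center G
      · haveI := h x0 hx0
        exact Subgroup.isCyclic_of_le (h1.trans (Subgroup.center_le_centralizer {x0}))
      · obtain ⟨x, hxA, hx⟩ := SetLike.not_le_iff_exists.1 h1
        haveI := h x hx
        refine Subgroup.isCyclic_of_le (H' := Subgroup.centralizer {x}) (fun y hy => ?_)
        exact Subgroup.mem_centralizer_singleton_iff.2
          (congrArg Subtype.val (hA.1.1 ⟨y, hy⟩ ⟨x, hxA⟩))
    have hab' : ∀ (K : Subgroup G) (A : Subgroup K), IsMulCommutative A → IsCyclic A := by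
      intro K A hA
      haveI := hab (A.map K.subtype) inferInstance
      exact isCyclic_of_surjective _ (Subgroup.equivMapOfInjective A _ K.subtype_injective).symm.surjective
    set P := pCore 2 G
    set O := pPrimeCore 2 G
    have hc := isComplement'_pCore_pPrimeCore_of_isNilpotent (G := G) 2
    have hO : (Nat.card O).Coprime 2 := coprime_card_pPrimeCore_of_isNilpotent 2
    have hP : IsPGroup 2 P := pCore_isPGroup 2 G
    haveI : IsZGroup O := ⟨fun p hp Q => by
      haveI := Fact.mk hp
      by_cases hp2 : p = 2
      · subst hp2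
        obtain ⟨k, hk⟩ := IsPGroup.iff_card.1 Q.isPGroup'
        have h1 : (Nat.card Q).Coprime 2 := hO.coprime_dvd_left (Q : Subgroup O).card_subgroup_dvd_card
        have h2 : Nat.card Q = 1 := by
          rw [hk] at h1 ⊢
          rcases k with _ | k
          · rfl
          · exact absurd (Nat.eq_one_of_dvd_coprimes h1 (dvd_pow_self 2 (by omega)) dvd_rfl)
              (by decide)
        exact isCyclic_of_card_dvd_prime (p := 2) (by rw [h2]; exact one_dvd _)
      · refine PG.isCyclic_of_forall_normal_abelian_isCyclic Q.isPGroup' hp2 (fun A _ hA => ?_)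
        haveI := hab' O (A.map (Q : Subgroup O).subtype) inferInstance
        exact isCyclic_of_surjective _
          (Subgroup.equivMapOfInjective A _ (Q : Subgroup O).subtype_injective).symm.surjective⟩
    have hOc : IsCyclic O := inferInstance
    obtain ⟨e⟩ : Nonempty (G ≃* P × O) := by
      let f : P × O →* G := MonoidHom.noncommCoprod P.subtype O.subtype (fun a b =>
        Subgroup.commute_of_normal_of_disjoint P O inferInstance inferInstance hc.disjoint a b
          a.2 b.2)
      exact ⟨(MulEquiv.ofBijective f hc).symm⟩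
    have huniq : ∀ x y : P, orderOf x = 2 → orderOf y = 2 → x = y := by
      intro x y hx hy
      haveI : Nontrivial P := ⟨⟨x, 1, fun h => by simp [h] at hx⟩⟩
      haveI := hP.center_nontrivial
      obtain ⟨z, hz⟩ := exists_prime_orderOf_dvd_card' (G := Subgroup.center P) 2 (by
        obtain ⟨k, hk0, hk⟩ := (hP.to_subgroup (Subgroup.center P)).nontrivial_iff_card.1
          inferInstance
        rw [hk]; exact dvd_pow_self 2 hk0.ne')
      rw [← Subgroup.orderOf_coe] at hz
      have key : ∀ x : P, orderOf x = 2 → x = z := by
        intro x hx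
        have hcomm : IsMulCommutative (Subgroup.closure ({x, (z : P)} : Set P)) :=
          Subgroup.isMulCommutative_closure (by
            rintro a (rfl | rfl) b (rfl | rfl)
            · rfl
            · exact Subgroup.mem_center_iff.1 z.2 _
            · exact (Subgroup.mem_center_iff.1 z.2 _).symm
            · rfl)
        haveI := hab' P _ hcomm
        have h1 : Subgroup.zpowers x = Subgroup.zpowers (z : P) :=
          PG.eq_of_card_eq_of_isCyclic (A := Subgroup.closure ({x, (z : P)} : Set P))
            (Subgroup.zpowers_le.2 (Subgroup.subset_closure (by simp)))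
            (Subgroup.zpowers_le.2 (Subgroup.subset_closure (by simp)))
            (by rw [Nat.card_zpowers, Nat.card_zpowers, hx, hz])
        obtain ⟨k, hk⟩ := PG.exists_pow_eq_of_mem_zpowers (h1 ▸ Subgroup.mem_zpowers x)
        rw [← pow_mod_orderOf, hz] at hk
        rcases Nat.mod_two_eq_zero_or_one k with h2 | h2
        · rw [h2, pow_zero] at hk; simp [hk] at hx
        · rwa [h2, pow_one] at hk
      rw [key x hx, key y hy]
    rcases PG.isCyclic_or_exists_gens_of_unique_involution hP huniq with h1 |
      ⟨a, x, n, hn, ha, hx, htop, -, h2, h3⟩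
    · exfalso
      apply hna
      haveI := h1.isMulCommutative
      haveI := hOc.isMulCommutative
      refine ⟨⟨fun a b => e.injective ?_⟩⟩
      rw [map_mul, map_mul]
      exact Prod.ext (IsMulCommutative.is_comm.1 _ _) (IsMulCommutative.is_comm.1 _ _)
    · obtain ⟨e1⟩ := PG.nonempty_mulEquiv_quaternionGroup (n := 2 ^ (n - 1)) (s := x) (r := a)
        (by rw [ha, ← pow_succ']; congr 1; omega) h3 h2 hx htop
      exact ⟨n - 1, Nat.card O, by omega, Nat.coprime_two_right.1 hO,
        ⟨e.trans (MulEquiv.prodCongr e1 (zmodCyclicMulEquiv hOc).symm)⟩⟩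
  · rintro ⟨k, m, hk, hm, ⟨e⟩⟩ x hx
    haveI : NeZero m := ⟨by rintro rfl; simp at hm⟩
    haveI : NeZero (2 ^ k) := ⟨by positivity⟩
    have hx1 : (e x).1 ∉ Subgroup.center (QuaternionGroup (2 ^ k)) := by
      intro h
      apply hx
      refine Subgroup.mem_center_iff.2 (fun y => e.injective ?_)
      rw [map_mul, map_mul]
      exact Prod.ext (Subgroup.mem_center_iff.1 h _) (mul_comm _ _)
    obtain ⟨g, hg⟩ := quat_centralizer _ hx1
    haveI : IsCyclic (Subgroup.zpowers g × Multiplicative (ZMod m)) := by
      refine Group.isCyclic_prod_iff.2 ⟨inferInstance, inferInstance, ?_⟩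
      have h1 : Nat.card (Subgroup.zpowers g) ∣ 2 ^ (k + 2) := by
        have := (Subgroup.zpowers g).card_subgroup_dvd_card
        rw [Nat.card_eq_fintype_card (α := QuaternionGroup (2 ^ k)), QuaternionGroup.card] at this
        convert this using 1; ring
      refine Nat.Coprime.coprime_dvd_left h1 ?_
      rw [Nat.card_congr (Multiplicative.toAdd (α := ZMod m)), Nat.card_zmod]
      exact Nat.Coprime.pow_left _ (Nat.coprime_two_left.2 hm)
    let f : Subgroup.centralizer ({x} : Set G) →* Subgroup.zpowers g × Multiplicative (ZMod m) :=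
      MonoidHom.prod (MonoidHom.codRestrict
        ((MonoidHom.fst _ _).comp (e.toMonoidHom.comp (Subgroup.subtype _))) _ (fun y => hg _ (by
          have := congrArg (fun t => (e t).1) (Subgroup.mem_centralizer_singleton_iff.1 y.2)
          simpa using this)))
        ((MonoidHom.snd _ _).comp (e.toMonoidHom.comp (Subgroup.subtype _)))
    refine isCyclic_of_injective f (fun y z h => Subtype.ext (e.injective (Prod.ext ?_ ?_)))
    · exact congrArg (fun t => (t.1 : QuaternionGroup (2 ^ k))) h
    · exact (congrArg Prod.snd h :)

end Cfsg.Agent.S4370
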