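import Cfsg.Statements.S4381
import Cfsg.Agent.Solv.ActionTransport
import Cfsg.Agent.Solv.MaschkeSection
import Cfsg.Agent.Solv.FrattiniP

set_option autoImplicit false
open Pointwise
open Cfsg

namespace Cfsg.Agent.S4381

/-- Let the finite group A act by automorphisms on the finite group G with the orders of A and G coprime, and assume that A or G is solvable. Call a proper A-invariant subgroup of G maximal A-invariant when no A-invariant subgroup lies strictly between it and G. Then all maximal A-invariant subgroups of G are conjugate under elements of the fixed-point subgroup C_G(A) if and only if G is a p-group for some prime p and A leaves invariant no subgroup strictly between the Frattini subgroup of G and G. In that case, if G is nontrivial, the Frattini subgroup is the only maximal A-invariant subgroup (a trivial G has none). -/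
theorem result {A G : Type*} [Group A] [Finite A]
    [Group G] [Finite G] [MulDistribMulAction A G] (hcop : (Nat.card A).Coprime (Nat.card G)) (hsol : Group.IsSolvable A ∨ Group.IsSolvable G) :
    ((∀ M N : Subgroup G, (M ≠ ⊤ ∧ (∀ a : A, ∀ x ∈ M, a • x ∈ M) ∧ ∀ L : Subgroup G, M < L → (∀ a : A, ∀ x ∈ L, a • x ∈ L) → L = ⊤) → (N ≠ ⊤ ∧ (∀ a : A, ∀ x ∈ N, a • x ∈ N) ∧ ∀ L : Subgroup G, N < L → (∀ a : A, ∀ x ∈ L, a • x ∈ L) → L = ⊤) →
        ∃ c : G, (∀ a : A, a • c = c) ∧ N = MulAut.conj c • M) ↔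
      ((∃ p : ℕ, p.Prime ∧ IsPGroup p G) ∧ ∀ L : Subgroup G, frattini G < L → (∀ a : A, ∀ x ∈ L, a • x ∈ L) → L = ⊤)) ∧
    (((∃ p : ℕ, p.Prime ∧ IsPGroup p G) ∧ ∀ L : Subgroup G, frattini G < L → (∀ a : A, ∀ x ∈ L, a • x ∈ L) → L = ⊤) →
      ∀ M : Subgroup G, (M ≠ ⊤ ∧ (∀ a : A, ∀ x ∈ M, a • x ∈ M) ∧ ∀ L : Subgroup G, M < L → (∀ a : A, ∀ x ∈ L, a • x ∈ L) → L = ⊤) ↔ (M = frattini G ∧ M ≠ ⊤)) := by
  open Subgroup Cfsg.Lib.Solv in
  let φ := MulDistribMulAction.toMulAut A G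
  have hΦ : ∀ a : A, ∀ x ∈ frattini G, a • x ∈ frattini G := fun a x hx =>
    (characteristic_iff_map_le.mp inferInstance (φ a)) ⟨x, hx, rfl⟩
  have hsup : ∀ M N : Subgroup G, (∀ a : A, ∀ x ∈ M, a • x ∈ M) → (∀ a : A, ∀ x ∈ N, a • x ∈ N) →
      ∀ a : A, ∀ x ∈ M ⊔ N, a • x ∈ M ⊔ N := fun M N hM hN a =>
    show M ⊔ N ≤ (M ⊔ N).comap (φ a).toMonoidHom from
      sup_le (fun x hx => mem_sup_left (hM a x hx)) (fun x hx => mem_sup_right (hN a x hx))
  have hΦle : ∀ M : Subgroup G, (M ≠ ⊤ ∧ (∀ a : A, ∀ x ∈ M, a • x ∈ M) ∧ ∀ L : Subgroup G, M < L →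
      (∀ a : A, ∀ x ∈ L, a • x ∈ L) → L = ⊤) → frattini G ≤ M := by
    rintro M ⟨h1, h2, h3⟩
    by_contra h
    exact h1 (frattini_nongenerating (h3 _ (left_lt_sup.mpr h) (hsup _ _ h2 hΦ)))
  have hex : ∀ U : Subgroup G, U ≠ ⊤ → (∀ a : A, ∀ x ∈ U, a • x ∈ U) → ∃ M : Subgroup G, U ≤ M ∧
      (M ≠ ⊤ ∧ (∀ a : A, ∀ x ∈ M, a • x ∈ M) ∧ ∀ L : Subgroup G, M < L →
        (∀ a : A, ∀ x ∈ L, a • x ∈ L) → L = ⊤) := by
    intro U h1 h2
    obtain ⟨M, hUM, hM⟩ := Finite.exists_le_maximal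
      (p := fun M : Subgroup G => M ≠ ⊤ ∧ ∀ a : A, ∀ x ∈ M, a • x ∈ M) ⟨h1, h2⟩
    refine ⟨M, hUM, hM.prop.1, hM.prop.2, fun L hL hL' => ?_⟩
    by_contra h
    exact hL.not_ge (hM.le_of_ge ⟨h, hL'⟩ hL.le)
  have part2 : (((∃ p : ℕ, p.Prime ∧ IsPGroup p G) ∧ ∀ L : Subgroup G, frattini G < L → (∀ a : A, ∀ x ∈ L, a • x ∈ L) → L = ⊤) →
      ∀ M : Subgroup G, (M ≠ ⊤ ∧ (∀ a : A, ∀ x ∈ M, a • x ∈ M) ∧ ∀ L : Subgroup G, M < L → (∀ a : A, ∀ x ∈ L, a • x ∈ L) → L = ⊤) ↔ (M = frattini G ∧ M ≠ ⊤)) := by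
    rintro ⟨-, h⟩ M
    constructor
    · intro hM
      refine ⟨?_, hM.1⟩
      rcases (hΦle M hM).lt_or_eq with h1 | h1
      · exact absurd (h M h1 hM.2.1) hM.1
      · exact h1.symm
    · rintro ⟨rfl, h1⟩
      exact ⟨h1, hΦ, h⟩
  refine ⟨⟨fun h => ?_, fun h M N hM hN => ⟨1, fun a => smul_one a, ?_⟩⟩, part2⟩
  swap
  · rw [((part2 h M).mp hM).1, ((part2 h N).mp hN).1, conj_one_smul]
  rcases subsingleton_or_nontrivial G with hG | hG
  · exact ⟨⟨2, Nat.prime_two, fun g => ⟨0, Subsingleton.elim _ _⟩⟩,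
      fun L _ _ => Subsingleton.elim _ _⟩
  obtain ⟨M, -, hM⟩ := hex ⊥ bot_ne_top (fun a x hx => by rw [mem_bot.mp hx, smul_one]; exact one_mem _)
  have hp : ∃ p : ℕ, p.Prime ∧ IsPGroup p G := by
    by_contra hcon
    push Not at hcon
    apply hM.1
    rw [← index_eq_one]
    by_contra h1
    obtain ⟨p, hp, hpd⟩ := Nat.exists_prime_and_dvd h1
    have := Fact.mk hp
    obtain ⟨P, -, hP, hPi, hPA⟩ := Act.exists_invariant_sylow (φ := φ) (Act.inv_top ⊤)
      (by simpa using hcop) (hsol.imp (fun h => by have := h; infer_instance) (fun h => by have := h; infer_instance)) p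
    obtain ⟨N, hPN, hN⟩ := hex P (by rintro rfl; exact hcon p hp (hP.of_equiv topEquiv))
      (fun a => hPA a trivial)
    obtain ⟨c, -, rfl⟩ := h M N hM hN
    rw [relIndex_top_right] at hPi
    exact hPi (((index_conj_smul c M).symm ▸ hpd).trans (index_dvd_of_le hPN))
  refine ⟨hp, ?_⟩
  obtain ⟨p, hp, hG⟩ := hp
  have := Fact.mk hp
  have huniq : ∀ U : Subgroup G, U ≠ ⊤ → (∀ a : A, ∀ x ∈ U, a • x ∈ U) → U ≤ M := by
    intro U h1 h2
    obtain ⟨N, hUN, hN⟩ := hex U h1 h2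
    obtain ⟨c, -, rfl⟩ := h M N hM hN
    have : M.Normal := Normal.of_commutator_le G
      ((commutator_le_frattini_of_isPGroup hG).trans (hΦle M hM))
    rwa [conj_smul_eq_of_mem_normalizer (le_normalizer_of_normal (mem_top c))] at hUN
  obtain ⟨n, hn0, hn⟩ := hG.nontrivial_iff_card.mp inferInstance
  obtain ⟨D, hD, hD1, hD2⟩ := Coprime.exists_invariant_complement_section' (p := p)
    (hcop.coprime_dvd_right (hn ▸ dvd_pow_self p hn0.ne')) φ (hΦle M hM) le_top hΦ hM.2.1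
    (fun _ _ _ => trivial) (commutator_le_frattini_of_isPGroup hG)
    (fun x _ => pow_mem_frattini hG x)
  have hD3 : D = ⊤ := by
    by_contra h1
    exact hM.1 (by rwa [sup_eq_left.mpr (huniq D h1 hD)] at hD2)
  rw [hD3, inf_top_eq] at hD1
  intro L hL hL'
  by_contra h1
  exact hL.not_ge (hD1 ▸ huniq L h1 hL')

end Cfsg.Agent.S4381
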