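import Cfsg.Statements.S4383
import Cfsg.Agent.TwoMax.Key

set_option autoImplicit false
open Pointwise
open Cfsg

namespace Cfsg.Agent.S4383

open Subgroup MulAction Cfsg.Lib.TwoMax

section

variable {G : Type*} [Group G] [Finite G] {M L : Subgroup G}

theorem idx (g : G) (M : Subgroup G) : (MulAut.conj g • M).index = M.index :=
  index_map_equiv M (MulAut.conj g)

theorem crd (g : G) (M : Subgroup G) : Nat.card (MulAut.conj g • M : Subgroup G) = Nat.card M :=
  card_map_of_injective (MulAut.conj g).injective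

theorem nle {N : Subgroup G} [hN : N.Normal] (g : G) : N ≤ MulAut.conj g • M ↔ N ≤ M := by
  refine ⟨fun h x hx => ?_, fun h x hx => ?_⟩
  · have := mem_pointwise_smul_iff_inv_smul_mem.1 (h (hN.conj_mem x hx g))
    simpa [mul_assoc] using this
  · refine mem_pointwise_smul_iff_inv_smul_mem.2 (h ?_)
    simpa using hN.conj_mem x hx g⁻¹

theorem top (hall : ∀ X : Subgroup G, IsCoatom X →
      ∃ g : G, X = MulAut.conj g • M ∨ X = MulAut.conj g • L) {H : Subgroup G}
    (h1 : ∀ g : G, ¬ H ≤ MulAut.conj g • M) (h2 : ∀ g : G, ¬ H ≤ MulAut.conj g • L) : H = ⊤ := by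
  obtain e | ⟨X, hX, e⟩ := eq_top_or_exists_le_coatom H
  · exact e
  obtain ⟨g, rfl | rfl⟩ := hall X hX
  · exact (h1 g e).elim
  · exact (h2 g e).elim

theorem syl {p : ℕ} [Fact p.Prime] (P : Sylow p G) (h : p ∣ M.index) (g : G) :
    ¬ (P : Subgroup G) ≤ MulAut.conj g • M := fun e =>
  P.not_dvd_index (h.trans (idx g M ▸ index_dvd_of_le e))

theorem cop (h1 : IsCoatom M) (h2 : IsCoatom L) (hne : M ≠ L)
    (hall : ∀ X : Subgroup G, IsCoatom X →
      ∃ g : G, X = MulAut.conj g • M ∨ X = MulAut.conj g • L) {p : ℕ} (hp : p.Prime)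
    (ha : p ∣ M.index) (hb : p ∣ L.index) : False := by
  have := Fact.mk hp
  obtain ⟨P⟩ : Nonempty (Sylow p G) := inferInstance
  have e := top hall (syl P ha) (syl P hb)
  have hG : IsPGroup p G := (e ▸ P.isPGroup').of_equiv topEquiv
  have := hG.isNilpotent
  have n1 := NormalizerCondition.normal_of_coatom M Group.normalizerCondition_of_isNilpotent h1
  have n2 := NormalizerCondition.normal_of_coatom L Group.normalizerCondition_of_isNilpotent h2
  obtain ⟨x, x1, x2⟩ := SetLike.not_le_iff_exists.1 fun h => hne ((h1.le_iff_eq h2.1).1 h).symm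
  obtain ⟨y, y1, y2⟩ := SetLike.not_le_iff_exists.1 fun h => hne ((h2.le_iff_eq h1.1).1 h)
  have e2 : zpowers (x * y) = ⊤ := top hall
    (fun g h => y2 ((M.mul_mem_cancel_left x1).1 (by
      rw [n1.conj_smul_eq_self] at h; exact h (mem_zpowers _))))
    (fun g h => x2 ((L.mul_mem_cancel_right y1).1 (by
      rw [n2.conj_smul_eq_self] at h; exact h (mem_zpowers _))))
  obtain ⟨k, hk⟩ := hG.exists_orderOf_eq_pow (x * y)
  have pw : ∀ (K : Subgroup G), K ≠ ⊤ → ∀ z ∈ K, ∃ i : ℕ, (x * y) ^ (p * i) = z := by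
    intro K hK z hz
    obtain ⟨i, rfl⟩ := (mem_powers_iff_mem_zpowers (y := z) (x := x * y)).2 (e2 ▸ mem_top z)
    by_cases hi : p ∣ i
    · obtain ⟨j, rfl⟩ := hi
      exact ⟨j, rfl⟩
    · refine (hK (top_le_iff.1 (e2 ▸ zpowers_le.2 (zpowers_le.2 hz ?_)))).elim
      refine mem_zpowers_pow_iff.2 ?_
      rw [hk]
      exact ((hp.coprime_iff_not_dvd.2 hi).symm).pow_right k
  obtain ⟨i, hi⟩ := pw M h1.1 x x1
  obtain ⟨j, hj⟩ := pw L h2.1 y y1
  have e3 : (x * y) ^ (p * i + p * j) = (x * y) ^ 1 := by rw [pow_add, hi, hj, pow_one]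
  rw [pow_eq_pow_iff_modEq, hk] at e3
  obtain rfl | k0 := Nat.eq_zero_or_pos k
  · rw [pow_zero, orderOf_eq_one_iff] at hk
    rw [hk, zpowers_one_eq_bot] at e2
    exact h1.1 (top_le_iff.1 (e2 ▸ bot_le))
  · have e4 := e3.of_dvd (dvd_pow_self p k0.ne')
    rw [← mul_add] at e4
    exact hp.not_dvd_one ((Nat.modEq_zero_iff_dvd.1
      (e4.symm.trans (Nat.modEq_zero_iff_dvd.2 (dvd_mul_right p _)))))

theorem case1 (h1 : M ≠ ⊤) (h2 : L ≠ ⊤)
    (hall : ∀ X : Subgroup G, IsCoatom X →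
      ∃ g : G, X = MulAut.conj g • M ∨ X = MulAut.conj g • L)
    (hc : ∀ p : ℕ, p.Prime → p ∣ M.index → p ∣ L.index → False) (N : Subgroup G) [N.Normal]
    (n1 : N ≤ M) (n2 : ¬ N ≤ L) :
    Group.IsSolvable G ∧ (Nat.card G).primeFactors.card = 2 := by
  obtain ⟨q, hq, qa⟩ := Nat.exists_prime_and_dvd (fun e => h1 (index_eq_one.1 e))
  obtain ⟨r, hr, rb⟩ := Nat.exists_prime_and_dvd (fun e => h2 (index_eq_one.1 e))
  have := Fact.mk hq
  have := Fact.mk hr
  have qr : q ≠ r := fun e => hc q hq qa (e ▸ rb)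
  obtain ⟨Q⟩ : Nonempty (Sylow q G) := inferInstance
  obtain ⟨R⟩ : Nonempty (Sylow r G) := inferInstance
  obtain ⟨i, hi⟩ := Q.isPGroup'.exists_card_eq
  obtain ⟨j, hj⟩ := R.isPGroup'.exists_card_eq
  have ind : ∀ (K : Subgroup G) [K.Normal], (∀ g : G, ¬ K ≤ MulAut.conj g • L) →
      K.index ∣ q ^ i := by
    intro K _ hK
    have e : (Q : Subgroup G) ⊔ K = ⊤ := top hall (fun g h => syl Q qa g (le_sup_left.trans h))
      fun g h => hK g (le_sup_right.trans h)
    rw [← relIndex_top_right, ← e, relIndex_sup_right, ← hi]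
    exact relIndex_dvd_card _ _
  have e1 : (R : Subgroup G) ≤ N := by
    refine relIndex_eq_one.1 (Nat.eq_one_of_dvd_coprimes
      (Nat.coprime_pow_primes i j hq hr qr) ((relIndex_dvd_index_of_normal _ _).trans
        (ind N fun g h => n2 ((nle g).1 h))) (hj ▸ relIndex_dvd_card _ _))
  have e2 : normalizer ((R : Subgroup G) : Set G) = ⊤ := top hall
    (fun g h => h1 (index_eq_one.1 (by
      rw [← idx g, index_eq_one, ← top_le_iff, ← R.normalizer_sup_eq_top' e1]
      exact sup_le h ((nle g).2 n1))))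
    fun g h => syl R rb g (le_normalizer.trans h)
  have : (R : Subgroup G).Normal := normalizer_eq_top_iff.1 e2
  obtain ⟨k, -, hk⟩ := (Nat.dvd_prime_pow hq).1 (ind R (syl R rb))
  refine ⟨?_, ?_⟩
  · have := R.isPGroup'.isNilpotent
    have := (IsPGroup.of_card (G := G ⧸ (R : Subgroup G)) hk).isNilpotent
    exact (Group.isSolvable_iff_subgroup_quotient (R : Subgroup G)).2 ⟨inferInstance, inferInstance⟩
  · rw [← Finset.card_pair qr]
    congr 1
    ext s
    rw [Nat.mem_primeFactors_of_ne_zero Nat.card_pos.ne', Finset.mem_insert, Finset.mem_singleton]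
    refine ⟨fun ⟨hs, h⟩ => ?_, ?_⟩
    · rw [← (R : Subgroup G).index_mul_card, hk, hj] at h
      exact ((Nat.Prime.dvd_mul hs).1 h).imp
        (fun h => (Nat.prime_dvd_prime_iff_eq hs hq).1 (hs.dvd_of_dvd_pow h))
        fun h => (Nat.prime_dvd_prime_iff_eq hs hr).1 (hs.dvd_of_dvd_pow h)
    · rintro (rfl | rfl)
      · exact ⟨hq, qa.trans M.index_dvd_card⟩
      · exact ⟨hr, rb.trans L.index_dvd_card⟩

theorem case2 (h2 : L ≠ ⊤)
    (hall : ∀ X : Subgroup G, IsCoatom X →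
      ∃ g : G, X = MulAut.conj g • M ∨ X = MulAut.conj g • L)
    (hc : ∀ p : ℕ, p.Prime → p ∣ M.index → p ∣ L.index → False)
    (hN : ∀ N : Subgroup G, N.Normal → N ≠ ⊤ → N ≤ M) : M.index ∣ L.index - 1 := by
  refine (Nat.dvd_iff_prime_pow_dvd_dvd _ _).2 fun p k hp hk => ?_
  obtain rfl | k0 := Nat.eq_zero_or_pos k
  · rw [pow_zero]; exact one_dvd _
  have := Fact.mk hp
  have pa : p ∣ M.index := (dvd_pow_self p k0.ne').trans hk
  have pb : ¬ p ∣ L.index := hc p hp pa
  refine dvd_sub_one (G := G) (Ω := G ⧸ L) (m := Nat.card M) pb (fun U hU hm => ?_)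
    (M.index_mul_card ▸ Nat.mul_dvd_mul_right hk _)
  obtain e | ⟨X, hX, e⟩ := eq_top_or_exists_le_coatom (normalizer (U : Set G))
  · refine (hm (card_dvd_of_le (hN U (normalizer_eq_top_iff.1 e) ?_))).elim
    rintro rfl
    obtain ⟨j, hj⟩ := ((hU.of_equiv topEquiv).index L)
    obtain rfl | j0 := Nat.eq_zero_or_pos j
    · exact h2 (index_eq_one.1 hj)
    · exact pb (hj ▸ dvd_pow_self p j0.ne')
  obtain ⟨g, rfl | rfl⟩ := hall X hX
  · exact (hm (crd g M ▸ card_dvd_of_le (le_normalizer.trans e))).elim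
  · refine ⟨g • ((1 : G) : G ⧸ L), ?_⟩
    rw [stabilizer_smul_eq_stabilizer_map_conj, stabilizer_quotient]
    exact e

end

/-- A finite group with exactly two conjugacy classes of maximal subgroups is solvable and its order has exactly two prime divisors. -/
theorem result {G : Type*} [Group G] [Finite G]
    (M₁ M₂ : Subgroup G) (h1 : IsCoatom M₁) (h2 : IsCoatom M₂) (hne : ∀ g : G, M₂ ≠ MulAut.conj g • M₁)
    (hall : ∀ M : Subgroup G, IsCoatom M → ∃ g : G, M = MulAut.conj g • M₁ ∨ M = MulAut.conj g • M₂) :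
    Group.IsSolvable G ∧ (Nat.card G).primeFactors.card = 2 := by
  have hall' : ∀ M : Subgroup G, IsCoatom M →
      ∃ g : G, M = MulAut.conj g • M₂ ∨ M = MulAut.conj g • M₁ := fun M h =>
    (hall M h).imp fun _ => Or.symm
  have hc : ∀ p : ℕ, p.Prime → p ∣ M₁.index → p ∣ M₂.index → False := fun p hp =>
    cop h1 h2 (fun e => hne 1 (by rw [map_one, one_smul, e])) hall hp
  by_cases H : ∀ N : Subgroup G, N.Normal → N ≠ ⊤ → N ≤ M₁ ∧ N ≤ M₂
  · have a := case2 h2.1 hall hc fun N h h' => (H N h h').1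
    have b := case2 h1.1 hall' (fun p hp a b => hc p hp b a) fun N h h' => (H N h h').2
    have a1 : M₁.index ≠ 1 := fun e => h1.1 (index_eq_one.1 e)
    have b1 : M₂.index ≠ 1 := fun e => h2.1 (index_eq_one.1 e)
    have a0 : M₁.index ≠ 0 := index_ne_zero_of_finite
    have b0 : M₂.index ≠ 0 := index_ne_zero_of_finite
    have := Nat.le_of_dvd (by omega) a
    have := Nat.le_of_dvd (by omega) b
    omega
  · push Not at H
    obtain ⟨N, hN, n0, n⟩ := H
    by_cases n1 : N ≤ M₁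
    · exact case1 h1.1 h2.1 hall hc N n1 (n n1)
    by_cases n2 : N ≤ M₂
    · exact case1 h2.1 h1.1 hall' (fun p hp a b => hc p hp b a) N n2 n1
    · exact (n0 (top hall (fun g h => n1 ((nle g).1 h)) fun g h => n2 ((nle g).1 h))).elim

end Cfsg.Agent.S4383
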