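import Cfsg.Statements.S4387
import Cfsg.Agent.Solv.SylowNumber
import Cfsg.Agent.Solv.PGroupNormal

set_option autoImplicit false
open Pointwise
open Cfsg

namespace Cfsg.Agent.S4387

open Cfsg.Lib.Solv
open scoped Pointwise

/-- Let G be a non-trivial finite group in which any two maximal subgroups are conjugate. Then G is cyclic of prime-power order. -/
theorem result {G : Type*} [Group G] [Finite G] [Nontrivial G]
    (h : ∀ M N : Subgroup G, IsCoatom M → IsCoatom N → ∃ g : G, N = MulAut.conj g • M) :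
    IsCyclic G ∧ IsPrimePow (Nat.card G) := by
  obtain ⟨M, hM, -⟩ := (eq_top_or_exists_le_coatom (⊥ : Subgroup G)).resolve_left bot_ne_top
  obtain ⟨x, hx⟩ := exists_forall_not_mem_conj_smul hM.1
  have hxt : Subgroup.zpowers x = ⊤ := by
    by_contra hne
    obtain ⟨N, hN, hxN⟩ := (eq_top_or_exists_le_coatom _).resolve_left hne
    obtain ⟨g, rfl⟩ := h M N hM hN
    exact hx g (hxN (Subgroup.mem_zpowers x))
  have hc : IsCyclic G := ⟨⟨x, fun y => (show y ∈ Subgroup.zpowers x from hxt ▸ Subgroup.mem_top y)⟩⟩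
  refine ⟨hc, ?_⟩
  have key : ∀ q : ℕ, q.Prime → q ∣ Nat.card G → q = M.index := by
    intro q hq hd
    obtain ⟨m, hm⟩ := hd
    have hcard : Nat.card (Subgroup.zpowers (x ^ q)) = m := by
      have h1 : orderOf x = q * m := by
        rw [← Nat.card_zpowers, hxt, Subgroup.card_top, hm]
      rw [Nat.card_zpowers, orderOf_pow_of_dvd hq.ne_zero (h1 ▸ Dvd.intro _ rfl), h1,
        Nat.mul_div_cancel_left _ hq.pos]
    have hidx : (Subgroup.zpowers (x ^ q)).index = q :=
      PG.index_eq_of_card_eq_mul (by rw [hcard, hm])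
    obtain ⟨g, hg⟩ := h M _ hM (PG.isCoatom_of_index_prime (hidx.symm ▸ hq))
    rw [← hidx, hg, index_conj_smul]
  have h1 : 1 < Nat.card G := Finite.one_lt_card
  rw [isPrimePow_iff_unique_prime_dvd]
  obtain ⟨q, hq, hqd⟩ := Nat.exists_prime_and_dvd h1.ne'
  exact ⟨q, ⟨hq, hqd⟩, fun r hr => (key r hr.1 hr.2).trans (key q hq hqd).symm⟩

end Cfsg.Agent.S4387
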