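import Cfsg.Statements.S4396
import Cfsg.Agent.Solv.GaloisFree
import Cfsg.Agent.Solv.Nilpotent
import Cfsg.Agent.Char.FrobChar

set_option autoImplicit false
open Cfsg

namespace Cfsg.Agent.S4396

open Cfsg.Lib.Solv Cfsg.Lib.Solv.GalFree
open scoped Pointwise

/-- Let the finite group A act faithfully and linearly on a finite-dimensional vector space V over a field k, and suppose A is a Frobenius group with nilpotent kernel F (every Frobenius kernel is nilpotent) and complement H such that F fixes no nonzero vector. Then V is free as a module for H: there is a subspace W with V the direct sum of the translates hW, h ∈ H. (No assumption on the characteristic of k.) -/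
theorem result {k V A : Type*} [Field k] [AddCommGroup V] [Module k V] [FiniteDimensional k V] [Group A] [Finite A] [DecidableEq A]
    (ρ : Representation k A V) (hρ : Function.Injective ρ)
    (Fk Hc : Subgroup A) [Fk.Normal] (hHc : Cfsg.IsFrobeniusComplement Hc) (hker : Cfsg.frobeniusKernel Hc = (Fk : Set A)) (hnil : Group.IsNilpotent ↥Fk)
    (hCF : ∀ v : V, (∀ f ∈ Fk, ρ f v = v) → v = 0) :
    ∃ W : Submodule k V, DirectSum.IsInternal (fun h : ↥Hc => W.map (ρ (h : A))) := by
  classical
  have := Fintype.ofFinite Hc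
  have hfpf0 : ∀ h ∈ Hc, h ≠ 1 → ∀ n ∈ Fk, n * h = h * n → n = 1 := by
    intro h hh h1 n hn e
    have hn' : n ∈ Cfsg.frobeniusKernel Hc := hker ▸ hn
    rcases hn' with h2 | h2
    · exact h2
    · exfalso
      have h3 : n ∉ Hc := by simpa using h2 1
      have h4 : h ∈ Hc ⊓ MulAut.conj n • Hc := by
        refine ⟨hh, h, hh, ?_⟩
        simp [e]
      rw [hHc.2.2 n h3] at h4
      exact h1 h4
  have hfpf : ∀ Z : Subgroup A, Z.Normal → Z ≤ Fk →
      ∀ h ∈ Hc, h ≠ 1 → ∀ z ∈ Z, ∃ y ∈ Z, y * z = h * y * h⁻¹ := by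
    intro Z hZ hZF h hh h1 z hz
    obtain ⟨c, hc, e⟩ := Cfsg.Lib.Char.exists_conj_eq_mul_left_of_fpf (N := Z) (g := h)
      (fun n hn => hfpf0 h hh h1 n (hZF hn)) hz
    refine ⟨c⁻¹, Z.inv_mem hc, ?_⟩
    rw [eq_mul_inv_iff_mul_eq, mul_assoc, ← e]
    group
  refine FreeRep.isInternal ?_
  obtain ⟨p, hp⟩ := CharP.exists k
  rcases CharP.char_is_prime_or_zero k p with hpp | rfl
  · have := Fact.mk hpp
    obtain ⟨P⟩ : Nonempty (Sylow p Fk) := inferInstance
    have hPn : (P : Subgroup Fk).Normal := inferInstance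
    obtain ⟨K, hK⟩ := Subgroup.exists_right_complement'_of_coprime P.card_coprime_index
    have hKi : K.index = Nat.card (P : Subgroup Fk) := hK.index_eq_card
    have hKc : Nat.card K = (P : Subgroup Fk).index := hK.symm.index_eq_card.symm
    have hcard : Nat.card (K.map Fk.subtype) = Nat.card K :=
      Subgroup.card_map_of_injective Fk.subtype_injective
    have hsub : (K.map Fk.subtype).subgroupOf Fk = K :=
      Subgroup.comap_map_eq_self_of_injective Fk.subtype_injective K
    have hN : (K.map Fk.subtype).Normal :=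
      normal_of_hall_of_normal_of_isNilpotent hnil (Subgroup.map_subtype_le K) (by
        rw [hcard, Subgroup.relIndex, hsub, hKi, hKc]
        exact P.card_coprime_index.symm)
    have hKn : K.Normal := hsub ▸ hN.subgroupOf Fk
    have : Group.IsSolvable (K.map Fk.subtype) :=
      solvable_of_solvable_injective (Subgroup.inclusion_injective (Subgroup.map_subtype_le K))
    refine freeRep_of_solvable Hc (K.map Fk.subtype) ?_
      (fun Z hZ h => hfpf Z hZ (h.trans (Subgroup.map_subtype_le K))) _ V ρ rfl
      (fixed_eq_zero_of_pow_mem ρ (p := p) Fk _ hnil (Subgroup.map_subtype_le K) ?_ hCF)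
    · rw [hcard, hKc, Ne, CharP.cast_eq_zero_iff k p]
      exact P.not_dvd_index
    · intro x hx
      obtain ⟨n, hn⟩ := P.isPGroup'.exists_card_eq
      refine ⟨n, ⟨x, hx⟩ ^ p ^ n, ?_, rfl⟩
      rw [← hn, ← hKi]
      exact K.pow_index_mem _
  · have := CharP.charP_to_charZero k
    exact freeRep_of_solvable Hc Fk (Nat.cast_ne_zero.2 Nat.card_pos.ne') hfpf _ V ρ rfl hCF

end Cfsg.Agent.S4396
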