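import Cfsg.Statements.S4398
import Cfsg.Agent.Solv.MetacyclicTwo
import Cfsg.Agent.Solv.Quaternion
import Cfsg.Agent.Trans.MaxClassTwo

set_option autoImplicit false
open Cfsg

namespace Cfsg.Agent.S4398

open Subgroup Cfsg.Lib.Solv Cfsg.Lib.Solv.PG Cfsg.Lib.Trans
open scoped commutatorElement


/-- Let S be a finite 2-group of sectional 2-rank at most 2 that contains a subgroup isomorphic to the dihedral group of order 8 or to the quaternion group of order 8. Then S is dihedral of order at least 8, semidihedral of order at least 16 (order 2^(k+4) with an element a of order 2^(k+3) and an involution b with b a b⁻¹ = a^(2^(k+2)−1)), or generalized quaternion of order at least 8. -/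
theorem result {S : Type*} [Group S] [Finite S] (h2 : IsPGroup 2 S) (hr : Cfsg.SectionalPRankLE 2 2 S)
    (hsub : ∃ H : Subgroup S, Nonempty (↥H ≃* DihedralGroup 4) ∨ Nonempty (↥H ≃* QuaternionGroup 2)) :
    ((∃ k : ℕ, Nonempty (S ≃* DihedralGroup (2 ^ (k + 2)))) ∨
      (∃ k : ℕ, Nat.card S = 2 ^ (k + 4) ∧ ∃ a b : S, orderOf a = 2 ^ (k + 3) ∧ orderOf b = 2 ∧ b * a * b⁻¹ = a ^ (2 ^ (k + 2) - 1)) ∨
      (∃ k : ℕ, Nonempty (S ≃* QuaternionGroup (2 ^ (k + 1))))) := by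
  have : Fact (Nat.Prime 2) := ⟨Nat.prime_two⟩
  obtain ⟨r, s, hr4, hs, hsr⟩ : ∃ r s : S, orderOf r = 4 ∧ s ^ 2 ∈ zpowers (r ^ 2) ∧
      s * r * s⁻¹ = r⁻¹ := by
    obtain ⟨H, ⟨⟨e⟩⟩ | ⟨⟨e⟩⟩⟩ := hsub
    · obtain ⟨r, s, h1, h3, h4, -⟩ := exists_gens_of_mulEquiv_dihedralGroup e
      exact ⟨r, s, (orderOf_coe r).trans h1, by
        rw [sq (s : S), ← coe_mul, h3]; exact one_mem _, congrArg Subtype.val h4⟩
    · obtain ⟨r, s, h1, h3, h4, -⟩ := exists_gens_of_mulEquiv_quaternionGroup e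
      exact ⟨r, s, (orderOf_coe r).trans h1, by
        rw [sq (s : S), ← coe_mul, h3]; exact mem_zpowers _, congrArg Subtype.val h4⟩
  obtain ⟨N, hN, hNc, hQ⟩ := isMetacyclic_of_secRank_two h2 hr
  have hr1 : r ^ 4 = 1 := hr4 ▸ pow_orderOf_eq_one r
  have hrs : s * r ≠ r * s := fun h => by
    rw [h, mul_inv_cancel_right, eq_inv_iff_mul_eq_one, ← sq] at hsr
    have := orderOf_dvd_of_pow_eq_one hsr
    rw [hr4] at this
    norm_num at this
  have hr2 : r ^ 2 ∈ N := by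
    have h1 : ⁅r, s⁆ = r ^ 2 := by
      rw [commutatorElement_def, mul_assoc, mul_assoc, ← mul_assoc s, ← conj_inv, hsr, inv_inv, sq]
    exact h1 ▸ Normal.quotient_commutative_iff_commutator_le.mp inferInstance
      (commutator_mem_commutator (mem_top r) (mem_top s))
  have hz : ∀ x ∈ zpowers (r ^ 2), x ^ 2 = 1 := by
    rintro _ ⟨k, rfl⟩
    simp only
    rw [← zpow_natCast, ← zpow_mul, mul_comm, zpow_mul, zpow_natCast, ← pow_mul, hr1, one_zpow]
  obtain ⟨u, h, huN, hu, hh, huh⟩ : ∃ u h : S, u ∈ N ∧ u ^ 4 = 1 ∧ h ^ 2 ∈ N ∧ h * u ≠ u * h := by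
    by_cases h1 : r ∈ N
    · exact ⟨r, s, h1, hr1, zpowers_le.mpr hr2 hs, hrs⟩
    by_cases h3 : s ∈ N
    · exact ⟨s, r, h3, (pow_mul s 2 2).trans (hz _ hs), hr2, hrs.symm⟩
    have h4 : (s : S ⧸ N) ∈ zpowers (r : S ⧸ N) := mem_of_pow_card_eq_one (A := ⊤) le_top
      (mem_top _) (by
        rw [Nat.card_zpowers, orderOf_eq_prime ((QuotientGroup.eq_one_iff (r ^ 2)).mpr hr2)
          (mt (QuotientGroup.eq_one_iff r).mp h1)]
        exact (QuotientGroup.eq_one_iff (s ^ 2)).mpr (zpowers_le.mpr hr2 hs))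
    obtain ⟨k, hk⟩ := exists_pow_eq_of_mem_zpowers h4
    have h5 : ((r : S ⧸ N) ^ 2) = 1 := (QuotientGroup.eq_one_iff (r ^ 2)).mpr hr2
    refine ⟨r * s, r, (QuotientGroup.eq_one_iff _).mp ?_, ?_, hr2, fun h => hrs ?_⟩
    · obtain ⟨j, rfl | rfl⟩ := Nat.even_or_odd' k
      · rw [pow_mul, h5, one_pow] at hk
        exact absurd ((QuotientGroup.eq_one_iff s).mp hk) h3
      · rw [QuotientGroup.mk_mul, hk, ← pow_succ', add_assoc, ← mul_add_one, pow_mul, h5, one_pow]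
    · have h6 : (r * s) ^ 2 = s ^ 2 := by
        calc (r * s) ^ 2 = r * (s * r * s⁻¹) * s ^ 2 := by simp only [sq]; group
          _ = _ := by rw [hsr, mul_inv_cancel, one_mul]
      exact (pow_mul _ 2 2).trans (h6 ▸ hz _ hs)
    · exact (mul_left_cancel (h.trans (mul_assoc _ _ _))).symm
  have hun : (zpowers u).Normal := normal_of_le_of_isCyclic (zpowers_le.mpr huN)
  have hhN : h ∉ N := fun h1 => huh (mul_comm_of_mem h1 huN)
  have hidx : N.index = 2 := by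
    obtain ⟨b, hb⟩ := hQ.exists_generator
    obtain ⟨k, hk⟩ := exists_pow_eq_of_mem_zpowers (hb (h : S ⧸ N))
    obtain ⟨n, hn⟩ := IsPGroup.iff_orderOf.mp (h2.to_quotient N) b
    rcases Nat.even_or_odd' k with ⟨j, rfl | rfl⟩
    · obtain ⟨g, hg⟩ := QuotientGroup.mk'_surjective N (b ^ j)
      rw [mul_comm, pow_mul, ← hg] at hk
      have h1 : (g ^ 2)⁻¹ * h ∈ N := QuotientGroup.eq.mp hk.symm
      obtain ⟨i, hi⟩ := exists_conj_eq_pow (le_normalizer_of_normal (H := zpowers u) (mem_top g))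
      have h3 := pow_conj_eq hi 2
      have h4 : g ^ 2 * u * (g ^ 2)⁻¹ = u := by
        obtain ⟨l, rfl | rfl⟩ := Nat.even_or_odd' i
        · rw [show (2 * l) ^ 2 = 4 * l ^ 2 by ring, pow_mul, hu, one_pow, conj_eq_one_iff] at h3
          simp [h3]
        · rw [h3, show (2 * l + 1) ^ 2 = 4 * (l ^ 2 + l) + 1 by ring, pow_succ, pow_mul, hu,
            one_pow, one_mul]
      refine absurd ?_ huh
      rw [← mul_inv_cancel_left (g ^ 2) h, mul_assoc, mul_comm_of_mem h1 huN, ← mul_assoc,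
        mul_inv_eq_iff_eq_mul.mp h4, mul_assoc]
    · have h1 : zpowers (h : S ⧸ N) = ⊤ := eq_top_iff.mpr fun x _ => zpowers_le.mpr
        (hk ▸ mem_zpowers_pow_of_not_dvd Nat.prime_two hn (by omega)) (hb x)
      rw [index, ← card_top, ← h1, Nat.card_zpowers]
      exact orderOf_eq_prime ((QuotientGroup.eq_one_iff (h ^ 2)).mpr hh)
        (mt (QuotientGroup.eq_one_iff h).mp hhN)
  obtain ⟨n, hn⟩ := IsPGroup.exists_card_eq h2
  obtain ⟨m, rfl⟩ : ∃ m, n = m + 3 := by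
    have h1 := card_le_of_le (zpowers_le.mpr hr2)
    by_contra h3
    have h4 : n ≤ 2 := by by_contra h4; exact h3 ⟨n - 3, by omega⟩
    have h5 : zpowers r = ⊤ := eq_top_of_le_card _ (by
      rw [Nat.card_zpowers, hr4, hn]; exact Nat.pow_le_pow_right two_pos h4)
    exact hrs (mul_comm_of_mem (A := zpowers r) (h5 ▸ mem_top s) (mem_zpowers r))
  obtain ⟨a, b, rfl, ha, hb, ⟨h3, h4⟩ | ⟨h3, h4⟩ | ⟨hm, h3, h4⟩ | ⟨hm, h3, h4⟩⟩ :=
    two_group_cyclic_index_two hn N hNc hidx ⟨s, r, hrs⟩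
  · exact Or.inl ⟨m, nonempty_mulEquiv_dihedral a b (by rw [ha]; ring) hb h4 (by rw [← sq, h3])
      (by rw [hn]; ring)⟩
  · exact Or.inr (Or.inr ⟨m, nonempty_mulEquiv_quaternion a b (by rw [ha]; ring) hb h4
      (by rw [← sq, h3, pow_succ']) (by rw [hn]; ring)⟩)
  · obtain ⟨m, rfl⟩ := Nat.exists_eq_add_of_le' hm
    obtain ⟨j, rfl⟩ := huN
    have h5 : b * a ^ j = a ^ j * b := by
      rw [← mul_inv_eq_iff_eq_mul, ← conj_zpow, h4, ← zpow_mul, mul_comm, zpow_mul, zpow_add,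
        zpow_one, show (2 * 2 ^ (m + 1) : ℤ) = (4 : ℕ) * 2 ^ m by push_cast; ring, zpow_mul,
        zpow_natCast, show (a ^ j) ^ 4 = 1 from hu, one_zpow, mul_one]
    have h6 : h * b⁻¹ ∈ zpowers a := (mul_mem_iff_of_index_two hidx).mpr (by simp [hhN, hb])
    refine absurd ?_ huh
    rw [← inv_mul_cancel_right h b, mul_assoc, h5, ← mul_assoc,
      mul_comm_of_mem h6 (zpow_mem_zpowers a j), mul_assoc]
  · obtain ⟨m, rfl⟩ := Nat.exists_eq_add_of_le' hm
    refine Or.inr (Or.inl ⟨m, hn, a, b, by rw [ha]; ring,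
      orderOf_eq_prime h3 (fun h0 => hb (h0 ▸ one_mem _)), ?_⟩)
    have : 1 ≤ 2 ^ (m + 2) := Nat.one_le_two_pow
    rw [h4, ← zpow_natCast]
    congr 1
    push_cast [this]
    ring

end Cfsg.Agent.S4398
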