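import Cfsg.Statements.S4399
import Cfsg.Agent.Trans.MaxClassTwo

set_option autoImplicit false
open Cfsg

namespace Cfsg.Agent.S4399

open Subgroup

/-- Let S be a finite 2-group whose commutator quotient S/[S,S] is a Klein four-group (order 4 and exponent 2). Then S itself has order 4, or S is dihedral of order at least 8, semidihedral of order at least 16 (order 2^(k+4) with an element a of order 2^(k+3) and an involution b with b a b⁻¹ = a^(2^(k+2)−1)), or generalized quaternion of order at least 8. -/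
theorem result {S : Type*} [Group S] [Finite S] (h2 : IsPGroup 2 S) (hab : Nat.card (Abelianization S) = 4)
    (hexp : ∀ x : Abelianization S, x ^ 2 = 1) :
    Nat.card S = 4 ∨
    ((∃ k : ℕ, Nonempty (S ≃* DihedralGroup (2 ^ (k + 2)))) ∨
      (∃ k : ℕ, Nat.card S = 2 ^ (k + 4) ∧ ∃ a b : S, orderOf a = 2 ^ (k + 3) ∧ orderOf b = 2 ∧ b * a * b⁻¹ = a ^ (2 ^ (k + 2) - 1)) ∨
      (∃ k : ℕ, Nonempty (S ≃* QuaternionGroup (2 ^ (k + 1))))) := by
  have hi : (commutator S).index = 4 := hab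
  obtain ⟨n, hn⟩ := h2.exists_card_eq
  have h1 : 2 ^ 2 ∣ 2 ^ n := by rw [← hn, show 2 ^ 2 = 4 from rfl, ← hi]; exact index_dvd_card _
  rw [Nat.pow_dvd_pow_iff_le_right (by norm_num)] at h1
  rcases h1.eq_or_lt with rfl | h1
  · exact Or.inl hn
  obtain ⟨m, rfl⟩ : ∃ m, n = m + 3 := ⟨n - 3, by omega⟩
  rcases Cfsg.Lib.Trans.dihedral_or_quaternion_or_quasiDihedral_of_commutator_index hn hi with
    h | h | ⟨k, hk, hc, x, y, hx, hy, hxy⟩
  · exact Or.inr (Or.inl ⟨m, h⟩)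
  · exact Or.inr (Or.inr (Or.inr ⟨m, h⟩))
  · obtain ⟨k, rfl⟩ : ∃ j, k = j + 3 := ⟨k - 3, by omega⟩
    exact Or.inr (Or.inr (Or.inl ⟨k, hc, x, y, hx, hy, hxy⟩))

end Cfsg.Agent.S4399
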