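import Cfsg.Statements.S4400
import Cfsg.Agent.Solv.MetacyclicTwo
import Cfsg.Agent.Solv.ExtraSub

set_option autoImplicit false
open Cfsg

namespace Cfsg.Agent.S4400

open Subgroup Cfsg.Lib.Solv Cfsg.Lib.Solv.PG
open scoped commutatorElement

/-- The centre of order two of a non-abelian `2`-group lies in the Frattini subgroup. -/
theorem center_le_frattini {P : Type*} [Group P] [Finite P] (h2 : IsPGroup 2 P)
    (hP : ¬ IsMulCommutative P) (hZP : Nat.card (center P) = 2) : center P ≤ frattini P := by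
  have : Fact (Nat.Prime 2) := ⟨Nat.prime_two⟩
  obtain ⟨z, h1, h3, h4⟩ := exists_mem_center_orderOf_eq h2 (commutator P)
    fun h => hP ((commutator_eq_bot_iff P).mp h)
  rw [← eq_of_le_of_card_eq (zpowers_le.mpr h3) (by rw [Nat.card_zpowers, h4, hZP])]
  exact zpowers_le.mpr (commutator_le_frattini_of_isPGroup h2 h1)

theorem four_mul_card_frattini_le {P : Type*} [Group P] [Finite P] (h2 : IsPGroup 2 P)
    (hP : ¬ IsMulCommutative P) : 4 * Nat.card (frattini P) ≤ Nat.card P := by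
  have : Fact (Nat.Prime 2) := ⟨Nat.prime_two⟩
  rw [← (frattini P).index_mul_card]
  exact Nat.mul_le_mul_right _ (Nat.le_of_dvd (Nat.pos_of_ne_zero index_ne_zero_of_finite)
    (sq_dvd_index_frattini_of_not_isCyclic h2 fun _ => hP inferInstance))


/-- Let S be a finite 2-group of sectional 2-rank at most 4, and let P and Q be normal non-abelian subgroups of S whose centres have order 2 and are different. Then P and Q commute elementwise and intersect trivially, and PQ contains its own centralizer in S. -/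
theorem result {S : Type*} [Group S] [Finite S] (h2 : IsPGroup 2 S) (hr : Cfsg.SectionalPRankLE 2 4 S)
    (P Q : Subgroup S) [P.Normal] [Q.Normal] (hP : ¬ IsMulCommutative ↥P) (hQ : ¬ IsMulCommutative ↥Q)
    (hZP : Nat.card ↥(Subgroup.center ↥P) = 2) (hZQ : Nat.card ↥(Subgroup.center ↥Q) = 2)
    (hne : (Subgroup.center ↥P).map P.subtype ≠ (Subgroup.center ↥Q).map Q.subtype) :
    ⁅P, Q⁆ = ⊥ ∧ P ⊓ Q = ⊥ ∧ Subgroup.centralizer ((P ⊔ Q : Subgroup S) : Set S) ≤ P ⊔ Q := by
  have : Fact (Nat.Prime 2) := ⟨Nat.prime_two⟩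
  have h1 : P ⊓ Q = ⊥ := by
    by_contra h
    obtain ⟨z, h3, h4, h5⟩ := exists_mem_center_orderOf_eq h2 (P ⊓ Q) h
    have key : ∀ R : Subgroup S, z ∈ R → Nat.card (center R) = 2 →
        zpowers z = (center R).map R.subtype := fun R hz hR =>
      eq_of_le_of_card_eq (zpowers_le.mpr ⟨⟨z, hz⟩, mem_center_iff.mpr fun g =>
        Subtype.ext (mem_center_iff.mp h4 g), rfl⟩) (by rw [Nat.card_zpowers, h5, card_map_subtype, hR])
    exact hne ((key P h3.1 hZP).symm.trans (key Q h3.2 hZQ))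
  have h3 : ⁅P, Q⁆ = ⊥ := le_bot_iff.mp (h1 ▸ commutator_le_inf P Q)
  have hc : ∀ p ∈ P, ∀ q ∈ Q, Commute p q := fun p hp q hq =>
    commutatorElement_eq_one_iff_commute.mp (mem_bot.mp (h3 ▸ commutator_mem_commutator hp hq))
  refine ⟨h3, h1, by_contra fun h => ?_⟩
  obtain ⟨x, hx, hx'⟩ := SetLike.not_le_iff_exists.mp h
  obtain ⟨k, hk⟩ := h2 x
  obtain ⟨j, hj1, hj2⟩ := exists_pow_not_mem_pow_mem (p := 2) (k := k) hx' (hk ▸ one_mem _)
  have hx2 := pow_mem hx (2 ^ j)
  generalize x ^ 2 ^ j = c at hj1 hj2 hx2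
  set P₀ := (frattini P).map P.subtype
  set Q₀ := (frattini Q).map Q.subtype
  have hc2 : c ^ 2 ∈ P₀ ⊔ Q₀ := by
    obtain ⟨p, hp, q, hq, hpq⟩ := (mem_sup_iff_of_le_normalizer le_normalizer_of_normal).mp hj2
    have h4 : ∀ y ∈ P ⊔ Q, Commute y (p * q) := fun y hy => hpq ▸ Commute.pow_right (hx2 y hy) 2
    refine hpq ▸ mul_mem (mem_sup_left ⟨⟨p, hp⟩, center_le_frattini (h2.to_subgroup P) hP hZP
      (mem_center_iff.mpr fun y => Subtype.ext ?_), rfl⟩) (mem_sup_right ⟨⟨q, hq⟩,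
        center_le_frattini (h2.to_subgroup Q) hQ hZQ (mem_center_iff.mpr fun y => Subtype.ext ?_), rfl⟩)
    · simpa using ((h4 y (mem_sup_left y.2)).mul_right (hc y y.2 q hq).inv_right).eq
    · simpa [← mul_assoc] using
        ((hc p hp y y.2).symm.inv_right.mul_right (h4 y (mem_sup_right y.2))).eq
  have h4 := relIndex_le_of_secRank_two hr (H := P ⊔ Q ⊔ zpowers c) (K := P₀ ⊔ Q₀) fun y hy => by
    obtain ⟨u, hu, n, rfl⟩ := (mem_sup_zpowers_iff (le_normalizer_of_normal (mem_top c))).mp hy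
    obtain ⟨p, hp, q, hq, rfl⟩ := (mem_sup_iff_of_le_normalizer le_normalizer_of_normal).mp hu
    rw [((show Commute (p * q) c from hx2 _ hu).zpow_right n).mul_pow, (hc p hp q hq).mul_pow,
      ← zpow_natCast (c ^ n), ← zpow_mul, mul_comm n, zpow_mul, zpow_natCast]
    exact mul_mem (mul_mem (mem_sup_left (pow_mem_map_frattini (h2.to_subgroup P) hp))
      (mem_sup_right (pow_mem_map_frattini (h2.to_subgroup Q) hq))) (zpow_mem hc2 n)
  have h5 := relIndex_mul_card (show P₀ ⊔ Q₀ ≤ P ⊔ Q ⊔ zpowers c from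
    (sup_le_sup (map_subtype_le _) (map_subtype_le _)).trans le_sup_left)
  have h6 := card_sup_zpowers Nat.prime_two (le_normalizer_of_normal (mem_top c)) hj1 hj2
  have h7 := card_sup_mul_card_inf (K := P) (H := Q) le_normalizer_of_normal
  have h8 := card_sup_mul_card_inf (K := P₀) (H := Q₀) le_normalizer_of_normal
  have h9 := four_mul_card_frattini_le (h2.to_subgroup P) hP
  have h10 := four_mul_card_frattini_le (h2.to_subgroup Q) hQ
  rw [h1, card_bot] at h7
  rw [card_map_subtype, card_map_subtype] at h8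
  have h11 : 0 < Nat.card (P₀ ⊓ Q₀ : Subgroup S) := Nat.card_pos
  have h12 : 0 < Nat.card (P₀ ⊔ Q₀ : Subgroup S) := Nat.card_pos
  have h13 := Nat.mul_le_mul h9 h10
  nlinarith

end Cfsg.Agent.S4400
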