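import Cfsg.Statements.S4401
import Cfsg.Agent.S4400

set_option autoImplicit false
open Cfsg

namespace Cfsg.Agent.S4401

open Subgroup Cfsg.Lib.Solv Cfsg.Lib.Solv.PG
open scoped commutatorElement Pointwise


/-- Let S be a finite 2-group of sectional 2-rank at most 4 and P a proper non-abelian subgroup whose centre has order 2. Let S₀ be the centralizer in S of Z(P) and suppose P is normal in S₀. Then either S₀ = S, or P has sectional 2-rank at most 2 and S₀ has index 2 in S. -/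
theorem result {S : Type*} [Group S] [Finite S] (h2 : IsPGroup 2 S) (hr : Cfsg.SectionalPRankLE 2 4 S)
    (P : Subgroup S) (hPlt : P ≠ ⊤) (hP : ¬ IsMulCommutative ↥P) (hZP : Nat.card ↥(Subgroup.center ↥P) = 2)
    (S₀ : Subgroup S) (hS₀ : S₀ = Subgroup.centralizer (((Subgroup.center ↥P).map P.subtype : Subgroup S) : Set S))
    (hPn : ∀ s ∈ S₀, ∀ x ∈ P, s * x * s⁻¹ ∈ P) :
    S₀ = ⊤ ∨ (Cfsg.SectionalPRankLE 2 2 ↥P ∧ S₀.index = 2) := by
  have : Fact (Nat.Prime 2) := ⟨Nat.prime_two⟩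
  refine or_iff_not_imp_left.mpr fun hS => ?_
  obtain ⟨z, hz, hz2⟩ := exists_orderOf_eq_prime (h2.to_subgroup ((center P).map P.subtype)) (by
    intro h; rw [← card_map_subtype, h, card_bot] at hZP; omega)
  have hZ : zpowers z = (center P).map P.subtype := eq_of_le_of_card_eq (zpowers_le.mpr hz)
    (by rw [Nat.card_zpowers, hz2, card_map_subtype, hZP])
  have hzz : z * z = 1 := by rw [← sq, ← hz2, pow_orderOf_eq_one]
  have hz1 : z ≠ 1 := by rintro rfl; simp at hz2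
  have hzP : z ∈ P := map_subtype_le _ hz
  have hS0 : ∀ s, s ∈ S₀ ↔ s * z * s⁻¹ = z := fun s => by
    rw [hS₀, ← hZ, mem_centralizer_zpowers_iff]
  have hZP' : ∀ p ∈ P, (∀ y ∈ P, y * p = p * y) → p = 1 ∨ p = z := fun p hp h => by
    obtain ⟨k, rfl⟩ := exists_pow_eq_of_mem_zpowers (hZ.ge ⟨⟨p, hp⟩,
      mem_center_iff.mpr fun y => Subtype.ext (h y y.2), rfl⟩)
    obtain ⟨j, rfl | rfl⟩ := Nat.even_or_odd' k
    · left; rw [pow_mul, sq, hzz, one_pow]
    · right; rw [pow_succ, pow_mul, sq, hzz, one_pow, one_mul]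
  have hPS : P ≤ S₀ := fun p hp => by
    obtain ⟨y, hy, rfl⟩ := hz
    exact (hS0 p).mpr (mul_inv_eq_iff_eq_mul.mpr
      (congrArg Subtype.val (mem_center_iff.mp hy ⟨p, hp⟩)))
  obtain ⟨g, -, hg1, hg2, hg3, -⟩ := exists_step_elt (P := ⊥) (h2.to_subgroup _) (isPGroup_top h2)
    bot_le bot_le (lt_top_iff_ne_top.mpr hS)
  set Q := MulAut.conj g • P with hQ
  set z' := g * z * g⁻¹ with hz'
  have hQS : Q ≤ S₀ := (conj_smul_mono g hPS).trans (conj_smul_eq_of_mem_normalizer hg2).le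
  have hQn : ∀ s ∈ S₀, ∀ x ∈ Q, s * x * s⁻¹ ∈ Q := fun s hs x hx => by
    have := hPn _ (inv_conj_mem_of_mem_normalizer hg2 hs) _ (mem_conj_smul.mp hx)
    rw [mem_conj_smul]
    convert this using 1
    group
  have hz'Q : z' ∈ Q := conj_mem_conj_smul g hzP
  have hzz' : z' ≠ z := fun h => hg1 ((hS0 g).mpr h)
  have hZQ' : ∀ q ∈ Q, (∀ y ∈ Q, y * q = q * y) → q = 1 ∨ q = z' := fun q hq h => by
    obtain ⟨p, hp, rfl⟩ := mem_conj_smul_iff_exists.mp hq
    rcases hZP' p hp fun y hy => by simpa using h _ (conj_mem_conj_smul g hy) with rfl | rfl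
    exacts [Or.inl (by simp), Or.inr rfl]
  have : (P.subgroupOf S₀).Normal := ⟨fun x hx s => hPn s s.2 x hx⟩
  have : (Q.subgroupOf S₀).Normal := ⟨fun x hx s => hQn s s.2 x hx⟩
  have eP := subgroupOfEquivOfLe hPS
  have eQ := (subgroupOfEquivOfLe hQS).trans (conjEquiv g P).symm
  obtain ⟨h3, h4, h5⟩ := S4400.result (h2.to_subgroup S₀) (secRank_subgroup hr S₀)
    (P.subgroupOf S₀) (Q.subgroupOf S₀)
    (fun _ => hP ⟨⟨fun a b => eP.symm.injective (by rw [map_mul, map_mul, mul_comm'])⟩⟩)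
    (fun _ => hP ⟨⟨fun a b => eQ.symm.injective (by rw [map_mul, map_mul, mul_comm'])⟩⟩)
    ((Nat.card_congr (centerCongr eP).toEquiv).trans hZP)
    ((Nat.card_congr (centerCongr eQ).toEquiv).trans hZP) fun h => by
      obtain ⟨y, hy, hyz⟩ := h.le ⟨⟨⟨z, hPS hzP⟩, hzP⟩, mem_center_iff.mpr fun y =>
        Subtype.ext (Subtype.ext (mul_inv_eq_iff_eq_mul.mp ((hS0 _).mp y.1.2))), rfl⟩
      have h1 : (y : S) = z := congrArg Subtype.val hyz
      rcases hZQ' y y.2 fun u hu => congrArg (fun t : Q.subgroupOf S₀ => (t : S))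
        (mem_center_iff.mp hy ⟨⟨u, hQS hu⟩, hu⟩) with h6 | h6
      exacts [hz1 (h1 ▸ h6), hzz' (h6 ▸ h1)]
  have c1 : ∀ p ∈ P, ∀ q ∈ Q, Commute p q := fun p hp q hq => by
    have h6 : ⁅(⟨p, hPS hp⟩ : S₀), (⟨q, hQS hq⟩ : S₀)⁆ = 1 :=
      mem_bot.mp (h3 ▸ commutator_mem_commutator hp hq)
    exact congrArg Subtype.val (commutatorElement_eq_one_iff_mul_comm.mp h6)
  have c2 : ∀ p ∈ P, p ∈ Q → p = 1 := fun p hp hq => by
    have h6 : (⟨p, hPS hp⟩ : S₀) = 1 := mem_bot.mp (h4 ▸ ⟨hp, hq⟩)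
    exact congrArg Subtype.val h6
  have c3 : ∀ x ∈ S₀, (∀ p ∈ P, Commute p x) → (∀ q ∈ Q, Commute q x) →
      x = 1 ∨ x = z ∨ x = z' ∨ x = z * z' := fun x hx hp hq => by
    have h6 : (⟨x, hx⟩ : S₀) ∈ P.subgroupOf S₀ ⊔ Q.subgroupOf S₀ := h5 fun y hy => by
      obtain ⟨p, hp', q, hq', rfl⟩ := (mem_sup_iff_of_le_normalizer le_normalizer_of_normal).mp hy
      exact Subtype.ext ((hp p hp').mul_left (hq q hq'))
    obtain ⟨p, hp', q, hq', h7⟩ := (mem_sup_iff_of_le_normalizer le_normalizer_of_normal).mp h6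
    obtain rfl : x = p * q := congrArg Subtype.val h7
    rcases hZP' p hp' fun y hy => by
      simpa using ((hp y hy).mul_right (c1 y hy q hq').inv_right).eq with h8 | h8 <;>
    rcases hZQ' q hq' fun y hy => by
      simpa [← mul_assoc] using ((c1 p hp' y hy).symm.inv_right.mul_right (hq y hy)).eq
      with h9 | h9 <;> simp [h8, h9]
  refine ⟨secRank_subgroup_iff.mpr fun H K hH h6 h7 => ?_, ?_⟩
  · rw [← inf_relIndex_right]
    have h8 : ∀ X ≤ P, Nat.card (X ⊔ MulAut.conj g • X : Subgroup S) = Nat.card X ^ 2 :=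
      fun X hX => by
      have h9 := card_sup_mul_card_inf (K := X) (H := MulAut.conj g • X) fun y hy =>
        centralizer_le_normalizer _ fun x hx => c1 x (hX hx) y (conj_smul_mono g hX hy)
      rwa [show X ⊓ MulAut.conj g • X = ⊥ from eq_bot_iff.mpr fun x hx =>
        c2 x (hX hx.1) (conj_smul_mono g hX hx.2), card_bot, mul_one, card_conj_smul, ← sq] at h9
    have h9 := relIndex_le_of_secRank_two hr (H := H ⊔ MulAut.conj g • H)
      (K := (K ⊓ H) ⊔ MulAut.conj g • (K ⊓ H)) fun y hy => by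
        obtain ⟨p, hp, q, hq, rfl⟩ := (mem_sup_iff_of_le_normalizer fun y hy =>
          centralizer_le_normalizer _ fun x hx => c1 x (hH hx) y (conj_smul_mono g hH hy)).mp hy
        rw [(c1 p (hH hp) q (conj_smul_mono g hH hq)).mul_pow]
        obtain ⟨q, hq', rfl⟩ := mem_conj_smul_iff_exists.mp hq
        exact mul_mem (mem_sup_left ⟨h7 p hp, H.pow_mem hp 2⟩) (mem_sup_right
          (by rw [conj_pow]; exact conj_mem_conj_smul g ⟨h7 q hq', H.pow_mem hq' 2⟩))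
    have h10 := relIndex_mul_card (show (K ⊓ H) ⊔ MulAut.conj g • (K ⊓ H) ≤ H ⊔ MulAut.conj g • H
      from sup_le_sup inf_le_right (conj_smul_mono g inf_le_right))
    rw [h8 H hH, h8 _ (inf_le_right.trans hH), ← relIndex_mul_card (inf_le_right : K ⊓ H ≤ H),
      mul_pow] at h10
    rw [Nat.eq_of_mul_eq_mul_right (pow_pos Nat.card_pos 2) h10] at h9
    exact (Nat.pow_le_pow_iff_left two_ne_zero).mp h9
  have hzc : ∀ s ∈ S₀, Commute s z := fun s hs => mul_inv_eq_iff_eq_mul.mp ((hS0 s).mp hs)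
  have hc : ∀ n ∈ normalizer (S₀ : Set S), ∀ s ∈ S₀, Commute s (n * z * n⁻¹) := fun n hn s hs => by
    simpa [mul_assoc] using (hzc _ (inv_conj_mem_of_mem_normalizer hn hs)).conj n
  have hgw : g * (z * z') * g⁻¹ = z * z' := by
    calc g * (z * z') * g⁻¹ = z' * (g ^ 2 * z * (g ^ 2)⁻¹) := by rw [hz', sq]; group
      _ = _ := by rw [(hS0 _).mp hg3, (c1 z hzP z' hz'Q).eq]
  have h6 : ∀ n ∈ normalizer (S₀ : Set S), n ∈ S₀ ∨ g⁻¹ * n ∈ S₀ := fun n hn => by
    rcases c3 _ (conj_mem_of_mem_normalizer hn (hPS hzP)) (fun p hp => hc n hn p (hPS hp))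
      (fun q hq => hc n hn q (hQS hq)) with h | h | h | h
    · exact absurd (conj_eq_one_iff.mp h) hz1
    · exact Or.inl ((hS0 n).mpr h)
    · exact Or.inr ((hS0 _).mpr (by rw [mul_inv_rev, inv_inv, mul_assoc, mul_assoc, ← mul_assoc z,
        ← mul_assoc n, ← mul_assoc n, h, hz']; group))
    · refine absurd ?_ hg1
      have h7 : n⁻¹ * g * n ∈ S₀ := (hS0 _).mpr (by
        calc n⁻¹ * g * n * z * (n⁻¹ * g * n)⁻¹ = n⁻¹ * (g * (n * z * n⁻¹) * g⁻¹) * n := by group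
          _ = _ := by rw [h, hgw, ← h]; group)
      simpa [mul_assoc] using conj_mem_of_mem_normalizer hn h7
  have h7 : S₀.relIndex (normalizer (S₀ : Set S)) = 2 :=
    relIndex_eq_two_iff_exists_notMem_and'.mpr ⟨g⁻¹, inv_mem hg2, fun h => hg1 (inv_mem_iff.mp h),
      fun n hn => (h6 n hn).symm⟩
  suffices normalizer (S₀ : Set S) = ⊤ by rwa [this, relIndex_top_right] at h7
  by_contra hN
  obtain ⟨h, hh1, hh2⟩ := SetLike.exists_of_lt
    (lt_inf_normalizer (isPGroup_top h2) (lt_top_iff_ne_top.mpr hN))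
  have hz'c := hc g hg2
  have hw : ∀ n ∈ normalizer (S₀ : Set S), n * (z * z') * n⁻¹ = z * z' := fun n hn => by
    have h8 : ∀ s ∈ S₀, s * (z * z') * s⁻¹ = z * z' := fun s hs =>
      mul_inv_eq_iff_eq_mul.mpr ((hzc s hs).mul_right (hz'c s hs))
    rcases h6 n hn with h9 | h9
    · exact h8 n h9
    · calc n * (z * z') * n⁻¹ = g * (g⁻¹ * n * (z * z') * (g⁻¹ * n)⁻¹) * g⁻¹ := by group
        _ = _ := by rw [h8 _ h9, hgw]
  have hn : ∀ n ∈ normalizer (S₀ : Set S), n * z * n⁻¹ = z ∨ n * z * n⁻¹ = z * (z * z') :=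
    fun n hn => (h6 n hn).imp (hS0 n).mp fun h9 => by
      calc n * z * n⁻¹ = g * (g⁻¹ * n * z * (g⁻¹ * n)⁻¹) * g⁻¹ := by group
        _ = _ := by rw [(hS0 _).mp h9, ← mul_assoc z, hzz, one_mul]
  have hzN : z ∈ normalizer (S₀ : Set S) := le_normalizer (hPS hzP)
  have hw0 : ∀ n ∈ normalizer (S₀ : Set S), Commute n (h * (z * z') * h⁻¹) := fun n hn => by
    simpa [mul_assoc] using (show Commute _ _ from mul_inv_eq_iff_eq_mul.mp
      (hw _ (inv_conj_mem_of_mem_normalizer hh1.2 hn))).conj h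
  have hw1 : h * (z * z') * h⁻¹ = z * z' := by
    rcases c3 _ ((hS0 _).mpr (mul_inv_eq_iff_eq_mul.mpr (hw0 z hzN).symm))
      (fun p hp => hw0 p (le_normalizer (hPS hp))) (fun q hq => hw0 q (le_normalizer (hQS hq)))
      with h8 | h8 | h8 | h8
    · exact absurd (mul_left_cancel ((conj_eq_one_iff.mp h8).trans hzz.symm)) hzz'
    · exact absurd (mul_inv_eq_iff_eq_mul.mpr (h8 ▸ hw0 g hg2)) hzz'
    · have h9 : g * z' * g⁻¹ = z' := mul_inv_eq_iff_eq_mul.mpr (h8 ▸ hw0 g hg2)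
      exact absurd (by simpa [hz'] using h9) hzz'
    · exact h8
  set v := h * z * h⁻¹ with hv
  have hvN : v ∈ normalizer (S₀ : Set S) := conj_mem_of_mem_normalizer hh1.2 hzN
  have hnv : ∀ n ∈ normalizer (S₀ : Set S), n * v * n⁻¹ = v ∨ n * v * n⁻¹ = v * (z * z') :=
    fun n hn' => by
      have h8 : n * v * n⁻¹ = h * (h⁻¹ * n * h * z * (h⁻¹ * n * h)⁻¹) * h⁻¹ := by rw [hv]; group
      refine (hn _ (inv_conj_mem_of_mem_normalizer hh1.2 hn')).imp (fun h9 => by rw [h8, h9])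
        fun h9 => ?_
      rw [h8, h9, ← conj_mul, hw1]
  have hz'1 : z' ≠ 1 := fun h8 => hz1 (conj_eq_one_iff.mp h8)
  rcases h6 v hvN with h8 | h8
  · have h9 : ∀ {X : Subgroup S}, X ≤ S₀ → (∀ s ∈ S₀, ∀ x ∈ X, s * x * s⁻¹ ∈ X) → z * z' ∉ X →
        ∀ p ∈ X, Commute p v := fun {X} hX hXn hXw p hp =>
      (hnv p (le_normalizer (hX hp))).elim (fun h9 => mul_inv_eq_iff_eq_mul.mp h9) fun h9 =>
        absurd (by
          have := mul_mem (hXn _ (inv_mem h8) p hp) (inv_mem hp)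
          rwa [inv_inv, mul_assoc, mul_assoc, ← mul_assoc p, h9, inv_mul_cancel_left] at this) hXw
    rcases c3 v h8 (h9 hPS hPn fun h10 => hz'1 (c2 _ ((mul_mem_cancel_left hzP).mp h10) hz'Q))
      (h9 hQS hQn fun h10 => hz1 (c2 _ hzP ((mul_mem_cancel_right hz'Q).mp h10)))
      with h10 | h10 | h10 | h10
    · exact hz1 (conj_eq_one_iff.mp h10)
    · exact hh2 (le_normalizer ((hS0 h).mpr h10))
    · have h11 : g⁻¹ * h ∈ S₀ := (hS0 _).mpr (by
        rw [mul_inv_rev, inv_inv, mul_assoc, mul_assoc, ← mul_assoc z, ← mul_assoc h,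
          ← mul_assoc h, ← hv, h10, hz']; group)
      exact hh2 (by simpa using mul_mem hg2 (le_normalizer h11))
    · rw [← hw1, hv] at h10
      exact hz'1 (by simpa using h10)
  · refine hP (isMulCommutative_of_forall fun p hp p' hp' => ?_)
    have h9 : v * p * v⁻¹ ∈ Q := by
      rw [mem_conj_smul]
      convert hPn _ h8 p hp using 1
      group
    have h10 : v * p * v⁻¹ = p * (p⁻¹ * v * p⁻¹⁻¹) * v⁻¹ := by group
    rcases hnv p⁻¹ (inv_mem (le_normalizer (hPS hp))) with h11 | h11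
    · rw [h10, h11, mul_inv_cancel_right] at h9
      rw [c2 p hp h9, one_mul, mul_one]
    · rw [h10, h11, mul_assoc, mul_assoc v, ← mul_assoc v, hw v hvN, ← mul_assoc] at h9
      have h12 := c2 _ (mul_mem hp hzP) ((mul_mem_cancel_right hz'Q).mp h9)
      rw [eq_inv_of_mul_eq_one_left h12]
      exact (hzc p' (hPS hp')).inv_right.symm.eq

end Cfsg.Agent.S4401
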