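import Cfsg.Statements.S4404
import Cfsg.Agent.Solv.F2Small
import Cfsg.Agent.FT.Rank
import Cfsg.Agent.Solv.Hall
import Cfsg.Agent.FT.BG4.Compl
import Cfsg.Agent.FT.BG4.Elem
import Cfsg.Agent.Trans.Conj

set_option autoImplicit false
open Cfsg

namespace Cfsg.Agent.S4404

open Cfsg.Lib.Solv Cfsg.Lib.Solv.F2S Module Cfsg.Lib.Trans
open scoped commutatorElement

/-- Let S be a finite solvable group and M a normal elementary abelian 2-subgroup of S. Suppose S contains an elementary abelian subgroup of order p³ for some odd prime p, and a cyclic 3-subgroup Q such that the cubes of the elements of Q centralize M and the commutator subgroup [Q, M] has order 4 (a four-group inside M). Then S contains an elementary abelian subgroup F of order r³, for some odd prime r, whose centralizer of [Q, M] in F — the subgroup C_F([Q, M]) — is not cyclic. -/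
theorem result {S : Type*} [Group S] [Finite S]
    [Group.IsSolvable S] (M : Subgroup S) [M.Normal] (hM : Cfsg.IsElementaryAbelian 2 M)
    (p : ℕ) (hp : p.Prime) (hp2 : p ≠ 2) (E : Subgroup S) (hE : Cfsg.IsElementaryAbelian p E) (hE3 : Nat.card ↥E = p ^ 3)
    (Q : Subgroup S) (hQc : IsCyclic ↥Q) (hQ3 : IsPGroup 3 ↥Q)
    (hQ1 : ∀ x ∈ Q, x ^ 3 ∈ Subgroup.centralizer (M : Set S)) (hQM : Nat.card ↥⁅Q, M⁆ = 4) :
    ∃ (r : ℕ) (F : Subgroup S), r.Prime ∧ r ≠ 2 ∧ Cfsg.IsElementaryAbelian r F ∧ Nat.card ↥F = r ^ 3 ∧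
      ¬ IsCyclic ↥(F ⊓ Subgroup.centralizer ((⁅Q, M⁆ : Subgroup S) : Set S)) := by
  have : Fact p.Prime := ⟨hp⟩
  have : Fact (Nat.Prime 3) := ⟨Nat.prime_three⟩
  have : Fact (Nat.Prime 2) := ⟨Nat.prime_two⟩
  have : ElemAb 2 M := ElemAb.of_isElementaryAbelian hM
  let φ : S →* MulAut M := MulAut.conjNormal
  let f := φ.rangeRestrict
  let ρ := Vec.rep 2 φ.range.subtype
  have hρ : Function.Injective ρ := (Vec.rep_injective_iff _).2 φ.range.subtype_injective
  obtain ⟨x, rfl⟩ := (Subgroup.isCyclic_iff_exists_zpowers_eq_top Q).1 hQc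
  have hx3 : f x ^ 3 = 1 := by
    rw [← map_pow]
    refine Subtype.ext (MulEquiv.ext fun m => Subtype.ext ?_)
    change x ^ 3 * m * (x ^ 3)⁻¹ = m
    rw [← hQ1 x (Subgroup.mem_zpowers x) m m.2, mul_inv_cancel_right]
  have hρa : ∀ (s : S) (m : M), ((Vec.toMul (ρ (f s) (Vec.ofMul 2 m) - Vec.ofMul 2 m) : M) : S) =
      ⁅s, (m : S)⁆ := fun s m => by
    rw [Vec.toMul_sub, div_eq_mul_inv]; rfl
  have hle : ⁅Subgroup.zpowers x, M⁆ ≤ M := Subgroup.commutator_le_right _ _
  have hcm : cm ρ (f x) = Vec.subEquiv 2 M (⁅Subgroup.zpowers x, M⁆.subgroupOf M) := by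
    apply le_antisymm
    · rintro _ ⟨v, rfl⟩
      rw [Vec.mem_subEquiv, Subgroup.mem_subgroupOf]
      exact (hρa x (Vec.toMul v)).symm ▸
        Subgroup.commutator_mem_commutator (Subgroup.mem_zpowers x) (Vec.toMul v).2
    · have : ⁅Subgroup.zpowers x, M⁆ ≤ ((Vec.subEquiv 2 M).symm (cm ρ (f x))).map M.subtype := by
        rw [Subgroup.commutator_le]
        intro q hq m hm
        have h1 : f q ∈ mover ρ (cm ρ (f x)) := by
          obtain ⟨k, rfl⟩ := Subgroup.mem_zpowers_iff.1 hq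
          rw [map_zpow]
          exact zpow_mem (mem_mover_cm _) k
        exact ⟨Vec.toMul (ρ (f q) (Vec.ofMul 2 ⟨m, hm⟩) - Vec.ofMul 2 (⟨m, hm⟩ : M)),
          Vec.mem_subEquiv_symm.2 (h1 (Vec.ofMul 2 ⟨m, hm⟩)), hρa q ⟨m, hm⟩⟩
      intro v hv
      obtain ⟨w, hw, hwv⟩ := this (Subgroup.mem_subgroupOf.1 ((Vec.mem_subEquiv (V := M)).1 hv))
      obtain rfl : w = Vec.toMul v := Subtype.ext hwv
      exact hw
  have h2 : finrank (ZMod 2) (cm ρ (f x)) = 2 := by
    rw [hcm]
    apply Vec.finrank_subEquiv_of_card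
    rw [Nat.card_congr (Subgroup.subgroupOfEquivOfLe hle).toEquiv, hQM]; rfl
  have hC : (fixer ρ (cm ρ (f x))).comap f ≤
      Subgroup.centralizer ((⁅Subgroup.zpowers x, M⁆ : Subgroup S) : Set S) := by
    intro s hs w hw
    have h1 := hs (Vec.ofMul 2 ⟨w, hle hw⟩) (by rw [hcm]; exact hw)
    have h3 := hρa s ⟨w, hle hw⟩
    rw [h1, sub_self] at h3
    exact (commutatorElement_eq_one_iff_mul_comm.1 h3.symm).symm
  have key : ∀ (r : ℕ) (F : Subgroup S), r.Prime → IsElementaryAbelian r F → Nat.card F = r ^ 3 →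
      (fixer ρ (cm ρ (f x))).relIndex (F.map f) ≤ r →
      ¬ IsCyclic ↥(F ⊓ Subgroup.centralizer ((⁅Subgroup.zpowers x, M⁆ : Subgroup S) : Set S)) := by
    intro r F hr hF hF3 hi hc
    have : Fact r.Prime := ⟨hr⟩
    have : ElemAb r F := ElemAb.of_isElementaryAbelian hF
    have := ElemAb.of_le (p := r) (inf_le_left : F ⊓
      Subgroup.centralizer ((⁅Subgroup.zpowers x, M⁆ : Subgroup S) : Set S) ≤ F)
    rw [ElemAb.isCyclic_iff_card_le r] at hc
    rw [← Subgroup.relIndex_comap] at hi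
    have h1 := (Subgroup.relIndex_le_of_le_left hC Subgroup.index_ne_zero_of_finite).trans hi
    have h3 := Subgroup.card_mul_index
      ((Subgroup.centralizer ((⁅Subgroup.zpowers x, M⁆ : Subgroup S) : Set S)).subgroupOf F)
    rw [← Subgroup.inf_subgroupOf_left,
      Nat.card_congr (Subgroup.subgroupOfEquivOfLe inf_le_left).toEquiv, Subgroup.inf_subgroupOf_left,
      hF3] at h3
    have h4 := Nat.mul_le_mul hc h1
    rw [Subgroup.relIndex, h3, ← pow_two] at h4
    exact absurd ((Nat.pow_le_pow_iff_right hr.one_lt).1 h4) (by norm_num)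
  by_cases h3 : PRankLE 3 2 S
  · have hp3 : p ≠ 3 := by
      rintro rfl
      exact Lib.FT.BG4.not_pRankLE_of_card hE hE3.ge h3
    have h5 : 5 ≤ p := by
      have := hp.two_le
      by_contra h
      interval_cases p
      · exact hp2 rfl
      · exact hp3 rfl
      · exact absurd hp (by norm_num)
    obtain ⟨H, hH, hQH⟩ := exists_isPiHall_ge
      (isPiSubgroup_of_isPGroup (π := {3, p}) (by simp) hQ3)
    have hEp : IsPGroup p E := IsPGroup.of_card hE3
    obtain ⟨g, hg⟩ := exists_conj_le_isPiHall hH (isPiSubgroup_of_isPGroup (by simp) hEp)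
    rw [conj_smul_eq_cj] at hg
    have ho : Odd (Nat.card H) := by
      rw [← Nat.not_even_iff_odd, even_iff_two_dvd]
      intro h
      rcases hH.1 2 Nat.prime_two h with h | h
      · omega
      · exact hp2 h.symm
    have hP := Lib.FT.rank2_min_p_complement Nat.prime_three (H := H) inferInstance ho
      (Lib.FT.pRank_le_iff.2 (Lib.FT.BG4.pRankLE_of_injective h3 H.subtype H.subtype_injective))
      (Or.inr rfl)
    have hN : H ≤ Subgroup.normalizer (piCoreOf {3}ᶜ H : Set S) :=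
      Lib.FT.norms_pcore _ Subgroup.le_normalizer
    have hPp : IsPGroup p (piCoreOf {3}ᶜ H) := by
      rw [← isPiSubgroup_singleton_iff]
      intro q hq hd
      rcases hH.1 q hq (hd.trans (Subgroup.card_dvd_of_le hP.1)) with h | h
      · exact absurd h (hP.2.1 q hq hd)
      · exact h
    have hEP := le_of_isPiHallOf_of_normalizes hP
      (isPiSubgroup_of_isPGroup (p := p) hp3 (isPGroup_cj hEp g)) hg (hg.trans hN)
    have : ElemAb p E := ElemAb.of_isElementaryAbelian hE
    have : ElemAb p (cj g E) := ElemAb.of_equiv (cjEquiv g E)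
    refine ⟨p, cj g E, hp, hp2, ElemAb.isElementaryAbelian p _, by rw [card_cj, hE3],
      key p _ hp (ElemAb.isElementaryAbelian p _) (by rw [card_cj, hE3]) ?_⟩
    refine (Subgroup.relIndex_le_of_le_right (Subgroup.map_mono hEP)
      Subgroup.index_ne_zero_of_finite).trans (relIndex_fixer_le hρ hx3 h2 h5 (hPp.map f) ?_)
    exact Subgroup.le_normalizer_map f ⟨x, hN (hQH (Subgroup.mem_zpowers x)), rfl⟩
  · obtain ⟨H, hH⟩ := hQ3.exists_le_sylow
    have h4 : ¬ PRankLE 3 2 H := by
      rw [← Lib.FT.pRank_le_iff, Lib.FT.p_rank_Sylow (Lib.FT.Sylow_top H), Lib.FT.pRank_top_le_iff]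
      exact h3
    obtain ⟨B, hB, hBe, hBc⟩ :=
      Lib.FT.BG4.exists_normal_elementary_card_cube (by norm_num) H.isPGroup' h4
    have : ElemAb 3 B := ElemAb.of_isElementaryAbelian hBe
    have := ElemAb.map (p := 3) B (H : Subgroup S).subtype
    have hc : Nat.card (B.map (H : Subgroup S).subtype) = 3 ^ 3 := by
      rw [Subgroup.card_map_of_injective (H : Subgroup S).subtype_injective, hBc]
    have hN : (H : Subgroup S) ≤ Subgroup.normalizer (B.map (H : Subgroup S).subtype : Set S) := by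
      intro h hh
      refine Subgroup.le_normalizer_map (H : Subgroup S).subtype ⟨⟨h, hh⟩, ?_, rfl⟩
      rw [Subgroup.normalizer_eq_top]; trivial
    refine ⟨3, _, Nat.prime_three, by norm_num, ElemAb.isElementaryAbelian 3 _, hc,
      key 3 _ Nat.prime_three (ElemAb.isElementaryAbelian 3 _) hc ?_⟩
    have := ElemAb.map (p := 3) (B.map (H : Subgroup S).subtype) f
    refine relIndex_fixer_le_three hρ hx3 h2 (H.isPGroup'.map f)
      ⟨x, hH (Subgroup.mem_zpowers x), rfl⟩ (Subgroup.map_mono (Subgroup.map_subtype_le B))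
      (fun a ha b hb => congrArg Subtype.val (this.comm ⟨a, ha⟩ ⟨b, hb⟩)) ?_
    exact Subgroup.le_normalizer_map f ⟨x, hN (hH (Subgroup.mem_zpowers x)), rfl⟩

end Cfsg.Agent.S4404
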