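import Cfsg.Statements.S4405
import Cfsg.Agent.Solv.Factor
import Cfsg.Agent.Solv.ClassNumber
import Cfsg.Agent.Solv.RealLift
import Cfsg.Agent.Gold.TFMod
import Cfsg.Agent.Solv.FrattiniRep
import Cfsg.Agent.Solv.Fitting
import Cfsg.Agent.S0144
import Cfsg.Agent.Solv.HaradaTools

set_option autoImplicit false
open Cfsg

namespace Cfsg.Agent.S4405

open scoped commutatorElement Pointwise
open Subgroup Cfsg.Lib.Solv Cfsg.Lib.Solv.PG

theorem key {Q : Type*} [Group Q] [Finite Q] {H : Subgroup Q} [hH : H.Normal] (h16 : Nat.card H = 16)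
    {t y : Q} (ht : t ^ 2 = 1) (hy : y ^ 5 = 1) (hty : t * y * t⁻¹ = y⁻¹)
    (hne : ¬ H ≤ centralizer {y ^ 2}) (hc : ∀ a ∈ H, ⁅⁅a, t⁆, t⁆ = 1) {c : Q} (hcH : c ∈ H)
    (hct : ⁅c, t⁆ = 1) : ∃ x ∈ H, ⁅x, t⁆ = c := by
  have h1 : Nat.card (H ⊓ centralizer {y ^ 2} : Subgroup Q) = 1 := by
    have h2 := Cfsg.Lib.Gold.TF.card_modEq_inf_centralizer (r := 5) (by norm_num) (D := H)
      (σ := y ^ 2) (j := 1) (by rw [pow_one, ← pow_mul, mul_comm, pow_mul, hy, one_pow])
      (by rw [normalizer_eq_top]; trivial)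
    have h3 : Nat.card (H ⊓ centralizer {y ^ 2} : Subgroup Q) ∣ 16 := h16 ▸ card_dvd_of_le inf_le_left
    have h4 : Nat.card (H ⊓ centralizer {y ^ 2} : Subgroup Q) ≠ 16 := fun h =>
      hne ((eq_of_le_of_card_ge inf_le_left (h16.trans h.symm).le).ge.trans inf_le_right)
    rw [h16] at h2
    have h5 := Nat.le_of_dvd (by norm_num) h3
    generalize Nat.card (H ⊓ centralizer {y ^ 2} : Subgroup Q) = n at *
    unfold Nat.ModEq at h2
    interval_cases n <;> simp_all
  set S : Subgroup Q := centralizer {t} ⊓ H with hS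
  have hS' : (S.map (MulAut.conj y).toMonoidHom) ≤ H := by
    rintro _ ⟨s, hs, rfl⟩
    exact hH.conj_mem _ hs.2 y
  have h6 : S ⊓ S.map (MulAut.conj y).toMonoidHom ≤ H ⊓ centralizer {y ^ 2} := by
    rintro _ ⟨h1, s, hs, rfl⟩
    refine ⟨h1.2, mem_centralizer_singleton_iff.mpr ?_⟩
    have e1 : y * s * y⁻¹ * t = t * (y * s * y⁻¹) := mem_centralizer_singleton_iff.mp h1.1
    have e2 : s * t = t * s := mem_centralizer_singleton_iff.mp hs.1
    have e3 : t * y = y⁻¹ * t := by rw [← hty]; group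
    have e4 : y⁻¹ * t = t * y := e3.symm
    have e5 : t * t = 1 := by rw [← sq, ht]
    have e6 : y ^ 2 = y * t * y⁻¹ * t := by
      rw [mul_assoc (y * t), e4, mul_assoc y, ← mul_assoc t, e5, one_mul, sq]
    change y * s * y⁻¹ * y ^ 2 = y ^ 2 * (y * s * y⁻¹)
    rw [e6, mul_assoc (y * t * y⁻¹), ← e1]
    calc y * s * y⁻¹ * (y * t * y⁻¹ * t) = y * (s * t) * y⁻¹ * t := by group
      _ = y * t * y⁻¹ * (y * s * y⁻¹ * t) := by rw [e2]; group
  have h7 := card_mul_card_le_of_le (inf_le_right : S ≤ H) hS'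
  have h8 := card_le_of_le h6
  rw [card_map_of_injective (MulAut.conj y).injective] at h7
  refine exists_commutator_eq (S := S) (fun x hx => ⟨mem_cent_iff.mpr (hc x hx),
    commutator_mem_left hx t⟩) ?_ ⟨mem_cent_iff.mpr hct, hcH⟩
  rw [h1] at h8
  exact h7.trans ((Nat.mul_le_mul_left _ h8).trans (mul_one _).le)

/-- Let G be a finite group of order 320 = 64·5 whose largest normal 2-subgroup H = O₂(G) equals the Fitting subgroup F(G) and is extraspecial of order 32 containing no elementary abelian subgroup of order 8 (so H is the central product of a quaternion group and a dihedral group of order 8). If T is an involution of G outside H whose centralizer in H contains an elementary abelian subgroup of order 4, then C_H(T) itself is elementary abelian of order 4. -/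
theorem result {G : Type*} [Group G] [Finite G]
    (hG : Nat.card G = 320) (hHF : Cfsg.pCore 2 G = Cfsg.fittingSubgroup G)
    (hex : Cfsg.IsExtraspecial 2 ↥(Cfsg.pCore 2 G)) (h32 : Nat.card ↥(Cfsg.pCore 2 G) = 32)
    (hminus : ∀ A : Subgroup G, A ≤ Cfsg.pCore 2 G → Cfsg.IsElementaryAbelian 2 A → Nat.card ↥A ≤ 4)
    (T : G) (hT : orderOf T = 2) (hTH : T ∉ Cfsg.pCore 2 G)
    (V : Subgroup G) (hV : V ≤ Cfsg.pCore 2 G ⊓ Subgroup.centralizer ({T} : Set G)) (hV4 : Nat.card ↥V = 4) (hVe : Cfsg.IsElementaryAbelian 2 V) :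
    Nat.card ↥(Cfsg.pCore 2 G ⊓ Subgroup.centralizer ({T} : Set G)) = 4 ∧
      Cfsg.IsElementaryAbelian 2 (Cfsg.pCore 2 G ⊓ Subgroup.centralizer ({T} : Set G)) := by
  have : Fact (Nat.Prime 2) := ⟨Nat.prime_two⟩
  have hsol := Cfsg.Agent.S0144.result (G := G) 2 5 6 1 Nat.prime_two (by norm_num) (by rw [hG]; norm_num)
  have hC : centralizer (pCore 2 G : Set G) ≤ pCore 2 G := by
    rw [hHF]; exact centralizer_fitting_le G
  set H := pCore 2 G with hH
  have hT2 : T ^ 2 = 1 := hT ▸ pow_orderOf_eq_one T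
  obtain ⟨y, q, hq, hq2, hyq, hty⟩ :=
    Real.exists_inverted_of_not_mem_pCore (t := T) (by rw [← sq, hT2]) hTH
  have hq5 : q = 5 := by
    have h1 : q ∣ 2 ^ 6 * 5 := by
      rw [← hyq]; exact (orderOf_dvd_natCard y).trans (by rw [hG]; norm_num)
    rcases (Nat.Prime.dvd_mul hq).mp h1 with h | h
    · exact absurd ((Nat.prime_dvd_prime_iff_eq hq Nat.prime_two).mp (hq.dvd_of_dvd_pow h)) hq2
    · exact (Nat.prime_dvd_prime_iff_eq hq (by norm_num)).mp h
  subst hq5
  set Z : Subgroup G := (center H).map H.subtype with hZ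
  have hZn : Z.Normal := inferInstance
  have hZ2 : Nat.card Z = 2 := by rw [hZ, card_map_of_injective H.subtype_injective, hex.2]
  have hZH : Z ≤ H := map_subtype_le _
  have hZc : Z ≤ center G := by
    intro z hz
    rw [mem_center_iff]
    intro g
    by_cases h1 : z = 1
    · simp [h1]
    have h2 : g * z * g⁻¹ ≠ 1 := fun h => h1 (by simpa using h)
    have := eq_of_card_le_two hZ2.le (hZn.conj_mem z hz g) hz h2 h1
    rw [← mul_inv_eq_iff_eq_mul]; exact this
  have hcomm : ∀ a ∈ H, ∀ b ∈ H, ⁅a, b⁆ ∈ Z := fun a ha b hb =>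
    ⟨⁅(⟨a, ha⟩ : H), ⟨b, hb⟩⁆, hex.1.2.2 ▸ commutator_mem_commutator (mem_top _) (mem_top _), rfl⟩
  have hsq : ∀ a ∈ H, a ^ 2 ∈ Z := fun a ha =>
    ⟨⟨a, ha⟩ ^ 2, hex.1.2.1 ▸ pow_mem_frattini hex.1.1 _, rfl⟩
  have hel : ∀ c ∈ H ⊓ centralizer ({T} : Set G), c ^ 2 = 1 := by
    intro c hc
    have hmk : ∀ {a : G}, QuotientGroup.mk' Z a = 1 ↔ a ∈ Z := QuotientGroup.eq_one_iff _
    refine (key (H := H.map (QuotientGroup.mk' Z)) (t := QuotientGroup.mk' Z T)
      (y := QuotientGroup.mk' Z y) (c := QuotientGroup.mk' Z c) ?_ (by rw [← map_pow, hT2, map_one])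
      (by rw [← map_pow, ← hyq, pow_orderOf_eq_one, map_one])
      (by rw [← map_inv, ← map_mul, ← map_mul, hty, map_inv]) ?_ ?_ ⟨c, hc.1, rfl⟩
      (by rw [← map_commutatorElement, mem_cent_iff.mp hc.2, map_one])).elim ?_
    rotate_right
    · rintro _ ⟨⟨x, hx, rfl⟩, hxc⟩
      rw [← map_commutatorElement] at hxc
      obtain ⟨z, hz, hzc⟩ := (QuotientGroup.mk'_eq_mk' Z).mp hxc
      have hz2 : z ^ 2 = 1 := by
        have := pow_card_eq_one' (x := (⟨z, hz⟩ : Z))
        rw [hZ2] at this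
        exact congrArg Subtype.val this
      have h1 := inverted_commutator hT2 x
      have h2 : T * c * T⁻¹ = c := by
        rw [← mem_centralizer_singleton_iff.mp hc.2, mul_inv_cancel_right]
      have h3 : ∀ g, g * z = z * g := mem_center_iff.mp (hZc hz)
      have h4 : T * c * T⁻¹ = c⁻¹ := by
        rw [← hzc, mul_inv_rev, ← h1, inv_eq_self_of_sq hz2, ← h3, ← mul_assoc, mul_assoc _ z, ← h3,
          ← mul_assoc]
      rw [sq, ← eq_inv_iff_mul_eq_one, ← h4, h2]
    · have h1 := ClassNum.card_eq_card_map_mul (QuotientGroup.mk' Z) H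
      rw [QuotientGroup.ker_mk', inf_eq_right.mpr hZH, hZ2, h32] at h1
      omega
    · intro h
      have h1 : y ^ 2 ∈ H := (mem_pCore_iff_commutator_mem_frattini hC).mpr fun a ha => by
        rw [hex.1.2.1]
        refine hmk.mp ?_
        rw [map_commutatorElement, map_pow, ← commutatorElement_inv,
          mem_cent_iff.mp (h ⟨a, ha, rfl⟩), inv_one]
      have h2 : orderOf (y ^ 2) ∣ 32 := h32 ▸ Subgroup.orderOf_dvd_natCard _ h1
      rw [orderOf_pow, hyq] at h2
      norm_num at h2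
    · rintro _ ⟨a, ha, rfl⟩
      rw [← map_commutatorElement, ← map_commutatorElement, hmk]
      have h1 := inverted_commutator hT2 a
      have h2 : ⁅⁅a, T⁆, T⁆ = ⁅a, T⁆ ^ 2 := by
        rw [commutatorElement_def ⁅a, T⁆, mul_assoc, mul_assoc, ← h1, sq]
        congr 1
        rw [inv_eq_self_of_sq hT2]
        calc T * (T * ⁅a, T⁆ * T * T) = (T * T) * ⁅a, T⁆ * (T * T) := by group
          _ = _ := by rw [← sq, hT2, one_mul, mul_one]
      rw [h2]
      exact hsq _ (commutator_mem_left ha T)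
  have he : IsElementaryAbelian 2 (H ⊓ centralizer ({T} : Set G)) :=
    ⟨⟨⟨fun a b => Subtype.ext (by
      have h1 := inv_eq_self_of_sq (hel _ (a * b).2)
      rw [Subgroup.coe_mul, mul_inv_rev, inv_eq_self_of_sq (hel _ a.2),
        inv_eq_self_of_sq (hel _ b.2)] at h1
      exact h1.symm)⟩⟩, hel⟩
  exact ⟨le_antisymm (hminus _ inf_le_left he) (hV4 ▸ card_le_of_le hV), he⟩

end Cfsg.Agent.S4405
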