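import Cfsg.Statements.S4406
import Mathlib
import Cfsg.Agent.Solv.CyclicP
import Cfsg.Agent.Solv.MinNormal
import Cfsg.Agent.Solv.Conj

set_option autoImplicit false
open Cfsg

namespace Cfsg.Agent.S4406

open Cfsg.Lib.Solv

theorem sq_eq_one : ∀ x : alternatingGroup (Fin 4), x ^ 4 = 1 → x ^ 2 = 1 := by decide +kernel

theorem rot : ∀ a : alternatingGroup (Fin 4), a ^ 3 = 1 → a ≠ 1 →
    ∀ v : alternatingGroup (Fin 4), v ^ 2 = 1 → v ≠ 1 → ∀ w : alternatingGroup (Fin 4), w ^ 2 = 1 →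
    w ≠ 1 → v ≠ w → (a * v * a⁻¹ = w ∧ a * w * a⁻¹ = v * w) ∨
      (a⁻¹ * v * a⁻¹⁻¹ = w ∧ a⁻¹ * w * a⁻¹⁻¹ = v * w) := by decide +kernel

theorem exists_rot (K : Subgroup (alternatingGroup (Fin 4))) (a : alternatingGroup (Fin 4))
    (haK : a ∈ K) (ha : orderOf a = 3) (v w : alternatingGroup (Fin 4)) (hv : v ^ 2 = 1)
    (hw : w ^ 2 = 1) (hv1 : v ≠ 1) (hw1 : w ≠ 1) (hvw : v ≠ w) :
    ∃ c ∈ K, orderOf c = 3 ∧ c * v * c⁻¹ = w ∧ c * w * c⁻¹ = v * w := by
  rcases rot a (ha ▸ pow_orderOf_eq_one a) (by rintro rfl; simp at ha) v hv hv1 w hw hw1 hvw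
    with h | h
  · exact ⟨a, haK, ha, h⟩
  · exact ⟨a⁻¹, K.inv_mem haK, by rwa [orderOf_inv], h⟩


/-- In the direct product P = A₄ × A₄, let X be the Sylow 2-subgroup, X₁ and X₂ its intersections with the two direct factors, Q a Sylow 3-subgroup and Q₁, Q₂ its intersections with the two factors. Then every subgroup B of X of order 4 either meets X₁ or X₂ nontrivially, or is normalized by one of the two subgroups of Q of order 3 other than Q₁ and Q₂. -/
theorem result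
    (X : Sylow 2 (↥(alternatingGroup (Fin 4)) × ↥(alternatingGroup (Fin 4))))
    (Q : Sylow 3 (↥(alternatingGroup (Fin 4)) × ↥(alternatingGroup (Fin 4))))
    (B : Subgroup (↥(alternatingGroup (Fin 4)) × ↥(alternatingGroup (Fin 4)))) (hBX : B ≤ (X : Subgroup _)) (hB4 : Nat.card ↥B = 4) :
    B ⊓ ((X : Subgroup _) ⊓ Subgroup.prod ⊤ ⊥) ≠ ⊥ ∨ B ⊓ ((X : Subgroup _) ⊓ Subgroup.prod ⊥ ⊤) ≠ ⊥ ∨
      ∃ R : Subgroup (↥(alternatingGroup (Fin 4)) × ↥(alternatingGroup (Fin 4))), R ≤ (Q : Subgroup _) ∧ Nat.card ↥R = 3 ∧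
        R ≠ (Q : Subgroup _) ⊓ Subgroup.prod ⊤ ⊥ ∧ R ≠ (Q : Subgroup _) ⊓ Subgroup.prod ⊥ ⊤ ∧ R ≤ Subgroup.normalizer (B : Set _) := by
  by_contra hcon
  push Not at hcon
  obtain ⟨h1, h2, h3⟩ := hcon
  have hA : Nat.card (alternatingGroup (Fin 4)) = 12 := by
    rw [nat_card_alternatingGroup]; simp [Nat.factorial]
  have hB1 : ∀ x ∈ B, x.2 = 1 → x = 1 := fun x hx h => by
    have : x ∈ B ⊓ ((X : Subgroup _) ⊓ Subgroup.prod ⊤ ⊥) := ⟨hx, hBX hx, trivial, h⟩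
    rwa [h1] at this
  have hB2 : ∀ x ∈ B, x.1 = 1 → x = 1 := fun x hx h => by
    have : x ∈ B ⊓ ((X : Subgroup _) ⊓ Subgroup.prod ⊥ ⊤) := ⟨hx, hBX hx, h, trivial⟩
    rwa [h2] at this
  have hsq : ∀ x ∈ B, x.1 ^ 2 = 1 ∧ x.2 ^ 2 = 1 := fun x hx => by
    have h4 : x ^ 4 = 1 := by
      have := PG.pow_card_eq_one_of_mem hx
      rwa [hB4] at this
    exact ⟨sq_eq_one _ (congrArg Prod.fst h4), sq_eq_one _ (congrArg Prod.snd h4)⟩
  -- generators of `B`
  have hB0 : B ≠ ⊥ := by rintro rfl; simp at hB4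
  obtain ⟨⟨x, hx⟩, hx1⟩ := Subgroup.ne_bot_iff_exists_ne_one.1 hB0
  have hx1' : x ≠ 1 := fun h => hx1 (Subtype.ext h)
  have hxo : orderOf x = 2 := orderOf_eq_prime (Prod.ext (hsq x hx).1 (hsq x hx).2) hx1'
  obtain ⟨y, hy, hyx⟩ : ∃ y ∈ B, y ∉ Subgroup.zpowers x := by
    by_contra h
    push Not at h
    have := Subgroup.card_le_of_le h
    rw [Nat.card_zpowers, hxo, hB4] at this
    omega
  have hBeq : Subgroup.closure {x, y} = B := by
    have hle : Subgroup.closure {x, y} ≤ B := by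
      rw [Subgroup.closure_le]; rintro _ (rfl | rfl) <;> assumption
    refine Subgroup.eq_of_le_of_card_ge hle ?_
    have h4 := Subgroup.card_dvd_of_le hle
    have h5 : Subgroup.zpowers x < Subgroup.closure {x, y} :=
      lt_of_le_of_ne (Subgroup.zpowers_le.2 (Subgroup.subset_closure (by simp)))
        (fun h => hyx (h ▸ Subgroup.subset_closure (by simp)))
    have h6 := card_lt_of_lt h5
    rw [Nat.card_zpowers, hxo] at h6
    rw [hB4] at h4 ⊢
    have h7 := Nat.le_of_dvd (by norm_num) h4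
    interval_cases Nat.card (Subgroup.closure {x, y}) <;> simp_all
  have hy1 : y ≠ 1 := by rintro rfl; exact hyx (one_mem _)
  have hxy : x * y⁻¹ ≠ 1 := fun h => hyx (by rw [← mul_inv_eq_one.1 h]; exact Subgroup.mem_zpowers x)
  have hxyB := B.mul_mem hx (B.inv_mem hy)
  -- the Sylow 3-subgroup
  have hQc : Nat.card Q = 9 := by
    rw [Q.card_eq_multiplicity, Nat.card_prod, hA]
    have : (12 * 12).factorization 3 = 2 := by
      rw [show 12 * 12 = 3 ^ 2 * 16 by norm_num, Nat.factorization_mul (by norm_num) (by norm_num),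
        Nat.Prime.factorization_pow Nat.prime_three]
      simp [Nat.factorization_eq_zero_of_not_dvd]
    rw [this]; rfl
  have hle3 : ∀ K : Subgroup (alternatingGroup (Fin 4)), IsPGroup 3 K → Nat.card K ≤ 3 := by
    intro K hK
    obtain ⟨k, hk⟩ := IsPGroup.iff_card.1 hK
    have h4 := K.card_subgroup_dvd_card
    rw [hk, hA] at h4
    rw [hk]
    rcases k with _ | _ | k
    · norm_num
    · norm_num
    · exact absurd ((pow_dvd_pow 3 (by omega : 2 ≤ k + 1 + 1)).trans h4) (by norm_num)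
  set Q1 := (Q : Subgroup _).map (MonoidHom.fst (alternatingGroup (Fin 4)) (alternatingGroup (Fin 4)))
  set Q2 := (Q : Subgroup _).map (MonoidHom.snd (alternatingGroup (Fin 4)) (alternatingGroup (Fin 4)))
  have hQ1 := hle3 Q1 (Q.isPGroup'.map _)
  have hQ2 := hle3 Q2 (Q.isPGroup'.map _)
  have hQle : (Q : Subgroup _) ≤ Q1.prod Q2 := fun g hg => ⟨⟨g, hg, rfl⟩, ⟨g, hg, rfl⟩⟩
  have hpc : Nat.card (Q1.prod Q2) = Nat.card Q1 * Nat.card Q2 := by
    rw [Nat.card_congr (Subgroup.prodEquiv Q1 Q2).toEquiv, Nat.card_prod]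
  have hQeq : (Q : Subgroup _) = Q1.prod Q2 :=
    Subgroup.eq_of_le_of_card_ge hQle (by rw [hpc, hQc]; exact Nat.mul_le_mul hQ1 hQ2)
  have h9 := Subgroup.card_le_of_le hQle
  rw [hpc, hQc] at h9
  obtain ⟨a, ha⟩ := exists_prime_orderOf_dvd_card' (G := Q1) 3
    (by have : Nat.card Q1 = 3 := by nlinarith
        rw [this])
  obtain ⟨b, hb⟩ := exists_prime_orderOf_dvd_card' (G := Q2) 3
    (by have : Nat.card Q2 = 3 := by nlinarith
        rw [this])
  rw [← Subgroup.orderOf_coe] at ha hb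
  obtain ⟨a', ha', ha3, ha4, ha5⟩ := exists_rot Q1 a a.2 ha x.1 y.1 (hsq x hx).1 (hsq y hy).1
    (fun h => hx1' (hB2 x hx h)) (fun h => hy1 (hB2 y hy h))
    (fun h => hxy (hB2 _ hxyB (mul_inv_eq_one.2 h)))
  obtain ⟨b', hb', hb3, hb4, hb5⟩ := exists_rot Q2 b b.2 hb x.2 y.2 (hsq x hx).2 (hsq y hy).2
    (fun h => hx1' (hB1 x hx h)) (fun h => hy1 (hB1 y hy h))
    (fun h => hxy (hB1 _ hxyB (mul_inv_eq_one.2 h)))
  refine h3 (Subgroup.zpowers (a', b')) (Subgroup.zpowers_le.2 (hQeq ▸ ⟨ha', hb'⟩))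
    (by rw [Nat.card_zpowers, Prod.orderOf_mk, ha3, hb3]; rfl) (fun h => ?_) (fun h => ?_)
    (Subgroup.zpowers_le.2 (mem_normalizer_of_conj_mem (fun g hg => ?_)))
  · have : b' = 1 := (h ▸ Subgroup.mem_zpowers (a', b') : (a', b') ∈ _ ⊓ Subgroup.prod ⊤ ⊥).2.2
    simp [this] at hb3
  · have : a' = 1 := (h ▸ Subgroup.mem_zpowers (a', b') : (a', b') ∈ _ ⊓ Subgroup.prod ⊥ ⊤).2.1
    simp [this] at ha3
  · rw [← hBeq] at hg
    induction hg using Subgroup.closure_induction with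
    | mem g hg =>
      rcases hg with rfl | rfl
      · have : (a', b') * g * (a', b')⁻¹ = y := Prod.ext ha4 hb4
        rwa [this]
      · have : (a', b') * g * (a', b')⁻¹ = x * g := Prod.ext ha5 hb5
        rw [this]; exact B.mul_mem hx hy
    | one => rw [mul_one, mul_inv_cancel]; exact B.one_mem
    | mul g h _ _ hg hh => rw [← conj_mul]; exact B.mul_mem hg hh
    | inv g _ hg => rw [← conj_inv]; exact B.inv_mem hg

end Cfsg.Agent.S4406
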