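import Cfsg.Statements.S4407
import Cfsg.Agent.Solv.F2Frob

set_option autoImplicit false
open Cfsg

namespace Cfsg.Agent.S4407

open Cfsg.Lib.Solv Cfsg.Lib.Solv.F2S Module Cfsg.Lib.Trans DihedralGroup

/-- The four-subgroups of the dihedral group of order eight. -/
def klein (k : ZMod 4) : Subgroup (DihedralGroup 4) where
  carrier := {x | x = 1 ∨ x = r 2 ∨ x = sr k ∨ x = sr (k + 2)}
  one_mem' := Or.inl rfl
  mul_mem' {x y} := by
    simp only [Set.mem_ofPred_eq]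
    revert k x y
    decide
  inv_mem' {x} := by
    simp only [Set.mem_ofPred_eq]
    revert k x
    decide

theorem mem_klein {k : ZMod 4} {x : DihedralGroup 4} :
    x ∈ klein k ↔ x = 1 ∨ x = r 2 ∨ x = sr k ∨ x = sr (k + 2) := Iff.rfl

instance (k : ZMod 4) : DecidablePred (· ∈ klein k) := fun _ => decidable_of_iff _ mem_klein.symm

theorem card_klein (k : ZMod 4) : Nat.card (klein k) = 4 := by
  rw [Nat.card_eq_fintype_card]
  revert k
  decide

theorem klein_sq {k : ZMod 4} {x : DihedralGroup 4} (h : x ∈ klein k) : x ^ 2 = 1 := by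
  revert k x
  decide

theorem le_klein (k : ZMod 4) {B : Subgroup (DihedralGroup 4)} (h : ∀ x ∈ B, x ^ 2 = 1) :
    B ≤ klein k ∨ B ≤ klein (k + 1) := by
  have key : ∀ (k : ZMod 4) (x y : DihedralGroup 4), x ^ 2 = 1 → y ^ 2 = 1 → (x * y) ^ 2 = 1 →
      x ∉ klein k → y ∈ klein (k + 1) := by decide
  by_cases h1 : B ≤ klein k
  · exact Or.inl h1
  · obtain ⟨x, hx, hn⟩ := SetLike.not_le_iff_exists.1 h1
    exact Or.inr fun y hy => key k x y (h x hx) (h y hy) (h _ (mul_mem hx hy)) hn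

/-- The stabilizer of a subspace. -/
def stab {G : Type*} [Group G] [Finite G] {V : Type*} [AddCommGroup V] [Module (ZMod 2) V]
    (ρ : Representation (ZMod 2) G V) (N : Submodule (ZMod 2) V) : Subgroup G where
  carrier := {g | ∀ m ∈ N, ρ g m ∈ N}
  one_mem' m hm := by simpa using hm
  mul_mem' {a b} ha hb m hm := by rw [mul_app]; exact ha _ (hb m hm)
  inv_mem' {a} ha := by
    obtain ⟨n, hn⟩ := mem_powers_iff_mem_zpowers.2 (inv_mem (Subgroup.mem_zpowers a))
    rw [← hn]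
    clear hn
    induction n with
    | zero => intro m hm; simpa using hm
    | succ n ih => intro m hm; simp only [pow_succ, mul_app]; exact ih _ (ha m hm)

/-- Let S be a finite group with a normal elementary abelian subgroup A of order 9 that is self-centralizing (C_S(A) = A), and a dihedral subgroup X of order 8 with S = AX. Let M be a finite-dimensional module for S over the field with two elements that is faithful and irreducible. Then M has 16 elements, and X contains exactly one subgroup B of order 4 and exponent 2 whose fixed points on M form a subspace with exactly 2 elements (equivalently, M is free of rank one over the group algebra of B). -/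
theorem result {S : Type*} [Group S] [Finite S]
    (A : Subgroup S) [A.Normal] (hA : Cfsg.IsElementaryAbelian 3 A) (hA9 : Nat.card ↥A = 9)
    (hAC : Subgroup.centralizer (A : Set S) = A) (X : Subgroup S) (hX : Nonempty (↥X ≃* DihedralGroup 4)) (hAX : A ⊔ X = ⊤)
    {M : Type*} [AddCommGroup M] [Module (ZMod 2) M] [Finite M] (ρ : Representation (ZMod 2) S M)
    (hfaith : Function.Injective ρ)
    (hirr : ∀ N : Submodule (ZMod 2) M, (∀ s : S, ∀ m ∈ N, ρ s m ∈ N) → N = ⊥ ∨ N = ⊤) (hM : Nontrivial M) :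
    Nat.card M = 16 ∧
      ∃! B : Subgroup S, B ≤ X ∧ Nat.card ↥B = 4 ∧ (∀ b ∈ B, b ^ 2 = 1) ∧
        Nat.card {m : M // ∀ b ∈ B, ρ b m = m} = 2 := by
  have h33 : ∀ c : ZMod 3, c ^ 2 + 1 ≠ 0 := by decide
  have : Fact (Nat.Prime 3) := ⟨Nat.prime_three⟩
  obtain ⟨e⟩ := hX
  let φ : DihedralGroup 4 →* S := X.subtype.comp e.symm.toMonoidHom
  have hφ : Function.Injective φ := X.subtype_injective.comp e.symm.injective
  have hφX : ∀ x, x ∈ X ↔ ∃ d, φ d = x := fun x =>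
    ⟨fun hx => ⟨e ⟨x, hx⟩, by simp [φ]⟩, fun ⟨d, hd⟩ => hd ▸ (e.symm d).2⟩
  have hc : ∀ a ∈ A, ∀ b ∈ A, a * b = b * a := fun a ha b hb =>
    congrArg Subtype.val (hA.1.is_comm.comm ⟨a, ha⟩ ⟨b, hb⟩)
  have hN : A.Normal := inferInstance
  have ho : ∀ a ∈ A, a ≠ 1 → orderOf a = 3 := fun a ha h => orderOf_eq_prime (hA.2 a ha) h
  set R := φ (r 1) with hR
  set z := φ (r 2) with hz
  have hRR : R * R = z := by rw [← map_mul]; rfl
  have hzz : z * z = 1 := by rw [← map_mul, ← map_one φ]; rfl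
  have hzR : R⁻¹ = R * z := by rw [← map_mul, ← map_inv]; rfl
  have hnorm : ∀ d ∈ A, d ≠ 1 → z * d * z⁻¹ = d⁻¹ → R * d * R⁻¹ ∉ Subgroup.zpowers d := by
    intro d hd h1 h2 h3
    obtain ⟨k, hk⟩ := mem_powers_iff_mem_zpowers.2 h3
    simp only at hk
    have h4 : d ^ (k ^ 2 + 1) = 1 := by
      rw [pow_succ, pow_two, pow_mul, hk, conj_pow, hk, ← eq_inv_iff_mul_eq_one, ← h2, ← hRR]
      group
    have h5 : ((k ^ 2 + 1 : ℕ) : ZMod 3) = 0 :=
      (ZMod.natCast_eq_zero_iff _ _).2 (ho d hd h1 ▸ orderOf_dvd_of_pow_eq_one h4)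
    push_cast at h5
    exact h33 _ h5
  have hinv : ∀ a ∈ A, z * a * z⁻¹ = a⁻¹ := by
    let D : Subgroup S :=
      { carrier := {d | d ∈ A ∧ z * d * z⁻¹ = d⁻¹}
        one_mem' := ⟨one_mem A, by simp⟩
        mul_mem' := fun {x y} hx hy => ⟨mul_mem hx.1 hy.1, by
          rw [hc x hx.1 y hy.1, mul_inv_rev, ← hx.2, ← hy.2, ← hc x hx.1 y hy.1]; group⟩
        inv_mem' := fun {x} hx => ⟨inv_mem hx.1, by rw [← congrArg Inv.inv hx.2]; group⟩ }
    have hDA : D ≤ A := fun d hd => hd.1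
    obtain ⟨a, ha, hne⟩ : ∃ a ∈ A, a * z ≠ z * a := by
      by_contra h
      push Not at h
      have h1 : z ∈ A := hAC ▸ h
      have h2 : z = 1 := by
        have h3 := hA.2 z h1
        rwa [pow_succ, pow_two, hzz, one_mul] at h3
      exact absurd (hφ (h2.trans (map_one φ).symm)) (by decide)
    have hz' : z⁻¹ = z := inv_eq_of_mul_eq_one_right hzz
    have h1 : a * (z * a⁻¹ * z⁻¹) ∈ D := ⟨mul_mem ha (hN.conj_mem _ (inv_mem ha) z), by
      rw [hz', mul_inv_rev, mul_inv_rev, mul_inv_rev, hz', inv_inv]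
      calc z * (a * (z * a⁻¹ * z)) * z = z * a * z * a⁻¹ * (z * z) := by simp only [mul_assoc]
        _ = _ := by rw [hzz]; simp only [mul_assoc, mul_one]⟩
    have h2 : a * (z * a⁻¹ * z⁻¹) ≠ 1 := fun h => hne (by
      calc a * z = a * (z * a⁻¹ * z⁻¹) * (z * a) := by group
        _ = z * a := by rw [h, one_mul])
    generalize a * (z * a⁻¹ * z⁻¹) = d at h1 h2
    have h3 : Nat.card D ∣ 3 ^ 2 := (Subgroup.card_dvd_of_le hDA).trans hA9.dvd
    obtain ⟨k, hk, h4⟩ := (Nat.dvd_prime_pow Nat.prime_three).1 h3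
    rcases (by omega : k ≤ 1 ∨ k = 2) with h5 | rfl
    · refine absurd ?_ (hnorm d h1.1 h2 h1.2)
      rw [← (le_zpowers_of_card_le (IsPGroup.of_card h4)
        (h4.le.trans (Nat.pow_le_pow_right (by norm_num) h5)) h1 h2).1]
      refine ⟨hN.conj_mem _ h1.1 R, ?_⟩
      calc z * (R * d * R⁻¹) * z⁻¹ = R * (z * d * z⁻¹) * R⁻¹ := by rw [← hRR]; group
        _ = _ := by rw [h1.2]; group
    · exact fun a ha => (Subgroup.eq_of_le_of_card_ge hDA (by rw [h4, hA9]; rfl) ▸ ha : a ∈ D).2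
  have hA1 : A ≠ ⊥ := fun h => by rw [h, Subgroup.card_bot] at hA9; omega
  have h0 : fix ρ A = ⊥ := (hirr _ fun s m hm =>
    apply_mem_fix (by rw [Subgroup.normalizer_eq_top]; trivial) hm).resolve_right fun h =>
      hA1 (eq_bot_iff.2 fun x hx => hfaith ((LinearMap.ext fun v =>
        (h ▸ Submodule.mem_top : v ∈ fix ρ A) x hx).trans (map_one ρ).symm))
  obtain ⟨A₁, hA₁, hf₁⟩ := exists_hp (ρ := ρ) (p := 3) (by norm_num) hc hA.2 (Or.inr hA9)
  have hc₁ : Nat.card A₁ = 3 := by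
    have h1 := (A₁.subgroupOf A).card_mul_index
    rw [Nat.card_congr (Subgroup.subgroupOfEquivOfLe hA₁.1).toEquiv, hA9,
      show (A₁.subgroupOf A).index = 3 from hA₁.2] at h1
    omega
  obtain ⟨a, rfl⟩ := (Subgroup.isCyclic_iff_exists_zpowers_eq_top A₁).1 (isCyclic_of_prime_card hc₁)
  have ha : a ∈ A := hA₁.1 (Subgroup.mem_zpowers a)
  have ha1 : a ≠ 1 := by rintro rfl; simp at hc₁
  set b := R * a * R⁻¹ with hb
  have hbA : b ∈ A := hN.conj_mem _ ha R
  have hab : Subgroup.zpowers a ⊔ Subgroup.zpowers b = A := hA₁.sup_eq Nat.prime_three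
    (Subgroup.zpowers_le.2 hbA) (by rw [Subgroup.zpowers_le]; exact hnorm a ha ha1 (hinv a ha))
  have hcab : Commute a b := hc a ha b hbA
  have hRa : R⁻¹ * a * R = b⁻¹ := by
    calc R⁻¹ * a * R = R * (z * a * z⁻¹) * R⁻¹ := by
          rw [← mul_assoc, ← mul_assoc, ← hzR, mul_assoc _ z⁻¹, ← mul_inv_rev, ← hzR, inv_inv]
      _ = b⁻¹ := by rw [hinv a ha, hb]; group
  have hsR : ∀ k, φ (sr k) * R = R⁻¹ * φ (sr k) := fun k => by
    rw [← map_mul, ← map_inv, ← map_mul]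
    exact congrArg φ (by revert k; decide)
  have hss : ∀ k, φ (sr k) * φ (sr k) = 1 := fun k => by rw [← map_mul, sr_mul_self, map_one]
  have hsz : ∀ k, φ (sr k) * z = φ (sr (k + 2)) := fun k => by rw [← map_mul]; rfl
  have hsR' : ∀ k, φ (sr k) * R = φ (sr (k + 1)) := fun k => by rw [← map_mul]; rfl
  have ha2 : ∀ a ∈ A, a ^ 2 = a⁻¹ := fun a ha =>
    eq_inv_of_mul_eq_one_left (by rw [← pow_succ, hA.2 a ha])
  obtain ⟨k, hk⟩ : ∃ k, φ (sr k) * a * (φ (sr k))⁻¹ = a⁻¹ := by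
    suffices h : ∃ k, φ (sr k) * a * (φ (sr k))⁻¹ = a⁻¹ ∨ φ (sr k) * a * (φ (sr k))⁻¹ = a by
      obtain ⟨k, h | h⟩ := h
      · exact ⟨k, h⟩
      · refine ⟨k + 2, ?_⟩
        rw [← hsz]
        calc φ (sr k) * z * a * (φ (sr k) * z)⁻¹ = φ (sr k) * (z * a * z⁻¹) * (φ (sr k))⁻¹ := by
              group
          _ = (φ (sr k) * a * (φ (sr k))⁻¹)⁻¹ := by rw [hinv a ha]; group
          _ = a⁻¹ := by rw [h]
    set s := φ (sr 0) with hs
    have h1 : s * a * s⁻¹ ∈ ((Subgroup.zpowers a ⊔ Subgroup.zpowers b : Subgroup S) : Set S) :=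
      hab ▸ hN.conj_mem _ ha s
    rw [Subgroup.coe_mul_of_left_le_normalizer_right _ _
      (hA₁.1.trans (le_normalizer_of_comm hc (Subgroup.zpowers_le.2 hbA)))] at h1
    obtain ⟨_, h2, _, h3, h4⟩ := h1
    obtain ⟨i, rfl⟩ := mem_powers_iff_mem_zpowers.2 h2
    obtain ⟨j, rfl⟩ := mem_powers_iff_mem_zpowers.2 h3
    simp only at h4
    have hb1 : b ≠ 1 := fun h => ha1 (by rw [hb, conj_eq_one_iff] at h; exact h)
    rw [← pow_mod_orderOf a, ← pow_mod_orderOf b, ho a ha ha1, ho b hbA hb1] at h4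
    have hi := Nat.mod_lt i (by norm_num : 3 > 0)
    have hj := Nat.mod_lt j (by norm_num : 3 > 0)
    generalize i % 3 = i at h4 hi
    generalize j % 3 = j at h4 hj
    have h5 : s * b * s⁻¹ = b⁻¹ ^ i * a ^ j := by
      calc s * b * s⁻¹ = (s * R) * a * (s * R)⁻¹ := by rw [hb]; group
        _ = R⁻¹ * (s * a * s⁻¹) * R := by rw [hs, hsR]; group
        _ = (R⁻¹ * a * R⁻¹⁻¹) ^ i * (R⁻¹ * b * R⁻¹⁻¹) ^ j := by
          rw [← h4, conj_pow (a := R⁻¹), conj_pow (a := R⁻¹)]; group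
        _ = _ := by rw [inv_inv, hRa, show R⁻¹ * b * R = a by rw [hb]; group]
    have h6 : a ^ (i * i + j * j) = a ^ 1 := by
      calc a ^ (i * i + j * j) = (a ^ i * b ^ j) ^ i * (b⁻¹ ^ i * a ^ j) ^ j := by
            rw [(hcab.pow_pow i j).mul_pow, (hcab.symm.inv_left.pow_pow i j).mul_pow]; group
        _ = s * (s * a * s⁻¹) * s⁻¹ := by rw [h4, ← h5, conj_pow, conj_pow, ← h4]; group
        _ = (s * s) * a * (s * s)⁻¹ := by group
        _ = a ^ 1 := by rw [hs, hss]; group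
    rw [pow_eq_pow_iff_modEq, ho a ha ha1] at h6
    have h7 : φ (sr 1) * a * (φ (sr 1))⁻¹ = R⁻¹ * (s * a * s⁻¹) * R := by
      rw [show φ (sr 1) = s * R from (hsR' 0).symm, hs, hsR]; group
    interval_cases i <;> interval_cases j <;> try exact absurd h6 (by decide)
    · exact ⟨1, Or.inr (by rw [h7, ← h4, hb]; group)⟩
    · exact ⟨1, Or.inl (by rw [h7, ← h4, ha2 b hbA, hb]; group)⟩
    · exact ⟨0, Or.inr (by rw [← h4]; group)⟩
    · exact ⟨0, Or.inl (by rw [← h4, ha2 a ha]; group)⟩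
  set t := φ (sr k) with ht
  have htb : t * b = b * t := by
    calc t * b = (t * R) * a * (t * R)⁻¹ * t := by rw [hb]; group
      _ = R⁻¹ * (t * a * t⁻¹) * R * t := by rw [ht, hsR]; group
      _ = (R⁻¹ * a * R)⁻¹ * t := by rw [hk]; group
      _ = b * t := by rw [hRa, inv_inv]
  have hfixK : ∀ j (m : M), (∀ x ∈ (klein j).map φ, ρ x m = m) ↔ ρ z m = m ∧ ρ (φ (sr j)) m = m :=
    fun j m => ⟨fun h => ⟨h _ ⟨_, Or.inr (Or.inl rfl), rfl⟩, h _ ⟨_, Or.inr (Or.inr (Or.inl rfl)), rfl⟩⟩,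
      fun h => by
        rintro _ ⟨x, rfl | rfl | rfl | rfl, rfl⟩
        · rw [map_one, map_one, End.one_apply]
        · exact h.1
        · exact h.2
        · rw [← hsz, mul_app, h.1, h.2]⟩
  have hcK : ∀ j, Nat.card ((klein j).map φ) = 4 := fun j => by
    rw [Subgroup.card_map_of_injective hφ, card_klein]
  obtain ⟨u, ⟨hu1, hu2⟩, hu0⟩ := exists_mem_fix (T := (klein k).map φ)
    (IsPGroup.of_card (n := 2) (hcK k)) hf₁ (by
      have h1 : ∀ g : S, g * a * g⁻¹ = a⁻¹ → g ∈ Subgroup.normalizer (Subgroup.zpowers a : Set S) :=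
        fun g hg => cj_eq_self_iff.1 (by rw [cj_zpowers, hg, Subgroup.zpowers_inv])
      rintro _ ⟨x, rfl | rfl | rfl | rfl, rfl⟩ w hw
      · rwa [map_one, map_one, End.one_apply]
      · exact apply_mem_fix (h1 _ (hinv a ha)) hw
      · exact apply_mem_fix (h1 _ hk) hw
      · rw [← hsz]
        exact apply_mem_fix (mul_mem (h1 _ hk) (h1 _ (hinv a ha))) hw)
  obtain ⟨hzu, htu⟩ := (hfixK k u).1 hu2
  have hau : ρ a u = u := hu1 a (Subgroup.mem_zpowers a)
  have hfa : ∀ v, ρ a v = v → ρ b v = v → v = 0 := fun v h1 h2 => by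
    have := mem_fix_sup (mem_fix_zpowers h1) (mem_fix_zpowers h2)
    rwa [hab, h0, Submodule.mem_bot] at this
  have a2 : ρ a (ρ b u) = ρ b u := by rw [← mul_app, hcab.eq, mul_app, hau]
  have b2 : ρ b (ρ b u) = u + ρ b u := by
    have h1 : ρ b (ρ b (ρ b u)) = u := by
      rw [← mul_app, ← mul_app, ← pow_two, ← pow_succ, hA.2 b hbA, map_one, End.one_apply]
    have h2 := hfa (ρ b (ρ b u) + (u + ρ b u))
      (by rw [map_add, map_add, hau, a2, ← mul_app, hcab.eq, mul_app, a2])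
      (by rw [map_add, map_add, h1]; abel)
    exact (eq_neg_of_add_eq_zero_left h2).trans (neg_eq_self _)
  have bi : ρ b⁻¹ u = u + ρ b u := by rw [← ha2 b hbA, pow_two, mul_app, b2]
  have z2 : ρ z (ρ b u) = u + ρ b u := by
    rw [← mul_app, show z * b = b⁻¹ * z by rw [← hinv b hbA]; group, mul_app, hzu, bi]
  have t2 : ρ t (ρ b u) = ρ b u := by rw [← mul_app, htb, mul_app, htu]
  have aR : ∀ v, ρ a (ρ R v) = ρ R (ρ b⁻¹ v) := fun v => by
    rw [← mul_app, ← mul_app, ← hRa]; congr 2; group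
  have bR : ∀ v, ρ b (ρ R v) = ρ R (ρ a v) := fun v => by
    rw [← mul_app, ← mul_app, hb]; congr 2; group
  have RR : ∀ v, ρ R (ρ R v) = ρ z v := fun v => by rw [← mul_app, hRR]
  have zR : ∀ v, ρ z (ρ R v) = ρ R (ρ z v) := fun v => by rw [← RR, ← RR]
  have tR : ∀ v, ρ t (ρ R v) = ρ R (ρ z (ρ t v)) := fun v => by
    rw [← mul_app, hsR, hzR, mul_app, mul_app]
  have hli2 : ∀ c d : ZMod 2, c • u + d • ρ b u = 0 → c = 0 ∧ d = 0 := by
    intro c d h
    have hs : ∀ s : ZMod 2, s = 0 ∨ s = 1 := by decide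
    rcases hs c with rfl | rfl <;> rcases hs d with rfl | rfl
    · exact ⟨rfl, rfl⟩
    · rw [zero_smul, one_smul, zero_add] at h
      exact absurd (apply_injective b (h.trans (map_zero _).symm)) hu0
    · rw [zero_smul, one_smul, add_zero] at h
      exact absurd h hu0
    · rw [one_smul, one_smul] at h
      exact absurd (hfa u hau ((eq_neg_of_add_eq_zero_right h).trans (neg_eq_self u))) hu0
  have hli : ∀ c₁ c₂ c₃ c₄ : ZMod 2, c₁ • u + c₂ • ρ b u + c₃ • ρ R u + c₄ • ρ R (ρ b u) = 0 →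
      (c₁ = 0 ∧ c₂ = 0) ∧ c₃ = 0 ∧ c₄ = 0 := by
    intro c₁ c₂ c₃ c₄ h
    have h1 : c₁ • u + c₂ • ρ b u = ρ R (c₃ • u + c₄ • ρ b u) := by
      rw [map_add, map_smul, map_smul, ← neg_eq_self (c₃ • ρ R u + c₄ • ρ R (ρ b u))]
      linear_combination (norm := module) h
    have h2 : ρ a (c₁ • u + c₂ • ρ b u) = c₁ • u + c₂ • ρ b u := by
      rw [map_add, map_smul, map_smul, hau, a2]
    have h3 := hfa _ h2 (by rw [h1, bR, map_add (ρ a), map_smul, map_smul, hau, a2])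
    exact ⟨hli2 _ _ h3, hli2 _ _ (apply_injective R (h1.symm.trans (h3.trans (map_zero _).symm)))⟩
  let v : Fin 4 → M := ![u, ρ b u, ρ R u, ρ R (ρ b u)]
  have hv : LinearIndependent (ZMod 2) v := Fintype.linearIndependent_iff.2 fun g hg i => by
    rw [Fin.sum_univ_four] at hg
    obtain ⟨⟨h1, h2⟩, h3, h4⟩ := hli _ _ _ _ hg
    fin_cases i
    exacts [h1, h2, h3, h4]
  set N := Submodule.span (ZMod 2) (Set.range v)
  have n1 : u ∈ N := Submodule.subset_span ⟨0, rfl⟩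
  have n2 : ρ b u ∈ N := Submodule.subset_span ⟨1, rfl⟩
  have n3 : ρ R u ∈ N := Submodule.subset_span ⟨2, rfl⟩
  have n4 : ρ R (ρ b u) ∈ N := Submodule.subset_span ⟨3, rfl⟩
  have hst : ∀ g : S, ρ g u ∈ N → ρ g (ρ b u) ∈ N → ρ g (ρ R u) ∈ N → ρ g (ρ R (ρ b u)) ∈ N →
      g ∈ stab ρ N := fun g h1 h2 h3 h4 => by
    refine (Submodule.span_le.2 ?_ : N ≤ N.comap (ρ g))
    rintro _ ⟨i, rfl⟩
    fin_cases i
    exacts [h1, h2, h3, h4]
  have hRN : R ∈ stab ρ N := hst R n3 n4 (by rwa [RR, hzu]) (by rw [RR, z2]; exact add_mem n1 n2)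
  have htN : t ∈ stab ρ N := hst t (by rwa [htu]) (by rwa [t2]) (by rwa [tR, htu, hzu])
    (by rw [tR, t2, z2, map_add]; exact add_mem n3 n4)
  have hNt : N = ⊤ := by
    refine (hirr N fun s => ?_).resolve_left fun h => hu0 (by rwa [h, Submodule.mem_bot] at n1)
    refine (show (⊤ : Subgroup S) ≤ stab ρ N from ?_) (Subgroup.mem_top s)
    rw [← hAX, ← hab]
    refine sup_le (sup_le (Subgroup.zpowers_le.2 ?_) (Subgroup.zpowers_le.2 ?_)) fun x hx => ?_
    · exact hst a (by rwa [hau]) (by rwa [a2]) (by rw [aR, bi, map_add]; exact add_mem n3 n4)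
        (by rwa [aR, inv_apply_apply])
    · exact hst b n2 (by rw [b2]; exact add_mem n1 n2) (by rwa [bR, hau]) (by rwa [bR, a2])
    · obtain ⟨d, rfl⟩ := (hφX x).1 hx
      obtain ⟨i, rfl | rfl⟩ := (by decide : ∀ k : ZMod 4, ∀ d : DihedralGroup 4, ∃ i : Fin 4,
        d = r 1 ^ (i : ℕ) ∨ d = sr k * r 1 ^ (i : ℕ)) k d
      · rw [map_pow]; exact pow_mem hRN _
      · rw [map_mul, map_pow]; exact mul_mem htN (pow_mem hRN _)
  refine ⟨?_, (klein (k + 1)).map φ, ⟨?_, hcK _, ?_, ?_⟩, ?_⟩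
  · rw [Module.natCard_eq_pow_finrank (K := ZMod 2), ← finrank_top, ← hNt, finrank_span_eq_card hv]
    simp
  · rintro _ ⟨d, -, rfl⟩
    exact (hφX _).2 ⟨d, rfl⟩
  · rintro _ ⟨d, hd, rfl⟩
    rw [← map_pow, klein_sq hd, map_one]
  · rw [Nat.card_eq_two_iff' ⟨0, fun _ _ => map_zero _⟩]
    refine ⟨⟨u + ρ R u, (hfixK _ _).2 ⟨by rw [map_add, zR, hzu], ?_⟩⟩, fun h => ?_, ?_⟩
    · rw [← hsR', mul_app, map_add, RR, hzu, map_add, tR, htu, hzu, add_comm]
    · have h1 : u + ρ R u = 0 := congrArg Subtype.val h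
      exact one_ne_zero (hli 1 0 1 0 (by simpa using h1)).1.1
    · rintro ⟨m, hm⟩ hm0
      obtain ⟨h1, h2⟩ := (hfixK _ _).1 hm
      obtain ⟨c, rfl⟩ := (Submodule.mem_span_range_iff_exists_fun (ZMod 2)).1
        (hNt ▸ Submodule.mem_top : m ∈ N)
      apply Subtype.ext
      have h3 : ∑ i, c i • v i ≠ 0 := fun h => hm0 (Subtype.ext h)
      change ∑ i, c i • v i = u + ρ R u
      have h4 : ∑ i, c i • v i = c 0 • u + c 1 • ρ b u + c 2 • ρ R u + c 3 • ρ R (ρ b u) :=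
        Fin.sum_univ_four _
      rw [h4] at h1 h2 h3 ⊢
      simp only [map_add, map_smul, zR, hzu, z2] at h1
      obtain ⟨⟨h5, -⟩, h6, -⟩ := hli (c 1) 0 (c 3) 0 (by linear_combination (norm := module) h1)
      rw [h5, h6, zero_smul, zero_smul, add_zero, add_zero] at h2 h3 ⊢
      rw [← hsR', ← ht, mul_app] at h2
      simp only [map_add, map_smul, RR, hzu, tR, show ρ t u = u from htu] at h2
      obtain ⟨⟨h7, -⟩, -⟩ := hli (c 2 - c 0) 0 (c 0 - c 2) 0
        (by linear_combination (norm := module) h2)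
      rw [sub_eq_zero.1 h7] at h3 ⊢
      rcases (by decide : ∀ s : ZMod 2, s = 0 ∨ s = 1) (c 0) with h | h
      · rw [h, zero_smul, zero_smul, add_zero] at h3
        exact absurd rfl h3
      · rw [h, one_smul, one_smul]
  · rintro B ⟨hBX, hB4, hB2, hB⟩
    have h1 : ∀ x ∈ B.comap φ, x ^ 2 = 1 := fun x hx =>
      hφ (by rw [map_pow, hB2 _ hx, map_one])
    have h2 : (B.comap φ).map φ = B := Subgroup.map_comap_eq_self fun x hx => (hφX x).1 (hBX hx)
    have h3 : ∀ j, B.comap φ ≤ klein j → B = (klein j).map φ := fun j h =>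
      Subgroup.eq_of_le_of_card_ge (h2 ▸ Subgroup.map_mono h) (by rw [hcK, hB4])
    rcases le_klein k h1 with h | h
    · exfalso
      rw [h3 k h, Nat.card_eq_two_iff' ⟨0, fun _ _ => map_zero _⟩] at hB
      have h4 := hB.unique (y₁ := ⟨u, hu2⟩)
        (y₂ := ⟨ρ R u, (hfixK _ _).2 ⟨by rw [zR, hzu], by rw [tR, htu, hzu]⟩⟩)
        (fun h => hu0 (congrArg Subtype.val h))
        (fun h => hu0 (apply_injective R ((congrArg Subtype.val h).trans (map_zero _).symm)))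
      have h5 : u = ρ R u := congrArg Subtype.val h4
      exact one_ne_zero (hli 1 0 1 0 (by simpa [← h5] using add_self_eq u)).1.1
    · exact h3 _ h

end Cfsg.Agent.S4407
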