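import Cfsg.Statements.S4408
import Cfsg.Agent.Solv.ThompsonDihedral
import Cfsg.Agent.Solv.Fitting

set_option autoImplicit false
open Cfsg

namespace Cfsg.Agent.S4408

/-- Let S be a finite solvable group whose Fitting subgroup F(S) has odd order, and let I be an elementary abelian 2-subgroup of S of order 2ⁿ with n ≥ 1. Then F(S) contains subgroups A₁, …, Aₙ of prime order, each normalized by I, pairwise commuting and generating a subgroup A of order |A₁|⋯|Aₙ| (their internal direct product), such that no non-identity element of I centralizes A. -/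
theorem result {S : Type*} [Group S] [Finite S]
    [Group.IsSolvable S] (hF : Odd (Nat.card ↥(Cfsg.fittingSubgroup S)))
    (I : Subgroup S) (hI : Cfsg.IsElementaryAbelian 2 I) (n : ℕ) (hn : 1 ≤ n) (hIn : Nat.card ↥I = 2 ^ n) :
    ∃ f : Fin n → Subgroup S, (∀ i, (Nat.card ↥(f i)).Prime) ∧ (∀ i, f i ≤ Cfsg.fittingSubgroup S) ∧
      (∀ i, I ≤ Subgroup.normalizer ((f i) : Set S)) ∧ (∀ i j, i ≠ j → ∀ a ∈ f i, ∀ b ∈ f j, a * b = b * a) ∧
      Nat.card ↥(⨆ i, f i) = ∏ i, Nat.card ↥(f i) ∧ I ⊓ Subgroup.centralizer ((⨆ i, f i : Subgroup S) : Set S) = ⊥ := by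
  open Subgroup Cfsg.Lib.Solv in
  have := hI.1
  have hf : I ⊓ centralizer (Cfsg.fittingSubgroup S : Set S) = ⊥ := by
    rw [eq_bot_iff, ← inf_eq_bot_of_coprime_card (H := I) (K := Cfsg.fittingSubgroup S)
      (hIn ▸ Nat.Coprime.pow_left _ (Nat.coprime_two_left.mpr hF))]
    exact inf_le_inf_left _ (centralizer_fitting_le S)
  obtain ⟨x, b, h1, h2, -, -, h5, h6, -⟩ := Coprime.exists_dihedral_family hI.2 n
    (K := Cfsg.fittingSubgroup S) inferInstance hF le_normalizer_of_normal le_rfl hIn hf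
  refine ⟨fun i => zpowers (x i), fun i => by simpa using (h1 i).2.1,
    fun i => zpowers_le.mpr (h1 i).1, fun i a ha => mem_normalizer_of_conj_mem ?_, ?_,
    by simpa using h5, ?_⟩
  · rintro _ ⟨n, rfl⟩
    simp only [← conj_zpow]
    rcases (h1 i).2.2.2.1 a ha with h | h <;> rw [h]
    · exact zpow_mem (mem_zpowers _) _
    · exact zpow_mem (inv_mem (mem_zpowers _)) _
  · rintro i j - _ ⟨m, rfl⟩ _ ⟨n, rfl⟩
    exact (show Commute _ _ from h2 i j).zpow_zpow m n
  · rw [eq_bot_iff]
    rintro c ⟨hc, hc'⟩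
    exact h6 c hc fun i => (hc' _ (le_iSup (fun i => zpowers (x i)) i (mem_zpowers _))).symm

end Cfsg.Agent.S4408
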