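import Cfsg.Statements.S4410
import Cfsg.Agent.Solv.F2Small
import Cfsg.Agent.Solv.NilpotentHall
import Cfsg.Agent.Solv.Fitting
import Cfsg.Agent.Solv.Cores
import Cfsg.Agent.S0009

set_option autoImplicit false
open Cfsg

namespace Cfsg.Agent.S4410

open Cfsg.Lib.Solv Cfsg.Lib.Solv.F2S Module

/-- Let V be a finite-dimensional vector space over the field with two elements and S a solvable group of linear automorphisms of V with O₂(S) = 1. If P ∈ S has order 4 and (P − 1)³ = 0 on V, then the image of (P − 1)² has at least 4 elements; equivalently, in the decomposition of V into indecomposable modules for the cyclic group generated by P, at least two summands have dimension 3. -/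
theorem result
    {V : Type*} [AddCommGroup V] [Module (ZMod 2) V] [Finite V]
    (S : Subgroup (V ≃ₗ[ZMod 2] V)) (hS : Group.IsSolvable ↥S) (hO2 : Cfsg.pCore 2 ↥S = ⊥)
    (P : V ≃ₗ[ZMod 2] V) (hPS : P ∈ S) (hP4 : orderOf P = 4)
    (hcub : ((P : V →ₗ[ZMod 2] V) - LinearMap.id) ^ 3 = 0) :
    4 ≤ Nat.card ↥(LinearMap.range (((P : V →ₗ[ZMod 2] V) - LinearMap.id) ^ 2)) := by
  have : Finite (V ≃ₗ[ZMod 2] V) := Finite.of_injective (fun e : V ≃ₗ[ZMod 2] V => (e : V → V))
    DFunLike.coe_injective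
  let ρ : Representation (ZMod 2) S V :=
    { toFun := fun s => ((s : V ≃ₗ[ZMod 2] V) : V →ₗ[ZMod 2] V)
      map_one' := rfl
      map_mul' := fun _ _ => rfl }
  have hρ : Function.Injective ρ := fun a b h => Subtype.ext (LinearEquiv.toLinearMap_injective h)
  let g : S := ⟨P, hPS⟩
  have hg : orderOf g = 4 := by rw [← Subgroup.orderOf_coe]; exact hP4
  have hR : LinearMap.range (((P : V →ₗ[ZMod 2] V) - LinearMap.id) ^ 2) = cm ρ (g ^ 2) := by
    unfold cm
    congr 1
    ext v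
    change P (P v - v) - (P v - v) = ρ (g ^ 2) v - v
    rw [pow_two, mul_app]
    change _ = P (P v) - v
    simp only [sub_eq_add, map_add]
    linear_combination (norm := module) add_self_eq (P v)
  rw [hR]
  by_contra hlt
  have h1 : finrank (ZMod 2) (cm ρ (g ^ 2)) ≤ 1 := by
    by_contra h
    rw [Module.natCard_eq_pow_finrank (K := ZMod 2), Nat.card_zmod] at hlt
    exact hlt (Nat.pow_le_pow_right (n := 2) (by norm_num) (show 2 ≤ _ by omega))
  set z := g ^ 2 with hz
  have hz2 : orderOf z = 2 := by rw [hz, orderOf_pow, hg]; rfl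
  have hzz : z * z = 1 := by have := pow_orderOf_eq_one z; rwa [hz2, pow_two] at this
  -- a prime `p` such that `z` does not centralize `O_p(S)`
  obtain ⟨p, f, hf, hne⟩ : ∃ p : Nat.Primes, ∃ f ∈ pCore p S, f * z ≠ z * f := by
    by_contra h
    push Not at h
    have h2 : z ∈ Subgroup.centralizer (fittingSubgroup S : Set S) := by
      rw [← Subgroup.zpowers_le, Subgroup.le_centralizer_iff, Cfsg.Agent.S0009.result]
      refine iSup_le fun p f hf => Subgroup.mem_centralizer_iff.2 fun y hy => ?_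
      obtain ⟨k, rfl⟩ := Subgroup.mem_zpowers_iff.1 hy
      exact (Commute.zpow_left (h p f hf).symm k : _)
    have h3 : Subgroup.zpowers z ≤ fittingSubgroup S :=
      Subgroup.zpowers_le.2 (centralizer_fitting_le S h2)
    have : Fact (Nat.Prime 2) := ⟨Nat.prime_two⟩
    have h4 : Subgroup.zpowers z ≤ pCore 2 S :=
      le_pCore_of_le_fitting (IsPGroup.of_card (n := 1) (by simp [hz2])) h3
    rw [hO2, le_bot_iff, Subgroup.zpowers_eq_bot] at h4
    rw [h4, orderOf_one] at hz2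
    omega
  obtain ⟨p, hp⟩ := p
  have : Fact p.Prime := ⟨hp⟩
  change f ∈ pCore p S at hf
  have hp2 : p ≠ 2 := by
    rintro rfl
    rw [hO2, Subgroup.mem_bot] at hf
    exact hne (by rw [hf, one_mul, mul_one])
  set x := f * z * f⁻¹ * z⁻¹ with hx
  have hx1 : x ≠ 1 := fun h => hne (by
    rw [hx, mul_inv_eq_one, mul_inv_eq_iff_eq_mul] at h; exact h)
  have hN : (pCore p S).Normal := inferInstance
  have hxO : x ∈ pCore p S := by
    have : x = f * (z * f⁻¹ * z⁻¹) := by rw [hx]; group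
    rw [this]
    exact mul_mem hf (hN.conj_mem _ (inv_mem hf) z)
  set W := (cm ρ z ⊔ cm ρ (f * z * f⁻¹)) ⊔ cm ρ (g * f * z * (g * f)⁻¹)
  have hW : finrank (ZMod 2) W ≤ 3 := by
    have h2 := finrank_sup_le (cm ρ z ⊔ cm ρ (f * z * f⁻¹)) (cm ρ (g * f * z * (g * f)⁻¹))
    have h3 := finrank_sup_le (cm ρ z) (cm ρ (f * z * f⁻¹))
    rw [finrank_cm_conj] at h2 h3
    exact h2.trans (by omega)
  have hzW : z ∈ mover ρ W := mover_mono (le_sup_left.trans le_sup_left) (mem_mover_cm z)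
  have hxW : x ∈ mover ρ W :=
    mul_mem (mover_mono (le_sup_right.trans le_sup_left) (mem_mover_cm _)) (inv_mem hzW)
  have hyW : g * x * g⁻¹ ∈ mover ρ W := by
    have : g * x * g⁻¹ = g * f * z * (g * f)⁻¹ * z⁻¹ := by rw [hx, hz]; group
    rw [this]
    exact mul_mem (mover_mono le_sup_right (mem_mover_cm _)) (inv_mem hzW)
  have hH : IsPGroup p ↥(pCore p S ⊓ mover ρ W) := (pCore_isPGroup p S).to_le inf_le_left
  obtain ⟨n, hn⟩ := hH.exists_card_eq
  have h168 := (card_dvd_of_le_mover hρ (inf_le_right : pCore p S ⊓ mover ρ W ≤ _)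
    (hn ▸ (hp.odd_of_ne_two hp2).pow)).trans (card_linEquiv_dvd.2.1 hW)
  have hn0 : n ≠ 0 := by
    rintro rfl
    rw [pow_zero, Subgroup.card_eq_one] at hn
    exact hx1 (Subgroup.mem_bot.1 (hn ▸ Subgroup.mem_inf.2 ⟨hxO, hxW⟩))
  have hp37 : p = 3 ∨ p = 7 := by
    have h3 : p ∣ 2 ^ 3 * 3 * 7 := (dvd_pow_self p hn0).trans (hn ▸ h168)
    rcases (Nat.Prime.dvd_mul hp).1 h3 with h3 | h3
    · rcases (Nat.Prime.dvd_mul hp).1 h3 with h3 | h3
      · exact absurd ((Nat.prime_dvd_prime_iff_eq hp (by norm_num)).1 (hp.dvd_of_dvd_pow h3)) hp2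
      · exact Or.inl ((Nat.prime_dvd_prime_iff_eq hp (by norm_num)).1 h3)
    · exact Or.inr ((Nat.prime_dvd_prime_iff_eq hp (by norm_num)).1 h3)
  have hle : Nat.card ↥(pCore p S ⊓ mover ρ W) ≤ p := by
    rw [hn] at h168 ⊢
    exact le_of_pow_dvd hp h168 (by rcases hp37 with rfl | rfl <;> norm_num)
  obtain ⟨hzp, ho⟩ := le_zpowers_of_card_le hH hle (Subgroup.mem_inf.2 ⟨hxO, hxW⟩) hx1
  have hy : g * x * g⁻¹ ∈ Subgroup.zpowers x := by
    rw [← hzp]
    exact Subgroup.mem_inf.2 ⟨hN.conj_mem _ hxO g, hyW⟩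
  obtain ⟨k, hk⟩ := mem_powers_iff_mem_zpowers.2 hy
  simp only at hk
  have h5 : x ^ (k ^ 2 + 1) = 1 := by
    have h6 : z * x * z⁻¹ = x ^ k ^ 2 := by
      rw [pow_two k, pow_mul, hk, conj_pow, hk, hz]
      simp only [pow_two]; group
    have h7 : z⁻¹ = z := inv_eq_of_mul_eq_one_right hzz
    rw [pow_succ, ← h6, hx, h7]
    calc z * (f * z * f⁻¹ * z) * z * (f * z * f⁻¹ * z)
        = z * f * z * f⁻¹ * (z * z) * f * z * f⁻¹ * z := by simp only [mul_assoc]
      _ = z * f * z * z * f⁻¹ * z := by rw [hzz]; simp only [mul_assoc, mul_one, inv_mul_cancel_left]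
      _ = z * f * (z * z) * f⁻¹ * z := by simp only [mul_assoc]
      _ = 1 := by rw [hzz, mul_one, mul_inv_cancel_right, hzz]
  have h6 : ((k ^ 2 + 1 : ℕ) : ZMod p) = 0 :=
    (ZMod.natCast_eq_zero_iff _ _).2 (ho ▸ orderOf_dvd_of_pow_eq_one h5)
  push_cast at h6
  have h33 : ∀ c : ZMod 3, c ^ 2 + 1 ≠ 0 := by decide
  have h77 : ∀ c : ZMod 7, c ^ 2 + 1 ≠ 0 := by decide
  rcases hp37 with rfl | rfl
  · exact h33 _ h6
  · exact h77 _ h6

end Cfsg.Agent.S4410
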