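import Cfsg.Statements.S4412
import Cfsg.Agent.Solv.ActionTransport
import Cfsg.Agent.Solv.FrattiniP
import Cfsg.Agent.Solv.CyclicP
import Cfsg.Agent.Solv.Regular
import Cfsg.Agent.Solv.Fitting
import Cfsg.Agent.Solv.Cores

set_option autoImplicit false
open Cfsg

namespace Cfsg.Agent.S4412

open Subgroup Cfsg.Lib.Solv
open scoped commutatorElement

section
variable {P : Type*} [Group P] [Finite P] {p : ℕ} [hp : Fact p.Prime]

def Narrow (T : MulAut P) : Prop := ∃ g : P, ∀ x : P, (T x = x ↔ x ∈ Subgroup.zpowers g)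

theorem mem_of_sq_mem (hp2 : p ≠ 2) (hP : IsPGroup p P) {K : Subgroup P} {x : P}
    (h : x ^ 2 ∈ K) : x ∈ K := by
  obtain ⟨k, hk⟩ := IsPGroup.iff_orderOf.1 hP x
  have hc : (2 : ℕ).Coprime (orderOf x) := by
    rw [hk]
    exact ((Nat.coprime_primes Nat.prime_two hp.out).2 hp2.symm).pow_right k
  obtain ⟨m, hm⟩ := exists_pow_eq_self_of_coprime hc
  rw [← hm]
  exact pow_mem h m

theorem eq_one_of_eq_inv (hp2 : p ≠ 2) (hP : IsPGroup p P) {x : P} (h : x⁻¹ = x) : x = 1 :=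
  mem_bot.1 (mem_of_sq_mem hp2 hP (K := ⊥) (by rw [mem_bot, sq]; nth_rw 1 [← h]; simp))

theorem fix_or_inv (hp2 : p ≠ 2) (hP : IsPGroup p P) {T : MulAut P} (hT : T * T = 1) {a : P}
    (h : T a ∈ zpowers a) : T a = a ∨ T a = a⁻¹ := by
  have hTT : T (T a) = a := by rw [← MulAut.mul_apply, hT, MulAut.one_apply]
  have hc : Commute a (T a) := by
    obtain ⟨k, hk⟩ := h
    rw [← hk]
    exact Commute.self_zpow a k
  have h1 : a * T a ∈ zpowers a := mul_mem (mem_zpowers a) h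
  have h2 : a * (T a)⁻¹ ∈ zpowers a := mul_mem (mem_zpowers a) (inv_mem h)
  have h3 : a ^ 2 = a * T a * (a * (T a)⁻¹) := by
    rw [mul_assoc, ← mul_assoc (T a), ← hc.eq, mul_inv_cancel_right, sq]
  rcases PG.le_total_of_isCyclic (hP.to_subgroup (zpowers a)) (zpowers_le.2 h1) (zpowers_le.2 h2)
    with h4 | h4
  · right
    have h5 : a ∈ zpowers (a * (T a)⁻¹) := mem_of_sq_mem hp2 hP
      (h3 ▸ mul_mem (h4 (mem_zpowers _)) (mem_zpowers _))
    have h6 : T (a * (T a)⁻¹) = (a * (T a)⁻¹)⁻¹ := by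
      rw [map_mul, map_inv, hTT, mul_inv_rev, inv_inv]
    obtain ⟨k, hk⟩ := h5
    have hk' : (a * (T a)⁻¹) ^ k = a := hk
    calc T a = T ((a * (T a)⁻¹) ^ k) := by rw [hk']
      _ = a⁻¹ := by rw [map_zpow, h6, inv_zpow, hk']
  · left
    have h5 : a ∈ zpowers (a * T a) := mem_of_sq_mem hp2 hP
      (h3 ▸ mul_mem (mem_zpowers _) (h4 (mem_zpowers _)))
    have h6 : T (a * T a) = a * T a := by rw [map_mul, hTT, hc.eq]
    obtain ⟨k, hk⟩ := h5
    have hk' : (a * T a) ^ k = a := hk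
    calc T a = T ((a * T a) ^ k) := by rw [hk']
      _ = a := by rw [map_zpow, h6, hk']

omit [Finite P] in
theorem ext_of_closure {s : Set P} (hs : closure s = ⊤) {S T : MulAut P} (h : ∀ x ∈ s, S x = T x) :
    S = T :=
  MulEquiv.toMonoidHom_injective (MonoidHom.eq_of_eqOn_dense hs h)

theorem exists_frame (hp2 : p ≠ 2) (hP : IsPGroup p P)
    (I : Subgroup (MulAut P)) (hI : Cfsg.IsElementaryAbelian 2 I) (hI8 : Nat.card ↥I = 8)
    (I₀ : Subgroup (MulAut P)) (hI₀ : I₀ < I) (hdisj : ∀ T ∈ I₀, T ≠ 1 → Narrow T)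
    (hprod : ∀ T ∈ I, ∀ T' ∈ I, T ≠ 1 → T' ≠ 1 → ¬ Narrow T → ¬ Narrow T' → T * T' ∈ I₀) :
    ∃ (a : Fin 3 → P) (u : Fin 3 → MulAut P), closure (Set.range a) = ⊤ ∧
      ∀ i, u i ∈ I ∧ u i ≠ 1 ∧ ∀ x, u i x = x ↔ x ∈ zpowers (a i) := by
  classical
  have : Fact (Nat.Prime 2) := ⟨Nat.prime_two⟩
  have hE : ElemAb 2 I := ElemAb.of_isElementaryAbelian hI
  obtain ⟨t, htI, ht0, ht⟩ : ∃ t ∈ I, t ∉ I₀ ∧ ∀ T ∈ I, T ≠ 1 → ¬ Narrow T → t * T ∈ I₀ := by
    by_cases h : ∃ t ∈ I, t ≠ 1 ∧ ¬ Narrow t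
    · obtain ⟨t, htI, ht1, ht⟩ := h
      exact ⟨t, htI, fun h0 => ht (hdisj t h0 ht1), fun T hT h1 h2 => hprod t htI T hT ht1 h1 ht h2⟩
    · obtain ⟨t, htI, ht0⟩ := SetLike.not_le_iff_exists.1 hI₀.2
      exact ⟨t, htI, ht0, fun T hT h1 h2 => (h ⟨T, hT, h1, h2⟩).elim⟩
  obtain ⟨M, hM, h1, h2⟩ := ElemAb.exists_isCoatom_not_mem 2
    (show (⟨t, htI⟩ : I) ∉ I₀.subgroupOf I from ht0)
  have hM4 : Nat.card M = 4 := by
    have := M.index_mul_card
    rw [PG.index_eq_prime_of_isCoatom (ElemAb.isPGroup 2 I) hM, hI8] at this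
    omega
  have hnar : ∀ b ∈ M, b ≠ 1 → Narrow (b : MulAut P) := by
    intro b hb hb1
    by_contra h3
    have h4 : (⟨t, htI⟩ : I) * b ∈ M := h1 (ht b b.2 (fun h => hb1 (Subtype.ext h)) h3)
    exact h2 ((Subgroup.mul_mem_cancel_right _ hb).1 h4)
  have h3 : Nat.card {b : M // b ≠ 1} = 3 := by
    have := Nat.card_congr (Equiv.optionSubtypeNe (1 : M))
    rw [Finite.card_option, hM4] at this
    omega
  let e := (Finite.equivFinOfCardEq h3).symm
  choose a ha using fun i : Fin 3 => hnar (e i).1 (e i).1.2 fun h => (e i).2 (Subtype.ext h)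
  refine ⟨a, fun i => ((e i).1 : I), ?_, fun i => ⟨((e i).1 : I).2, fun h => (e i).2
    (Subtype.ext (Subtype.ext h)), ha i⟩⟩
  have := ElemAb.isMulCommutative 2 I
  refine top_le_iff.1 (Act.le_of_forall_fix_zpowers (φ := I.subtype) (B := M) ?_ (Act.inv_top M)
    ?_ fun b hb hb1 x hx => ?_)
  · rw [ElemAb.isCyclic_iff_card_le 2, hM4]
    omega
  · rw [hM4, card_top]
    exact (coprime_card_of_isPGroup hP
      (((Nat.coprime_primes Nat.prime_two hp.out).2 hp2.symm).pow_left 2)).symm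
  · obtain ⟨i, hi⟩ := e.surjective ⟨⟨b, hb⟩, fun h => hb1 (congrArg Subtype.val h)⟩
    have h4 := (ha i x).1 (by rw [hi]; exact Act.mem_fix_zpowers.1 hx.2)
    exact zpowers_le.2 (subset_closure (Set.mem_range_self i)) h4

end

/-- Let p be an odd prime, P a finite p-group and I an elementary abelian subgroup of order 8 of Aut(P). Call T ∈ I, T ≠ 1, broad when its fixed-point subgroup C_P(T) is not cyclic. Suppose I has a proper subgroup I₀ containing no broad element such that the product of any two broad elements lies in I₀. Then P is abelian of rank exactly 3 (generated by three elements but not by two), there are exactly three broad elements and they generate I, and I₀ is exactly the set of products of two broad elements. -/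
theorem result
    {P : Type*} [Group P] [Finite P] (p : ℕ) (hp : p.Prime) (hp2 : p ≠ 2) (hP : IsPGroup p P)
    (I : Subgroup (MulAut P)) (hI : Cfsg.IsElementaryAbelian 2 I) (hI8 : Nat.card ↥I = 8)
    (I₀ : Subgroup (MulAut P)) (hI₀ : I₀ < I)
    (hdisj : ∀ T ∈ I₀, T ≠ 1 → ∃ g : P, ∀ x : P, (T x = x ↔ x ∈ Subgroup.zpowers g))
    (hprod : ∀ T ∈ I, ∀ T' ∈ I, T ≠ 1 → T' ≠ 1 → (¬ ∃ g : P, ∀ x : P, (T x = x ↔ x ∈ Subgroup.zpowers g)) →
      (¬ ∃ g : P, ∀ x : P, (T' x = x ↔ x ∈ Subgroup.zpowers g)) → T * T' ∈ I₀) :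
    IsMulCommutative P ∧ (∃ a b c : P, Subgroup.closure {a, b, c} = ⊤) ∧ (¬ ∃ a b : P, Subgroup.closure {a, b} = ⊤) ∧
      Nat.card {T : MulAut P // T ∈ I ∧ T ≠ 1 ∧ ¬ ∃ g : P, ∀ x : P, (T x = x ↔ x ∈ Subgroup.zpowers g)} = 3 ∧
      Subgroup.closure {T : MulAut P | T ∈ I ∧ T ≠ 1 ∧ ¬ ∃ g : P, ∀ x : P, (T x = x ↔ x ∈ Subgroup.zpowers g)} = I ∧
      (I₀ : Set (MulAut P)) = {S : MulAut P | ∃ T T' : MulAut P, T ∈ I ∧ T' ∈ I ∧ T ≠ 1 ∧ T' ≠ 1 ∧
        (¬ ∃ g : P, ∀ x : P, (T x = x ↔ x ∈ Subgroup.zpowers g)) ∧ (¬ ∃ g : P, ∀ x : P, (T' x = x ↔ x ∈ Subgroup.zpowers g)) ∧ S = T * T'} := by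
  classical
  have : Fact p.Prime := ⟨hp⟩
  obtain ⟨a, u, hgen, hu⟩ := exists_frame hp2 hP I hI hI8 I₀ hI₀ hdisj hprod
  have hcomm := hI.1
  have hsq : ∀ T ∈ I, T * T = 1 := fun T hT => by rw [← sq]; exact hI.2 T hT
  have hsign : ∀ T ∈ I, ∀ i, T (a i) = a i ∨ T (a i) = (a i)⁻¹ := by
    intro T hT i
    refine fix_or_inv hp2 hP (hsq T hT) (((hu i).2.2 _).1 ?_)
    rw [← MulAut.mul_apply, PG.mul_comm_of_mem (hu i).1 hT, MulAut.mul_apply,
      ((hu i).2.2 _).2 (mem_zpowers _)]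
  have hext : ∀ S ∈ I, ∀ T ∈ I, (∀ i, S (a i) = a i ↔ T (a i) = a i) → S = T := by
    intro S hS T hT h
    refine ext_of_closure hgen ?_
    rintro _ ⟨i, rfl⟩
    by_cases h1 : S (a i) = a i
    · rw [h1, (h i).1 h1]
    · rw [(hsign S hS i).resolve_left h1, (hsign T hT i).resolve_left fun h2 => h1 ((h i).2 h2)]
  have hsurj : Function.Surjective fun (T : I) (i : Fin 3) => decide (T.1 (a i) = a i) := by
    refine ((Nat.bijective_iff_injective_and_card _).2 ⟨fun S T h => ?_, ?_⟩).2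
    · exact Subtype.ext (hext _ S.2 _ T.2 fun i => decide_eq_decide.1 (congrFun h i))
    · rw [hI8]; simp
  obtain ⟨T, hTI, hT⟩ : ∃ T : Fin 3 → MulAut P, (∀ i, T i ∈ I) ∧
      ∀ i j, T i (a j) = a j ↔ j ≠ i := by
    choose T hT using fun i : Fin 3 => hsurj fun j => decide (j ≠ i)
    exact ⟨fun i => T i, fun i => (T i).2, fun i j => decide_eq_decide.1 (congrFun (hT i) j)⟩
  have hTi : ∀ i, T i (a i) = (a i)⁻¹ := fun i =>
    (hsign _ (hTI i) i).resolve_left fun h => (hT i i).1 h rfl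
  have hne : ∀ i, (a i)⁻¹ ≠ a i := fun i h => (hT i i).1 ((hTi i).trans h) rfl
  have hmul : ∀ S ∈ I, ∀ S' ∈ I, ∀ i, (S * S') (a i) = a i ↔ (S (a i) = a i ↔ S' (a i) = a i) := by
    intro S hS S' hS' i
    rw [MulAut.mul_apply]
    rcases hsign S hS i with h1 | h1 <;> rcases hsign S' hS' i with h2 | h2 <;>
      simp [h1, h2, hne i]
  have hinvz : ∀ i, ∀ x ∈ zpowers (a i), T i x = x⁻¹ := by
    rintro i _ ⟨k, rfl⟩
    simp only [map_zpow, hTi, inv_zpow]
  have hui : ∀ i j, u i (a j) = a j ↔ j = i := by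
    intro i j
    refine ⟨fun h => ?_, fun h => h ▸ ((hu j).2.2 _).2 (mem_zpowers _)⟩
    by_contra hji
    exact hne j ((hinvz i _ (((hu i).2.2 _).1 h)).symm.trans ((hT i j).2 hji))
  have hui' : ∀ i j, j ≠ i → u i (a j) = (a j)⁻¹ := fun i j h =>
    (hsign _ (hu i).1 j).resolve_left fun h1 => h ((hui i j).1 h1)
  -- `P` is abelian
  have hab : ∀ x y : P, x * y = y * x := by
    set N : Subgroup P := ⁅⁅(⊤ : Subgroup P), (⊤ : Subgroup P)⁆, (⊤ : Subgroup P)⁆ with hN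
    have hNc : N.Characteristic := inferInstance
    have hinv : ∀ S : MulAut P, ∀ x ∈ N, S x ∈ N := fun S x hx =>
      characteristic_iff_le_comap.1 hNc S hx
    have key : ∀ i j k, j ≠ i → k ≠ i → ⁅a j, a k⁆ ∈ N := by
      intro i j k hj hk
      have hz : Nat.card (zpowers (u i)) ∣ 2 := by
        rw [Nat.card_zpowers]
        exact orderOf_dvd_of_pow_eq_one (hI.2 _ (hu i).1)
      obtain ⟨x, hx, hcx⟩ := Act.exists_mul_mem_fix (φ := MonoidHom.id (MulAut P))
        (B := zpowers (u i)) (H := N) (fun b _ x hx => hinv b x hx)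
        ((coprime_card_of_isPGroup (hP.to_subgroup N)
          ((Nat.coprime_primes Nat.prime_two hp).2 hp2.symm)).symm.of_dvd_left hz)
        (Or.inl (Coprime.isSolvable_zpowers _)) (g := ⁅a j, a k⁆) (by
          have h1 : (⁅a j, a k⁆)⁻¹ * u i ⁅a j, a k⁆ ∈ N := by
            rw [map_commutatorElement, hui' i j hj, hui' i k hk]
            have : (⁅a j, a k⁆)⁻¹ * ⁅(a j)⁻¹, (a k)⁻¹⁆ = ⁅⁅a k, a j⁆, (a k * a j)⁻¹⁆ := by
              simp only [commutatorElement_def]; group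
            rw [this]
            exact commutator_mem_commutator
              (commutator_mem_commutator (mem_top _) (mem_top _)) (mem_top _)
          let K : Subgroup (MulAut P) :=
            { carrier := {b | (⁅a j, a k⁆)⁻¹ * b ⁅a j, a k⁆ ∈ N}
              one_mem' := by simp [-commutatorElement_inv]
              mul_mem' := fun {b c} hb hc => by
                have := mul_mem hb (hinv b _ hc)
                simpa [mul_assoc, -map_commutatorElement, -commutatorElement_inv] using this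
              inv_mem' := fun {b} hb => by
                have := inv_mem (hinv b⁻¹ _ hb)
                simpa [mul_assoc, -map_commutatorElement, -commutatorElement_inv] using this }
          exact fun b hb => (zpowers_le.2 h1 : zpowers (u i) ≤ K) hb)
      have h1 := hinvz i _ (((hu i).2.2 _).1 (Act.mem_fix_zpowers.1 hcx))
      rw [map_mul, map_commutatorElement, (hT i j).2 hj, (hT i k).2 hk] at h1
      refine mem_of_sq_mem hp2 hP ?_
      generalize ⁅a j, a k⁆ = c at h1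
      have h2 : c ^ 2 = (c * x⁻¹ * c⁻¹) * (T i x)⁻¹ := by
        rw [eq_mul_inv_iff_mul_eq, sq, mul_assoc, h1]; group
      rw [h2]
      exact mul_mem ((inferInstance : N.Normal).conj_mem _ (inv_mem hx) c) (inv_mem (hinv _ _ hx))
    have h1 : ⁅closure (Set.range a), closure (Set.range a)⁆ ≤ N := by
      refine commutator_closure_closure_le (fun _ _ => le_normalizer_of_normal (mem_top _))
        (fun _ _ => le_normalizer_of_normal (mem_top _)) ?_
      rintro _ ⟨j, rfl⟩ _ ⟨k, rfl⟩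
      obtain ⟨i, hj, hk⟩ : ∃ i, j ≠ i ∧ k ≠ i := by revert j k; decide
      exact key i j k hj hk
    rw [hgen] at h1
    have : Group.IsNilpotent P := hP.isNilpotent
    have h2 := eq_bot_of_le_commutator_of_isNilpotent (N := ⊤) inferInstance le_top h1
    intro x y
    rw [← commutatorElement_eq_one_iff_mul_comm, ← mem_bot, ← h2]
    exact commutator_mem_commutator (mem_top _) (mem_top _)
  have hrange : Set.range a = {a 0, a 1, a 2} := by
    ext x
    simp [Fin.exists_fin_succ, eq_comm]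
  -- not two-generated
  have hnot : ∀ i, ∀ K : Subgroup P, (∀ x ∈ K, T i x = x) → (∀ j, j ≠ i → a j ∈ K) →
      a i ∉ K ⊔ frattini P := by
    intro i K h1 h2 h3
    have h4 : K ⊔ frattini P = ⊤ := by
      rw [eq_top_iff, ← hgen, closure_le]
      rintro _ ⟨j, rfl⟩
      by_cases hj : j = i
      · exact hj ▸ h3
      · exact mem_sup_left (h2 j hj)
    exact (hT i i).1 (h1 _ (frattini_nongenerating h4 ▸ mem_top _)) rfl
  have hnot' : ∀ i, ∀ K : Subgroup P, (∀ x ∈ K, T i x = x) → a i ∉ K ⊔ frattini P := by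
    intro i K h1 h2
    exact hnot i ((T i).toMonoidHom.eqLocus (MonoidHom.id P)) (fun x hx => hx)
      (fun j hj => (hT i j).2 hj) (sup_le_sup_right
        (show K ≤ (T i).toMonoidHom.eqLocus (MonoidHom.id P) from fun x hx => h1 x hx) _ h2)
  have hrank : ¬ ∃ a b : P, closure {a, b} = ⊤ := by
    rintro ⟨x, y, hxy⟩
    have h1 := index_frattini_le_pow_card hP (T := {x, y}) (by simpa using hxy)
    have h2 : p ^ ({x, y} : Finset P).card ≤ p ^ 2 :=
      Nat.pow_le_pow_right hp.pos Finset.card_le_two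
    have hz : ∀ i j, j ≠ i → zpowers (a j) ≤ (T i).toMonoidHom.eqLocus (MonoidHom.id P) :=
      fun i j h => zpowers_le.2 ((hT i j).2 h)
    have h3 : frattini P < zpowers (a 0) ⊔ frattini P :=
      lt_of_le_of_ne le_sup_right fun h => hnot' 0 ⊥ (fun x hx => by rw [mem_bot.1 hx, map_one])
        (by rw [bot_sup_eq, h]; exact mem_sup_left (mem_zpowers _))
    have h4 : zpowers (a 0) ⊔ frattini P < (zpowers (a 0) ⊔ zpowers (a 1)) ⊔ frattini P :=
      lt_of_le_of_ne (sup_le_sup_right le_sup_left _) fun h =>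
        hnot' 1 _ (fun x hx => hz 1 0 (by decide) hx)
          (by rw [h]; exact mem_sup_left (mem_sup_right (mem_zpowers _)))
    have h5 : (zpowers (a 0) ⊔ zpowers (a 1)) ⊔ frattini P < ⊤ :=
      lt_top_iff_ne_top.2 fun h =>
        hnot' 2 _ (fun x hx => sup_le (hz 2 0 (by decide)) (hz 2 1 (by decide)) hx)
          (by rw [h]; exact mem_top _)
    have h6 := PG.prime_mul_card_le_of_lt (hP.to_subgroup _) h3
    have h7 := PG.prime_mul_card_le_of_lt (hP.to_subgroup _) h4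
    have h8 := PG.prime_mul_card_le_of_lt (hP.to_subgroup _) h5
    rw [card_top, ← (frattini P).index_mul_card] at h8
    have h9 : p * (p * (p * Nat.card (frattini P))) ≤ p ^ 2 * Nat.card (frattini P) :=
      (Nat.mul_le_mul_left p ((Nat.mul_le_mul_left p h6).trans h7)).trans
        (h8.trans (Nat.mul_le_mul_right _ (h1.trans h2)))
    have h10 : 0 < p ^ 2 * Nat.card (frattini P) := Nat.mul_pos (pow_pos hp.pos 2) Nat.card_pos
    have := hp.two_le
    nlinarith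
  have hT1 : ∀ i, T i ≠ 1 := fun i h => (hT i i).1 (by rw [h]; rfl) rfl
  have hTb : ∀ i, ¬ Narrow (T i) := by
    rintro i ⟨g, hg⟩
    refine hrank ⟨a i, g, ?_⟩
    rw [eq_top_iff, ← hgen, closure_le]
    rintro _ ⟨j, rfl⟩
    by_cases hj : j = i
    · exact subset_closure (Or.inl (by rw [hj]))
    · exact (zpowers_le.2 (Subgroup.subset_closure (Or.inr rfl)) : zpowers g ≤ closure {a i, g})
        ((hg _).1 ((hT i j).2 hj))
  have hw : Narrow (T 0 * T 1 * T 2) := by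
    refine ⟨1, fun x => ⟨fun h => ?_, fun h => by rw [zpowers_one_eq_bot] at h; rw [mem_bot.1 h, map_one]⟩⟩
    have hc : IsMulCommutative P := ⟨⟨hab⟩⟩
    have h1 : T 0 * T 1 * T 2 = (open scoped IsMulCommutative in MulEquiv.inv P) := by
      refine ext_of_closure hgen ?_
      rintro _ ⟨i, rfl⟩
      refine (hsign _ (mul_mem (mul_mem (hTI 0) (hTI 1)) (hTI 2)) i).resolve_left ?_
      rw [hmul _ (mul_mem (hTI 0) (hTI 1)) _ (hTI 2), hmul _ (hTI 0) _ (hTI 1), hT, hT, hT]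
      revert i; decide
    rw [h1] at h
    rw [eq_one_of_eq_inv hp2 hP h]
    exact one_mem _
  have hclass : ∀ S ∈ I, S = T 0 * T 0 ∨ (∃ i, S = T i) ∨
      (Narrow S ∧ ∃ j k, S = T j * T k) ∨ S = T 0 * T 1 * T 2 := by
    intro S hS
    have key : ∀ s : Fin 3 → Bool, (∀ i, s i = true) ∨ (∃ i, ∀ j, s j = true ↔ j ≠ i) ∨
        (∃ i j k : Fin 3, (∀ l, s l = true ↔ l = i) ∧ ∀ l, s l = true ↔ (l ≠ j ↔ l ≠ k)) ∨
        ∀ l, s l = true ↔ ((l ≠ 0 ↔ l ≠ 1) ↔ l ≠ 2) := by decide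
    rcases key fun i => decide (S (a i) = a i) with h | ⟨i, h⟩ | ⟨i, j, k, h, h'⟩ | h <;>
      simp only [decide_eq_true_eq] at h
    · left
      refine hext _ hS _ (mul_mem (hTI 0) (hTI 0)) fun i => ?_
      rw [hmul _ (hTI 0) _ (hTI 0)]
      simp [h i]
    · exact Or.inr (Or.inl ⟨i, hext _ hS _ (hTI i) fun j => by rw [h, hT]⟩)
    · simp only [decide_eq_true_eq] at h'
      refine Or.inr (Or.inr (Or.inl ⟨?_, j, k, hext _ hS _ (mul_mem (hTI j) (hTI k)) fun l => ?_⟩))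
      · rw [hext _ hS _ (hu i).1 fun l => by rw [h, hui]]
        exact ⟨a i, (hu i).2.2⟩
      · rw [h', hmul _ (hTI j) _ (hTI k), hT, hT]
    · refine Or.inr (Or.inr (Or.inr (hext _ hS _ (mul_mem (mul_mem (hTI 0) (hTI 1)) (hTI 2))
        fun l => ?_)))
      rw [h, hmul _ (mul_mem (hTI 0) (hTI 1)) _ (hTI 2), hmul _ (hTI 0) _ (hTI 1), hT, hT, hT]
  have hset : {S : MulAut P | S ∈ I ∧ S ≠ 1 ∧ ¬ Narrow S} = Set.range T := by
    ext S
    constructor
    · rintro ⟨hS, h1, h2⟩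
      rcases hclass S hS with h | ⟨i, h⟩ | h | h
      · exact (h1 (h.trans (hsq _ (hTI 0)))).elim
      · exact ⟨i, h.symm⟩
      · exact (h2 h.1).elim
      · exact (h2 (h ▸ hw)).elim
    · rintro ⟨i, rfl⟩
      exact ⟨hTI i, hT1 i, hTb i⟩
  have hTinj : Function.Injective T := by
    intro i j h
    by_contra hij
    exact (hT i i).1 (by rw [h]; exact (hT j i).2 hij) rfl
  refine ⟨⟨⟨hab⟩⟩, ⟨a 0, a 1, a 2, hrange ▸ hgen⟩, hrank, ?_, ?_, ?_⟩
  · change Nat.card {S : MulAut P | S ∈ I ∧ S ≠ 1 ∧ ¬ Narrow S} = 3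
    rw [hset, Nat.card_range_of_injective hTinj, Nat.card_eq_fintype_card, Fintype.card_fin]
  · change closure {S : MulAut P | S ∈ I ∧ S ≠ 1 ∧ ¬ Narrow S} = I
    refine le_antisymm ((closure_le _).2 fun S hS => hS.1) fun S hS => ?_
    rw [hset]
    have h0 : ∀ i, T i ∈ closure (Set.range T) := fun i => subset_closure ⟨i, rfl⟩
    rcases hclass S hS with h | ⟨i, h⟩ | ⟨-, j, k, h⟩ | h <;> rw [h]
    exacts [mul_mem (h0 0) (h0 0), h0 i, mul_mem (h0 j) (h0 k), mul_mem (mul_mem (h0 0) (h0 1)) (h0 2)]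
  · ext S
    constructor
    · intro hS
      rcases hclass S (hI₀.le hS) with h | ⟨i, h⟩ | ⟨-, j, k, h⟩ | h
      · exact ⟨_, _, hTI 0, hTI 0, hT1 0, hT1 0, hTb 0, hTb 0, h⟩
      · exact (hTb i (hdisj _ (h ▸ hS) (hT1 i))).elim
      · exact ⟨_, _, hTI j, hTI k, hT1 j, hT1 k, hTb j, hTb k, h⟩
      · have h1 := hprod _ (hTI 0) _ (hTI 1) (hT1 0) (hT1 1) (hTb 0) (hTb 1)
        have h2 : T 2 ∈ I₀ := (Subgroup.mul_mem_cancel_left _ h1).1 (h ▸ hS)
        exact (hTb 2 (hdisj _ h2 (hT1 2))).elim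
    · rintro ⟨S₁, S₂, h1, h2, h3, h4, h5, h6, rfl⟩
      exact hprod _ h1 _ h2 h3 h4 h5 h6

end Cfsg.Agent.S4412
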