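import Cfsg.Statements.S4413
import Cfsg.Agent.Solv.QExtStd
import Cfsg.Agent.S0824

set_option autoImplicit false
open Cfsg

namespace Cfsg.Agent.S4413

open Cfsg.Lib.QExt Cfsg.Lib.Solv.PG Cfsg.Lib.Trans.ES

/-- Let P be an extraspecial 2-group of order 32 with no elementary abelian subgroup of order 8 (the central product of a dihedral and a quaternion group of order 8). Then the inner automorphism group of P has order 16 and the outer automorphism group Aut(P)/Inn(P) is isomorphic to the symmetric group of degree 5; in particular Aut(P) has order 1920. -/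
theorem result {P : Type*} [Group P] [Finite P]
    (hex : Cfsg.IsExtraspecial 2 P) (h32 : Nat.card P = 32)
    (hminus : ∀ A : Subgroup P, Cfsg.IsElementaryAbelian 2 A → Nat.card ↥A ≤ 4)
    [(MulAut.conj : P →* MulAut P).range.Normal] :
    Nat.card ↥(MulAut.conj : P →* MulAut P).range = 16 ∧ Nat.card (MulAut P) = 1920 ∧
      Nonempty ((MulAut P ⧸ (MulAut.conj : P →* MulAut P).range) ≃* Equiv.Perm (Fin 5)) := by
  have h := IsPre.of_isExtraspecial hex
  have hd : defect P = -2 ^ (2 + 1) := by
    have h1 : PRankLE 2 2 P := fun A hA h2 => hminus A ⟨hA, h2⟩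
    rcases (pRankLE_iff_of_isPre h (n := 2) h32 2).1 h1 with h2 | h2
    · omega
    · exact h2.2
  obtain ⟨e⟩ := nonempty_mulEquiv_of_defect_eq h (nd_bMinus 1).isPre
    (h32.trans (card_minus 1).symm) (hd.trans (defect_minus 1).symm)
  obtain ⟨e1⟩ := nonempty_out_congr e
  obtain ⟨e2⟩ := (nd_bMinus 1).nonempty_out_equiv _ (bMinus_self 1)
  obtain ⟨e3⟩ := Cfsg.Agent.S0824.result (F := ZMod 2) (ZMod.card 2)
  have e4 : (MulAut P ⧸ (MulAut.conj : P →* MulAut P).range) ≃* Equiv.Perm (Fin 5) :=
    e1.trans (e2.trans e3)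
  have h16 : Nat.card ↥(MulAut.conj : P →* MulAut P).range = 16 := by
    have hk : (MulAut.conj : P →* MulAut P).ker = Subgroup.center P := by
      ext x
      rw [MonoidHom.mem_ker, Subgroup.mem_center_iff, MulEquiv.ext_iff]
      refine forall_congr' fun g => ?_
      rw [MulAut.conj_apply, MulAut.one_apply, mul_inv_eq_iff_eq_mul, eq_comm]
    have h1 := (MulAut.conj : P →* MulAut P).ker.card_mul_index
    rw [Subgroup.index_ker, hk, h.card_center, h32] at h1
    omega
  refine ⟨h16, ?_, ⟨e4⟩⟩
  rw [Subgroup.card_eq_card_quotient_mul_card_subgroup (MulAut.conj : P →* MulAut P).range, h16,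
    Nat.card_congr e4.toEquiv, Nat.card_perm]
  simp [Nat.factorial]

end Cfsg.Agent.S4413
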