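import Cfsg.Statements.S4414
import Cfsg.Agent.Solv.F2Frob
import Cfsg.Agent.Solv.Factor
import Cfsg.Agent.Solv.MinNormal

set_option autoImplicit false
open Cfsg

namespace Cfsg.Agent.S4414

open Cfsg.Lib.Solv Cfsg.Lib.Solv.F2S Module

/-- Let S be a finite solvable group whose order is divisible only by the primes 2, p, q (p, q distinct odd primes), with a Sylow system S₂, S_p, S_q (pairwise permutable Sylow subgroups) such that: S_p is a minimal normal subgroup of S of order p or p²; S_q has order q and [S_p, S_q] = S_p; and O₂(S) = 1. Let E be an irreducible module for S over the field with two elements on which S_p acts faithfully, and E₀ the subspace of fixed points of S₂. Then either E₀ has at least 8 elements, or E₀ has exactly 4 elements and S_q does not leave E₀ invariant. -/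
theorem result {S : Type*} [Group S] [Finite S]
    [Group.IsSolvable S] (p q : ℕ) (hp : p.Prime) (hq : q.Prime) (hp2 : p ≠ 2) (hq2 : q ≠ 2) (hpq : p ≠ q)
    (hπ : ∀ r : ℕ, r.Prime → r ∣ Nat.card S → r = 2 ∨ r = p ∨ r = q)
    (S₂ : Sylow 2 S) (Sp : Sylow p S) (Sq : Sylow q S)
    (h2q : Nat.card ↥((S₂ : Subgroup S) ⊔ (Sq : Subgroup S)) = Nat.card ↥S₂ * Nat.card ↥Sq)
    (h2p : Nat.card ↥((S₂ : Subgroup S) ⊔ (Sp : Subgroup S)) = Nat.card ↥S₂ * Nat.card ↥Sp)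
    (hpq' : Nat.card ↥((Sp : Subgroup S) ⊔ (Sq : Subgroup S)) = Nat.card ↥Sp * Nat.card ↥Sq)
    (hSpN : (Sp : Subgroup S).Normal) (hSpmin : ∀ N : Subgroup S, N.Normal → N ≤ (Sp : Subgroup S) → N = ⊥ ∨ N = (Sp : Subgroup S))
    (hSpcard : Nat.card ↥Sp = p ∨ Nat.card ↥Sp = p ^ 2)
    (hSq : Nat.card ↥Sq = q) (hcomm : ⁅(Sp : Subgroup S), (Sq : Subgroup S)⁆ = (Sp : Subgroup S))
    (hO2 : Cfsg.pCore 2 S = ⊥)
    {E : Type*} [AddCommGroup E] [Module (ZMod 2) E] [Finite E] (ρ : Representation (ZMod 2) S E) (hE : Nontrivial E)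
    (hirr : ∀ N : Submodule (ZMod 2) E, (∀ s : S, ∀ m ∈ N, ρ s m ∈ N) → N = ⊥ ∨ N = ⊤)
    (hfaith : ∀ x ∈ (Sp : Subgroup S), ρ x = 1 → x = 1) :
    8 ≤ Nat.card {v : E // ∀ s ∈ (S₂ : Subgroup S), ρ s v = v} ∨
      (Nat.card {v : E // ∀ s ∈ (S₂ : Subgroup S), ρ s v = v} = 4 ∧
        ∃ x ∈ (Sq : Subgroup S), ∃ v : E, (∀ s ∈ (S₂ : Subgroup S), ρ s v = v) ∧ ¬ ∀ s ∈ (S₂ : Subgroup S), ρ s (ρ x v) = ρ x v) := by
  have : Fact p.Prime := ⟨hp⟩
  have : Fact q.Prime := ⟨hq⟩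
  change Nat.card (Sp : Subgroup S) = p ∨ Nat.card (Sp : Subgroup S) = p ^ 2 at hSpcard
  change Nat.card (Sq : Subgroup S) = q at hSq
  change _ = Nat.card (S₂ : Subgroup S) * Nat.card (Sq : Subgroup S) at h2q
  have hne : (Sp : Subgroup S) ≠ ⊥ := by
    intro h
    rw [h, Subgroup.card_bot] at hSpcard
    rcases hSpcard with h | h
    · exact hp.ne_one h.symm
    · exact (Nat.one_lt_pow two_ne_zero hp.one_lt).ne h
  obtain ⟨hc, he⟩ := IsMinNormal.elementary_of_isPGroup ⟨hSpN, hne, hSpmin⟩ Sp.isPGroup'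
  have h0 : fix ρ Sp = ⊥ := (hirr _ fun s m hm =>
    apply_mem_fix (by rw [Subgroup.normalizer_eq_top]; trivial) hm).resolve_right fun h =>
      hne (eq_bot_iff.2 fun x hx => hfaith x hx
        (LinearMap.ext fun v => (h ▸ Submodule.mem_top : v ∈ fix ρ Sp) x hx))
  obtain ⟨x, hx⟩ := (Subgroup.isCyclic_iff_exists_zpowers_eq_top (Sq : Subgroup S)).1
    (isCyclic_of_prime_card hSq)
  have hxq : orderOf x = q := by rw [← Nat.card_zpowers, hx, hSq]
  have hK := coe_eq_mul_of_card_le (le_sup_left : (S₂ : Subgroup S) ≤ (S₂ : Subgroup S) ⊔ Sq)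
    le_sup_right (by
    rw [h2q, IsPGroup.disjoint_of_ne 2 q hq2.symm _ _ S₂.isPGroup' Sq.isPGroup' |>.eq_bot,
      Subgroup.card_bot, mul_one])
  obtain ⟨h1, h2⟩ := finrank_fix_ge (ρ := ρ) hp2
    (fun a ha b hb => congrArg Subtype.val (hc.is_comm.comm ⟨a, ha⟩ ⟨b, hb⟩)) he hSpcard h0
    S₂.isPGroup' hq hq2 hxq (by rw [hx, hcomm]) fun t ht => by
      have h1 : x ∈ (S₂ : Subgroup S) ⊔ Sq := Subgroup.mem_sup_right (hx ▸ Subgroup.mem_zpowers x)
      have h2 : x * t * x⁻¹ ∈ (((S₂ : Subgroup S) ⊔ Sq : Subgroup S) : Set S) :=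
        mul_mem (mul_mem h1 (Subgroup.mem_sup_left ht)) (inv_mem h1)
      rw [hK, ← hx] at h2
      obtain ⟨s, hs, y, hy, h⟩ := h2
      obtain ⟨i, rfl⟩ := mem_powers_iff_mem_zpowers.2 hy
      exact ⟨s, hs, i, h.symm⟩
  have hcard : Nat.card {v : E // ∀ s ∈ (S₂ : Subgroup S), ρ s v = v} =
      2 ^ finrank (ZMod 2) (fix ρ S₂) := by
    have := Module.natCard_eq_pow_finrank (K := ZMod 2) (V := fix ρ S₂)
    rwa [Nat.card_zmod] at this
  rw [hcard]
  by_cases h3 : 3 ≤ finrank (ZMod 2) (fix ρ S₂)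
  · exact Or.inl (Nat.pow_le_pow_right (n := 2) (by norm_num) h3)
  · refine Or.inr ⟨by rw [show finrank (ZMod 2) (fix ρ S₂) = 2 by omega]; rfl, ?_⟩
    by_contra h4
    push Not at h4
    exact h3 (h2 fun y hy v hv => h4 y (hx ▸ hy) v hv)

end Cfsg.Agent.S4414
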