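import Cfsg.Statements.S4415
import Cfsg.Agent.Cub.E

set_option autoImplicit false
open Cfsg

namespace Cfsg.Agent.S4415

/-- Let S be a finite solvable group acting faithfully on a finite-dimensional space E over the field with three elements, with O₃(S) = 1. Let B ≤ S have order 3 and suppose: E = E₀ ⊕ E₁ with B fixing E₁ pointwise, E₀ B-invariant of order 27 and indecomposable under B (a generator of B has a single Jordan block on E₀); B normalizes but does not centralize some subgroup Q of S that is elementary abelian of order 4; and B is the centre of a Sylow 3-subgroup of S. Put R = [O_{3'}(S), B]. Then R is elementary abelian of order 4 or extraspecial of order 32 containing an elementary abelian subgroup of order 8 (a central product of two quaternion groups), and E is the direct sum of a subspace fixed pointwise by R and an RB-invariant subspace on which the subgroup RB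 acts faithfully and irreducibly. -/
theorem result {S : Type*} [Group S] [Finite S]
    [Group.IsSolvable S] {E : Type*} [AddCommGroup E] [Module (ZMod 3) E] [Finite E] (ρ : Representation (ZMod 3) S E)
    (hfaith : Function.Injective ρ) (hO3 : Cfsg.pCore 3 S = ⊥)
    (B : Subgroup S) (hB : Nat.card ↥B = 3) (b : S) (hb : Subgroup.zpowers b = B)
    (E₀ E₁ : Submodule (ZMod 3) E) (hE01 : E₀ ⊓ E₁ = ⊥) (hE01' : E₀ ⊔ E₁ = ⊤)
    (hE1 : ∀ v ∈ E₁, ρ b v = v) (hE0inv : ∀ v ∈ E₀, ρ b v ∈ E₀) (hE0 : Nat.card ↥E₀ = 27)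
    (hind : ∃ v ∈ E₀, ρ b (ρ b v - v) - (ρ b v - v) ≠ 0)
    (Q : Subgroup S) (hQ : Cfsg.IsElementaryAbelian 2 Q) (hQ4 : Nat.card ↥Q = 4)
    (hBQ : B ≤ Subgroup.normalizer (Q : Set S)) (hBQ' : ¬ B ≤ Subgroup.centralizer (Q : Set S))
    (P : Sylow 3 S) (hBZ : (Subgroup.center ↥(P : Subgroup S)).map (P : Subgroup S).subtype = B) :
    ((Cfsg.IsElementaryAbelian 2 ⁅Cfsg.pPrimeCore 3 S, B⁆ ∧ Nat.card ↥⁅Cfsg.pPrimeCore 3 S, B⁆ = 4) ∨
      (Cfsg.IsExtraspecial 2 ↥⁅Cfsg.pPrimeCore 3 S, B⁆ ∧ Nat.card ↥⁅Cfsg.pPrimeCore 3 S, B⁆ = 32 ∧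
        ∃ A : Subgroup S, A ≤ ⁅Cfsg.pPrimeCore 3 S, B⁆ ∧ Cfsg.IsElementaryAbelian 2 A ∧ Nat.card ↥A = 8)) ∧
    ∃ F₀ F₁ : Submodule (ZMod 3) E, F₀ ⊓ F₁ = ⊥ ∧ F₀ ⊔ F₁ = ⊤ ∧
      (∀ r ∈ ⁅Cfsg.pPrimeCore 3 S, B⁆, ∀ v ∈ F₁, ρ r v = v) ∧ (∀ r ∈ ⁅Cfsg.pPrimeCore 3 S, B⁆ ⊔ B, ∀ v ∈ F₀, ρ r v ∈ F₀) ∧
      (∀ r ∈ ⁅Cfsg.pPrimeCore 3 S, B⁆ ⊔ B, (∀ v ∈ F₀, ρ r v = v) → r = 1) ∧
      (∀ N : Submodule (ZMod 3) E, N ≤ F₀ → (∀ r ∈ ⁅Cfsg.pPrimeCore 3 S, B⁆ ⊔ B, ∀ v ∈ N, ρ r v ∈ N) → N = ⊥ ∨ N = F₀) := by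
  subst hb
  have b3 : b ^ 3 = 1 := by rw [← hB, Nat.card_zpowers, pow_orderOf_eq_one]
  have cj : ∀ x ∈ Q, b * x * b⁻¹ ∈ Q := fun x =>
    (Subgroup.mem_normalizer_iff.1 (hBQ (Subgroup.mem_zpowers b)) x).1
  obtain ⟨y, hy⟩ := not_forall.1 fun h => hBQ' (Subgroup.zpowers_le.2
    (Subgroup.mem_centralizer_iff.2 h))
  obtain ⟨hy, yb⟩ := Classical.not_imp.1 hy
  obtain ⟨q, -, T⟩ := Lib.Cub.exists_tri b3 (IsPGroup.of_card (n := 2) hQ4)
    (fun x hx y hy => congrArg Subtype.val (hQ.1.is_comm.comm ⟨x, hx⟩ ⟨y, hy⟩)) cj hy (Ne.symm yb)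
  obtain ⟨z, hz, e⟩ : b ∈ (Subgroup.center ↥(P : Subgroup S)).map (P : Subgroup S).subtype :=
    hBZ ▸ Subgroup.mem_zpowers b
  have cop := Lib.Solv.coprime_card_pPrimeCore 3 S
  have hN : Subgroup.zpowers b ≤ Subgroup.normalizer (pPrimeCore 3 S : Set S) :=
    Subgroup.le_normalizer_of_normal
  exact Lib.Cub.red (fun g h => hfaith ((LinearMap.ext h).trans ρ.map_one.symm)) b3
    (Lib.Cub.rk_of b3 hE01' hE1 hE0inv hE0)
    (cop.coprime_dvd_left (Subgroup.card_dvd_of_le (Subgroup.commutator_le_left _ _)))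
    (Subgroup.normalizer_commutator_ge_right _ _)
    (Lib.Solv.Coprime.commutator_commutator hN (hB ▸ cop.symm))
    (Lib.Cub.mem_core b3 P (fun x hx => e ▸ congrArg Subtype.val
      (Subgroup.mem_center_iff.1 hz ⟨x, hx⟩)) T) T

end Cfsg.Agent.S4415
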