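import Cfsg.Statements.S4417
import Cfsg.Agent.Solv.PLinearDL

set_option autoImplicit false
open Cfsg

namespace Cfsg.Agent.S4417

open Cfsg.Lib.Solv Cfsg.Lib.Solv.PLin

/-- Let F be a field with q elements, p a prime not dividing q, and e the multiplicative order of q modulo p; assume e ≤ n. Then every p-subgroup of GL_n(F) has derived length at most ⌊log₂(n/e)⌋ + 1: that term of its derived series is trivial (n/e is the integer quotient). -/
theorem result {F : Type*} [Field F] [Fintype F] (q : ℕ) (hF : Fintype.card F = q) (p : ℕ) [Fact p.Prime] (hpq : ¬ p ∣ q) (n e : ℕ) (he : e = orderOf (q : ZMod p)) (hen : e ≤ n) (P : Subgroup (GL (Fin n) F)) (hP : IsPGroup p P) : derivedSeries ↥P (Nat.log 2 (n / e) + 1) = ⊥ := by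
  subst hF he
  have hp : p.Prime := Fact.out
  have he : 0 < orderOf (Fintype.card F : ZMod p) := by
    refine (isOfFinOrder_iff_pow_eq_one.2 ⟨p - 1, by have := hp.two_le; omega, ?_⟩).orderOf_pos
    exact ZMod.pow_card_sub_one_eq_one (by rwa [Ne, ZMod.natCast_eq_zero_iff])
  refine derivedSeries_eq_bot_GL hpq ?_ P hP
  have h1 := Nat.lt_pow_succ_log_self (b := 2) (by omega) (n / orderOf (Fintype.card F : ZMod p))
  have h2 := Nat.pow_le_pow_left hp.two_le (Nat.log 2 (n / orderOf (Fintype.card F : ZMod p)) + 1)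
  rw [mul_comm, ← Nat.div_lt_iff_lt_mul he]
  exact h1.trans_le h2

end Cfsg.Agent.S4417
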