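import Cfsg.Statements.S4420
import Cfsg.Agent.Solv.FrattiniP

set_option autoImplicit false
open Cfsg

namespace Cfsg.Agent.S4420

theorem inv_of {H : Type*} [Group H] (A : Subgroup H) (hD : ∀ x : H, x ∉ A → x ^ 2 = 1)
    (x : H) (hx : x ∉ A) (a : H) (ha : a ∈ A) : x * a * x⁻¹ = a⁻¹ := by
  have h1 := hD (x * a) fun h => hx ((A.mul_mem_cancel_right ha).mp h)
  have h2 := hD x hx
  rw [pow_two] at h1 h2
  rw [inv_eq_of_mul_eq_one_right h2, eq_inv_iff_mul_eq_one, ← h1, mul_assoc]

theorem sq_of {H : Type*} [Group H] (A : Subgroup H) (hA : A ≠ ⊤)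
    (hD : ∀ x : H, x ∉ A → x ^ 2 = 1) (h2 : A.index ≠ 2) (a : H) : a ^ 2 = 1 := by
  by_cases ha : a ∈ A
  swap
  · exact hD a ha
  obtain ⟨x, hx⟩ : ∃ x, x ∉ A := by
    by_contra hcon
    push Not at hcon
    exact hA (eq_top_iff.mpr fun x _ => hcon x)
  obtain ⟨y, hy, hxy⟩ : ∃ y, y ∉ A ∧ y * x ∉ A := by
    by_contra hcon
    push Not at hcon
    apply h2
    rw [Subgroup.index_eq_two_iff]
    refine ⟨x, fun b => ?_⟩
    by_cases hb : b ∈ A
    · exact Or.inr ⟨hb, fun h => hx ((A.mul_mem_cancel_left hb).mp h)⟩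
    · exact Or.inl ⟨hcon b hb, hb⟩
  have h1 := inv_of A hD _ hxy a ha
  have h3 : y * x * a * (y * x)⁻¹ = y * (x * a * x⁻¹) * y⁻¹ := by group
  rw [h3, inv_of A hD x hx a ha, inv_of A hD y hy _ (A.inv_mem ha), inv_inv] at h1
  rw [pow_two, ← eq_inv_iff_mul_eq_one]
  exact h1

theorem elemAb {H : Type*} [Group H] (h : ∀ x : H, x ^ 2 = 1) : Cfsg.Lib.Solv.ElemAb 2 H := by
  refine ⟨fun a b => ?_, h⟩
  have h1 : ∀ x : H, x⁻¹ = x := fun x => inv_eq_of_mul_eq_one_right (by rw [← pow_two, h])
  rw [← h1 (a * b), mul_inv_rev, h1, h1]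

/-- Structure of groups in which every element outside some proper subgroup has square 1. Let H be a finite group with a proper subgroup A such that every element outside A has square 1. Then H has an abelian normal subgroup B of index 2 such that every element outside B is an involution inverting every element of B; and if H is not an elementary abelian 2-group, B is the only abelian normal subgroup of index 2 with this property. -/
theorem result {H : Type*} [Group H] [Finite H] (A : Subgroup H) (hA : A ≠ ⊤) (hD : ∀ x : H, x ∉ A → x ^ 2 = 1) :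
    ∃ B : Subgroup H, B.Normal ∧ IsMulCommutative ↥B ∧ B.index = 2 ∧
      (∀ x : H, x ∉ B → x ^ 2 = 1 ∧ ∀ b ∈ B, x * b * x⁻¹ = b⁻¹) ∧
      (¬ (IsMulCommutative H ∧ ∀ x : H, x ^ 2 = 1) →
        ∀ B' : Subgroup H, B'.Normal → IsMulCommutative ↥B' → B'.index = 2 →
          (∀ x : H, x ∉ B' → x ^ 2 = 1 ∧ ∀ b ∈ B', x * b * x⁻¹ = b⁻¹) → B' = B) := by
  by_cases h2 : A.index = 2
  · have hinv := inv_of A hD
    obtain ⟨x, hx⟩ : ∃ x, x ∉ A := by
      by_contra hcon
      push Not at hcon
      exact hA (eq_top_iff.mpr fun x _ => hcon x)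
    refine ⟨A, Subgroup.normal_of_index_eq_two h2, ⟨⟨fun a b => Subtype.ext ?_⟩⟩, h2,
      fun x hx => ⟨hD x hx, hinv x hx⟩, ?_⟩
    · have h1 := hinv x hx _ (a * b).2
      rw [Subgroup.coe_mul, ← conj_mul, hinv x hx _ a.2, hinv x hx _ b.2, ← mul_inv_rev,
        inv_inj] at h1
      exact h1.symm
    · intro hne B _ _ hB hB'
      by_contra hBA
      apply hne
      have h3 : ∀ x : H, x ^ 2 = 1 := by
        refine sq_of (B ⊓ A) (fun h => hA (top_le_iff.mp (h ▸ inf_le_right))) (fun x hx => ?_) ?_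
        · rw [Subgroup.mem_inf, not_and_or] at hx
          exact hx.elim (fun h => (hB' x h).1) (hD x)
        · intro h
          apply hBA
          have e1 : B ⊓ A = B := Subgroup.eq_of_le_of_card_ge inf_le_left (le_of_eq (by
            have := (B ⊓ A).card_mul_index.trans B.card_mul_index.symm
            rw [h, hB] at this
            omega))
          have e2 : B ⊓ A = A := Subgroup.eq_of_le_of_card_ge inf_le_right (le_of_eq (by
            have := (B ⊓ A).card_mul_index.trans A.card_mul_index.symm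
            rw [h, h2] at this
            omega))
          rw [← e1, e2]
      exact ⟨(Cfsg.Lib.Solv.ElemAb.isMulCommutative 2 H (h := elemAb h3)), h3⟩
  · have h3 := sq_of A hA hD h2
    have hE := elemAb h3
    have hc := Cfsg.Lib.Solv.ElemAb.isMulCommutative 2 H
    obtain ⟨B, hB, -⟩ := (eq_top_or_exists_le_coatom A).resolve_left hA
    refine ⟨B, inferInstance, inferInstance, Cfsg.Lib.Solv.index_eq_of_isCoatom_of_isPGroup
      (Cfsg.Lib.Solv.ElemAb.isPGroup 2 H) hB, fun x _ => ⟨h3 x, fun b _ => ?_⟩,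
      fun h => absurd ⟨hc, h3⟩ h⟩
    rw [hE.comm x b, mul_inv_cancel_right, eq_inv_iff_mul_eq_one, ← pow_two, h3]

end Cfsg.Agent.S4420
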