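import Cfsg.Statements.S4466
import Cfsg.Agent.Char.DegThree
import Cfsg.Agent.Char.Blichfeldt
import Cfsg.Agent.Char.Burnside

set_option autoImplicit false
open Cfsg

namespace Cfsg.Agent.S4466

open Cfsg.Lib.Char Cfsg.Lib.Char.Deg Cfsg.Lib.Solv

universe u

theorem deg_ne_two {G : Type*} [Group G] [Finite G] [IsSimpleGroup G] {χ : G → ℂ}
    (hχ : IsIrrCharacter G χ) : charDegree χ ≠ 2 := by
  intro h
  have hne : χ ≠ fun _ => 1 := by
    rintro rfl
    rw [deg_const_one] at h
    omega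
  have hG : commutator G = ⊤ := (IsSimpleGroup.eq_bot_or_eq_top_of_normal _ inferInstance).resolve_left
    fun h0 => by
      have := (commutator_le_charKer_iff hχ).1 (h0.le.trans bot_le)
      omega
  obtain ⟨t, ht⟩ := exists_prime_orderOf_dvd_card' (G := G) 2 (h ▸ deg_dvd_card hχ)
  have h1 : detChar χ t = 1 := by
    rw [← coe_detHom, monoidHom_apply_of_mem_commutator _ (hG ▸ Subgroup.mem_top t), Units.val_one]
  have h2 : ‖χ t‖ = ‖χ 1‖ := by
    have h3 := apply_one_eq hχ.isCharacter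
    obtain ⟨n, ρ, -, rfl⟩ := hχ
    obtain ⟨ε, h4, h5, -, -, h6⟩ := exists_char_eq_sum ρ t (n := 2) two_ne_zero
      (ht ▸ pow_orderOf_eq_one t)
    rw [detChar_rep_apply, h6] at h1
    rw [h5, h3, h]
    rw [h, Representation.char_one] at h3
    have h7 : Module.finrank ℂ (Fin n → ℂ) = 2 := by exact_mod_cast h3
    revert ε
    rw [h7]
    intro ε h1 h4 _ _
    rw [Fin.prod_univ_two] at h1
    have h8 : ε 1 = ε 0 := by
      have := h4 0
      linear_combination (ε 0) * h1 - (ε 1) * this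
    rw [Fin.sum_univ_two, h8, ← two_mul, norm_mul, norm_eq_one_of_pow_eq_one' two_ne_zero (h4 0)]
    simp
  have := deg_eq_one_of_comm hχ (comm_of_simple_of_norm_eq hχ hne
    (fun h0 => by rw [h0, orderOf_one] at ht; omega) h2)
  omega

theorem main (G : Type u) [Group G] [Finite G] :
    (∀ χ, IsIrrCharacter G χ → charDegree χ ≠ 1 → (charDegree χ).Prime) → Group.IsSolvable G := by
  classical
  refine card_induction (P := fun G _ _ => (∀ χ, IsIrrCharacter G χ → charDegree χ ≠ 1 →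
    (charDegree χ).Prime) → Group.IsSolvable G) ?_ G
  intro G _ _ ih h
  have := Fintype.ofFinite G
  by_cases hN : ∃ N : Subgroup G, N.Normal ∧ N ≠ ⊥ ∧ N ≠ ⊤
  · obtain ⟨N, hN, h0, h1⟩ := hN
    have h2 := ih N (card_lt_of_ne_top h1) fun θ hθ h3 => by
      obtain ⟨χ, hχ, h4⟩ := exists_irr_over_deg_dvd hθ
      have h5 := h χ hχ fun h6 => h3 (Nat.dvd_one.1 (h6 ▸ h4))
      exact ((Nat.dvd_prime h5).1 h4).resolve_left h3 ▸ h5
    have h3 := ih (G ⧸ N) (card_quotient_lt h0) fun β hβ => by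
      simpa only [deg_inflate] using h _ hβ.inflate
    exact Group.isSolvable_of_ker_le_range N.subtype (QuotientGroup.mk' N) (by simp)
  by_cases hex : ∃ d, ∃ χ, IsIrrCharacter G χ ∧ charDegree χ ≠ 1 ∧ charDegree χ = d
  swap
  · push Not at hex
    exact Group.isSolvable_of_comm (comm_of_forall_deg_eq_one fun χ hχ =>
      by_contra fun h1 => hex _ χ hχ h1 rfl)
  obtain ⟨χ, hχ, hχ1, hχp⟩ := Nat.find_spec hex
  have hnt : Nontrivial G := not_subsingleton_iff_nontrivial.1 fun _ =>
    hχ1 (deg_eq_one_of_comm hχ fun _ _ => Subsingleton.elim _ _)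
  have hs : IsSimpleGroup G := ⟨fun N hN' => by
    by_contra hcon
    exact hN ⟨N, hN', by tauto, by tauto⟩⟩
  have hne : ∀ ψ, IsIrrCharacter G ψ → charDegree ψ ≠ 1 → ψ ≠ fun _ => 1 := by
    rintro ψ - h1 rfl
    exact h1 deg_const_one
  obtain ⟨A, hab, -, hA⟩ := (sepDeg_of_faithful hχ.isCharacter fun g hg =>
    hχ.eq_one_of_apply_eq_of_isSimpleGroup (hne χ hχ hχ1) hg).exists_abelian_hall
  refine ⟨⟨3, three_degrees G (charDegree χ) (Nat.card A) fun ψ hψ => ?_⟩⟩
  by_contra hcon
  push Not at hcon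
  obtain ⟨h1, h2, h3⟩ := hcon
  have hq := h ψ hψ h1
  have hlt : charDegree χ + 1 < charDegree ψ := by
    have h4 : charDegree χ ≤ charDegree ψ := hχp ▸ Nat.find_min' hex ⟨ψ, hψ, h1, rfl⟩
    have h5 := (h χ hχ hχ1).eq_two_or_odd.resolve_left (deg_ne_two hχ)
    have h6 := hq.eq_two_or_odd.resolve_left (deg_ne_two hψ)
    omega
  have hqi : ¬ charDegree ψ ∣ A.index := fun h4 => (hA _ hq h4).not_gt hlt
  have hvan : ∀ a : A, a ≠ 1 → ψ a = 0 := by
    intro a ha
    refine (irr_eq_zero_or_norm_eq_of_coprime hψ (apply_one_eq hψ.isCharacter) a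
      ((Nat.Prime.coprime_iff_not_dvd hq).2 fun h4 => hqi (h4.trans (Subgroup.index_dvd_of_le
        fun b hb => Subgroup.mem_centralizer_singleton_iff.2 (hab b hb a a.2))))).resolve_right
      fun h4 => h1 (deg_eq_one_of_comm hψ (comm_of_simple_of_norm_eq hψ (hne ψ hψ h1)
        (g := a) (by simpa using ha) (by rw [h4, norm_apply_one hψ.isCharacter])))
  obtain ⟨m, hm⟩ := (hψ.isCharacter.res A).exists_nat_classInner isCharacter_one
  have h4 := card_mul_classInner (fun a : A => ψ a) fun _ => 1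
  rw [hm, Finset.sum_eq_single 1 (fun a _ ha => by rw [hvan a ha, zero_mul]) (by simp)] at h4
  simp only [OneMemClass.coe_one, map_one, mul_one, apply_one_eq hψ.isCharacter] at h4
  have h5 : Nat.card A * m = charDegree ψ := by exact_mod_cast h4
  have h6 := (hq.dvd_mul.1 (A.card_mul_index ▸ deg_dvd_card hψ)).resolve_right hqi
  exact h3 (Nat.dvd_antisymm h6 (Dvd.intro _ h5))

/-- If every irreducible character of the finite group G of degree greater than one has prime degree, then G is solvable. -/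
theorem result {G : Type*} [Group G] [Finite G] (h : ∀ χ : Cfsg.IrrCharacter G, Cfsg.charDegree (χ : G → ℂ) ≠ 1 → (Cfsg.charDegree (χ : G → ℂ)).Prime) : Group.IsSolvable G := by
  exact main G fun χ hχ => h ⟨χ, hχ⟩

end Cfsg.Agent.S4466
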