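import Cfsg.Statements.S4512
import Cfsg.Agent.Block.Klein

set_option autoImplicit false
open Cfsg

open Cfsg Cfsg.Lib.Char Cfsg.Lib.Block Cfsg.Lib.Block.Princ ComplexConjugate

namespace Cfsg.Agent.S4512

/-- If G is a finite group with a Sylow 2-subgroup that is a Klein four-group and a single conjugacy class of involutions, then its principal 2-block (relative to a maximal ideal M of the algebraic integers containing 2) has 2-regular rank 3: the restrictions of its irreducible characters to the elements of odd order span a space of dimension 3 (it has three irreducible Brauer characters). -/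
theorem result {G : Type*} [Group G] [Finite G] (M : Ideal Cfsg.AlgInt) (hM : Cfsg.IsPModular 2 M) (P : Sylow 2 G)
    (hP : Nat.card P = 4) (hexp : ∀ x : P, x * x = 1)
    (hone : ∀ s t : G, orderOf s = 2 → orderOf t = 2 → IsConj s t) :
    Cfsg.blockRank 2 (Cfsg.principalBlock M G) = 3 := by
  classical
  have := Fintype.ofFinite G
  obtain ⟨f, hval, hsign, ht, hcard, -, hrel⟩ := klein_values hM P hP hexp hone
  have h := sum_classInner_pRegularPart_self hM (Princ.isPBlock_principalBlock (G := G))
  have h1 : ∀ χ ∈ irrFin (principalBlock M G), classInner (pRegularPart 2 (χ : G → ℂ)) χ =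
      1 - (Nat.card G : ℂ)⁻¹ * ∑ g : G, if 2 ∣ orderOf g then 1 else 0 := by
    intro χ hχ
    rw [eq_sub_iff_add_eq]
    refine Eq.trans ?_ χ.2.classInner_self
    rw [classInner, classInner, ← mul_add,
      ← Finset.sum_add_distrib]
    congr 1
    refine Finset.sum_congr rfl fun g _ => ?_
    rw [pRegularPart_eq_ite]
    split_ifs with hg
    · rw [hval χ (mem_irrFin.1 hχ) g hg, map_intCast]
      rcases hsign χ (mem_irrFin.1 hχ) with h | h <;> rw [h] <;> norm_num
    · rw [add_zero]
  have h2 : (Nat.card G : ℂ)⁻¹ * ∑ g : G, (if 2 ∣ orderOf g then 4 else 0) = 1 := by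
    have h3 : ∀ g : G, (if 2 ∣ orderOf g then (4 : ℂ) else 0) =
        ∑ χ ∈ irrFin (principalBlock M G), (f χ : ℂ) * (χ : G → ℂ) g := by
      intro g
      split_ifs with hg
      · rw [Finset.sum_congr rfl (g := fun _ => 1), Finset.sum_const, hcard]
        · norm_num
        · intro χ hχ
          rw [hval χ (mem_irrFin.1 hχ) g hg]
          rcases hsign χ (mem_irrFin.1 hχ) with h | h <;> rw [h] <;> norm_num
      · exact (hrel g hg).symm
    simp only [h3]
    rw [Finset.sum_comm, Finset.sum_eq_single (triv G)]
    · simp [ht, Nat.card_eq_fintype_card]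
    · intro χ _ hχ
      rw [← Finset.mul_sum, χ.2.sum_eq_zero (fun h => hχ (eq_triv_iff.2 h)), mul_zero]
    · intro h
      exact absurd (mem_irrFin.2 (triv_mem_principalBlock hM)) h
  have h4 : ∑ g : G, (if 2 ∣ orderOf g then (4 : ℂ) else 0) =
      4 * ∑ g : G, if 2 ∣ orderOf g then 1 else 0 := by
    rw [Finset.mul_sum]
    exact Finset.sum_congr rfl fun g _ => by split_ifs <;> simp
  rw [Finset.sum_congr rfl h1, Finset.sum_const, hcard, nsmul_eq_mul] at h
  rw [h4] at h2
  have h5 : (blockRank 2 (principalBlock M G) : ℂ) = (3 : ℕ) := by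
    rw [← h]
    push_cast
    linear_combination -h2
  exact_mod_cast h5

end Cfsg.Agent.S4512
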