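import Cfsg.Statements.S4520
import Cfsg.Agent.Block.RealBlock
import Cfsg.Agent.Block.PairGraded
import Cfsg.Agent.Solv.PConstrained

set_option autoImplicit false
open Cfsg

namespace Cfsg.Agent.S4520

open Cfsg.Lib.Block Cfsg.Lib.Block.Pair

/-- Let N be a normal subgroup of odd index in the finite group G, M a maximal ideal of the algebraic integers containing 2, and k coprime to the order of G with k ^ (2 ^ e) ≡ 1 modulo the order of G for some e and g ^ k = g⁻¹ for every element g of odd order. Let θ be an irreducible character of N and χ an irreducible character of G over θ, both unchanged by composing with g ↦ g ^ k. Then χ lies in the principal 2-block of G if and only if θ lies in the principal 2-block of N. -/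
theorem result {G : Type*} [Group G] [Fintype G] (M : Ideal Cfsg.AlgInt) (hM : Cfsg.IsPModular 2 M) (N : Subgroup G) [N.Normal] [Fintype N] (hidx : Odd N.index) (k e : ℕ) (hk : Nat.Coprime k (Nat.card G)) (hke : k ^ (2 ^ e) ≡ 1 [MOD Nat.card G]) (hk₂ : ∀ g : G, Odd (orderOf g) → g ^ k = g⁻¹) (θ : Cfsg.IrrCharacter N) (hθ : ∀ n : N, (θ : N → ℂ) (n ^ k) = (θ : N → ℂ) n) (χ : Cfsg.IrrCharacter G) (hχ : ∀ g : G, (χ : G → ℂ) (g ^ k) = (χ : G → ℂ) g) (hover : Cfsg.classInner (fun n : N => (χ : G → ℂ) n) (θ : N → ℂ) ≠ 0) : χ ∈ Cfsg.principalBlock M G ↔ θ ∈ Cfsg.principalBlock M N := by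
  refine ⟨fun h => mem_principalBlock_of_over hM h (over_iff.2 hover), fun h => ?_⟩
  have := charP_kM hM
  have hB := isPBlock_blockOf (M := M) χ
  have hχB := mem_blockOf_self hM χ
  have hb := isPBlock_principalBlock (M := M) (G := N)
  obtain ⟨Q, hQ⟩ := exists_isDefectGroup hM hb
  have hQS := isSylowIn_top_of_defect_principalBlock hM hQ
  obtain ⟨P, hP, hPN⟩ := (isPrim_hat hM hb).knorr le_top (Subgroup.normalizer_eq_top N).ge
    ((isDefectGroup_iff_isDefect_hat hM hb).1 hQ) (isPrim_eB hM hB)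
    ((covers_iff_mul_ne_zero hM hB hb).1 ⟨χ, hχB, θ, h, over_iff.2 hover⟩)
  have h1 := hQS.map_injective N.subtype N.subtype_injective
  rw [map_top_subtype, ← hPN] at h1
  have h2 : IsSylowIn 2 P ⊤ := by
    refine isSylowIn_of_not_dvd_relIndex hP.isPGroup le_top fun h3 => ?_
    rw [Subgroup.relIndex_top_right] at h3
    have h4 := h3.trans (Subgroup.index_dvd_of_le (inf_le_left : P ⊓ N ≤ P))
    rw [← Subgroup.relIndex_mul_index (inf_le_right : P ⊓ N ≤ N)] at h4
    exact (Nat.prime_two.dvd_mul.1 h4).elim h1.not_dvd_relIndex hidx.not_two_dvd_nat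
  rw [← eq_principalBlock_of_barI_mem_of_sylow hM hB hχB
    (mem_block_of_eq_on_regular hM hB hχB fun g hg => by
      rw [barI_apply_eq_inv, ← hk₂ g (Nat.not_even_iff_odd.1 fun h => hg h.two_dvd), hχ])
    ((isDefectGroup_iff_isDefect hM hB).2 hP) h2]
  exact hχB

end Cfsg.Agent.S4520
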