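import Cfsg.Statements.S4521
import Cfsg.Agent.Block.PrincOver

set_option autoImplicit false
open Cfsg

namespace Cfsg.Agent.S4521

open Cfsg.Lib.Char Cfsg.Lib.Block Cfsg.Lib.Block.Ht Subgroup

theorem normal_of_comm {G : Type*} [Group G] {U₁ U₂ : Subgroup G}
    (hcomm : ∀ u ∈ U₁, ∀ v ∈ U₂, u * v = v * u) (hgen : U₁ ⊔ U₂ = ⊤) : U₁.Normal := by
  rw [← normalizer_eq_top_iff, eq_top_iff, ← hgen]
  refine sup_le le_normalizer ?_
  refine le_trans (fun v hv => ?_) (centralizer_le_normalizer _)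
  exact mem_centralizer_iff.2 fun u hu => hcomm u hu v hv

/-- Let the finite group G be generated by subgroups U₁ and U₂ that commute elementwise and whose intersection is a p-group, and let M be a maximal ideal of the algebraic integers containing the prime p. If the irreducible character χ of G has the irreducible constituents ψ₁ on U₁ and ψ₂ on U₂, then χ lies in the principal block of G if and only if ψ₁ and ψ₂ lie in the principal blocks of U₁ and U₂. -/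
theorem result {G : Type*} [Group G] [Fintype G] (p : ℕ) [Fact p.Prime] (M : Ideal Cfsg.AlgInt) (hM : Cfsg.IsPModular p M) (U₁ U₂ : Subgroup G) [Fintype U₁] [Fintype U₂] (hcomm : ∀ u ∈ U₁, ∀ v ∈ U₂, u * v = v * u) (hgen : U₁ ⊔ U₂ = ⊤) (hZ : IsPGroup p ↥(U₁ ⊓ U₂)) (χ : Cfsg.IrrCharacter G) (ψ₁ : Cfsg.IrrCharacter U₁) (ψ₂ : Cfsg.IrrCharacter U₂) (h₁ : Cfsg.classInner (fun u : U₁ => (χ : G → ℂ) u) (ψ₁ : U₁ → ℂ) ≠ 0) (h₂ : Cfsg.classInner (fun u : U₂ => (χ : G → ℂ) u) (ψ₂ : U₂ → ℂ) ≠ 0) : χ ∈ Cfsg.principalBlock M G ↔ (ψ₁ ∈ Cfsg.principalBlock M U₁ ∧ ψ₂ ∈ Cfsg.principalBlock M U₂) := by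
  haveI := normal_of_comm hcomm hgen
  haveI : U₂.Normal := normal_of_comm (fun u hu v hv => (hcomm v hv u hu).symm)
    (by rw [sup_comm, hgen])
  refine ⟨fun h => ⟨mem_principalBlock_of_over hM h (over_iff.2 h₁),
    mem_principalBlock_of_over hM h (over_iff.2 h₂)⟩, fun ⟨h1, h2⟩ => ?_⟩
  obtain ⟨φ, ψ, hφ, hψ, h⟩ := χ.2.exists_mul_of_commute hcomm hgen
  have e1 : φ = ψ₁ := by
    refine hφ.eq_of_classInner_ne_zero ψ₁.2 fun h0 => h₁ ?_
    have : (fun u : U₁ => (χ : G → ℂ) u) = ψ 1 • φ := by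
      funext u
      have := h u 1
      rw [OneMemClass.coe_one, mul_one] at this
      rw [this, Pi.smul_apply, smul_eq_mul, mul_comm]
    rw [this, classInner_smul_left, h0, mul_zero]
  have e2 : ψ = ψ₂ := by
    refine hψ.eq_of_classInner_ne_zero ψ₂.2 fun h0 => h₂ ?_
    have : (fun u : U₂ => (χ : G → ℂ) u) = φ 1 • ψ := by
      funext u
      have := h 1 u
      rw [OneMemClass.coe_one, one_mul] at this
      rw [this, Pi.smul_apply, smul_eq_mul]
    rw [this, classInner_smul_left, h0, mul_zero]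
  subst e1 e2
  let f : U₁ × U₂ →* G :=
    MonoidHom.noncommCoprod U₁.subtype U₂.subtype fun a b => hcomm a a.2 b b.2
  have hf : ∀ x : U₁ × U₂, f x = x.1 * x.2 := fun x => rfl
  have hker : ∀ z ∈ f.ker, (z.1 : G) ∈ U₁ ⊓ U₂ ∧ (z.2 : G) = (z.1 : G)⁻¹ := by
    intro z hz
    rw [MonoidHom.mem_ker, hf] at hz
    have h2 : (z.2 : G) = (z.1 : G)⁻¹ := eq_inv_of_mul_eq_one_right hz
    refine ⟨⟨z.1.2, ?_⟩, h2⟩
    have := U₂.inv_mem z.2.2
    rwa [h2, inv_inv] at this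
  refine Princ.mem_principalBlock_of_comp hM f (exists_mul_eq_of_commute_of_sup_eq_top hcomm hgen)
    ?_ ?_ (θ := ⟨_, ψ₁.2.prod ψ₂.2⟩) ?_ (fun x => (h x.1 x.2).symm)
  · intro z
    obtain ⟨h3, h4⟩ := hker z z.2
    obtain ⟨k, hk⟩ := hZ ⟨_, h3⟩
    refine ⟨k, ?_⟩
    have h5 : ((z : U₁ × U₂).1 : G) ^ p ^ k = 1 := by
      simpa using congrArg Subtype.val hk
    ext
    · simpa using h5
    · simp only [SubgroupClass.coe_pow, Prod.pow_snd, OneMemClass.coe_one, Prod.snd_one]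
      rw [h4, inv_pow, h5, inv_one]
  · intro y _ z hz
    obtain ⟨h3, h4⟩ := hker z hz
    refine Prod.ext (Subtype.ext ?_) (Subtype.ext ?_)
    · exact (hcomm _ y.1.2 _ h3.2).symm
    · refine hcomm _ ?_ _ y.2.2
      rw [h4]; exact U₁.inv_mem h3.1
  · have := sameBlock_prod hM isIrrCharacter_one ψ₂.2 h1 h2
    simp only [mul_one] at this
    exact this

end Cfsg.Agent.S4521
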