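import Cfsg.Statements.S4531
import Cfsg.Agent.Block.TameThree

set_option autoImplicit false
open Cfsg

namespace Cfsg.Agent.S4531

open Cfsg.Lib.Char Cfsg.Lib.Block

/-- Let the finite group G have a 2-block B (relative to a maximal ideal M of the algebraic integers containing 2) of 2-regular rank three (three irreducible Brauer characters) whose defect group D is dihedral of order 2 ^ n with n ≥ 3 or semidihedral. Then the centre of G has odd order and G is not solvable. -/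
theorem result {G : Type*} [Group G] [Finite G] (M : Ideal Cfsg.AlgInt) (hM : Cfsg.IsPModular 2 M) (B : Set (Cfsg.IrrCharacter G)) (hB : Cfsg.IsPBlock M B) (D : Subgroup G) (hD : Cfsg.IsDefectGroup 2 M B D) (hD' : (∃ n : ℕ, 3 ≤ n ∧ Nonempty (D ≃* DihedralGroup (2 ^ (n - 1)))) ∨ Cfsg.IsQuasiDihedral D) (hl : Cfsg.blockRank 2 B = 3) : Odd (Nat.card (Subgroup.center G)) ∧ ¬ Group.IsSolvable G := by
  obtain ⟨x, y, z, m, h1, hy⟩ : ∃ x y z m, Cfsg.Lib.Block.Tame.MC D x y z m ∧ y ^ 2 = 1 := by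
    rcases hD' with ⟨n, hn, ⟨e⟩⟩ | h
    · obtain ⟨m, rfl⟩ := Nat.exists_eq_add_of_le' hn
      obtain ⟨x, y, z, h1, -, hy⟩ := Cfsg.Lib.Block.Tame.exists_mc_dihedral (m := m) e
      exact ⟨x, y, z, m, h1, hy⟩
    · obtain ⟨x, y, z, m, h1, -, -, hy⟩ := Cfsg.Lib.Block.Tame.exists_mc_semidihedral h
      exact ⟨x, y, z, m, h1, hy⟩
  refine ⟨h1.odd_card_center hy hM hB hD hl.ge, fun _ => ?_⟩
  have := h1.rank_le_two_of_isPSolvable hy hM (Cfsg.IsPSolvable.of_isSolvable 2 G) hB hD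
  omega

end Cfsg.Agent.S4531
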