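import Cfsg.Statements.S4534
import Cfsg.Agent.Block.SymRank

set_option autoImplicit false
open Cfsg

namespace Cfsg.Agent.S4534

open Cfsg.Lib.SymChar

/-- Let B be a p-block of a finite symmetric group (relative to a maximal ideal M of the algebraic integers containing p) with a nontrivial defect group D all of whose sections have p-rank at most s. Then the p-regular rank of B is less than p ^ s. -/
theorem result (n : ℕ) (p : ℕ) [Fact p.Prime] (M : Ideal Cfsg.AlgInt) (hM : Cfsg.IsPModular p M) (B : Set (Cfsg.IrrCharacter (Equiv.Perm (Fin n)))) (hB : Cfsg.IsPBlock M B) (D : Subgroup (Equiv.Perm (Fin n))) (hD : Cfsg.IsDefectGroup p M B D) (hD1 : D ≠ ⊥) (s : ℕ) (hs : Cfsg.SectionalPRankLE p s D) : Cfsg.blockRank p B < p ^ s := by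
  obtain ⟨ψ, rfl⟩ := hB
  have hN : (p + 1) * Fintype.card (Fin n) ≤ Fintype.card (Fin ((p + 1) * n)) := by simp
  have hN' : Fintype.card (Fin n) ≤ Fintype.card (Fin ((p + 1) * n)) := by nlinarith
  obtain ⟨β, h⟩ := exists_lab hN' ψ
  obtain ⟨f, h1, h2⟩ := h.exists_elementary hM hN' hD
  have := card_le_of_sectionalPRankLE hs (f.codRestrict D h2)
    (fun a b e => h1 (congrArg Subtype.val e)) (pow_eq_one_pi _ p)
  refine (h.blockRank_lt hM hN (h.wt_pos hM hN' hD hD1)).trans_le ?_
  simpa [Nat.card_pi] using this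

end Cfsg.Agent.S4534
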