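import Cfsg.Statements.S4535
import Cfsg.Agent.Block.AltBlock
import Cfsg.Agent.Block.CycMin

set_option autoImplicit false
open Cfsg

namespace Cfsg.Agent.S4535

open Cfsg.Lib.SymChar Cfsg.Lib.Block

/-- Let B be a p-block of a finite alternating group (relative to a maximal ideal M of the algebraic integers containing p) with a nontrivial defect group D all of whose sections have p-rank at most s. Then the p-regular rank of B is less than p ^ s. -/
theorem result (n : ℕ) (p : ℕ) [Fact p.Prime] (M : Ideal Cfsg.AlgInt) (hM : Cfsg.IsPModular p M) (B : Set (Cfsg.IrrCharacter (alternatingGroup (Fin n)))) (hB : Cfsg.IsPBlock M B) (D : Subgroup (alternatingGroup (Fin n))) (hD : Cfsg.IsDefectGroup p M B D) (hD1 : D ≠ ⊥) (s : ℕ) (hs : Cfsg.SectionalPRankLE p s D) : Cfsg.blockRank p B < p ^ s := by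
  have hp := hM.1
  have hN : (p + 1) * Fintype.card (Fin n) ≤ Fintype.card (Fin ((p + 1) * n)) := by simp
  have hN' : Fintype.card (Fin n) ≤ Fintype.card (Fin ((p + 1) * n)) := by nlinarith
  obtain ⟨ψ, β, P, h, hc, hP, hPD⟩ := exists_cover_alt hM hN' hB hD
  have hnt : Nontrivial (Fin n) := by
    by_contra hn
    rw [not_nontrivial_iff_subsingleton] at hn
    exact hD1 (Subsingleton.elim _ _)
  have h2 := hc.blockRank_le_index_mul hM (isPBlock_blockOf ψ) hB
  rw [alternatingGroup.index_eq_two] at h2
  have hd0 : blockDefect p B ≠ 0 := fun e => hD1 ((blockDefect_eq_zero_iff hM hB hD).1 e)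
  have small : blockDefect p B ≤ 2 → blockRank p B < p ^ blockDefect p B := fun hd =>
    (blockRank_lt_card hM hB hd0).trans_le (card_le_of_defect_le_two hM hB hd)
  have hdef := h.blockDefect_eq hM hN'
  rw [factorization_factorial_mul' hp] at hdef
  rcases hp.eq_two_or_odd' with rfl | hodd
  · obtain ⟨f, h1, h3, h4⟩ := h.exists_klein hM hN' hP
    obtain ⟨g, hg⟩ := exists_hom_of_inf hPD f h3 h4
    have h5 := card_le_of_sectionalPRankLE hs g (fun a b e => h1 (by rw [← hg, ← hg, e]))
      fun a => funext fun i => pow_eq_one_pi _ 2 (a i)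
    simp only [Nat.card_eq_fintype_card, Fintype.card_fun, Fintype.card_multiplicative, ZMod.card,
      Fintype.card_fin, ← pow_mul] at h5
    refine lt_of_lt_of_le ?_ h5
    have hw : 0 < wt 2 β := h.wt_pos hM hN' hP fun e => hD1 (by
      rwa [e, bot_inf_eq, eq_comm, Subgroup.map_eq_bot_iff_of_injective _
        (Subgroup.subtype_injective _)] at hPD)
    by_cases hw3 : 3 ≤ wt 2 β
    · have h6 := h.two_mul_blockRank_lt hM hN hw3
      rcases Nat.even_or_odd (wt 2 β) with he | ho
      · rw [Nat.two_mul_div_two_of_even he]; omega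
      · have h7 := hc.blockRank_le_of_res hM (isPBlock_blockOf ψ) hB fun χ hχ θ hθ => by
          obtain ⟨γ, h', -, hw'⟩ := h.exists_lab_of_mem hM hN' hχ
          obtain ⟨x, hx, h0⟩ := h'.exists_odd_ne_zero hN' (hw' ▸ ho)
          exact (hθ.index_two alternatingGroup.index_eq_two).resolve_right fun e => h0 (e.1 x hx)
        rw [← Nat.two_mul_div_two_add_one_of_odd ho, pow_succ] at h6
        omega
    · have h6 := blockDefect_alt_two hM hN' h hw hB hD hP hPD
      rw [hdef] at h6
      rcases (by omega : wt 2 β = 1 ∨ wt 2 β = 2) with e | e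
      · rw [e] at h6; simp at h6; exact (hd0 h6).elim
      · rw [e, Nat.factorial_two, hp.factorization_self] at h6
        have h7 : blockDefect 2 B = 2 := by omega
        rw [e]
        exact (small h7.le).trans_eq (by rw [h7])
  · obtain ⟨f, h1, h3⟩ := h.exists_elementary hM hN' hP
    obtain ⟨g, hg⟩ := exists_hom_of_inf hPD f h3 fun a =>
      le_alternatingGroup_of_odd hodd (defect_isPGroup hP) (h3 a)
    have h5 := card_le_of_sectionalPRankLE hs g (fun a b e => h1 (by rw [← hg, ← hg, e]))
      (pow_eq_one_pi _ p)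
    simp only [Nat.card_eq_fintype_card, Fintype.card_fun, Fintype.card_multiplicative, ZMod.card,
      Fintype.card_fin] at h5
    refine lt_of_lt_of_le ?_ h5
    by_cases hw3 : 3 ≤ wt p β
    · exact h2.trans_lt (h.two_mul_blockRank_lt hM hN hw3)
    · have h3 : 3 ≤ p := by
        have := hp.two_le
        obtain ⟨k, rfl⟩ := hodd
        omega
      rw [← blockDefect_alt_of_odd hM hodd hB hD hP hPD, Nat.factorization_eq_zero_of_not_dvd
        (fun e => by have := hp.dvd_factorial.1 e; omega), add_zero] at hdef
      rw [← hdef]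
      exact small (by omega)

end Cfsg.Agent.S4535
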