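import Cfsg.Statements.S4541
import Cfsg.Agent.Block.Major

set_option autoImplicit false
open Cfsg

namespace Cfsg.Agent.S4541

open Cfsg.Lib.Char Cfsg.Lib.Block

/-- Let B be a 2-block of the finite group G (relative to a maximal ideal M of the algebraic integers containing 2), u a 2-element, and b a block of the centralizer of u inducing B (a subsection (u, b)), of defect q and 2-regular rank l; write s for the integer square root of l and k₀(B) for the number of members of B of height zero. If s is odd then k₀(B) ≤ s·2 ^ q, and otherwise (s + 1)·k₀(B) ≤ l·2 ^ q; in particular k₀(B) ≤ 2 ^ q when l ≤ 3. -/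
theorem result {G : Type*} [Group G] [Finite G] (M : Ideal Cfsg.AlgInt) (hM : Cfsg.IsPModular 2 M) (B : Set (Cfsg.IrrCharacter G)) (hB : Cfsg.IsPBlock M B) (u : G) (hu : ∃ j : ℕ, orderOf u = 2 ^ j) (b : Set (Cfsg.IrrCharacter ↥(Subgroup.centralizer ({u} : Set G)))) (hb : Cfsg.IsInducedBlock M (Subgroup.centralizer ({u} : Set G)) b B) : (Odd (Nat.sqrt (Cfsg.blockRank 2 b)) → Nat.card {χ : Cfsg.IrrCharacter G // χ ∈ B ∧ Cfsg.blockHeight 2 B (χ : G → ℂ) = 0} ≤ Nat.sqrt (Cfsg.blockRank 2 b) * 2 ^ Cfsg.blockDefect 2 b) ∧ (¬ Odd (Nat.sqrt (Cfsg.blockRank 2 b)) → (Nat.sqrt (Cfsg.blockRank 2 b) + 1) * Nat.card {χ : Cfsg.IrrCharacter G // χ ∈ B ∧ Cfsg.blockHeight 2 B (χ : G → ℂ) = 0} ≤ Cfsg.blockRank 2 b * 2 ^ Cfsg.blockDefect 2 b) ∧ (Cfsg.blockRank 2 b ≤ 3 → Nat.card {χ : Cfsg.IrrCharacter G // χ ∈ B ∧ Cfsg.blockHeight 2 B (χ : G → ℂ) = 0} ≤ 2 ^ Cfsg.blockDefect 2 b) := by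
  classical
  have := Fintype.ofFinite G
  have := Fintype.ofFinite (Subgroup.centralizer ({u} : Set G))
  obtain ⟨θ, hθ, hmin⟩ := exists_min_not_dvd_dg hM hb.1
  have hodd := (dvd_bf_self_iff hM hb.1 θ).not.2 hθ
  have h1 := card_height_zero_mul_le hM rfl hu hb (bf_self_nonneg θ) hmin
  have h2 := card_height_zero_le_bf hM rfl hu hb hθ
  have hl0 := blockRank_pos (p := 2) Nat.prime_two (isPBlock_nonempty hM hb.1)
  rw [card_subtype_mem_and]
  obtain ⟨m, hm⟩ := Int.eq_ofNat_of_zero_le (bf_self_nonneg θ)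
  rw [hm] at h1 h2 hodd
  set k := ((irrFin B).filter fun χ : IrrCharacter G => blockHeight 2 B (χ : G → ℂ) = 0).card
  set l := blockRank 2 b
  set Q := 2 ^ blockDefect 2 b with hQ
  have h1' : k * m ≤ Q * l := by rw [hQ]; exact_mod_cast h1
  have h2' : k ≤ Q * m := by rw [hQ]; exact_mod_cast h2
  have hodd' : m % 2 = 1 := by omega
  have hs1 := Nat.sqrt_le l
  have hs2 := Nat.lt_succ_sqrt l
  have key1 : Odd (Nat.sqrt l) → k ≤ Nat.sqrt l * Q := by
    intro hs
    rw [Nat.odd_iff] at hs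
    generalize Nat.sqrt l = s at *
    by_cases h : m ≤ s
    · nlinarith [Nat.mul_le_mul_left Q h]
    · have h3 : s + 2 ≤ m := by omega
      have h4 : l ≤ s * (s + 2) := by nlinarith
      have h5 : k * (s + 2) ≤ (s * Q) * (s + 2) := by
        nlinarith [Nat.mul_le_mul_left k h3, Nat.mul_le_mul_left Q h4]
      exact Nat.le_of_mul_le_mul_right h5 (by omega)
  refine ⟨key1, fun hs => ?_, fun hl => ?_⟩
  · rw [Nat.odd_iff] at hs
    generalize Nat.sqrt l = s at *
    by_cases h : s + 1 ≤ m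
    · nlinarith [Nat.mul_le_mul_left k h]
    · have h3 : m + 1 ≤ s := by omega
      have h4 : (s + 1) * m ≤ l := by nlinarith
      nlinarith [Nat.mul_le_mul_left (s + 1) h2', Nat.mul_le_mul_left Q h4]
  · have h3 : Nat.sqrt l = 1 := by
      generalize Nat.sqrt l = s at *
      have : s < 2 := by nlinarith
      have : s ≠ 0 := by rintro rfl; omega
      omega
    have := key1 (by rw [h3]; exact odd_one)
    rwa [h3, one_mul] at this

end Cfsg.Agent.S4541
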