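import Cfsg.Statements.S4546
import Cfsg.Agent.KKL.Red2
import Cfsg.Agent.KKL.EightA

set_option autoImplicit false
open Cfsg

namespace Cfsg.Agent.S4546

/-- Let B be a 2-block of the finite group G (relative to a maximal ideal M of the algebraic integers containing 2) whose defect group D is the direct product of a cyclic group of order 2 ^ n (n ≥ 2) and an elementary abelian group of order 8. Then B contains exactly 2 ^ (n + 3) irreducible characters, all of height zero, and its 2-regular rank is 1, 3, 5 or 7. -/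
theorem result {G : Type*} [Group G] [Finite G] (M : Ideal Cfsg.AlgInt) (hM : Cfsg.IsPModular 2 M) (B : Set (Cfsg.IrrCharacter G)) (hB : Cfsg.IsPBlock M B) (D : Subgroup G) (hD : Cfsg.IsDefectGroup 2 M B D) (n : ℕ) (hn : 2 ≤ n) (hiso : Nonempty (D ≃* Multiplicative (ZMod (2 ^ n) × ZMod 2 × ZMod 2 × ZMod 2))) : Nat.card B = 2 ^ (n + 3) ∧ (∀ χ ∈ B, Cfsg.blockHeight 2 B (χ : G → ℂ) = 0) ∧ (Cfsg.blockRank 2 B = 1 ∨ Cfsg.blockRank 2 B = 3 ∨ Cfsg.blockRank 2 B = 5 ∨ Cfsg.blockRank 2 B = 7) := by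
  exact Cfsg.Lib.KKL.red (fun c h8 he => Cfsg.Lib.KKL.kkl_of c h8 he fun _ hu ht _ _ =>
    (Cfsg.Lib.KKL.eightA c h8 he hu ht).1) hM B hB D hD n hn hiso

end Cfsg.Agent.S4546
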