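import Cfsg.Statements.S4549
import Cfsg.Agent.Char.DegThompson
import Cfsg.Agent.Block.GalPow
import Cfsg.Agent.Block.Ker
import Cfsg.Agent.Char.GlaubermanCyc
import Cfsg.Agent.Char.Codegree

set_option autoImplicit false
open Cfsg

namespace Cfsg.Agent.S4549

set_option linter.unusedSectionVars false
set_option linter.style.haveILetI false
open Cfsg Cfsg.Lib.Char Cfsg.Lib.Char.Deg Cfsg.Lib.Block Cfsg.Lib.Trans

section
variable {G : Type*} [Group G] [Finite G] {k : ℕ}

theorem coprime_k (hk₁ : ∀ g : G, (∃ j : ℕ, orderOf g = 2 ^ j) → g ^ k = g ^ 3)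
    (hk₂ : ∀ g : G, Odd (orderOf g) → g ^ k = g) : k.Coprime (Nat.card G) := by
  refine coprime_card_of_pow_ne_one fun g hg h => ?_
  have h1 : g ≠ 1 := fun e => by rw [e, orderOf_one] at hg; exact Nat.not_prime_one hg
  rcases hg.eq_two_or_odd' with h2 | h2
  · rw [hk₁ g ⟨1, by rw [h2, pow_one]⟩] at h
    have h3 := orderOf_dvd_of_pow_eq_one h
    rw [h2] at h3
    omega
  · exact h1 ((hk₂ g h2).symm.trans h)

theorem pow_iter (hk₁ : ∀ g : G, (∃ j : ℕ, orderOf g = 2 ^ j) → g ^ k = g ^ 3)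
    (hk₂ : ∀ g : G, Odd (orderOf g) → g ^ k = g) (g : G) : g ^ k ^ 2 ^ Nat.card G = g := by
  have h0 : orderOf g ≠ 0 := (orderOf_pos g).ne'
  obtain ⟨a, m, hm, e⟩ := Nat.exists_eq_two_pow_mul_odd h0
  have hm0 : m ≠ 0 := hm.pos.ne'
  have h1 : orderOf (g ^ m) = 2 ^ a := by
    rw [orderOf_pow' g hm0, e, Nat.gcd_mul_left_left, Nat.mul_div_cancel _ hm.pos]
  have h2 : orderOf (g ^ 2 ^ a) = m := by
    rw [orderOf_pow' g (by positivity), e, Nat.gcd_mul_right_left,
      Nat.mul_div_cancel_left _ (by positivity)]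
  have h3 : k ≡ 3 [MOD 2 ^ a] := by
    rw [← h1]; exact pow_eq_pow_iff_modEq.1 (hk₁ _ ⟨a, h1⟩)
  have h4 : k ≡ 1 [MOD m] := by
    rw [← h2]; exact pow_eq_pow_iff_modEq.1 ((hk₂ _ (h2 ▸ hm)).trans (pow_one _).symm)
  have ha : a ≤ Nat.card G := by
    have h5 : 2 ^ a ≤ Nat.card G :=
      Nat.le_of_dvd Nat.card_pos ((Dvd.intro _ e.symm).trans (orderOf_dvd_natCard g))
    exact (Nat.lt_two_pow_self.le).trans h5
  have h6 : 3 ^ 2 ^ Nat.card G ≡ 1 [MOD 2 ^ a] := by
    have h7 := Nat.ModEq.pow_totient (x := 3) (n := 2 ^ a)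
      (Nat.Coprime.pow_right a (by norm_num))
    have h8 : Nat.totient (2 ^ a) ∣ 2 ^ Nat.card G := by
      rcases a with _ | a
      · simp
      · rw [Nat.totient_prime_pow_succ Nat.prime_two]
        simpa using pow_dvd_pow 2 (by omega)
    obtain ⟨c, hc⟩ := h8
    rw [hc, pow_mul]
    simpa using h7.pow c
  have h9 : k ^ 2 ^ Nat.card G ≡ 1 [MOD orderOf g] := by
    rw [e]
    refine (Nat.modEq_and_modEq_iff_modEq_mul
      (Nat.Coprime.pow_left a ((Nat.coprime_two_left.2 hm)))).1 ⟨(h3.pow _).trans h6, ?_⟩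
    simpa using h4.pow (2 ^ Nat.card G)
  exact (pow_eq_pow_iff_modEq.2 h9).trans (pow_one g)

theorem odd_card_linear {M : Ideal AlgInt} (hM : IsPModular 2 M)
    (h : ¬ 2 ∣ (commutator G).index) :
    ¬ 2 ∣ Nat.card {χ : IrrCharacter G | χ ∈ principalBlock M G ∧ charDegree (χ : G → ℂ) = 1} := by
  haveI : Fact (Nat.Prime 2) := ⟨Nat.prime_two⟩
  set S := {χ : IrrCharacter G | χ ∈ principalBlock M G ∧ charDegree (χ : G → ℂ) = 1} with hS
  have h1 := card_modEq_card_fixed (S := S) (f := barI) (p := 2) (n := 1)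
    (fun χ hχ => ⟨barI_mem_principalBlock hM hχ.1, (charDegree_barI χ).trans hχ.2⟩)
    (fun χ _ => barI_barI χ)
  have h2 : Nat.card {x // x ∈ S ∧ barI x = x} = 1 := by
    rw [Nat.card_eq_one_iff_exists]
    refine ⟨⟨⟨fun _ => 1, isIrrCharacter_one⟩, ⟨one_mem_principalBlock hM, deg_const_one⟩,
      Subtype.ext (funext fun g => barI_apply_eq_inv _ g)⟩, ?_⟩
    rintro ⟨χ, ⟨-, hd⟩, hb⟩
    refine Subtype.ext (Subtype.ext ?_)
    obtain ⟨lam, hl⟩ := (linearEquivIrr G).surjective ⟨χ, (deg_eq_one_iff χ.2.isCharacter).1 hd⟩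
    have h3 : ∀ g, (χ : G → ℂ) g = lam g := fun g => by
      rw [← linearEquivIrr_apply, hl]
    have h4 : lam ^ 2 = 1 := by
      ext g
      have h5 := barI_apply_eq_inv χ g
      rw [hb, h3, h3] at h5
      rw [MonoidHom.pow_apply, pow_two, Units.val_mul]
      nth_rewrite 1 [h5]
      rw [← Units.val_mul, ← map_mul, inv_mul_cancel, map_one, MonoidHom.one_apply]
    have h6 : orderOf lam = 1 := by
      refine Nat.eq_one_of_dvd_coprimes ?_ (orderOf_dvd_of_pow_eq_one h4) (orderOf_dvd_natCard lam)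
      rw [card_monoidHom_units]
      exact (Nat.prime_two.coprime_iff_not_dvd).2 h
    funext g
    rw [h3, orderOf_eq_one_iff.1 h6]
    rfl
  rw [h2] at h1
  intro hd
  exact absurd ((h1.dvd_iff dvd_rfl).1 hd) (by norm_num)

theorem odd_card_nonlinear {M : Ideal AlgInt} (hM : IsPModular 2 M) (h2 : 2 ∣ Nat.card G)
    (h : ¬ 2 ∣ (commutator G).index) :
    ¬ 2 ∣ Nat.card {χ : IrrCharacter G | χ ∈ principalBlock M G ∧ Odd (charDegree (χ : G → ℂ)) ∧
      charDegree (χ : G → ℂ) ≠ 1} := by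
  classical
  intro hd
  apply odd_card_linear hM h
  have h1 : 2 ∣ ∑ χ ∈ Finset.univ.filter (· ∈ principalBlock M G), charDegree (χ : G → ℂ) ^ 2 :=
    (dvd_pow_self 2 (Nat.prime_two.factorization_pos_of_dvd Nat.card_pos.ne' h2).ne').trans
      (by convert pow_dvd_sum_degree_sq hM (isPBlock_principalBlock (M := M) (G := G)))
  have h3 : ∑ χ ∈ Finset.univ.filter (· ∈ principalBlock M G), charDegree (χ : G → ℂ) ^ 2 ≡
      ∑ χ ∈ Finset.univ.filter (· ∈ principalBlock M G),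
        ((if charDegree (χ : G → ℂ) = 1 then 1 else 0) +
          (if Odd (charDegree (χ : G → ℂ)) ∧ charDegree (χ : G → ℂ) ≠ 1 then 1 else 0)) [MOD 2] := by
    refine Nat.ModEq.sum fun χ _ => ?_
    by_cases h4 : charDegree (χ : G → ℂ) = 1
    · simp [h4, Nat.ModEq]
    · rcases Nat.even_or_odd (charDegree (χ : G → ℂ)) with h5 | h5
      · rw [if_neg h4, if_neg fun h6 => (Nat.not_even_iff_odd.2 h6.1) h5]
        exact (Nat.modEq_zero_iff_dvd).2 (dvd_pow h5.two_dvd two_ne_zero)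
      · rw [if_neg h4, if_pos ⟨h5, h4⟩]
        exact Nat.odd_iff.1 h5.pow
  rw [Finset.sum_add_distrib, ← Finset.card_filter, ← Finset.card_filter, Finset.filter_filter,
    Finset.filter_filter] at h3
  have h7 := (h3.dvd_iff dvd_rfl).1 h1
  rw [Nat.card_eq_fintype_card, Fintype.card_subtype] at hd ⊢
  exact (Nat.dvd_add_iff_left hd).2 h7

end

/-- Let G be a finite group and M a maximal ideal of the algebraic integers containing 2. Let k be a natural number with g ^ k = g ^ 3 for every 2-element g and g ^ k = g for every element g of odd order (such k exist); an irreducible character χ is unchanged by g ↦ g ^ k exactly when it is fixed by the field automorphism that cubes the 2-power roots of unity and fixes the roots of unity of odd order. Then G has a normal 2-complement if and only if every member χ of the principal 2-block of odd degree with χ (g ^ k) = χ g for all g has degree one. -/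
theorem result {G : Type*} [Group G] [Finite G] (M : Ideal Cfsg.AlgInt) (hM : Cfsg.IsPModular 2 M) (k : ℕ) (hk₁ : ∀ g : G, (∃ j : ℕ, orderOf g = 2 ^ j) → g ^ k = g ^ 3) (hk₂ : ∀ g : G, Odd (orderOf g) → g ^ k = g) : Cfsg.HasNormalPComplement 2 G ↔ ∀ χ ∈ Cfsg.principalBlock M G, Odd (Cfsg.charDegree (χ : G → ℂ)) → (∀ g : G, (χ : G → ℂ) (g ^ k) = (χ : G → ℂ) g) → Cfsg.charDegree (χ : G → ℂ) = 1 := by
  classical
  haveI : Fact (Nat.Prime 2) := ⟨Nat.prime_two⟩
  constructor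
  · intro h χ hχ hodd _
    obtain ⟨j, hj⟩ := exists_index_pResidual_eq (p := 2) (G := G)
    have h1 : pResidual 2 G ≤ charKer (χ : G → ℂ) := fun g hg =>
      pPrimeCore_le_charKer hM hχ
        (Cfsg.Lib.Solv.le_pPrimeCore inferInstance (hasNormalPComplement_iff_coprime.1 h) hg)
    have h2 := (deg_dvd_index_charKer χ.2).trans (Subgroup.index_dvd_of_le h1)
    rw [hj] at h2
    exact Nat.eq_one_of_dvd_coprimes
      (Nat.Coprime.pow_right j ((Nat.coprime_two_right.2 hodd))) dvd_rfl h2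
  · intro h
    rw [hasNormalPComplement_iff_not_dvd]
    intro h2
    set K := pResidual 2 G with hK
    obtain ⟨j, hj⟩ := exists_index_pResidual_eq (p := 2) (G := G)
    have hc := not_dvd_index_commutator_pResidual (G := G) Nat.prime_two
    have hk := coprime_k hk₁ hk₂
    have hkK := coprime_card_subgroup hk K
    obtain ⟨P⟩ : Nonempty (Sylow 2 G) := inferInstance
    set S := {χ : IrrCharacter K | χ ∈ principalBlock M K ∧ Odd (charDegree (χ : K → ℂ)) ∧
      charDegree (χ : K → ℂ) ≠ 1} with hS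
    have hS1 : ¬ 2 ∣ Nat.card S := odd_card_nonlinear hM h2 hc
    have hS2 := card_modEq_card_fixed (S := S) (f := powI hkK) (p := 2) (n := Nat.card G)
      (fun χ hχ => ⟨powI_mem_block hM isPBlock_principalBlock hkK (fun g hg => Subtype.ext
          (hk₂ g (by rw [Subgroup.orderOf_coe]; exact Nat.odd_iff.2 (Nat.two_dvd_ne_zero.1 hg))))
          hχ.1, by rw [charDegree_powI]; exact hχ.2⟩)
      (fun χ _ => iterate_powI_eq_self hkK (fun g => Subtype.ext (pow_iter hk₁ hk₂ g)) χ)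
    have hinv : ∀ (g : G) (θ : IrrCharacter K), (θ ∈ S ∧ powI hkK θ = θ) →
        (cjI g θ ∈ S ∧ powI hkK (cjI g θ) = cjI g θ) := by
      rintro g θ ⟨⟨h3, h4⟩, h5⟩
      refine ⟨⟨?_, by rw [charDegree_cjI]; exact h4⟩, by rw [powI_cjI, h5]⟩
      rw [← cjB_principalBlock g]
      exact cjI_mem_cjB.2 h3
    let F : (K → ℂ) → ℕ := fun θ => if ∃ φ : IrrCharacter K, (φ : K → ℂ) = θ ∧ φ ∈ S ∧ powI hkK φ = φ
      then 1 else 0
    have hF : ∀ θ : IrrCharacter K, F θ = if θ ∈ S ∧ powI hkK θ = θ then 1 else 0 := fun θ =>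
      if_congr ⟨fun ⟨φ, e, hφ⟩ => (Subtype.ext e : φ = θ) ▸ hφ, fun hθ => ⟨θ, rfl, hθ⟩⟩ rfl rfl
    have hS3 := sum_inertia_modEq K P.isPGroup' F fun g _ θ => by
      refine if_congr ⟨fun ⟨φ, e, hφ⟩ => ⟨cjI g⁻¹ φ, ?_, hinv _ _ hφ⟩,
        fun ⟨φ, e, hφ⟩ => ⟨cjI g φ, by rw [coe_cjI, e], hinv _ _ hφ⟩⟩ rfl rfl
      rw [coe_cjI, e]
      funext n
      simp [conjChar, mul_assoc]
    simp only [hF] at hS3
    rw [← Finset.card_filter, ← Finset.card_filter, Finset.filter_filter] at hS3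
    rw [Nat.card_eq_fintype_card (α := {x // x ∈ S ∧ powI hkK x = x}), Fintype.card_subtype] at hS2
    have hS4 := hS3.trans hS2.symm
    obtain ⟨θ, hθ⟩ := Finset.card_pos.1 (Nat.pos_of_ne_zero fun h0 => hS1
      ((hS4.dvd_iff dvd_rfl).1 (h0 ▸ dvd_zero 2)))
    obtain ⟨-, hθP, ⟨hθB, hθo, hθ1⟩, hθk⟩ := Finset.mem_filter.1 hθ
    have hI : inertia K (θ : K → ℂ) = ⊤ := by
      rw [eq_top_iff, ← pResidual_sup_sylow P]
      exact sup_le (le_inertia θ.2.isClassFunction) hθP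
    have hcop1 : K.index.Coprime (detOrder (θ : K → ℂ)) := by
      rw [hj]
      exact Nat.Coprime.pow_left j ((Nat.prime_two.coprime_iff_not_dvd).2 fun h3 =>
        hc (h3.trans (detOrder_dvd_index_commutator _)))
    obtain ⟨χ, ⟨hχ, hres, hdet⟩, huniq⟩ := exists_canonical_ext θ.2
      (fun g n => mem_inertia'.1 (hI ▸ Subgroup.mem_top g) n) (apply_one_eq θ.2.isCharacter)
      (Nat.Coprime.mul_right hcop1 (by
        rw [hj]; exact Nat.Coprime.pow_left j ((Nat.coprime_two_left.2 hθo))))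
    have hdeg : charDegree χ = charDegree (θ : K → ℂ) := deg_congr (hres 1)
    have hχB : (⟨χ, hχ⟩ : IrrCharacter G) ∈ principalBlock M G := by
      have e := Covers.eq_of_index hM ⟨j, hj⟩ (covers_principalBlock hM K)
        ⟨⟨χ, hχ⟩, mem_blockOf_self hM _, θ, hθB, over_of_res_eq θ.2 hres⟩ isPBlock_principalBlock
        (isPBlock_blockOf ⟨χ, hχ⟩) isPBlock_principalBlock
      rw [← e]
      exact mem_blockOf_self hM ⟨χ, hχ⟩
    refine hθ1 (hdeg ▸ h ⟨χ, hχ⟩ hχB (hdeg ▸ hθo) ?_)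
    have h3 := huniq _ (powI hk ⟨χ, hχ⟩).2 (fun n => by
      rw [powI_apply, ← (powI_eq_self_iff hkK).1 hθk n, ← hres]; rfl)
      (Nat.Coprime.coprime_dvd_right (detOrder_comp_pow_dvd hχ.isCharacter hk) (hdet ▸ hcop1))
    exact fun g => congrFun h3 g

end Cfsg.Agent.S4549
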