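import Cfsg.Statements.S4550
import Cfsg.Agent.Block.GalPow
import Mathlib.Algebra.BigOperators.Ring.Nat

set_option autoImplicit false
open Cfsg

namespace Cfsg.Agent.S4550

open Cfsg.Lib.Block Cfsg.Lib.Char

/-- Let G be a finite group of even order and M a maximal ideal of the algebraic integers containing 2. Let k be a natural number with g ^ k = g ^ 3 for every 2-element g and g ^ k = g for every element g of odd order (such k exist); an irreducible character χ is unchanged by g ↦ g ^ k exactly when it is fixed by the field automorphism that cubes the 2-power roots of unity and fixes the roots of unity of odd order. Then the number of members χ of the principal 2-block of odd degree with χ (g ^ k) = χ g for all g is even. -/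
theorem result {G : Type*} [Group G] [Finite G] (M : Ideal Cfsg.AlgInt) (hM : Cfsg.IsPModular 2 M) (hev : Even (Nat.card G)) (k : ℕ) (hk₁ : ∀ g : G, (∃ j : ℕ, orderOf g = 2 ^ j) → g ^ k = g ^ 3) (hk₂ : ∀ g : G, Odd (orderOf g) → g ^ k = g) : Even (Nat.card {χ : Cfsg.IrrCharacter G // χ ∈ Cfsg.principalBlock M G ∧ Odd (Cfsg.charDegree (χ : G → ℂ)) ∧ ∀ g : G, (χ : G → ℂ) (g ^ k) = (χ : G → ℂ) g}) := by
  classical
  have : Fact (Nat.Prime 2) := ⟨Nat.prime_two⟩
  have hk : k.Coprime (Nat.card G) := coprime_card_of_pow_ne_one fun g hg h => by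
    rcases hg.eq_two_or_odd' with h2 | h2
    · rw [hk₁ g ⟨1, h2⟩, ← orderOf_dvd_iff_pow_eq_one, h2] at h
      exact absurd h (by norm_num)
    · rw [hk₂ g h2] at h
      rw [h, orderOf_one] at hg
      exact Nat.not_prime_one hg
  set a := (Nat.card G).factorization 2 with ha
  have hit : ∀ g : G, g ^ k ^ 2 ^ a = g := fun g => by
    obtain ⟨x, y, rfl, hc, ⟨j, hj⟩, hy⟩ := exists_isPPart Nat.prime_two g
    have h1 : ∀ n : ℕ, x ^ k ^ n = x ^ 3 ^ n := fun n => by
      induction n with
      | zero => simp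
      | succ n ih => rw [pow_succ', pow_mul, hk₁ x ⟨j, hj⟩, ← pow_mul, mul_comm, pow_mul, ih,
          ← pow_mul, ← pow_succ]
    have h2 : ∀ n : ℕ, y ^ k ^ n = y := fun n => by
      induction n with
      | zero => simp
      | succ n ih => rw [pow_succ, pow_mul, ih, hk₂ y (Nat.two_dvd_ne_zero.mp hy |> Nat.odd_iff.mpr)]
    rw [hc.mul_pow, h1, h2]
    congr 1
    conv_rhs => rw [← pow_one x]
    rw [pow_eq_pow_iff_modEq, hj]
    have hja : j ≤ a := (Nat.prime_two.pow_dvd_iff_le_factorization Nat.card_pos.ne').mp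
      (hj ▸ orderOf_dvd_natCard x)
    have h3 := Nat.ModEq.pow_totient (x := 3) (n := 2 ^ (a + 1)) (Nat.Coprime.pow_right _ (by norm_num))
    rw [Nat.totient_prime_pow_succ Nat.prime_two] at h3
    simpa using h3.of_dvd (pow_dvd_pow 2 (hja.trans a.le_succ))
  have h1 := card_modEq_card_fixed (p := 2) (n := a)
    (S := {χ | χ ∈ principalBlock M G ∧ Odd (charDegree (χ : G → ℂ))}) (f := powI hk)
    (fun χ hχ => ⟨powI_mem_block hM isPBlock_principalBlock hk
      (fun g hg => hk₂ g (Nat.two_dvd_ne_zero.mp hg |> Nat.odd_iff.mpr)) hχ.1,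
      (charDegree_powI hk χ).symm ▸ hχ.2⟩)
    (fun χ _ => iterate_powI_eq_self hk hit χ)
  simp only [Set.mem_ofPred_eq, and_assoc, powI_eq_self_iff] at h1
  rw [even_iff_two_dvd, ← Nat.modEq_zero_iff_dvd]
  refine h1.symm.trans (Nat.modEq_zero_iff_dvd.mpr ?_)
  have h2 : 2 ∣ ∑ χ ∈ Finset.univ.filter (· ∈ principalBlock M G), charDegree (χ : G → ℂ) ^ 2 :=
    (dvd_pow_self 2 (Nat.prime_two.factorization_pos_of_dvd Nat.card_pos.ne'
      hev.two_dvd).ne').trans (pow_dvd_sum_degree_sq hM isPBlock_principalBlock)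
  rw [← even_iff_two_dvd, Finset.even_sum_iff_even_card_odd, Finset.filter_filter] at h2
  rw [← even_iff_two_dvd, Nat.card_eq_card_toFinset, Set.toFinset_setOf]
  simpa only [Nat.odd_pow_iff two_ne_zero] using h2

end Cfsg.Agent.S4550
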