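import Cfsg.Statements.S4552
import Cfsg.Agent.Block.DeltaP

set_option autoImplicit false
open Cfsg

namespace Cfsg.Agent.S4552

open Cfsg.Lib.Char Cfsg.Lib.Block

open Cfsg.Lib.Block.Pair

/-- Let B be a 2-block of the finite group G (relative to a maximal ideal M of the algebraic integers containing 2) whose defect group D is the direct product of two cyclic groups of the same order 2 ^ m, m ≥ 2. Then either B has 2-regular rank one and exactly 4 ^ m irreducible characters, or B has 2-regular rank three and exactly (4 ^ m + 8) / 3 irreducible characters. -/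
theorem result {G : Type*} [Group G] [Finite G] (M : Ideal Cfsg.AlgInt) (hM : Cfsg.IsPModular 2 M) (B : Set (Cfsg.IrrCharacter G)) (hB : Cfsg.IsPBlock M B) (D : Subgroup G) (hD : Cfsg.IsDefectGroup 2 M B D) (m : ℕ) (hm : 2 ≤ m) (hiso : Nonempty (D ≃* Multiplicative (ZMod (2 ^ m) × ZMod (2 ^ m)))) : (Cfsg.blockRank 2 B = 1 ∧ Nat.card B = 4 ^ m) ∨ (Cfsg.blockRank 2 B = 3 ∧ 3 * Nat.card B = 4 ^ m + 8) := by
  have : Fact (Nat.Prime 2) := ⟨Nat.prime_two⟩
  obtain ⟨φ⟩ := hiso
  obtain ⟨e, hmax⟩ := exists_isMax_eB hM hB hD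
  have hab := Princ.comm_of_homocyclic φ
  have h4 := Princ.ncard_of_homocyclic (by omega) φ
  have hF := abFree_of_ncard hM hB hmax hab h4
  have h1 := hF.card_eq hF.card_quot
  have h5 := hF.card_quot
  have h3 := blockRank_of_ncard hM hB hmax hab h4
  rw [Nat.card_congr φ.toEquiv, Nat.card_congr Multiplicative.toAdd, Nat.card_prod, Nat.card_zmod,
    ← mul_pow] at h5
  norm_num at h5
  rcases card_autT_of_ncard hM hB hmax hab h4 with h2 | h2 <;> rw [h2] at h3 h5 <;> omega

end Cfsg.Agent.S4552
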