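import Cfsg.Statements.S4553
import Cfsg.Agent.Block.GalPow
import Cfsg.Agent.Char.DegThompson
import Cfsg.Agent.Char.Extension
import Cfsg.Agent.Char.Gallagher
import Cfsg.Agent.Block.Part
import Mathlib.GroupTheory.FiniteAbelian.Duality

set_option autoImplicit false
open Cfsg

namespace Cfsg.Agent.S4553

open Cfsg Cfsg.Lib.Char Cfsg.Lib.Block Subgroup
open scoped IsMulCommutative

theorem detChar_comp_pow {G : Type*} [Group G] [Finite G] {χ : G → ℂ} (hχ : IsCharacter G χ)
    {k : ℕ} (hk : k.Coprime (Nat.card G)) (g : G) :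
    detChar (fun x => χ (x ^ k)) g = detChar χ (g ^ k) := by
  have h1 := congrFun (detChar_res (hχ.comp_pow hk) (zpowers g)) ⟨g, mem_zpowers g⟩
  have h2 := congrFun (detChar_comp hχ ((zpowers g).subtype.comp (powMonoidHom k)))
    ⟨g, mem_zpowers g⟩
  exact h1.symm.trans h2

theorem card_ker_pow {Q : Type*} [Group Q] [Finite Q] (hQ : IsCyclic Q) {p : ℕ}
    (hp : p ∣ Nat.card Q) : Nat.card {ν : Q →* ℂˣ // ν ^ p = 1} = p := by
  letI : CommGroup Q := IsCyclic.commGroup
  have : NeZero ((Monoid.exponent Q : ℕ) : ℂ) := ⟨Nat.cast_ne_zero.2 Monoid.exponent_ne_zero_of_finite⟩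
  obtain ⟨e⟩ := CommGroup.monoidHom_mulEquiv_of_hasEnoughRootsOfUnity Q ℂ
  have h := IsCyclic.card_powMonoidHom_ker (G := Q) p
  rw [Nat.gcd_eq_right hp] at h
  refine Eq.trans ?_ h
  refine Nat.card_congr (e.toEquiv.subtypeEquiv fun ν => ?_)
  simp only [MonoidHom.mem_ker, powMonoidHom_apply, MulEquiv.toEquiv_eq_coe, EquivLike.coe_coe]
  rw [← map_pow, MulEquiv.map_eq_one_iff]

/-- Let G be a finite group, p a prime, P a Sylow p-subgroup, N the p-residual of G (the subgroup generated by the elements of order prime to p, the smallest normal subgroup with G/N a p-group), and M a maximal ideal of the algebraic integers containing p; suppose G/N is cyclic and nontrivial. Let k be a natural number with g ^ k = g ^ (1 + p) for every p-element g and g ^ k = g for every element g of order prime to p (so that χ (g ^ k) is the image of χ g under the field automorphism that raises p-power roots of unity to the power 1 + p and fixes the roots of unity of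 order prime to p). Then the number of members χ of the principal block of G of degree prime to p with χ (g ^ k) = χ g for all g equals p times the number of members θ of the principal block of N of degree prime to p that are invariant under conjugation by P and satisfy θ (n ^ k) = θ n for all n. -/
theorem result {G : Type*} [Group G] [Finite G] (p : ℕ) [Fact p.Prime] (M : Ideal Cfsg.AlgInt) (hM : Cfsg.IsPModular p M) (P : Sylow p G) (N : Subgroup G) [hN : N.Normal] (hNres : N = Cfsg.pResidual p G) (hcyc : IsCyclic (G ⧸ N)) (hnt : N ≠ ⊤) (k : ℕ) (hk₁ : ∀ g : G, (∃ j : ℕ, orderOf g = p ^ j) → g ^ k = g ^ (1 + p)) (hk₂ : ∀ g : G, Nat.Coprime (orderOf g) p → g ^ k = g) : Nat.card {χ : Cfsg.IrrCharacter G // χ ∈ Cfsg.principalBlock M G ∧ ¬ p ∣ Cfsg.charDegree (χ : G → ℂ) ∧ ∀ g : G, (χ : G → ℂ) (g ^ k) = (χ : G → ℂ) g} = p * Nat.card {θ : Cfsg.IrrCharacter ↥N // θ ∈ Cfsg.principalBlock M ↥N ∧ ¬ p ∣ Cfsg.charDegree (θ : ↥N → ℂ) ∧ (∀ x ∈ (P : Subgroup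 G), ∀ n : ↥N, (θ : ↥N → ℂ) ⟨x * n * x⁻¹, hN.conj_mem n n.2 x⟩ = (θ : ↥N → ℂ) n) ∧ ∀ n : ↥N, (θ : ↥N → ℂ) (n ^ k) = (θ : ↥N → ℂ) n} := by
  classical
  have hp : p.Prime := Fact.out
  have := Fintype.ofFinite G
  have := Fintype.ofFinite N
  have hk : k.Coprime (Nat.card G) := coprime_card_of_pow_ne_one fun g hg h => by
    by_cases h2 : orderOf g = p
    · rw [hk₁ g ⟨1, by rw [h2, pow_one]⟩, ← orderOf_dvd_iff_pow_eq_one, h2,
        Nat.dvd_add_self_right, Nat.dvd_one] at h
      exact hp.ne_one h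
    · rw [hk₂ g ((Nat.coprime_primes hg hp).2 h2)] at h
      rw [h, orderOf_one] at hg
      exact Nat.not_prime_one hg
  obtain ⟨a, ha⟩ : ∃ a, N.index = p ^ a := hNres ▸ Lib.Trans.exists_index_pResidual_eq
  have hsup : N ⊔ (P : Subgroup G) = ⊤ := hNres ▸ Lib.Trans.pResidual_sup_sylow P
  have hdec : ∀ g : G, ∃ n ∈ N, ∃ x ∈ (P : Subgroup G), g = n * x := by
    intro g
    have hg : g ∈ N ⊔ (P : Subgroup G) := hsup ▸ mem_top g
    rw [← SetLike.mem_coe, normal_mul] at hg
    obtain ⟨n, hn, x, hx, rfl⟩ := hg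
    exact ⟨n, hn, x, hx, rfl⟩
  have hQk : ∀ g : G, ((g ^ k : G) : G ⧸ N) = (g : G ⧸ N) ^ (1 + p) := by
    intro g
    obtain ⟨n, hn, x, hx, rfl⟩ := hdec g
    obtain ⟨j, hj⟩ := (IsPGroup.iff_orderOf.1 P.isPGroup') ⟨x, hx⟩
    rw [QuotientGroup.mk_pow, QuotientGroup.mk_mul, (QuotientGroup.eq_one_iff n).2 hn, one_mul,
      ← QuotientGroup.mk_pow, hk₁ x ⟨j, by rw [← hj, ← orderOf_coe]⟩, QuotientGroup.mk_pow]
  have hpQ : p ∣ Nat.card (G ⧸ N) := by
    rw [← index_eq_card, ha]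
    refine dvd_pow_self p ?_
    rintro rfl
    exact hnt (index_eq_one.1 (by simpa using ha))
  have hB : principalBlock M G = overSet N (principalBlock M N) :=
    (covers_principalBlock hM N).eq_overSet_of_index hM ⟨a, ha⟩ isPBlock_principalBlock'
      isPBlock_principalBlock'
  -- fixed extensions
  have hext : ∀ θ : {θ : IrrCharacter N // θ ∈ principalBlock M N ∧
      ¬ p ∣ charDegree (θ : N → ℂ) ∧ (∀ x ∈ (P : Subgroup G), ∀ n : N,
        (θ : N → ℂ) ⟨x * n * x⁻¹, hN.conj_mem n n.2 x⟩ = (θ : N → ℂ) n) ∧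
        ∀ n : N, (θ : N → ℂ) (n ^ k) = (θ : N → ℂ) n},
      ∃ χ : G → ℂ, IsIrrCharacter G χ ∧ (∀ n : N, χ n = (θ.1 : N → ℂ) n) ∧
        ∀ g, χ (g ^ k) = χ g := by
    rintro ⟨θ, -, hd, hP, hθk⟩
    have hinv : ∀ (g : G) (n : N), (θ : N → ℂ) ⟨g * n * g⁻¹, hN.conj_mem n n.2 g⟩ =
        (θ : N → ℂ) n := by
      intro g m
      obtain ⟨n, hn, x, hx, rfl⟩ := hdec g
      rw [← hP x hx m, ← θ.2.isClassFunction ⟨x * m * x⁻¹, hN.conj_mem m m.2 x⟩ ⟨n, hn⟩]
      exact congrArg _ (Subtype.ext (by simp [mul_assoc]))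
    have hdo : ¬ p ∣ detOrder (θ : N → ℂ) := fun h => by
      have h1 := h.trans (detOrder_dvd_index_commutator (θ : N → ℂ))
      subst hNres
      exact Deg.not_dvd_index_commutator_pResidual hp h1
    have hcop : N.index.Coprime (detOrder (θ : N → ℂ) * charDegree (θ : N → ℂ)) := by
      rw [ha]
      exact Nat.Coprime.pow_left a (Nat.Coprime.mul_right (hp.coprime_iff_not_dvd.2 hdo)
        (hp.coprime_iff_not_dvd.2 hd))
    obtain ⟨χ, ⟨hχ, he, hdet⟩, huniq⟩ :=
      exists_canonical_ext θ.2 hinv (irr_charDegree_cast θ).symm hcop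
    refine ⟨χ, hχ, he, fun g => congrFun (huniq (fun g => χ (g ^ k)) (hχ.comp_pow hk)
      (fun n => ?_) ?_) g⟩
    · rw [← hθk n, ← he]; rfl
    · refine Nat.Coprime.coprime_dvd_right ?_ (Nat.Coprime.coprime_mul_right_right hcop)
      rw [← hdet, detOrder_dvd_iff]
      intro g
      rw [detChar_comp_pow hχ.isCharacter hk, detChar_pow_detOrder]
  choose ext hirr hres hfix using hext
  refine Eq.trans ?_ ((congrArg₂ (· * ·) rfl (card_ker_pow hcyc hpQ)).trans (mul_comm _ _))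
  beta_reduce
  rw [← Nat.card_prod]
  symm
  have hirrN : ∀ θ, IsIrrCharacter N (fun n : N => ext θ n) := fun θ => by
    rw [funext (hres θ)]; exact θ.1.2
  refine Nat.card_eq_of_bijective (fun x => ⟨⟨ext x.1 * fun g : G => (x.2.1 (g : G ⧸ N) : ℂ),
    (hirr x.1).mul_monoidHom (x.2.1.comp (QuotientGroup.mk' N))⟩, ?_, ?_, ?_⟩) ⟨?_, ?_⟩
  · rw [hB]
    refine ⟨x.1.1, x.1.2.1, over_of_res_eq x.1.1.2 fun n => ?_⟩
    simp [hres, (QuotientGroup.eq_one_iff _).2 n.2]
  · have : charDegree (ext x.1 * fun g : G => (x.2.1 (g : G ⧸ N) : ℂ)) =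
        charDegree (x.1.1 : N → ℂ) := Deg.deg_congr (by simpa using hres x.1 1)
    rw [this]
    exact x.1.2.2.1
  · intro g
    have h1 : x.2.1 (g : G ⧸ N) ^ p = 1 := by
      rw [← MonoidHom.pow_apply, x.2.2, MonoidHom.one_apply]
    simp only [Pi.mul_apply, hfix]
    rw [hQk, map_pow, pow_add, pow_one, h1, mul_one]
  · rintro ⟨θ, ν⟩ ⟨θ', ν'⟩ h
    have h1 : (ext θ * fun g : G => (ν.1 (g : G ⧸ N) : ℂ)) =
        ext θ' * fun g : G => (ν'.1 (g : G ⧸ N) : ℂ) :=
      congrArg (fun y => y.1.1) h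
    have h2 : θ = θ' := by
      refine Subtype.ext (Subtype.ext (funext fun n => ?_))
      have := congrFun h1 n
      simpa [hres, (QuotientGroup.eq_one_iff _).2 n.2] using this
    subst h2
    have h3 := (galData_subtype N (hirr θ).isCharacter (hirrN θ)).eq_of_mul_eq
      (β := fun q => (ν.1 q : ℂ)) (β' := fun q => (ν'.1 q : ℂ)) (fun g => congrFun h1 g)
    have h4 : ν = ν' := Subtype.ext (MonoidHom.ext fun q => Units.ext (congrFun h3 q))
    rw [h4]
  · rintro ⟨χ, hχB, hχd, hχk⟩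
    have hr : IsIrrCharacter N fun n : N => (χ : G → ℂ) n :=
      irr_res_of_coprime χ.2 (irr_charDegree_cast χ).symm
        (ha ▸ Nat.Coprime.pow_right a (hp.coprime_iff_not_dvd.2 hχd).symm)
    let θ : {θ : IrrCharacter N // θ ∈ principalBlock M N ∧
      ¬ p ∣ charDegree (θ : N → ℂ) ∧ (∀ x ∈ (P : Subgroup G), ∀ n : N,
        (θ : N → ℂ) ⟨x * n * x⁻¹, hN.conj_mem n n.2 x⟩ = (θ : N → ℂ) n) ∧
        ∀ n : N, (θ : N → ℂ) (n ^ k) = (θ : N → ℂ) n} :=
      ⟨⟨_, hr⟩, mem_principalBlock_of_over hM hχB (over_of_res_eq hr fun _ => rfl),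
        hχd, fun x _ n => χ.2.isClassFunction n x, fun n => hχk n⟩
    obtain ⟨ν, hν⟩ := (galData_subtype N (hirr θ).isCharacter (hirrN θ)).exists_monoidHom_of_ext
      χ.2.isCharacter (fun n => (hres θ n).symm)
    have hνp : ν ^ p = 1 := by
      have h3 := (galData_subtype N (hirr θ).isCharacter (hirrN θ)).eq_of_mul_eq
        (β := fun q => (ν q : ℂ) ^ (1 + p)) (β' := fun q => (ν q : ℂ)) (fun g => by
          have h4 := hχk g
          rw [hν] at h4
          simp only [hfix, QuotientGroup.mk'_apply] at h4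
          rw [hQk, map_pow, Units.val_pow_eq_pow_val] at h4
          exact h4)
      refine MonoidHom.ext fun q => Units.ext ?_
      have h5 := congrFun h3 q
      simp only [pow_add, pow_one, mul_eq_left₀ (ν q).ne_zero] at h5
      simpa using h5
    exact ⟨(θ, ⟨ν, hνp⟩), Subtype.ext (Subtype.ext hν.symm)⟩

end Cfsg.Agent.S4553
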