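import Cfsg.Statements.S4560
import Cfsg.Agent.Char.SymThree

set_option autoImplicit false
open Cfsg

namespace Cfsg.Agent.S4560

open Cfsg.Lib.SymChar

theorem two_aux {n w a b c : ℕ} (hn : 7 ≤ n) (hw : 0 < w) (h0 : c ≤ b) (h1 : c < 2)
    (h2 : b + 1 = 2 + c) (h3 : a + 1 = 2 + b) (hs : a + 2 * w + b + c = n) :
    ∃ χ : IrrCharacter (alternatingGroup (Fin n)), (∃ x : alternatingGroup (Fin n),
      (∃ j : ℕ, orderOf x = 2 ^ j) ∧ (χ : alternatingGroup (Fin n) → ℂ) x = 0) ∧
      ∃ ψ : IrrCharacter (Equiv.Perm (Fin n)), ∀ x : alternatingGroup (Fin n),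
        (ψ : Equiv.Perm (Fin n) → ℂ) x = (χ : alternatingGroup (Fin n) → ℂ) x := by
  have hN : 3 ≤ Fintype.card (Fin n) := by simp; omega
  obtain ⟨χ, ψ, h, hr⟩ := exists_alt_three (Ω := Fin n) (a := a + 2 * (w - 1)) (r := 2) hN h0 h1
    (Or.inr h2) (by omega) even_two (by simp; omega)
  rw [show a + 2 * (w - 1) + 2 = a + 2 * w by omega] at h
  obtain ⟨r, hr1, hr2⟩ : ∃ r, (r = 1 ∨ r = 2) ∧ r % 2 = w % 2 := by
    rcases Nat.mod_two_eq_zero_or_one w with e | e
    exacts [⟨2, Or.inr rfl, e.symm⟩, ⟨1, Or.inl rfl, e.symm⟩]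
  obtain ⟨g, hg⟩ := exists_parts_eq (Ω := Fin n) (μ := ((2 * r) ::ₘ
    Multiset.replicate (w + 1 - r) 2) + Multiset.replicate (a + b + c - 2) 1)
    (by simp [Multiset.mem_replicate]; omega) (by simp; omega)
  refine ⟨χ, ⟨⟨g, ?_⟩, ?_, (hr _).symm.trans (h.apply_eq_zero ?_)⟩, ψ, hr⟩
  · rw [mem_alternatingGroup_iff_parts, hg, Nat.even_iff]
    simp
    omega
  · rw [Subgroup.orderOf_mk]
    refine ⟨_, Nat.eq_prime_pow_of_unique_prime_dvd (orderOf_pos g).ne' fun {q} hq hd => ?_⟩
    obtain ⟨s, h4, h5⟩ := (dvd_orderOf_iff hq g).1 hd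
    refine (Nat.prime_dvd_prime_iff_eq hq Nat.prime_two).1 (hq.dvd_of_dvd_pow (n := 2)
      (h5.trans ?_))
    simp only [hg, Multiset.mem_add, Multiset.mem_cons, Multiset.mem_replicate] at h4
    rcases h4 with (rfl | ⟨-, rfl⟩) | ⟨-, rfl⟩
    · rcases hr1 with rfl | rfl <;> decide
    all_goals decide
  · by_contra e
    rw [hg] at e
    have := sum_le_of_F_ne_zero two_pos (fun s hs => by
      rcases Multiset.mem_cons.1 hs with rfl | hs
      · exact dvd_mul_right _ _
      · rw [Multiset.eq_of_mem_replicate hs]) e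
    rw [wt_three hN h0 h1 (Or.inr h2) h3] at this
    simp at this
    omega

theorem three_aux {n w a b c : ℕ} (hn : 7 ≤ n) (h0 : c ≤ b) (h1 : c < 3) (hb : b ≤ 2)
    (h2 : b + 2 ≤ 3 ∨ b + 1 = 3 + c) (h3 : a + 1 = 3 + b) (hs : a + 3 * w + b + c = n)
    (hw : b + 4 ≤ a + 3 * w) (ha : 3 ≤ a) :
    ∃ χ : IrrCharacter (alternatingGroup (Fin n)), (∃ y : alternatingGroup (Fin n),
      orderOf y = 3 ∧ (χ : alternatingGroup (Fin n) → ℂ) y = 0) ∧
      ∃ ψ : IrrCharacter (Equiv.Perm (Fin n)), ∀ x : alternatingGroup (Fin n),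
        (ψ : Equiv.Perm (Fin n) → ℂ) x = (χ : alternatingGroup (Fin n) → ℂ) x := by
  have hN : 3 ≤ Fintype.card (Fin n) := by simp; omega
  obtain ⟨χ, ψ, h, hr⟩ := exists_alt_three (Ω := Fin n) (a := a + 3 * w - 4) (r := 4) hN h0
    (by omega) (Or.inl (by omega)) (by omega) (by decide) (by simp; omega)
  rw [show a + 3 * w - 4 + 4 = a + 3 * w by omega] at h
  obtain ⟨g, hg⟩ := exists_parts_eq (Ω := Fin n) (μ := Multiset.replicate (w + 1) 3 +
    Multiset.replicate (a + b + c - 3) 1) (by simp [Multiset.mem_replicate]) (by simp; omega)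
  refine ⟨χ, ⟨⟨g, ?_⟩, ?_, (hr _).symm.trans (h.apply_eq_zero ?_)⟩, ψ, hr⟩
  · rw [mem_alternatingGroup_iff_parts, hg, Nat.even_iff]
    simp
    omega
  · have := Fact.mk Nat.prime_three
    rw [Subgroup.orderOf_mk]
    refine orderOf_eq_prime (Equiv.Perm.pow_prime_eq_one_iff.2 fun s hs => ?_) ?_
    · have h4 : s ∈ parts g := Multiset.mem_add.2 (Or.inl hs)
      simp only [hg, Multiset.mem_add, Multiset.mem_replicate] at h4
      rcases h4 with ⟨-, rfl⟩ | ⟨-, rfl⟩
      · rfl
      · exact absurd hs (one_notMem_cycleType g)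
    · rintro rfl
      have h4 : 3 ∈ parts (1 : Equiv.Perm (Fin n)) := by simp [hg]
      simp [parts_one, Multiset.mem_replicate] at h4
  · by_contra e
    rw [hg] at e
    have := sum_le_of_F_ne_zero three_pos (fun s hs => by
      rw [Multiset.eq_of_mem_replicate hs]) e
    rw [wt_three hN h0 h1 h2 h3] at this
    simp at this
    omega

/-- For n ≥ 7 the alternating group on n letters has an irreducible character that vanishes at some 2-element and is the restriction of an irreducible character of the symmetric group, and an irreducible character that vanishes at some element of order 3 and is the restriction of an irreducible character of the symmetric group. -/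
theorem result (n : ℕ) (hn : 7 ≤ n) : (∃ χ : Cfsg.IrrCharacter (alternatingGroup (Fin n)), (∃ x : alternatingGroup (Fin n), (∃ j : ℕ, orderOf x = 2 ^ j) ∧ (χ : alternatingGroup (Fin n) → ℂ) x = 0) ∧ ∃ ψ : Cfsg.IrrCharacter (Equiv.Perm (Fin n)), ∀ x : alternatingGroup (Fin n), (ψ : Equiv.Perm (Fin n) → ℂ) x = (χ : alternatingGroup (Fin n) → ℂ) x) ∧ (∃ χ : Cfsg.IrrCharacter (alternatingGroup (Fin n)), (∃ y : alternatingGroup (Fin n), orderOf y = 3 ∧ (χ : alternatingGroup (Fin n) → ℂ) y = 0) ∧ ∃ ψ : Cfsg.IrrCharacter (Equiv.Perm (Fin n)), ∀ x : alternatingGroup (Fin n), (ψ : Equiv.Perm (Fin n) → ℂ) x = (χ : alternatingGroup (Fin n) → ℂ) x) := by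
  constructor
  · rcases Nat.mod_two_eq_zero_or_one n with e | e
    · exact two_aux (w := (n - 6) / 2) (a := 3) (b := 2) (c := 1) hn (by omega) (by omega)
        (by omega) rfl rfl (by omega)
    · exact two_aux (w := (n - 3) / 2) (a := 2) (b := 1) (c := 0) hn (by omega) (by omega)
        (by omega) rfl rfl (by omega)
  · rcases (by omega : n % 3 = 0 ∨ n % 3 = 1 ∨ n % 3 = 2) with e | e | e
    · exact three_aux (w := (n - 6) / 3) (a := 4) (b := 2) (c := 0) hn (by omega) (by omega)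
        (by omega) (by omega) rfl (by omega) (by omega) (by omega)
    · exact three_aux (w := (n - 4) / 3) (a := 3) (b := 1) (c := 0) hn (by omega) (by omega)
        (by omega) (by omega) rfl (by omega) (by omega) (by omega)
    · exact three_aux (w := (n - 5) / 3) (a := 3) (b := 1) (c := 1) hn (by omega) (by omega)
        (by omega) (by omega) rfl (by omega) (by omega) (by omega)

end Cfsg.Agent.S4560
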