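import Cfsg.Statements.S4561
import Cfsg.Agent.Char.CentralType
import Cfsg.Agent.Char.LinSylow

set_option autoImplicit false
universe u
open Cfsg

namespace Cfsg.Agent.S4561

open Cfsg.Lib Cfsg.Lib.Char

theorem prime_dvd_card_center {H : Type u} [Group H] [Finite H] {χ : H → ℂ}
    (hχ : IsIrrCharacter H χ) {d : ℕ} (hd : χ 1 = d) (hd2 : d ^ 2 = (Subgroup.center H).index)
    {p : ℕ} (hp : p.Prime) (hpH : p ∣ Nat.card H) : p ∣ Nat.card (Subgroup.center H) := by
  classical
  by_contra hn
  have : Fact p.Prime := ⟨hp⟩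
  obtain ⟨P⟩ : Nonempty (Sylow p H) := inferInstance
  have hvan := (hχ.nat_degree_sq_eq_index_iff hχ.center_le_charCenter hd).1 hd2
  have := Fintype.ofFinite (P : Subgroup H)
  have hz : ∀ x : (P : Subgroup H), x ≠ 1 → χ x = 0 := by
    intro x hx
    refine hvan _ fun hc => hx ?_
    obtain ⟨k, hk⟩ := IsPGroup.iff_orderOf.1 P.isPGroup' x
    have h1 : orderOf (x : H) ∣ Nat.card (Subgroup.center H) :=
      (Subgroup.center H).orderOf_dvd_natCard hc
    rw [Subgroup.orderOf_coe, hk] at h1
    have hk0 : k = 0 := by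
      by_contra hk0
      exact hn ((dvd_pow_self p hk0).trans h1)
    rw [hk0, pow_zero] at hk
    exact orderOf_eq_one_iff.1 hk
  obtain ⟨n, hn'⟩ := (hχ.isCharacter.res (P : Subgroup H)).exists_nat_classInner isCharacter_one
  rw [classInner_one_right, Finset.sum_eq_single (1 : (P : Subgroup H)) (fun x _ hx => hz x hx)
    (by simp)] at hn'
  have h2 : d = Nat.card (P : Subgroup H) * n := by
    have h3 := card_ne_zero (P : Subgroup H)
    simp only [OneMemClass.coe_one, hd] at hn'
    have : (d : ℂ) = Nat.card (P : Subgroup H) * n := by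
      rw [← hn']; field_simp
    exact_mod_cast this
  have h4 : Nat.card (P : Subgroup H) ^ 2 ∣ Nat.card H := by
    refine Dvd.dvd.trans ?_ (Subgroup.center H).index_dvd_card
    rw [← hd2, h2, mul_pow]
    exact dvd_mul_right _ _
  rw [P.card_eq_multiplicity, ← pow_mul,
    hp.pow_dvd_iff_le_factorization Nat.card_pos.ne'] at h4
  have h5 := hp.factorization_pos_of_dvd Nat.card_pos.ne' hpH
  omega

/-- For every finite solvable group G there is a finite group H with a faithful irreducible character χ whose degree squared equals the index of the centre Z(H) (so χ is fully ramified over the centre), such that G is isomorphic to a subgroup of H/Z(H), the primes dividing the orders of H, of Z(H) and of G are the same, and the order of Z(H) is squarefree. -/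
theorem result {G : Type u} [Group G] [Finite G] (hsolv : Group.IsSolvable G) : ∃ (H : Type u) (_ : Group H) (_ : Finite H) (χ : Cfsg.IrrCharacter H), (∀ h : H, (χ : H → ℂ) h = (χ : H → ℂ) 1 → h = 1) ∧ (Cfsg.charDegree (χ : H → ℂ)) ^ 2 = (Subgroup.center H).index ∧ (∃ f : G →* H ⧸ Subgroup.center H, Function.Injective f) ∧ (∀ p : ℕ, p.Prime → ((p ∣ Nat.card H ↔ p ∣ Nat.card G) ∧ (p ∣ Nat.card (Subgroup.center H) ↔ p ∣ Nat.card G))) ∧ Squarefree (Nat.card (Subgroup.center H)) := by
  have hr : ∀ p : ℕ, p.Prime → (p ∣ ∏ q ∈ (Nat.card G).primeFactors, q ↔ p ∣ Nat.card G) :=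
    fun p hp => ⟨fun h => h.trans (Nat.prod_primeFactors_dvd _), fun h =>
      Finset.dvd_prod_of_mem _ (Nat.mem_primeFactors.2 ⟨hp, h, Nat.card_pos.ne'⟩)⟩
  have hsq : Squarefree (∏ q ∈ (Nat.card G).primeFactors, q) :=
    Finset.squarefree_prod_of_pairwise_isCoprime
      (fun a ha b hb hab => Nat.coprime_iff_isRelPrime.1 ((Nat.coprime_primes
        (Nat.prime_of_mem_primeFactors ha) (Nat.prime_of_mem_primeFactors hb)).2 hab))
      (fun a ha => (Nat.prime_of_mem_primeFactors ha).prime.squarefree)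
  obtain ⟨H, _, _, Z, _, χ, d, f, hZ, hχ, hd, hd2, hf, hZr, hpr⟩ :=
    CType.ct_of_solvable (∏ q ∈ (Nat.card G).primeFactors, q) _ G rfl
      fun p hp h => (hr p hp).2 h
  have := hχ.charKer_normal
  have hZc : Z ≤ charCenter χ := hZ.trans hχ.center_le_charCenter
  have hZeq : charCenter χ = Z := by
    have h1 := hχ.nat_degree_sq_le_index le_rfl hd
    rw [hd2] at h1
    have h2 := Subgroup.relIndex_mul_index hZc
    have h3 : (charCenter χ).index ≠ 0 := Subgroup.index_ne_zero_of_finite
    have h4 : Z.index ≠ 0 := Subgroup.index_ne_zero_of_finite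
    have h5 : Z.relIndex (charCenter χ) = 1 := by
      rcases Nat.lt_trichotomy (Z.relIndex (charCenter χ)) 1 with h | h | h
      · rw [Nat.lt_one_iff.1 h, zero_mul] at h2; exact absurd h2.symm h4
      · exact h
      · nlinarith [Nat.pos_of_ne_zero h3]
    exact le_antisymm (Subgroup.relIndex_eq_one.1 h5) hZc
  have hcomap : (Subgroup.center (H ⧸ charKer χ)).comap (QuotientGroup.mk' (charKer χ)) = Z := by
    rw [← hχ.charCenter_eq_comap_center, hZeq]
  have hχ' := hχ.deflate (N := charKer χ) le_rfl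
  have hker := charKer_deflate_self hχ.isCharacter
  have hd' : deflate (charKer χ) χ 1 = d := by
    rw [← hd]; exact hχ.isClassFunction.deflate_mk le_rfl 1
  have hidx : (Subgroup.center (H ⧸ charKer χ)).index = Z.index := by
    rw [← hcomap, Subgroup.index_comap_of_surjective _ (QuotientGroup.mk'_surjective _)]
  have hexp : ∀ z : Subgroup.center (H ⧸ charKer χ),
      z ^ (∏ q ∈ (Nat.card G).primeFactors, q) = 1 := by
    rintro ⟨z, hz⟩
    obtain ⟨x, rfl⟩ := QuotientGroup.mk'_surjective _ z
    have hx : x ∈ Z := hcomap ▸ hz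
    apply Subtype.ext
    rw [SubmonoidClass.coe_pow, ← map_pow, hZr x hx, map_one, OneMemClass.coe_one]
  have hcyc := hχ'.isCyclic_center_of_faithful hker
  have hcard : Nat.card (Subgroup.center (H ⧸ charKer χ)) ∣ ∏ q ∈ (Nat.card G).primeFactors, q := by
    rw [← IsCyclic.exponent_eq_card]
    exact Monoid.exponent_dvd_of_forall_pow_eq_one hexp
  let j : H ⧸ Z →* (H ⧸ charKer χ) ⧸ Subgroup.center (H ⧸ charKer χ) :=
    QuotientGroup.map Z _ (QuotientGroup.mk' (charKer χ)) hcomap.ge
  have hj : Function.Injective j := by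
    rw [injective_iff_map_eq_one]
    intro a ha
    obtain ⟨x, rfl⟩ := QuotientGroup.mk'_surjective _ a
    have : x ∈ Z := by
      rw [← hcomap]
      exact (QuotientGroup.eq_one_iff (N := Subgroup.center (H ⧸ charKer χ)) _).1 ha
    exact (QuotientGroup.eq_one_iff _).2 this
  have hGH : Nat.card G ∣ Nat.card (H ⧸ charKer χ) := by
    refine (Subgroup.card_dvd_of_injective f hf).trans ?_
    rw [← Subgroup.index_eq_card, ← hidx]
    exact Subgroup.index_dvd_card _
  refine ⟨H ⧸ charKer χ, inferInstance, inferInstance, ⟨_, hχ'⟩, fun h hh => ?_, ?_,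
    ⟨j.comp f, hj.comp hf⟩, fun p hp => ⟨⟨fun h => ?_, fun h => h.trans hGH⟩,
      fun h => (hr p hp).1 (h.trans hcard), fun h => ?_⟩, hsq.squarefree_of_dvd hcard⟩
  · have := hχ'.mem_charKer_iff.2 hh
    rwa [hker, Subgroup.mem_bot] at this
  · rw [hidx, ← hd2]
    simp [charDegree, hd']
  · rw [← (Subgroup.center _).card_mul_index, hidx] at h
    rcases (Nat.Prime.dvd_mul hp).1 h with h | h
    · exact (hr p hp).1 (h.trans hcard)
    · exact (hr p hp).1 (hpr p hp h)
  · exact prime_dvd_card_center hχ' hd' (hd2.trans hidx.symm) hp (h.trans hGH)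

end Cfsg.Agent.S4561
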