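import Cfsg.Statements.S4563
import Cfsg.Agent.Char.FullyRam
import Cfsg.Agent.S0006

set_option autoImplicit false
open Cfsg

namespace Cfsg.Agent.S4563

open Cfsg.Lib.Char

/-- Let χ be an irreducible character of the finite group H that is fully ramified over the normal subgroup Z: the restriction of χ to Z is e times an irreducible character of Z with e ^ 2 equal to the index of Z. If K is a proper normal subgroup of H containing Z and χ is induced from a character of K, then H/K is solvable; in particular, if K is solvable then so is H. -/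
theorem result {H : Type*} [Group H] [Fintype H] (Z : Subgroup H) [Z.Normal] (χ : Cfsg.IrrCharacter H) (hfr : ∃ (θ : Cfsg.IrrCharacter ↥Z) (e : ℕ), e ^ 2 = Z.index ∧ ∀ z : ↥Z, (χ : H → ℂ) z = (e : ℂ) * (θ : ↥Z → ℂ) z) (K : Subgroup H) [K.Normal] [Fintype K] (hZK : Z ≤ K) (hK : K ≠ ⊤) (φ : ↥K → ℂ) (hφ : Cfsg.IsCharacter ↥K φ) (hind : Cfsg.indFun K φ = (χ : H → ℂ)) : Group.IsSolvable (H ⧸ K) ∧ (Group.IsSolvable ↥K → Group.IsSolvable H) := by
  obtain ⟨θ, e, he, hres⟩ := hfr
  have h : Group.IsSolvable (H ⧸ K) := by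
    refine Cfsg.Agent.S0006.result fun p hp => ?_
    have := Fact.mk hp
    obtain ⟨P₀⟩ : Nonempty (Sylow p H) := inferInstance
    obtain ⟨U, e', h1, -, h2⟩ := exists_sq_mul_index_of_fullyRamified hZK χ.2 θ.2 he hres P₀
    rw [h2 φ hφ hind, one_pow, one_mul] at h1
    exact ⟨U, h1.trans (P₀.mapSurjective (QuotientGroup.mk'_surjective K)).card_eq_multiplicity⟩
  refine ⟨h, fun hK => ?_⟩
  exact Group.isSolvable_of_ker_le_range K.subtype (QuotientGroup.mk' K) (by simp)

end Cfsg.Agent.S4563
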