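import Cfsg.Statements.S4564
import Cfsg.Agent.Char.FullyRam

set_option autoImplicit false
open Cfsg

namespace Cfsg.Agent.S4564

open Cfsg.Lib.Char

/-- Let χ be an irreducible character of the finite group H that is fully ramified over the normal subgroup Z: the restriction of χ to Z is e times an irreducible character of Z with e ^ 2 equal to the index of Z. Let K be a normal subgroup of H containing Z and P a cyclic Sylow p-subgroup of H/K. Then P has a complement in H/K: a subgroup meeting P trivially whose product with P is the whole group. -/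
theorem result {H : Type*} [Group H] [Finite H] (Z : Subgroup H) [Z.Normal] (χ : Cfsg.IrrCharacter H) (hfr : ∃ (θ : Cfsg.IrrCharacter ↥Z) (e : ℕ), e ^ 2 = Z.index ∧ ∀ z : ↥Z, (χ : H → ℂ) z = (e : ℂ) * (θ : ↥Z → ℂ) z) (K : Subgroup H) [K.Normal] (hZK : Z ≤ K) (p : ℕ) [Fact p.Prime] (P : Sylow p (H ⧸ K)) (hcyc : IsCyclic P) : ∃ M : Subgroup (H ⧸ K), M.IsComplement' (P : Subgroup (H ⧸ K)) := by
  obtain ⟨θ, e, he, hres⟩ := hfr
  have := Fintype.ofFinite H
  obtain ⟨P₀, hP₀⟩ := Sylow.mapSurjective_surjective (QuotientGroup.mk'_surjective K) p P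
  have hP : (P₀ : Subgroup H).map (QuotientGroup.mk' K) = P := by rw [← hP₀]; rfl
  obtain ⟨U, e', h1, h2, -⟩ := exists_sq_mul_index_of_fullyRamified hZK χ.2 θ.2 he hres P₀
  rw [hP] at h1 h2
  rw [h2 hcyc, one_pow, one_mul] at h1
  refine ⟨U, Subgroup.isComplement'_of_coprime (by rw [← h1, U.card_mul_index]) ?_⟩
  have h3 : Nat.card U = (P : Subgroup (H ⧸ K)).index := by
    refine Nat.eq_of_mul_eq_mul_left (Nat.card_pos (α := (P : Subgroup (H ⧸ K)))) ?_
    rw [Subgroup.card_mul_index, ← h1, mul_comm, U.card_mul_index]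
  rw [h3]
  exact P.card_coprime_index.symm

end Cfsg.Agent.S4564
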