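import Cfsg.Statements.S4566
import Cfsg.Agent.Char.Special

set_option autoImplicit false
open Cfsg

namespace Cfsg.Agent.S4566

open Cfsg.Lib.Char

/-- Let N be a central subgroup of the finite group G, ψ a faithful irreducible (hence degree-one) character of N, and χ an irreducible character of G whose restriction to N contains ψ. If g ∈ G and some x ∈ G has commutator x⁻¹ g⁻¹ x g in N but different from 1, then χ g = 0. -/
theorem result {G : Type*} [Group G] [Fintype G] (N : Subgroup G) [Fintype N] (hN : N ≤ Subgroup.center G) (ψ : Cfsg.IrrCharacter ↥N) (hfaith : ∀ n : ↥N, (ψ : ↥N → ℂ) n = (ψ : ↥N → ℂ) 1 → n = 1) (χ : Cfsg.IrrCharacter G) (hover : Cfsg.classInner (fun n : ↥N => (χ : G → ℂ) n) (ψ : ↥N → ℂ) ≠ 0) (g x : G) (hcomm : x⁻¹ * g⁻¹ * x * g ∈ N) (hne : x⁻¹ * g⁻¹ * x * g ≠ 1) : (χ : G → ℂ) g = 0 := by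
  have hc : ∀ (a : N) (k : G), N.subtype a * k = k * N.subtype a :=
    fun a k => (Subgroup.mem_center_iff.mp (hN a.2) k).symm
  obtain ⟨lam, hlam⟩ := ψ.2.exists_monoidHom_of_comm fun a b => Subtype.ext (hc a b)
  rw [hlam] at hover hfaith
  have h1 := (liesOverLin_iff hc χ.2).mpr hover
  have h2 := h1 ⟨_, hcomm⟩ g⁻¹
  have h3 : N.subtype ⟨_, hcomm⟩ * g⁻¹ = x⁻¹ * g⁻¹ * x⁻¹⁻¹ := by simp
  rw [h3, χ.2.isClassFunction] at h2
  by_contra h0
  have h4 : (χ : G → ℂ) g⁻¹ ≠ 0 := by rwa [χ.2.isCharacter.apply_inv, map_ne_zero]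
  refine hne (congrArg Subtype.val (hfaith ⟨_, hcomm⟩ ?_))
  simpa using ((mul_eq_right₀ h4).mp h2.symm)

end Cfsg.Agent.S4566
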