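import Cfsg.Statements.S4567
import Cfsg.Agent.Char.Special

set_option autoImplicit false
open Cfsg

namespace Cfsg.Agent.S4567

open Cfsg.Lib.Char

/-- Let N be a central subgroup of the finite group G and ψ a faithful irreducible (hence degree-one) character of N. Call a coset g N special when every x ∈ G whose commutator x⁻¹ g⁻¹ x g lies in N actually commutes with g (this depends only on the coset). Then the number of irreducible characters of G whose restriction to N contains ψ equals the number of conjugacy classes of G/N consisting of special cosets. -/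
theorem result {G : Type*} [Group G] [Fintype G] (N : Subgroup G) [N.Normal] [Fintype N] (hN : N ≤ Subgroup.center G) (ψ : Cfsg.IrrCharacter ↥N) (hfaith : ∀ n : ↥N, (ψ : ↥N → ℂ) n = (ψ : ↥N → ℂ) 1 → n = 1) : Nat.card {χ : Cfsg.IrrCharacter G // Cfsg.classInner (fun n : ↥N => (χ : G → ℂ) n) (ψ : ↥N → ℂ) ≠ 0} = Nat.card {C : ConjClasses (G ⧸ N) // ∃ g : G, ConjClasses.mk (g : G ⧸ N) = C ∧ ∀ x : G, x⁻¹ * g⁻¹ * x * g ∈ N → x * g = g * x} := by
  have hc : ∀ (a : N) (k : G), N.subtype a * k = k * N.subtype a :=
    fun a k => (Subgroup.mem_center_iff.mp (hN a.2) k).symm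
  obtain ⟨lam, hlam⟩ := ψ.2.exists_monoidHom_of_comm fun a b => Subtype.ext (hc a b)
  rw [hlam] at hfaith ⊢
  have hinj : Function.Injective lam := by
    rw [injective_iff_map_eq_one]
    intro a ha
    exact hfaith a (by simp [ha])
  simp only [← isSpecialMod_iff]
  rw [← card_liesOver_eq hN hinj]
  exact Nat.card_congr (Equiv.subtypeEquivRight fun χ => (liesOverLin_iff hc χ.2).symm)

end Cfsg.Agent.S4567
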