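import Cfsg.Statements.S4574
import Cfsg.Agent.Char.Cyclo
import Cfsg.Agent.Char.Galois
import Cfsg.Agent.Char.DegBasic

set_option autoImplicit false
open Cfsg

namespace Cfsg.Agent.S4574

open Cfsg.Lib.Char

/-- Let χ be an irreducible character of the finite group G, of degree d, and let Z(χ) be the set of elements g with |χ g| = d (the centre of χ). Then χ vanishes on at least (d ^ 2 - 1) · |Z(χ)| elements of G, with equality when every value |χ g| is 0, 1 or d. -/
theorem result {G : Type*} [Group G] [Fintype G] [DecidableEq G] (χ : G → ℂ) (hχ : Cfsg.IsIrrCharacter G χ) : (Cfsg.charDegree χ ^ 2 - 1) * (Finset.univ.filter (fun g : G => ‖χ g‖ = (Cfsg.charDegree χ : ℝ))).card ≤ (Finset.univ.filter (fun g : G => χ g = 0)).card ∧ ((∀ g : G, ‖χ g‖ = 0 ∨ ‖χ g‖ = 1 ∨ ‖χ g‖ = (Cfsg.charDegree χ : ℝ)) → (Cfsg.charDegree χ ^ 2 - 1) * (Finset.univ.filter (fun g : G => ‖χ g‖ = (Cfsg.charDegree χ : ℝ))).card = (Finset.univ.filter (fun g : G => χ g = 0)).card)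 := by
  classical
  set d := charDegree χ with hd
  have hd0 : 0 < d := Deg.deg_pos hχ
  set Z := Finset.univ.filter (fun g : G => ‖χ g‖ = (d : ℝ)) with hZ
  set V := Finset.univ.filter (fun g : G => χ g = 0) with hV
  set R := Finset.univ.filter (fun g : G => ¬ ‖χ g‖ = (d : ℝ) ∧ ¬ χ g = 0) with hR
  have hsplit : ∀ F : G → ℝ, ∑ g, F g = ∑ g ∈ Z, F g + ∑ g ∈ V, F g + ∑ g ∈ R, F g := by
    intro F
    simp only [hZ, hV, hR, Finset.sum_filter, ← Finset.sum_add_distrib]
    refine Finset.sum_congr rfl fun g _ => ?_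
    by_cases h1 : χ g = 0
    · have : ¬ (0 : ℝ) = d := by exact_mod_cast hd0.ne
      simp [h1, this]
    · by_cases h2 : ‖χ g‖ = d <;> simp [h1, h2]
  have h1 : ∑ g, ‖χ g‖ ^ 2 = ∑ g : G, (1 : ℝ) := by
    have h := card_mul_classInner χ χ
    rw [hχ.classInner_self, mul_one] at h
    simp only [Complex.mul_conj, Complex.normSq_eq_norm_sq] at h
    simp only [Finset.sum_const, Finset.card_univ, nsmul_eq_mul, mul_one]
    rw [← Nat.card_eq_fintype_card]
    exact_mod_cast h.symm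
  have h2 : ∑ g ∈ Z, ‖χ g‖ ^ 2 = (d : ℝ) ^ 2 * Z.card := by
    rw [Finset.sum_congr rfl (g := fun _ => (d : ℝ) ^ 2) fun g hg => by
      rw [(Finset.mem_filter.mp hg).2]]
    simp [mul_comm]
  have h3 : ∑ g ∈ V, ‖χ g‖ ^ 2 = 0 :=
    Finset.sum_eq_zero fun g hg => by simp [(Finset.mem_filter.mp hg).2]
  rw [hsplit, hsplit, h2, h3] at h1
  simp only [Finset.sum_const, nsmul_eq_mul, mul_one, add_zero] at h1
  have hcast : (((d ^ 2 - 1) * Z.card : ℕ) : ℝ) = (d : ℝ) ^ 2 * Z.card - Z.card := by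
    rw [Nat.cast_mul, Nat.cast_sub (Nat.one_le_pow _ _ hd0)]
    push_cast
    ring
  have hn : ∀ g, ‖χ g‖ = (d : ℝ) ↔ g ∈ charCenter χ := fun g => by
    rw [hχ.mem_charCenter_iff, Deg.norm_apply_one hχ.isCharacter]
  refine ⟨?_, fun hall => ?_⟩
  · have h4 := card_le_sum_norm_sq_char hχ.isCharacter R (fun m hm g hg => by
      simp only [hR, Finset.mem_filter, Finset.mem_univ, true_and, hn] at hg ⊢
      obtain ⟨k, hk⟩ := exists_pow_eq_self_of_coprime (x := g)
        (hm.coprime_dvd_right (orderOf_dvd_natCard g))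
      refine ⟨fun h => hg.1 (hk ▸ (charCenter χ).pow_mem h k), fun h => hg.2 ?_⟩
      exact (hχ.isGeneralizedCharacter.apply_pow_eq_zero_iff g
        (hm.coprime_dvd_right (orderOf_dvd_natCard g))).1 h) (fun g hg => (Finset.mem_filter.mp hg).2.2)
    rw [← Nat.cast_le (α := ℝ), hcast]
    linarith
  · have h4 : ∑ g ∈ R, ‖χ g‖ ^ 2 = R.card := by
      rw [Finset.sum_congr rfl (g := fun _ => (1 : ℝ)) fun g hg => by
        have := (Finset.mem_filter.mp hg).2
        rw [((hall g).resolve_left (by simpa using this.2)).resolve_right this.1, one_pow]]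
      simp
    rw [← Nat.cast_inj (R := ℝ), hcast]
    linarith

end Cfsg.Agent.S4574
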