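import Cfsg.Statements.S4580
import Cfsg.Agent.Block.RealBlock
import Cfsg.Agent.Char.Gallagher

set_option autoImplicit false
open Cfsg

namespace Cfsg.Agent.S4580

open Cfsg.Lib.Block Cfsg.Lib.Char

/-- Let N be a normal subgroup of the finite group G, M a maximal ideal of the algebraic integers containing 2, and θ a real-valued irreducible character of N of odd degree that extends to G (some irreducible character of G restricts to θ). Then θ has an extension to G lying in the principal 2-block of G. -/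
theorem result {G : Type*} [Group G] [Finite G] (N : Subgroup G) [N.Normal] (M : Ideal Cfsg.AlgInt) (hM : Cfsg.IsPModular 2 M) (θ : Cfsg.IrrCharacter N) (hreal : ∀ n : N, ((θ : N → ℂ) n).im = 0) (hodd : Odd (Cfsg.charDegree (θ : N → ℂ))) (hext : ∃ η : Cfsg.IrrCharacter G, ∀ n : N, (η : G → ℂ) n = (θ : N → ℂ) n) :
    ∃ η : Cfsg.IrrCharacter G, (∀ n : N, (η : G → ℂ) n = (θ : N → ℂ) n) ∧ η ∈ Cfsg.principalBlock M G := by
  obtain ⟨η, hη⟩ := hext
  have h1 : (fun n : N => (η : G → ℂ) n) = θ := funext hη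
  obtain ⟨lam, hl, hb⟩ := exists_monoidHom_of_extensions (N := N) η.2.isCharacter (h1 ▸ θ.2)
    (barI η).2.isCharacter fun n => by
      rw [barI_apply, hη, Complex.conj_eq_iff_im, hreal]
  obtain ⟨m, hm⟩ : Odd (ordCompl[2] (Nat.card G)) :=
    (Nat.coprime_two_left.1 (Nat.coprime_ordCompl Nat.prime_two Nat.card_pos.ne'))
  have hext : ∀ n : N, ((η : G → ℂ) * fun g => ((lam ^ (m + 1)) g : ℂ)) n = (θ : N → ℂ) n :=
    fun n => by simp [hl n n.2, hη]
  refine ⟨⟨_, η.2.mul_monoidHom (lam ^ (m + 1))⟩, hext,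
    mem_principalBlock_of_real_on_regular hM (fun g hg => ?_) ?_⟩
  · have h2 : g ^ (2 * m + 1) = 1 := by
      rw [← hm, ← orderOf_dvd_iff_pow_eq_one]
      exact Nat.Coprime.dvd_of_dvd_mul_left (Nat.Coprime.pow_right _
        (Nat.prime_two.coprime_iff_not_dvd.2 hg).symm)
        (by rw [Nat.ordProj_mul_ordCompl_eq_self]; exact orderOf_dvd_natCard g)
    have h3 : (lam g : ℂ) ^ (2 * m + 1) = 1 := by
      rw [← Units.val_pow_eq_pow_val, ← map_pow, h2, map_one, Units.val_one]
    have h4 : (lam g : ℂ) ≠ 0 := Units.ne_zero _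
    change (η : G → ℂ) g⁻¹ * _ = (η : G → ℂ) g * _
    rw [← barI_apply_eq_inv, hb]
    simp only [MonoidHom.pow_apply, map_inv, Units.val_pow_eq_pow_val, Units.val_inv_eq_inv_val,
      inv_pow]
    field_simp
    linear_combination (-(η : G → ℂ) g * (lam g : ℂ)) * h3
  · have h2 : charDegree ((η : G → ℂ) * fun g => ((lam ^ (m + 1)) g : ℂ))
        = charDegree (θ : N → ℂ) := by
      rw [charDegree, charDegree, ← hext 1]
      rfl
    exact h2 ▸ hodd.not_two_dvd_nat

end Cfsg.Agent.S4580
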