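import Cfsg.Statements.S4581
import Cfsg.Agent.Char.McKayReal
import Cfsg.Agent.Solv.FrattiniP

set_option autoImplicit false
open Cfsg

namespace Cfsg.Agent.S4581

open Cfsg.Lib.Char

theorem all_iff {G : Type*} [Group G] [Finite G] :
    (∀ χ : IrrCharacter G, ¬ 2 ∣ charDegree χ.1 → RealVal χ.1) ↔
      Nat.card {χ : IrrCharacter G // RealVal χ.1 ∧ ¬ 2 ∣ charDegree χ.1} =
        Nat.card {χ : IrrCharacter G // ¬ 2 ∣ charDegree χ.1} := by
  constructor
  · intro h
    exact Nat.card_congr (Equiv.subtypeEquivRight fun χ => and_iff_right_iff_imp.2 (h χ))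
  · intro h χ hχ
    let f : {χ : IrrCharacter G // RealVal χ.1 ∧ ¬ 2 ∣ charDegree χ.1} →
        {χ : IrrCharacter G // ¬ 2 ∣ charDegree χ.1} := fun x => ⟨x.1, x.2.2⟩
    have hf : Function.Injective f := fun a b e => Subtype.ext (congrArg (fun x => x.1) e : (f a).1 = (f b).1)
    obtain ⟨x, hx⟩ := (hf.bijective_of_nat_card_le h.ge).2 ⟨χ, hχ⟩
    have : x.1 = χ := congrArg Subtype.val hx
    exact this ▸ x.2.1

theorem pgroup_iff {P : Type*} [Group P] [Finite P] (hP : IsPGroup 2 P) :
    (∀ χ : IrrCharacter P, ¬ 2 ∣ charDegree χ.1 → RealVal χ.1) ↔ commutator P = frattini P := by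
  constructor
  · intro h
    refine le_antisymm (Cfsg.Lib.Solv.commutator_le_frattini_of_isPGroup hP)
      ((Cfsg.Lib.Solv.frattini_le_iff_of_isPGroup hP _).2 ⟨le_rfl, fun x => ?_⟩)
    rw [mem_commutator_iff_forall_monoidHom]
    intro lam
    have h1 := (realVal_iff_inv (isIrrCharacter_monoidHom lam).isCharacter).1
      (h ⟨_, isIrrCharacter_monoidHom lam⟩ (by
        change ¬ 2 ∣ charDegree fun g => (lam g : ℂ)
        rw [Deg.deg_monoidHom]; decide)) x
    have h2 : lam x⁻¹ = lam x := Units.ext h1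
    rw [pow_two, map_mul]
    nth_rewrite 1 [← h2]
    rw [← map_mul, inv_mul_cancel, map_one]
  · intro h χ hχ
    obtain ⟨n, hn⟩ := hP.exists_card_eq
    obtain ⟨k, -, hk⟩ := (Nat.dvd_prime_pow Nat.prime_two).1 (hn ▸ Deg.deg_dvd_card χ.2)
    have h1 : charDegree χ.1 = 1 := by
      rcases k with _ | k
      · simpa using hk
      · exact absurd (hk ▸ Dvd.intro_left (2 ^ k) (pow_succ 2 k).symm) hχ
    obtain ⟨lam, hlam⟩ := χ.2.isCharacter.exists_monoidHom_of_apply_one
      ((Deg.deg_eq_one_iff χ.2.isCharacter).1 h1)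
    rw [realVal_iff_inv χ.2.isCharacter, hlam]
    intro g
    have h2 := monoidHom_apply_of_mem_commutator lam (h ▸ Cfsg.Lib.Solv.pow_mem_frattini hP g)
    rw [pow_two, map_mul] at h2
    simp only
    rw [map_inv, eq_inv_of_mul_eq_one_left h2, inv_inv, ← eq_inv_of_mul_eq_one_left h2]

theorem eq_top_of_real {N : Type*} [Group N] [Finite N] (P : Subgroup N) [P.Normal]
    (hodd : Odd P.index) (h : ∀ χ : IrrCharacter N, ¬ 2 ∣ charDegree χ.1 → RealVal χ.1) :
    P = ⊤ := by
  obtain ⟨ξ, -, -, -, -, hu⟩ := exists_realVal_over P.subtype_injective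
    (by rw [Subgroup.range_subtype]; infer_instance) (by rwa [Subgroup.range_subtype])
    isIrrCharacter_one (fun _ => Complex.one_im)
  have key : ∀ β : IrrCharacter (N ⧸ P), β.1 = fun _ => 1 := by
    intro β
    have h1 := β.2.comp_of_surjective (QuotientGroup.mk' P) (QuotientGroup.mk'_surjective P)
    have h2 : ¬ 2 ∣ charDegree fun g => β.1 (QuotientGroup.mk' P g) := by
      rw [Deg.deg_comp]
      exact fun h => (Nat.not_even_iff_odd.2 hodd) (even_iff_two_dvd.2
        (h.trans (Deg.deg_dvd_card β.2)))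
    have := Fintype.ofFinite P
    have := Fintype.ofFinite N
    have h5 := lies_over_one_of_apply_eq (N := P) h1
      fun n hn => by rw [QuotientGroup.mk'_apply, (QuotientGroup.eq_one_iff n).2 hn, map_one]
    have h3 := hu _ h1 (h ⟨_, h1⟩ h2)
      ((over_subtype_iff (χ := fun g => β.1 (QuotientGroup.mk' P g))).2 h5)
    have h4 := hu _ isIrrCharacter_one (fun _ => Complex.one_im)
      (over_of_ext isIrrCharacter_one fun _ => rfl)
    ext x
    obtain ⟨g, rfl⟩ := QuotientGroup.mk'_surjective P x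
    exact congrFun (h3.trans h4.symm) g
  rw [eq_top_iff]
  intro x _
  rw [← QuotientGroup.eq_one_iff, ← isConj_one_left, isConj_iff_forall_irr]
  intro χ hχ
  rw [show χ = fun _ => 1 from key ⟨χ, hχ⟩]

/-- Let G be a finite solvable group, P a Sylow 2-subgroup and N its normalizer. Then G and N have the same number of real-valued irreducible characters of odd degree; and every odd-degree irreducible character of G is real-valued exactly when the derived subgroup of P equals the Frattini subgroup of P and P is its own normalizer in G. -/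
theorem result {G : Type*} [Group G] [Finite G] [Group.IsSolvable G] (P : Sylow 2 G) :
    Nat.card {χ : Cfsg.IrrCharacter G // (∀ g : G, ((χ : G → ℂ) g).im = 0) ∧ Odd (Cfsg.charDegree (χ : G → ℂ))} =
      Nat.card {ψ : Cfsg.IrrCharacter (Subgroup.normalizer ((P : Subgroup G) : Set G)) // (∀ g, ((ψ : Subgroup.normalizer ((P : Subgroup G) : Set G) → ℂ) g).im = 0) ∧ Odd (Cfsg.charDegree (ψ : Subgroup.normalizer ((P : Subgroup G) : Set G) → ℂ))} ∧
    ((∀ χ : Cfsg.IrrCharacter G, Odd (Cfsg.charDegree (χ : G → ℂ)) → ∀ g : G, ((χ : G → ℂ) g).im = 0) ↔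
      (commutator (P : Subgroup G) = frattini (P : Subgroup G) ∧ Subgroup.normalizer ((P : Subgroup G) : Set G) = (P : Subgroup G))) := by
  have hG := IsPSolvable.of_isSolvable 2 G
  have h1 := mckay_real hG P
  have h2 := mckay hG P
  simp only [← Nat.not_even_iff_odd, even_iff_two_dvd]
  refine ⟨h1, all_iff.trans ?_⟩
  rw [h1, h2, ← all_iff]
  constructor
  · intro h
    have : ((P : Subgroup G).subgroupOf (Subgroup.normalizer ((P : Subgroup G) : Set G))).Normal :=
      Subgroup.normal_in_normalizer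
    have h3 := eq_top_of_real ((P : Subgroup G).subgroupOf _) (by
      rw [← Nat.not_even_iff_odd, even_iff_two_dvd]
      exact not_dvd_relIndex_of_sylow_le P le_rfl Subgroup.le_normalizer) h
    have h4 : Subgroup.normalizer ((P : Subgroup G) : Set G) = P :=
      le_antisymm (Subgroup.subgroupOf_eq_top.1 h3) Subgroup.le_normalizer
    rw [h4] at h
    exact ⟨(pgroup_iff P.isPGroup').1 h, h4⟩
  · rintro ⟨h3, h4⟩
    rw [h4]
    exact (pgroup_iff P.isPGroup').2 h3

end Cfsg.Agent.S4581
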