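import Cfsg.Statements.S4582
import Cfsg.Agent.Trans.TransferTools
import Cfsg.Agent.Solv.Cores

set_option autoImplicit false
open Cfsg

namespace Cfsg.Agent.S4582

open Cfsg Cfsg.Lib.Trans Subgroup
open scoped commutatorElement

theorem transfer_sq {G : Type*} [Group G] [Finite G] {H : Subgroup G} {A : Type*} [CommGroup A]
    (φ : H →* A) (g : G) :
    MonoidHom.transfer ((powMonoidHom 2).comp φ) g = MonoidHom.transfer φ g ^ 2 := by
  classical
  have := Fintype.ofFinite (Quotient (MulAction.orbitRel (zpowers g) (G ⧸ H)))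
  rw [MonoidHom.transfer_eq_prod_quotient_orbitRel_zpowers_quot,
    MonoidHom.transfer_eq_prod_quotient_orbitRel_zpowers_quot, ← Finset.prod_pow]
  rfl

theorem mem_commutator_iff {G : Type*} [Group G] (P : Subgroup G) (x : P) :
    x ∈ commutator P ↔ (x : G) ∈ ⁅P, P⁆ := by
  have h : (commutator P).map P.subtype = ⁅P, P⁆ := by
    rw [commutator_def, map_commutator, ← MonoidHom.range_eq_map, range_subtype]
  rw [← h]
  constructor
  · exact fun hx => ⟨x, hx, rfl⟩
  · rintro ⟨y, hy, hyx⟩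
    rwa [← Subtype.ext hyx]

/-- Let N be a normal subgroup of the finite group G, P a Sylow 2-subgroup of G and Q = P ∩ N. Suppose that P/QP' and Q/Q' are elementary abelian (every square of an element of P lies in the subgroup generated by Q and the derived subgroup of P, and every square of an element of Q lies in the derived subgroup of Q), and that the commutator factor group N/N' has odd order. Then P/P' is elementary abelian. -/
theorem result {G : Type*} [Group G] [Finite G] (N : Subgroup G) [N.Normal] (P : Sylow 2 G)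
    (hP : ∀ x ∈ (P : Subgroup G), x ^ 2 ∈ ((P : Subgroup G) ⊓ N) ⊔ ⁅(P : Subgroup G), (P : Subgroup G)⁆)
    (hQ : ∀ x ∈ (P : Subgroup G) ⊓ N, x ^ 2 ∈ ⁅(P : Subgroup G) ⊓ N, (P : Subgroup G) ⊓ N⁆)
    (hodd : Odd (Nat.card (Abelianization N))) :
    ∀ x ∈ (P : Subgroup G), x ^ 2 ∈ ⁅(P : Subgroup G), (P : Subgroup G)⁆ := by
  intro x hx
  set H : Subgroup G := (P : Subgroup G) ⊔ N with hH
  have hPH : (P : Subgroup G) ≤ H := le_sup_left
  have hNH : N ≤ H := le_sup_right
  let φ : (P : Subgroup G).subgroupOf H →* Abelianization (P : Subgroup G) :=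
    Abelianization.of.comp (subgroupOfEquivOfLe hPH).toMonoidHom
  have hA : IsPGroup 2 (Abelianization (P : Subgroup G)) :=
    P.isPGroup'.of_surjective Abelianization.of QuotientGroup.mk_surjective
  let V := MonoidHom.transfer φ
  have hodd' : ∀ (a : Abelianization (P : Subgroup G)) (m : ℕ), Odd m → a ^ m = 1 → a = 1 := by
    intro a m hm ha
    obtain ⟨k, hk⟩ := IsPGroup.iff_orderOf.1 hA a
    rw [← orderOf_eq_one_iff]
    exact Nat.eq_one_of_dvd_coprimes (Nat.Coprime.pow_left k ((Nat.coprime_two_left).2 hm))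
      (hk ▸ dvd_rfl) (orderOf_dvd_of_pow_eq_one ha)
  have hVN : ∀ n : N, V (inclusion hNH n) = 1 := by
    intro n
    refine hodd' _ _ hodd ?_
    have : V (inclusion hNH n) = Abelianization.lift (V.comp (inclusion hNH))
      (Abelianization.of n) := by simp
    rw [this, ← map_pow, pow_card_eq_one', map_one]
  have hK : ((P : Subgroup G) ⊓ N) ⊔ ⁅(P : Subgroup G), (P : Subgroup G)⁆ ≤
      V.ker.map H.subtype := by
    refine sup_le (fun y hy => ⟨inclusion hNH ⟨y, hy.2⟩, hVN _, rfl⟩) ?_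
    rw [commutator_le]
    intro a ha b hb
    refine ⟨⁅(⟨a, hPH ha⟩ : H), ⟨b, hPH hb⟩⁆, ?_, rfl⟩
    rw [SetLike.mem_coe, MonoidHom.mem_ker, map_commutatorElement]
    exact commutatorElement_eq_one_iff_mul_comm.2 (mul_comm _ _)
  have hφQ : ∀ y : (P : Subgroup G), (y : G) ∈ N → Abelianization.of y ^ 2 = 1 := by
    intro y hy
    rw [← map_pow, ← MonoidHom.mem_ker, Abelianization.ker_of, mem_commutator_iff]
    exact commutator_mono inf_le_left inf_le_left (hQ y ⟨y.2, hy⟩)
  have h1 : V ⟨x, hPH hx⟩ ^ 2 = 1 := by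
    obtain ⟨y, hy, hyx⟩ := hK (hP x hx)
    rw [← map_pow]
    have : (⟨x, hPH hx⟩ : H) ^ 2 = y := Subtype.ext hyx.symm
    rw [this]
    exact hy
  have h2 := transfer_eq_pow_of_conj ((powMonoidHom 2).comp φ)
    (⟨⟨x, hPH hx⟩, hx⟩ : (P : Subgroup G).subgroupOf H) (by
      intro k a ha
      have ha' : (a : G) ∈ ((P : Subgroup G) ⊔ N : Subgroup G) := a.2
      rw [← SetLike.mem_coe, mul_normal] at ha'
      obtain ⟨u, hu, n, hn, hun⟩ := ha'
      have ha2 : (a : G)⁻¹ * x ^ k * a ∈ (P : Subgroup G) := ha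
      have hu2 : u⁻¹ * x ^ k * u ∈ (P : Subgroup G) :=
        mul_mem (mul_mem (inv_mem hu) (pow_mem hx k)) hu
      have hd : (u⁻¹ * x ^ k * u)⁻¹ * ((a : G)⁻¹ * x ^ k * a) ∈ N := by
        rw [← QuotientGroup.eq]
        simp only [← hun, QuotientGroup.mk_mul, QuotientGroup.mk_inv,
          (QuotientGroup.eq_one_iff n).2 hn, mul_one]
      have h3 := hφQ ⟨_, mul_mem (inv_mem hu2) ha2⟩ hd
      have e1 : (⟨_, mul_mem (inv_mem hu2) ha2⟩ : (P : Subgroup G)) =
          ((⟨u, hu⟩ : (P : Subgroup G))⁻¹ * ⟨x, hx⟩ ^ k * ⟨u, hu⟩)⁻¹ * ⟨_, ha2⟩ := rfl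
      rw [e1] at h3
      simp only [map_mul, map_inv, map_pow] at h3
      change Abelianization.of (⟨_, ha2⟩ : (P : Subgroup G)) ^ 2 =
        (Abelianization.of (⟨x, hx⟩ : (P : Subgroup G)) ^ 2) ^ k
      rw [inv_mul_cancel_comm, mul_pow, inv_pow, inv_mul_eq_one] at h3
      rw [← h3, ← pow_mul, ← pow_mul, mul_comm])
  rw [transfer_sq] at h2
  have h4 : (Abelianization.of (⟨x, hx⟩ : (P : Subgroup G)) ^ 2) ^
      ((P : Subgroup G).subgroupOf H).index = 1 := by
    rw [← h1]; exact h2.symm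
  have h5 := hodd' _ _ (by
    rw [← Nat.not_even_iff_odd, even_iff_two_dvd]
    exact fun hd => P.not_dvd_index (hd.trans (relIndex_dvd_index_of_le hPH))) h4
  rw [← map_pow, ← MonoidHom.mem_ker, Abelianization.ker_of, mem_commutator_iff] at h5
  exact h5

end Cfsg.Agent.S4582
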