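import Cfsg.Statements.S4583
import Cfsg.Agent.Block.PrincOver

set_option autoImplicit false
open Cfsg

namespace Cfsg.Agent.S4583

open Cfsg.Lib.Char Cfsg.Lib.Block Cfsg.Lib.Block.Ht Subgroup

/-- Let N be a normal subgroup of the finite group G, p a prime, M a maximal ideal of the algebraic integers containing p, and P a Sylow p-subgroup of G. Let θ be an irreducible character of N of degree prime to p lying in the principal p-block of N, and suppose θ extends to the subgroup NP (some irreducible character of NP restricts to θ). Then some irreducible character χ of G of degree prime to p in the principal p-block of G lies over θ (θ is a constituent of the restriction of χ to N). -/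
theorem result {G : Type*} [Group G] [Finite G] (N : Subgroup G) [N.Normal] (p : ℕ) [Fact p.Prime] (M : Ideal Cfsg.AlgInt) (hM : Cfsg.IsPModular p M) (P : Sylow p G)
    (θ : Cfsg.IrrCharacter N) (hθ : θ ∈ Cfsg.principalBlock M N) (hdeg : ¬ p ∣ Cfsg.charDegree (θ : N → ℂ))
    (hext : ∃ η : Cfsg.IrrCharacter ↥(N ⊔ (P : Subgroup G)), ∀ n : N, (η : ↥(N ⊔ (P : Subgroup G)) → ℂ) (Subgroup.inclusion le_sup_left n) = (θ : N → ℂ) n) :
    ∃ χ : Cfsg.IrrCharacter G, χ ∈ Cfsg.principalBlock M G ∧ ¬ p ∣ Cfsg.charDegree (χ : G → ℂ) ∧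
      haveI := Fintype.ofFinite N; Cfsg.classInner (fun n : N => (χ : G → ℂ) n) (θ : N → ℂ) ≠ 0 := by
  letI := Fintype.ofFinite N
  obtain ⟨η, hη⟩ := hext
  have hNT : N ≤ N ⊔ (P : Subgroup G) := le_sup_left
  have hover : Over (N.subgroupOf (N ⊔ (P : Subgroup G))) (η : ↥(N ⊔ (P : Subgroup G)) → ℂ)
      (subI hNT θ : N.subgroupOf (N ⊔ (P : Subgroup G)) → ℂ) :=
    over_of_res_eq (subI hNT θ).2 fun n => by
      rw [subI_apply, ← hη]; rfl
  have hidx : ∃ k : ℕ, (N.subgroupOf (N ⊔ (P : Subgroup G))).index = p ^ k := by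
    obtain ⟨k, hk⟩ := IsPGroup.iff_card.1 P.isPGroup'
    have h1 : N.relIndex (N ⊔ (P : Subgroup G)) ∣ p ^ k := by
      rw [relIndex_sup_left, ← hk]
      exact relIndex_dvd_card _ _
    obtain ⟨j, -, hj⟩ := (Nat.dvd_prime_pow Fact.out).1 h1
    exact ⟨j, hj⟩
  have hθ' : subI hNT θ ∈ principalBlock M (N.subgroupOf (N ⊔ (P : Subgroup G))) := by
    rw [← trB_principalBlock (subgroupOfEquivOfLe hNT)]
    exact mem_trB_iff_exists.2 ⟨θ, hθ, rfl⟩
  have hη0 : η ∈ principalBlock M ↥(N ⊔ (P : Subgroup G)) := by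
    rw [(covers_principalBlock hM (N.subgroupOf (N ⊔ (P : Subgroup G)))).eq_overSet_of_index hM
      hidx Ht.isPBlock_principalBlock Ht.isPBlock_principalBlock]
    exact mem_overSet.2 ⟨_, hθ', hover⟩
  have hd : ¬ p ∣ charDegree (η : ↥(N ⊔ (P : Subgroup G)) → ℂ) := by
    have h1 := hη 1
    rw [map_one] at h1
    rw [Ht.charDegree_of_eq (h1.trans (cast_charDegree_irr θ).symm)]
    exact hdeg
  have hH : ¬ p ∣ (N ⊔ (P : Subgroup G)).index := fun h =>
    P.not_dvd_index (h.trans (index_dvd_of_le le_sup_right))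
  obtain ⟨χ, hχ, hχd, ho⟩ := exists_principal_pPrime_over hM _ hH hη0 hd
  exact ⟨χ, hχ, hχd, over_iff.1 (Over.trans_sub hNT χ.2.isCharacter ho hover)⟩

end Cfsg.Agent.S4583
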