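import Cfsg.Statements.S4585
import Cfsg.Agent.Trans.MaxClass

set_option autoImplicit false
open Cfsg

namespace Cfsg.Agent.S4585

open Cfsg.Lib.Trans Cfsg.Lib.Solv Subgroup


/-- Let p be a prime and P a group of order p^4. Then P' has index p^2 in P if and only if P has maximal nilpotency class, that is, nilpotency class exactly 3. -/
theorem result {P : Type*} [Group P] [Finite P] (p : ℕ) [Fact p.Prime] (hP : Nat.card P = p ^ 4) :
    (commutator P).index = p ^ 2 ↔ Group.nilpotencyClass P = 3 := by
  have hp : p.Prime := Fact.out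
  have hG := IsPGroup.of_card hP
  rw [nilpotencyClass_eq_iff_lowerCentralSeries_ne_bot (m := 2) hP]
  refine ⟨fun h h2 => ?_, MaxClass.index_commutator (m := 2) hP⟩
  have h3 : commutator P ≤ center P := commutator_top_right_eq_bot_iff_le_center.mp h2
  have h4 : Nat.card (commutator P) = p ^ 2 := by
    have h1 := (commutator P).index_mul_card
    rw [h, hP, show p ^ 4 = p ^ 2 * p ^ 2 by ring] at h1
    exact Nat.eq_of_mul_eq_mul_left (pow_pos hp.pos 2) h1
  obtain ⟨A, h5, h6, -, h7⟩ := PG.exists_normal_between hG (le_top : commutator P ≤ ⊤) 1 (by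
    rw [card_top, h4, hP, ← pow_add]; exact Nat.pow_le_pow_right hp.pos (by omega))
  rw [pow_one] at h7
  have hlt : commutator P < A := by
    refine lt_of_le_of_ne h6 fun he => ?_
    rw [← he] at h7
    exact hp.one_lt.ne' (Nat.eq_of_mul_eq_mul_right Nat.card_pos (h7.symm.trans (one_mul _).symm))
  obtain ⟨a, ha, ha'⟩ := SetLike.exists_of_lt hlt
  have h8 := PG.sup_zpowers_eq_of_card_eq_prime_mul hp h6 h7 ha ha'
  have hc : IsMulCommutative (commutator P) :=
    PG.isMulCommutative_of_forall fun x _ y hy => mem_center_iff.mp (h3 hy) x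
  have hA : IsMulCommutative A := h8 ▸ PG.isMulCommutative_sup_zpowers
    (fun x hx => (mem_center_iff.mp (h3 hx) a).symm)
  have hAi : A.index = p := PG.index_eq_of_card_eq_mul (by rw [hP, h7, h4]; ring)
  have hco := PG.isCoatom_of_index_prime (hAi ▸ hp : A.index.Prime)
  obtain ⟨t, -, ht⟩ := SetLike.exists_of_lt hco.lt_top
  have h9 := card_eq_card_commutator_mul A (PG.sup_zpowers_eq_top_of_isCoatom hco ht)
  have h10 : commutator P ≤ centralizer ({t} : Set P) ⊓ A :=
    le_inf (h3.trans (center_le_centralizer _)) h6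
  have h11 := card_le_of_le h10
  rw [h7, mul_comm] at h9
  rw [← Nat.eq_of_mul_eq_mul_left Nat.card_pos h9, h4] at h11
  have := (Nat.pow_le_pow_iff_right hp.one_lt).mp (h11.trans (pow_one p).ge)
  omega

end Cfsg.Agent.S4585
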