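import Cfsg.Statements.S4586
import Cfsg.Agent.Solv.PGroupNormal

set_option autoImplicit false
open Cfsg

namespace Cfsg.Agent.S4586

open scoped commutatorElement in
/-- Key count: if `P = N⟨x⟩` with `N` normal, then `|N : P' ∩ N|`-type formula. -/
theorem key {P : Type*} [Group P] [Finite P] (N : Subgroup P) [hN : N.Normal] (x : P)
    (hgen : N ⊔ Subgroup.zpowers x = ⊤) :
    Nat.card {n : N // x * n * x⁻¹ * (n : P)⁻¹ ∈ (commutator N).map N.subtype} *
      Nat.card (commutator P) = Nat.card N * Nat.card (commutator N) := by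
  classical
  let c : N →* N := (MulAut.conjNormal x : MulAut N).toMonoidHom
  let φ : N →* Abelianization N := (Abelianization.of.comp c) * (Abelianization.of (G := N))⁻¹
  have hφ : ∀ n : N, φ n = Abelianization.of (c n * n⁻¹) := by
    intro n
    simp [φ, MonoidHom.mul_apply]
  have hker : ∀ n : N, n ∈ φ.ker ↔ x * n * x⁻¹ * (n : P)⁻¹ ∈ (commutator N).map N.subtype := by
    intro n
    rw [MonoidHom.mem_ker, hφ, ← MonoidHom.mem_ker, Abelianization.ker_of]
    constructor
    · intro h
      exact ⟨_, h, by simp [c]⟩
    · rintro ⟨m, hm, he⟩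
      have : m = c n * n⁻¹ := Subtype.ext (by simpa [c] using he)
      rwa [← this]
  have hc1 : Nat.card {n : N // x * n * x⁻¹ * (n : P)⁻¹ ∈ (commutator N).map N.subtype} =
      Nat.card φ.ker := Nat.card_congr (Equiv.subtypeEquivRight fun n => (hker n).symm)
  let W0 : Subgroup N := φ.range.comap Abelianization.of
  let W : Subgroup P := W0.map N.subtype
  have hWN : W ≤ N := Subgroup.map_subtype_le _
  have hmemW : ∀ n : N, (n : P) ∈ W ↔ Abelianization.of n ∈ φ.range := by
    intro n
    constructor
    · rintro ⟨m, hm, he⟩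
      have : m = n := Subtype.ext he
      subst this
      exact hm
    · intro h
      exact ⟨n, h, rfl⟩
  -- `W ≤ P'`
  have hWle : W ≤ commutator P := by
    rintro _ ⟨m, ⟨n, hn⟩, rfl⟩
    rw [hφ] at hn
    have h1 : (c n * n⁻¹)⁻¹ * m ∈ commutator N := by
      rw [← Abelianization.ker_of, MonoidHom.mem_ker, map_mul, map_inv, hn, inv_mul_cancel]
    have h2 : (((c n * n⁻¹)⁻¹ * m : N) : P) ∈ commutator P := by
      have : (commutator N).map N.subtype ≤ commutator P := by
        rw [Subgroup.map_subtype_commutator]
        exact Subgroup.commutator_mono le_top le_top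
      exact this ⟨_, h1, rfl⟩
    have h3 : ((c n * n⁻¹ : N) : P) ∈ commutator P := by
      have : ((c n * n⁻¹ : N) : P) = ⁅x, (n : P)⁆ := by simp [c, commutatorElement_def]
      rw [this]
      exact Subgroup.commutator_mem_commutator (Subgroup.mem_top _) (Subgroup.mem_top _)
    have := (commutator P).mul_mem h3 h2
    rwa [← Subgroup.coe_mul, mul_inv_cancel_left] at this
  -- the set of `g` with `[g, N] ≤ W`
  let S : Subgroup P :=
    { carrier := {g : P | ∀ n ∈ N, ⁅g, n⁆ ∈ W}
      one_mem' := by
        intro n _
        simp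
      mul_mem' := by
        intro g h hg hh n hn
        have : ⁅g * h, n⁆ = ⁅g, h * n * h⁻¹⁆ * ⁅h, n⁆ := by
          simp only [commutatorElement_def]; group
        rw [this]
        exact W.mul_mem (hg _ (hN.conj_mem n hn h)) (hh n hn)
      inv_mem' := by
        intro g hg n hn
        have : ⁅g⁻¹, n⁆ = ⁅g, g⁻¹ * n * g⁻¹⁻¹⁆⁻¹ := by
          simp only [commutatorElement_def]; group
        rw [this]
        exact W.inv_mem (hg _ (hN.conj_mem n hn g⁻¹)) }
  have hS : ∀ g : P, ∀ n ∈ N, ⁅g, n⁆ ∈ W := by
    have : (⊤ : Subgroup P) ≤ S := by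
      rw [← hgen]
      refine sup_le (fun g hg n hn => ?_) (Subgroup.zpowers_le.mpr fun n hn => ?_)
      · have : ⁅g, n⁆ = ((⁅(⟨g, hg⟩ : N), (⟨n, hn⟩ : N)⁆ : N) : P) := rfl
        rw [this, hmemW, map_commutatorElement, commutatorElement_eq_one_iff_mul_comm.mpr
          (mul_comm _ _)]
        exact one_mem _
      · have : ⁅x, n⁆ = ((c ⟨n, hn⟩ * (⟨n, hn⟩ : N)⁻¹ : N) : P) := by
          simp [c, commutatorElement_def]
        rw [this, hmemW, ← hφ]
        exact ⟨_, rfl⟩
    exact fun g => this (Subgroup.mem_top g)
  have hWn : W.Normal := ⟨fun w hw g => by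
    have : g * w * g⁻¹ = ⁅g, w⁆ * w := by simp [commutatorElement_def]
    rw [this]
    exact W.mul_mem (hS g w (hWN hw)) hw⟩
  have hleW : commutator P ≤ W := by
    let T : Subgroup P := (Subgroup.center (P ⧸ W)).comap (QuotientGroup.mk' W)
    have hNT : N ≤ T := by
      intro n hn
      rw [Subgroup.mem_comap, Subgroup.mem_center_iff]
      intro q
      obtain ⟨g, rfl⟩ := QuotientGroup.mk'_surjective W q
      rw [← commutatorElement_eq_one_iff_mul_comm, ← map_commutatorElement, QuotientGroup.mk'_apply,
        QuotientGroup.eq_one_iff]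
      exact hS g n hn
    have hxT : x ∈ T := by
      rw [Subgroup.mem_comap, Subgroup.mem_center_iff]
      intro q
      obtain ⟨g, rfl⟩ := QuotientGroup.mk'_surjective W q
      let U : Subgroup P := (Subgroup.centralizer {QuotientGroup.mk' W x}).comap
        (QuotientGroup.mk' W)
      have : (⊤ : Subgroup P) ≤ U := by
        rw [← hgen]
        refine sup_le (fun n hn => ?_) (Subgroup.zpowers_le.mpr ?_)
        · rw [Subgroup.mem_comap, Subgroup.mem_centralizer_singleton_iff]
          exact (Subgroup.mem_center_iff.mp (hNT hn) _).symm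
        · rw [Subgroup.mem_comap, Subgroup.mem_centralizer_singleton_iff]
      have := this (Subgroup.mem_top g)
      rw [Subgroup.mem_comap, Subgroup.mem_centralizer_singleton_iff] at this
      exact this
    have hT : (⊤ : Subgroup P) ≤ T := by
      rw [← hgen]
      exact sup_le hNT (Subgroup.zpowers_le.mpr hxT)
    rw [commutator_def, Subgroup.commutator_le]
    intro g _ h _
    rw [← QuotientGroup.eq_one_iff, ← QuotientGroup.mk'_apply, map_commutatorElement,
      commutatorElement_eq_one_iff_mul_comm]
    exact (Subgroup.mem_center_iff.mp (hT (Subgroup.mem_top h)) _)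
  have hW : commutator P = W := le_antisymm hleW hWle
  have hc2 : Nat.card W = Nat.card φ.range * Nat.card (commutator N) := by
    rw [Subgroup.card_map_of_injective N.subtype_injective]
    have hsurj : Function.Surjective (Abelianization.of (G := N)) := QuotientGroup.mk_surjective
    have : Finite (Abelianization N) := Finite.of_surjective _ hsurj
    have h1 := Subgroup.index_comap_of_surjective φ.range hsurj
    have h2 := W0.card_mul_index
    have h3 := φ.range.card_mul_index
    have h4 : Nat.card (commutator N) * Nat.card (Abelianization N) = Nat.card N :=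
      (commutator N).card_mul_index
    have h5 : 0 < φ.range.index := Nat.pos_of_ne_zero Subgroup.index_ne_zero_of_finite
    refine Nat.eq_of_mul_eq_mul_right h5 ?_
    have h1' : W0.index = φ.range.index := h1
    rw [← h1', h2, h1', mul_right_comm, h3, mul_comm, h4]
  have hc3 : Nat.card φ.ker * Nat.card φ.range = Nat.card N := by
    rw [← φ.ker.card_mul_index, Subgroup.index_ker]
  rw [hc1, hW, hc2, ← mul_assoc, hc3]

/-- Let p be a prime, P a finite p-group and N a normal subgroup of P of index p. For x ∈ P write c(x) for the number of elements n of N whose commutator x n x⁻¹ n⁻¹ lies in the derived subgroup N' (so c(x)/#N' is the order of the centralizer of x acting on N/N'). Then [P : P'] = p² if and only if c(x) = p·#N' for every x ∈ P outside N, and also if and only if c(x) = p·#N' for some x ∈ P outside N. -/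
theorem result {P : Type*} [Group P] [Finite P] (p : ℕ) [Fact p.Prime] (hP : IsPGroup p P) (N : Subgroup P) [N.Normal] (hN : N.index = p) :
    ((commutator P).index = p ^ 2 ↔ ∀ x : P, x ∉ N →
        Nat.card {n : N // x * n * x⁻¹ * (n : P)⁻¹ ∈ (commutator N).map N.subtype} = p * Nat.card (commutator N)) ∧
    ((commutator P).index = p ^ 2 ↔ ∃ x : P, x ∉ N ∧
        Nat.card {n : N // x * n * x⁻¹ * (n : P)⁻¹ ∈ (commutator N).map N.subtype} = p * Nat.card (commutator N)) := by
  open Cfsg.Lib.Solv.PG in
  have hp : p.Prime := Fact.out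
  have hco := isCoatom_of_index_prime (hN ▸ hp : N.index.Prime)
  have hiff : ∀ x : P, x ∉ N → ((commutator P).index = p ^ 2 ↔
      Nat.card {n : N // x * n * x⁻¹ * (n : P)⁻¹ ∈ (commutator N).map N.subtype} =
        p * Nat.card (commutator N)) := by
    intro x hx
    have h1 := key N x (sup_zpowers_eq_top_of_isCoatom hco hx)
    have h2 := N.card_mul_index
    have h3 := (commutator P).card_mul_index
    rw [hN] at h2
    have hA : 0 < Nat.card (commutator P) := Nat.card_pos
    have hB : 0 < Nat.card (commutator N) := Nat.card_pos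
    set c := Nat.card {n : N // x * n * x⁻¹ * (n : P)⁻¹ ∈ (commutator N).map N.subtype}
    have h4 : (commutator P).index * Nat.card (commutator N) = p * c := by
      refine Nat.eq_of_mul_eq_mul_left hA ?_
      rw [← mul_assoc, h3, ← h2, mul_left_comm, mul_comm _ c, h1]; ring
    constructor
    · intro h
      rw [h] at h4
      exact Nat.eq_of_mul_eq_mul_left hp.pos (by rw [← h4]; ring)
    · intro h
      rw [h] at h4
      exact Nat.eq_of_mul_eq_mul_right hB (by rw [h4]; ring)
  obtain ⟨x, -, hx⟩ := SetLike.exists_of_lt hco.lt_top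
  refine ⟨⟨fun h y hy => (hiff y hy).mp h, fun h => (hiff x hx).mpr (h x hx)⟩,
    ⟨fun h => ⟨x, hx, (hiff x hx).mp h⟩, fun ⟨y, hy, h⟩ => (hiff y hy).mpr h⟩⟩

end Cfsg.Agent.S4586
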