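import Cfsg.Statements.S4588
import Cfsg.Agent.Block.CycMin
import Cfsg.Agent.Block.PrincOver
import Cfsg.Agent.Block.PrincSection

set_option autoImplicit false
open Cfsg

namespace Cfsg.Agent.S4588

open Cfsg.Lib.Char Cfsg.Lib.Block

/-- Let G be a finite group, p a prime and M a maximal ideal of the algebraic integers containing p. If some p-element x of G (possibly x = 1) has centralizer whose order has p-part at most p², then the principal p-block of G contains at most p² irreducible characters of degree prime to p. -/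
theorem result {G : Type*} [Group G] [Finite G] (p : ℕ) [Fact p.Prime] (M : Ideal Cfsg.AlgInt) (hM : Cfsg.IsPModular p M)
    (hx : ∃ x : G, (∃ k : ℕ, orderOf x = p ^ k) ∧ (Nat.card (Subgroup.centralizer ({x} : Set G))).factorization p ≤ 2) :
    Nat.card {χ : Cfsg.IrrCharacter G // χ ∈ Cfsg.principalBlock M G ∧ ¬ p ∣ Cfsg.charDegree (χ : G → ℂ)} ≤ p ^ 2 := by
  obtain ⟨x, hu, h2⟩ := hx
  have hp : p.Prime := Fact.out
  have := Fintype.ofFinite G
  have := Fintype.ofFinite (Subgroup.centralizer ({x} : Set G))
  by_cases h1 : x = 1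
  · subst h1
    have h3 : blockDefect p (principalBlock M G) ≤ 2 := (Nat.sub_le _ _).trans (by
      simpa [Subgroup.centralizer_eq_top_iff_subset.2] using h2)
    exact ((Nat.card_le_card_of_injective (fun χ => (⟨χ.1, χ.2.1⟩ : principalBlock M G))
      fun _ _ h => Subtype.ext (Subtype.mk.inj h)).trans
      (card_le_of_defect_le_two hM isPBlock_principalBlock' h3)).trans
      (Nat.pow_le_pow_right hp.pos h3)
  have hb : IsPBlock M (principalBlock M (Subgroup.centralizer ({x} : Set G))) :=
    isPBlock_principalBlock'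
  have hi := (Ht.third_main hM _ _ (Princ.inducedBlockDefined_centralizer hM hu hb)).2 rfl
  have h3 : blockDefect p (principalBlock M (Subgroup.centralizer ({x} : Set G))) ≤ 2 :=
    (Nat.sub_le _ _).trans h2
  have := normal_zpowers_cent (rfl : Subgroup.centralizer ({x} : Set G) = _)
  have h4 := isCQ_mk_zpowers rfl hu
  obtain ⟨D, hD⟩ := exists_isDefectGroup (p := p) hM hb
  obtain ⟨k, hk⟩ := hu
  have hk0 : k ≠ 0 := fun h => h1 (orderOf_eq_one_iff.1 (by rw [hk, h, pow_zero]))
  have h5 := h4.blockDefect_add hM hb (q := k) (by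
    rw [QuotientGroup.ker_mk', Nat.card_zpowers, ← Subgroup.orderOf_coe, hk])
  have h6 := card_height_zero_mul_le hM rfl ⟨k, hk⟩ hi (Int.natCast_nonneg _) fun η hη =>
    h4.blockRank_le_bf hM hb hD (isCyclic_of_card_dvd_prime (p := p) (by
      rw [card_defect hM (h4.isPBlock hM hb) (h4.isDefectGroup_map hM hb hD)]
      exact (pow_dvd_pow p (by omega)).trans (pow_one p).dvd)) fun h0 => hη (by simp [h0])
  have h7 := le_of_mul_le_mul_right h6
    (by exact_mod_cast blockRank_pos hp (isPBlock_nonempty hM hb))
  refine le_trans (le_of_eq ?_) ((by exact_mod_cast h7 : _ ≤ p ^ _).trans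
    (Nat.pow_le_pow_right hp.pos h3))
  refine Nat.subtype_card _ fun χ => ?_
  rw [Finset.mem_filter, mem_irrFin]
  exact and_congr_right fun hχ => Ht.height_zero_principal_iff hM hχ

end Cfsg.Agent.S4588
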