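import Cfsg.Statements.S4602
import Cfsg.Agent.Solv.PConstrained
import Cfsg.Agent.Solv.PSolvable
import Cfsg.Agent.Solv.CoprimeSylow

set_option autoImplicit false
open Cfsg

namespace Cfsg.Agent.S4602

open Cfsg Cfsg.Lib.Solv Subgroup
open scoped commutatorElement

theorem mem_pPrimeCore_of_comm {G : Type*} [Group G] [Finite G] {p q : ℕ} [Fact p.Prime]
    [hq : Fact q.Prime] (hpq : p ≠ q) (hsolv : IsPSolvable p G) {y : G}
    (hy : ∃ k : ℕ, orderOf y = q ^ k) (P : Sylow p G)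
    (h : ∀ x ∈ (P : Subgroup G), x ∈ pPrimePCore p G → ⁅x, y⁆ ∈ pPrimeCore p G) :
    y ∈ pPrimeCore p G := by
  set N := pPrimeCore p G with hN
  have hq' : IsPSolvable p (G ⧸ N) := hsolv.quotient N
  have h0 : pPrimeCore p (G ⧸ N) = ⊥ := pPrimeCore_quotient_pPrimeCore p G
  have hc := hq'.centralizer_pCore_le h0
  have hsup := pPrimeCore_sup_sylow_inf P
  have hmap := map_mk'_eq_pCore_of_sup_eq hsup
  have hy1 : (y : G ⧸ N) ∈ pCore p (G ⧸ N) := by
    apply hc
    rw [mem_centralizer_iff, ← hmap]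
    rintro _ ⟨x, hx, rfl⟩
    have := h x hx.1 hx.2
    rw [← QuotientGroup.eq_one_iff] at this
    have h2 : ⁅(x : G ⧸ N), (y : G ⧸ N)⁆ = 1 := by
      rw [← this]; simp [commutatorElement_def]
    exact commutatorElement_eq_one_iff_mul_comm.1 h2
  obtain ⟨k, hk⟩ := hy
  obtain ⟨j, hj⟩ := (IsPGroup.iff_orderOf.1 (pCore_isPGroup p (G ⧸ N))) ⟨_, hy1⟩
  rw [← orderOf_coe] at hj
  have h3 : orderOf (y : G ⧸ N) ∣ q ^ k := hk ▸ orderOf_map_dvd (QuotientGroup.mk' N) y
  rw [← QuotientGroup.eq_one_iff, ← orderOf_eq_one_iff]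
  refine Nat.eq_one_of_dvd_coprimes (Nat.Coprime.pow j k
    ((Nat.coprime_primes Fact.out hq.out).2 hpq)) (hj ▸ dvd_rfl) h3

theorem relIndex_eq_index_of_sup_eq_top {G : Type*} [Group G] [Finite G] {H N : Subgroup G}
    [N.Normal] (h : H ⊔ N = ⊤) : H.relIndex N = H.index := by
  have h1 : N.relIndex H = N.index := by
    rw [← relIndex_sup_right, h, relIndex_top_right]
  have h2 : (H ⊓ N).relIndex N * N.index = (H ⊓ N).index := relIndex_mul_index inf_le_right
  have h3 : (H ⊓ N).relIndex H * H.index = (H ⊓ N).index := relIndex_mul_index inf_le_left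
  rw [inf_relIndex_right] at h2
  rw [inf_comm, inf_relIndex_right, h1, inf_comm, ← h2, mul_comm] at h3
  exact (Nat.eq_of_mul_eq_mul_right (Nat.pos_of_ne_zero index_ne_zero_of_finite) h3).symm

theorem not_dvd_index_of_sylow_le {G : Type*} [Group G] [Finite G] {q : ℕ} [Fact q.Prime]
    (Q : Sylow q G) {N : Subgroup G} (h : (Q : Subgroup G) ≤ N) : ¬ q ∣ N.index :=
  fun hd => Q.not_dvd_index (hd.trans (index_dvd_of_le h))

theorem exists_sylow_le_of_not_dvd_index {G : Type*} [Group G] [Finite G] {q : ℕ} [Fact q.Prime]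
    {H : Subgroup G} (h : ¬ q ∣ H.index) : ∃ Q : Sylow q G, (Q : Subgroup G) ≤ H := by
  obtain ⟨S⟩ : Nonempty (Sylow q H) := inferInstance
  have h1 := Coprime.not_dvd_relIndex_sylow_map S
  have hS : IsPGroup q ((S : Subgroup H).map H.subtype) := S.isPGroup'.map _
  have h2 : ¬ q ∣ ((S : Subgroup H).map H.subtype).index := by
    rw [← relIndex_mul_index (map_subtype_le _)]
    exact fun hd => ((Fact.out : q.Prime).dvd_mul.1 hd).elim h1 h
  exact ⟨hS.toSylow h2, map_subtype_le _⟩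

/-- Let G be a finite p-solvable group and q a prime different from p. Some Sylow p-subgroup of G normalizes some Sylow q-subgroup of G if and only if q does not divide the order of G/O_{p'}(G), the quotient by the largest normal subgroup of order prime to p. -/
theorem result {G : Type*} [Group G] [Finite G] (p q : ℕ) [Fact p.Prime] [Fact q.Prime] (hpq : p ≠ q) (hsolv : Cfsg.IsPSolvable p G) :
    (∃ (P : Sylow p G) (Q : Sylow q G), (P : Subgroup G) ≤ Subgroup.normalizer ((Q : Subgroup G) : Set G)) ↔ ¬ q ∣ (Cfsg.pPrimeCore p G).index := by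
  constructor
  · rintro ⟨P, Q, hPQ⟩
    refine not_dvd_index_of_sylow_le Q fun y hy => ?_
    have hord : ∀ z ∈ (Q : Subgroup G), ∃ k : ℕ, orderOf z = q ^ k := fun z hz => by
      obtain ⟨k, hk⟩ := (IsPGroup.iff_orderOf.1 Q.isPGroup') ⟨z, hz⟩
      exact ⟨k, by rw [← hk, ← orderOf_coe]⟩
    refine mem_pPrimeCore_of_comm hpq hsolv (hord y hy) P fun x hx hx' => ?_
    have h1 : ⁅x, y⁆ ∈ (Q : Subgroup G) := by
      rw [commutatorElement_def]
      exact mul_mem ((mem_normalizer_iff.1 (hPQ hx) y).1 hy) (inv_mem hy)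
    have h2 : ⁅x, y⁆ ∈ pPrimePCore p G := by
      rw [commutatorElement_def, mul_assoc, mul_assoc]
      refine mul_mem hx' ?_
      rw [← mul_assoc]
      exact (pPrimePCore_normal p G).conj_mem _ (inv_mem hx') y
    obtain ⟨k, hk⟩ := hord _ h1
    have hy1 : ((⁅x, y⁆ : G) : G ⧸ pPrimeCore p G) ∈ pCore p (G ⧸ pPrimeCore p G) := h2
    obtain ⟨j, hj⟩ := (IsPGroup.iff_orderOf.1 (pCore_isPGroup p (G ⧸ pPrimeCore p G))) ⟨_, hy1⟩
    rw [← orderOf_coe] at hj
    have h3 : orderOf ((⁅x, y⁆ : G) : G ⧸ pPrimeCore p G) ∣ q ^ k :=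
      hk ▸ orderOf_map_dvd (QuotientGroup.mk' _) _
    rw [← QuotientGroup.eq_one_iff, ← orderOf_eq_one_iff]
    refine Nat.eq_one_of_dvd_coprimes (Nat.Coprime.pow j k
      ((Nat.coprime_primes Fact.out Fact.out).2 hpq)) (hj ▸ dvd_rfl) h3
  · intro h
    obtain ⟨Q, hQ⟩ := exists_sylow_le_of_not_dvd_index h
    have htop : normalizer ((Q : Subgroup G) : Set G) ⊔ pPrimeCore p G = ⊤ :=
      Q.normalizer_sup_eq_top' hQ
    have h1 : ¬ p ∣ (normalizer ((Q : Subgroup G) : Set G)).index := by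
      intro hd
      have h2 : (normalizer ((Q : Subgroup G) : Set G)).index ∣ Nat.card (pPrimeCore p G) := by
        rw [← relIndex_eq_index_of_sup_eq_top htop]
        exact index_dvd_card _
      exact not_dvd_card_pPrimeCore p G (hd.trans h2)
    obtain ⟨P, hP⟩ := exists_sylow_le_of_not_dvd_index h1
    exact ⟨P, Q, hP⟩

end Cfsg.Agent.S4602
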