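import Cfsg.Statements.S4601
import Cfsg.Agent.Solv.PConstrained
import Cfsg.Agent.Solv.PSolvable
import Cfsg.Agent.Solv.CoprimeSylow
import Cfsg.Agent.S4602

set_option autoImplicit false
open Cfsg

namespace Cfsg.Agent.S4601

open Cfsg Cfsg.Lib.Solv Subgroup Cfsg.Agent.S4602
open scoped commutatorElement Pointwise

theorem relIndex_sup_eq {G : Type*} [Group G] [Finite G] (T N : Subgroup G) [N.Normal] :
    T.relIndex (T ⊔ N) = T.relIndex N := by
  have h2 : (T ⊓ N).relIndex N * N.relIndex (T ⊔ N) = (T ⊓ N).relIndex (T ⊔ N) :=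
    relIndex_mul_relIndex _ _ _ inf_le_right le_sup_right
  have h3 : (T ⊓ N).relIndex T * T.relIndex (T ⊔ N) = (T ⊓ N).relIndex (T ⊔ N) :=
    relIndex_mul_relIndex _ _ _ inf_le_left le_sup_left
  rw [inf_relIndex_right, relIndex_sup_right] at h2
  rw [inf_comm, inf_relIndex_right, inf_comm, ← h2, mul_comm] at h3
  exact Nat.eq_of_mul_eq_mul_right (Nat.pos_of_ne_zero index_ne_zero_of_finite) h3

theorem exists_qelem_lift {G : Type*} [Group G] [Finite G] {q : ℕ} [hq : Fact q.Prime]
    (N : Subgroup G) [N.Normal] {y : G ⧸ N} (hy : ∃ k : ℕ, orderOf y = q ^ k) :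
    ∃ x : G, (∃ k : ℕ, orderOf x = q ^ k) ∧ (x : G ⧸ N) = y := by
  obtain ⟨k, hk⟩ := hy
  have hP : IsPGroup q (zpowers y) := IsPGroup.of_card (by rw [Nat.card_zpowers, hk])
  obtain ⟨Q', hQ'⟩ := hP.exists_le_sylow
  obtain ⟨Q, rfl⟩ := Sylow.mapSurjective_surjective (QuotientGroup.mk'_surjective N) q Q'
  obtain ⟨x, hx, rfl⟩ := hQ' (mem_zpowers y)
  obtain ⟨j, hj⟩ := (IsPGroup.iff_orderOf.1 Q.isPGroup') ⟨x, hx⟩
  exact ⟨x, ⟨j, by rw [← hj, ← orderOf_coe]⟩, rfl⟩

universe u

theorem main_q {p q : ℕ} [hp : Fact p.Prime] [hq : Fact q.Prime] (G : Type u) [Group G] [Finite G]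
    (hsolv : IsPSolvable q G) :
    (∀ y : G, (∃ k : ℕ, orderOf y = q ^ k) → ¬ p ∣ (centralizer ({y} : Set G)).index) →
    ∃ (P : Sylow p G) (Q : Sylow q G), (P : Subgroup G) ≤ normalizer ((Q : Subgroup G) : Set G) := by
  refine IsPSolvable.induction (p := q) (P := fun G _ _ =>
    (∀ y : G, (∃ k : ℕ, orderOf y = q ^ k) → ¬ p ∣ (centralizer ({y} : Set G)).index) →
    ∃ (P : Sylow p G) (Q : Sylow q G), (P : Subgroup G) ≤ normalizer ((Q : Subgroup G) : Set G))
    ?_ ?_ G hsolv
  · intro G _ _ _ _
    obtain ⟨P⟩ : Nonempty (Sylow p G) := inferInstance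
    obtain ⟨Q⟩ : Nonempty (Sylow q G) := inferInstance
    exact ⟨P, Q, fun x _ => by rw [Subsingleton.elim x 1]; exact one_mem _⟩
  · intro G _ _ N _ _ _ hN ih h
    obtain ⟨P', Q', hPQ⟩ := ih (fun y hy => by
      obtain ⟨x, hx, rfl⟩ := exists_qelem_lift N hy
      intro hd
      apply h x hx
      refine hd.trans ?_
      rw [← index_comap_of_surjective _ (QuotientGroup.mk'_surjective N)]
      refine index_dvd_of_le fun c hc => ?_
      rw [mem_comap, mem_centralizer_singleton_iff]
      rw [mem_centralizer_singleton_iff] at hc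
      simpa using congrArg (QuotientGroup.mk' N) hc)
    obtain ⟨P, rfl⟩ := Sylow.mapSurjective_surjective (QuotientGroup.mk'_surjective N) p P'
    obtain ⟨Q, rfl⟩ := Sylow.mapSurjective_surjective (QuotientGroup.mk'_surjective N) q Q'
    have hconj : ∀ x ∈ (P : Subgroup G), ∀ y ∈ (Q : Subgroup G), x * y * x⁻¹ ∈ N ⊔ Q := by
      intro x hx y hy
      have h1 := (mem_normalizer_iff.1 (hPQ (mem_map_of_mem (QuotientGroup.mk' N) hx)) _).1
        (mem_map_of_mem (QuotientGroup.mk' N) hy)
      rw [← QuotientGroup.comap_map_mk', mem_comap]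
      simpa using h1
    rcases hN with hN | hN
    · have hNQ : N ≤ Q := (le_pCore inferInstance hN).trans (pCore_le_sylow Q)
      rw [sup_eq_right.2 hNQ] at hconj
      exact ⟨P, Q, fun x hx => mem_normalizer_of_conj_mem (hconj x hx)⟩
    · have hAK : (Q : Subgroup G) ≤ normalizer (N : Set G) := le_normalizer_of_normal
      have hcop : (Nat.card (Q : Subgroup G)).Coprime (Nat.card N) :=
        coprime_card_of_isPGroup Q.isPGroup' hN
      have hs : Group.IsSolvable (Q : Subgroup G) ∨ Group.IsSolvable N :=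
        Or.inl (isSolvable_of_isPGroup Q.isPGroup')
      obtain ⟨R, hRN, hR, hRi, hQR⟩ := Coprime.exists_invariant_sylow' hAK hcop hs p
      set T := normalizer ((Q : Subgroup G) : Set G) with hT
      have hRT : R ≤ T := by
        refine le_trans (fun r hr => ?_) (centralizer_le_normalizer _)
        rw [mem_centralizer_iff]
        intro y hy
        obtain ⟨k, hk⟩ := (IsPGroup.iff_orderOf.1 Q.isPGroup') ⟨y, hy⟩
        obtain ⟨S, hS⟩ := exists_sylow_le_of_not_dvd_index
          (h y ⟨k, by rw [← hk, ← orderOf_coe]⟩)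
        have hle : zpowers y ≤ (Q : Subgroup G) := zpowers_le.2 hy
        have hSc : (S : Subgroup G) ⊓ N ≤ centralizer (zpowers y : Set G) := by
          intro s hs
          rw [mem_centralizer_iff]
          rintro _ ⟨n, rfl⟩
          exact ((show Commute s y from mem_centralizer_singleton_iff.1 (hS hs.1)).zpow_right n).symm.eq
        obtain ⟨c, hc, hcR⟩ := Coprime.invariant_sylow_conj' (hle.trans hAK)
          (Coprime.hcop_mono hcop hle le_rfl) (Coprime.hsolv_mono hs hle le_rfl)
          (P := (S : Subgroup G) ⊓ N) inf_le_right (S.isPGroup'.to_inf_left)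
          (by rw [inf_relIndex_right]; exact not_dvd_relIndex_sylow_of_normal S N)
          (le_trans (fun a ha => mem_centralizer_iff.2 fun s hs =>
            (mem_centralizer_iff.1 (hSc hs) a ha).symm) (centralizer_le_normalizer _))
          hRN hR hRi (hle.trans hQR)
        rw [← hcR, Coprime.mem_conj_smul] at hr
        have h1 : c⁻¹ * r * c ∈ centralizer (zpowers y : Set G) := hSc hr
        have h2 : r ∈ centralizer (zpowers y : Set G) := by
          have hc2 : c ∈ centralizer (zpowers y : Set G) := (mem_inf.1 hc).2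
          have := mul_mem (mul_mem hc2 h1) (inv_mem hc2)
          simpa [mul_assoc] using this
        exact mem_centralizer_iff.1 h2 y (mem_zpowers y)
      have hPT : (P : Subgroup G) ≤ T ⊔ N := by
        intro x hx
        obtain ⟨k, hk, hkx⟩ := Coprime.exists_conj_eq hAK hcop hs
          (B := MulAut.conj x • (Q : Subgroup G)) (fun z hz => by
            rw [Coprime.mem_conj_smul] at hz
            simpa [mul_assoc] using hconj x hx _ hz) (Coprime.card_conj_smul _ _)
        have h1 : k⁻¹ * x ∈ T := by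
          rw [hT, Coprime.mem_normalizer_iff_conj_smul, map_mul, mul_smul, ← hkx, ← mul_smul,
            ← map_mul, inv_mul_cancel, map_one, one_smul]
        have := mul_mem (mem_sup_right (S := T) hk) (mem_sup_left (T := N) h1)
        simpa using this
      have hidx : ¬ p ∣ T.index := by
        rw [← relIndex_mul_index (le_sup_left : T ≤ T ⊔ N), relIndex_sup_eq]
        intro hd
        rcases hp.out.dvd_mul.1 hd with hd | hd
        · exact hRi (hd.trans (relIndex_dvd_of_le_left N hRT))
        · exact not_dvd_index_of_sylow_le P hPT hd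
      obtain ⟨P₁, hP₁⟩ := exists_sylow_le_of_not_dvd_index hidx
      exact ⟨P₁, Q, hP₁⟩

/-- Let p and q be primes and G a finite group that is p-solvable or q-solvable, in which no q-element has conjugacy class size divisible by p. Then some Sylow p-subgroup of G normalizes some Sylow q-subgroup of G. -/
theorem result {G : Type*} [Group G] [Finite G] (p q : ℕ) [Fact p.Prime] [Fact q.Prime] (hsolv : Cfsg.IsPSolvable p G ∨ Cfsg.IsPSolvable q G)
    (h : ∀ y : G, (∃ k : ℕ, orderOf y = q ^ k) → ¬ p ∣ (Subgroup.centralizer ({y} : Set G)).index) :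
    ∃ (P : Sylow p G) (Q : Sylow q G), (P : Subgroup G) ≤ Subgroup.normalizer ((Q : Subgroup G) : Set G) := by
  rcases hsolv with hs | hs
  · by_cases hpq : p = q
    · subst hpq
      obtain ⟨P⟩ : Nonempty (Sylow p G) := inferInstance
      exact ⟨P, P, le_normalizer⟩
    · rw [Cfsg.Agent.S4602.result p q hpq hs]
      obtain ⟨Q⟩ : Nonempty (Sylow q G) := inferInstance
      refine not_dvd_index_of_sylow_le Q fun y hy => ?_
      obtain ⟨k, hk⟩ := (IsPGroup.iff_orderOf.1 Q.isPGroup') ⟨y, hy⟩
      have hord : ∃ k : ℕ, orderOf y = q ^ k := ⟨k, by rw [← hk, ← orderOf_coe]⟩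
      obtain ⟨S, hS⟩ := exists_sylow_le_of_not_dvd_index (h y hord)
      refine mem_pPrimeCore_of_comm hpq hs hord S fun x hx _ => ?_
      rw [commutatorElement_eq_one_iff_mul_comm.2 (mem_centralizer_singleton_iff.1 (hS hx))]
      exact one_mem _
  · exact main_q G hs h

end Cfsg.Agent.S4601
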