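import Cfsg.Statements.S4609
import Cfsg.Agent.Block.KThreeB

set_option autoImplicit false
open Cfsg Cfsg.Lib.Block Cfsg.Lib.Char

namespace Cfsg.Agent.S4609

/-- Let G be a finite group, p a prime, M a maximal ideal of the algebraic integers containing p, and B a p-block of G with defect group D containing exactly three irreducible characters. Suppose the number of height-zero characters of B equals the number of height-zero characters of its Brauer correspondent b, the block of N_G(D) with defect group D inducing B (as the Alperin–McKay conjecture predicts). Then D has order 3. -/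
theorem result {G : Type*} [Group G] [Finite G] (p : ℕ) [Fact p.Prime] (M : Ideal Cfsg.AlgInt) (hM : Cfsg.IsPModular p M) (B : Set (Cfsg.IrrCharacter G)) (hB : Cfsg.IsPBlock M B) (D : Subgroup G) (hD : Cfsg.IsDefectGroup p M B D) (hk : Nat.card B = 3)
    (b : Set (Cfsg.IrrCharacter (Subgroup.normalizer (D : Set G)))) (hbB : Cfsg.IsInducedBlock M (Subgroup.normalizer (D : Set G)) b B)
    (hbD : Cfsg.IsDefectGroup p M b (D.subgroupOf (Subgroup.normalizer (D : Set G))))
    (hAM : Nat.card {χ : Cfsg.IrrCharacter G // χ ∈ B ∧ Cfsg.blockHeight p B (χ : G → ℂ) = 0} =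
           Nat.card {ψ : Cfsg.IrrCharacter (Subgroup.normalizer (D : Set G)) // ψ ∈ b ∧ Cfsg.blockHeight p b (ψ : Subgroup.normalizer (D : Set G) → ℂ) = 0}) :
    Nat.card D = 3 := by
    have hDp := defect_isPGroup hD
    have hle : D ≤ Subgroup.normalizer (D : Set G) := Subgroup.le_normalizer
    have h := KThree.index_frattini_le_three hM hbB.1 hbD (by
      rw [← hAM, ← hk]
      exact Nat.card_le_card_of_injective (fun χ => (⟨χ.1, χ.2.1⟩ : B))
        fun χ ψ e => Subtype.ext (congrArg Subtype.val e :))
    obtain ⟨h1, h2⟩ := KThree.isCyclic_of_index_frattini (defect_isPGroup hbD) h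
    let e := Subgroup.subgroupOfEquivOfLe hle
    have : IsCyclic D := isCyclic_of_surjective _ e.surjective
    exact KThree.card_eq_three_of_isCyclic hM hB hD (fun _ => h2 e.toEquiv.nontrivial) hk

end Cfsg.Agent.S4609
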