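import Cfsg.Statements.S4610
import Cfsg.Agent.Block.TwoPrinc

set_option autoImplicit false
open Cfsg

namespace Cfsg.Agent.S4610

/-- Let G be a finite group and p a prime dividing its order; fix for every prime r a maximal ideal M r of the algebraic integers containing r. Then, for every prime q ≠ p dividing the order of G, the principal p-block and the principal q-block of G have only the principal character in common, if and only if a Sylow p-subgroup P of G is normal and G is generated by P and its largest normal subgroup of order prime to p (that is, G is the direct product of P and that subgroup). -/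
theorem result {G : Type*} [Group G] [Finite G] (p : ℕ) [Fact p.Prime] (hp : p ∣ Nat.card G) (M : ℕ → Ideal Cfsg.AlgInt) (hM : ∀ r : ℕ, r.Prime → Cfsg.IsPModular r (M r)) (P : Sylow p G) :
    (∀ q : ℕ, q.Prime → q ≠ p → q ∣ Nat.card G →
        ∀ χ : Cfsg.IrrCharacter G, χ ∈ Cfsg.principalBlock (M p) G → χ ∈ Cfsg.principalBlock (M q) G → (χ : G → ℂ) = fun _ => 1) ↔
      ((P : Subgroup G).Normal ∧ (P : Subgroup G) ⊔ Cfsg.pPrimeCore p G = ⊤) := by
  have hpp : p.Prime := Fact.out
  constructor
  · intro h
    have hN : (P : Subgroup G).Normal := by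
      refine Lib.Block.TwoPrinc.sylow_normal_of_index P fun x hx q hq hqp hqC => ?_
      have hqG : q ∣ Nat.card G := hqC.trans (Subgroup.index_dvd_card _)
      refine Lib.Block.TwoPrinc.not_dvd_index_centralizer (hM p hpp) (hM q hq)
        (h q hq hqp hqG) ?_ hqC
      obtain ⟨k, hk⟩ := IsPGroup.iff_orderOf.1 P.isPGroup' ⟨x, hx⟩
      exact ⟨k, by rw [← hk, Subgroup.orderOf_mk]⟩
    refine ⟨hN, Lib.Block.TwoPrinc.sup_pPrimeCore_eq_top P fun q hq hqp y hy => ?_⟩
    have := Fact.mk hq
    by_cases hqG : q ∣ Nat.card G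
    · exact Lib.Block.TwoPrinc.not_dvd_index_centralizer (hM q hq) (hM p hpp)
        (fun χ h1 h2 => h q hq hqp hqG χ h2 h1) hy
    · obtain ⟨k, hk⟩ := hy
      have hy1 : y = 1 := by
        rw [← orderOf_eq_one_iff]
        rcases k with _ | k
        · simpa using hk
        · exact absurd ((dvd_pow_self q k.succ_ne_zero).trans (hk ▸ orderOf_dvd_natCard y)) hqG
      subst hy1
      rw [Lib.Solv.ClassSize.index_cent_eq_one_iff.2 (Subgroup.one_mem _)]
      exact hpp.not_dvd_one
  · rintro ⟨hN, hsup⟩ q hq hqp - χ h1 h2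
    have hP : ¬ q ∣ Nat.card (P : Subgroup G) := by
      obtain ⟨k, hk⟩ := IsPGroup.iff_card.1 P.isPGroup'
      rw [hk]
      exact fun hd => hqp ((Nat.prime_dvd_prime_iff_eq hq hpp).1 (hq.dvd_of_dvd_pow hd))
    have hK : (⊤ : Subgroup G) ≤ Lib.Char.charKer (χ : G → ℂ) := by
      rw [← hsup]
      exact sup_le (Lib.Block.le_charKer_of_mem_principalBlock (hM q hq) h2 _ hP)
        (Lib.Block.pPrimeCore_le_charKer (hM p hpp) h1)
    exact Lib.Block.Princ.eq_one_of_const χ.2 fun g =>
      Lib.Char.apply_of_mem_charKer (hK (Subgroup.mem_top g))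

end Cfsg.Agent.S4610
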