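import Cfsg.Statements.S4620
import Cfsg.Agent.Solv.Fitting
import Cfsg.Agent.Solv.Cores

set_option autoImplicit false
open scoped Pointwise
open Cfsg

namespace Cfsg.Agent.S4620

open Cfsg.Lib.Solv
open scoped Pointwise

theorem sylow_eq {H : Type*} [Group H] [Finite H] {p : ℕ} [Fact p.Prime] (P : Sylow p H)
    (hTI : ∀ g : H, g ∉ Subgroup.normalizer ((P : Subgroup H) : Set H) →
      (P : Subgroup H) ⊓ (MulAut.conj g • (P : Subgroup H)) = ⊥)
    (R S : Sylow p H) {a : H} (ha : a ≠ 1) (hR : a ∈ (R : Subgroup H)) (hS : a ∈ (S : Subgroup H)) :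
    R = S := by
  obtain ⟨g, rfl⟩ := MulAction.exists_smul_eq H P R
  obtain ⟨h, rfl⟩ := MulAction.exists_smul_eq H P S
  by_cases hn : g⁻¹ * h ∈ Subgroup.normalizer ((P : Subgroup H) : Set H)
  · have : (g⁻¹ * h) • P = P := Sylow.smul_eq_iff_mem_normalizer.mpr hn
    rw [mul_smul, inv_smul_eq_iff] at this
    exact this.symm
  · exfalso
    have h1 : g⁻¹ * a * g ∈ (P : Subgroup H) ⊓ (MulAut.conj (g⁻¹ * h) • (P : Subgroup H)) := by
      rw [Sylow.coe_subgroup_smul, Subgroup.mem_pointwise_smul_iff_inv_smul_mem] at hR hS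
      simp only [MulAut.smul_def, MulAut.conj_inv_apply] at hR hS
      rw [Subgroup.mem_inf, Subgroup.mem_pointwise_smul_iff_inv_smul_mem]
      refine ⟨hR, ?_⟩
      simp only [MulAut.smul_def, MulAut.conj_inv_apply]
      convert hS using 1
      group
    rw [hTI _ hn, Subgroup.mem_bot] at h1
    apply ha
    calc a = g * (g⁻¹ * a * g) * g⁻¹ := by group
      _ = 1 := by rw [h1]; group

theorem exists_orderOf {H : Type*} [Group H] [Finite H] {p : ℕ} [Fact p.Prime]
    (hOp' : pPrimeCore p H = ⊥) {A : Subgroup H} (hA : A.IsSubnormal) (h1 : A ≠ ⊥) :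
    ∃ a ∈ A, orderOf a = p := by
  have hp : p.Prime := Fact.out
  have : p ∣ Nat.card A := by
    by_contra hn
    have := le_piCore_of_isSubnormal hA ((isPiNum_compl_singleton_iff hp).mpr
      ((Nat.coprime_comm.mp (hp.coprime_iff_not_dvd.mpr hn))))
    rw [← pPrimeCore_eq_piCore, hOp'] at this
    exact h1 (le_bot_iff.mp this)
  obtain ⟨a, ha⟩ := exists_prime_orderOf_dvd_card' p this
  exact ⟨a, a.2, by rw [Subgroup.orderOf_coe, ha]⟩

theorem not_commute {H : Type*} [Group H] [Finite H] {p : ℕ} [Fact p.Prime]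
    (hOp : pCore p H = ⊥) (hOp' : pPrimeCore p H = ⊥) (P : Sylow p H)
    (hTI : ∀ g : H, g ∉ Subgroup.normalizer ((P : Subgroup H) : Set H) →
      (P : Subgroup H) ⊓ (MulAut.conj g • (P : Subgroup H)) = ⊥)
    {A B : Subgroup H} (hA : A.IsSubnormal) (hA1 : A ≠ ⊥) (hB : B.IsSubnormal) (hB1 : B ≠ ⊥)
    (hc : ∀ a ∈ A, ∀ b ∈ B, a * b = b * a) : False := by
  have hp : p.Prime := Fact.out
  obtain ⟨a, haA, ha⟩ := exists_orderOf hOp' hA hA1
  obtain ⟨b, hbB, hb⟩ := exists_orderOf hOp' hB hB1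
  have ha1 : a ≠ 1 := by
    rintro rfl
    rw [orderOf_one] at ha
    exact hp.one_lt.ne ha
  have hb1 : b ≠ 1 := by
    rintro rfl
    rw [orderOf_one] at hb
    exact hp.one_lt.ne hb
  have hz : ∀ x : H, orderOf x = p → IsPGroup p (Subgroup.zpowers x) := fun x hx =>
    IsPGroup.of_card (n := 1) (by rw [Nat.card_zpowers, hx, pow_one])
  obtain ⟨R, hR⟩ := (hz a ha).exists_le_sylow
  have haR : a ∈ (R : Subgroup H) := hR (Subgroup.mem_zpowers a)
  have hBN : B ≤ Subgroup.normalizer ((R : Subgroup H) : Set H) := by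
    intro c hc'
    refine Sylow.smul_eq_iff_mem_normalizer.mp (sylow_eq P hTI _ _ ha1 ?_ haR)
    rw [Sylow.coe_subgroup_smul, Subgroup.mem_pointwise_smul_iff_inv_smul_mem]
    have : (MulAut.conj c)⁻¹ • a = a := by
      simp only [MulAut.smul_def, MulAut.conj_inv_apply]
      rw [mul_assoc, hc a haA c hc', inv_mul_cancel_left]
    rwa [this]
  have hbR : b ∈ (R : Subgroup H) := by
    have h1 := (hz b hb).inf_normalizer_sylow R
    have h2 : b ∈ Subgroup.zpowers b ⊓ Subgroup.normalizer ((R : Subgroup H) : Set H) :=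
      ⟨Subgroup.mem_zpowers b, hBN hbB⟩
    exact (h1.le h2).2
  have hsn : ((R : Subgroup H) ⊓ B).IsSubnormal := by
    refine Subgroup.IsSubnormal.step _ B inf_le_right hB ?_
    rw [Subgroup.inf_subgroupOf_right]
    exact Subgroup.normal_subgroupOf_of_le_normalizer hBN
  have h3 := le_piCore_of_isSubnormal hsn
    (isPGroup_iff_isPiNum.mp (R.isPGroup'.to_le (inf_le_left : (R : Subgroup H) ⊓ B ≤ R)))
  rw [← pCore_eq_piCore, hOp] at h3
  exact hb1 (Subgroup.mem_bot.mp (h3 ⟨hbR, hbB⟩))

/-- Let H be a finite group with no nontrivial normal p-subgroup and no nontrivial normal subgroup of order prime to p, whose Sylow p-subgroup P is nontrivial and a trivial-intersection set (P meets its conjugates by elements outside N_H(P) trivially). Then H has a unique minimal normal subgroup N; N is non-abelian simple with trivial centralizer in H (so H embeds in Aut(N)), and a Sylow p-subgroup of N is again a nontrivial trivial-intersection set in N. -/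
theorem result {H : Type*} [Group H] [Finite H] (p : ℕ) [Fact p.Prime] (hOp : Cfsg.pCore p H = ⊥) (hOp' : Cfsg.pPrimeCore p H = ⊥) (P : Sylow p H) (hP1 : (P : Subgroup H) ≠ ⊥)
    (hTI : ∀ g : H, g ∉ Subgroup.normalizer ((P : Subgroup H) : Set H) → (P : Subgroup H) ⊓ (MulAut.conj g • (P : Subgroup H)) = ⊥) :
    ∃ N : Subgroup H, N.Normal ∧ N ≠ ⊥ ∧ (∀ K : Subgroup H, K.Normal → K ≠ ⊥ → N ≤ K) ∧
      IsSimpleGroup N ∧ ¬ IsMulCommutative N ∧ Subgroup.centralizer (N : Set H) = ⊥ ∧
      ∀ Q : Sylow p N, (Q : Subgroup N) ≠ ⊥ ∧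
        ∀ n : N, n ∉ Subgroup.normalizer ((Q : Subgroup N) : Set N) → (Q : Subgroup N) ⊓ (MulAut.conj n • (Q : Subgroup N)) = ⊥ := by
  have hp : p.Prime := Fact.out
  have htop : (⊤ : Subgroup H) ≠ ⊥ := fun h => hP1 (le_bot_iff.mp (h ▸ le_top))
  obtain ⟨N, hN, hN1, -, hmin⟩ := exists_minimal_normal_le (⊤ : Subgroup H) htop
  have hC : Subgroup.centralizer (N : Set H) = ⊥ := by
    by_contra h
    exact not_commute hOp hOp' P hTI hN.isSubnormal hN1
      (Subgroup.Normal.isSubnormal inferInstance) h fun a ha b hb => hb a ha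
  refine ⟨N, hN, hN1, fun K hK hK1 => ?_, ?_, fun hc => ?_, hC, fun Q => ⟨?_, fun n hn => ?_⟩⟩
  · rcases hmin (N ⊓ K) inferInstance inf_le_left with h | h
    · exact (not_commute hOp hOp' P hTI hN.isSubnormal hN1 hK.isSubnormal hK1 fun a ha b hb =>
        Subgroup.commute_of_normal_of_disjoint N K hN hK (disjoint_iff.mpr h) a b ha hb).elim
    · exact h.ge.trans inf_le_right
  · have : Nontrivial N := (Subgroup.nontrivial_iff_ne_bot N).mpr hN1
    refine ⟨fun K hK => ?_⟩
    by_contra hne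
    push Not at hne
    obtain ⟨M, hM, hM1, hMK, hMmin⟩ := exists_minimal_normal_le K hne.1
    by_cases hall : ∀ h : H, M ≤ M.map (MulAut.conjNormal h : MulAut N).toMonoidHom
    · have hn : (M.map N.subtype).Normal := ⟨by
        rintro _ ⟨m, hm, rfl⟩ g
        obtain ⟨m', hm', he⟩ := hall g⁻¹ hm
        refine ⟨m', hm', ?_⟩
        rw [← he]
        simp [mul_assoc]⟩
      rcases hmin _ hn (Subgroup.map_subtype_le M) with h | h
      · exact hM1 ((Subgroup.map_eq_bot_iff_of_injective M N.subtype_injective).mp h)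
      · apply hne.2
        rw [eq_top_iff]
        intro x _
        obtain ⟨m, hm, he⟩ := h.ge x.2
        exact hMK ((Subtype.ext he : m = x) ▸ hm)
    · push Not at hall
      obtain ⟨h, hh⟩ := hall
      set M' := M.map (MulAut.conjNormal h : MulAut N).toMonoidHom
      have hM' : M'.Normal := hM.map _ (MulAut.conjNormal h : MulAut N).surjective
      have hM'1 : M' ≠ ⊥ := fun e => hM1 ((Subgroup.map_eq_bot_iff_of_injective M
        (MulAut.conjNormal h : MulAut N).injective).mp e)
      have hd : M ⊓ M' = ⊥ := (hMmin (M ⊓ M') inferInstance inf_le_left).resolve_right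
        fun e => hh (e.ge.trans inf_le_right)
      refine not_commute hOp hOp' P hTI (hM.isSubnormal.trans' hN.isSubnormal)
        (fun e => hM1 ((Subgroup.map_eq_bot_iff_of_injective M N.subtype_injective).mp e))
        (hM'.isSubnormal.trans' hN.isSubnormal)
        (fun e => hM'1 ((Subgroup.map_eq_bot_iff_of_injective M' N.subtype_injective).mp e)) ?_
      rintro _ ⟨a, ha, rfl⟩ _ ⟨b, hb, rfl⟩
      exact congrArg Subtype.val
        (Subgroup.commute_of_normal_of_disjoint M M' hM hM' (disjoint_iff.mpr hd) a b ha hb)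
  · exact hN1 (le_bot_iff.mp (hC ▸ Subgroup.le_centralizer N))
  · intro hQ
    obtain ⟨a, haN, ha⟩ := exists_orderOf hOp' hN.isSubnormal hN1
    have h1 : p ∣ Nat.card N := ha ▸ N.orderOf_dvd_natCard haN
    have h2 := Q.not_dvd_index
    rw [hQ, Subgroup.index_bot] at h2
    exact h2 h1
  · by_contra hne
    obtain ⟨a, ha, ha1⟩ := (Subgroup.nontrivial_iff_exists_ne_one _).mp
      ((Subgroup.nontrivial_iff_ne_bot _).mpr hne)
    obtain ⟨R, hR⟩ := Q.exists_comap_subtype_eq
    have h1 : (a : H) ∈ (R : Subgroup H) := by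
      have := (Subgroup.mem_inf.mp ha).1
      rw [← hR] at this
      exact this
    have h2 : (a : H) ∈ (((n : H) • R : Sylow p H) : Subgroup H) := by
      have := (Subgroup.mem_inf.mp ha).2
      rw [Subgroup.mem_pointwise_smul_iff_inv_smul_mem, ← hR] at this
      rw [Sylow.coe_subgroup_smul, Subgroup.mem_pointwise_smul_iff_inv_smul_mem]
      exact this
    have h3 := Sylow.smul_eq_iff_mem_normalizer.mp
      (sylow_eq P hTI _ _ (fun e => ha1 (Subtype.ext e)) h2 h1)
    apply hn
    rw [Subgroup.mem_normalizer_iff]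
    intro x
    rw [← hR]
    exact Subgroup.mem_normalizer_iff.mp h3 x

end Cfsg.Agent.S4620
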