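import Cfsg.Statements.S4629
import Cfsg.Agent.Char.SylEAOrth

set_option autoImplicit false
open Cfsg

namespace Cfsg.Agent.S4629

/-- Let F be a finite field of odd order and m ≥ 3. For the commutator subgroup Ω of the isometry group of the non-singular quadratic form x₀² + Σ x_i y_i in dimension 2m + 1 over F, a Sylow 2-subgroup P of Ω has P/P' elementary abelian: the square of every element of P lies in the derived subgroup of P. -/
theorem result {F : Type*} [Field F] [Fintype F] (hF : Odd (Fintype.card F)) (m : ℕ) (hm : 3 ≤ m) (P : Sylow 2 (Cfsg.Omega F (Cfsg.quadFormOdd m F))) : ∀ x : (P : Subgroup (Cfsg.Omega F (Cfsg.quadFormOdd m F))), x ^ 2 ∈ commutator (P : Subgroup (Cfsg.Omega F (Cfsg.quadFormOdd m F))) := by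
  revert P
  rw [← Cfsg.Lib.Class.coe_quadOdd]
  exact (Cfsg.Lib.Char.sylEA_omega_odd (m := m) (Nat.card_eq_fintype_card (α := F) ▸ hF)
    (Cfsg.Lib.Class.quadOdd_nondegenerate (Cfsg.Lib.Class.two_ne_zero_of_odd_card hF) m)
    (by omega) (by simp; omega)).congr (Cfsg.Lib.Class.Orth.omegaEquiv _).symm

end Cfsg.Agent.S4629
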