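import Cfsg.Statements.S4630
import Cfsg.Agent.Char.SylEAOrth

set_option autoImplicit false
open Cfsg

namespace Cfsg.Agent.S4630

/-- Let F be a finite field of odd order and m ≥ 1 with m even or m ≥ 4. For the commutator subgroup Ω of the isometry group of the plus-type quadratic form Σ_{i<m} x_i y_i in dimension 2m over F, a Sylow 2-subgroup P of Ω has P/P' elementary abelian: the square of every element of P lies in the derived subgroup of P. -/
theorem result {F : Type*} [Field F] [Fintype F] (hF : Odd (Fintype.card F)) (m : ℕ) (hm : 1 ≤ m) (hm' : Even m ∨ 4 ≤ m) (P : Sylow 2 (Cfsg.Omega F (Cfsg.quadFormPlus m F))) : ∀ x : (P : Subgroup (Cfsg.Omega F (Cfsg.quadFormPlus m F))), x ^ 2 ∈ commutator (P : Subgroup (Cfsg.Omega F (Cfsg.quadFormPlus m F))) := by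
  revert P
  rw [← Cfsg.Lib.Class.coe_quadPlus]
  have hF' : Odd (Nat.card F) := Nat.card_eq_fintype_card (α := F) ▸ hF
  refine Cfsg.Lib.Char.SylEA.congr ?_ (Cfsg.Lib.Class.Orth.omegaEquiv _).symm
  rcases hm' with hm' | hm'
  · refine Cfsg.Lib.Char.sylEA_omega_even_large (m := m) hF'
      (Cfsg.Lib.Class.quadPlus_nondegenerate m) (by obtain ⟨k, rfl⟩ := hm'; omega) (by simp; omega)
      (iff_of_true (Cfsg.Lib.Known.isPlus_quadPlus m) ?_)
    rw [Nat.card_eq_fintype_card, ← Cfsg.Lib.Known.isSquare_neg_one_pow_iff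
      (Cfsg.Lib.Class.two_ne_zero_of_odd_card hF), hm'.neg_one_pow]
    exact IsSquare.one
  · exact Cfsg.Lib.Char.sylEA_omega_even (m := m) hF' (Cfsg.Lib.Class.quadPlus_nondegenerate m)
      (by omega) (by simp; omega)

end Cfsg.Agent.S4630
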