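import Cfsg.Statements.S4741
import Cfsg.Agent.Block.Robinson

set_option autoImplicit false
open Cfsg

namespace Cfsg.Agent.S4741

open Cfsg.Lib.Char Cfsg.Lib.Block Cfsg.Lib.Block.Loc Cfsg.Lib.Block.Ht Subgroup

/-- Let p be a prime, M a maximal ideal of the algebraic integers containing p, and D a subgroup of the finite group G. Let x₁, …, x_r be pairwise non-conjugate elements of G such that D is a Sylow p-subgroup of the centralizer of each xᵢ, and such that for any conjugates g of some xᵢ and h of some xⱼ the element g h⁻¹ is never a non-identity p-element. Then there are r distinct p-blocks B₁, …, B_r of G, each having D as a defect group, such that for every choice of characters χᵢ ∈ Bᵢ of height zero the determinant of the r × r matrix (χᵢ(xⱼ)) does not lie in the local ideal at M. -/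
theorem result {G : Type*} [Group G] [Finite G] (p : ℕ) [Fact p.Prime] (M : Ideal Cfsg.AlgInt) (hM : Cfsg.IsPModular p M) (D : Subgroup G) {r : ℕ} (x : Fin r → G) (hx : ∀ i j : Fin r, IsConj (x i) (x j) → i = j) (hD : ∀ i : Fin r, ∃ S : Sylow p ↥(Subgroup.centralizer ({x i} : Set G)), (S : Subgroup ↥(Subgroup.centralizer ({x i} : Set G))).map (Subgroup.centralizer ({x i} : Set G)).subtype = D) (hsep : ∀ i j : Fin r, ∀ g h : G, IsConj (x i) g → IsConj (x j) h → ∀ k : ℕ, 0 < k → orderOf (g * h⁻¹) ≠ p ^ k) : ∃ B : Fin r → Set (Cfsg.IrrCharacter G), Function.Injective B ∧ (∀ i : Fin r, Cfsg.IsPBlock M (B i) ∧ Cfsg.IsDefectGroup p M (B i) D) ∧ ∀ χ : Fin r → Cfsg.IrrCharacter G, (∀ i : Fin r, χ i ∈ B i ∧ Cfsg.blockHeight p (B i) (χ i : G → ℂ) = 0) → ¬ Cfsg.MemLocalIdeal M (Matrix.det (Matrix.of fun i j : Fin r => (χ i : G → ℂ) (x j))) := by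
  classical
  have := Fintype.ofFinite G
  let E : Matrix (Fin r) (Bl M G) ℂ :=
    Matrix.of fun i B => ∑ z, blockCoeff B.1 z * pInd p (z * (x i)⁻¹)
  let L : Matrix (Bl M G) (Fin r) ℂ := Matrix.of fun B j => centralChar (blRep B : G → ℂ) (x j)
  have hE : ∀ i B, MemLocalRing M (E i B) := fun i B =>
    ring_sum hM _ fun z _ => ring_mul hM (ring_blockCoeff hM B.2 z) (ring_pInd hM _)
  have hL : ∀ B j, MemLocalRing M (L B j) := fun B j => ring_centralChar hM (blRep B).2 _
  have h1 : ∀ i j, MemLocalIdeal M ((1 : Matrix (Fin r) (Fin r) ℂ) i j - (E * L) i j) := by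
    intro i j
    have h2 := ideal_sum_mul_pInd_sub hM (isClassFunction_clInd (x j)) (ring_clInd hM _) (x i)⁻¹
    simp only [fun B : Bl M G => om_clInd (blRep B).2.isClassFunction (x j)] at h2
    convert h2 using 2
    swap
    · rw [Matrix.mul_apply]; rfl
    rw [Finset.sum_eq_single (x i)]
    · rw [mul_inv_cancel, pInd_one, mul_one]
      by_cases h : i = j
      · subst h
        rw [Matrix.one_apply_eq, clInd_of_isConj (IsConj.refl _)]
      · rw [Matrix.one_apply_ne h, clInd_of_not_isConj fun h' => h (hx j i h').symm]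
    · intro z _ hz
      by_cases h : IsConj (x j) z
      · rw [pInd_of_not_pElem, mul_zero]
        rintro ⟨k, hk⟩
        rcases Nat.eq_zero_or_pos k with rfl | hk0
        · rw [pow_zero, orderOf_eq_one_iff, mul_inv_eq_one] at hk
          exact hz hk
        · exact hsep j i z (x i) h (IsConj.refl _) k hk0 hk
      · rw [clInd_of_not_isConj h, zero_mul]
    · simp
  have h2 : ¬ MemLocalIdeal M (E * L).det := by
    rw [← ideal_iff_of_sub hM (ideal_det_sub_det hM (fun i j => by
      rw [Matrix.one_apply]; exact ring_ite _ (ring_one hM) (ring_zero hM)) h1), Matrix.det_one]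
    exact not_ideal_one hM
  rw [det_mul_eq_sum_rows] at h2
  obtain ⟨f, -, hf⟩ := exists_not_ideal_of_sum hM _ h2
  have hLf : ∀ i j, MemLocalRing M (L.submatrix f id i j) := fun i j => hL _ _
  have h3 : ¬ MemLocalIdeal M (L.submatrix f id).det := fun h =>
    hf (ideal_mul_left hM (ring_prod hM _ fun i _ => hE _ _) h)
  have h4 : ∀ i, ¬ MemLocalIdeal M (E i (f i)) := fun i h =>
    hf (ideal_mul_right hM (ideal_prod_of_mem hM _ (fun i _ => hE _ _) (Finset.mem_univ i) h)
      (ring_det hM hLf))
  have h5 : ∀ i, IsDefectGroup p M (f i).1 D := by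
    intro i
    obtain ⟨j, hj⟩ : ∃ j, ¬ MemLocalIdeal M (L.submatrix f id i j) := by
      by_contra hc
      push Not at hc
      exact h3 (ideal_det_of_row hM hLf hc)
    obtain ⟨z, hz, h6⟩ := exists_coeff_of_sum_pInd hM (f i).2 (IsSylowIn.isPGroup (hD i))
      (inv_mem (le_centralizer_singleton_iff.1 (IsSylowIn.le (hD i)))) (h4 i)
    exact isDefectGroup_of_coeff_of_centralChar hM (f i).2 (blRep_mem hM _) hj (hD j) h6 hz
  refine ⟨fun i => (f i).1, fun i j hij => ?_, fun i => ⟨(f i).2, h5 i⟩, fun χ hχ h6 => h3 ?_⟩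
  · by_contra hne
    refine h3 (ideal_of_eq_zero hM (Matrix.det_zero_of_row_eq hne ?_))
    funext k
    simp only [Matrix.submatrix_apply, show f i = f j from Subtype.ext hij]
  · have hp : p.Prime := Fact.out
    have hp0 : (p : ℂ) ≠ 0 := by exact_mod_cast hp.ne_zero
    have h7 : MemLocalIdeal M ((L.submatrix f id).det -
        (Matrix.of fun i j => centralChar (χ i : G → ℂ) (x j)).det) :=
      ideal_det_sub_det hM hLf fun i j =>
        Ht.sameBlock_of_mem hM (f i).2 (blRep_mem hM _) (hχ i).1 (x j)
    rw [ideal_iff_of_sub hM h7]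
    set e := (Nat.card G).factorization p - (Nat.card D).factorization p with he
    have h8 : ∀ j, (centralizer ({x j} : Set G)).index.factorization p = e := fun j => by
      have h3 := factorization_index_add p (centralizer ({x j} : Set G))
      have h4 := IsSylowIn.card_eq (hD j)
      rw [he, h4, hp.factorization_pow, Finsupp.single_eq_same]
      omega
    have h9 : (Matrix.of fun i j => centralChar (χ i : G → ℂ) (x j)) =
        Matrix.diagonal (fun i => ((p ^ e : ℕ) : ℂ) / (charDegree (χ i : G → ℂ) : ℂ)) *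
          (Matrix.of fun i j : Fin r => (χ i : G → ℂ) (x j)) *
          Matrix.diagonal fun j => ((centralizer ({x j} : Set G)).index : ℂ) / ((p ^ e : ℕ) : ℂ) := by
      ext i j
      rw [Matrix.mul_diagonal, Matrix.diagonal_mul, Matrix.of_apply, Matrix.of_apply, centralChar,
        cast_charDegree_irr]
      have := (χ i).2.apply_one_ne_zero
      push_cast
      field_simp
    rw [h9, Matrix.det_mul, Matrix.det_mul, Matrix.det_diagonal, Matrix.det_diagonal]
    refine ideal_mul_right hM (ideal_mul_left hM (ring_prod hM _ fun i _ => ?_) h6)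
      (ring_prod hM _ fun j _ => ?_)
    · rw [ring_natCast_div_iff hM (pow_ne_zero _ hp.ne_zero) (charDegree_ne_zero (χ i).2),
        hp.factorization_pow, Finsupp.single_eq_same, (blockHeight_eq_zero_iff (hχ i).1).1 (hχ i).2,
        ← factorization_index_of_isSylowIn hM (f i).2 (h5 i) (hD i), h8]
    · rw [ring_natCast_div_iff hM index_ne_zero_of_finite (pow_ne_zero _ hp.ne_zero),
        hp.factorization_pow, Finsupp.single_eq_same, h8]

end Cfsg.Agent.S4741
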