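import Cfsg.Statements.S4742
import Cfsg.Agent.Block.PairCount

set_option autoImplicit false
open Cfsg

namespace Cfsg.Agent.S4742

/-- Let p ≠ q be primes dividing the order of the finite group G, and suppose the centralizer of every non-identity p-element of G has order prime to q. Then either G has an irreducible character of p-defect zero, or for every non-identity q-element z of G there are conjugates g, h of z such that g h⁻¹ is a non-identity p-element. -/
theorem result {G : Type*} [Group G] [Finite G] (p q : ℕ) [Fact p.Prime] [Fact q.Prime] (hppq : p ≠ q) (hpG : p ∣ Nat.card G) (hqG : q ∣ Nat.card G) (hC : ∀ g : G, g ≠ 1 → (∃ k : ℕ, orderOf g = p ^ k) → ¬ q ∣ Nat.card ↥(Subgroup.centralizer ({g} : Set G))) : (∃ χ : Cfsg.IrrCharacter G, (Cfsg.charDegree (χ : G → ℂ)).factorization p = (Nat.card G).factorization p) ∨ ∀ z : G, z ≠ 1 → (∃ k : ℕ, orderOf z = q ^ k) → ∃ g h : G, IsConj z g ∧ IsConj z h ∧ g * h⁻¹ ≠ 1 ∧ ∃ k : ℕ, orderOf (g * h⁻¹) = p ^ k := by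
  by_contra hcon
  rw [not_or] at hcon
  obtain ⟨h1, h2⟩ := hcon
  push Not at h2
  obtain ⟨z, hz1, ⟨k, hk⟩, hz⟩ := h2
  apply h1
  refine Cfsg.Lib.Block.exists_defect_zero_of_pairs z ?_ ?_
  · intro hd
    obtain ⟨u, hu⟩ := exists_prime_orderOf_dvd_card' p hd
    have hu' : orderOf (u : G) = p := by rw [Subgroup.orderOf_coe, hu]
    refine hC u (fun h => ?_) ⟨1, by rw [hu', pow_one]⟩ ?_
    · rw [h, orderOf_one] at hu'
      exact (Fact.out : p.Prime).one_lt.ne hu'
    · have hzu : z ∈ Subgroup.centralizer ({(u : G)} : Set G) :=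
        Subgroup.mem_centralizer_singleton_iff.2 (Subgroup.mem_centralizer_singleton_iff.1 u.2).symm
      refine dvd_trans ?_ (Subgroup.orderOf_dvd_natCard _ hzu)
      rw [hk]
      refine dvd_pow_self q fun h0 => hz1 ?_
      rw [h0, pow_zero] at hk
      exact orderOf_eq_one_iff.1 hk
  · rintro g h hg hh ⟨n, hn⟩
    by_contra hne
    exact hz g h hg hh (fun h => hne (mul_inv_eq_one.1 h)) n hn

end Cfsg.Agent.S4742
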