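import Cfsg.Statements.S4743
import Cfsg.Agent.Block.PairCount

set_option autoImplicit false
open Cfsg

namespace Cfsg.Agent.S4743

theorem symm_hyp {G : Type*} [Group G] [Finite G] (p q : ℕ) [hp : Fact p.Prime] [Fact q.Prime]
    (hC : ∀ g : G, g ≠ 1 → (∃ k : ℕ, orderOf g = p ^ k) →
      ¬ q ∣ Nat.card ↥(Subgroup.centralizer ({g} : Set G))) :
    ∀ g : G, g ≠ 1 → (∃ k : ℕ, orderOf g = q ^ k) →
      ¬ p ∣ Nat.card ↥(Subgroup.centralizer ({g} : Set G)) := by
  rintro z hz1 ⟨k, hk⟩ hd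
  obtain ⟨u, hu⟩ := exists_prime_orderOf_dvd_card' p hd
  have hu' : orderOf (u : G) = p := by rw [Subgroup.orderOf_coe, hu]
  refine hC u (fun h => ?_) ⟨1, by rw [hu', pow_one]⟩ ?_
  · rw [h, orderOf_one] at hu'
    exact hp.out.one_lt.ne hu'
  · have hzu : z ∈ Subgroup.centralizer ({(u : G)} : Set G) :=
      Subgroup.mem_centralizer_singleton_iff.2 (Subgroup.mem_centralizer_singleton_iff.1 u.2).symm
    refine dvd_trans ?_ (Subgroup.orderOf_dvd_natCard _ hzu)
    rw [hk]
    refine dvd_pow_self q fun h0 => hz1 ?_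
    rw [h0, pow_zero] at hk
    exact orderOf_eq_one_iff.1 hk

theorem defect_zero {G : Type*} [Group G] [Finite G] (p q : ℕ) [hp : Fact p.Prime]
    [hq : Fact q.Prime]
    (hC : ∀ g : G, g ≠ 1 → (∃ k : ℕ, orderOf g = q ^ k) →
      ¬ p ∣ Nat.card ↥(Subgroup.centralizer ({g} : Set G))) (N : Subgroup G) [hN : N.Normal]
    (hpN : ¬ p ∣ Nat.card N) (hqN : q ∣ Nat.card N) :
    ∃ χ : Cfsg.IrrCharacter G,
      (Cfsg.charDegree (χ : G → ℂ)).factorization p = (Nat.card G).factorization p := by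
  obtain ⟨z, hz⟩ := exists_prime_orderOf_dvd_card' q hqN
  have hz' : orderOf (z : G) = q := by rw [Subgroup.orderOf_coe, hz]
  refine Cfsg.Lib.Block.exists_defect_zero_of_pairs (z : G) (hC z (fun h => ?_)
    ⟨1, by rw [hz', pow_one]⟩) ?_
  · rw [h, orderOf_one] at hz'
    exact hq.out.one_lt.ne hz'
  · rintro g k hg hk ⟨n, hn⟩
    obtain ⟨c, rfl⟩ := isConj_iff.1 hg
    obtain ⟨d, rfl⟩ := isConj_iff.1 hk
    have hm := N.mul_mem (hN.conj_mem _ z.2 c) (N.inv_mem (hN.conj_mem _ z.2 d))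
    have hd := Subgroup.orderOf_dvd_natCard _ hm
    rw [hn] at hd
    rcases n with _ | n
    · exact mul_inv_eq_one.1 (orderOf_eq_one_iff.1 (by rw [hn, pow_zero]))
    · exact absurd ((dvd_pow_self p n.succ_ne_zero).trans hd) hpN

theorem exists_normal {G : Type*} [Group G] [Finite G] (p q : ℕ) [hp : Fact p.Prime]
    [hq : Fact q.Prime] (hpq : p ≠ q) (hpG : p ∣ Nat.card G) (hs : Cfsg.IsPSolvable p G) :
    ∃ N : Subgroup G, N.Normal ∧ ((p ∣ Nat.card N ∧ ¬ q ∣ Nat.card N) ∨
      (q ∣ Nat.card N ∧ ¬ p ∣ Nat.card N)) := by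
  obtain ⟨n, H, h0, hl, hmono, hnorm, hstep⟩ := hs
  by_contra hcon
  push Not at hcon
  have key : ∀ i : Fin (n + 1), ¬ p ∣ Nat.card (H i) ∧ ¬ q ∣ Nat.card (H i) := by
    intro i
    induction i using Fin.induction with
    | zero =>
      rw [h0, Subgroup.card_bot]
      exact ⟨hp.out.one_lt.ne' ∘ Nat.dvd_one.1, hq.out.one_lt.ne' ∘ Nat.dvd_one.1⟩
    | succ i ih =>
      have hle : H i.castSucc ≤ H i.succ := hmono (Fin.castSucc_lt_succ).le
      have hc : Nat.card (H i.succ) =
          Nat.card (H i.castSucc) * (H i.castSucc).relIndex (H i.succ) := by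
        rw [Subgroup.relIndex, ← Nat.card_congr (Subgroup.subgroupOfEquivOfLe hle).toEquiv,
          Subgroup.card_mul_index]
      obtain ⟨h1, h2⟩ := hcon (H i.succ) (hnorm _)
      rcases hstep i with ⟨m, hm⟩ | hm
      · have : ¬ q ∣ Nat.card (H i.succ) := by
          rw [hc, hm, hq.out.dvd_mul]
          rintro (h | h)
          · exact ih.2 h
          · exact hpq ((Nat.prime_dvd_prime_iff_eq hq.out hp.out).1 (hq.out.dvd_of_dvd_pow h)).symm
        exact ⟨fun h => this (h1 h), this⟩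
      · have : ¬ p ∣ Nat.card (H i.succ) := by
          rw [hc, hp.out.dvd_mul]
          rintro (h | h)
          · exact ih.1 h
          · exact (Nat.Prime.coprime_iff_not_dvd hp.out).1 hm.symm h
        exact ⟨this, fun h => this (h2 h)⟩
  apply (key (Fin.last n)).1
  rwa [hl, Subgroup.card_top]

/-- Let p ≠ q be primes dividing the order of the finite group G, suppose the centralizer of every non-identity p-element has order prime to q, and suppose G is p-solvable or q-solvable. Then G has an irreducible character of p-defect zero or an irreducible character of q-defect zero. -/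
theorem result {G : Type*} [Group G] [Finite G] (p q : ℕ) [Fact p.Prime] [Fact q.Prime] (hppq : p ≠ q) (hpG : p ∣ Nat.card G) (hqG : q ∣ Nat.card G) (hC : ∀ g : G, g ≠ 1 → (∃ k : ℕ, orderOf g = p ^ k) → ¬ q ∣ Nat.card ↥(Subgroup.centralizer ({g} : Set G))) (hsolv : Cfsg.IsPSolvable p G ∨ Cfsg.IsPSolvable q G) : (∃ χ : Cfsg.IrrCharacter G, (Cfsg.charDegree (χ : G → ℂ)).factorization p = (Nat.card G).factorization p) ∨ (∃ χ : Cfsg.IrrCharacter G, (Cfsg.charDegree (χ : G → ℂ)).factorization q = (Nat.card G).factorization q) := by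
  have hp : p.Prime := Fact.out
  have hq : q.Prime := Fact.out
  have hC' := symm_hyp p q hC
  rcases hsolv with hs | hs
  · obtain ⟨N, hN, h | h⟩ := exists_normal p q hppq hpG hs
    · exact Or.inr (defect_zero q p hC N h.2 h.1)
    · exact Or.inl (defect_zero p q hC' N h.2 h.1)
  · obtain ⟨N, hN, h | h⟩ := exists_normal q p hppq.symm hqG hs
    · exact Or.inl (defect_zero p q hC' N h.2 h.1)
    · exact Or.inr (defect_zero q p hC N h.2 h.1)

end Cfsg.Agent.S4743
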