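import Cfsg.Statements.S4745
import Cfsg.Agent.Inst.BenderCore
import Cfsg.Agent.Cond.S4745

set_option autoImplicit false
open Cfsg

namespace Cfsg.Agent.S4745

/-- Let p be an odd prime and G a finite group of even order divisible by p in which the centralizer of every non-identity p-element has odd order, and suppose G acts faithfully and transitively on a set with p ^ r elements, r ≥ 1. Then either G has an irreducible character of p-defect zero, or G is p-solvable and has an irreducible character of 2-defect zero. -/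
theorem result {G Ω : Type*} [Group G] [Finite G] [MulAction G Ω] [FaithfulSMul G Ω] [Fintype Ω] (htr : MulAction.IsPretransitive G Ω) (p : ℕ) [Fact p.Prime] (hp2 : p ≠ 2) (hpG : p ∣ Nat.card G) (h2G : 2 ∣ Nat.card G) (hC : ∀ g : G, g ≠ 1 → (∃ k : ℕ, orderOf g = p ^ k) → Odd (Nat.card ↥(Subgroup.centralizer ({g} : Set G)))) (r : ℕ) (hr : 1 ≤ r) (hΩ : Fintype.card Ω = p ^ r) : (∃ χ : Cfsg.IrrCharacter G, (Cfsg.charDegree (χ : G → ℂ)).factorization p = (Nat.card G).factorization p) ∨ (Cfsg.IsPSolvable p G ∧ ∃ χ : Cfsg.IrrCharacter G, (Cfsg.charDegree (χ : G → ℂ)).factorization 2 = (Nat.card G).factorization 2) := by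
  revert G Ω htr p hp2 hpG h2G hC r hr hΩ
  exact @Cfsg.Agent.Gate.S4745.out Cfsg.Agent.Cond.S4745

end Cfsg.Agent.S4745
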