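import Cfsg.Statements.S4746
import Cfsg.Agent.Block.InvertedSylow
import Cfsg.Agent.Block.Loc
import Cfsg.Agent.Block.PrincBasic
import Cfsg.Agent.Char.Galois
import Cfsg.Agent.Char.DegBasic
import Cfsg.Agent.S4744

set_option autoImplicit false
open Cfsg

namespace Cfsg.Agent.S4746

open Cfsg Cfsg.Lib.Char Cfsg.Lib.Block
open scoped ComplexConjugate

theorem even_of_real {G : Type*} [Group G] [Finite G] {x : G} (hx1 : x ≠ 1) (hx : IsConj x x⁻¹)
    (hodd : Odd (Nat.card (Subgroup.centralizer ({x} : Set G)))) :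
    ∃ χ : IrrCharacter G, Even (charDegree (χ : G → ℂ)) := by
  classical
  by_contra h
  push Not at h
  obtain ⟨M, hM⟩ := Princ.exists_isPModular Nat.prime_two
  have hr : ∀ χ : IrrCharacter G, MemLocalRing M ((χ : G → ℂ) x) := fun χ =>
    Loc.ring_of_isIntegral hM (χ.2.isCharacter.isGeneralizedCharacter.isIntegral x)
  have h2 : MemLocalIdeal M (2 : ℂ) := by
    simpa using (Loc.ideal_natCast_iff hM 2).2 (dvd_refl 2)
  have h1 : MemLocalIdeal M (∑ χ : IrrCharacter G, (χ : G → ℂ) x) := by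
    have e := sum_irr_degree_mul x
    rw [if_neg hx1] at e
    have e2 : ∑ χ : IrrCharacter G, (χ : G → ℂ) x =
        -∑ χ : IrrCharacter G, ((χ : G → ℂ) 1 - 1) * (χ : G → ℂ) x := by
      simp only [sub_mul, one_mul, Finset.sum_sub_distrib, e]
      ring
    rw [e2]
    refine Loc.ideal_neg hM (Loc.ideal_sum hM _ fun χ _ => Loc.ideal_mul_right hM ?_ (hr χ))
    obtain ⟨k, hk⟩ := Nat.not_even_iff_odd.1 (h χ)
    rw [← Deg.cast_deg_irr χ.2, hk]
    push_cast
    rw [add_sub_cancel_right]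
    exact Loc.ideal_mul_right hM h2 (Loc.ring_natCast hM k)
  have h3 : ∀ s : Finset (IrrCharacter G), MemLocalIdeal M
      ((∑ χ ∈ s, (χ : G → ℂ) x) ^ 2 - ∑ χ ∈ s, (χ : G → ℂ) x ^ 2) := by
    intro s
    induction s using Finset.induction_on with
    | empty => simpa using Loc.ideal_zero hM
    | insert a s ha ih =>
      rw [Finset.sum_insert ha, Finset.sum_insert ha]
      have : ((a : G → ℂ) x + ∑ χ ∈ s, (χ : G → ℂ) x) ^ 2 -
          ((a : G → ℂ) x ^ 2 + ∑ χ ∈ s, (χ : G → ℂ) x ^ 2) =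
          2 * ((a : G → ℂ) x * ∑ χ ∈ s, (χ : G → ℂ) x) +
          ((∑ χ ∈ s, (χ : G → ℂ) x) ^ 2 - ∑ χ ∈ s, (χ : G → ℂ) x ^ 2) := by ring
      rw [this]
      exact Loc.ideal_add hM (Loc.ideal_mul_right hM h2
        (Loc.ring_mul hM (hr a) (Loc.ring_sum hM _ fun χ _ => hr χ))) ih
  have h4 : ∑ χ : IrrCharacter G, (χ : G → ℂ) x ^ 2 =
      (Nat.card (Subgroup.centralizer ({x} : Set G)) : ℂ) := by
    rw [← sum_irr_mul_conj_of_isConj hx]
    refine Finset.sum_congr rfl fun χ _ => ?_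
    rw [← χ.2.isCharacter.apply_inv, inv_inv, pow_two]
  have h5 : MemLocalIdeal M (Nat.card (Subgroup.centralizer ({x} : Set G)) : ℂ) := by
    have h6 := h3 Finset.univ
    rw [h4] at h6
    have h7 : MemLocalIdeal M ((∑ χ : IrrCharacter G, (χ : G → ℂ) x) ^ 2) := by
      rw [pow_two]
      exact Loc.ideal_mul_right hM h1 (Loc.ring_of_ideal h1)
    have := Loc.ideal_sub hM h7 h6
    simpa using this
  rw [Loc.ideal_natCast_iff hM] at h5
  exact (Nat.not_even_iff_odd.2 hodd) (even_iff_two_dvd.2 h5)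

/-- Let p be an odd prime and G a finite group of even order divisible by p in which the centralizer of every non-identity p-element has odd order. Then G has an irreducible character of p-defect zero or an irreducible character of even degree. -/
theorem result {G : Type*} [Group G] [Finite G] (p : ℕ) [Fact p.Prime] (hp2 : p ≠ 2) (hpG : p ∣ Nat.card G) (h2G : 2 ∣ Nat.card G) (hC : ∀ g : G, g ≠ 1 → (∃ k : ℕ, orderOf g = p ^ k) → Odd (Nat.card ↥(Subgroup.centralizer ({g} : Set G)))) : (∃ χ : Cfsg.IrrCharacter G, (Cfsg.charDegree (χ : G → ℂ)).factorization p = (Nat.card G).factorization p) ∨ ∃ χ : Cfsg.IrrCharacter G, Even (Cfsg.charDegree (χ : G → ℂ)) := by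
  rcases Cfsg.Agent.S4744.result p hp2 hpG h2G hC with h | h
  · exact Or.inl h
  right
  obtain ⟨P⟩ : Nonempty (Sylow p G) := inferInstance
  obtain ⟨he, -⟩ := h P
  obtain ⟨t, ht⟩ := exists_prime_orderOf_dvd_card' (G := Subgroup.normalizer ((P : Subgroup G) : Set G))
    2 (even_iff_two_dvd.1 he)
  have ht2 : orderOf (t : G) = 2 := by rw [Subgroup.orderOf_coe, ht]
  have htt : (t : G) * t = 1 := by
    rw [← pow_two, ← ht2, pow_orderOf_eq_one]
  have hPne : (P : Subgroup G) ≠ ⊥ := P.ne_bot_of_dvd_card hpG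
  obtain ⟨⟨x, hx⟩, hx1⟩ := Subgroup.ne_bot_iff_exists_ne_one.1 hPne
  have hx1' : x ≠ 1 := fun h => hx1 (Subtype.ext h)
  have hord : ∀ y ∈ (P : Subgroup G), ∃ k : ℕ, orderOf y = p ^ k := fun y hy => by
    obtain ⟨k, hk⟩ := (IsPGroup.iff_orderOf.1 P.isPGroup') ⟨y, hy⟩
    exact ⟨k, by rw [← hk, ← Subgroup.orderOf_coe]⟩
  have hinv := inverts_of_mem_normalizer htt t.2 (fun y hy hty => by
    by_contra hy1
    have h1 := not_dvd_orderOf_of_commute_involution hC ht2 hty
    obtain ⟨k, hk⟩ := hord y hy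
    rw [hk] at h1
    rcases Nat.eq_zero_or_pos k with rfl | hk0
    · exact hy1 (orderOf_eq_one_iff.1 (by simpa using hk))
    · exact h1 (dvd_pow_self p hk0.ne')) hx
  exact even_of_real hx1' (isConj_iff.2 ⟨t, hinv⟩) (hC x hx1' (hord x hx))

end Cfsg.Agent.S4746
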