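import Cfsg.Statements.S4748
import Cfsg.Agent.Char.TIDegree
import Cfsg.Agent.Char.CharCenter
import Cfsg.Agent.Solv.PSolvable
import Cfsg.Agent.Solv.Cores

set_option autoImplicit false
open scoped Pointwise commutatorElement
open Cfsg

namespace Cfsg.Agent.S4748

open Cfsg.Lib.Char

open scoped Pointwise commutatorElement

/-- Let G be a finite p-solvable group whose Sylow p-subgroup P meets each conjugate g P g⁻¹ with g outside N_G(P) trivially, and let χ be a faithful character of G (χ g = χ 1 only for g = 1) whose degree d satisfies d² ≤ |P|. Then P is normal in G. -/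
theorem result {G : Type*} [Group G] [Finite G] (p : ℕ) [Fact p.Prime] (hsolv : Cfsg.IsPSolvable p G) (P : Sylow p G) (hTI : ∀ g : G, g ∉ Subgroup.normalizer ((P : Subgroup G) : Set G) → (P : Subgroup G) ⊓ (MulAut.conj g • (P : Subgroup G)) = ⊥) (χ : G → ℂ) (hχ : Cfsg.IsCharacter G χ) (hfaith : ∀ g : G, χ g = χ 1 → g = 1) (hdeg : Cfsg.charDegree χ ^ 2 ≤ Nat.card ↥(P : Subgroup G)) : (P : Subgroup G).Normal := by
  by_contra hP
  obtain ⟨g₀, hg₀⟩ : ∃ g, g ∉ Subgroup.normalizer ((P : Subgroup G) : Set G) := by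
    by_contra hc
    push Not at hc
    exact hP (Subgroup.normalizer_eq_top_iff.1 (top_le_iff.1 fun g _ => hc g))
  have hO : pCore p G = ⊥ := by
    rw [eq_bot_iff, ← hTI g₀ hg₀, Lib.Solv.pCore_eq_iInf_sylow]
    exact le_inf (iInf_le _ P) (iInf_le _ (g₀ • P))
  have hP1 : (P : Subgroup G) ≠ ⊥ := fun h => hP (by rw [h]; infer_instance)
  have : Nontrivial P := (Subgroup.nontrivial_iff_ne_bot _).2 hP1
  have := P.2.center_nontrivial
  obtain ⟨⟨⟨y, hyP⟩, hyc⟩, hy1⟩ := exists_ne (1 : Subgroup.center (P : Subgroup G))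
  have hy1' : y ≠ 1 := fun h => hy1 (Subtype.ext (Subtype.ext h))
  have hyc' : ∀ u ∈ (P : Subgroup G), u * y = y * u := fun u hu =>
    congrArg Subtype.val (Subgroup.mem_center_iff.1 hyc ⟨u, hu⟩)
  set K := pPrimeCore p G
  have hKn : K.Normal := inferInstance
  have hKP : Disjoint K (P : Subgroup G) := by
    obtain ⟨k, hk⟩ := P.2.exists_card_eq
    refine Subgroup.disjoint_of_coprime_natCard ?_
    rw [hk]
    exact (Lib.Solv.coprime_card_pPrimeCore p G).pow_right k
  let L := K ⊔ (P : Subgroup G)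
  have hPL : (P : Subgroup G) ≤ L := le_sup_right
  let H := (Subgroup.normalizer ((P : Subgroup G) : Set G)).subgroupOf L
  have := Fintype.ofFinite L
  have := Fintype.ofFinite H
  have hyH : (⟨y, hPL hyP⟩ : L) ∈ H := Subgroup.le_normalizer hyP
  have hcen : (⟨_, hyH⟩ : H) ∈ Subgroup.center H := by
    rw [Subgroup.mem_center_iff]
    rintro ⟨⟨g, hgL⟩, hg⟩
    have : g ∈ (K : Set G) * ((P : Subgroup G) : Set G) := by
      rw [← Subgroup.normal_mul]; exact hgL
    obtain ⟨k, hk, u, hu, rfl⟩ := this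
    have hkN : k ∈ Subgroup.normalizer ((P : Subgroup G) : Set G) := by
      have hg' : k * u ∈ Subgroup.normalizer ((P : Subgroup G) : Set G) := hg
      simpa using Subgroup.mul_mem _ hg' (Subgroup.inv_mem _ (Subgroup.le_normalizer hu))
    have h1 : k * y * k⁻¹ * y⁻¹ = 1 := (Subgroup.disjoint_def.1 hKP)
      (by simpa [mul_assoc] using K.mul_mem hk (hKn.conj_mem _ (K.inv_mem hk) y))
      ((P : Subgroup G).mul_mem ((Subgroup.mem_normalizer_iff.1 hkN y).1 hyP)
        ((P : Subgroup G).inv_mem hyP))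
    refine Subtype.ext (Subtype.ext ?_)
    change k * u * y = y * (k * u)
    calc k * u * y = k * y * k⁻¹ * y⁻¹ * (y * k * u) := by rw [mul_assoc k, hyc' u hu]; group
      _ = _ := by rw [h1]; group
  have hyK : y ∈ K := by
    refine hsolv.centralizer_pPrimeCore_le hO fun k hk => ?_
    have h1 : ⁅(⟨y, hPL hyP⟩ : L), ⟨k, Subgroup.mem_sup_left hk⟩⁆ ∈ charKer fun x : L => χ x := by
      refine (IsCharacter.mem_charKer_iff_forall (hχ.res L)).2 fun ζ hζ h => ?_
      have h2 := isIrrCharacter_res_of_semiregular (P := (P : Subgroup G).subgroupOf L) (H := H)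
        P.2.comap_subtype (fun g hg x hx hxg => Subtype.ext
          (semiregular_of_TI_sylow P hTI le_rfl g hg x hx hxg))
        (fun x hx => Subgroup.le_normalizer hx) hζ (by
          rw [Nat.card_congr (Subgroup.subgroupOfEquivOfLe hPL).toEquiv]
          exact (Nat.pow_le_pow_left (Deg.deg_le_of_classInner_ne_zero (hχ.res L) hζ h) 2).trans
            hdeg)
      have h3 := h2.mem_charCenter_iff.1 (h2.center_le_charCenter hcen)
      exact hζ.isClassFunction.commutatorElement_mem_charKer (hζ.mem_charCenter_iff.2 h3) _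
    have h2 := hfaith _ (apply_of_mem_charKer (χ := fun x : L => χ x) h1)
    exact (commutatorElement_eq_one_iff_mul_comm.1 h2).symm
  exact hy1' (Subgroup.disjoint_def.1 hKP hyK hyP)

end Cfsg.Agent.S4748
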