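import Cfsg.Statements.S4755
import Cfsg.Agent.Char.Degree
import Cfsg.Agent.Char.Irr

set_option autoImplicit false
open Cfsg

namespace Cfsg.Agent.S4755

/-- Let x, y be non-identity elements of the finite group G such that χ(x' y') = χ(x') χ(y') for all conjugates x' of x, y' of y and every irreducible character χ. Then the conjugacy class of x y is the set of all products of a conjugate of x with a conjugate of y; every irreducible character of degree greater than 1 vanishes at x y; and the conjugacy class of x y is the coset of the commutator subgroup containing x y. -/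
theorem result {G : Type*} [Group G] [Finite G] (x y : G) (hx : x ≠ 1) (hy : y ≠ 1) (h : ∀ (a b : G) (χ : Cfsg.IrrCharacter G), (χ : G → ℂ) (a * x * a⁻¹ * (b * y * b⁻¹)) = (χ : G → ℂ) (a * x * a⁻¹) * (χ : G → ℂ) (b * y * b⁻¹)) : (∀ z : G, IsConj (x * y) z ↔ ∃ a b : G, z = a * x * a⁻¹ * (b * y * b⁻¹)) ∧ (∀ χ : Cfsg.IrrCharacter G, (χ : G → ℂ) 1 ≠ 1 → (χ : G → ℂ) (x * y) = 0) ∧ (∀ z : G, IsConj (x * y) z ↔ (x * y)⁻¹ * z ∈ commutator G) := by
  classical
  open Cfsg.Lib.Char in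
  have := Fintype.ofFinite G
  have h0 : ∀ (a b : G) (χ : Cfsg.IrrCharacter G), (χ : G → ℂ) (a * x * a⁻¹ * (b * y * b⁻¹)) =
      (χ : G → ℂ) x * (χ : G → ℂ) y := by
    intro a b χ
    have hχ : IsIrrCharacter G (χ : G → ℂ) := χ.2
    rw [h, hχ.isCharacter.isClassFunction.apply_conj, hχ.isCharacter.isClassFunction.apply_conj]
  have hxy : ∀ χ : Cfsg.IrrCharacter G, (χ : G → ℂ) (x * y) = (χ : G → ℂ) x * (χ : G → ℂ) y :=
    fun χ => by simpa using h0 1 1 χ
  have hvan : ∀ χ : Cfsg.IrrCharacter G, (χ : G → ℂ) 1 ≠ 1 → (χ : G → ℂ) (x * y) = 0 := by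
    intro χ h1
    have hχ : IsIrrCharacter G (χ : G → ℂ) := χ.2
    have h2 := irr_sum_mul_conj hχ x y
    have h3 : ∀ b : G, (χ : G → ℂ) (x * (b * y * b⁻¹)) = (χ : G → ℂ) x * (χ : G → ℂ) y :=
      fun b => by simpa using h0 1 b χ
    simp_rw [h3] at h2
    rw [Finset.sum_const, Finset.card_univ, ← Nat.card_eq_fintype_card, nsmul_eq_mul] at h2
    have h4 := hχ.apply_one_ne_zero
    have h5 := card_ne_zero G
    rw [hxy]
    have h6 : (χ : G → ℂ) x * (χ : G → ℂ) y * ((χ : G → ℂ) 1 - 1) = 0 := by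
      field_simp at h2
      linear_combination h2
    exact (mul_eq_zero.1 h6).resolve_right (sub_ne_zero.2 h1)
  refine ⟨fun z => ⟨fun hz => ?_, ?_⟩, hvan, fun z => ⟨fun hz => ?_, fun hz => ?_⟩⟩
  · obtain ⟨c, rfl⟩ := isConj_iff.1 hz
    exact ⟨c, c, by group⟩
  · rintro ⟨a, b, rfl⟩
    rw [isConj_iff_forall_irr]
    intro χ hχ
    exact (hxy ⟨χ, hχ⟩).trans (h0 a b ⟨χ, hχ⟩).symm
  · obtain ⟨c, rfl⟩ := isConj_iff.1 hz
    have : (x * y)⁻¹ * (c * (x * y) * c⁻¹) = (x * y)⁻¹ * c * (x * y)⁻¹⁻¹ * c⁻¹ := by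
      group
    rw [this]
    exact Subgroup.commutator_mem_commutator (Subgroup.mem_top _) (Subgroup.mem_top _)
  · by_contra hnc
    have h1 := sum_irr_mul_conj_of_not_isConj hnc
    have h2 : ∀ χ : IrrCharacter G, (χ : G → ℂ) (x * y) * (starRingEnd ℂ) ((χ : G → ℂ) z) =
        ((if (χ : G → ℂ) 1 = 1 then 1 else 0 : ℕ) : ℂ) := by
      intro χ
      have hχ : IsIrrCharacter G (χ : G → ℂ) := χ.2
      split_ifs with h1
      · obtain ⟨lam, hlam⟩ := hχ.isCharacter.exists_monoidHom_of_apply_one h1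
        have h3 : lam ((x * y)⁻¹ * z) = 1 := Abelianization.commutator_subset_ker lam hz
        rw [map_mul, map_inv, inv_mul_eq_one] at h3
        rw [← hχ.isCharacter.apply_inv, hlam]
        simp only
        rw [h3, ← Units.val_mul, ← map_mul]
        simp
      · rw [hvan χ h1]; simp
    simp_rw [h2] at h1
    rw [← Nat.cast_sum, Nat.cast_eq_zero, Finset.sum_eq_zero_iff] at h1
    have := h1 ⟨fun _ => 1, isIrrCharacter_one⟩ (Finset.mem_univ _)
    simp at this

end Cfsg.Agent.S4755
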