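import Cfsg.Statements.S4756
import Cfsg.Agent.Char.Degree
import Cfsg.Agent.Char.Kernel
import Cfsg.Agent.Char.Linear
import Cfsg.Agent.Solv.FrobeniusComplement
import Cfsg.Agent.Solv.Cores
import Mathlib.GroupTheory.SchurZassenhaus

set_option autoImplicit false
open Cfsg

namespace Cfsg.Agent.S4756

open Cfsg.Lib Cfsg.Lib.Char Cfsg.Lib.Solv Subgroup
open scoped ComplexConjugate commutatorElement

section
variable {G : Type*} [Group G] [Finite G]

theorem isConj_of_vanish {y d : G}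
    (h : ∀ χ : IrrCharacter G, (χ : G → ℂ) 1 ≠ 1 → (χ : G → ℂ) y = 0) (hd : d ∈ commutator G) :
    IsConj (y * d) y := by
  classical
  by_contra hc
  have h1 := sum_irr_mul_conj_of_not_isConj hc
  rw [Finset.sum_congr rfl (g := fun χ : IrrCharacter G => if (χ : G → ℂ) 1 = 1 then (1 : ℂ) else 0)
    fun χ _ => ?_,
    Finset.sum_boole, Nat.cast_eq_zero, Finset.card_eq_zero, Finset.filter_eq_empty_iff] at h1
  · exact h1 (Finset.mem_univ ⟨_, isIrrCharacter_one⟩) rfl
  · split_ifs with h2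
    · obtain ⟨l, hl⟩ := χ.2.isCharacter.exists_monoidHom_of_apply_one h2
      rw [hl]
      simp only
      rw [map_mul, monoidHom_apply_of_mem_commutator l hd, mul_one, ← monoidHom_apply_inv,
        ← Units.val_mul, ← map_mul, mul_inv_cancel, map_one, Units.val_one]
    · simp [h χ h2]

theorem exists_comm_eq {D : Subgroup G} {a : G} (hn : ∀ d ∈ D, a * d * a⁻¹ ∈ D)
    (h : ∀ d ∈ D, a * d = d * a → d = 1) {e : G} (he : e ∈ D) : ∃ d ∈ D, ⁅a, d⁆ = e := by
  let f : D → D := fun d => ⟨⁅a, (d : G)⁆, mul_mem (hn d d.2) (inv_mem d.2)⟩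
  have hf : Function.Injective f := fun x y hxy => by
    have h1 : ⁅a, (x : G)⁆ = ⁅a, (y : G)⁆ := congrArg Subtype.val hxy
    have h2 := h ((y : G)⁻¹ * x) (mul_mem (inv_mem y.2) x.2) (by
      calc a * ((y : G)⁻¹ * x) = (y : G)⁻¹ * (⁅a, (y : G)⁆⁻¹ * ⁅a, (x : G)⁆) * x * a := by group
        _ = _ := by rw [h1]; group)
    exact Subtype.ext (inv_mul_eq_one.1 h2).symm
  obtain ⟨d, hd⟩ := Finite.injective_iff_surjective.1 hf ⟨e, he⟩
  exact ⟨d, d.2, congrArg Subtype.val hd⟩

theorem exists_prime_pow {a : G} (ha : a ≠ 1) : ∃ k q : ℕ, q.Prime ∧ orderOf (a ^ k) = q := by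
  have h1 : orderOf a ≠ 1 := by simpa using ha
  exact ⟨_, _, Nat.minFac_prime h1,
    orderOf_pow_orderOf_div (orderOf_pos a).ne' (Nat.minFac_dvd _)⟩

theorem vanish (χ : IrrCharacter G) {D : Subgroup G} [D.Normal] (hD : ¬ D ≤ charKer (χ : G → ℂ))
    {g : G} (h : ∀ d ∈ D, g * d = d * g → d = 1) {e : G} (he : e ∈ D) :
    (χ : G → ℂ) (g * e) = 0 := by
  have := Fintype.ofFinite D
  have h1 : ∀ e ∈ D, (χ : G → ℂ) (g * e) = (χ : G → ℂ) g := fun e he => by
    obtain ⟨d, -, hd⟩ := exists_comm_eq (a := g⁻¹) (D := D)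
      (fun d hd => Normal.conj_mem inferInstance d hd _)
      (fun d hd e => h d hd (by
        calc g * d = g * (d * g⁻¹) * g := by group
          _ = _ := by rw [← e]; group)) he
    rw [← hd, ← χ.2.isClassFunction.apply_conj g d]
    congr 1
    group
  have h2 := χ.2.sum_coset_eq_zero D hD g
  rw [Finset.sum_congr rfl (g := fun _ => (χ : G → ℂ) g) fun (n : D) _ => h1 n n.2,
    Finset.sum_const, nsmul_eq_mul] at h2
  rw [h1 e he]
  exact (mul_eq_zero.1 h2).resolve_left (by simp)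

end

/-- For a finite group G the following are equivalent. (1) χ(x y) = χ(x) χ(y) for every irreducible character χ and all non-identity elements x, y of prime power orders for two different primes. (2) G is a p-group for some prime p, or G is abelian, or for some prime p: G = A P with P a normal Sylow p-subgroup and A a nontrivial cyclic subgroup of order prime to p such that, with C = C_P(A) and D = [A, P], one has P = C D, C abelian, D normal in G, C ∩ D = 1, and A acts fixed-point-freely on D (no non-identity element of A centralizes a non-identity element of D). -/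
theorem result {G : Type*} [Group G] [Finite G] : (∀ (x y : G) (χ : Cfsg.IrrCharacter G), x ≠ 1 → y ≠ 1 → (∃ p q a b : ℕ, p.Prime ∧ q.Prime ∧ p ≠ q ∧ orderOf x = p ^ a ∧ orderOf y = q ^ b) → (χ : G → ℂ) (x * y) = (χ : G → ℂ) x * (χ : G → ℂ) y) ↔ ((∃ p : ℕ, p.Prime ∧ IsPGroup p G) ∨ IsMulCommutative G ∨ ∃ (p : ℕ) (_ : Fact p.Prime) (P : Sylow p G) (A : Subgroup G), (P : Subgroup G).Normal ∧ IsCyclic ↥A ∧ A ≠ ⊥ ∧ (Nat.card ↥A).Coprime p ∧ A ⊔ (P : Subgroup G) = ⊤ ∧ IsMulCommutative ↥((P : Subgroup G) ⊓ Subgroup.centralizer (A : Set G)) ∧ (⁅A, (P : Subgroup G)⁆).Normal ∧ ((P : Subgroup G) ⊓ Subgroup.centralizer (A : Set G)) ⊔ ⁅A, (P : Subgroup G)⁆ = (P : Subgroup G) ∧ ((P : Subgroup G) ⊓ Subgroup.centralizer (A : Set G)) ⊓ ⁅A, (P : Subgroup G)⁆ = ⊥ ∧ ∀ a ∈ A, a ≠ 1 → ∀ d ∈ ⁅A, (P : Subgroup G)⁆, a * d = d * a → d = 1) := by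
  classical
  have := Fintype.ofFinite G
  constructor
  · intro h
    by_cases hc : IsMulCommutative G
    · exact Or.inr (Or.inl hc)
    by_cases hpg : ∃ p : ℕ, p.Prime ∧ IsPGroup p G
    · exact Or.inl hpg
    refine Or.inr (Or.inr ?_)
    have key : ∀ (x y : G) (χ : IrrCharacter G), x ≠ 1 → y ≠ 1 → (∃ p q a b : ℕ, p.Prime ∧
        q.Prime ∧ p ≠ q ∧ orderOf x = p ^ a ∧ orderOf y = q ^ b) → (χ : G → ℂ) 1 ≠ 1 →
        (χ : G → ℂ) x * (χ : G → ℂ) y = 0 := fun x y χ hx hy hxy h1 => by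
      have h2 := irr_sum_mul_conj χ.2 x y
      rw [Finset.sum_congr rfl (g := fun _ => (χ : G → ℂ) x * (χ : G → ℂ) y) fun g _ => by
        rw [h x _ χ hx (by simpa using hy) (by
          rwa [← MulAut.conj_apply, MulEquiv.orderOf_eq]), χ.2.isClassFunction.apply_conj],
        Finset.sum_const, nsmul_eq_mul, Finset.card_univ, ← Nat.card_eq_fintype_card,
        eq_div_iff χ.2.apply_one_ne_zero] at h2
      have h3 : (Nat.card G : ℂ) * (((χ : G → ℂ) 1 - 1) * ((χ : G → ℂ) x * (χ : G → ℂ) y)) = 0 := by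
        linear_combination h2
      exact (mul_eq_zero.1 ((mul_eq_zero.1 h3).resolve_left (card_ne_zero G))).resolve_left
        (sub_ne_zero.2 h1)
    have hG' : commutator G ≠ ⊥ := fun e => hc ⟨⟨fun a b => commutatorElement_eq_one_iff_mul_comm.1
      (mem_bot.1 (e ▸ commutator_mem_commutator (mem_top a) (mem_top b)))⟩⟩
    obtain ⟨p, hp, hpd⟩ := Nat.exists_prime_and_dvd (mt card_eq_one.1 hG')
    have : Fact p.Prime := ⟨hp⟩
    obtain ⟨⟨x, hxG⟩, hx⟩ := exists_prime_orderOf_dvd_card' p hpd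
    rw [← orderOf_coe, coe_mk] at hx
    have hx1 : x ≠ 1 := by
      rintro rfl
      exact hp.one_lt.ne (by simpa using hx)
    have hne : ∀ {y : G} {q : ℕ}, q.Prime → orderOf y = q → y ≠ 1 := fun hq hy => by
      rintro rfl
      exact hq.one_lt.ne (by simpa using hy)
    have hPG : IsPGroup p (commutator G) := isPGroup_iff_isPiNum.2 fun q hq hqd => by
      by_contra hqp
      have : Fact q.Prime := ⟨hq⟩
      obtain ⟨⟨y, hyG⟩, hy⟩ := exists_prime_orderOf_dvd_card' q hqd
      rw [← orderOf_coe, coe_mk] at hy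
      have hxy : ∃ p q a b : ℕ, p.Prime ∧ q.Prime ∧ p ≠ q ∧ orderOf x = p ^ a ∧
          orderOf y = q ^ b := ⟨p, q, 1, 1, hp, hq, Ne.symm hqp, by simpa, by simpa⟩
      have h1 := isConj_of_vanish (y := x * y) (fun χ h1 => by
        rw [h x y χ hx1 (hne hq hy) hxy, key x y χ hx1 (hne hq hy) hxy h1])
        (inv_mem (mul_mem hxG hyG))
      rw [mul_inv_cancel, isConj_one_right, mul_eq_one_iff_eq_inv] at h1
      rw [h1, orderOf_inv, hy] at hx
      exact hqp hx
    obtain ⟨P, hP⟩ := hPG.exists_le_sylow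
    have hPn : (P : Subgroup G).Normal := ⟨fun n hn g => by
      have : g * n * g⁻¹ = ⁅g, n⁆ * n := by group
      rw [this]
      exact mul_mem (hP (commutator_mem_commutator (mem_top _) (mem_top _))) hn⟩
    obtain ⟨A, hA⟩ := exists_right_complement'_of_coprime (N := (P : Subgroup G)) P.card_coprime_index
    have hAc : (Nat.card A).Coprime p := by
      rw [← hA.symm.index_eq_card]
      exact ((Nat.Prime.coprime_iff_not_dvd hp).2 P.not_dvd_index).symm
    have hA1 : A ≠ ⊥ := by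
      rintro rfl
      have := hA.sup_eq_top
      rw [sup_bot_eq] at this
      exact hpg ⟨p, hp, (this ▸ P.isPGroup').of_equiv topEquiv⟩
    have hAA : ∀ a ∈ A, ∀ b ∈ A, a * b = b * a := fun a ha b hb =>
      commutatorElement_eq_one_iff_mul_comm.1 (disjoint_def.1 hA.disjoint
        (hP (commutator_mem_commutator (mem_top _) (mem_top _)))
        (mul_mem (mul_mem (mul_mem ha hb) (inv_mem ha)) (inv_mem hb)))
    have fpf : ∀ a ∈ A, a ≠ 1 → ∀ d ∈ commutator G, a * d = d * a → d = 1 := by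
      intro a ha ha1 d hd had
      obtain ⟨k, q, hq, hy⟩ := exists_prime_pow ha1
      have hqp : p ≠ q := by
        rintro rfl
        exact hp.one_lt.ne' (Nat.Coprime.eq_one_of_dvd hAc.symm
          (hy ▸ A.orderOf_dvd_natCard (pow_mem ha k)))
      have h1 := isConj_of_vanish (y := a ^ k) (fun χ h1 => by
        by_contra h2
        have h3 : ∀ z ∈ commutator G, z ≠ 1 → (χ : G → ℂ) z = 0 := fun z hz hz1 => by
          obtain ⟨j, hj⟩ := IsPGroup.iff_orderOf.1 hPG ⟨z, hz⟩
          rw [← orderOf_coe, coe_mk] at hj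
          exact (mul_eq_zero.1 (key z _ χ hz1 (hne hq hy) ⟨p, q, j, 1, hp, hq, hqp, hj, by simpa⟩
            h1)).resolve_right h2
        have h4 := χ.2.sum_res_eq_zero (commutator G) (by
          rwa [χ.2.commutator_le_charKer_iff])
        rw [Finset.sum_eq_single (1 : commutator G)
          (fun (z : commutator G) _ hz => h3 z z.2 fun e => hz (Subtype.ext e))
          (by simp)] at h4
        exact χ.2.apply_one_ne_zero h4) hd
      have h2 : (a ^ k * d) ^ q = 1 := by
        obtain ⟨g, hg⟩ := isConj_iff.1 h1.symm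
        rw [← hg, conj_pow, ← hy, pow_orderOf_eq_one]
        simp
      rw [(Commute.pow_left had k).mul_pow, ← hy, pow_orderOf_eq_one, one_mul, hy] at h2
      obtain ⟨j, hj⟩ := hPG ⟨d, hd⟩
      have := pow_gcd_eq_one.2 ⟨congrArg Subtype.val hj, h2⟩
      rwa [((Nat.coprime_primes hp hq).2 hqp).pow_left j, pow_one] at this
    obtain ⟨⟨a, ha⟩, ha1⟩ := ne_bot_iff_exists_ne_one.1 hA1
    replace ha1 : a ≠ 1 := fun e => ha1 (Subtype.ext e)
    have hsurj := fun e (he : e ∈ commutator G) => exists_comm_eq (a := a)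
      (fun d hd => Normal.conj_mem inferInstance d hd _) (fpf a ha ha1) he
    have hD : ⁅A, (P : Subgroup G)⁆ = commutator G := le_antisymm (commutator_mono le_top le_top)
      fun e he => by
        obtain ⟨d, hd, rfl⟩ := hsurj e he
        exact commutator_mem_commutator ha (hP hd)
    have hcomm : ∀ b c : G, a * b = b * a → a * c = c * a → b * c = c * b := fun b c hb hc =>
      commutatorElement_eq_one_iff_mul_comm.1 (fpf a ha ha1 _
        (commutator_mem_commutator (mem_top _) (mem_top _)) (by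
          have hb' : Commute a b := hb
          have hc' : Commute a c := hc
          exact ((hb'.mul_right hc').mul_right hb'.inv_right).mul_right hc'.inv_right))
    have : IsMulCommutative A := ⟨⟨fun x y => Subtype.ext (hAA _ x.2 _ y.2)⟩⟩
    refine ⟨p, ⟨hp⟩, P, A, hPn, Fpf.isCyclic_of_isMulCommutative (K := commutator G) (H := A)
      (by rw [normalizer_eq_top]; exact le_top) hG' (fun b hb hb1 => eq_bot_iff.2 fun d hd =>
        fpf b hb hb1 d hd.1 (mem_centralizer_singleton_iff.1 hd.2).symm) le_rfl, hA1, hAc,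
      hA.symm.sup_eq_top, ⟨⟨fun c c' => Subtype.ext (hcomm _ _ (c.2.2 a ha) (c'.2.2 a ha))⟩⟩,
      hD ▸ inferInstance, ?_, ?_, hD ▸ fpf⟩
    · rw [hD]
      refine le_antisymm (sup_le inf_le_left hP) fun y hy => ?_
      obtain ⟨d, hd, hdy⟩ := hsurj ⁅a, y⁆ (commutator_mem_commutator (mem_top _) (mem_top _))
      have h1 : a * (d⁻¹ * y) = d⁻¹ * y * a := by
        calc a * (d⁻¹ * y) = d⁻¹ * (⁅a, d⁆⁻¹ * ⁅a, y⁆) * y * a := by group
          _ = _ := by rw [hdy]; group
      rw [← mul_inv_cancel_left d y]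
      exact mul_mem (mem_sup_right hd) (mem_sup_left ⟨(P : Subgroup G).mul_mem ((P : Subgroup G).inv_mem (hP hd)) hy,
        fun b hb => hcomm _ _ (hAA a ha b hb) h1⟩)
    · rw [hD]
      exact eq_bot_iff.2 fun d hd => fpf a ha ha1 d hd.2 (hd.1.2 a ha)
  · rintro h x y χ hx hy ⟨q, r, i, j, hq, hr, hqr, hxo, hyo⟩
    have hi : i ≠ 0 := by
      rintro rfl
      exact hx (by simpa using hxo)
    have hj : j ≠ 0 := by
      rintro rfl
      exact hy (by simpa using hyo)
    have hpp : ∀ {p s k : ℕ} {z : G}, p.Prime → s.Prime → k ≠ 0 → orderOf z = s ^ k →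
        (∃ m, z ^ p ^ m = 1) → s = p := fun hp hs hk hz ⟨m, hm⟩ =>
      (Nat.prime_dvd_prime_iff_eq hs hp).1 (hs.dvd_of_dvd_pow
        ((dvd_pow_self _ hk).trans (hz ▸ orderOf_dvd_of_pow_eq_one hm)))
    by_cases h1 : (χ : G → ℂ) 1 = 1
    · exact χ.2.isCharacter.map_mul_of_apply_one h1 x y
    rcases h with ⟨p, hp, h⟩ | h | ⟨p, hp, P, A, hPn, hA, -, hAc, hAP, hC, hD, hCD, -, fpf⟩
    · exact absurd ((hpp hp hq hi hxo (h x)).trans (hpp hp hr hj hyo (h y)).symm) hqr
    · exact absurd (χ.2.apply_one_of_comm h.1.1) h1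
    set D := ⁅A, (P : Subgroup G)⁆ with hDdef
    have hdec : ∀ g : G, ∃ a ∈ A, ∃ c ∈ (P : Subgroup G) ⊓ centralizer (A : Set G), ∃ d ∈ D,
        g = a * c * d := fun g => by
      have h2 : g ∈ ((A ⊔ P : Subgroup G) : Set G) := by rw [hAP]; trivial
      rw [mul_normal] at h2
      obtain ⟨a, ha, s, hs, rfl⟩ := h2
      have h3 : s ∈ ((((P : Subgroup G) ⊓ centralizer (A : Set G)) ⊔ D : Subgroup G) : Set G) := by
        rw [hCD]; exact hs
      rw [mul_normal] at h3
      obtain ⟨c, hc, d, hd, rfl⟩ := h3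
      exact ⟨a, ha, c, hc, d, hd, (mul_assoc _ _ _).symm⟩
    have hDP : D ≤ P := commutator_le_right _ _
    have hker : ¬ D ≤ charKer (χ : G → ℂ) := fun hle => h1 (χ.2.commutator_le_charKer_iff.1
      (le_trans (commutator_le.2 fun g _ g' _ => ?_) hle))
    · have hv : ∀ g, g ∉ (P : Subgroup G) → (χ : G → ℂ) g = 0 := fun g hg => by
        obtain ⟨a, ha, c, hc, d, hd, rfl⟩ := hdec g
        refine vanish χ hker (fun e he h2 => ?_) hd
        obtain ⟨m, hm⟩ := P.isPGroup' ⟨c, hc.1⟩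
        have hm' : c ^ p ^ m = 1 := congrArg Subtype.val hm
        have hac : Commute a c := hc.2 a ha
        refine fpf (a ^ p ^ m) (pow_mem ha _) (fun h3 => hg ?_) e he ?_
        · have := pow_gcd_eq_one.2 ⟨h3, congrArg Subtype.val (pow_card_eq_one' (x := (⟨a, ha⟩ : A)))⟩
          rw [hAc.symm.pow_left m, pow_one] at this
          rw [show a = 1 from this, one_mul]
          exact mul_mem hc.1 (hDP hd)
        · have := Commute.pow_left (show Commute (a * c) e from h2) (p ^ m)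
          rwa [hac.mul_pow, hm', mul_one] at this
      have hmem : ∀ {s k : ℕ} {z : G}, s.Prime → k ≠ 0 → orderOf z = s ^ k →
          z ∈ (P : Subgroup G) → s = p := fun hs hk hz hm => by
        obtain ⟨m, hm'⟩ := P.isPGroup' ⟨_, hm⟩
        exact hpp hp.out hs hk hz ⟨m, congrArg Subtype.val hm'⟩
      have hxy : x * y ∉ (P : Subgroup G) := fun hm => by
        have h2 : ((x : G ⧸ (P : Subgroup G))) * y = 1 := (QuotientGroup.eq_one_iff _).2 hm
        have h3 : ((x : G ⧸ (P : Subgroup G))) ^ q ^ i = 1 := by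
          rw [← QuotientGroup.mk_pow, ← hxo, pow_orderOf_eq_one, QuotientGroup.mk_one]
        have h4 : ((x : G ⧸ (P : Subgroup G))) ^ r ^ j = 1 := by
          rw [eq_inv_of_mul_eq_one_left h2, inv_pow, ← QuotientGroup.mk_pow, ← hyo,
            pow_orderOf_eq_one, QuotientGroup.mk_one, inv_one]
        have h5 := pow_gcd_eq_one.2 ⟨h3, h4⟩
        rw [((Nat.coprime_primes hq hr).2 hqr).pow i j, pow_one, QuotientGroup.eq_one_iff] at h5
        exact hqr ((hmem hq hi hxo h5).trans
          (hmem hr hj hyo ((mul_mem_cancel_left h5).1 hm)).symm)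
      rw [hv _ hxy]
      by_cases hxP : x ∈ (P : Subgroup G)
      · rw [hv y fun hyP => hxy (mul_mem hxP hyP), mul_zero]
      · rw [hv x hxP, zero_mul]
    · obtain ⟨a, ha, c, hc, d, hd, rfl⟩ := hdec g
      obtain ⟨a', ha', c', hc', d', hd', rfl⟩ := hdec g'
      have h2 : Commute (a * c) (a' * c') := by
        have e1 : Commute a a' := congrArg Subtype.val
          (mul_comm' (⟨a, ha⟩ : A) ⟨a', ha'⟩)
        have e2 : Commute c c' := congrArg Subtype.val (hC.1.1 ⟨c, hc⟩ ⟨c', hc'⟩)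
        exact (e1.mul_right (hc'.2 a ha)).mul_left
          ((Commute.symm (hc.2 a' ha')).mul_right e2)
      rw [← QuotientGroup.eq_one_iff, ← QuotientGroup.mk'_apply, map_commutatorElement, map_mul,
        map_mul _ _ d', QuotientGroup.mk'_apply _ d, QuotientGroup.mk'_apply _ d',
        (QuotientGroup.eq_one_iff _).2 hd, (QuotientGroup.eq_one_iff _).2 hd', mul_one, mul_one,
        commutatorElement_eq_one_iff_commute]
      exact h2.map _

end Cfsg.Agent.S4756
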