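import Cfsg.Statements.S4757
import Cfsg.Agent.Char.Camina
import Cfsg.Agent.Char.DegBasic
import Cfsg.Agent.Solv.Cores
import Cfsg.Agent.Solv.CardModEq

set_option autoImplicit false
open Cfsg

namespace Cfsg.Agent.S4757

/-- Let u ≠ 1 be an element of the finite group G and c a complex number such that every non-principal irreducible character χ satisfies χ(1) − χ(u) = c or χ(u) = 0. Then the following are equivalent: (a) u has order 2, G is generated by u together with O(G), the largest normal subgroup of G of odd order, and the centralizer of u is {1, u}; (b) G is not perfect; (c) c = 2. -/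
theorem result {G : Type*} [Group G] [Finite G] (u : G) (hu : u ≠ 1) (c : ℂ) (hyp : ∀ χ : Cfsg.IrrCharacter G, (χ : G → ℂ) ≠ (fun _ => (1 : ℂ)) → ((χ : G → ℂ) 1 - (χ : G → ℂ) u = c ∨ (χ : G → ℂ) u = 0)) : ((orderOf u = 2 ∧ Subgroup.zpowers u ⊔ Cfsg.oddCore G = ⊤ ∧ Subgroup.centralizer ({u} : Set G) = Subgroup.zpowers u) ↔ commutator G ≠ ⊤) ∧ (commutator G ≠ ⊤ ↔ c = 2) := by
  open Cfsg.Lib.Char Cfsg.Lib.Char.Deg Cfsg.Lib.Solv in
  classical
  have hc0 : c ≠ 0 := by
    rintro rfl
    refine hu (isConj_one_left.1 (isConj_of_forall_irr_eq_or_zero fun χ hχ => ?_))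
    by_cases h1 : χ = fun _ => 1
    · left; rw [h1]
    · rcases hyp ⟨χ, hχ⟩ h1 with h | h
      · exact Or.inl (sub_eq_zero.1 h).symm
      · exact Or.inr h
  have hlin : ∀ lam : G →* ℂˣ, lam ≠ 1 → (lam u : ℂ) = 1 - c := by
    intro lam h1
    rcases hyp ⟨_, isIrrCharacter_monoidHom lam⟩
      (fun e => h1 ((monoidHom_coe_eq_one_iff lam).1 e)) with h | h
    · simp only [map_one, Units.val_one] at h
      rw [← h]; ring
    · exact absurd h (lam u).ne_zero
  have hbc : commutator G ≠ ⊤ → c = 2 := by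
    intro h
    obtain ⟨g, -, hg⟩ := SetLike.exists_of_lt (lt_top_iff_ne_top.2 h)
    obtain ⟨lam, -, h2⟩ := exists_monoidHom_ker_ge_apply_ne_one _ le_rfl hg
    have h3 : lam ≠ 1 := fun e => h2 (by rw [e]; rfl)
    have h4 := hlin lam h3
    have h5 := hlin lam⁻¹ (fun e => h2 (by
      have := DFunLike.congr_fun e g
      simpa using this))
    have h6 : (lam u : ℂ) * (lam⁻¹ u : ℂ) = 1 := by simp
    rw [h4, h5] at h6
    have h7 : c * (c - 2) = 0 := by linear_combination h6
    exact sub_eq_zero.1 ((mul_eq_zero.1 h7).resolve_left hc0)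
  have hca : c = 2 → (orderOf u = 2 ∧ Subgroup.zpowers u ⊔ Cfsg.oddCore G = ⊤ ∧
      Subgroup.centralizer ({u} : Set G) = Subgroup.zpowers u) := by
    rintro rfl
    have hlin' : ∀ lam : G →* ℂˣ, lam ≠ 1 → (lam u : ℂ) = -1 := fun lam h => by
      rw [hlin lam h]; norm_num
    have hmul : ∀ lam mu : G →* ℂˣ, lam ≠ 1 → mu ≠ 1 → lam * mu = 1 := by
      intro lam mu h1 h2
      by_contra h3
      have h4 := hlin' _ h3
      rw [MonoidHom.mul_apply, Units.val_mul, hlin' _ h1, hlin' _ h2] at h4
      norm_num at h4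
    have hnl : ∀ χ : Cfsg.IrrCharacter G, (χ : G → ℂ) 1 ≠ 1 →
        ∃ n : ℕ, (χ : G → ℂ) 1 * (χ : G → ℂ) u = n ∧ (n = 0 → (χ : G → ℂ) u = 0) := by
      intro χ h1
      rcases hyp χ (fun e => h1 (by rw [e])) with h | h
      · obtain ⟨d, hd0, hd⟩ := χ.2.exists_nat_degree_pos
        have hd1 : d ≠ 1 := fun e => h1 (by rw [hd, e, Nat.cast_one])
        obtain ⟨k, rfl⟩ : ∃ k, d = k + 2 := ⟨d - 2, by omega⟩
        have h2 : (χ : G → ℂ) u = k := by
          rw [hd] at h; push_cast at h; linear_combination -h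
        refine ⟨(k + 2) * k, by rw [hd, h2]; push_cast; ring, fun h3 => ?_⟩
        rw [h2, (Nat.mul_eq_zero.1 h3).resolve_left (by omega), Nat.cast_zero]
      · exact ⟨0, by rw [h]; simp, fun _ => h⟩
    choose! n hn hn0 using hnl
    have hsum := sum_irr_degree_mul u
    rw [if_neg hu] at hsum
    set one : Cfsg.IrrCharacter G := ⟨fun _ => 1, isIrrCharacter_one⟩ with hone
    obtain ⟨lam, hlam⟩ : ∃ lam : G →* ℂˣ, lam ≠ 1 := by
      by_contra hno
      push Not at hno
      rw [← Finset.add_sum_erase _ _ (Finset.mem_univ one), Finset.sum_congr rfl (fun χ hχ =>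
        hn χ (fun e => (Finset.mem_erase.1 hχ).1 (by
          obtain ⟨mu, hmu⟩ := χ.2.isCharacter.exists_monoidHom_of_apply_one e
          exact Subtype.ext (by rw [hmu, hno mu]; rfl))))] at hsum
      simp only [hone, mul_one] at hsum
      have h2 : 1 + ∑ χ ∈ Finset.univ.erase one, n χ = 0 := by exact_mod_cast hsum
      omega
    set L : Cfsg.IrrCharacter G := ⟨_, isIrrCharacter_monoidHom lam⟩ with hL
    have hL1 : L ≠ one := fun e => hlam ((monoidHom_coe_eq_one_iff lam).1 (congrArg Subtype.val e))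
    have hrest : ∀ χ ∈ (Finset.univ.erase one).erase L, (χ : G → ℂ) 1 ≠ 1 := by
      intro χ hχ e
      simp only [Finset.mem_erase] at hχ
      obtain ⟨mu, hmu⟩ := χ.2.isCharacter.exists_monoidHom_of_apply_one e
      have h1 : mu ≠ 1 := fun e => hχ.2.1 (Subtype.ext (by rw [hmu, e]; rfl))
      have h2 : mu = lam := by
        have := (hmul mu lam h1 hlam).trans (hmul lam lam hlam hlam).symm
        exact mul_right_cancel this
      exact hχ.1 (Subtype.ext (by rw [hmu, h2]))
    have hLmem : L ∈ Finset.univ.erase one := Finset.mem_erase.2 ⟨hL1, Finset.mem_univ _⟩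
    rw [← Finset.add_sum_erase _ _ (Finset.mem_univ one), ← Finset.add_sum_erase _ _ hLmem,
      Finset.sum_congr rfl (fun χ hχ => hn χ (hrest χ hχ))] at hsum
    simp only [hone, hL, mul_one, map_one, Units.val_one, one_mul, hlin' lam hlam] at hsum
    have h2 : ∑ χ ∈ (Finset.univ.erase one).erase L, n χ = 0 := by
      have : ((∑ χ ∈ (Finset.univ.erase one).erase L, n χ : ℕ) : ℂ) = 0 := by
        push_cast; linear_combination hsum
      exact_mod_cast this
    rw [Finset.sum_eq_zero_iff] at h2
    have h3 := sum_irr_normSq u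
    rw [← Finset.add_sum_erase _ _ (Finset.mem_univ one), ← Finset.add_sum_erase _ _ hLmem,
      Finset.sum_eq_zero (fun χ hχ => by rw [hn0 χ (hrest χ hχ) (h2 χ hχ)]; simp)] at h3
    simp only [hone, hL, norm_one, hlin' lam hlam, norm_neg] at h3
    have h4 : Nat.card (Subgroup.centralizer ({u} : Set G)) = 2 := by
      have : (Nat.card (Subgroup.centralizer ({u} : Set G)) : ℝ) = (2 : ℕ) := by
        rw [← h3]; norm_num
      exact_mod_cast this
    have h5 : Subgroup.zpowers u ≤ Subgroup.centralizer ({u} : Set G) := by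
      rw [Subgroup.zpowers_le, Subgroup.mem_centralizer_singleton_iff]
    have h6 : 1 < orderOf u := by
      have := orderOf_pos u
      have := orderOf_eq_one_iff.not.2 hu
      omega
    have h7 : Subgroup.zpowers u = Subgroup.centralizer ({u} : Set G) :=
      Subgroup.eq_of_le_of_card_ge h5 (by rw [h4, Nat.card_zpowers]; omega)
    have h8 : orderOf u = 2 := by rw [← Nat.card_zpowers, h7, h4]
    refine ⟨h8, ?_, h7.symm⟩
    have hsq : ∀ g, lam g * lam g = 1 := fun g => by
      rw [← MonoidHom.mul_apply, hmul lam lam hlam hlam, MonoidHom.one_apply]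
    have hlu : lam u = -1 := Units.ext (hlin' lam hlam)
    have hodd : (Nat.card lam.ker).Coprime 2 := by
      have h9 := card_modEq_one_of_inf_centralizer_eq_bot (q := 2) (Q := Subgroup.zpowers u)
        (L := lam.ker) (IsPGroup.of_card (n := 1) (by rw [Nat.card_zpowers, h8]; rfl))
        (by rw [Subgroup.normalizer_eq_top]; exact le_top) (by
          rw [eq_bot_iff]
          rintro x ⟨hx1, hx2⟩
          have h10 : x ∈ Subgroup.zpowers u := by
            rw [h7, Subgroup.mem_centralizer_singleton_iff]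
            exact (hx2 u (Subgroup.mem_zpowers u)).symm
          obtain ⟨k, hk, rfl⟩ := Finset.mem_image.1 (mem_zpowers_iff_mem_range_orderOf.1 h10)
          rw [h8, Finset.mem_range] at hk
          interval_cases k
          · simp
          · have hx3 : lam (u ^ 1) = 1 := hx1
            rw [pow_one, hlu] at hx3
            exact absurd (congrArg Units.val hx3) (by norm_num))
      rw [Nat.coprime_two_right, Nat.odd_iff]
      exact h9
    have hle : lam.ker ≤ Cfsg.oddCore G := le_pPrimeCore inferInstance hodd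
    rw [eq_top_iff]
    intro g _
    rcases mul_self_eq_one_iff.1 (congrArg Units.val (hsq g)) with h | h
    · exact Subgroup.mem_sup_right (hle (Units.ext h))
    · replace h : lam g = -1 := Units.ext h
      have : g = u * (u⁻¹ * g) := by group
      rw [this]
      refine Subgroup.mul_mem_sup (Subgroup.mem_zpowers u) (hle ?_)
      rw [MonoidHom.mem_ker, map_mul, map_inv, h, hlu, inv_mul_cancel]
  have hab : (orderOf u = 2 ∧ Subgroup.zpowers u ⊔ Cfsg.oddCore G = ⊤ ∧
      Subgroup.centralizer ({u} : Set G) = Subgroup.zpowers u) → commutator G ≠ ⊤ := by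
    rintro ⟨h1, h2, -⟩ h3
    have h4 : commutator G ≤ Cfsg.oddCore G := by
      rw [← Subgroup.Normal.quotient_commutative_iff_commutator_le]
      have : IsCyclic (G ⧸ Cfsg.oddCore G) := by
        refine isCyclic_iff_exists_zpowers_eq_top.2 ⟨(u : G ⧸ Cfsg.oddCore G), ?_⟩
        have h5 := congrArg (Subgroup.map (QuotientGroup.mk' (Cfsg.oddCore G))) h2
        rwa [Subgroup.map_sup, QuotientGroup.map_mk'_self, sup_bot_eq, MonoidHom.map_zpowers,
          Subgroup.map_top_of_surjective _ (QuotientGroup.mk'_surjective _)] at h5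
      infer_instance
    have h5 := odd_card_oddCore G
    rw [h3, top_le_iff] at h4
    rw [h4, Subgroup.card_top] at h5
    have h6 := orderOf_dvd_natCard u
    rw [h1] at h6
    exact (Nat.not_even_iff_odd.2 h5) (even_iff_two_dvd.2 h6)
  exact ⟨⟨hab, fun h => hca (hbc h)⟩, ⟨hbc, fun h => hab (hca h)⟩⟩

end Cfsg.Agent.S4757
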