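import Cfsg.Statements.S4759
import Cfsg.Agent.Dade.Ext
import Cfsg.Agent.FT.Final
import Cfsg.Agent.FT.BG6_3
import Cfsg.Agent.Char.DegExtraspecial

set_option autoImplicit false
open Cfsg Subgroup Cfsg.Lib.Char Cfsg.Lib.Block

namespace Cfsg.Agent.S4759

/-- Let G be a finite group that is the semidirect product of a normal extraspecial 2-subgroup E and a complement H acting faithfully on E (no non-identity element of H centralizes E), and suppose H has a normal subgroup K of odd order with [E, K] = E. Then every faithful irreducible character θ of E (there is exactly one) extends to G: some irreducible character of G restricts to θ on E. -/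
theorem result {G : Type*} [Group G] [Finite G] (E H : Subgroup G) [E.Normal] (hE : Cfsg.IsExtraspecial 2 ↥E) (hEH : E ⊓ H = ⊥) (hEHtop : E ⊔ H = ⊤) (hfaith : ∀ h ∈ H, (∀ e ∈ E, h * e = e * h) → h = 1) (K : Subgroup G) (hKH : K ≤ H) (hKn : ∀ h ∈ H, ∀ k ∈ K, h * k * h⁻¹ ∈ K) (hKodd : Odd (Nat.card ↥K)) (hEK : ⁅E, K⁆ = E) (θ : Cfsg.IrrCharacter ↥E) (hθ : ∀ e : ↥E, (θ : ↥E → ℂ) e = (θ : ↥E → ℂ) 1 → e = 1) : ∃ χ : Cfsg.IrrCharacter G, ∀ e : ↥E, (χ : G → ℂ) e = (θ : ↥E → ℂ) e := by
  have hZ : ∀ x : E, x ∈ center E → (x : G) ∈ center G := fun x hx => by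
    rw [mem_center_iff]
    intro g
    have h1 : MulAut.conjNormal g x ∈ center E :=
      (characteristic_iff_map_le.1 inferInstance (MulAut.conjNormal g)) ⟨x, hx, rfl⟩
    by_cases h2 : x = 1
    · simp [h2]
    have := Fintype.ofFinite (center E)
    obtain ⟨y, -, hy⟩ := (Nat.card_eq_two_iff' (1 : center E)).1 hE.2
    have h3 := (hy ⟨_, h1⟩ (by simpa using h2)).trans (hy ⟨_, hx⟩ (by simpa using h2)).symm
    exact eq_mul_of_mul_inv_eq (congrArg (fun z : center E => ((z : E) : G)) h3)
  have hcop : (Nat.card E).Coprime (Nat.card K) := by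
    obtain ⟨n, hn⟩ := IsPGroup.iff_card.1 hE.1.1
    rw [hn]
    exact (Nat.coprime_two_left.2 hKodd).pow_left n
  have hdeg : ∀ g : G, charDegree (cjI g θ : E → ℂ) ≠ 1 := fun g h => by
    rw [charDegree_cjI, ← Deg.center_le_charKer_iff_of_extraspecial hE θ.2] at h
    have : center E = ⊥ := eq_bot_iff.2 fun x hx => hθ x (θ.2.isCharacter.mem_charKer_iff.1 (h hx))
    have h2 := hE.2
    rw [this] at h2
    simp at h2
  obtain ⟨χ, hχ, h⟩ := Lib.Dade.exists_ext_of_coprime G hEH hEHtop hKH
    (fun h hh => mem_normalizer_fintype fun k hk => hKn h hh k hk)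
    (Lib.FT.odd_order_solvable hKodd) hcop (fun x hx => by
      have h1 := Lib.FT.coprime_cent_sub_der1 (by rw [normalizer_eq_top]; exact le_top) hcop hEK hx
      rw [← E.range_subtype, MonoidHom.range_eq_map, ← map_commutator, ← _root_.commutator_def,
        hE.1.2.2] at h1
      obtain ⟨y, hy, rfl⟩ := h1
      exact hZ y hy) (θ := θ) fun g => Subtype.ext (funext fun x => by
      by_cases hx : x ∈ center E
      · rw [cjI_apply]
        refine congrArg _ (Subtype.ext ?_)
        change g * x * g⁻¹ = x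
        rw [mem_center_iff.1 (hZ x hx) g, mul_inv_cancel_right]
      · rw [Deg.apply_eq_zero_of_extraspecial hE (cjI g θ).2 (hdeg g) hx,
          Deg.apply_eq_zero_of_extraspecial hE θ.2 (by simpa using hdeg 1) hx])
  exact ⟨⟨χ, hχ⟩, h⟩

end Cfsg.Agent.S4759
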