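import Cfsg.Statements.S4765
import Cfsg.Agent.Known.PSL2Deg

set_option autoImplicit false
open Cfsg

namespace Cfsg.Agent.S4765

open Cfsg.Lib.Known Cfsg.Lib.Known.GL2 Matrix Cfsg.Lib.Char

/-- Let F be a finite field of characteristic p with at least 4 elements. Then PSL(2,F) has exactly one irreducible complex character of degree divisible by p, and its degree is the order of F. -/
theorem result (p : ℕ) [Fact p.Prime] (F : Type*) [Field F] [Fintype F] [CharP F p] (hF : 4 ≤ Fintype.card F) : Nat.card {χ : Cfsg.IrrCharacter (Matrix.ProjectiveSpecialLinearGroup (Fin 2) F) // p ∣ Cfsg.charDegree (χ : Matrix.ProjectiveSpecialLinearGroup (Fin 2) F → ℂ)} = 1 ∧ ∀ χ : Cfsg.IrrCharacter (Matrix.ProjectiveSpecialLinearGroup (Fin 2) F), p ∣ Cfsg.charDegree (χ : Matrix.ProjectiveSpecialLinearGroup (Fin 2) F → ℂ) → Cfsg.charDegree (χ : Matrix.ProjectiveSpecialLinearGroup (Fin 2) F → ℂ) = Fintype.card F := by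
  have := (slLin F).finite
  have := Fintype.ofFinite (SL2 F)
  have key : ∀ χ : PSL2 F → ℂ, IsIrrCharacter _ χ → p ∣ charDegree χ →
      (fun g => χ (piSL F g)) = (slLin F).St := by
    intro χ hχ hp
    have h1 := hχ.comp_of_surjective (piSL F) piSL_surjective
    have h2 : charDegree χ = charDegree fun g => χ (piSL F g) := by simp [charDegree]
    rw [h2] at hp
    obtain ⟨s, hs, -⟩ := (slLin F).exists_isEll
    have e1 := not_char_dvd_add_one (F := F) p
    have e2 := not_char_dvd_sub_one (F := F) p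
    rcases irr_cases_SL' hs h1 with h | h | h | h | h | h <;> rw [charDegree_of_eq h.1] at hp
    · exact absurd (Nat.dvd_one.1 hp) (Fact.out : p.Prime).ne_one
    · exact h.2
    · exact absurd hp e1
    · exact absurd hp e2
    · exact absurd (hp.trans (Nat.div_dvd_of_dvd (by have := h.2.1; omega))) e1
    · exact absurd (hp.trans (Nat.div_dvd_of_dvd (by have := h.2.1; omega))) e2
  obtain ⟨ψ, h1, h2⟩ := exists_irr_PSL (slLin F).isIrr_St
    (fun z hz => by rw [Lin2.St_Z _ hz, Lin2.St_one])
  refine ⟨card_irr_unique h1 (fun χ => p ∣ charDegree χ) ?_ fun χ hχ hp => ?_, fun χ hp => ?_⟩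
  · rw [charDegree_of_eq (n := Fintype.card F) (by rw [← map_one (piSL F), h2, Lin2.St_one])]
    exact char_dvd_card p
  · funext g
    obtain ⟨g, rfl⟩ := piSL_surjective g
    rw [h2, ← key χ hχ hp]
  · refine charDegree_of_eq ?_
    rw [← map_one (piSL F), ← Lin2.St_one (slLin F), ← key χ χ.2 hp]

end Cfsg.Agent.S4765
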