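import Cfsg.Statements.S4782
import Cfsg.Agent.Perm.DegSec
import Cfsg.Agent.Char.Burnside

set_option autoImplicit false
open Cfsg

namespace Cfsg.Agent.S4782

open Cfsg.Lib.Char Cfsg.Lib.Perm

universe u

theorem comm_of_simple {G : Type*} [Group G] [Finite G] [IsSimpleGroup G] {p q : ℕ} (hp : p.Prime)
    (hq : q.Prime) (h : ∀ r ∈ degreePrimes G, r = p ∨ r = q) (a b : G) : a * b = b * a := by
  have := Fact.mk hp
  obtain ⟨P⟩ := (inferInstance : Nonempty (Sylow p G))
  obtain ⟨z, hz, hc⟩ : ∃ z : G, z ≠ 1 ∧ ∀ χ : G → ℂ, IsIrrCharacter G χ → p ∣ charDegree χ →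
      ¬ p ∣ (Subgroup.centralizer ({z} : Set G)).index := by
    by_cases hP : (P : Subgroup G) = ⊥
    · obtain ⟨z, hz⟩ := exists_ne (1 : G)
      refine ⟨z, hz, fun χ _ _ k => P.not_dvd_index ?_⟩
      rw [hP]
      exact k.trans (Subgroup.index_dvd_of_le bot_le)
    · have : Nontrivial P := (Subgroup.nontrivial_iff_ne_bot _).mpr hP
      have := P.isPGroup'.center_nontrivial
      obtain ⟨⟨z, hz⟩, hz1⟩ := exists_ne (1 : Subgroup.center P)
      refine ⟨z, fun e => hz1 (Subtype.ext (Subtype.ext e)), fun χ _ _ k => P.not_dvd_index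
        (k.trans (Subgroup.index_dvd_of_le fun x hx => ?_))⟩
      rw [Subgroup.mem_centralizer_singleton_iff]
      exact congrArg Subtype.val (Subgroup.mem_center_iff.mp hz ⟨x, hx⟩)
  obtain ⟨χ, d, hχ, hne, hd, hqd, h0⟩ := exists_irr_ne_one_not_dvd_ne_zero hq hz
  have e : charDegree χ = d := by simp [charDegree, hd]
  refine comm_of_simple_of_norm_eq hχ hne hz ?_ a b
  rw [hd, Complex.norm_natCast]
  refine (irr_eq_zero_or_norm_eq_of_coprime hχ hd z ?_).resolve_left h0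
  refine Nat.Coprime.symm (Nat.coprime_of_dvd fun r hr h1 h2 => ?_)
  rcases h r ⟨hr, d, ⟨⟨χ, hχ⟩, e⟩, h2⟩ with rfl | rfl
  · exact hc χ hχ (e ▸ h2) h1
  · exact hqd h2

theorem solvable {p q : ℕ} (hp : p.Prime) (hq : q.Prime) (G : Type u) [Group G] [Finite G]
    (hG : ∀ r ∈ degreePrimes G, r = p ∨ r = q) : Group.IsSolvable G := by
  revert hG
  refine Cfsg.Lib.Solv.card_induction
    (P := fun G _ _ => (∀ r ∈ degreePrimes G, r = p ∨ r = q) → Group.IsSolvable G) ?_ G
  intro G _ _ ih hG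
  by_cases hs : IsSimpleGroup G
  · exact Group.isSolvable_of_comm (comm_of_simple hp hq hG)
  · rcases subsingleton_or_nontrivial G with h | h
    · infer_instance
    · rw [isSimpleGroup_iff] at hs
      push Not at hs
      obtain ⟨N, hN, hN1, hN2⟩ := hs h
      rw [Group.isSolvable_iff_subgroup_quotient N]
      refine ⟨ih N (Cfsg.Lib.Solv.card_lt_of_ne_top hN2) ?_,
        ih (G ⧸ N) (Cfsg.Lib.Solv.card_quotient_lt hN1) ?_⟩
      · rintro r ⟨hr, d, hd, k⟩
        obtain ⟨e, he, k'⟩ := DegSec.exists_dvd_of_normal N hd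
        exact hG r ⟨hr, e, he, k.trans k'⟩
      · rintro r ⟨hr, d, hd, k⟩
        exact hG r ⟨hr, d, DegSec.mem_of_quotient N hd, k⟩

/-- If the finite group G is not solvable, then at least three distinct primes each divide some irreducible complex character degree of G. -/
theorem result {G : Type*} [Group G] [Finite G] (hG : ¬ Group.IsSolvable G) : ∃ p q r : ℕ, p ≠ q ∧ q ≠ r ∧ p ≠ r ∧ p ∈ Cfsg.degreePrimes G ∧ q ∈ Cfsg.degreePrimes G ∧ r ∈ Cfsg.degreePrimes G := by
  have k : ∀ p q : ℕ, p.Prime → q.Prime → ∃ r ∈ degreePrimes G, r ≠ p ∧ r ≠ q := fun p q hp hq => by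
    by_contra h
    refine hG (solvable hp hq G fun r hr => ?_)
    by_contra h'
    exact h ⟨r, hr, not_or.1 h'⟩
  obtain ⟨p, hp, -⟩ := k 2 2 Nat.prime_two Nat.prime_two
  obtain ⟨q, hq, h1, -⟩ := k p p hp.1 hp.1
  obtain ⟨r, hr, h2, h3⟩ := k p q hp.1 hq.1
  exact ⟨p, q, r, h1.symm, h3.symm, h2.symm, hp, hq, hr⟩

end Cfsg.Agent.S4782
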