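import Cfsg.Statements.S4784
import Cfsg.Agent.Char.FrobSchur
import Cfsg.Agent.Char.BrauerPerm
import Cfsg.Agent.Char.IndChar
import Cfsg.Agent.Char.Kernel

set_option autoImplicit false
open Cfsg

namespace Cfsg.Agent.S4784

/-- Let H be a subgroup of the finite group G and consider the permutation character of G on the cosets of H (the function induced from the principal character of H). Then exactly one irreducible constituent of it is real-valued with Frobenius–Schur indicator +1 (namely the principal character) if and only if the normal core of H has odd index in G. -/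
theorem result {G : Type*} [Group G] [Fintype G] (H : Subgroup G) : Nat.card {χ : Cfsg.IrrCharacter G // Cfsg.classInner (Cfsg.indFun H (fun _ : H => (1 : ℂ))) (χ : G → ℂ) ≠ 0 ∧ (∀ g : G, (starRingEnd ℂ) ((χ : G → ℂ) g) = (χ : G → ℂ) g) ∧ (Nat.card G : ℂ)⁻¹ * ∑ g : G, (χ : G → ℂ) (g * g) = 1} = 1 ↔ Odd H.normalCore.index := by
  classical
  open Cfsg.Lib.Char in
  set π : G → ℂ := indFun H (fun _ : H => (1 : ℂ)) with hπdef
  have hπ : IsCharacter G π := isCharacter_indFun_one H
  have hπv : ∀ g, π g = (Nat.card (MulAction.fixedBy (G ⧸ H) g) : ℂ) :=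
    Brauer.indFun_one_eq_card_fixedBy H
  have hπ1 : classInner π (fun _ => 1) = 1 := classInner_indFun_one_one H
  let one : IrrCharacter G := ⟨fun _ => 1, isIrrCharacter_one⟩
  have hone : classInner π (one : G → ℂ) ≠ 0 ∧
      (∀ g : G, (starRingEnd ℂ) ((one : G → ℂ) g) = (one : G → ℂ) g) ∧
      (Nat.card G : ℂ)⁻¹ * ∑ g : G, (one : G → ℂ) (g * g) = 1 :=
    ⟨by rw [show classInner π (one : G → ℂ) = 1 from hπ1]; simp, fun g => by simp [one],
      fsInd_one⟩
  have hcore : ∀ g, g ∈ H.normalCore ↔ ∀ ω : G ⧸ H, g • ω = ω := fun g => by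
    rw [Subgroup.normalCore_eq_ker, MonoidHom.mem_ker, Equiv.ext_iff]
    rfl
  constructor
  · intro h
    rw [← Nat.not_even_iff_odd]
    intro hev
    have : Fact (Nat.Prime 2) := ⟨Nat.prime_two⟩
    obtain ⟨tq, htq⟩ := exists_prime_orderOf_dvd_card' (G := G ⧸ H.normalCore) 2 hev.two_dvd
    obtain ⟨t, rfl⟩ := QuotientGroup.mk_surjective tq
    have ht1 : t ∉ H.normalCore := fun h1 => by
      rw [(QuotientGroup.eq_one_iff t).2 h1, orderOf_one] at htq
      omega
    have ht2 : t * t ∈ H.normalCore := by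
      rw [← QuotientGroup.eq_one_iff, QuotientGroup.mk_mul, ← pow_two, ← htq, pow_orderOf_eq_one]
    have hlt : ∑ g : G, Nat.card (MulAction.fixedBy (G ⧸ H) g) <
        ∑ g : G, Nat.card (MulAction.fixedBy (G ⧸ H) (g * g)) := by
      have hsub : ∀ g : G, MulAction.fixedBy (G ⧸ H) g ⊆ MulAction.fixedBy (G ⧸ H) (g * g) :=
        fun g ω hω => by
          rw [MulAction.mem_fixedBy] at hω ⊢
          rw [mul_smul, hω, hω]
      refine Finset.sum_lt_sum (fun g _ => Set.ncard_le_ncard (hsub g)) ⟨t, Finset.mem_univ _, ?_⟩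
      refine Set.ncard_lt_ncard ⟨hsub t, fun h1 => ht1 ((hcore t).2 fun ω => ?_)⟩
      exact h1 ((hcore _).1 ht2 ω)
    have h1 : (Nat.card G : ℂ)⁻¹ * ∑ g : G, π g = 1 := by
      rw [← hπ1]; simp [classInner]
    have h2 : (Nat.card G : ℂ)⁻¹ * ∑ g : G, π (g * g) =
        ∑ χ : IrrCharacter G, classInner π χ * fsInd (χ : G → ℂ) := by
      simp_rw [hπ.isClassFunction.apply_eq_sum_irr (_ * _), fsInd_def, Finset.mul_sum]
      rw [Finset.sum_comm]
      refine Finset.sum_congr rfl fun χ _ => Finset.sum_congr rfl fun g _ => by ring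
    have h3 : (∑ χ : IrrCharacter G, classInner π χ * fsInd (χ : G → ℂ)).re ≤ 1 := by
      rw [← Finset.add_sum_erase _ _ (Finset.mem_univ one),
        show classInner π (one : G → ℂ) = 1 from hπ1, show fsInd (one : G → ℂ) = 1 from fsInd_one,
        Complex.add_re, Complex.re_sum]
      have : ∑ χ ∈ Finset.univ.erase one, (classInner π χ * fsInd (χ : G → ℂ)).re ≤ 0 := by
        refine Finset.sum_nonpos fun χ hχ => ?_
        obtain ⟨m, hm⟩ := (isCharacter_iff_classInner.1 hπ).2 χ χ.2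
        rcases (IsIrrCharacter.fsInd_cases χ.2) with ⟨-, h4, -⟩ | ⟨h5, h4, -⟩ | ⟨-, h4, -⟩
        · simp [h4]
        · by_cases hm0 : classInner π (χ : G → ℂ) = 0
          · simp [hm0]
          · exfalso
            obtain ⟨hs, -⟩ := Nat.card_eq_one_iff_unique.1 h
            have := hs.elim ⟨χ, hm0, fun g => Complex.conj_eq_iff_im.2 (h5 g), h4⟩ ⟨one, hone⟩
            exact Finset.ne_of_mem_erase hχ (congrArg Subtype.val this)
        · simp [h4, hm]
      simp only [mul_one, Complex.one_re]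
      linarith
    rw [← h2] at h3
    simp_rw [hπv] at h1 h3
    rw [← Nat.cast_sum] at h1 h3
    have h4 : (Nat.card G : ℂ) = ((∑ g : G, Nat.card (MulAction.fixedBy (G ⧸ H) g) : ℕ) : ℂ) :=
      (inv_mul_eq_one₀ (card_ne_zero G)).1 h1
    rw [← Nat.cast_inj.1 h4] at hlt
    have h5 : (0 : ℝ) < Nat.card G := by exact_mod_cast Nat.card_pos
    have h6 : (Nat.card G : ℝ) <
        ((∑ g : G, Nat.card (MulAction.fixedBy (G ⧸ H) (g * g)) : ℕ) : ℝ) := by exact_mod_cast hlt
    rw [← Complex.ofReal_natCast, ← Complex.ofReal_natCast, ← Complex.ofReal_inv,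
      ← Complex.ofReal_mul, Complex.ofReal_re, inv_mul_le_iff₀ h5] at h3
    linarith
  · intro hodd
    rw [Nat.card_eq_one_iff_unique]
    refine ⟨⟨?_⟩, ⟨⟨one, hone⟩⟩⟩
    suffices key : ∀ χ : IrrCharacter G, classInner π χ ≠ 0 →
        (∀ g : G, (starRingEnd ℂ) ((χ : G → ℂ) g) = (χ : G → ℂ) g) → χ = one by
      rintro ⟨a, ha1, ha2, -⟩ ⟨b, hb1, hb2, -⟩
      exact Subtype.ext ((key a ha1 ha2).trans (key b hb1 hb2).symm)
    intro χ h1 h2
    have hχ : IsIrrCharacter G (χ : G → ℂ) := χ.2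
    have hker : ∀ n ∈ H.normalCore, (χ : G → ℂ) n = (χ : G → ℂ) 1 := by
      intro n hn
      have h3 : n ∈ charKer π := by
        rw [hπ.mem_charKer_iff, hπv, hπv]
        have : MulAction.fixedBy (G ⧸ H) n = MulAction.fixedBy (G ⧸ H) (1 : G) := by
          ext ω
          simp [(hcore n).1 hn ω]
        rw [this]
      exact hχ.isCharacter.mem_charKer_iff.1 (hπ.charKer_le_of_classInner_ne_zero hχ h1 h3)
    obtain ⟨ψ, hψ, hψ'⟩ := hχ.exists_quotient H.normalCore hker
    have h3 := hψ.eq_one_of_real_of_odd hodd fun q => by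
      obtain ⟨g, rfl⟩ := QuotientGroup.mk_surjective q
      rw [hψ']
      exact Complex.conj_eq_iff_im.1 (h2 g)
    refine Subtype.ext (funext fun g => ?_)
    rw [← hψ', h3]

end Cfsg.Agent.S4784
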