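import Cfsg.Statements.S4796
import Cfsg.Agent.Char.Codegree
import Cfsg.Agent.Solv.Frobenius
import Mathlib.GroupTheory.SchurZassenhaus

set_option autoImplicit false
open Cfsg

namespace Cfsg.Agent.S4796

/-- Let G be a finite group with a faithful irreducible complex character χ whose codegree #G / χ(1) is a prime p (for a faithful character the kernel is trivial, so the codegree is #G / χ(1)). Then either G is cyclic of order p, or G is a Frobenius group whose Frobenius kernel has order p: some proper non-trivial subgroup H satisfies H ∩ gHg⁻¹ = 1 for every element g outside H, and the set of elements lying in no conjugate of H, together with the identity, has exactly p elements. -/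
theorem result {G : Type*} [Group G] [Finite G] (χ : Cfsg.IrrCharacter G) (hfaith : ∀ g : G, (χ : G → ℂ) g = (χ : G → ℂ) 1 → g = 1) (p : ℕ) (hp : p.Prime) (hcod : Nat.card G = p * Cfsg.charDegree (χ : G → ℂ)) : (IsCyclic G ∧ Nat.card G = p) ∨ ∃ H : Subgroup G, Cfsg.IsFrobeniusComplement H ∧ Nat.card ↥(Cfsg.frobeniusKernel H) = p := by
  open Cfsg.Lib.Char Cfsg.Lib.Solv in
  obtain ⟨P, hPn, hP, hPi, hC⟩ := exists_normal_of_card_eq_prime_mul_deg χ.2 hp hcod
  have := Fact.mk hp
  by_cases htop : P = ⊤
  · subst htop
    rw [Subgroup.card_top] at hP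
    exact Or.inl ⟨isCyclic_of_prime_card hP, hP⟩
  right
  obtain ⟨H, hH⟩ := Subgroup.exists_right_complement'_of_coprime (N := P)
    (by rw [hP]; exact hp.coprime_iff_not_dvd.2 hPi)
  have hP1 : P ≠ ⊥ := fun e => hp.one_lt.ne' (by rw [← hP, e, Subgroup.card_bot])
  have hF : Cfsg.IsFrobeniusComplement H := by
    refine isFrobeniusComplement_of_fpf hH hP1 (fun e => htop ?_) fun h hh h1 => ?_
    · rw [e] at hH
      exact Subgroup.isComplement'_bot_right.1 hH
    · by_contra hne
      have : Fact (Nat.card P).Prime := ⟨hP ▸ hp⟩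
      have h2 : (P ⊓ Subgroup.centralizer {h}).subgroupOf P = ⊤ := by
        refine ((P ⊓ Subgroup.centralizer {h}).subgroupOf P).eq_bot_or_eq_top_of_prime_card.resolve_left
          fun e => hne ?_
        rw [Subgroup.subgroupOf_eq_bot, disjoint_iff, inf_eq_left.2 inf_le_left] at e
        exact e
      rw [Subgroup.subgroupOf_eq_top] at h2
      have h3 : h ∈ P := hC fun x hx => Subgroup.mem_centralizer_singleton_iff.1 (h2 hx).2
      exact h1 (Subgroup.disjoint_def.1 hH.disjoint h3 hh)
  refine ⟨H, hF, ?_⟩
  rw [(isMalnormal_of_isFrobeniusComplement hF).card_frobeniusKernel, hH.index_eq_card, hP]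

end Cfsg.Agent.S4796
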