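import Cfsg.Statements.S4797
import Cfsg.Agent.Char.Codegree
import Mathlib.GroupTheory.IsPerfect

set_option autoImplicit false
open Cfsg

namespace Cfsg.Agent.S4797

/-- The codegree of an irreducible complex character χ of a finite group G is [G : ker χ] / χ(1), where ker χ is the set of elements at which χ takes the value χ(1). A non-trivial finite group is perfect if and only if no irreducible complex character of it has prime codegree. -/
theorem result {G : Type*} [Group G] [Finite G] [Nontrivial G] : commutator G = ⊤ ↔ ∀ χ : Cfsg.IrrCharacter G, ¬ ((Nat.card G / (Nat.card {g : G // (χ : G → ℂ) g = (χ : G → ℂ) 1} * Cfsg.charDegree (χ : G → ℂ)))).Prime := by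
  open Cfsg.Lib.Char Cfsg.Lib.Char.Deg in
  simp only [fun χ : Cfsg.IrrCharacter G => codeg_eq χ.2.isCharacter]
  constructor
  · intro hG χ hp
    have := χ.2.charKer_normal
    have hψ := χ.2.deflate (le_refl (charKer (χ : G → ℂ)))
    have hd : Cfsg.charDegree (deflate (charKer (χ : G → ℂ)) χ) = Cfsg.charDegree (χ : G → ℂ) :=
      deg_congr (by rw [← QuotientGroup.mk_one, χ.2.isClassFunction.deflate_mk le_rfl])
    obtain ⟨P, hPn, hP, -, hC⟩ := exists_normal_of_card_eq_prime_mul_deg hψ hp
      (by rw [hd, codeg_mul_deg χ.2]; rfl)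
    have := Fact.mk hp
    have hcyc : IsCyclic P := isCyclic_of_prime_card hP
    have hQ : commutator (G ⧸ charKer (χ : G → ℂ)) = ⊤ := by
      rw [commutator_def, ← Subgroup.map_top_of_surjective (QuotientGroup.mk' _)
        (QuotientGroup.mk'_surjective _), ← Subgroup.map_commutator, ← commutator_def, hG]
    have h1 : commutator (G ⧸ charKer (χ : G → ℂ)) ≤ Subgroup.centralizer (P : Set _) := by
      have h2 : commutator (G ⧸ charKer (χ : G → ℂ)) ≤ (MulAut.conjNormal (H := P)).ker := by
        let := IsCyclic.commGroup (α := P)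
        rw [commutator_def, Subgroup.commutator_le]
        intro a _ b _
        rw [MonoidHom.mem_ker, map_commutatorElement, commutatorElement_eq_one_iff_mul_comm]
        exact (IsCyclic.mulAutMulEquiv P).injective (by rw [map_mul, map_mul, mul_comm])
      intro x hx y hy
      have h3 := congrArg (fun f : MulAut P => ((f ⟨y, hy⟩ : P) : G ⧸ charKer (χ : G → ℂ))) (h2 hx)
      simp only [MulAut.conjNormal_apply, MulAut.one_apply] at h3
      rw [← h3, inv_mul_cancel_right, h3]
    have h4 : P = ⊤ := top_le_iff.1 (hQ ▸ h1.trans hC)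
    rw [hQ, h4] at h1
    have h5 : commutator (G ⧸ charKer (χ : G → ℂ)) = ⊥ := by
      rw [commutator_def, Subgroup.commutator_eq_bot_iff_le_centralizer]
      exact h1
    rw [h4, ← hQ, h5, Subgroup.card_bot] at hP
    exact hp.one_lt.ne hP
  · intro h
    by_contra hne
    obtain ⟨M, hM, hle⟩ := (eq_top_or_exists_le_coatom (commutator G)).resolve_left hne
    have : M.Normal := Subgroup.Normal.of_commutator_le G hle
    obtain ⟨g, -, hg⟩ := SetLike.exists_of_lt hM.lt_top
    obtain ⟨lam, h1, h2⟩ := exists_monoidHom_ker_ge_apply_ne_one M hle hg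
    have h3 : lam.ker = M := by
      by_contra h4
      have h5 := hM.2 _ (lt_of_le_of_ne (show M ≤ lam.ker from h1) (Ne.symm h4))
      exact h2 (show g ∈ lam.ker from h5 ▸ Subgroup.mem_top g)
    refine h ⟨_, isIrrCharacter_monoidHom lam⟩ ?_
    simp only [codeg, deg_monoidHom, charKer_monoidHom, h3, Nat.div_one]
    have hc : IsMulCommutative (G ⧸ M) := Subgroup.Normal.quotient_commutative_iff_commutator_le.2 hle
    have : Nontrivial (G ⧸ M) := QuotientGroup.nontrivial_iff.2 hM.1
    have hs : IsSimpleGroup (G ⧸ M) := ⟨fun K _ => by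
      rcases hM.le_iff.1 (QuotientGroup.le_comap_mk' M K) with e | e
      · right
        rw [← Subgroup.map_comap_eq_self_of_surjective (QuotientGroup.mk'_surjective M) K, e,
          Subgroup.map_top_of_surjective _ (QuotientGroup.mk'_surjective M)]
      · left
        rw [← Subgroup.map_comap_eq_self_of_surjective (QuotientGroup.mk'_surjective M) K, e,
          QuotientGroup.map_mk'_self]⟩
    let : CommGroup (G ⧸ M) := { (inferInstance : Group (G ⧸ M)) with mul_comm := mul_comm' }
    exact IsSimpleGroup.prime_card

end Cfsg.Agent.S4797
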