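import Cfsg.Statements.S4798
import Cfsg.Agent.Char.DegThompson

set_option autoImplicit false
open Cfsg

namespace Cfsg.Agent.S4798

open Cfsg.Lib.Char

/-- Let p be a prime and χ a faithful irreducible complex character of the finite group G (χ(g) = χ(1) only for g = 1), so that its codegree is #G / χ(1). Then #G / χ(1) is a power of p if and only if χ is induced from a character of a Sylow p-subgroup of G. -/
theorem result {G : Type*} [Group G] [Fintype G] (p : ℕ) [Fact p.Prime] (χ : Cfsg.IrrCharacter G) (hfaith : ∀ g : G, (χ : G → ℂ) g = (χ : G → ℂ) 1 → g = 1) : (∃ k : ℕ, Nat.card G = p ^ k * Cfsg.charDegree (χ : G → ℂ)) ↔ ∃ (P : Sylow p G) (θ : ↥(P : Subgroup G) → ℂ), Cfsg.IsCharacter ↥(P : Subgroup G) θ ∧ (χ : G → ℂ) = Cfsg.indFun (P : Subgroup G) θ := by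
  have hp : p.Prime := Fact.out
  constructor
  · rintro ⟨k, hk⟩
    obtain ⟨P⟩ : Nonempty (Sylow p G) := inferInstance
    have := Fintype.ofFinite (P : Subgroup G)
    obtain ⟨a, ha⟩ := P.isPGroup'.exists_card_eq
    have h1 : p ^ a * (P : Subgroup G).index = p ^ k * charDegree (χ : G → ℂ) := by
      rw [← ha, Subgroup.card_mul_index, hk]
    have hc : (p ^ k).Coprime (P : Subgroup G).index :=
      Nat.Coprime.pow_left k ((Nat.Prime.coprime_iff_not_dvd hp).2 P.not_dvd_index)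
    have h2 : k ≤ a := (Nat.pow_dvd_pow_iff_le_right hp.one_lt).1
      (hc.dvd_of_dvd_mul_right ⟨_, h1⟩)
    obtain ⟨b, rfl⟩ := Nat.exists_eq_add_of_le h2
    rw [pow_add, mul_assoc, Nat.mul_right_inj (pow_pos hp.pos k).ne'] at h1
    obtain ⟨θ, hθ, h4, h5⟩ := Deg.exists_irr_not_dvd_deg (χ.2.isCharacter.res (P : Subgroup G))
      (p := p ^ (b + 1)) (by
        rw [Deg.deg_res, ← h1, pow_succ, Nat.mul_dvd_mul_iff_left (pow_pos hp.pos b)]
        exact P.not_dvd_index)
    obtain ⟨c, -, hc⟩ := (Nat.dvd_prime_pow hp).1 (ha ▸ Deg.deg_dvd_card hθ)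
    refine ⟨P, θ, hθ.isCharacter, (Deg.eq_of_classInner_ne_zero_of_deg_le
      (isCharacter_indFun hθ.isCharacter) χ.2 ?_ ?_).symm⟩
    · rwa [classInner_indFun_irr_eq hθ.isCharacter χ.2.isCharacter]
    · rw [Deg.deg_indFun _ hθ.isCharacter, ← h1, hc, mul_comm]
      rw [hc, Nat.pow_dvd_pow_iff_le_right hp.one_lt] at h5
      exact Nat.mul_le_mul_right _ (Nat.pow_le_pow_right hp.pos (by omega))
  · rintro ⟨P, θ, hθ, h⟩
    obtain ⟨a, ha⟩ := P.isPGroup'.exists_card_eq
    obtain ⟨c, hc⟩ := Deg.deg_dvd_card χ.2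
    have h1 := hc
    rw [h, Deg.deg_indFun _ hθ, ← (P : Subgroup G).index_mul_card, mul_assoc,
      Nat.mul_right_inj Subgroup.FiniteIndex.index_ne_zero, ha] at h1
    obtain ⟨k, -, rfl⟩ := (Nat.dvd_prime_pow hp).1 (Dvd.intro_left _ h1.symm)
    exact ⟨k, by rw [hc, mul_comm]⟩

end Cfsg.Agent.S4798
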