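import Cfsg.Statements.S4801
import Cfsg.Agent.Char.Codegree

set_option autoImplicit false
open Cfsg

namespace Cfsg.Agent.S4801

/-- The codegree of an irreducible complex character χ of a finite group G is [G : ker χ] / χ(1), where ker χ is the set of elements at which χ takes the value χ(1). Let S be a finite simple group and G a finite group such that every codegree of an irreducible character of S is a codegree of an irreducible character of G. Then the order of S divides the order of G. -/
theorem result {S : Type*} [Group S] [Finite S] (hS : IsSimpleGroup S) {G : Type*} [Group G] [Finite G] (hsub : ∀ χ : Cfsg.IrrCharacter S, ∃ ψ : Cfsg.IrrCharacter G, (Nat.card S / (Nat.card {g : S // (χ : S → ℂ) g = (χ : S → ℂ) 1} * Cfsg.charDegree (χ : S → ℂ))) = (Nat.card G / (Nat.card {g : G // (ψ : G → ℂ) g = (ψ : G → ℂ) 1} * Cfsg.charDegree (ψ : G → ℂ)))) : Nat.card S ∣ Nat.card G := by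
  open Cfsg.Lib.Char Cfsg.Lib.Char.Deg in
  rw [Nat.dvd_iff_prime_pow_dvd_dvd]
  intro p k hp hk
  rcases Nat.eq_zero_or_pos k with rfl | hk0
  · simp
  obtain ⟨χ, hχ, h1, h2⟩ := exists_irr_dvd_index_not_dvd_deg hp
    ((dvd_pow_self p hk0.ne').trans hk)
  obtain ⟨ψ, hψ⟩ := hsub ⟨χ, hχ⟩
  rw [codeg_eq hχ.isCharacter, codeg_eq ψ.2.isCharacter] at hψ
  refine Dvd.dvd.trans ?_ (codeg_dvd_card ψ.2)
  rw [← hψ]
  have h3 : charKer χ = ⊥ := hχ.charKer_normal.eq_bot_or_eq_top.resolve_right fun e => by
    rw [e, Subgroup.index_top, Nat.dvd_one] at h1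
    exact hp.one_lt.ne' h1
  have h4 := codeg_mul_deg hχ
  rw [h3, Subgroup.index_bot] at h4
  rw [← h4] at hk
  exact ((hp.coprime_iff_not_dvd.2 h2).pow_left k).dvd_of_dvd_mul_right hk

end Cfsg.Agent.S4801
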