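import Cfsg.Statements.S4802
import Cfsg.Agent.Char.Camina

set_option autoImplicit false
open Cfsg

namespace Cfsg.Agent.S4802

/-- Let N < M be normal subgroups of the finite group G and g ∈ M ∖ N. Then the conjugacy class of g is exactly M ∖ N if and only if every irreducible complex character of G whose kernel contains N takes the same value at all elements of M ∖ N, and every irreducible complex character of G whose kernel does not contain N vanishes at g. -/
theorem result {G : Type*} [Group G] [Finite G] (N M : Subgroup G) [N.Normal] [M.Normal] (hNM : N < M) (g : G) (hgM : g ∈ M) (hgN : g ∉ N) : {h : G | IsConj g h} = (M : Set G) \ (N : Set G) ↔ ((∀ χ : Cfsg.IrrCharacter G, (∀ x ∈ N, (χ : G → ℂ) x = (χ : G → ℂ) 1) → ∀ x ∈ M, x ∉ N → ∀ y ∈ M, y ∉ N → (χ : G → ℂ) x = (χ : G → ℂ) y) ∧ (∀ χ : Cfsg.IrrCharacter G, (∃ x ∈ N, (χ : G → ℂ) x ≠ (χ : G → ℂ) 1) → (χ : G → ℂ) g = 0)) := by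
  open Cfsg.Lib.Char in
  constructor
  · intro h
    have hc : ∀ x ∈ M, x ∉ N → IsConj g x := fun x hx hxN => by
      have : x ∈ (M : Set G) \ (N : Set G) := ⟨hx, hxN⟩
      rw [← h] at this
      exact this
    refine ⟨fun χ _ x hx hxN y hy hyN =>
      χ.2.isClassFunction.eq_of_isConj ((hc x hx hxN).symm.trans (hc y hy hyN)), ?_⟩
    rintro χ ⟨x, hx, hχx⟩
    refine apply_eq_zero_of_isConj_mul (N := N) (fun n hn => hc _ (M.mul_mem hgM (hNM.le hn))
      fun hgn => hgN ?_) χ.2 fun hle => hχx (apply_of_mem_charKer (hle hx))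
    simpa using N.mul_mem hgn (N.inv_mem hn)
  · rintro ⟨h1, h2⟩
    ext x
    constructor
    · intro hx
      obtain ⟨c, rfl⟩ := isConj_iff.1 hx
      refine ⟨Subgroup.Normal.conj_mem inferInstance g hgM c, fun hN => hgN ?_⟩
      simpa [mul_assoc] using Subgroup.Normal.conj_mem' (inferInstance : N.Normal) _ hN c
    · rintro ⟨hxM, hxN⟩
      refine isConj_of_forall_irr_eq_or_zero fun χ hχ => ?_
      by_cases hk : ∀ n ∈ N, χ n = χ 1
      · exact Or.inl (h1 ⟨χ, hχ⟩ hk g hgM hgN x hxM hxN)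
      · push Not at hk
        exact Or.inr (h2 ⟨χ, hχ⟩ hk)

end Cfsg.Agent.S4802
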