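import Cfsg.Statements.S4813
import Cfsg.Agent.S4466

set_option autoImplicit false
open Cfsg

namespace Cfsg.Agent.S4813

open Cfsg.Lib.Char Cfsg.Lib.Char.Deg Cfsg.Lib.Solv

/-- If every irreducible complex character of the finite group G of degree greater than one has prime degree, then G has at most three distinct irreducible character degrees. -/
theorem result {G : Type*} [Group G] [Finite G] (hprime : ∀ d ∈ Cfsg.charDegrees G, d = 1 ∨ d.Prime) : Nat.card ↥(Cfsg.charDegrees G) ≤ 3 := by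
  classical
  have := Fintype.ofFinite G
  have h : ∀ χ, IsIrrCharacter G χ → charDegree χ ≠ 1 → (charDegree χ).Prime := fun χ hχ h1 =>
    (hprime _ ⟨⟨χ, hχ⟩, rfl⟩).resolve_left h1
  have hs := S4466.main G h
  suffices hsuf : ∃ m n, ∀ χ, IsIrrCharacter G χ → charDegree χ = 1 ∨ charDegree χ = m ∨
      charDegree χ = n by
    obtain ⟨m, n, h1⟩ := hsuf
    have h2 : charDegrees G ⊆ ({1, m, n} : Finset ℕ) := by
      rintro _ ⟨χ, rfl⟩
      simpa using h1 χ χ.2
    refine (Set.ncard_le_ncard h2 (Finset.finite_toSet _)).trans ?_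
    rw [Set.ncard_coe_finset]
    exact Finset.card_le_three
  have hmul : ∀ χ, IsIrrCharacter G χ → ∀ a b, charDegree χ = a * b → a = 1 ∨ b = 1 := by
    intro χ hχ a b hab
    by_cases h1 : charDegree χ = 1
    · exact Or.inl (Nat.eq_one_of_mul_eq_one_right (hab ▸ h1))
    · exact (Nat.prime_mul_iff.1 (hab ▸ h χ hχ h1)).symm.imp And.right And.right
  by_cases hG : commutator G ≤ ⊥
  · exact ⟨1, 1, fun χ hχ => Or.inl ((commutator_le_charKer_iff hχ).1 (hG.trans bot_le))⟩
  obtain ⟨K, -, hK⟩ := exists_isMaxNonab hG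
  have := hK.normal
  obtain ⟨p, hp, ⟨⟨k, hk⟩, β, hβ, hKβ, hβ1, -⟩ | hF⟩ := hK.dichotomy inferInstance
  · refine ⟨p, p, fun χ hχ => ?_⟩
    by_contra hcon
    push Not at hcon
    have h1 := gallagher_irr hχ.isCharacter (res_irr_of_coprime_deg K hχ (by
      rw [hk]
      exact ((Nat.coprime_primes (h χ hχ hcon.1) hp).2 hcon.2.1).pow_right k)) hβ hKβ
    exact (hmul _ h1 _ _ (deg_mul hβ.isCharacter hχ.isCharacter)).elim hβ1 hcon.1
  · refine ⟨(commutator G ⊔ K).index, p, fun χ hχ => ?_⟩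
    by_contra hcon
    push Not at hcon
    have hf : (commutator G ⊔ K).index.Prime := by
      obtain ⟨ξ, hξ, h1⟩ := hF.exists_deg_eq_index
      exact h1 ▸ h ξ hξ (h1 ▸ hF.index_ne_one)
    have h1 := res_irr_of_coprime_deg (commutator G ⊔ K) hχ
      ((Nat.coprime_primes (h χ hχ hcon.1) hf).2 hcon.2.1)
    obtain ⟨ξ, hξ, h2⟩ := hF.exists_deg_of_not_dvd h1 (by
      rw [deg_res, Nat.prime_dvd_prime_iff_eq hp (h χ hχ hcon.1)]
      exact hcon.2.2.symm)
    rw [deg_res] at h2
    exact (hmul _ hξ _ _ h2).elim hF.index_ne_one hcon.1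

end Cfsg.Agent.S4813
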