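import Cfsg.Statements.S4814
import Cfsg.Agent.Char.ClassMult
import Cfsg.Agent.Char.Kernel

set_option autoImplicit false
open Cfsg

namespace Cfsg.Agent.S4814

/-- Let G be a finite group such that the sum, over the irreducible complex characters χ of G, of 1/χ(1)² is less than 2. Then every element of G is a product of two commutators. -/
theorem result {G : Type*} [Group G] [Finite G]
    (h : ∑ᶠ χ : Cfsg.IrrCharacter G, 1 / ‖(χ : G → ℂ) 1‖ ^ 2 < (2 : ℝ)) (g : G) :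
    ∃ a b c d : G, (a * b * a⁻¹ * b⁻¹) * (c * d * c⁻¹ * d⁻¹) = g := by
  classical
  open Cfsg.Lib.Char in
  letI := Fintype.ofFinite G
  rw [finsum_irr] at h
  by_contra hne
  push Not at hne
  have key : ∀ χ : IrrCharacter G, ∀ x : G, ∑ a : G, ∑ b : G, (χ : G → ℂ) (a * b * a⁻¹ * b⁻¹ * x) =
      ((Nat.card G : ℂ) / (χ : G → ℂ) 1) ^ 2 * (χ : G → ℂ) x := by
    intro χ x
    have hχ : IsIrrCharacter G (χ : G → ℂ) := χ.2
    rw [Finset.sum_comm]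
    have h1 : ∀ b : G, ∑ a : G, (χ : G → ℂ) (a * b * a⁻¹ * b⁻¹ * x) =
        (Nat.card G : ℂ) / (χ : G → ℂ) 1 * ((χ : G → ℂ) (b⁻¹)⁻¹ * (χ : G → ℂ) (b⁻¹ * x)) := by
      intro b
      have h2 : ∀ a : G, (χ : G → ℂ) (a * b * a⁻¹ * b⁻¹ * x) =
          (χ : G → ℂ) ((b⁻¹ * x) * (a * b * a⁻¹)) := by
        intro a
        rw [hχ.isCharacter.isClassFunction.apply_mul_comm (b⁻¹ * x)]
        congr 1; group
      simp_rw [h2]
      rw [irr_sum_mul_conj hχ, inv_inv]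
      ring
    simp_rw [h1]
    rw [← Finset.mul_sum]
    have h3 : ∑ b : G, (χ : G → ℂ) (b⁻¹)⁻¹ * (χ : G → ℂ) (b⁻¹ * x) =
        ∑ b : G, (χ : G → ℂ) b⁻¹ * (χ : G → ℂ) (b * x) :=
      Fintype.sum_equiv (Equiv.inv G) _ _ (fun b => by simp)
    rw [h3, irr_sum_inv_mul hχ]
    ring
  have hsum : ∑ χ : IrrCharacter G, (χ : G → ℂ) 1 * (((Nat.card G : ℂ) / (χ : G → ℂ) 1) ^ 2 *
      (((Nat.card G : ℂ) / (χ : G → ℂ) 1) ^ 2 * (χ : G → ℂ) g⁻¹)) = 0 := by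
    have h1 : ∀ χ : IrrCharacter G, (χ : G → ℂ) 1 * (((Nat.card G : ℂ) / (χ : G → ℂ) 1) ^ 2 *
      (((Nat.card G : ℂ) / (χ : G → ℂ) 1) ^ 2 * (χ : G → ℂ) g⁻¹)) =
        ∑ c : G, ∑ d : G, ∑ a : G, ∑ b : G, (χ : G → ℂ) 1 *
          (χ : G → ℂ) (a * b * a⁻¹ * b⁻¹ * (c * d * c⁻¹ * d⁻¹ * g⁻¹)) := by
      intro χ
      simp_rw [← Finset.mul_sum, key, ← Finset.mul_sum, key]
    simp_rw [h1]
    rw [Finset.sum_comm]
    refine Finset.sum_eq_zero fun c _ => ?_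
    rw [Finset.sum_comm]
    refine Finset.sum_eq_zero fun d _ => ?_
    rw [Finset.sum_comm]
    refine Finset.sum_eq_zero fun a _ => ?_
    rw [Finset.sum_comm]
    refine Finset.sum_eq_zero fun b _ => ?_
    rw [sum_irr_degree_mul, if_neg]
    intro h0
    apply hne a b c d
    rw [← mul_assoc, mul_inv_eq_one] at h0
    exact h0
  have hsum2 : ∑ χ : IrrCharacter G, (χ : G → ℂ) g⁻¹ / (χ : G → ℂ) 1 ^ 3 = 0 := by
    have h4 : (Nat.card G : ℂ) ^ 4 ≠ 0 := pow_ne_zero _ (card_ne_zero G)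
    apply mul_left_cancel₀ h4
    rw [mul_zero, Finset.mul_sum, ← hsum]
    refine Finset.sum_congr rfl fun χ _ => ?_
    have := IsIrrCharacter.apply_one_ne_zero χ.2
    field_simp
  let one : IrrCharacter G := ⟨fun _ => 1, isIrrCharacter_one⟩
  rw [← Finset.add_sum_erase _ _ (Finset.mem_univ one)] at hsum2 h
  have e1 : (one : G → ℂ) g⁻¹ / (one : G → ℂ) 1 ^ 3 = 1 := by simp [one]
  have e2 : 1 / ‖(one : G → ℂ) 1‖ ^ 2 = 1 := by simp [one]
  rw [e1] at hsum2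
  rw [e2] at h
  have h5 : ‖∑ χ ∈ Finset.univ.erase one, (χ : G → ℂ) g⁻¹ / (χ : G → ℂ) 1 ^ 3‖ = 1 := by
    rw [eq_neg_of_add_eq_zero_right hsum2]; simp
  have h6 : ‖∑ χ ∈ Finset.univ.erase one, (χ : G → ℂ) g⁻¹ / (χ : G → ℂ) 1 ^ 3‖ ≤
      ∑ χ ∈ Finset.univ.erase one, 1 / ‖(χ : G → ℂ) 1‖ ^ 2 := by
    refine (norm_sum_le _ _).trans (Finset.sum_le_sum fun χ _ => ?_)
    have hχ : IsIrrCharacter G (χ : G → ℂ) := χ.2
    obtain ⟨n, hn, hn1⟩ := hχ.exists_nat_degree_pos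
    have hle := hχ.isCharacter.norm_le_re g⁻¹
    rw [norm_div, norm_pow, hn1]
    rw [hn1] at hle
    simp only [Complex.norm_natCast, Complex.natCast_re] at hle ⊢
    have hn' : (0 : ℝ) < n := by exact_mod_cast hn
    rw [div_le_div_iff₀ (by positivity) (by positivity)]
    nlinarith [pow_pos hn' 2]
  linarith

end Cfsg.Agent.S4814
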