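import Cfsg.Statements.S4825
import Cfsg.Agent.Block.GalPow
import Cfsg.Agent.Block.BlockOrth
import Cfsg.Agent.Block.Loc
import Cfsg.Agent.Block.Part
import Cfsg.Agent.S0876

set_option autoImplicit false
open Cfsg

namespace Cfsg.Agent.S4825

open Cfsg Cfsg.Lib.Char Cfsg.Lib.Block Subgroup

theorem dvd_sum_sq {G : Type*} [Group G] [Fintype G] {p : ℕ} [hp : Fact p.Prime]
    {M : Ideal AlgInt} (hM : IsPModular p M) {B : Set (IrrCharacter G)} (hB : IsPBlock M B)
    {N : Subgroup G} [N.Normal] (b : Set (IrrCharacter N)) {x : G} {k : ℕ}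
    (hx : orderOf x = p ^ k) (hxN : x ∉ N) :
    p ∣ ∑ χ ∈ irrFin (B ∩ overSet N b), charDegree (χ : G → ℂ) ^ 2 := by
  classical
  have h0 : blockCoeff (B ∩ overSet N b) x⁻¹ = 0 := by
    rw [← blockCoeff_conv_inter]
    refine Finset.sum_eq_zero fun g _ => ?_
    by_contra hne
    obtain ⟨h1, h2⟩ := mul_ne_zero_iff.1 hne
    have h3 : ¬ p ∣ orderOf g := fun hd => h1 (blockCoeff_eq_zero_of_dvd hM hB hd)
    have h4 := mem_of_blockCoeff_overSet_ne_zero h2
    have h5 : (g : G ⧸ N) = (x : G ⧸ N)⁻¹ := by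
      rw [← QuotientGroup.mk_inv, QuotientGroup.eq]; exact h4
    apply hxN
    rw [← QuotientGroup.eq_one_iff, ← orderOf_eq_one_iff]
    have h6 : orderOf (x : G ⧸ N) ∣ orderOf g := by
      rw [← orderOf_inv, ← h5]; exact orderOf_map_dvd (QuotientGroup.mk' N) g
    have h7 : orderOf (x : G ⧸ N) ∣ p ^ k := hx ▸ orderOf_map_dvd (QuotientGroup.mk' N) x
    exact Nat.eq_one_of_dvd_coprimes
      (Nat.Coprime.pow_left k (hp.out.coprime_iff_not_dvd.2 h3)) h7 h6
  rw [blockCoeff_eq_inv, inv_inv, mul_eq_zero, inv_eq_zero, or_iff_right (card_ne_zero G)] at h0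
  replace h0 : ∑ χ ∈ irrFin (B ∩ overSet N b), (χ : G → ℂ) 1 * (χ : G → ℂ) x = 0 := by
    rw [sum_irrFin_eq_sum_ite]
    convert h0
  rw [← Loc.ideal_natCast_iff hM]
  have : ((∑ χ ∈ irrFin (B ∩ overSet N b), charDegree (χ : G → ℂ) ^ 2 : ℕ) : ℂ) =
      -∑ χ ∈ irrFin (B ∩ overSet N b), (χ : G → ℂ) 1 * ((χ : G → ℂ) (x * 1) - (χ : G → ℂ) 1) := by
    simp only [mul_sub, Finset.sum_sub_distrib, mul_one, h0, zero_sub, neg_neg]
    push_cast
    refine Finset.sum_congr rfl fun χ _ => ?_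
    rw [irr_charDegree_cast, pow_two]
  rw [this]
  refine Loc.ideal_neg hM (Loc.ideal_sum hM _ fun χ _ => Loc.ideal_mul_left hM ?_ ?_)
  · rw [← irr_charDegree_cast]; exact Loc.ring_natCast hM _
  · exact Cfsg.Agent.S0876.ideal_char_sub_pRegular hM χ.2.isCharacter (Commute.one_right x) hx
      (by simpa using hp.out.one_lt.ne')

/-- Let p be a prime, G a finite group with Sylow p-subgroup P, M a maximal ideal of the algebraic integers containing p, and B a p-block of G with defect group P. Let N be a normal subgroup of G not containing P and θ an irreducible character of N. Then the number of irreducible characters in B of degree prime to p lying over θ (having θ as a constituent on restriction to N) is either 0 or at least 2, and when p ≤ 3 it is divisible by p. -/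
theorem result {G : Type*} [Group G] [Fintype G] (p : ℕ) [Fact p.Prime] (P : Sylow p G) (M : Ideal Cfsg.AlgInt) (hM : Cfsg.IsPModular p M) (B : Set (Cfsg.IrrCharacter G)) (hB : Cfsg.IsPBlock M B) (hBP : Cfsg.IsDefectGroup p M B P) (N : Subgroup G) [N.Normal] [Fintype N] (hPN : ¬ (P : Subgroup G) ≤ N) (θ : Cfsg.IrrCharacter N) :
    (Nat.card {χ : Cfsg.IrrCharacter G // χ ∈ B ∧ ¬ p ∣ Cfsg.charDegree (χ : G → ℂ) ∧ Cfsg.classInner (fun n : N => (χ : G → ℂ) n) (θ : N → ℂ) ≠ 0} = 0 ∨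
      2 ≤ Nat.card {χ : Cfsg.IrrCharacter G // χ ∈ B ∧ ¬ p ∣ Cfsg.charDegree (χ : G → ℂ) ∧ Cfsg.classInner (fun n : N => (χ : G → ℂ) n) (θ : N → ℂ) ≠ 0}) ∧
    (p ≤ 3 → p ∣ Nat.card {χ : Cfsg.IrrCharacter G // χ ∈ B ∧ ¬ p ∣ Cfsg.charDegree (χ : G → ℂ) ∧ Cfsg.classInner (fun n : N => (χ : G → ℂ) n) (θ : N → ℂ) ≠ 0}) := by
  classical
  have hp : p.Prime := Fact.out
  obtain ⟨x, hxP, hxN⟩ := SetLike.not_le_iff_exists.1 hPN
  obtain ⟨k, hk⟩ := (IsPGroup.iff_orderOf.1 P.isPGroup') ⟨x, hxP⟩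
  rw [← orderOf_coe] at hk
  have h1 := dvd_sum_sq hM hB {θ} hk hxN
  set S := (irrFin (B ∩ overSet N {θ})).filter (fun χ : IrrCharacter G => ¬ p ∣ charDegree (χ : G → ℂ)) with hS
  have h2 : p ∣ ∑ χ ∈ S, charDegree (χ : G → ℂ) ^ 2 := by
    rw [← Finset.sum_filter_add_sum_filter_not _ (fun χ : IrrCharacter G => ¬ p ∣ charDegree (χ : G → ℂ))] at h1
    refine (Nat.dvd_add_left (Finset.dvd_sum fun χ hχ => ?_)).1 h1
    exact (not_not.1 (Finset.mem_filter.1 hχ).2).trans (dvd_pow_self _ two_ne_zero)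
  have hc : Nat.card {χ : IrrCharacter G // χ ∈ B ∧ ¬ p ∣ charDegree (χ : G → ℂ) ∧
      classInner (fun n : N => (χ : G → ℂ) n) (θ : N → ℂ) ≠ 0} = S.card := by
    rw [hS, ← card_subtype_mem_and]
    refine Nat.card_congr (Equiv.subtypeEquivRight fun χ => ?_)
    simp only [Set.mem_inter_iff, mem_overSet, Set.mem_singleton_iff, exists_eq_left, over_iff]
    tauto
  rw [hc]
  have hS' : ∀ χ ∈ S, ¬ p ∣ charDegree (χ : G → ℂ) := fun χ hχ => (Finset.mem_filter.1 hχ).2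
  constructor
  · by_contra hcon
    have h3 : S.card = 1 := by omega
    obtain ⟨χ, hχ⟩ := Finset.card_eq_one.1 h3
    rw [hχ, Finset.sum_singleton] at h2
    exact hS' χ (by simp [hχ]) (hp.dvd_of_dvd_pow h2)
  · intro hp3
    have h4 : ∀ n : ℕ, ¬ p ∣ n → n ^ 2 ≡ 1 [MOD p] := by
      intro n hn
      have h2p := hp.two_le
      have hcop : n.Coprime p := (hp.coprime_iff_not_dvd.2 hn).symm
      have := Nat.ModEq.pow_totient hcop
      rw [Nat.totient_prime hp] at this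
      interval_cases p
      · simpa using this.pow 2
      · exact this
    have h5 : ∑ χ ∈ S, charDegree (χ : G → ℂ) ^ 2 ≡ ∑ _χ ∈ S, 1 [MOD p] :=
      Nat.ModEq.sum fun χ hχ => h4 _ (hS' χ hχ)
    rw [Finset.sum_const, smul_eq_mul, mul_one] at h5
    exact (h5.dvd_iff dvd_rfl).1 h2

end Cfsg.Agent.S4825
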