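import Cfsg.Statements.S4828
import Cfsg.Agent.Block.PairPrinc
import Cfsg.Agent.S0968
import Cfsg.Agent.S0969

set_option autoImplicit false
open Cfsg

namespace Cfsg.Agent.S4828

open Cfsg.Lib.Block Cfsg.Lib.Block.Pair Subgroup
open scoped MonoidAlgebra

/-- Let p be a prime, M a maximal ideal of the algebraic integers containing p, and (Q, e) a Brauer pair of the finite group G (Q a p-subgroup, e a block of C_G(Q)). Then (Q, e) is a maximal Brauer pair of some block of G if and only if e contains an irreducible character θ such that θ takes the value θ(1) at every element of Z(Q) = Q ∩ C_G(Q), the p-part of θ(1) times the p-part of the order of Z(Q) equals the p-part of the order of C_G(Q) (θ has defect zero as a character of C_G(Q)/Z(Q)), and every element of N_G(Q) of p-power order that stabilizes e lies in Q·C_G(Q) (the stabilizer of e in N_G(Q) has index prime to p over Q·C_G(Q)). -/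
theorem result {G : Type*} [Group G] [Finite G] (p : ℕ) [Fact p.Prime] (M : Ideal Cfsg.AlgInt) (hM : Cfsg.IsPModular p M) (Q : Subgroup G) (e : Set (Cfsg.IrrCharacter (Subgroup.centralizer (Q : Set G)))) (he : Cfsg.IsBrauerPair p M Q e) :
    (∃ B : Set (Cfsg.IrrCharacter G), Cfsg.IsMaximalBrauerPair p M B Q e) ↔
      ∃ θ ∈ e, (∀ z : Subgroup.centralizer (Q : Set G), (z : G) ∈ Q → (θ : Subgroup.centralizer (Q : Set G) → ℂ) z = (θ : Subgroup.centralizer (Q : Set G) → ℂ) 1) ∧
        (Cfsg.charDegree (θ : Subgroup.centralizer (Q : Set G) → ℂ)).factorization p + (Nat.card ↥(Q ⊓ Subgroup.centralizer (Q : Set G))).factorization p = (Nat.card (Subgroup.centralizer (Q : Set G))).factorization p ∧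
        (∀ g : G, g ∈ Subgroup.normalizer (Q : Set G) → Cfsg.StabilizesBlock (Subgroup.centralizer (Q : Set G)) e g → (∃ k : ℕ, orderOf g = p ^ k) → g ∈ Q ⊔ Subgroup.centralizer (Q : Set G)) := by
  have := charP_kM hM
  obtain ⟨hQ, he⟩ := he
  have hf := isBlk_hat hM he
  set Z := (Q ⊓ centralizer (Q : Set G)).subgroupOf (centralizer (Q : Set G)) with hZ
  have hZp : IsPGroup p Z := (hQ.to_le inf_le_left).comap_subtype
  have hZc : Z ≤ center _ := fun z hz => mem_center_iff.2 fun c =>
    Subtype.ext (mem_centralizer_iff.1 c.2 z hz.1).symm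
  have hidx : Z.index.factorization p + (Nat.card ↥(Q ⊓ centralizer (Q : Set G))).factorization p
      = (Nat.card (centralizer (Q : Set G))).factorization p := by
    rw [← Z.index_mul_card, Nat.factorization_mul index_ne_zero_of_finite Nat.card_pos.ne',
      Finsupp.add_apply, Nat.card_congr (subgroupOfEquivOfLe inf_le_right).toEquiv]
  constructor
  · rintro ⟨B, hB⟩
    have hm := isMax_of_isMaximalBrauerPair hM hB
    have hD := (isDefectGroup_subgroupOf_iff hM he inf_le_right).2
      (hm.isDefect_self (between_top_centralizer hf))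
    obtain ⟨⟨θ, ⟨hθ, h1⟩, -⟩, h2, -⟩ := S0968.result p M hM Z hZp
      (eq_top_iff.2 (le_sup_of_le_right fun c _ => mem_centralizer_iff.2 fun z hz =>
        (mem_center_iff.1 (hZc hz) c).symm)) e he hD
    refine ⟨θ, hθ, fun z hz => h1 z ⟨hz, z.2⟩, by rw [h2 θ hθ h1, hidx], ?_⟩
    rintro g hg hs ⟨k, hk⟩
    have h3 := hm.not_dvd_relIndex
    rw [top_inf_eq, top_inf_eq, sup_comm] at h3
    refine mem_of_pow_mem_of_not_dvd_relIndex (inf_le_left.trans fun x hx => mem_normalizer_sup hx
      (normalizer_le_normalizer_centralizer Q hx)) h3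
      ((normalizer_stabilizesBlock_iff hM he).1 ⟨hg, hs⟩) (n := k) ?_
    rw [← hk, pow_orderOf_eq_one]
    exact one_mem _
  · rintro ⟨θ, hθ, -, h2, h3⟩
    have hD := (S0969.result p M hM Z hZp hZc θ (by omega)).1
    rw [← block_eq_blockOf hM he hθ, isDefectGroup_subgroupOf_iff hM he inf_le_right] at hD
    obtain ⟨b, hb, hbf⟩ := hf.exists_isPrim_above (K := ⊤) le_rfl le_top hQ
    obtain ⟨B, hB, rfl⟩ := hb.exists_eq_eB hM
    refine ⟨B, (isMaximalBrauerPair_iff hM).2 ⟨he, hB, hbf, ?_⟩⟩
    by_contra hn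
    obtain ⟨R, h4, h5, h6, h7, h8⟩ := hb.exists_gt le_rfl top_le_normalizer_top le_top hQ hf
      (hbf.trans_ne hf.ne_zero) hn
    refine h4.not_ge (IsDefect.le_of_le_sup hf hQ (le_normalizer_top Q) (by rwa [top_inf_eq])
      (fun x hx => ?_) h6 h8)
    obtain ⟨h9, h10⟩ := (normalizer_stabilizesBlock_iff hM he).2 ⟨(h5 hx).2, h7 hx⟩
    rw [top_inf_eq]
    exact h3 x h9 h10 (exists_orderOf_eq_pow h6 hx)

end Cfsg.Agent.S4828
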