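import Cfsg.Statements.S4836
import Cfsg.Agent.Char.Camina

set_option autoImplicit false
open Cfsg

namespace Cfsg.Agent.S4836

/-- Let G be a finite group of order greater than 2 with an irreducible character χ that is nonzero on exactly two conjugacy classes. Then χ is faithful (it takes the value χ(1) only at the identity), it is the only faithful irreducible character of G, and it is the only irreducible character of G that is nonzero on exactly two conjugacy classes. -/
theorem result {G : Type*} [Group G] [Finite G] (hG : 2 < Nat.card G) (χ : Cfsg.IrrCharacter G) (hχ : Nat.card {C : ConjClasses G // ∃ g ∈ C.carrier, (χ : G → ℂ) g ≠ 0} = 2) :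
    (∀ g : G, (χ : G → ℂ) g = (χ : G → ℂ) 1 → g = 1) ∧
      (∀ ψ : Cfsg.IrrCharacter G, (∀ g : G, (ψ : G → ℂ) g = (ψ : G → ℂ) 1 → g = 1) → ψ = χ) ∧
      (∀ ψ : Cfsg.IrrCharacter G, Nat.card {C : ConjClasses G // ∃ g ∈ C.carrier, (ψ : G → ℂ) g ≠ 0} = 2 → ψ = χ) := by
  open Cfsg.Lib.Char in
  obtain ⟨N, hN⟩ := exists_isGagola hG χ.2 hχ
  have key : ∀ ψ : Cfsg.IrrCharacter G, charKer (ψ : G → ℂ) = ⊥ → ψ = χ := fun ψ hψ =>
    Subtype.ext (hN.eq_of_not_le ψ.2 (by rw [hψ, le_bot_iff]; exact hN.ne_bot))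
  refine ⟨fun g hg => ?_, fun ψ hψ => key ψ ?_, fun ψ hψ => ?_⟩
  · rw [← Subgroup.mem_bot, ← hN.ker]
    exact χ.2.mem_charKer_iff.2 hg
  · rw [eq_bot_iff]
    exact fun g hg => hψ g (apply_of_mem_charKer hg)
  · obtain ⟨M, hM⟩ := exists_isGagola hG ψ.2 hψ
    exact key ψ hM.ker

end Cfsg.Agent.S4836
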