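import Cfsg.Statements.S4839
import Cfsg.Agent.Char.Camina
import Cfsg.Agent.FT.BG3.T38
import Cfsg.Agent.Solv.FrobeniusGroup
import Cfsg.Agent.Solv.Cores
import Mathlib.GroupTheory.Transfer

set_option autoImplicit false
open Cfsg

namespace Cfsg.Agent.S4839

open Cfsg.Lib.Char

theorem le_of_coprime_index {G : Type*} [Group G] [Finite G] {p : ℕ} [hp : Fact p.Prime]
    {Q K : Subgroup G} [K.Normal] (hQ : IsPGroup p Q) (hK : ¬ p ∣ K.index) : Q ≤ K := by
  obtain ⟨k, hk⟩ := hQ.exists_card_eq
  have h1 : K.relIndex Q ∣ p ^ k := hk ▸ Subgroup.relIndex_dvd_card K Q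
  have h2 : K.relIndex Q ∣ K.index := Subgroup.relIndex_dvd_index_of_normal K Q
  rw [← Subgroup.relIndex_eq_one]
  exact Nat.eq_one_of_dvd_coprimes
    (Nat.Coprime.pow_left k ((Nat.Prime.coprime_iff_not_dvd hp.out).2 hK)) h1 h2

theorem sylow_two_normal.{u} (n : ℕ) : ∀ (G : Type u) [Group G] [Finite G], Nat.card G = n →
    ∀ (N : Subgroup G) [N.Normal], N ≠ ⊥ → IsPGroup 2 N →
    (∀ y : G, Odd (orderOf y) → y ≠ 1 → N ⊓ Subgroup.centralizer {y} = ⊥) →
    (∀ u : G, u * u = 1 → u ∈ N) → ∀ P : Sylow 2 G, (P : Subgroup G).Normal := by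
  induction n using Nat.strong_induction_on with
  | _ n ih =>
  intro G _ _ hn N hNn hN hN2 h1 h2 P
  by_cases hm : (P : Subgroup G).index = 1
  · rw [Subgroup.index_eq_one.1 hm]; infer_instance
  set m := (P : Subgroup G).index
  have hr : m.minFac.Prime := Nat.minFac_prime hm
  set r := m.minFac
  have : Fact r.Prime := ⟨hr⟩
  have hrm : r ∣ m := Nat.minFac_dvd m
  have hr2 : r ≠ 2 := fun h => P.not_dvd_index ((dvd_of_eq h.symm).trans hrm)
  have hro : Odd r := hr.odd_of_ne_two hr2
  obtain ⟨R⟩ : Nonempty (Sylow r G) := inferInstance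
  have hrG : r ∣ Nat.card G := hrm.trans (Subgroup.index_dvd_card _)
  have hRo : Odd (Nat.card R) := by
    obtain ⟨k, hk⟩ := R.2.exists_card_eq
    rw [hk]; exact hro.pow
  have hRy : ∀ y ∈ (R : Subgroup G), Odd (orderOf y) := fun y hy =>
    hRo.of_dvd_nat (Subgroup.orderOf_dvd_natCard _ hy)
  have hcyc : IsCyclic R := Lib.FT.odd_regular_pgroup_cyclic R.2 hRo hN
    (Subgroup.le_normalizer_of_normal) fun y hy hy1 => h1 y (hRy y hy) hy1
  have hR1 : (R : Subgroup G) ≠ ⊥ := R.ne_bot_of_dvd_card hrG
  let M := Subgroup.normalizer ((R : Subgroup G) : Set G)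
  have hMo : ¬ 2 ∣ Nat.card M := by
    intro h
    obtain ⟨u, hu⟩ := exists_prime_orderOf_dvd_card' 2 h
    have hu2 : (u : G) * u = 1 := by
      rw [← sq, ← Subgroup.coe_pow, ← hu, pow_orderOf_eq_one]; rfl
    have huN := h2 u hu2
    obtain ⟨⟨y, hy⟩, hy1⟩ := (Subgroup.ne_bot_iff_exists_ne_one).1 hR1
    have hy1' : y ≠ 1 := fun h => hy1 (Subtype.ext h)
    have hd : Disjoint N (R : Subgroup G) :=
      IsPGroup.disjoint_of_ne 2 r (Ne.symm hr2) _ _ hN2 R.2
    have hc : (u : G) * y * (u : G)⁻¹ * y⁻¹ = 1 := by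
      refine (Subgroup.disjoint_def.1 hd) ?_ ?_
      · have := N.mul_mem huN (hNn.conj_mem _ (N.inv_mem huN) y)
        simpa [mul_assoc] using this
      · exact (R : Subgroup G).mul_mem ((Subgroup.mem_normalizer_iff.1 u.2 y).1 hy)
          ((R : Subgroup G).inv_mem hy)
    have : (u : G) ∈ N ⊓ Subgroup.centralizer {y} := ⟨huN, by
      refine Subgroup.mem_centralizer_singleton_iff.2 ?_
      calc (u : G) * y = (u : G) * y * (u : G)⁻¹ * y⁻¹ * (y * u) := by group
        _ = _ := by rw [hc, one_mul]⟩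
    rw [h1 y (hRy y hy) hy1', Subgroup.mem_bot] at this
    have : u = 1 := Subtype.ext this
    rw [this, orderOf_one] at hu
    omega
  have hRM : (R : Subgroup G) ≤ M := Subgroup.le_normalizer
  have hmin : (Nat.card M).minFac = r := by
    have hrM : r ∣ Nat.card M := (R.dvd_card_of_dvd_card hrG).trans (Subgroup.card_dvd_of_le hRM)
    have hM1 : Nat.card M ≠ 1 := fun h => hr.ne_one (Nat.dvd_one.1 (h ▸ hrM))
    refine le_antisymm (Nat.minFac_le_of_dvd hr.two_le hrM) ?_
    have hq := Nat.minFac_prime hM1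
    refine Nat.minFac_le_of_dvd hq.two_le ?_
    have h3 : (Nat.card M).minFac ∣ Nat.card P * m := by
      rw [Subgroup.card_mul_index]
      exact (Nat.minFac_dvd _).trans (Subgroup.card_subgroup_dvd_card M)
    refine ((Nat.Prime.dvd_mul hq).1 h3).resolve_left fun h => ?_
    obtain ⟨k, hk⟩ := P.2.exists_card_eq
    rw [hk] at h
    have := (Nat.prime_dvd_prime_iff_eq hq Nat.prime_two).1 (hq.dvd_of_dvd_pow h)
    exact hMo (this ▸ Nat.minFac_dvd _)
  have hNC : Subgroup.normalizer ((R : Subgroup G) : Set G) ≤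
      Subgroup.centralizer ((R : Subgroup G) : Set G) := by
    have hc' : IsCyclic (R.subtype hRM) :=
      (Subgroup.subgroupOfEquivOfLe hRM).isCyclic.2 hcyc
    have h3 := IsCyclic.normalizer_le_centralizer hmin hc'
    intro g hg y hy
    have h4 : (⟨g, hg⟩ : M) ∈ Subgroup.normalizer
        (((R.subtype hRM : Sylow r M) : Subgroup M) : Set M) := by
      have : ((R.subtype hRM : Sylow r M) : Subgroup M).Normal :=
        Subgroup.normal_in_normalizer
      rw [Subgroup.normalizer_eq_top_iff.2 this]; trivial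
    exact congrArg Subtype.val (h3 h4 ⟨y, hRM hy⟩ hy)
  have hK := MonoidHom.ker_transferSylow_isComplement' R hNC
  set K := (MonoidHom.transferSylow R hNC).ker
  have hKi : ¬ 2 ∣ K.index := by
    rw [hK.symm.index_eq_card]; exact hRo.not_two_dvd_nat
  have hPK : (P : Subgroup G) ≤ K := le_of_coprime_index P.2 hKi
  have hNK : N ≤ K := le_of_coprime_index hN2 hKi
  have hlt : Nat.card K < n := by
    rw [← hn, ← hK.card_mul_card]
    have : 1 < Nat.card R := (Subgroup.one_lt_card_iff_ne_bot _).2 hR1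
    nlinarith [Nat.card_pos (α := K)]
  have h5 := ih _ hlt K rfl (N.subgroupOf K) (by
      rwa [Ne, Subgroup.subgroupOf_eq_bot, disjoint_iff, inf_eq_left.2 hNK])
    (hN2.comap_subtype) (fun y hy hy1 => by
      rw [eq_bot_iff]
      intro z hz
      have : (z : G) ∈ N ⊓ Subgroup.centralizer {(y : G)} := ⟨hz.1,
        Subgroup.mem_centralizer_singleton_iff.2
          (congrArg Subtype.val (Subgroup.mem_centralizer_singleton_iff.1 hz.2))⟩
      rw [h1 y (by simpa using hy) (fun h => hy1 (Subtype.ext h)), Subgroup.mem_bot] at this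
      exact Subtype.ext this)
    (fun u hu => h2 u (congrArg Subtype.val hu)) (P.subtype hPK)
  have h6 := Sylow.characteristic_of_normal (P.subtype hPK) h5
  have h7 : (((P.subtype hPK : Sylow 2 K) : Subgroup K).map K.subtype).Normal := inferInstance
  rwa [Sylow.coe_subtype, Subgroup.subgroupOf_map_subtype, inf_eq_left.2 hPK] at h7

/-- Let G be a finite group of order greater than 2 with an irreducible character χ nonzero on exactly two conjugacy classes, and let N be the normal p-subgroup of elements where χ is nonzero. Then N is the whole p-core O_p(G) if and only if G is a doubly transitive Frobenius group with kernel N: G has a Frobenius complement H whose Frobenius kernel is N and whose order is one less than that of N. -/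
theorem result {G : Type*} [Group G] [Finite G] (hG : 2 < Nat.card G) (χ : Cfsg.IrrCharacter G) (hχ : Nat.card {C : ConjClasses G // ∃ g ∈ C.carrier, (χ : G → ℂ) g ≠ 0} = 2) (p : ℕ) [Fact p.Prime] (N : Subgroup G) [N.Normal] (hN : ∀ g : G, g ∈ N ↔ (χ : G → ℂ) g ≠ 0) (hNp : IsPGroup p N) (hN1 : N ≠ ⊥) :
    N = Cfsg.pCore p G ↔ ∃ H : Subgroup G, Cfsg.IsFrobeniusComplement H ∧ Cfsg.frobeniusKernel H = (N : Set G) ∧ Nat.card H + 1 = Nat.card N := by
  rename_i hp hNn
  have hg := isGagola_of_mem_iff hG χ.2 hχ hN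
  constructor
  · intro hO
    have hCN : ∀ y : G, (∀ n ∈ N, n * y = y * n) → y ∈ N := fun y hy =>
      hO ▸ Lib.Solv.le_pCore inferInstance (hg.isPGroup_centralizer_coe hNp) hy
    have hpel : ∀ y : G, ∀ n ∈ N, n ≠ 1 → n * y = y * n → ∃ k, y ^ p ^ k = 1 := by
      intro y n hn hn1 h
      obtain ⟨k, hk⟩ := hg.isPGroup_centralizer hNp hn hn1
        ⟨y, Subgroup.mem_centralizer_singleton_iff.2 h.symm⟩
      exact ⟨k, congrArg Subtype.val hk⟩
    have hfpf' : ∀ y : G, ¬ p ∣ orderOf y → y ≠ 1 → N ⊓ Subgroup.centralizer {y} = ⊥ := by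
      intro y hy hy1
      rw [eq_bot_iff]
      intro n hn
      by_contra hn1
      obtain ⟨k, hk⟩ := hpel y n hn.1 hn1 (Subgroup.mem_centralizer_singleton_iff.1 hn.2)
      obtain ⟨j, -, hj⟩ := (Nat.dvd_prime_pow hp.out).1 (orderOf_dvd_of_pow_eq_one hk)
      rcases j with _ | j
      · exact hy1 (orderOf_eq_one_iff.1 hj)
      · exact hy (hj ▸ dvd_pow_self p (Nat.succ_ne_zero j))
    obtain ⟨⟨z, hz⟩, hz1⟩ := (Subgroup.ne_bot_iff_exists_ne_one).1 hN1
    have hz1' : z ≠ 1 := fun h => hz1 (Subtype.ext h)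
    have hidx := hg.index_centralizer hz hz1'
    have hfpf : ∀ y, y ∉ N → N ⊓ Subgroup.centralizer {y} = ⊥ := by
      by_cases hp2 : p = 2
      · subst hp2
        obtain ⟨P⟩ : Nonempty (Sylow 2 G) := inferInstance
        have hP := sylow_two_normal _ G rfl N hN1 hNp
          (fun y hy => hfpf' y hy.not_two_dvd_nat) (fun u hu => by
            by_contra huN
            refine huN (hCN u fun n hn => ?_)
            obtain ⟨g, hg'⟩ := isConj_iff.1 (hg.isConj_mul huN hn)
            have h1 : u * n * (u * n) = 1 := by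
              rw [← hg']
              calc g * u * g⁻¹ * (g * u * g⁻¹) = g * (u * u) * g⁻¹ := by group
                _ = 1 := by rw [hu]; group
            obtain ⟨q, hq, hq'⟩ := hg.exists_prime
            have h2 : n * n = 1 := by
              obtain ⟨k, hk⟩ := hNp ⟨z, hz⟩
              have h3 : orderOf z = q := orderOf_eq_prime (hp := ⟨hq⟩) (hq' z hz) hz1'
              have h4 : q ∣ 2 ^ k := h3 ▸ orderOf_dvd_of_pow_eq_one (congrArg Subtype.val hk)
              have h5 := (Nat.prime_dvd_prime_iff_eq hq Nat.prime_two).1 (hq.dvd_of_dvd_pow h4)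
              rw [← sq, ← h5]; exact hq' n hn
            calc n * u = u * u * n * u * (n * n) := by rw [hu, h2]; group
              _ = u * (u * n * (u * n)) * n := by group
              _ = u * n := by rw [h1, mul_one]) P
        intro y hy
        rw [eq_bot_iff]
        intro n hn
        by_contra hn1
        obtain ⟨k, hk⟩ := hpel y n hn.1 hn1 (Subgroup.mem_centralizer_singleton_iff.1 hn.2)
        refine hy ?_
        rw [hO, Lib.Solv.pCore_eq_of_normal_sylow P hP]
        have h1 : IsPGroup 2 (Subgroup.zpowers y) := by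
          rw [IsPGroup.iff_card, Nat.card_zpowers]
          obtain ⟨j, -, hj⟩ := (Nat.dvd_prime_pow hp.out).1 (orderOf_dvd_of_pow_eq_one hk)
          exact ⟨j, hj⟩
        exact le_of_coprime_index h1 P.not_dvd_index (Subgroup.mem_zpowers y)
      · have hodd : Odd (Nat.card N) := by
          obtain ⟨k, hk⟩ := hNp.exists_card_eq
          rw [hk]; exact (hp.out.odd_of_ne_two hp2).pow
        have h2 : 2 ∣ Nat.card G := by
          refine Dvd.dvd.trans ?_ (Subgroup.index_dvd_card (Subgroup.centralizer {z}))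
          rw [← hidx] at hodd
          exact (Nat.even_iff.2 (by rw [Nat.odd_iff] at hodd; omega)).two_dvd
        obtain ⟨t, ht⟩ := exists_prime_orderOf_dvd_card' 2 h2
        have ht1 : t ≠ 1 := fun h => by rw [h, orderOf_one] at ht; omega
        have ht2 : t * t = 1 := by rw [← sq, ← ht, pow_orderOf_eq_one]
        have hinv : ∀ s : G, orderOf s = 2 → ∀ n ∈ N, s * n * s⁻¹ = n⁻¹ := by
          intro s hs n hn
          have hs1 : s ≠ 1 := fun h => by rw [h, orderOf_one] at hs; omega
          have hs2 : s * s = 1 := by rw [← sq, ← hs, pow_orderOf_eq_one]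
          have h3 := hfpf' s (by
            rw [hs]; exact fun h => hp2 ((Nat.prime_dvd_prime_iff_eq hp.out Nat.prime_two).1 h)) hs1
          have h4 : s * n * s⁻¹ * n ∈ N ⊓ Subgroup.centralizer {s} := by
            refine ⟨N.mul_mem (hNn.conj_mem n hn s) hn,
              Subgroup.mem_centralizer_singleton_iff.2 ?_⟩
            have h5 := hg.comm _ (hNn.conj_mem n hn s) n hn
            calc s * n * s⁻¹ * n * s = n * (s * n * s⁻¹) * s := by rw [h5]
              _ = (s * s) * n * (s * s)⁻¹ * s * n := by rw [hs2]; group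
              _ = s * (s * n * s⁻¹ * (s⁻¹ * s) * n) := by group
              _ = _ := by group
          rw [h3, Subgroup.mem_bot] at h4
          exact eq_inv_of_mul_eq_one_left h4
        have hdec : ∀ g : G, ∃ m ∈ N, (m⁻¹ * g) * t = t * (m⁻¹ * g) := by
          intro g
          have h3 : g * t * g⁻¹ * t⁻¹ ∈ N := hCN _ fun n hn => by
            have h4 := hinv t ht n hn
            have h5 := hinv (g * t * g⁻¹) (by
              rw [← ht]; exact (MulAut.conj g).orderOf_eq t) n⁻¹ (N.inv_mem hn)
            have h6 : t⁻¹ * n * t = n⁻¹ := by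
              have : t⁻¹ = t := inv_eq_of_mul_eq_one_right ht2
              rw [this] at h4 ⊢; exact h4
            calc n * (g * t * g⁻¹ * t⁻¹) = (g * t * g⁻¹ * n⁻¹ * (g * t * g⁻¹)⁻¹) * (g * t * g⁻¹ * t⁻¹) := by
                  rw [h5, inv_inv]
              _ = g * t * g⁻¹ * (n⁻¹ * t⁻¹) := by group
              _ = g * t * g⁻¹ * (t⁻¹ * n * t * t⁻¹) := by rw [h6]
              _ = _ := by group
          obtain ⟨⟨m, hm⟩, hm2⟩ := (hNp.powEquiv' (n := 2) (fun h => hp2
            ((Nat.prime_dvd_prime_iff_eq hp.out Nat.prime_two).1 h))).surjective ⟨_, h3⟩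
          have hm3 : m ^ 2 = g * t * g⁻¹ * t⁻¹ := congrArg Subtype.val hm2
          refine ⟨m, hm, ?_⟩
          have h4 := hinv t ht m⁻¹ (N.inv_mem hm)
          calc m⁻¹ * g * t = m⁻¹ * (g * t * g⁻¹ * t⁻¹) * t * g := by group
            _ = m⁻¹⁻¹ * t * g := by rw [← hm3]; group
            _ = _ := by rw [← h4]; group
        have hHN : ∀ x ∈ N, x * t = t * x → x = 1 := by
          intro x hx h
          have h3 := hfpf' t (by
            rw [ht]; exact fun h => hp2 ((Nat.prime_dvd_prime_iff_eq hp.out Nat.prime_two).1 h)) ht1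
          have : x ∈ N ⊓ Subgroup.centralizer {t} :=
            ⟨hx, Subgroup.mem_centralizer_singleton_iff.2 h⟩
          rwa [h3, Subgroup.mem_bot] at this
        intro y hy
        obtain ⟨m, hm, hu⟩ := hdec y
        set u := m⁻¹ * y with hudef
        have huN : u ∉ N := fun h => hy (by simpa [hudef] using N.mul_mem hm h)
        let f : N → N := fun a => ⟨u⁻¹ * a * u * (a : G)⁻¹,
          N.mul_mem (by simpa using hNn.conj_mem _ a.2 u⁻¹) (N.inv_mem a.2)⟩
        have hf : Function.Surjective f := by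
          intro n
          obtain ⟨g, hg'⟩ := isConj_iff.1 (hg.isConj_mul huN n.2)
          obtain ⟨a, ha, hh⟩ := hdec g
          set h := a⁻¹ * g with hhdef
          have h3 : u⁻¹ * (h * u * h⁻¹) = 1 := by
            refine hHN _ ?_ ?_
            · have : u⁻¹ * (h * u * h⁻¹) = (u⁻¹ * a⁻¹ * u⁻¹⁻¹) * n * a := by
                rw [hhdef]
                calc u⁻¹ * (a⁻¹ * g * u * (a⁻¹ * g)⁻¹) = u⁻¹ * a⁻¹ * (g * u * g⁻¹) * a := by group
                  _ = _ := by rw [hg']; group
              rw [this]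
              exact N.mul_mem (N.mul_mem (hNn.conj_mem _ (N.inv_mem ha) _) n.2) ha
            · have c1 : Commute u t := hu
              have c2 : Commute h t := hh
              exact (c1.inv_left.mul_left ((c2.mul_left c1).mul_left c2.inv_left)).eq
          refine ⟨⟨a, ha⟩, Subtype.ext ?_⟩
          have h4 : h * u * h⁻¹ = u := (inv_mul_eq_one.1 h3).symm
          calc u⁻¹ * a * u * a⁻¹ = u⁻¹ * a * (h * u * h⁻¹) * a⁻¹ := by rw [h4]
            _ = u⁻¹ * (g * u * g⁻¹) := by rw [hhdef]; group
            _ = n := by rw [hg']; group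
        have hf' := Finite.injective_iff_surjective.2 hf
        rw [eq_bot_iff]
        intro n hn
        have h3 : f ⟨n, hn.1⟩ = f 1 := by
          apply Subtype.ext
          have h4 : n * y = y * n := Subgroup.mem_centralizer_singleton_iff.1 hn.2
          have h5 := hg.comm n hn.1 m hm
          have c1 : Commute n y := h4
          have c2 : Commute n m := h5
          have c3 : n * u = u * n := (c2.inv_right.mul_right c1).eq
          change u⁻¹ * n * u * n⁻¹ = u⁻¹ * 1 * u * 1⁻¹
          rw [mul_assoc u⁻¹, c3]; group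
        exact congrArg Subtype.val (hf' h3)
    have hC : Subgroup.centralizer {z} = N := by
      refine le_antisymm (fun y hy => ?_) fun y hy =>
        Subgroup.mem_centralizer_singleton_iff.2 (hg.comm y hy z hz)
      by_contra hyN
      have : z ∈ N ⊓ Subgroup.centralizer {y} := ⟨hz, Subgroup.mem_centralizer_singleton_iff.2
        (Subgroup.mem_centralizer_singleton_iff.1 hy).symm⟩
      rw [hfpf y hyN] at this
      exact hz1' this
    rw [hC] at hidx
    have hNt : N ≠ ⊤ := by
      rintro rfl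
      rw [Subgroup.index_top, Subgroup.card_top] at hidx
      omega
    obtain ⟨H, h1, h2, h3⟩ := Lib.Solv.Fpf.exists_complement_of_fpf hN1 hNt hfpf
    exact ⟨H, h2, h3, by rw [← h1.symm.index_eq_card, hidx]⟩
  · rintro ⟨H, h1, h2, h3⟩
    obtain ⟨-, -, h4, -⟩ := Lib.Solv.Fpf.of_coe_eq h1 h2
    refine le_antisymm (Lib.Solv.le_pCore hNn hNp)
      (le_of_coprime_index (Lib.Solv.pCore_isPGroup p G) fun h => ?_)
    rw [h4.symm.index_eq_card] at h
    have h5 := hg.dvd_card hNp
    rw [← h3] at h5
    exact hp.out.ne_one (Nat.dvd_one.1 ((Nat.dvd_add_right h).1 h5))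

end Cfsg.Agent.S4839
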