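import Cfsg.Statements.S4840
import Cfsg.Agent.Char.GagolaSolv
import Cfsg.Agent.Trans.AutomizerOrder

set_option autoImplicit false
open Cfsg

namespace Cfsg.Agent.S4840

/-- Let G be a finite solvable group of order greater than 2 with an irreducible character nonzero on exactly two conjugacy classes. Then there is exactly one prime p with O_p(G) ≠ 1, and the quotient G/O_p(G) has a normal p-complement and commutative Sylow p-subgroups. -/
theorem result {G : Type*} [Group G] [Finite G] [hs : Group.IsSolvable G] (hG : 2 < Nat.card G) (χ : Cfsg.IrrCharacter G) (hχ : Nat.card {C : ConjClasses G // ∃ g ∈ C.carrier, (χ : G → ℂ) g ≠ 0} = 2) :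
    ∃ p : ℕ, p.Prime ∧ (∀ q : ℕ, q.Prime → (Cfsg.pCore q G ≠ ⊥ ↔ q = p)) ∧
      Cfsg.HasNormalPComplement p (G ⧸ Cfsg.pCore p G) ∧ ∀ Q : Sylow p (G ⧸ Cfsg.pCore p G), IsMulCommutative (Q : Subgroup (G ⧸ Cfsg.pCore p G)) := by
  open Cfsg.Lib.Char Cfsg.Lib.Solv in
  obtain ⟨N, h⟩ := exists_isGagola hG χ.2 hχ
  obtain ⟨p, hp, hpN⟩ := h.exists_prime
  have := Fact.mk hp
  have hN : IsPGroup p N := fun x => ⟨1, Subtype.ext (by simpa using hpN x x.2)⟩
  have h1 := h.not_dvd_card_commutator_quotient hN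
  have key : ∀ Q : Sylow p (G ⧸ Cfsg.pCore p G),
      Subgroup.normalizer ((Q : Subgroup (G ⧸ Cfsg.pCore p G)) : Set (G ⧸ Cfsg.pCore p G)) ≤
        Subgroup.centralizer ((Q : Subgroup (G ⧸ Cfsg.pCore p G)) : Set (G ⧸ Cfsg.pCore p G)) := by
    intro Q g hg x hx
    obtain ⟨k, hk⟩ := IsPGroup.iff_card.1 Q.isPGroup'
    have h2 : Disjoint (Q : Subgroup (G ⧸ Cfsg.pCore p G)) (commutator (G ⧸ Cfsg.pCore p G)) := by
      rw [disjoint_iff]
      apply Subgroup.inf_eq_bot_of_coprime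
      rw [hk]
      exact (hp.coprime_iff_not_dvd.2 h1).pow_left k
    have h3 : g * x * g⁻¹ * x⁻¹ = 1 := Subgroup.disjoint_def.1 h2
      (Subgroup.mul_mem _ ((Subgroup.mem_normalizer_iff.1 hg x).1 hx) (Subgroup.inv_mem _ hx))
      (Subgroup.commutator_mem_commutator (Subgroup.mem_top g) (Subgroup.mem_top x))
    rw [mul_inv_eq_one, mul_inv_eq_iff_eq_mul] at h3
    exact h3.symm
  refine ⟨p, hp, fun q hq => ⟨fun h2 => ?_, ?_⟩, ?_, fun Q => ⟨⟨fun a b => ?_⟩⟩⟩
  · by_contra hne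
    have := Fact.mk hq
    have h3 := h.le_of_ne_bot h2
    have h4 := IsPGroup.disjoint_of_ne q p hne _ _ (pCore_isPGroup q G) hN
    exact h.ne_bot (h4.eq_bot_of_ge h3)
  · rintro rfl h2
    have h3 := le_pCore h.normal hN
    rw [h2, le_bot_iff] at h3
    exact h.ne_bot h3
  · obtain ⟨Q⟩ : Nonempty (Sylow p (G ⧸ Cfsg.pCore p G)) := inferInstance
    exact Cfsg.Lib.Trans.hasNormalPComplement_of_normalizer_le_centralizer Q (key Q)
  · exact Subtype.ext (key Q (Subgroup.le_normalizer b.2) a a.2)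

end Cfsg.Agent.S4840
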