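import Cfsg.Statements.S4843
import Cfsg.Agent.Char.CharCenter
import Cfsg.Agent.Char.Galois
import Cfsg.Agent.Solv.Fitting

set_option autoImplicit false
open Cfsg

namespace Cfsg.Agent.S4843

open Cfsg.Lib.Char ComplexConjugate
open scoped commutatorElement

theorem sum_smul_eq_zero {G V : Type*} [Group G] [Fintype G] [AddCommGroup V] [Module ℂ V]
    [FiniteDimensional ℂ V] (W : Representation ℂ G V) {ψ : G → ℂ} (hψ : IsIrrCharacter G ψ)
    (h : classInner W.character ψ = 0) : ∑ g, conj (ψ g) • W g = 0 := by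
  have hψ' : IsIrrCharacter G (fun g => conj (ψ g)) := hψ.conj
  have h1 : ψ 1 ≠ 0 := hψ.apply_one_ne_zero
  have hc : conj (ψ 1) = ψ 1 := by rw [← hψ.isCharacter.apply_inv, inv_one]
  have hG := card_ne_zero G
  have hconv : ∀ x, ∑ g, conj (ψ g⁻¹) * conj (ψ (g * x)) = Nat.card G * conj (ψ x) / ψ 1 := by
    intro x
    have := hψ'.sum_mul_apply_mul hψ.isClassFunction x
    simp only [hψ.isCharacter.apply_inv, Complex.conj_conj]
    rw [this, ← card_mul_classInner, (isIrrCharacter_iff_classInner_self.1 hψ).2, mul_one, hc]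
  set T := ∑ g, conj (ψ g) • W g with hT
  have h2 : T * T = (Nat.card G / ψ 1) • T := by
    have e1 : T = ∑ g, conj (ψ g⁻¹) • W g⁻¹ :=
      (Equiv.sum_comp (Equiv.inv G) fun g => conj (ψ g) • W g).symm
    conv_lhs => rw [e1]
    rw [Finset.sum_mul]
    have e2 : ∀ g : G, (conj (ψ g⁻¹) • W g⁻¹) * (∑ g, conj (ψ g⁻¹) • W g⁻¹) =
        ∑ x, (conj (ψ g⁻¹) * conj (ψ (g * x))) • W x := fun g => by
      rw [← e1, hT, ← Equiv.sum_comp (Equiv.mulLeft g), Finset.mul_sum]
      refine Finset.sum_congr rfl fun x _ => ?_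
      rw [smul_mul_smul_comm, ← map_mul W, Equiv.coe_mulLeft, inv_mul_cancel_left]
    rw [Finset.sum_congr rfl fun g _ => e2 g, Finset.sum_comm, hT, Finset.smul_sum]
    refine Finset.sum_congr rfl fun x _ => ?_
    rw [← Finset.sum_smul, hconv, smul_smul]
    congr 1
    ring
  have h3 : IsIdempotentElem ((ψ 1 / Nat.card G) • T) := by
    unfold IsIdempotentElem
    rw [smul_mul_smul_comm, h2, smul_smul]
    congr 1
    field_simp
  have h4 : LinearMap.trace ℂ V T = 0 := by
    rw [hT, map_sum, ← mul_zero (Nat.card G : ℂ), ← h, card_mul_classInner]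
    refine Finset.sum_congr rfl fun g _ => ?_
    rw [map_smul, smul_eq_mul, mul_comm]
    rfl
  have h5 := LinearMap.IsIdempotentElem.eq_zero_of_trace_eq_zero h3 (by
    rw [map_smul, h4, smul_zero])
  exact (smul_eq_zero.1 h5).resolve_left (div_ne_zero h1 hG)

theorem sum_comm_eq_zero {G : Type*} [Group G] [Fintype G] {α ψ : G → ℂ} (hα : IsCharacter G α)
    (hψ : IsIrrCharacter G ψ) (h : classInner (fun g => α g * conj (α g)) ψ = 0) (m : G) :
    ∑ g, α (g * m * g⁻¹ * m⁻¹) * conj (ψ g) = 0 := by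
  have hi := hα.apply_inv
  obtain ⟨n, ρ, rfl⟩ := hα
  have h1 := sum_smul_eq_zero (ρ.linHom ρ) hψ (by
    rw [← h]
    congr 1
    ext g
    rw [Representation.char_linHom, hi, mul_comm])
  have h2 := congrArg (fun T => LinearMap.trace ℂ _ (T (ρ m) * ρ m⁻¹)) h1
  simp only [LinearMap.sum_apply, LinearMap.smul_apply, Finset.sum_mul, smul_mul_assoc, map_sum,
    map_smul, LinearMap.zero_apply, zero_mul, map_zero, smul_eq_mul] at h2
  rw [← h2]
  refine Finset.sum_congr rfl fun g _ => ?_
  rw [mul_comm, Representation.linHom_apply]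
  congr 1
  simp only [Representation.character, map_mul]
  rfl

theorem exists_irr_ne {G : Type*} [Group G] [Fintype G] {χ : G → ℂ} (hχ : IsCharacter G χ)
    (hf : ∀ g, χ g = χ 1 → g = 1) {m : G} (hm : m ∉ Subgroup.center G) :
    ∃ ψ, IsIrrCharacter G ψ ∧ ψ ≠ (fun _ => 1) ∧
      ∑ g, χ (g * m * g⁻¹ * m⁻¹) * conj (ψ g) ≠ 0 := by
  by_contra hc
  push Not at hc
  let F : G → ℂ := fun g => ∑ x, χ ((x * g * x⁻¹) * m * (x * g * x⁻¹)⁻¹ * m⁻¹)
  have hF : IsClassFunction G F := fun g y => by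
    simp only [F]
    rw [← Equiv.sum_comp (Equiv.mulRight y⁻¹)]
    refine Finset.sum_congr rfl fun x _ => ?_
    congr 1
    simp only [Equiv.coe_mulRight]
    group
  have h1 : ∀ ψ, IsIrrCharacter G ψ → ψ ≠ (fun _ => 1) → classInner F ψ = 0 := fun ψ hψ hne => by
    simp only [classInner, F, Finset.sum_mul]
    rw [Finset.sum_comm]
    refine mul_eq_zero_of_right _ (Finset.sum_eq_zero fun x _ => ?_)
    refine Eq.trans ?_ ((Equiv.sum_comp (MulAut.conj x).toEquiv _).trans (hc ψ hψ hne))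
    refine Finset.sum_congr rfl fun g _ => ?_
    simp only [MulEquiv.toEquiv_eq_coe, EquivLike.coe_coe, MulAut.conj_apply]
    rw [hψ.isClassFunction.apply_conj]
  have h2 : F = classInner F (fun _ => 1) • fun _ => 1 :=
    hF.ext_classInner_irr ((isClassFunction_const 1).smul _) fun ψ hψ => by
      rw [classInner_smul_left]
      by_cases e : ψ = fun _ => 1
      · rw [e, classInner_one_one, mul_one]
      · have := classInner_irr ⟨_, isIrrCharacter_one⟩ ⟨ψ, hψ⟩
        rw [if_neg fun h => e (congrArg Subtype.val h).symm] at this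
        rw [h1 ψ hψ e, this, mul_zero]
  obtain ⟨g, hg⟩ := not_forall.1 (mt Subgroup.mem_center_iff.2 hm)
  have h3 : F g = F 1 := by rw [h2]; rfl
  have h4 : (F g).re < (F 1).re := by
    simp only [F, Complex.re_sum]
    refine Finset.sum_lt_sum (fun x _ => ?_) ⟨1, Finset.mem_univ _, ?_⟩
    · simpa using hχ.re_le_re _
    · have := hχ.re_lt_re_of_ne (g := g * m * g⁻¹ * m⁻¹) fun e => hg (by
        have := hf _ e
        rwa [mul_inv_eq_one, mul_inv_eq_iff_eq_mul] at this)
      simpa using this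
  exact h4.ne (by rw [h3])

theorem exists_normal {G : Type*} [Group G] [Finite G] (h : ¬ fittingSubgroup G ≤ Subgroup.center G) :
    ∃ M : Subgroup G, M.Normal ∧ ¬ M ≤ Subgroup.center G ∧ ⁅M, M⁆ ≤ Subgroup.center G ∧
      (M ≤ Subgroup.centralizer M ∨ M ⊓ Subgroup.centralizer M ≤ Subgroup.center G) := by
  obtain ⟨M, ⟨hN, hF, hZ⟩, hmin⟩ := exists_minimal_of_wellFoundedLT
    (fun M : Subgroup G => M.Normal ∧ M ≤ fittingSubgroup G ∧ ¬ M ≤ Subgroup.center G)
    ⟨_, Lib.Solv.fitting_normal G, le_rfl, h⟩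
  have := Lib.Solv.isNilpotent_of_le_fitting hF
  have key : ∀ K : Subgroup G, K.Normal → K ≤ M → K ≤ Subgroup.center G ∨ M ≤ K := fun K hK hle => by
    by_cases e : K ≤ Subgroup.center G
    · exact Or.inl e
    · exact Or.inr (hmin ⟨hK, hle.trans hF, e⟩ hle)
  refine ⟨M, hN, hZ, (key _ inferInstance (Subgroup.commutator_le_left _ _)).resolve_right
    fun hle => ?_, ?_⟩
  · have hne : Nontrivial M := (Subgroup.nontrivial_iff_ne_bot M).2 fun e => hZ (e ▸ bot_le)
    refine (Group.IsSolvable.commutator_lt_top_of_nontrivial M).not_ge fun x _ => ?_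
    rw [← Subgroup.map_subtype_commutator] at hle
    obtain ⟨y, hy, e⟩ := hle x.2
    exact (Subtype.ext e : y = x) ▸ hy
  · rcases key (M ⊓ Subgroup.centralizer M) inferInstance inf_le_left with e | e
    · exact Or.inr e
    · exact Or.inl (e.trans inf_le_right)

/-- Let G be a finite group with a faithful irreducible character χ (taking the value χ(1) only at the identity) and let k be prime to the order of G, so that g ↦ χ(g^k) is a Galois conjugate of χ. If the pointwise product g ↦ χ(g)·χ(g^k) is again an irreducible character, then the Fitting subgroup of G equals its centre. -/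
theorem result {G : Type*} [Group G] [Finite G] (χ : Cfsg.IrrCharacter G) (hfaith : ∀ g : G, (χ : G → ℂ) g = (χ : G → ℂ) 1 → g = 1) (k : ℕ) (hk : Nat.Coprime k (Nat.card G)) (hirr : Cfsg.IsIrrCharacter G (fun g => (χ : G → ℂ) g * (χ : G → ℂ) (g ^ k))) : Cfsg.fittingSubgroup G = Subgroup.center G := by
  classical
  have := Fintype.ofFinite G
  obtain ⟨χ, hχ⟩ := χ
  refine le_antisymm (by_contra fun hne => ?_) (Lib.Solv.center_le_fitting G)
  obtain ⟨M, hN, hZ, hM', hM⟩ := exists_normal hne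
  have hpow : ∀ x : G, x ^ k ∈ Subgroup.center G → x ∈ Subgroup.center G := fun x hx =>
    (Subgroup.zpowers_le.2 hx) (mem_zpowers_pow_iff.2
      (hk.coprime_dvd_right (orderOf_dvd_natCard x)))
  have hker : charKer χ = ⊥ := eq_bot_iff.2 fun g hg => hfaith g (apply_of_mem_charKer hg)
  obtain ⟨n, hn, hnZ⟩ := SetLike.not_le_iff_exists.1 hZ
  have key : ∀ g : G, χ ((g * n * g⁻¹ * n⁻¹) ^ k) = χ (g * n ^ k * g⁻¹ * (n ^ k)⁻¹) := by
    intro g
    have ha : g * n * g⁻¹ ∈ M := hN.conj_mem n hn g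
    rw [← conj_pow, ← inv_pow]
    by_cases hc : Commute (g * n * g⁻¹) n⁻¹
    · rw [hc.mul_pow]
    have hM2 := hM.resolve_left fun h => hc (h (M.inv_mem hn) _ ha)
    have hv : ∀ x ∈ M, x ∉ Subgroup.center G → χ x = 0 := fun x hx hxZ => by
      have : x ∉ Subgroup.centralizer (M : Set G) := fun h => hxZ (hM2 ⟨hx, h⟩)
      obtain ⟨y, hy⟩ := not_forall.1 this
      obtain ⟨hyM, hy⟩ := Classical.not_imp.1 hy
      refine hχ.isClassFunction.apply_eq_zero_of_commutator (x := y)
        (hχ.center_le_charCenter (hM' (Subgroup.commutator_mem_commutator hyM hx))) ?_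
      rw [hker, Subgroup.mem_bot, commutatorElement_eq_one_iff_mul_comm]
      exact hy
    have hcZ : g * n * g⁻¹ * n⁻¹ ∉ Subgroup.center G := fun h => hc (by
      have := Subgroup.mem_center_iff.1 h n⁻¹
      rw [← mul_assoc] at this
      exact (mul_right_cancel this).symm)
    rw [hv _ (M.pow_mem (M.mul_mem ha (M.inv_mem hn)) k) (mt (hpow _) hcZ),
      hv _ (M.mul_mem (M.pow_mem ha k) (M.pow_mem (M.inv_mem hn) k)) fun h => hcZ (hpow _ ?_)]
    have hq : Commute (QuotientGroup.mk' (Subgroup.center G) (g * n * g⁻¹))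
        (QuotientGroup.mk' (Subgroup.center G) n⁻¹) := by
      rw [← commutatorElement_eq_one_iff_commute, ← map_commutatorElement, QuotientGroup.mk'_apply,
        QuotientGroup.eq_one_iff]
      exact hM' (Subgroup.commutator_mem_commutator ha (M.inv_mem hn))
    rw [← QuotientGroup.eq_one_iff, ← QuotientGroup.mk'_apply] at h ⊢
    rwa [map_pow, map_mul, hq.mul_pow, ← map_pow, ← map_pow, ← map_mul]
  obtain ⟨ψ, hψ, hψ1, hs⟩ := exists_irr_ne hχ.isCharacter hfaith (mt (hpow n) hnZ)
  have hβ := hχ.comp_pow hk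
  have a1 : classInner (fun g => χ g * conj (χ g)) ψ ≠ 0 :=
    fun h => hs (sum_comm_eq_zero hχ.isCharacter hψ h _)
  have a2 : classInner (fun g => χ (g ^ k) * conj (χ (g ^ k))) ψ ≠ 0 := fun h => hs (by
    have := sum_comm_eq_zero hβ.isCharacter hψ h n
    simpa only [key] using this)
  have b : ∀ α : G → ℂ, IsIrrCharacter G α →
      classInner (fun g => α g * conj (α g)) (fun _ => 1) ≠ 0 := fun α hα => by
    have := (isIrrCharacter_iff_classInner_self.1 hα).2
    simp only [classInner, map_one, mul_one] at this ⊢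
    rw [this]
    exact one_ne_zero
  have c1 : IsCharacter G (fun g => χ g * conj (χ g)) := hχ.isCharacter.mul hχ.isCharacter.conj
  have c2 : IsCharacter G (fun g => χ (g ^ k) * conj (χ (g ^ k))) :=
    hβ.isCharacter.mul hβ.isCharacter.conj
  have e : classInner (fun g => χ g * conj (χ g)) (fun g => χ (g ^ k) * conj (χ (g ^ k))) = 1 := by
    rw [← (isIrrCharacter_iff_classInner_self.1 hirr).2]
    simp only [classInner, map_mul, Complex.conj_conj]
    congr 1
    exact Finset.sum_congr rfl fun g _ => by ring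
  rw [c1.isClassFunction.classInner_eq_sum_irr] at e
  choose a ha using fun θ : IrrCharacter G => c1.exists_nat_classInner θ.2.isCharacter
  choose c hc using fun θ : IrrCharacter G => θ.2.isCharacter.exists_nat_classInner c2
  simp only [ha, hc] at e
  have e' : ∑ θ, a θ * c θ = 1 := by exact_mod_cast e
  have pos : ∀ θ : IrrCharacter G, classInner (fun g => χ g * conj (χ g)) θ ≠ 0 →
      classInner (fun g => χ (g ^ k) * conj (χ (g ^ k))) θ ≠ 0 → 1 ≤ a θ * c θ := fun θ h1 h2 => by
    rw [ha] at h1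
    rw [Ne, classInner_eq_zero_comm, hc] at h2
    exact Nat.mul_pos (Nat.pos_of_ne_zero fun h => h1 (by simp [h]))
      (Nat.pos_of_ne_zero fun h => h2 (by simp [h]))
  have p1 := pos ⟨ψ, hψ⟩ a1 a2
  have p2 := pos ⟨_, isIrrCharacter_one⟩ (b _ hχ) (b _ hβ)
  have := Finset.add_le_sum (s := Finset.univ) (f := fun θ => a θ * c θ) (fun _ _ => Nat.zero_le _)
    (Finset.mem_univ ⟨ψ, hψ⟩) (Finset.mem_univ ⟨_, isIrrCharacter_one⟩)
    (fun h => hψ1 (congrArg Subtype.val h))
  omega

end Cfsg.Agent.S4843
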