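import Cfsg.Statements.S4845
import Cfsg.Agent.Char.DegBasic
import Cfsg.Agent.Char.Linear
import Cfsg.Agent.Solv.ExtraSub
import Cfsg.Agent.Solv.CyclicP
import Cfsg.Agent.Solv.Nilpotent

set_option autoImplicit false
open Cfsg

namespace Cfsg.Agent.S4845

open Cfsg.Lib.Char Cfsg.Lib.Char.Deg Cfsg.Lib.Solv Cfsg.Lib.Solv.PG
open scoped commutatorElement

/-- Nonlinear irreducible characters of the same degree are Galois conjugate. -/
def GC (p : ℕ) (P : Type*) [Group P] : Prop :=
  ∀ χ ψ : P → ℂ, IsIrrCharacter P χ → IsIrrCharacter P ψ → charDegree χ ≠ 1 →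
    charDegree χ = charDegree ψ → ∃ k : ℕ, Nat.Coprime k p ∧ ∀ g, ψ g = χ (g ^ k)

variable {p : ℕ} {P : Type*} [Group P] [Finite P]

omit [Finite P] in
theorem GC.quotient (h : GC p P) (M : Subgroup P) [M.Normal] : GC p (P ⧸ M) := by
  intro χ ψ hχ hψ h1 h2
  obtain ⟨k, hk, hg⟩ := h _ _ hχ.inflate hψ.inflate (by rwa [deg_inflate])
    (by rwa [deg_inflate, deg_inflate])
  refine ⟨k, hk, fun q => ?_⟩
  obtain ⟨g, rfl⟩ := QuotientGroup.mk_surjective q
  exact hg g

theorem GC.ker_le (h : GC p P) {χ ψ : P → ℂ} (hχ : IsIrrCharacter P χ) (hψ : IsIrrCharacter P ψ)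
    (h1 : charDegree χ ≠ 1) (h2 : charDegree χ = charDegree ψ) : charKer χ ≤ charKer ψ := by
  obtain ⟨k, -, hg⟩ := h χ ψ hχ hψ h1 h2
  intro g hg'
  rw [hψ.mem_charKer_iff, hg, hg, one_pow]
  exact apply_of_mem_charKer ((charKer χ).pow_mem hg' k)

theorem GC.ker_le_commutator (h : GC p P) {χ : P → ℂ} (hχ : IsIrrCharacter P χ)
    (h1 : charDegree χ ≠ 1) : charKer χ ≤ commutator P := by
  intro g hg
  by_contra hg'
  obtain ⟨lam, -, hl⟩ := exists_monoidHom_ker_ge_apply_ne_one (commutator P) le_rfl hg'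
  have h2 := h.ker_le hχ (hχ.mul_monoidHom lam) h1 (deg_congr (by simp)) hg
  have h3 := apply_of_mem_charKer h2
  simp only [Pi.mul_apply, map_one, Units.val_one, mul_one, apply_of_mem_charKer hg] at h3
  exact hl (Units.val_eq_one.mp (mul_left_cancel₀ hχ.apply_one_ne_zero (h3.trans (mul_one _).symm)))

theorem relIndex_center_dvd {χ : P → ℂ} (hχ : IsIrrCharacter P χ)
    (hK : charKer χ ≤ Subgroup.center P) (hKp : Nat.card (charKer χ) ∣ p) :
    (Subgroup.center P).relIndex (charCenter χ) ∣ p := by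
  have := hχ.charKer_normal
  have hc := isCyclic_charCenter_quotient (χ := χ) hχ.apply_one_ne_zero
  have hle : (charKer χ).subgroupOf (charCenter χ) ≤
      ((Subgroup.center P).subgroupOf (charCenter χ)).comap (MonoidHom.id _) :=
    fun x hx => hK hx
  have hc2 : IsCyclic (charCenter χ ⧸ (Subgroup.center P).subgroupOf (charCenter χ)) := by
    refine isCyclic_of_surjective (QuotientGroup.map _ _ (MonoidHom.id _) hle) fun q => ?_
    obtain ⟨x, rfl⟩ := QuotientGroup.mk_surjective q
    exact ⟨QuotientGroup.mk x, rfl⟩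
  rw [Subgroup.relIndex, Subgroup.index, ← IsCyclic.exponent_eq_card,
    Monoid.exponent_dvd_iff_forall_pow_eq_one]
  intro q
  obtain ⟨z, rfl⟩ := QuotientGroup.mk_surjective q
  rw [← QuotientGroup.mk_pow, QuotientGroup.eq_one_iff, Subgroup.mem_subgroupOf,
    Subgroup.mem_center_iff]
  intro x
  symm
  have h1 := hχ.isClassFunction.commutatorElement_mem_charKer z.2 x
  rw [← commutatorElement_eq_one_iff_mul_comm, Subgroup.coe_pow,
    commutatorElement_pow_left_of_mem_center (hK h1)]
  have h2 : (⟨_, h1⟩ : charKer χ) ^ p = 1 :=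
    orderOf_dvd_iff_pow_eq_one.mp ((orderOf_dvd_natCard _).trans hKp)
  exact congrArg Subtype.val h2

theorem deg_sq_eq {χ : P → ℂ} (hχ : IsIrrCharacter P χ) (h : commutator P ≤ charCenter χ) :
    charDegree χ ^ 2 = (charCenter χ).index := by
  have := hχ.degree_sq_eq_index_of_commutator_le h
  rw [re_apply_one hχ.isCharacter] at this
  exact_mod_cast this

theorem exists_deg_eq_pow [Fact p.Prime] (hP : IsPGroup p P) {χ : P → ℂ}
    (hχ : IsIrrCharacter P χ) : ∃ j, charDegree χ = p ^ j := by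
  obtain ⟨n, hn⟩ := hP.exists_card_eq
  obtain ⟨j, -, hj⟩ := (Nat.dvd_prime_pow Fact.out).mp (hn ▸ deg_dvd_card hχ)
  exact ⟨j, hj⟩

/-- `|P : Z(P)|` is `χ(1)²` or `p χ(1)²`. -/
theorem index_center_eq [hp : Fact p.Prime] {χ : P → ℂ} (hχ : IsIrrCharacter P χ)
    (h : commutator P ≤ charCenter χ)
    (hK : charKer χ ≤ Subgroup.center P) (hKp : Nat.card (charKer χ) ∣ p) :
    (Subgroup.center P).index = charDegree χ ^ 2 ∨
      (Subgroup.center P).index = p * charDegree χ ^ 2 := by
  rw [← Subgroup.relIndex_mul_index hχ.center_le_charCenter, ← deg_sq_eq hχ h]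
  rcases (Nat.dvd_prime hp.out).mp (relIndex_center_dvd hχ hK hKp) with h1 | h1
  · left; rw [h1, one_mul]
  · right; rw [h1]

theorem card_dvd_of_lt [hp : Fact p.Prime] {K L : Subgroup P} (hL : Nat.card L = p ^ 2)
    (hKL : K ≤ L) (hne : ¬ L ≤ K) : Nat.card K ∣ p := by
  obtain ⟨j, hj, h⟩ := (Nat.dvd_prime_pow hp.out).mp (hL ▸ Subgroup.card_dvd_of_le hKL)
  have hj2 : j ≠ 2 := by
    rintro rfl
    exact hne (Subgroup.eq_of_le_of_card_ge hKL (by rw [h, hL])).ge
  rw [h]
  calc p ^ j ∣ p ^ 1 := pow_dvd_pow p (by omega)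
    _ = p := pow_one p

theorem geom_lt (q m : ℕ) (hq : 1 ≤ q) : (q - 1) * ∑ j ∈ Finset.range m, q ^ j < q ^ m := by
  obtain ⟨r, rfl⟩ := Nat.exists_eq_add_of_le hq
  simp only [Nat.add_sub_cancel_left]
  induction m with
  | zero => simp
  | succ m ih =>
    rw [Finset.sum_range_succ, mul_add, pow_succ]
    nlinarith

theorem not_GC [hp : Fact p.Prime] (hP : IsPGroup p P) (h2 : Nat.card (commutator P) = p ^ 2) :
    ¬ GC p P := by
  classical
  intro h
  have hp1 := hp.out.one_lt
  obtain ⟨N, hNn, hNle, hN⟩ := exists_normal_card_eq hP (commutator P) 1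
    (by rw [h2]; exact Nat.pow_le_pow_right hp.out.pos (by norm_num))
  rw [pow_one] at hN
  have hNZ := le_center_of_card_eq_prime hP N hN
  have hNne : ¬ commutator P ≤ N := fun hle => by
    have := Subgroup.card_le_of_le hle
    rw [h2, hN] at this
    nlinarith
  have hN1 : N ≠ ⊥ := by
    rintro rfl
    rw [Subgroup.card_bot] at hN
    omega
  have hcard : Nat.card (commutator P) = p * Nat.card N := by rw [h2, hN, sq]
  obtain ⟨y, hy, hyN⟩ := SetLike.not_le_iff_exists.mp hNne
  obtain ⟨χ, hχ, hNχ, hyχ⟩ := exists_irr_le_charKer_not_mem N hyN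
  have hχ1 : charDegree χ ≠ 1 := fun h1 => hyχ ((commutator_le_charKer_iff hχ).mpr h1 hy)
  have hker : charKer χ = N := by
    rcases eq_or_eq_of_card_eq_prime_mul hp.out hcard hNχ (h.ker_le_commutator hχ hχ1) with h1 | h1
    · exact h1
    · exact absurd (h1 ▸ hy) hyχ
  -- `P' ≤ Z(χ)`
  have hrel : N.relIndex (commutator P) = p := by
    have := relIndex_mul_card hNle
    rw [hcard] at this
    exact Nat.eq_of_mul_eq_mul_right Nat.card_pos this
  have hPZ : commutator P ≤ charCenter χ := by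
    have hq : (commutator P).map (QuotientGroup.mk' N) ≤ Subgroup.center (P ⧸ N) := by
      refine le_center_of_card_eq_prime (hP.to_quotient N) _ ?_
      rw [← hrel, ← Subgroup.relIndex_ker, QuotientGroup.ker_mk']
    intro z hz
    rw [hχ.mem_charCenter_iff_commutator, hker]
    intro x
    rw [← QuotientGroup.eq_one_iff, ← QuotientGroup.mk'_apply, map_commutatorElement,
      commutatorElement_eq_one_iff_mul_comm]
    exact (Subgroup.mem_center_iff.mp (hq ⟨z, hz, rfl⟩) _).symm
  obtain ⟨m, hm⟩ := exists_deg_eq_pow hP hχ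
  have hF : ∀ ψ : P → ℂ, IsIrrCharacter P ψ → ¬ N ≤ charKer ψ →
      charDegree ψ ≠ 1 ∧ charDegree ψ ≠ charDegree χ := by
    intro ψ hψ hn
    refine ⟨fun h1 => hn (hNle.trans ((commutator_le_charKer_iff hψ).mpr h1)), fun h1 => ?_⟩
    exact hn (hker ▸ h.ker_le hχ hψ hχ1 h1.symm)
  have hiχ := index_center_eq hχ hPZ (hker ▸ hNZ) (by rw [hker, hN])
  by_cases hc : commutator P ≤ Subgroup.center P
  · obtain ⟨n, hn, hn1⟩ := (Subgroup.nontrivial_iff_exists_ne_one N).mp
      ((Subgroup.nontrivial_iff_ne_bot N).mpr hN1)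
    obtain ⟨ψ, hψ, hψn⟩ := exists_irr_apply_ne hn1
    have hnle : ¬ N ≤ charKer ψ := fun hle => hψn (apply_of_mem_charKer (hle hn))
    obtain ⟨hψ1, hψ2⟩ := hF ψ hψ hnle
    have hk := h.ker_le_commutator hψ hψ1
    have hiψ := index_center_eq (p := p) hψ (hc.trans hψ.center_le_charCenter) (hk.trans hc)
      (card_dvd_of_lt h2 hk fun hle => hnle (hNle.trans hle))
    obtain ⟨j, hj⟩ := exists_deg_eq_pow hP hψ
    apply hψ2
    rw [hj] at hiψ ⊢
    rw [hm] at hiχ ⊢
    congr 1
    have hinj := Nat.pow_right_injective hp.out.two_le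
    rcases hiχ with h1 | h1 <;> rcases hiψ with h3 | h3 <;> rw [h1] at h3 <;>
      simp only [← pow_mul, ← pow_succ'] at h3 <;> have := hinj h3 <;> omega
  · -- class three
    have hinf : commutator P ⊓ Subgroup.center P = N := by
      rcases eq_or_eq_of_card_eq_prime_mul hp.out hcard (le_inf hNle hNZ) inf_le_left with h1 | h1
      · exact h1
      · exact absurd (h1.ge.trans inf_le_right) hc
    have hZN : Subgroup.center P = N := by
      refine le_antisymm ?_ hNZ
      have := hχ.charKer_normal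
      have hcyc := isCyclic_charCenter_quotient (χ := χ) hχ.apply_one_ne_zero
      let f := QuotientGroup.mk' ((charKer χ).subgroupOf (charCenter χ))
      have hpq : IsPGroup p (charCenter χ ⧸ (charKer χ).subgroupOf (charCenter χ)) :=
        (hP.to_subgroup _).to_quotient _
      have hct : IsCyclic (⊤ : Subgroup (charCenter χ ⧸ (charKer χ).subgroupOf (charCenter χ))) :=
        inferInstance
      have hkf : f.ker = N.subgroupOf (charCenter χ) := by
        rw [QuotientGroup.ker_mk', hker]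
      rcases le_total_of_isCyclic (A := ⊤) (hpq.to_subgroup ⊤)
        (H := ((Subgroup.center P).subgroupOf (charCenter χ)).map f)
        (K := ((commutator P).subgroupOf (charCenter χ)).map f) le_top le_top with h1 | h1
      · rw [Subgroup.map_le_map_iff, hkf, sup_eq_left.mpr (Subgroup.subgroupOf_mono _ hNle)] at h1
        intro z hz
        rw [← hinf]
        exact ⟨h1 (show (⟨z, hχ.center_le_charCenter hz⟩ : charCenter χ) ∈ _ from hz), hz⟩
      · rw [Subgroup.map_le_map_iff, hkf, sup_eq_left.mpr (Subgroup.subgroupOf_mono _ hNZ)] at h1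
        exact absurd (fun z hz => h1 (show (⟨z, hPZ hz⟩ : charCenter χ) ∈ _ from hz)) hc
    have hZχ : charCenter χ = commutator P := by
      symm
      refine Subgroup.eq_of_le_of_card_ge hPZ ?_
      have h3 := relIndex_center_dvd (p := p) hχ (hker ▸ hNZ) (by rw [hker, hN])
      have h4 := relIndex_mul_card hχ.center_le_charCenter
      rw [← h4, hcard, hZN]
      rw [hZN] at h3
      exact Nat.mul_le_mul_right _ (Nat.le_of_dvd hp.out.pos h3)
    have hidx : (commutator P).index = p ^ (m * 2) := by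
      rw [← hZχ, ← deg_sq_eq hχ hPZ, hm, pow_mul]
    have hcardP : Nat.card P = p ^ 2 * p ^ (m * 2) := by
      rw [← (commutator P).card_mul_index, h2, hidx]
    have hNidx : N.index = p * p ^ (m * 2) := by
      rw [← Subgroup.relIndex_mul_index hNle, hrel, hidx]
    have hexp : ∀ x : P, x ^ p ^ 3 = 1 := by
      intro x
      have h3 : x ^ p ∈ commutator P := by
        rw [← hZχ, hχ.mem_charCenter_iff_commutator, hker]
        intro y
        have hxy : ⁅x, y⁆ ∈ commutator P :=
          Subgroup.commutator_mem_commutator (Subgroup.mem_top _) (Subgroup.mem_top _)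
        rw [← QuotientGroup.eq_one_iff, ← QuotientGroup.mk'_apply, map_commutatorElement, map_pow,
          commutatorElement_pow_left_of_mem_center, ← map_commutatorElement, ← map_pow,
          QuotientGroup.mk'_apply, QuotientGroup.eq_one_iff, ← hrel]
        · exact N.pow_relIndex_mem hxy
        · rw [← map_commutatorElement, Subgroup.mem_center_iff]
          intro q
          obtain ⟨w, rfl⟩ := QuotientGroup.mk'_surjective N q
          symm
          rw [← commutatorElement_eq_one_iff_mul_comm, ← map_commutatorElement,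
            QuotientGroup.mk'_apply, QuotientGroup.eq_one_iff, ← hker]
          exact hχ.isClassFunction.commutatorElement_mem_charKer (hPZ hxy) w
      have h4 : (⟨_, h3⟩ : commutator P) ^ p ^ 2 = 1 := by rw [← h2]; exact pow_card_eq_one'
      have h5 := congrArg Subtype.val h4
      rw [Subgroup.coe_pow, ← pow_mul, ← pow_succ'] at h5
      exact h5
    let F := Finset.univ.filter (fun ψ : IrrCharacter P => ¬ N ≤ charKer (ψ : P → ℂ))
    have hsum : ∑ ψ ∈ F, charDegree (ψ : P → ℂ) ^ 2 + p * p ^ (m * 2) = p ^ 2 * p ^ (m * 2) := by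
      have h3 := sum_irr_not_ker_degree_sq N
      rw [hcardP, hNidx, eq_sub_iff_add_eq] at h3
      apply Nat.cast_injective (R := ℂ)
      rw [← h3, Nat.cast_add, Nat.cast_sum]
      congr 1
      refine Finset.sum_congr rfl fun ψ _ => ?_
      rw [Nat.cast_pow, cast_deg_irr ψ.2]
    have hlog : ∀ ψ : IrrCharacter P, charDegree (ψ : P → ℂ) =
        p ^ Nat.log p (charDegree (ψ : P → ℂ)) := by
      intro ψ
      obtain ⟨j, hj⟩ := exists_deg_eq_pow hP ψ.2
      rw [hj, Nat.log_pow hp1]
    have hmaps : ∀ ψ ∈ F, Nat.log p (charDegree (ψ : P → ℂ)) ∈ Finset.range m := by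
      intro ψ hψ
      obtain ⟨-, h4⟩ := hF ψ ψ.2 (Finset.mem_filter.mp hψ).2
      have h5 := deg_sq_le_index ψ.2 ψ.2.center_le_charCenter
      rw [hZN, hNidx, hlog ψ, ← pow_mul, ← pow_succ', Nat.pow_le_pow_iff_right hp1] at h5
      rw [hlog ψ, hm] at h4
      have : Nat.log p (charDegree (ψ : P → ℂ)) ≠ m := fun e => h4 (by rw [e])
      rw [Finset.mem_range]
      omega
    have hfib : ∀ j, (F.filter (fun ψ : IrrCharacter P => Nat.log p (charDegree (ψ : P → ℂ)) = j)).card ≤
        p ^ 2 * (p - 1) := by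
      intro j
      rcases (F.filter (fun ψ : IrrCharacter P =>
        Nat.log p (charDegree (ψ : P → ℂ)) = j)).eq_empty_or_nonempty with h0 | ⟨ψ₀, hψ₀⟩
      · rw [h0]; simp
      rw [← Nat.totient_prime_pow_succ hp.out, Nat.totient_eq_card_coprime,
        ← Finset.card_image_of_injective _ Subtype.val_injective]
      refine Finset.card_le_card_of_surjOn (fun k => fun g => (ψ₀ : P → ℂ) (g ^ k)) ?_
      intro φ hφ
      obtain ⟨ψ, hψ, rfl⟩ := Finset.mem_image.mp (Finset.mem_coe.mp hφ)
      obtain ⟨hψ₀F, hj₀⟩ := Finset.mem_filter.mp hψ₀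
      obtain ⟨-, hj⟩ := Finset.mem_filter.mp hψ
      obtain ⟨k, hk, hg⟩ := h ψ₀ ψ ψ₀.2 ψ.2 (hF ψ₀ ψ₀.2 (Finset.mem_filter.mp hψ₀F).2).1
        (by rw [hlog ψ₀, hlog ψ, hj₀, hj])
      refine ⟨k % p ^ (2 + 1), ?_, funext fun g => ?_⟩
      · rw [Finset.mem_coe, Finset.mem_filter, Finset.mem_range]
        refine ⟨Nat.mod_lt _ (pow_pos hp.out.pos _), ?_⟩
        rw [Nat.Coprime, Nat.gcd_comm, ← Nat.gcd_rec]
        exact (Nat.Coprime.pow_left _ hk.symm)
      · simp only
        rw [hg, ← pow_eq_pow_mod k (hexp g)]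
    have hle : ∑ ψ ∈ F, charDegree (ψ : P → ℂ) ^ 2 ≤
        p ^ 2 * (p - 1) * ∑ j ∈ Finset.range m, (p ^ 2) ^ j := by
      rw [← Finset.sum_fiberwise_of_maps_to hmaps, Finset.mul_sum]
      refine Finset.sum_le_sum fun j _ => ?_
      refine (Finset.sum_le_card_nsmul _ _ ((p ^ 2) ^ j) fun ψ hψ => ?_).trans ?_
      · rw [hlog ψ, (Finset.mem_filter.mp hψ).2, ← pow_mul, ← pow_mul, mul_comm]
      · exact Nat.mul_le_mul_right _ (hfib j)
    have hg := geom_lt (p ^ 2) m (Nat.one_le_pow _ _ hp.out.pos)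
    rw [← pow_mul, mul_comm 2 m] at hg
    set S := ∑ j ∈ Finset.range m, (p ^ 2) ^ j
    set T := ∑ ψ ∈ F, charDegree (ψ : P → ℂ) ^ 2
    set D := p ^ (m * 2)
    obtain ⟨r, rfl⟩ : ∃ r, p = r + 2 := ⟨p - 2, by omega⟩
    have e1 : (r + 2) ^ 2 - 1 = r ^ 2 + 4 * r + 3 := by
      rw [Nat.sub_eq_iff_eq_add (Nat.one_le_pow _ _ (by omega))]; ring
    have e2 : r + 2 - 1 = r + 1 := rfl
    rw [e1] at hg
    rw [e2] at hle
    have hT : T = (r + 2) * (r + 1) * D := by nlinarith
    rw [hT] at hle
    have : D ≤ (r + 2) * S := by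
      refine Nat.le_of_mul_le_mul_left (c := (r + 2) * (r + 1)) ?_ (by positivity)
      nlinarith
    nlinarith [Nat.zero_le (r ^ 2 * S), Nat.zero_le (r * S), Nat.zero_le S]

/-- Let p be a prime and P a finite non-commutative p-group. Then every two irreducible characters of P of the same degree greater than 1 are Galois conjugate (one is obtained from the other by composing with g ↦ g^k for some k prime to the order of P) if and only if the centre of P is cyclic and the derived subgroup of P has order p. -/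
theorem result {P : Type*} [Group P] [Finite P] (p : ℕ) [Fact p.Prime] (hP : IsPGroup p P) (hna : ¬ IsMulCommutative P) :
    (∀ χ ψ : Cfsg.IrrCharacter P, Cfsg.charDegree (χ : P → ℂ) ≠ 1 → Cfsg.charDegree (χ : P → ℂ) = Cfsg.charDegree (ψ : P → ℂ) → ∃ k : ℕ, Nat.Coprime k (Nat.card P) ∧ ∀ g : P, (ψ : P → ℂ) g = (χ : P → ℂ) (g ^ k)) ↔
      (IsCyclic (Subgroup.center P) ∧ Nat.card (commutator P) = p) := by
  have hp : p.Prime := Fact.out
  obtain ⟨n, hn⟩ := hP.exists_card_eq
  have hne : commutator P ≠ ⊥ := fun h => hna (isMulCommutative_iff_commutator_eq_bot'.mpr h)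
  constructor
  · intro H
    have hpd : p ∣ Nat.card P := by
      rcases n with _ | n
      · have : Subsingleton P := (Nat.card_eq_one_iff_unique.mp (by simpa using hn)).1
        exact absurd (Subsingleton.elim _ _) hne
      · rw [hn]; exact dvd_pow_self p (Nat.succ_ne_zero n)
    have h : GC p P := fun χ ψ hχ hψ h1 h2 => by
      obtain ⟨k, hk, hg⟩ := H ⟨χ, hχ⟩ ⟨ψ, hψ⟩ h1 h2
      exact ⟨k, hk.coprime_dvd_right hpd, hg⟩
    obtain ⟨a, ha⟩ := (hP.to_subgroup (commutator P)).exists_card_eq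
    have ha0 : a ≠ 0 := by
      rintro rfl
      exact hne (Subgroup.card_eq_one.mp (by simpa using ha))
    have ha1 : a = 1 := by
      by_contra ha1
      obtain ⟨M, hMn, hMle, hM⟩ := exists_normal_card_eq hP (commutator P) (a - 2)
        (by rw [ha]; exact Nat.pow_le_pow_right hp.pos (by omega))
      refine not_GC (hP.to_quotient M) ?_ (h.quotient M)
      have h1 : commutator (P ⧸ M) = (commutator P).map (QuotientGroup.mk' M) := by
        rw [commutator_def, commutator_def, Subgroup.map_commutator,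
          ← MonoidHom.range_eq_map, MonoidHom.range_eq_top.mpr (QuotientGroup.mk'_surjective M)]
      rw [h1, ← Subgroup.relIndex_ker, QuotientGroup.ker_mk']
      have h2 := relIndex_mul_card hMle
      rw [hM, ha] at h2
      refine Nat.eq_of_mul_eq_mul_right (pow_pos hp.pos (a - 2)) ?_
      rw [h2, ← pow_add]
      congr 1
      omega
    rw [ha1, pow_one] at ha
    refine ⟨?_, ha⟩
    obtain ⟨y, hy, hy1⟩ := (Subgroup.nontrivial_iff_exists_ne_one _).mp
      ((Subgroup.nontrivial_iff_ne_bot _).mpr hne)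
    obtain ⟨χ, hχ, hχy⟩ := exists_irr_apply_ne hy1
    have hyχ : y ∉ charKer χ := fun h => hχy (apply_of_mem_charKer h)
    have hχ1 : charDegree χ ≠ 1 := fun h1 => hyχ ((commutator_le_charKer_iff hχ).mpr h1 hy)
    refine hχ.isCyclic_center_of_faithful ?_
    rcases eq_or_eq_of_card_eq_prime_mul hp (M := ⊥) (K := commutator P) (by simpa using ha) bot_le
      (h.ker_le_commutator hχ hχ1) with h1 | h1
    · exact h1
    · exact absurd (h1 ▸ hy) hyχ
  · rintro ⟨hcyc, hc⟩ ⟨χ, hχ⟩ ⟨ψ, hψ⟩ h1 h2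
    simp only at h1 h2 ⊢
    have hPZ := le_center_of_card_eq_prime hP (commutator P) hc
    have key : ∀ φ : P → ℂ, IsIrrCharacter P φ → charDegree φ ≠ 1 →
        (∀ g, g ∉ Subgroup.center P → φ g = 0) ∧ ∃ lam : Subgroup.center P →* ℂˣ,
          Function.Injective lam ∧ ∀ z : Subgroup.center P, φ z = φ 1 * lam z := by
      intro φ hφ hφ1
      have hnle : ¬ commutator P ≤ charKer φ := fun h => hφ1 ((commutator_le_charKer_iff hφ).mp h)
      have hinf : charKer φ ⊓ commutator P = ⊥ := by
        rcases eq_or_eq_of_card_eq_prime_mul hp (M := ⊥) (K := commutator P) (by simpa using hc)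
          bot_le (inf_le_right : charKer φ ⊓ commutator P ≤ _) with h | h
        · exact h
        · exact absurd (h.ge.trans inf_le_left) hnle
      have hZ : charCenter φ ≤ Subgroup.center P := by
        intro z hz
        rw [Subgroup.mem_center_iff]
        intro x
        symm
        rw [← commutatorElement_eq_one_iff_mul_comm, ← Subgroup.mem_bot, ← hinf]
        exact ⟨hφ.isClassFunction.commutatorElement_mem_charKer hz x,
          Subgroup.commutator_mem_commutator (Subgroup.mem_top _) (Subgroup.mem_top _)⟩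
      refine ⟨fun g hg => hφ.apply_eq_zero_of_commutator_le (hPZ.trans hφ.center_le_charCenter)
        fun h => hg (hZ h), ?_⟩
      obtain ⟨lam, hl1, -, hl3⟩ := hφ.exists_monoidHom_of_le_center le_rfl
      refine ⟨lam, ?_, hl1⟩
      rw [← MonoidHom.ker_eq_bot_iff, hl3, Subgroup.subgroupOf_eq_bot, disjoint_iff]
      rcases le_total_of_isCyclic (hP.to_subgroup (Subgroup.center P))
        (H := charKer φ ⊓ Subgroup.center P) (K := commutator P) inf_le_right hPZ with h | h
      · rw [eq_bot_iff, ← hinf]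
        exact le_inf inf_le_left h
      · exact absurd (h.trans inf_le_left) hnle
    obtain ⟨hχ0, lam, hli, hl⟩ := key χ hχ h1
    obtain ⟨hψ0, mu, hmi, hmu⟩ := key ψ hψ (h2 ▸ h1)
    obtain ⟨z, hz⟩ := hcyc.exists_generator
    have ho : orderOf z = Nat.card (Subgroup.center P) := orderOf_eq_card_of_forall_mem_zpowers hz
    have hpos : 0 < orderOf z := orderOf_pos z
    have hl1 : IsPrimitiveRoot (lam z) (orderOf z) := by
      rw [← orderOf_injective lam hli z]; exact IsPrimitiveRoot.orderOf _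
    have hm1 : IsPrimitiveRoot (mu z) (orderOf z) := by
      rw [← orderOf_injective mu hmi z]; exact IsPrimitiveRoot.orderOf _
    have : NeZero (orderOf z) := ⟨hpos.ne'⟩
    obtain ⟨k, -, hk, hke⟩ := (hl1.isPrimitiveRoot_iff').mp hm1
    have hpz : p ∣ orderOf z := by
      rw [ho, ← hc]; exact Subgroup.card_dvd_of_le hPZ
    have hkP : Nat.Coprime k (Nat.card P) := by
      rw [hn]; exact Nat.Coprime.pow_right _ (hk.coprime_dvd_right hpz)
    have hdeg : ψ 1 = χ 1 := by
      rw [apply_one_eq hχ.isCharacter, apply_one_eq hψ.isCharacter, h2]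
    refine ⟨k, hkP, fun g => ?_⟩
    by_cases hg : g ∈ Subgroup.center P
    · obtain ⟨i, hi⟩ := Subgroup.mem_zpowers_iff.mp (hz ⟨g, hg⟩)
      have h3 := hmu ⟨g, hg⟩
      have h4 := hl (⟨g, hg⟩ ^ k)
      rw [Subgroup.coe_pow] at h4
      rw [h3, h4, hdeg, ← hi, map_pow, map_zpow, map_zpow, ← hke, ← zpow_natCast, ← zpow_natCast,
        ← zpow_mul, ← zpow_mul, mul_comm i]
    · rw [hψ0 g hg, hχ0]
      intro hgk
      obtain ⟨j, hj⟩ := exists_pow_eq_self_of_coprime
        (hkP.coprime_dvd_right (orderOf_dvd_natCard g))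
      exact hg (hj ▸ Subgroup.pow_mem _ hgk j)

end Cfsg.Agent.S4845
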