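import Cfsg.Statements.S4850
import Cfsg.Agent.Van.Main
import Cfsg.Agent.Solv.Nilpotent
-- import your own Cfsg.Agent.* helpers here

set_option autoImplicit false
open Cfsg

namespace Cfsg.Agent.S4850

/-- Let p be a prime and G a finite solvable group whose vanishing elements (elements at which some irreducible character is zero) of order divisible by p all have the same order, with at least one such element. Let P be a Sylow p-subgroup of G. Then the derived subgroup of P is subnormal in G and the image of P in G/O_p(G) is cyclic. -/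
theorem result {G : Type*} [Group G] [Finite G] [hs : Group.IsSolvable G] (p : ℕ) [Fact p.Prime] (b : ℕ) (hvo : {n : ℕ | p ∣ n ∧ ∃ (g : G) (χ : Cfsg.IrrCharacter G), orderOf g = n ∧ (χ : G → ℂ) g = 0} = {b}) (P : Sylow p G) :
    ((commutator ↥(P : Subgroup G)).map (P : Subgroup G).subtype).IsSubnormal ∧ IsCyclic ↥((P : Subgroup G).map (QuotientGroup.mk' (Cfsg.pCore p G))) := by
  have h1 : Nat.card ((P : Subgroup G).map (QuotientGroup.mk' (Cfsg.pCore p G))) ∣ p :=
    Cfsg.Lib.Van.card_map_dvd (b := b) (fun g hg hpg => by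
      obtain ⟨χ, hχ, h0⟩ := hg
      have : orderOf g ∈ ({b} : Set ℕ) := hvo ▸ ⟨hpg, g, ⟨χ, hχ⟩, rfl, h0⟩
      exact this) P.isPGroup'
  have h2 : IsCyclic ↥((P : Subgroup G).map (QuotientGroup.mk' (Cfsg.pCore p G))) :=
    isCyclic_of_card_dvd_prime h1
  refine ⟨Subgroup.IsSubnormal.trans (K := Cfsg.pCore p G) ?_ ?_
    (Subgroup.Normal.isSubnormal inferInstance), h2⟩
  · have h3 : commutator ↥(P : Subgroup G) ≤
        ((QuotientGroup.mk' (Cfsg.pCore p G)).subgroupMap (P : Subgroup G)).ker := by
      rw [commutator_def, Subgroup.commutator_le]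
      intro x _ y _
      rw [MonoidHom.mem_ker, map_commutatorElement, commutatorElement_eq_one_iff_mul_comm]
      exact h2.isMulCommutative.is_comm.comm _ _
    rintro _ ⟨x, hx, rfl⟩
    exact (QuotientGroup.eq_one_iff _).1 (congrArg Subtype.val (h3 hx))
  · have := (Cfsg.Lib.Solv.pCore_isPGroup p G).isNilpotent
    exact Cfsg.Lib.Solv.isSubnormal_of_isNilpotent _

end Cfsg.Agent.S4850
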