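import Cfsg.Statements.S4862
import Cfsg.Agent.Char.RealDeg

set_option autoImplicit false
open Cfsg

namespace Cfsg.Agent.S4862

/-- Let p be an odd prime and G a finite group such that the subgroup generated by the p-elements of G is solvable and every real-valued irreducible complex character of G has degree prime to p. Let K be the subgroup generated by the 2-elements of G and P a Sylow p-subgroup of G. Then every normal subgroup M of G contained in K and in the derived subgroup of P is centralized by K. -/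
theorem result {G : Type*} [Group G] [Finite G] (p : ℕ) [Fact p.Prime] (hp : p ≠ 2) (hsolv : Group.IsSolvable ↥(Subgroup.closure {g : G | ∃ k : ℕ, orderOf g = p ^ k})) (hreal : ∀ χ : Cfsg.IrrCharacter G, (∀ g : G, ((χ : G → ℂ) g).im = 0) → ¬ p ∣ Cfsg.charDegree (χ : G → ℂ)) (P : Sylow p G) (M : Subgroup G) (hM : M.Normal) (hMK : M ≤ (Subgroup.closure {g : G | ∃ k : ℕ, orderOf g = 2 ^ k})) (hMP : M ≤ ⁅(P : Subgroup G), (P : Subgroup G)⁆) : (Subgroup.closure {g : G | ∃ k : ℕ, orderOf g = 2 ^ k}) ≤ Subgroup.centralizer (M : Set G) := by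
  open Cfsg.Lib.Char in
  rw [Subgroup.closure_le]
  rintro t ⟨k, hk⟩ m hm
  have hmP : m ∈ (P : Subgroup G) :=
    (hMP.trans ((Subgroup.commutator_le_sup _ _).trans (sup_idem _).le)) hm
  obtain ⟨j, hj⟩ := IsPGroup.iff_orderOf.mp P.isPGroup' ⟨m, hmP⟩
  rw [Subgroup.orderOf_mk] at hj
  have hodd : Odd (orderOf m) := by
    rw [hj]
    exact ((Fact.out : p.Prime).odd_of_ne_two hp).pow
  exact (commute_of_mem_ker_real hodd (fun χ hχ hr =>
    le_charKer_of_le_commutator P.isPGroup' hMP hχ (hreal ⟨χ, hχ⟩ hr) hm) k t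
    (hk ▸ pow_orderOf_eq_one t)).symm

end Cfsg.Agent.S4862
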