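import Cfsg.Statements.S4866
import Cfsg.Agent.Char.Glauberman
import Cfsg.Agent.Char.PermLemma

set_option autoImplicit false
open Cfsg

namespace Cfsg.Agent.S4866

open Cfsg.Lib.Char

theorem card_quot_mul_card {A X : Type*} [Group A] [Fintype A] [Finite X]
    (ρ : A →* Equiv.Perm X) (P : X → Prop) (hP : ∀ a x, P x → P (ρ a x))
    (r : {x // P x} → {x // P x} → Prop) (hr : ∀ x y, r x y ↔ ∃ a, ρ a x = y) :
    Nat.card (Quot r) * Nat.card A = ∑ a, Nat.card {x // P x ∧ ρ a x = x} := by
  classical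
  let _ : MulAction A {x // P x} :=
    { smul := fun a x => ⟨ρ a x, hP a x x.2⟩
      one_smul := fun x => Subtype.ext (by change ρ 1 x = x; simp)
      mul_smul := fun a b x => Subtype.ext (by change ρ (a * b) x = ρ a (ρ b x); simp) }
  have := Fintype.ofFinite (MulAction.orbitRel.Quotient A {x // P x})
  have := Fintype.ofFinite {x // P x}
  have h1 := MulAction.sum_card_fixedBy_eq_card_orbits_mul_card_group A {x // P x}
  have h2 : Nat.card (Quot r) = Nat.card (MulAction.orbitRel.Quotient A {x // P x}) := by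
    refine Nat.card_congr (Quot.congrRight fun x y => ?_)
    rw [hr, (MulAction.orbitRel A _).comm', MulAction.orbitRel_apply]
    exact exists_congr fun a => ⟨fun h => Subtype.ext h, fun h => congrArg Subtype.val h⟩
  rw [h2, Nat.card_eq_fintype_card, Nat.card_eq_fintype_card, ← h1]
  refine Finset.sum_congr rfl fun a _ => ?_
  rw [← Nat.card_eq_fintype_card]
  exact Nat.card_congr
    { toFun := fun x => ⟨x.1.1, x.1.2, congrArg Subtype.val x.2⟩
      invFun := fun x => ⟨⟨x.1, x.2.1⟩, Subtype.ext x.2.2⟩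
      left_inv := fun _ => rfl
      right_inv := fun _ => rfl }

/-- The action on conjugacy classes. -/
def classPerm {G S : Type*} [Group G] [Group S] (φ : S →* MulAut G) :
    S →* Equiv.Perm (ConjClasses G) where
  toFun s :=
    { toFun := ConjClasses.map (φ s).toMonoidHom
      invFun := ConjClasses.map (φ s⁻¹).toMonoidHom
      left_inv := fun c => by
        obtain ⟨g, rfl⟩ := ConjClasses.mk_surjective c
        change ConjClasses.mk (φ s⁻¹ (φ s g)) = _
        simp
      right_inv := fun c => by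
        obtain ⟨g, rfl⟩ := ConjClasses.mk_surjective c
        change ConjClasses.mk (φ s (φ s⁻¹ g)) = _
        simp }
  map_one' := by
    ext c
    obtain ⟨g, rfl⟩ := ConjClasses.mk_surjective c
    change ConjClasses.mk (φ 1 g) = _
    simp
  map_mul' s t := by
    ext c
    obtain ⟨g, rfl⟩ := ConjClasses.mk_surjective c
    change ConjClasses.mk (φ (s * t) g) = ConjClasses.mk (φ s (φ t g))
    simp

theorem classPerm_mk {G S : Type*} [Group G] [Group S] (φ : S →* MulAut G) (s : S) (g : G) :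
    classPerm φ s (ConjClasses.mk g) = ConjClasses.mk (φ s g) := rfl

theorem key {K Y : Type*} [Group K] (α : MulAut K) {n : ℕ} (hn : Odd n) (F : K → Y)
    (hF : ∀ k, F ((α ^ n) k) = F k) :
    (∀ k, F (α k)⁻¹ = F k) ↔ (∀ k, F k⁻¹ = F k) ∧ ∀ k, F (α k) = F k := by
  constructor
  · intro h
    have h2 : ∀ k, F ((α ^ 2) k) = F k := fun k => by
      rw [← h k, ← h (α k)⁻¹, pow_two]
      simp
    have h3 : ∀ (m : ℕ) k, F ((α ^ (2 * m)) k) = F k := fun m => by
      induction m with
      | zero => simp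
      | succ m ih => intro k; rw [mul_add, mul_one, pow_add, MulAut.mul_apply, ih, h2]
    have h4 : ∀ k, F (α k) = F k := fun k => by
      obtain ⟨m, rfl⟩ := hn
      rw [← hF k, pow_add, pow_one, MulAut.mul_apply, h3]
    refine ⟨fun k => ?_, h4⟩
    rw [← h4 k⁻¹, map_inv, h]
  · rintro ⟨h1, h2⟩ k
    rw [h1, h2]

theorem isConj_inv {K : Type*} [Group K] {a b : K} (h : IsConj a b) : IsConj a⁻¹ b⁻¹ := by
  obtain ⟨c, rfl⟩ := isConj_iff.1 h
  exact isConj_iff.2 ⟨c, by group⟩

theorem key2 {K : Type*} [Group K] (α : MulAut K) {n : ℕ} (hn : Odd n) {k : K}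
    (hk : IsConj k ((α ^ n) k)) :
    IsConj k (α k)⁻¹ ↔ IsConj k k⁻¹ ∧ IsConj (α k) k := by
  constructor
  · intro h
    have h2 : IsConj k ((α ^ 2) k) := by
      have h3 := isConj_inv (α.toMonoidHom.map_isConj h)
      refine h.trans ?_
      simpa [pow_two] using h3
    have h3 : ∀ m : ℕ, IsConj k ((α ^ (2 * m)) k) := fun m => by
      induction m with
      | zero => exact IsConj.refl k
      | succ m ih =>
        rw [mul_add, mul_one, pow_add, MulAut.mul_apply]
        exact ih.trans ((α ^ (2 * m)).toMonoidHom.map_isConj h2)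
    have h4 : IsConj (α k) k := by
      obtain ⟨m, rfl⟩ := hn
      refine IsConj.trans ?_ hk.symm
      rw [pow_succ', MulAut.mul_apply]
      exact α.toMonoidHom.map_isConj (h3 m)
    exact ⟨h.trans (isConj_inv h4), h4⟩
  · rintro ⟨h1, h2⟩
    exact h1.trans (isConj_inv h2.symm)

/-- Let K be a normal subgroup of odd index in the finite group G. Then G has as many orbits on the real-valued irreducible complex characters of K (acting by conjugation) as it has orbits on the conjugacy classes of K that are real in K; equivalently, the number of G-orbits of real-valued irreducible characters of K equals the number of G-conjugacy classes of elements of K that are conjugate in K to their inverses. -/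
theorem result {G : Type*} [Group G] [Finite G] (K : Subgroup G) [K.Normal] (hodd : Odd K.index) : Nat.card (Quot (fun θ η : {θ : Cfsg.IrrCharacter ↥K // (∀ k : ↥K, ((θ : ↥K → ℂ) k).im = 0)} => ∃ g : G, ∀ k k' : ↥K, (k' : G) = g * (k : G) * g⁻¹ → (η.1 : ↥K → ℂ) k' = (θ.1 : ↥K → ℂ) k)) = Nat.card (Quot (fun x y : {x : ↥K // IsConj x x⁻¹} => ∃ g : G, (y.1 : G) = g * x.1 * g⁻¹)) := by
  classical
  have := Fintype.ofFinite G
  let φ : G →* MulAut K := MulAut.conjNormal
  have hφ : ∀ (g : G) (k : K), (φ g k : G) = g * k * g⁻¹ := fun g k => rfl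
  have hpow : ∀ (g : G) (k : K), IsConj k ((φ g ^ K.index) k) := fun g k => by
    rw [← map_pow, isConj_iff]
    exact ⟨⟨_, K.pow_index_mem g⟩, rfl⟩
  let P : IrrCharacter K → Prop := fun θ => ∀ k : K, ((θ : K → ℂ) k).im = 0
  let Q : ConjClasses K → Prop := fun c => ∀ k, ConjClasses.mk k = c → IsConj k k⁻¹
  have hQ : ∀ k, Q (ConjClasses.mk k) ↔ IsConj k k⁻¹ := fun k => ⟨fun h => h k rfl, fun h l hl => by
    rw [ConjClasses.mk_eq_mk_iff_isConj] at hl
    obtain ⟨c, rfl⟩ := isConj_iff.1 hl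
    refine hl.trans (h.trans (isConj_iff.2 ⟨c⁻¹, by group⟩))⟩
  have h1 := card_quot_mul_card (irrPerm φ) P (fun g θ h k => h _)
    (fun θ η => ∃ g : G, ∀ k k' : K, (k' : G) = g * (k : G) * g⁻¹ →
      (η.1 : K → ℂ) k' = (θ.1 : K → ℂ) k) (fun θ η => exists_congr fun g => by
      constructor
      · intro h
        refine Subtype.ext (funext fun k => ?_)
        rw [irrPerm_apply]
        exact (h _ _ (by rw [hφ]; group)).symm
      · intro h k k' hk
        rw [← h, irrPerm_apply]
        refine congrArg _ (Subtype.ext ?_)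
        rw [hφ, hk]
        group)
  have h2 := card_quot_mul_card (classPerm φ) Q (fun g c h => by
      obtain ⟨k, rfl⟩ := ConjClasses.mk_surjective c
      rw [classPerm_mk, hQ, ← map_inv]
      exact (φ g).toMonoidHom.map_isConj ((hQ k).1 h))
    (fun c d => ∃ g, classPerm φ g c = d) (fun _ _ => Iff.rfl)
  have h3 : ∑ g, Nat.card {θ // P θ ∧ irrPerm φ g θ = θ} =
      ∑ g, Nat.card {c // Q c ∧ classPerm φ g c = c} := by
    rw [← Equiv.sum_comp (Equiv.inv G)]
    refine Finset.sum_congr rfl fun g _ => ?_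
    have h4 := card_fixed_irr_eq_card_fixed_classes (fun k : K => (φ g k)⁻¹)
      (fun χ hχ => hχ.inv.comp_equiv (φ g))
    refine (Nat.card_congr (Equiv.subtypeEquivRight fun θ => ?_)).trans
      (h4.trans (Nat.card_congr (Equiv.subtypeEquivRight fun c => ?_)))
    · rw [key (φ g) hodd θ.1 fun k => (θ.2.isClassFunction.eq_of_isConj (hpow g k)).symm]
      refine and_congr (forall_congr' fun k =>
        (θ.2.isGeneralizedCharacter.apply_inv_eq_iff k).symm) ?_
      rw [Subtype.ext_iff, funext_iff]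
      simp only [irrPerm_apply, Equiv.inv_apply, inv_inv]
    · obtain ⟨k, rfl⟩ := ConjClasses.mk_surjective c
      rw [hQ, classPerm_mk, ConjClasses.mk_eq_mk_iff_isConj]
      rw [← key2 (φ g) hodd (hpow g k)]
      refine ⟨fun h => h k rfl, fun h l hl => ?_⟩
      rw [ConjClasses.mk_eq_mk_iff_isConj] at hl
      exact hl.trans (h.trans (isConj_inv ((φ g).toMonoidHom.map_isConj hl.symm)))
  rw [h3, ← h2] at h1
  rw [Nat.eq_of_mul_eq_mul_right Nat.card_pos h1]
  symm
  refine Nat.card_congr (Equiv.ofBijective (Quot.map (fun x => ⟨ConjClasses.mk x.1, (hQ _).2 x.2⟩)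
    ?_) ⟨?_, ?_⟩)
  · rintro x y ⟨g, hg⟩
    exact ⟨g, congrArg ConjClasses.mk (Subtype.ext hg.symm)⟩
  · rintro ⟨x⟩ ⟨y⟩ h
    have h4 := Quot.eqvGen_exact h
    rw [Equivalence.eqvGen_iff ⟨fun c => ⟨1, by simp⟩,
      by rintro c d ⟨g, hg⟩; exact ⟨g⁻¹, by rw [← hg]; simp⟩,
      by rintro c d e ⟨g, hg⟩ ⟨g', hg'⟩; exact ⟨g' * g, by rw [← hg', ← hg]; simp⟩⟩] at h4
    obtain ⟨g, hg⟩ := h4
    change ConjClasses.mk (φ g x.1) = ConjClasses.mk y.1 at hg
    rw [ConjClasses.mk_eq_mk_iff_isConj, isConj_iff] at hg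
    obtain ⟨c, hc⟩ := hg
    refine Quot.sound ⟨c * g, ?_⟩
    rw [← hc]
    simp [hφ, mul_assoc]
  · rintro ⟨c, hc⟩
    obtain ⟨k, rfl⟩ := ConjClasses.mk_surjective c
    exact ⟨Quot.mk _ ⟨k, (hQ k).1 hc⟩, rfl⟩

end Cfsg.Agent.S4866
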