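import Cfsg.Statements.S4870
import Cfsg.Agent.Char.DegBasic
import Cfsg.Agent.Char.Linear
import Cfsg.Agent.Char.Gallagher

set_option autoImplicit false
open Cfsg

namespace Cfsg.Agent.S4870

open Cfsg.Lib.Char Cfsg.Lib.Char.Deg

/-- Restriction of linear characters. -/
def resLin {G : Type*} [Group G] (I : Subgroup G) : (G →* ℂˣ) →* (I →* ℂˣ) where
  toFun lam := lam.comp I.subtype
  map_one' := rfl
  map_mul' _ _ := rfl

theorem card_ker_resLin_le {G : Type*} [Group G] [Finite G] (I : Subgroup G) :
    Nat.card (resLin I).ker ≤ I.index := by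
  let K := I ⊔ commutator G
  have : K.Normal := Subgroup.Normal.of_commutator_le G le_sup_right
  have hK : ∀ lam : (resLin I).ker, K ≤ (lam : G →* ℂˣ).ker := fun lam =>
    sup_le (fun x hx => MonoidHom.mem_ker.mpr (DFunLike.congr_fun (MonoidHom.mem_ker.mp lam.2) ⟨x, hx⟩))
      (fun x hx => monoidHom_apply_of_mem_commutator _ hx)
  let f : (resLin I).ker → (G ⧸ K →* ℂˣ) := fun lam => QuotientGroup.lift K lam (hK lam)
  have hf : Function.Injective f := by
    intro a b h
    ext g
    have := DFunLike.congr_fun h (QuotientGroup.mk g)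
    exact congrArg Units.val this
  have hfin : Finite (G ⧸ K →* ℂˣ) := Nat.finite_of_card_ne_zero (by
    rw [card_monoidHom_units]; exact Subgroup.index_ne_zero_of_finite)
  calc Nat.card (resLin I).ker ≤ Nat.card (G ⧸ K →* ℂˣ) := Nat.card_le_card_of_injective f hf
    _ = (commutator (G ⧸ K)).index := card_monoidHom_units
    _ ≤ Nat.card (G ⧸ K) := Nat.le_of_dvd Nat.card_pos (Subgroup.index_dvd_card _)
    _ ≤ I.index := Nat.le_of_dvd (Nat.pos_of_ne_zero Subgroup.index_ne_zero_of_finite)
        (Subgroup.index_dvd_of_le le_sup_left)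

/-- Let G be a finite group with a non-abelian minimal normal subgroup N, and let φ be an irreducible complex character of N with stabilizer I in G (the elements g with φ(g n g⁻¹) = φ(n) for all n ∈ N) such that φ extends to an irreducible character of I. Put d = φ(1)·[G : I]. Then the number of linear characters of G is at most [G : I] times the number of irreducible characters of G of degree d. -/
theorem result {G : Type*} [Group G] [Finite G] (N : Subgroup G) (hN : N.Normal) (hN1 : N ≠ ⊥) (hmin : ∀ M : Subgroup G, M.Normal → M ≤ N → M = ⊥ ∨ M = N) (hna : ¬ IsMulCommutative ↥N) (φ : Cfsg.IrrCharacter ↥N) (I : Subgroup G) (hI : ∀ g : G, g ∈ I ↔ ∀ n n' : ↥N, (n' : G) = g * (n : G) * g⁻¹ → (φ : ↥N → ℂ) n' = (φ : ↥N → ℂ) n) (hNI : N ≤ I) (hext : ∃ ψ : Cfsg.IrrCharacter ↥I, ∀ n : ↥N, (ψ : ↥I → ℂ) (Subgroup.inclusion hNI n) = (φ : ↥N → ℂ) n) : Nat.card {χ : Cfsg.IrrCharacter G // Cfsg.charDegree (χ : G → ℂ) = 1} ≤ I.index * Nat.card {χ : Cfsg.IrrCharacter G // Cfsg.charDegree (χ : G → ℂ) = Cfsg.charDegree (φ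 : ↥N → ℂ) * I.index} := by
  classical
  have := Fintype.ofFinite G
  have := Fintype.ofFinite N
  have := Fintype.ofFinite I
  obtain ⟨φ, hφ⟩ := φ
  obtain ⟨⟨ψ, hψ⟩, hext⟩ := hext
  simp only at hI hext ⊢
  have hin : inertia N φ ≤ I := by
    intro g hg
    rw [hI]
    intro n n' h
    rw [mem_inertia'] at hg
    rw [← hg n]
    congr 1
    exact Subtype.ext h
  have hNG : N ≤ commutator G := by
    have : (⁅N, N⁆ : Subgroup G).Normal := inferInstance
    rcases hmin ⁅N, N⁆ this (Subgroup.commutator_le_left N N) with h | h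
    · exact absurd (Subgroup.le_centralizer_iff_isMulCommutative.mp
        (Subgroup.commutator_eq_bot_iff_le_centralizer.mp h)) hna
    · rw [← h]; exact Subgroup.commutator_mono le_top le_top
  have hres : ∀ mu : (resLin I).range, ∀ n : N, (mu : I →* ℂˣ) ⟨n, hNI n.2⟩ = 1 := by
    rintro ⟨_, lam, rfl⟩ n
    exact monoidHom_apply_of_mem_commutator lam (hNG n.2)
  have hirr : ∀ mu : (resLin I).range,
      IsIrrCharacter I (ψ * fun g => ((mu : I →* ℂˣ) g : ℂ)) := fun mu => hψ.mul_monoidHom _
  have hover : ∀ mu : (resLin I).range, classInner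
      (fun n : N => (ψ * fun g => ((mu : I →* ℂˣ) g : ℂ)) ⟨n, hNI n.2⟩) φ ≠ 0 := by
    intro mu
    have : (fun n : N => (ψ * fun g => ((mu : I →* ℂˣ) g : ℂ)) ⟨n, hNI n.2⟩) = φ := by
      funext n
      simp only [Pi.mul_apply, hres mu n, Units.val_one, mul_one]
      exact hext n
    rw [this, hφ.classInner_self]
    exact one_ne_zero
  have hψφ : charDegree ψ = charDegree φ := deg_congr (by rw [← hext 1, map_one])
  let f : (resLin I).range → {χ : IrrCharacter G //
      charDegree (χ : G → ℂ) = charDegree φ * I.index} := fun mu =>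
    ⟨⟨indFun I (ψ * fun g => ((mu : I →* ℂˣ) g : ℂ)),
      (clifford_indFun_irr hNI hin hφ (hirr mu) (hover mu)).1⟩, by
        simp only
        rw [deg_indFun I (hirr mu).isCharacter, mul_comm, ← hψφ]
        congr 1
        exact deg_congr (by simp)⟩
  have hf : Function.Injective f := by
    intro a b h
    have h1 := clifford_indFun_injective hNI hin hφ (hirr a) (hover a) (hirr b) (hover b)
      (congrArg (fun x => x.1.1) h)
    have hψN : IsIrrCharacter (N.subgroupOf I) (fun n : N.subgroupOf I => ψ n) := by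
      have : (fun n : N.subgroupOf I => ψ n) =
          fun n : N.subgroupOf I => φ ⟨((n : I) : G), n.2⟩ := funext fun n => hext ⟨_, n.2⟩
      rw [this]
      exact hφ.subgroupOf hNI
    have hk : ∀ mu : (resLin I).range,
        N.subgroupOf I ≤ charKer (fun g => ((mu : I →* ℂˣ) g : ℂ)) := by
      intro mu n hn
      rw [charKer_monoidHom]
      exact hres mu ⟨n, hn⟩
    have h2 := gallagher_injective hψ.isCharacter hψN (isIrrCharacter_monoidHom _) (hk a)
      (isIrrCharacter_monoidHom _) (hk b) (by rw [mul_comm, h1, mul_comm])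
    exact Subtype.ext (monoidHom_coe_injective h2)
  have h1 : Nat.card {χ : IrrCharacter G // charDegree (χ : G → ℂ) = 1} = Nat.card (G →* ℂˣ) := by
    rw [Nat.card_congr (linearEquivIrr G)]
    exact Nat.card_congr (Equiv.subtypeEquivRight fun χ => deg_eq_one_iff χ.2.isCharacter)
  rw [h1, ← (resLin I).ker.card_mul_index, Subgroup.index_ker]
  exact Nat.mul_le_mul (card_ker_resLin_le I) (Nat.card_le_card_of_injective f hf)

end Cfsg.Agent.S4870
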