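import Cfsg.Statements.S4871
import Cfsg.Agent.S4870
import Cfsg.Agent.Char.FrobSchur
import Cfsg.Agent.Char.Extension

set_option autoImplicit false
open Cfsg

namespace Cfsg.Agent.S4871

open Cfsg.Lib.Char Cfsg.Lib.Char.Deg Cfsg.Agent.S4870

theorem sum_indFun_sq {G : Type*} [Group G] [Fintype G] (H : Subgroup G) (θ : H → ℂ) :
    (Nat.card G : ℂ)⁻¹ * ∑ g : G, indFun H θ (g * g) =
      (Nat.card H : ℂ)⁻¹ * ∑ s : G, extendByZero H θ (s * s) := by
  simp only [indFun_apply', ← Finset.mul_sum]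
  rw [Finset.sum_comm]
  have : ∀ x : G, ∑ g : G, extendByZero H θ (x * (g * g) * x⁻¹) =
      ∑ s : G, extendByZero H θ (s * s) := fun x =>
    Fintype.sum_equiv (MulAut.conj x).toEquiv _ _ fun g => by
      congr 1
      simp [mul_assoc]
  simp only [this, Finset.sum_const, Finset.card_univ, nsmul_eq_mul, ← Nat.card_eq_fintype_card]
  have h1 : (Nat.card G : ℂ) ≠ 0 := Nat.cast_ne_zero.mpr Nat.card_pos.ne'
  field_simp

/-- The Frobenius–Schur sum of a character induced from an extension of an inverted linear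
character. -/
theorem sum_ext_sq {G : Type*} [Group G] [Fintype G] (N P : Subgroup G) [hN : N.Normal]
    (hc : ∀ a ∈ N, ∀ b ∈ N, a * b = b * a) (hprod : N ⊔ P = ⊤) (lam : N →* ℂˣ)
    (I : Subgroup G) (hI : I = inertia N (fun n => (lam n : ℂ))) (th : I →* ℂˣ) (hNI : N ≤ I)
    (h1 : ∀ n : N, th ⟨n, hNI n.2⟩ = lam n)
    (h2 : ∀ x (hx : x ∈ I), x ∈ P → th ⟨x, hx⟩ = 1)
    (z : G) (hz : ∀ n ∈ N, z * n * z⁻¹ = n⁻¹) :
    ∑ s : G, extendByZero I (fun i => (th i : ℂ)) (s * s) = Nat.card I := by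
  classical
  have := Fintype.ofFinite N
  let F : G → ℂ := fun s => extendByZero I (fun i => (th i : ℂ)) (s * s)
  let c : G → (N →* ℂˣ) := fun s => lam * lam.comp (MulAut.conjNormal s : MulAut N).toMonoidHom
  have hc' : ∀ s (n : N), c s n = lam n * lam ⟨s * n * s⁻¹, hN.conj_mem n n.2 s⟩ := fun s n => rfl
  have hF : ∀ (n : N) s, F (n * s) = c s n * F s := by
    intro n s
    have e : (n : G) * s * (n * s) = (n * (s * n * s⁻¹)) * (s * s) := by group
    have hm : (n : G) * (s * n * s⁻¹) ∈ N := N.mul_mem n.2 (hN.conj_mem n n.2 s)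
    simp only [F, e]
    by_cases hs : s * s ∈ I
    · rw [extendByZero_of_mem I _ (I.mul_mem (hNI hm) hs), extendByZero_of_mem I _ hs, hc',
        ← map_mul, ← h1, ← Units.val_mul, ← map_mul]
      rfl
    · rw [extendByZero_of_notMem I _ hs, extendByZero_of_notMem I _
        (fun h => hs ((I.mul_mem_cancel_left (hNI hm)).mp h)), mul_zero]
  have hF1 : ∀ s, c s = 1 → F s = 1 := by
    intro s hs
    have hs' : s ∈ ((N ⊔ P : Subgroup G) : Set G) := by rw [hprod]; trivial
    rw [Subgroup.normal_mul] at hs'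
    obtain ⟨n, hn, x, hx, rfl⟩ := hs'
    have hcx : c x = 1 := by
      rw [← hs]
      ext m
      rw [hc', hc']
      congr 3
      apply Subtype.ext
      have := hc n hn _ (hN.conj_mem m m.2 x)
      simp only [mul_inv_rev]
      calc x * m * x⁻¹ = n * (x * m * x⁻¹) * n⁻¹ := by rw [this]; group
        _ = _ := by group
    have h3 : ∀ m : N, lam ⟨x * m * x⁻¹, hN.conj_mem m m.2 x⟩ = (lam m)⁻¹ := fun m => by
      have := DFunLike.congr_fun hcx m
      rw [hc'] at this
      exact eq_inv_of_mul_eq_one_right this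
    have hxx : x * x ∈ I := by
      rw [hI, mem_inertia']
      intro m
      have e : (⟨x * x * m * (x * x)⁻¹, hN.conj_mem m m.2 (x * x)⟩ : N) =
          ⟨x * (⟨x * m * x⁻¹, hN.conj_mem m m.2 x⟩ : N) * x⁻¹,
            hN.conj_mem _ (hN.conj_mem m m.2 x) x⟩ := Subtype.ext (by simp [mul_assoc])
      rw [e, h3, h3, inv_inv]
    have := hF ⟨n, hn⟩ x
    simp only at this ⊢
    rw [this, hcx]
    simp only [F]
    rw [extendByZero_of_mem I _ hxx, h2 _ hxx (P.mul_mem hx hx)]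
    simp
  have hsum : (Nat.card N : ℂ) * ∑ s, F s = (Nat.card N : ℂ) * ∑ s : G, if c s = 1 then 1 else 0 := by
    have e1 : (Nat.card N : ℂ) * ∑ s, F s = ∑ n : N, ∑ s, F (n * s) := by
      have : ∀ n : N, ∑ s, F (n * s) = ∑ s, F s := fun n =>
        Fintype.sum_equiv (Equiv.mulLeft (n : G)) _ _ fun s => rfl
      simp only [this, Finset.sum_const, Finset.card_univ, nsmul_eq_mul, Nat.card_eq_fintype_card]
    rw [e1, Finset.sum_comm, Finset.mul_sum]
    refine Finset.sum_congr rfl fun s _ => ?_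
    simp only [hF, ← Finset.sum_mul]
    split_ifs with hs
    · rw [hF1 s hs, hs]; simp
    · rw [sum_monoidHom_apply_of_ne_one hs]; simp
  have hN0 : (Nat.card N : ℂ) ≠ 0 := Nat.cast_ne_zero.mpr Nat.card_pos.ne'
  have e2 := mul_left_cancel₀ hN0 hsum
  simp only [F] at e2
  rw [e2, Finset.sum_boole]
  congr 1
  rw [← Fintype.card_subtype, ← Nat.card_eq_fintype_card]
  refine Nat.card_congr (Equiv.subtypeEquiv (Equiv.mulLeft z) fun s => ?_)
  rw [Equiv.coe_mulLeft, hI, mem_inertia']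
  have e : ∀ m : N, (⟨z * s * m * (z * s)⁻¹, hN.conj_mem m m.2 (z * s)⟩ : N) =
      (⟨s * m * s⁻¹, hN.conj_mem m m.2 s⟩ : N)⁻¹ := fun m => Subtype.ext (by
        have := hz _ (hN.conj_mem m m.2 s)
        simp only [Subgroup.coe_inv]
        rw [← this]; group)
  simp only [e, map_inv]
  constructor
  · intro h m
    have := DFunLike.congr_fun h m
    rw [hc'] at this
    rw [eq_inv_of_mul_eq_one_right this, inv_inv]
  · intro h
    ext m
    rw [hc', ← Units.val_inj.mp (h m)]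
    simp

theorem final_ineq {α : Type*} [Fintype α] (f : α → ℕ) (hf : ∀ a, 1 ≤ f a) (d : ℕ) (hd : 2 ≤ d)
    (h : Nat.card {a // f a = 1} ≤ d * Nat.card {a // f a = d}) :
    4 * Nat.card α ≤ 3 * ∑ a, f a := by
  classical
  have h1 : ∀ a, 4 + d * (if f a = d then 1 else 0) ≤ 3 * f a + (if f a = 1 then 1 else 0) := by
    intro a
    have := hf a
    split_ifs <;> omega
  have h2 := Finset.sum_le_sum fun a (_ : a ∈ Finset.univ) => h1 a
  simp only [Finset.sum_add_distrib, ← Finset.mul_sum, Finset.sum_const, Finset.card_univ,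
    smul_eq_mul, Finset.sum_boole, Nat.cast_id] at h2
  rw [Nat.card_eq_fintype_card, Nat.card_eq_fintype_card, Fintype.card_subtype,
    Fintype.card_subtype] at h
  rw [Nat.card_eq_fintype_card]
  omega

/-- Let G be a finite group that is the semidirect product of a normal elementary abelian subgroup N of odd order by a non-trivial 2-subgroup P, with N the unique minimal normal subgroup of G. Consider the strongly real irreducible complex characters of G (Frobenius–Schur indicator +1) whose degree is 1 or even. Then their average degree is at least 4/3: four times their number is at most three times the sum of their degrees. -/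
theorem result {G : Type*} [Group G] [Finite G] (N P : Subgroup G) (hN : N.Normal) (q : ℕ) [Fact q.Prime] (hq : q ≠ 2) (hNel : Cfsg.IsElementaryAbelian q N) (hP : IsPGroup 2 ↥P) (hP1 : P ≠ ⊥) (hdisj : N ⊓ P = ⊥) (hprod : N ⊔ P = ⊤) (hmin : N ≠ ⊥ ∧ ∀ M : Subgroup G, M.Normal → M ≠ ⊥ → N ≤ M) : 4 * Nat.card {χ : Cfsg.IrrCharacter G // (Cfsg.charDegree (χ : G → ℂ) = 1 ∨ 2 ∣ Cfsg.charDegree (χ : G → ℂ)) ∧ (Nat.card G : ℂ)⁻¹ * ∑ᶠ g : G, (χ : G → ℂ) (g * g) = 1} ≤ 3 * (∑ᶠ χ : {χ : Cfsg.IrrCharacter G // (Cfsg.charDegree (χ : G → ℂ) = 1 ∨ 2 ∣ Cfsg.charDegree (χ : G → ℂ)) ∧ (Nat.card G : ℂ)⁻¹ * ∑ᶠ g : G, (χ : G → ℂ) (g * g) = 1}, Cfsg.charDegree (χ.1 : G → ℂ)) := by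
  classical
  have := Fintype.ofFinite G
  have := Fintype.ofFinite N
  have hqp : q.Prime := Fact.out
  obtain ⟨hN1, hmin⟩ := hmin
  obtain ⟨hcomm, hexp⟩ := hNel
  have hc : ∀ a ∈ N, ∀ b ∈ N, a * b = b * a := fun a ha b hb =>
    congrArg Subtype.val (hcomm.is_comm.comm (⟨a, ha⟩ : N) ⟨b, hb⟩)
  have hdec : ∀ g : G, ∃ n ∈ N, ∃ x ∈ P, n * x = g := fun g => by
    have hs' : g ∈ ((N ⊔ P : Subgroup G) : Set G) := by rw [hprod]; trivial
    rw [Subgroup.normal_mul] at hs'
    exact hs'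
  -- the central involution
  obtain ⟨z, hzP, hz1, hz2, hzc⟩ : ∃ z ∈ P, z ≠ 1 ∧ z * z = 1 ∧ ∀ x ∈ P, x * z = z * x := by
    have : Nontrivial P := (Subgroup.nontrivial_iff_ne_bot P).mpr hP1
    have hnt := hP.center_nontrivial
    have hpc := hP.to_subgroup (Subgroup.center P)
    obtain ⟨k, hk⟩ := hpc.exists_card_eq
    have hk0 : k ≠ 0 := by
      rintro rfl
      exact (Finite.one_lt_card (α := Subgroup.center P)).ne' (by simpa using hk)
    obtain ⟨w, hw⟩ := exists_prime_orderOf_dvd_card' (G := Subgroup.center P) 2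
      (hk ▸ dvd_pow_self 2 hk0)
    refine ⟨((w : P) : G), (w : P).2, fun h => ?_, ?_, fun x hx => ?_⟩
    · have : w = 1 := Subtype.ext (Subtype.ext h)
      rw [this, orderOf_one] at hw
      omega
    · have := pow_orderOf_eq_one w
      rw [hw, sq] at this
      exact congrArg (fun u : Subgroup.center P => ((u : P) : G)) this
    · exact congrArg Subtype.val (Subgroup.mem_center_iff.mp w.2 ⟨x, hx⟩)
  have hzinv : z⁻¹ = z := inv_eq_of_mul_eq_one_right hz2
  have hC : N ⊓ Subgroup.centralizer {z} = ⊥ := by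
    by_contra hne
    have hn : (N ⊓ Subgroup.centralizer {z}).Normal := ⟨fun m hm g => by
      obtain ⟨n, hn, x, hx, rfl⟩ := hdec g
      have h1 : x * m * x⁻¹ ∈ N := hN.conj_mem m hm.1 x
      have e : n * x * m * (n * x)⁻¹ = x * m * x⁻¹ := by
        calc n * x * m * (n * x)⁻¹ = n * (x * m * x⁻¹) * n⁻¹ := by group
          _ = _ := by rw [hc n hn _ h1]; group
      rw [e]
      refine ⟨h1, ?_⟩
      have hxz : x ∈ Subgroup.centralizer {z} :=
        Subgroup.mem_centralizer_singleton_iff.mpr (hzc x hx)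
      exact Subgroup.mul_mem _ (Subgroup.mul_mem _ hxz hm.2) (Subgroup.inv_mem _ hxz)⟩
    have h1 := (hmin _ hn hne).trans inf_le_right
    have hzZ : z ∈ Subgroup.center G := by
      rw [Subgroup.mem_center_iff]
      intro g
      obtain ⟨n, hn, x, hx, rfl⟩ := hdec g
      rw [mul_assoc, hzc x hx, ← mul_assoc, Subgroup.mem_centralizer_singleton_iff.mp (h1 hn),
        mul_assoc]
    have hzn : (Subgroup.zpowers z).Normal := ⟨fun m hm g => by
      have : m ∈ Subgroup.center G := (Subgroup.zpowers_le.mpr hzZ) hm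
      rwa [Subgroup.mem_center_iff.mp this g, mul_inv_cancel_right]⟩
    have h2 := hmin _ hzn (by rwa [Ne, Subgroup.zpowers_eq_bot])
    apply hN1
    rw [eq_bot_iff, ← hdisj]
    exact le_inf le_rfl (h2.trans (Subgroup.zpowers_le.mpr hzP))
  have hz : ∀ n ∈ N, z * n * z⁻¹ = n⁻¹ := by
    intro n hn
    have h1 : n * (z * n * z⁻¹) ∈ N ⊓ Subgroup.centralizer {z} := by
      refine ⟨N.mul_mem hn (hN.conj_mem n hn z), ?_⟩
      refine Subgroup.mem_centralizer_singleton_iff.mpr ?_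
      rw [hc n hn _ (hN.conj_mem n hn z), hzinv]
      calc z * n * z * n * z = z * (n * (z * n * z)) := by group
        _ = z * (n * (z * n * z⁻¹)) := by rw [hzinv]
        _ = z * (z * n * z⁻¹ * n) := by rw [hc n hn _ (hN.conj_mem n hn z)]
        _ = z * (z * n * z * n) := by rw [hzinv]
    rw [hC, Subgroup.mem_bot] at h1
    exact eq_inv_of_mul_eq_one_right h1
  have hodd : ∀ n ∈ N, n * n = 1 → n = 1 := by
    intro n hn h
    have h1 : orderOf n ∣ 2 := orderOf_dvd_of_pow_eq_one (by rwa [sq])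
    have h2 : orderOf n ∣ q := orderOf_dvd_of_pow_eq_one (hexp n hn)
    exact orderOf_eq_one_iff.mp (Nat.eq_one_of_dvd_coprimes
      ((Nat.coprime_primes Nat.prime_two hqp).mpr hq.symm) h1 h2)
  obtain ⟨n₀, hn₀, hn₀1⟩ := (Subgroup.nontrivial_iff_exists_ne_one N).mp
    ((Subgroup.nontrivial_iff_ne_bot N).mpr hN1)
  have hnn : n₀ * n₀ ≠ 1 := fun h => hn₀1 (hodd n₀ hn₀ h)
  have hNG : N ≤ commutator G := by
    refine hmin _ inferInstance fun h => hnn ?_
    have : n₀ * z * n₀⁻¹ * z⁻¹ ∈ commutator G :=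
      Subgroup.commutator_mem_commutator (Subgroup.mem_top n₀) (Subgroup.mem_top z)
    rw [h, Subgroup.mem_bot, mul_assoc, mul_assoc, ← mul_assoc z, hz _ (N.inv_mem hn₀),
      inv_inv] at this
    exact this
  obtain ⟨lam, hlam⟩ := exists_monoidHom_apply_ne_one_of_comm (G := N)
    (fun a b => Subtype.ext (hc a a.2 b b.2)) (g := ⟨n₀ * n₀, N.mul_mem hn₀ hn₀⟩)
    (fun h => hnn (congrArg Subtype.val h))
  have hφ := isIrrCharacter_monoidHom lam
  set I := inertia N (fun n => (lam n : ℂ)) with hI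
  have hNI : N ≤ I := le_inertia hφ.isClassFunction
  have := Fintype.ofFinite I
  have hzI : z ∉ I := by
    intro h
    rw [hI, mem_inertia'] at h
    have h1 := h ⟨n₀, hn₀⟩
    have e : (⟨z * n₀ * z⁻¹, hN.conj_mem n₀ hn₀ z⟩ : N) = (⟨n₀, hn₀⟩ : N)⁻¹ :=
      Subtype.ext (hz n₀ hn₀)
    simp only [e, map_inv] at h1
    apply hlam
    have e2 : (⟨n₀ * n₀, N.mul_mem hn₀ hn₀⟩ : N) = ⟨n₀, hn₀⟩ * ⟨n₀, hn₀⟩ := rfl
    rw [e2, map_mul]
    nth_rewrite 1 [← Units.val_inj.mp h1]
    exact inv_mul_cancel _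
  obtain ⟨b, hb⟩ := hP.exists_card_eq
  have hNidx : N.index = 2 ^ b := by
    rw [← hb]
    refine (Subgroup.isComplement'_of_disjoint_and_mul_eq_univ (H := P) (K := N)
      (by rw [disjoint_iff, inf_comm, hdisj]) ?_).index_eq_card
    rw [← Subgroup.mul_normal, sup_comm, hprod]; rfl
  have hNq : IsPGroup q N := fun n => ⟨1, Subtype.ext (by simpa using hexp n n.2)⟩
  obtain ⟨a, ha⟩ := hNq.exists_card_eq
  have hq2 : Nat.Coprime q 2 := (Nat.coprime_primes hqp Nat.prime_two).mpr hq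
  -- the extension
  obtain ⟨th, h1, h2⟩ : ∃ th : I →* ℂˣ, (∀ n : N, th ⟨n, hNI n.2⟩ = lam n) ∧
      ∀ x (hx : x ∈ I), x ∈ P → th ⟨x, hx⟩ = 1 := by
    obtain ⟨χ, hχ, he⟩ := exists_ext_of_coprime_card (hφ.subgroupOf hNI)
      (fun g n => mem_inertia'.mp g.2 ⟨_, n.2⟩) (by
        rw [Nat.card_congr (Subgroup.subgroupOfEquivOfLe hNI).toEquiv, ha]
        refine Nat.Coprime.coprime_dvd_right (Subgroup.relIndex_dvd_index_of_le hNI) ?_
        rw [hNidx]
        exact Nat.Coprime.pow _ _ hq2)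
    obtain ⟨mu, rfl⟩ := hχ.isCharacter.exists_monoidHom_of_apply_one (by
      have := he 1
      rw [show (⟨(((1 : N.subgroupOf I) : I) : G), (1 : N.subgroupOf I).2⟩ : N) = 1 from rfl,
        map_one] at this
      exact this)
    refine ⟨mu ^ ((2 ^ b) ^ q.totient), fun n => ?_, fun x hx hxP => ?_⟩
    · have e : mu ⟨n, hNI n.2⟩ = lam n := Units.val_inj.mp (he ⟨⟨n, hNI n.2⟩, n.2⟩)
      rw [MonoidHom.pow_apply, e, ← map_pow]
      congr 1
      have hm : (2 ^ b) ^ q.totient ≡ 1 [MOD q] :=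
        Nat.ModEq.pow_totient (Nat.Coprime.pow_left _ hq2.symm)
      have hnq : n ^ q = 1 := Subtype.ext (hexp n n.2)
      rw [pow_eq_pow_mod _ hnq, hm, ← pow_eq_pow_mod _ hnq, pow_one]
    · obtain ⟨t, ht⟩ : 2 ^ b ∣ (2 ^ b) ^ q.totient :=
        dvd_pow_self _ (Nat.totient_pos.mpr hqp.pos).ne'
      have hx1 : (⟨x, hx⟩ : I) ^ 2 ^ b = 1 := by
        have : (⟨x, hxP⟩ : P) ^ 2 ^ b = 1 := by rw [← hb]; exact pow_card_eq_one'
        have h5 : x ^ 2 ^ b = 1 := congrArg Subtype.val this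
        exact Subtype.ext h5
      rw [MonoidHom.pow_apply, ← map_pow, ht, pow_mul, hx1, one_pow, map_one]
  have hsum := sum_ext_sq N P hc hprod lam I hI th hNI h1 h2 z hz
  have hd2 : 2 ∣ I.index := by
    obtain ⟨j, -, hj⟩ := (Nat.dvd_prime_pow Nat.prime_two).mp
      (hNidx ▸ Subgroup.index_dvd_of_le hNI)
    rw [hj]
    refine dvd_pow_self 2 ?_
    rintro rfl
    exact hzI (Subgroup.index_eq_one.mp (by simpa using hj) ▸ Subgroup.mem_top z)
  rw [finsum_eq_sum_of_fintype]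
  refine final_ineq _ (fun χ => deg_pos χ.1.2) I.index
    (Nat.le_of_dvd (Nat.pos_of_ne_zero Subgroup.index_ne_zero_of_finite) hd2) ?_
  let R : Subgroup (G →* ℂˣ) := (powMonoidHom 2).ker
  let r : R →* (I →* ℂˣ) := (resLin I).comp R.subtype
  have hψ := isIrrCharacter_monoidHom th
  have hres : ∀ mu : r.range, ∀ n : N, (mu : I →* ℂˣ) ⟨n, hNI n.2⟩ = 1 := by
    rintro ⟨_, la, rfl⟩ n
    exact monoidHom_apply_of_mem_commutator la.1 (hNG n.2)
  have hirr : ∀ mu : r.range, IsIrrCharacter I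
      ((fun g => (th g : ℂ)) * fun g => ((mu : I →* ℂˣ) g : ℂ)) := fun mu => hψ.mul_monoidHom _
  have hover : ∀ mu : r.range, classInner
      (fun n : N => ((fun g => (th g : ℂ)) * fun g => ((mu : I →* ℂˣ) g : ℂ)) ⟨n, hNI n.2⟩)
        (fun n => (lam n : ℂ)) ≠ 0 := by
    intro mu
    have : (fun n : N => ((fun g => (th g : ℂ)) * fun g => ((mu : I →* ℂˣ) g : ℂ))
        ⟨n, hNI n.2⟩) = fun n => (lam n : ℂ) := by
      funext n
      simp only [Pi.mul_apply, hres mu n, Units.val_one, mul_one, h1]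
    rw [this, hφ.classInner_self]
    exact one_ne_zero
  have hdeg : ∀ mu : r.range, charDegree (indFun I
      ((fun g => (th g : ℂ)) * fun g => ((mu : I →* ℂˣ) g : ℂ))) = I.index := by
    intro mu
    rw [deg_indFun I (hirr mu).isCharacter, deg_eq (n := 1) (by simp), mul_one]
  have hfs : ∀ mu : r.range, (Nat.card G : ℂ)⁻¹ * ∑ᶠ g : G, indFun I
      ((fun g => (th g : ℂ)) * fun g => ((mu : I →* ℂˣ) g : ℂ)) (g * g) = 1 := by
    rintro ⟨_, la, rfl⟩
    have e := indFun_mul_res I (fun g => (th g : ℂ))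
      (isIrrCharacter_monoidHom la.1).isClassFunction
    have e' : indFun I ((fun g => (th g : ℂ)) * fun g => ((r la : I →* ℂˣ) g : ℂ)) =
        indFun I (fun g => (th g : ℂ)) * fun g => (la.1 g : ℂ) := e
    have h3 : ∀ g, la.1 (g * g) = 1 := fun g => by
      rw [map_mul, ← sq]
      exact DFunLike.congr_fun (MonoidHom.mem_ker.mp la.2) g
    simp only [e', Pi.mul_apply, h3, Units.val_one, mul_one]
    rw [finsum_eq_sum_of_fintype, sum_indFun_sq, hsum]
    exact inv_mul_cancel₀ (Nat.cast_ne_zero.mpr Nat.card_pos.ne')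
  let S := {χ : Cfsg.IrrCharacter G // (Cfsg.charDegree (χ : G → ℂ) = 1 ∨
    2 ∣ Cfsg.charDegree (χ : G → ℂ)) ∧ (Nat.card G : ℂ)⁻¹ * ∑ᶠ g : G, (χ : G → ℂ) (g * g) = 1}
  let f : r.range → {χ : S // charDegree (χ.1 : G → ℂ) = I.index} := fun mu =>
    ⟨⟨⟨indFun I ((fun g => (th g : ℂ)) * fun g => ((mu : I →* ℂˣ) g : ℂ)),
      (clifford_indFun_irr hNI le_rfl hφ (hirr mu) (hover mu)).1⟩,
        Or.inr ((hdeg mu).symm ▸ hd2), hfs mu⟩, hdeg mu⟩
  have hf : Function.Injective f := by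
    intro u v h
    have h3 := clifford_indFun_injective hNI le_rfl hφ (hirr u) (hover u) (hirr v) (hover v)
      (congrArg (fun x => x.1.1.1) h)
    refine Subtype.ext (monoidHom_coe_injective (funext fun g => ?_))
    exact mul_left_cancel₀ (th g).ne_zero (congrFun h3 g)
  have hlin : ∀ χ : {χ : S // charDegree (χ.1 : G → ℂ) = 1}, ∃ la : R,
      (χ.1.1 : G → ℂ) = fun g => (la.1 g : ℂ) := by
    rintro ⟨⟨⟨χ, hχ⟩, -, h3⟩, h4⟩
    obtain ⟨la, rfl⟩ := hχ.isCharacter.exists_monoidHom_of_apply_one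
      ((deg_eq_one_iff hχ.isCharacter).mp h4)
    refine ⟨⟨la, ?_⟩, rfl⟩
    by_contra hne
    have h5 := sum_monoidHom_apply_of_ne_one (lam := la ^ 2) fun h => hne (MonoidHom.mem_ker.mpr h)
    simp only [finsum_eq_sum_of_fintype, map_mul] at h3
    simp only [sq, MonoidHom.mul_apply] at h5
    rw [h5, mul_zero] at h3
    exact zero_ne_one h3
  choose f1 hf1 using hlin
  have hf1i : Function.Injective f1 := fun u v h =>
    Subtype.ext (Subtype.ext (Subtype.ext (by rw [hf1 u, hf1 v, h])))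
  have hfin : Finite (G →* ℂˣ) := Nat.finite_of_card_ne_zero (by
    rw [card_monoidHom_units]; exact Subgroup.index_ne_zero_of_finite)
  have hk : Nat.card r.ker ≤ I.index := by
    refine le_trans (Nat.card_le_card_of_injective
      (fun u : r.ker => (⟨u.1.1, u.2⟩ : (resLin I).ker)) fun u v h => ?_) (card_ker_resLin_le I)
    have h5 : u.1.1 = v.1.1 := congrArg (fun w : (resLin I).ker => w.1) h
    exact Subtype.ext (Subtype.ext h5)
  calc _ ≤ Nat.card R := Nat.card_le_card_of_injective f1 hf1i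
    _ = Nat.card r.ker * Nat.card r.range := by rw [← r.ker.card_mul_index, Subgroup.index_ker]
    _ ≤ _ := Nat.mul_le_mul hk (Nat.card_le_card_of_injective f hf)

end Cfsg.Agent.S4871
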