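import Cfsg.Statements.S4872
import Cfsg.Agent.Block.SympFix
import Cfsg.Agent.Char.Extension
import Cfsg.Agent.Char.IndChar
import Cfsg.Agent.Char.BrauerApps
import Cfsg.Agent.Char.Degree

set_option autoImplicit false
open Cfsg

namespace Cfsg.Agent.S4872

open Cfsg.Lib Cfsg.Lib.Char Cfsg.Lib.Block
open scoped ComplexConjugate

/-- Let N be a normal subgroup of the finite group G with G/N a 2-group, and let φ be an irreducible complex character of N of 2-defect zero (the 2-part of #N divides φ(1)) whose complex conjugate is G-conjugate to φ. Then some irreducible character of G with Frobenius–Schur indicator +1 contains φ with multiplicity exactly one on restriction to N. -/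
theorem result {G : Type*} [Group G] [Finite G] (N : Subgroup G) [N.Normal] (h2 : IsPGroup 2 (G ⧸ N)) (φ : Cfsg.IrrCharacter ↥N) (hdef : 2 ^ (Nat.card ↥N).factorization 2 ∣ Cfsg.charDegree (φ : ↥N → ℂ)) (hconj : ∃ g : G, ∀ n n' : ↥N, (n' : G) = g * (n : G) * g⁻¹ → (φ : ↥N → ℂ) n' = (starRingEnd ℂ) ((φ : ↥N → ℂ) n)) : ∃ χ : Cfsg.IrrCharacter G, (Nat.card G : ℂ)⁻¹ * ∑ᶠ g : G, (χ : G → ℂ) (g * g) = 1 ∧ (Nat.card ↥N : ℂ)⁻¹ * ∑ᶠ n : ↥N, (χ : G → ℂ) n * (starRingEnd ℂ) ((φ : ↥N → ℂ) n) = 1 := by
  classical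
  have := Fintype.ofFinite G
  have : Fintype N := Fintype.ofFinite _
  obtain ⟨P⟩ : Nonempty (Sylow 2 G) := inferInstance
  have : Fintype (P : Subgroup G) := Fintype.ofFinite _
  obtain ⟨d, hd0, hd⟩ := φ.2.exists_nat_degree_pos
  have hdd : charDegree (φ : N → ℂ) = d := by simp [charDegree, hd]
  rw [hdd] at hdef
  obtain ⟨t, ht⟩ : d ∣ Nat.card N := irr_degree_dvd_card φ.2 hd
  have ht0 : t ≠ 0 := by
    rintro rfl
    exact Nat.card_pos.ne' ht
  have hfac : (Nat.card N).factorization 2 ≤ d.factorization 2 :=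
    (Nat.prime_two.pow_dvd_iff_le_factorization hd0.ne').1 hdef
  have hft : t.factorization 2 = 0 := by
    rw [ht, Nat.factorization_mul hd0.ne' ht0, Finsupp.add_apply] at hfac
    omega
  have ht2 : ¬ 2 ∣ t := fun h => by
    have := (Nat.prime_two.dvd_iff_one_le_factorization ht0).1 h
    omega
  obtain ⟨k, hk⟩ : ∃ k, N.index = 2 ^ k := IsPGroup.iff_card.1 h2
  obtain ⟨m, hm, hdm⟩ : ∃ m, Odd m ∧ d = 2 ^ d.factorization 2 * m :=
    ⟨ordCompl[2] d, Nat.odd_iff.2 (Nat.two_dvd_ne_zero.1 (Nat.not_dvd_ordCompl Nat.prime_two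
      hd0.ne')), (Nat.ordProj_mul_ordCompl_eq_self d 2).symm⟩
  have hP : Nat.card P = 2 ^ k * 2 ^ d.factorization 2 := by
    rw [Sylow.card_eq_multiplicity, ← N.card_mul_index, ht, hk,
      Nat.factorization_mul (mul_ne_zero hd0.ne' ht0) (by positivity),
      Nat.factorization_mul hd0.ne' ht0]
    simp [hft, Nat.prime_two.factorization_pow, pow_add, mul_comm]
  have hΦ := isCharacter_indFun φ.2.isCharacter
  have hval : ∀ x : (P : Subgroup G), x ≠ 1 → indFun N (φ : N → ℂ) x = 0 := fun x hx =>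
    indFun_eq_zero N _ fun y hy => Brauer.irr_apply_eq_zero_of_defect_zero φ.2 Nat.prime_two hd ht
      ht2 (by
        obtain ⟨j, hj⟩ := IsPGroup.iff_orderOf.1 P.isPGroup' x
        rw [← Subgroup.orderOf_coe, Subgroup.coe_mk, ← MulAut.conj_apply, MulEquiv.orderOf_eq,
          Subgroup.orderOf_coe, hj]
        exact dvd_pow_self 2 (by rintro rfl; exact hx (by simpa using hj)))
  have h1 : classInner (indFun N (φ : N → ℂ)) (indFun (P : Subgroup G) fun _ => 1) = m := by
    rw [classInner_indFun_right _ _ hΦ.isClassFunction, classInner_one_right,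
      Finset.sum_eq_single 1 (fun x _ hx => hval x hx) (by simp), OneMemClass.coe_one, indFun_one,
      hd, hk, hP]
    generalize d.factorization 2 = j at hdm
    rw [hdm]
    push_cast
    field_simp
  choose a ha using fun χ : IrrCharacter G =>
    (χ.2.isCharacter.res N).exists_nat_classInner φ.2.isCharacter
  choose b hb using fun χ : IrrCharacter G =>
    (χ.2.isCharacter.res (P : Subgroup G)).exists_nat_classInner isCharacter_one
  have h3 : ∑ χ, a χ * b χ = m := by
    rw [hΦ.isClassFunction.classInner_eq_sum_irr] at h1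
    have : ((∑ χ, a χ * b χ : ℕ) : ℂ) = m := by
      rw [← h1]
      push_cast
      refine Finset.sum_congr rfl fun χ _ => ?_
      rw [classInner_indFun_left _ _ χ.2.isClassFunction,
        classInner_indFun_right _ _ χ.2.isClassFunction, hb, ← conj_classInner, ha]
      simp
    exact_mod_cast this
  obtain ⟨χ, hr, hodd⟩ := SympFix.exists_real_odd (fun χ => a χ * b χ) (fun χ => by
    have e1 : (a ⟨_, χ.2.conj⟩ : ℂ) = a χ := by
      obtain ⟨g, hg⟩ := hconj
      have e : classInner (fun n : N => conj ((χ : G → ℂ) n)) (φ : N → ℂ) =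
          classInner (fun n : N => conj ((χ : G → ℂ) n)) (fun n => conj ((φ : N → ℂ) n)) := by
        simp only [classInner]
        congr 1
        refine (Fintype.sum_equiv (MulAut.conjNormal g).toEquiv _ _ fun n => ?_).symm
        rw [← hg n (MulAut.conjNormal g n) rfl]
        exact congrArg (fun z => conj z * _) (χ.2.isClassFunction.apply_conj n g).symm
      rw [← ha, e, classInner_conj_conj, ← conj_classInner, ha]
      simp
    have e2 : (b ⟨_, χ.2.conj⟩ : ℂ) = b χ := by
      have := classInner_conj_conj (fun n : (P : Subgroup G) => (χ : G → ℂ) n) (fun _ => 1)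
      simp only [map_one] at this
      rw [← hb, this, ← conj_classInner, hb]
      simp
    rw [Nat.cast_inj.1 e1, Nat.cast_inj.1 e2]) (h3 ▸ hm)
  rw [Nat.odd_mul] at hodd
  refine ⟨χ, ?_, ?_⟩
  · rw [finsum_eq_sum_of_fintype, ← fsInd_def]
    rcases χ.2.fsInd_cases with ⟨⟨g, hg⟩, -⟩ | h | h
    · exact absurd (hr g) hg
    · exact h.2.1
    · exact absurd (SympFix.even_of_fsInd (P : Subgroup G).subtype χ.2 h.2.1 (hb χ))
        (Nat.not_even_iff_odd.2 hodd.2)
  · rw [finsum_eq_sum_of_fintype]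
    have h4 := (ramification_dvd_relIndex χ.2 φ.2 hodd.1.pos.ne' (ha χ)).trans
      (Subgroup.relIndex_dvd_index_of_normal N _)
    rw [hk] at h4
    have h5 : a χ = 1 := Nat.Coprime.eq_one_of_dvd
      (Nat.Coprime.pow_right k (Nat.coprime_two_right.2 hodd.1)) h4
    have := ha χ
    rw [h5, Nat.cast_one] at this
    exact this

end Cfsg.Agent.S4872
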