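import Cfsg.Statements.S4873
import Cfsg.Agent.Block.GalPow
import Cfsg.Agent.Char.FrobSchur

set_option autoImplicit false
open Cfsg

namespace Cfsg.Agent.S4873

open Cfsg.Lib.Block Cfsg.Lib.Char

/-- Let N be a normal subgroup of odd index in the finite group G. Then every irreducible complex character of N with Frobenius–Schur indicator +1 lies under exactly one irreducible character of G with Frobenius–Schur indicator +1. -/
theorem result {G : Type*} [Group G] [Finite G] (N : Subgroup G) [N.Normal] (hodd : Odd N.index) (φ : Cfsg.IrrCharacter ↥N) (hφ : (Nat.card ↥N : ℂ)⁻¹ * ∑ᶠ g : ↥N, (φ : ↥N → ℂ) (g * g) = 1) : ∃! χ : Cfsg.IrrCharacter G, (Nat.card G : ℂ)⁻¹ * ∑ᶠ g : G, (χ : G → ℂ) (g * g) = 1 ∧ (∑ᶠ n : ↥N, (χ : G → ℂ) n * (starRingEnd ℂ) ((φ : ↥N → ℂ) n)) ≠ 0 := by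
  classical
  have := Fintype.ofFinite G
  have := Fintype.ofFinite N
  simp only [finsum_eq_sum_of_fintype] at hφ ⊢
  have hov : ∀ χ : IrrCharacter G, (∑ n : N, (χ : G → ℂ) n * (starRingEnd ℂ) ((φ : N → ℂ) n)) ≠ 0 ↔
      Over N (χ : G → ℂ) (φ : N → ℂ) := fun χ => by
    rw [over_iff, classInner, mul_ne_zero_iff, and_iff_right (inv_ne_zero (card_ne_zero N))]
  have hreal : ∀ {H : Type _} [Group H] [Fintype H] (χ : IrrCharacter H),
      fsInd (χ : H → ℂ) ≠ 0 → barI χ = χ := fun χ h => by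
    rw [barI_eq_self_iff]
    by_contra! hc
    exact h (χ.2.fsInd_eq_zero_iff.mpr hc)
  simp only [hov, ← fsInd_def] at hφ ⊢
  obtain ⟨χ, ⟨h1, h2⟩, hu⟩ := existsUnique_barI_eq_over hodd
    ((hreal φ (hφ ▸ one_ne_zero)).trans (cjI_one φ).symm)
  refine ⟨χ, ⟨?_, h1⟩, fun ψ hψ => hu ψ ⟨hψ.2, hreal ψ (hψ.1 ▸ one_ne_zero)⟩⟩
  have hsq : ∀ n : N, (Nat.card {s : G // s * s = n} : ℂ) = Nat.card {s : N // s * s = n} :=
    fun n => by
    refine congrArg _ (Nat.card_congr ⟨fun s => ⟨⟨s.1, ?_⟩, Subtype.ext s.2⟩,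
      fun s => ⟨s.1, congrArg Subtype.val s.2⟩, fun _ => rfl, fun _ => rfl⟩)
    rw [← QuotientGroup.eq_one_iff, ← orderOf_eq_one_iff]
    refine Nat.eq_one_of_dvd_coprimes hodd.coprime_two_left (orderOf_dvd_of_pow_eq_one ?_)
      (orderOf_dvd_natCard _)
    rw [sq, ← QuotientGroup.mk_mul, s.2, QuotientGroup.eq_one_iff]
    exact n.2
  have hfun : ∑ ψ : IrrCharacter G, fsInd (ψ : G → ℂ) • (fun n : N => (ψ : G → ℂ) n) =
      ∑ ξ : IrrCharacter N, fsInd (ξ : N → ℂ) • (ξ : N → ℂ) := by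
    funext n
    simp only [Finset.sum_apply, Pi.smul_apply, smul_eq_mul]
    rw [← card_sqrt_eq_sum_fsInd, ← card_sqrt_eq_sum_fsInd, hsq]
  have h3 := congrArg (fun f => classInner f (φ : N → ℂ)) hfun
  simp only [classInner_sum_smul_irr, hφ] at h3
  rw [classInner_sum_left, Finset.sum_eq_single χ (fun ψ _ hne => by
    rw [classInner_smul_left]
    by_contra h
    rw [mul_eq_zero, not_or] at h
    exact hne (hu ψ ⟨over_iff.mpr h.2, hreal ψ h.1⟩)) (by simp), classInner_smul_left] at h3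
  obtain ⟨e, he⟩ := (χ.2.isCharacter.res N).exists_nat_classInner φ.2.isCharacter
  rw [he] at h3
  rcases χ.2.fsInd_eq with h | h | h
  · rw [h, zero_mul] at h3; exact absurd h3 zero_ne_one
  · exact h
  · rw [h] at h3
    have h4 : ((e + 1 : ℕ) : ℂ) = 0 := by push_cast; linear_combination -h3
    exact absurd (Nat.cast_eq_zero.mp h4) e.succ_ne_zero

end Cfsg.Agent.S4873
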