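import Cfsg.Statements.S4889
import Cfsg.Agent.Block.EqDeg

set_option autoImplicit false
open Cfsg Cfsg.Lib.Block Cfsg.Lib.Char

namespace Cfsg.Agent.S4889

/-- Let G be a finite group, p a prime, M a maximal ideal of the algebraic integers containing p, and B a p-block of G that has an abelian defect group and in which every irreducible character has height zero. Then all irreducible characters of B have the same degree if and only if B is a nilpotent block. -/
theorem result {G : Type*} [Group G] [Finite G] (p : ℕ) [Fact p.Prime] (M : Ideal Cfsg.AlgInt) (hM : Cfsg.IsPModular p M) (B : Set (Cfsg.IrrCharacter G)) (hB : Cfsg.IsPBlock M B) (D : Subgroup G) (hD : Cfsg.IsDefectGroup p M B D) (hDab : IsMulCommutative ↥D) (h0 : ∀ χ : Cfsg.IrrCharacter G, χ ∈ B → Cfsg.blockHeight p B (χ : G → ℂ) = 0) : (∃ d : ℕ, ∀ χ : Cfsg.IrrCharacter G, χ ∈ B → Cfsg.charDegree (χ : G → ℂ) = d) ↔ Cfsg.IsNilpotentBlock p M B := by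
  have hab : D ≤ Subgroup.centralizer (D : Set G) := Subgroup.le_centralizer D
  constructor
  · rintro ⟨n, hn⟩
    exact SymLoc.isNilpotentBlock_of_eq_deg hM hB hn hD hab
  · intro h
    have := charP_kM hM
    have := Fintype.ofFinite G
    obtain ⟨e, he⟩ := exists_isMax_eB hM hB hD
    have hT := (he.nilp_iff_of_comm hab).1 ((Pair.isNilpotentBlock_iff hM).1 h).2
    rw [inf_assoc, top_inf_eq] at hT
    refine ⟨charDegree (posGen p B), fun χ hχ => ?_⟩
    rw [← pRegularPart_eq_posGen_nilp hM he hab hT hB hχ]
    exact (charDegree_of_eq ((pRegularPart_one p hM.1 _).trans (irr_charDegree_cast χ).symm)).symm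

end Cfsg.Agent.S4889
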