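import Cfsg.Statements.S4911
import Cfsg.Agent.Char.Glauberman
import Cfsg.Agent.Char.PermLemma
import Cfsg.Agent.Solv.CoprimeBasic
import Mathlib.GroupTheory.Nilpotent

set_option autoImplicit false
open Cfsg

namespace Cfsg.Agent.S4911

open Cfsg.Lib.Char

/-- Let P and K be subgroups of a finite group with P a p-group normalizing K and K of order prime to p. Then the number of P-invariant real-valued irreducible complex characters of K equals the number of conjugacy classes of K that are real (closed under inversion) and P-invariant. Moreover, if every real-valued irreducible character of K is P-invariant, then every real element of K (one conjugate in K to its inverse) is conjugate in K to an element centralized by P. -/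
theorem result {G : Type*} [Group G] [Finite G] (p : ℕ) [Fact p.Prime] (P K : Subgroup G) (hP : IsPGroup p ↥P) (hK : ¬ p ∣ Nat.card ↥K) (hPK : P ≤ Subgroup.normalizer (K : Set G)) : Nat.card {θ : Cfsg.IrrCharacter ↥K // (∀ k : ↥K, ((θ : ↥K → ℂ) k).im = 0) ∧ (∀ x ∈ P, ∀ k k' : ↥K, (k' : G) = x * (k : G) * x⁻¹ → (θ : ↥K → ℂ) k' = (θ : ↥K → ℂ) k)} = Nat.card {c : ConjClasses ↥K // (∀ k : ↥K, ConjClasses.mk k = c → IsConj k k⁻¹) ∧ ∀ k : ↥K, ConjClasses.mk k = c → ∀ x ∈ P, ∀ k' : ↥K, (k' : G) = x * (k : G) * x⁻¹ → ConjClasses.mk k' = c} ∧ ((∀ θ : Cfsg.IrrCharacter ↥K, (∀ k : ↥K, ((θ : ↥K → ℂ) k).im = 0) → (∀ x ∈ P, ∀ k k' : ↥K, (k' : G) = x * (k : G) * x⁻¹ → (θ : ↥K → ℂ) k' = (θ : ↥K → ℂ) k)) → ∀ k : ↥K, IsConj k k⁻¹ → ∃ k' : ↥K, IsConj k k' ∧ ∀ x ∈ P, x * (k' : G) * x⁻¹ = (k' : G)) := by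
  classical
  have hnorm : ∀ s ∈ P, ∀ g ∈ K, s * g * s⁻¹ ∈ K := Subgroup.le_normalizer_iff.1 hPK
  set C : Subgroup G := K ⊓ Subgroup.centralizer (P : Set G) with hC
  have hCG : C ≤ K := inf_le_left
  have := Fintype.ofFinite C
  have hi := isFixedEmb_conjHom hnorm hC hCG
  obtain ⟨e, he⟩ := exists_glauberman_equiv hP hi hK
  have hsolv : Group.IsSolvable P := by
    have := hP.isNilpotent
    infer_instance
  have hcop : (Nat.card P).Coprime (Nat.card K) := by
    obtain ⟨k, hk⟩ := hP.exists_card_eq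
    rw [hk]
    exact ((Nat.Prime.coprime_iff_not_dvd Fact.out).2 hK).pow_left k
  have hconj : ∀ (χ : K → ℂ) (β : C → ℂ), resMult (Subgroup.inclusion hCG)
      (fun g => (starRingEnd ℂ) (χ g)) (fun c => (starRingEnd ℂ) (β c)) =
      resMult (Subgroup.inclusion hCG) χ β := fun χ β => by
    simp only [resMult]
    rw [classInner_conj_conj, ← conj_classInner, Complex.conj_re]
  have hreal : ∀ χ, (∀ k, (χ.1.1 k).im = 0) ↔ ∀ c, ((e χ).1 c).im = 0 := fun χ => by
    have h1 := (he χ _).1 rfl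
    have h2 := h1
    rw [← hconj] at h2
    simp only [← Complex.conj_eq_iff_im]
    constructor
    · intro h
      simp only [h] at h2
      exact congrFun (glauberman_unique hP hi hK χ.1.2 χ.2 (e χ).2.conj (e χ).2 h2 h1)
    · intro h
      simp only [h] at h2
      exact congrFun (glauberman_inj hP hi hK χ.1.2.conj χ.1.2 (fun s g => by rw [χ.2 s g]) χ.2
        (e χ).2 h2 h1)
  have hfix : ∀ g : K, (∀ x ∈ P, ∀ k' : K, (k' : G) = x * (g : G) * x⁻¹ →
      ConjClasses.mk k' = ConjClasses.mk g) →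
      ∃ c : C, IsConj g (Subgroup.inclusion hCG c) := fun g hg => by
    obtain ⟨k, hk, h⟩ := Lib.Solv.Coprime.exists_conj_mem_centralizer hPK hcop
      (Or.inl hsolv) (x := (g : G)) (fun s hs => by
        have h2 := (hg s hs ⟨_, hnorm s hs g g.2⟩ rfl).symm
        rw [ConjClasses.mk_eq_mk_iff_isConj, isConj_iff] at h2
        obtain ⟨x, hx⟩ := h2
        exact ⟨x, x.2, congrArg Subtype.val hx⟩)
    exact ⟨⟨k * g * k⁻¹, K.mul_mem (K.mul_mem hk g.2) (K.inv_mem hk), h⟩,
      isConj_iff.2 ⟨⟨k, hk⟩, rfl⟩⟩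
  have hinj : ∀ c d : C, IsConj (Subgroup.inclusion hCG c) (Subgroup.inclusion hCG d) →
      IsConj c d := fun c d h => by
    obtain ⟨x, hx⟩ := isConj_iff.1 h
    have h3 : (x : G) * c * (x : G)⁻¹ = d := congrArg Subtype.val hx
    obtain ⟨y, hy, h4⟩ := Lib.Solv.Coprime.exists_centralizer_conj_elem hPK hcop
      (Or.inl hsolv) x.2 c.2.2 (h3 ▸ d.2.2)
    exact isConj_iff.2 ⟨⟨y, hy⟩, Subtype.ext (h4.trans h3)⟩
  have hinv : ∀ {H : Type _} [Group H] {a b : H}, IsConj a b → IsConj a a⁻¹ → IsConj b b⁻¹ := by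
    intro H _ a b h h'
    obtain ⟨c, rfl⟩ := isConj_iff.1 h
    exact h.symm.trans (h'.trans (isConj_iff.2 ⟨c, by group⟩))
  have main : Nat.card {θ : IrrCharacter K // (∀ k : K, ((θ : K → ℂ) k).im = 0) ∧
      (∀ x ∈ P, ∀ k k' : K, (k' : G) = x * (k : G) * x⁻¹ → (θ : K → ℂ) k' = (θ : K → ℂ) k)} =
      Nat.card {c : ConjClasses K // (∀ k : K, ConjClasses.mk k = c → IsConj k k⁻¹) ∧
      ∀ k : K, ConjClasses.mk k = c → ∀ x ∈ P, ∀ k' : K, (k' : G) = x * (k : G) * x⁻¹ →
        ConjClasses.mk k' = c} := by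
    simp only [← isInv_conjHom_iff hnorm]
    have h1 : Nat.card {θ : IrrCharacter K // (∀ k : K, ((θ : K → ℂ) k).im = 0) ∧
        IsInv (conjHom K P hnorm) θ.1} =
        Nat.card {β : IrrCharacter C // ∀ c, (β.1 c).im = 0} :=
      Nat.card_congr ((Equiv.subtypeEquivRight fun _ => and_comm).trans
        ((Equiv.subtypeSubtypeEquivSubtypeInter _ _).symm.trans (e.subtypeEquiv hreal)))
    rw [h1, card_real_irr_eq]
    refine Nat.card_congr (Equiv.ofBijective
      (fun L => ⟨ConjClasses.map (Subgroup.inclusion hCG) L.1, ?_⟩) ⟨?_, ?_⟩)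
    · obtain ⟨L, hL⟩ := L
      obtain ⟨c, rfl⟩ := ConjClasses.mk_surjective L
      refine ⟨fun k h => ?_, fun g h s hs g' hg => ?_⟩
      · change ConjClasses.mk _ = ConjClasses.mk (Subgroup.inclusion hCG c) at h
        rw [ConjClasses.mk_eq_mk_iff_isConj] at h
        exact hinv h.symm ((Subgroup.inclusion hCG).map_isConj (hL c rfl))
      · change ConjClasses.mk _ = ConjClasses.mk (Subgroup.inclusion hCG c) at h ⊢
        rw [ConjClasses.mk_eq_mk_iff_isConj, isConj_iff] at h ⊢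
        obtain ⟨x, hx⟩ := h
        refine ⟨⟨s * x * s⁻¹, hnorm s hs x x.2⟩, Subtype.ext ?_⟩
        have h2 : (x : G) * g * (x : G)⁻¹ = c := congrArg Subtype.val hx
        have h3 : s * c * s⁻¹ = c := by
          rw [c.2.2 s hs, mul_inv_cancel_right]
        change s * x * s⁻¹ * g' * (s * x * s⁻¹)⁻¹ = c
        rw [hg, ← h3, ← h2]
        group
    · rintro ⟨L, hL⟩ ⟨M, hM⟩ h
      obtain ⟨c, rfl⟩ := ConjClasses.mk_surjective L
      obtain ⟨d, rfl⟩ := ConjClasses.mk_surjective M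
      have h2 : ConjClasses.mk (Subgroup.inclusion hCG c) =
          ConjClasses.mk (Subgroup.inclusion hCG d) := congrArg Subtype.val h
      rw [ConjClasses.mk_eq_mk_iff_isConj] at h2
      exact Subtype.ext (ConjClasses.mk_eq_mk_iff_isConj.2 (hinj c d h2))
    · rintro ⟨L, hL1, hL2⟩
      obtain ⟨g, rfl⟩ := ConjClasses.mk_surjective L
      obtain ⟨c, hc⟩ := hfix g (hL2 g rfl)
      refine ⟨⟨ConjClasses.mk c, fun d hd => ?_⟩,
        Subtype.ext (ConjClasses.mk_eq_mk_iff_isConj.2 hc.symm)⟩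
      rw [ConjClasses.mk_eq_mk_iff_isConj] at hd
      exact hinv hd.symm (hinj c c⁻¹ (hinv hc (hL1 g rfl)))
  refine ⟨main, fun H k hk => ?_⟩
  rw [Nat.card_congr (Equiv.subtypeEquivRight fun θ => and_iff_left_of_imp (H θ)),
    card_real_irr_eq] at main
  have hb := (Nat.bijective_iff_injective_and_card
    (Subtype.map (p := fun c : ConjClasses K => (∀ k : K, ConjClasses.mk k = c → IsConj k k⁻¹) ∧
      ∀ k : K, ConjClasses.mk k = c → ∀ x ∈ P, ∀ k' : K, (k' : G) = x * (k : G) * x⁻¹ →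
        ConjClasses.mk k' = c) (q := fun c => ∀ k : K, ConjClasses.mk k = c → IsConj k k⁻¹) id
      fun _ h => h.1)).2 ⟨Subtype.map_injective _ Function.injective_id, main.symm⟩
  obtain ⟨⟨L, hL1, hL2⟩, hL⟩ := hb.2 ⟨ConjClasses.mk k, fun l hl =>
    hinv (ConjClasses.mk_eq_mk_iff_isConj.1 hl).symm hk⟩
  obtain rfl : L = ConjClasses.mk k := congrArg Subtype.val hL
  obtain ⟨c, hc⟩ := hfix k (hL2 k rfl)
  refine ⟨_, hc, fun x hx => ?_⟩
  change x * c * x⁻¹ = c
  rw [c.2.2 x hx, mul_inv_cancel_right]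

end Cfsg.Agent.S4911
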