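import Cfsg.Statements.S4912
import Cfsg.Agent.Char.FSRes
import Cfsg.Agent.Char.DegBasic

set_option autoImplicit false
open Cfsg

namespace Cfsg.Agent.S4912

open Cfsg.Lib.Char

theorem card_le_index {G : Type*} [Group G] [Fintype G] (I : Subgroup G) {α : I → ℂ}
    (hα : IsIrrCharacter I α) (h1 : charDegree α = 1) (s : Finset (IrrCharacter G))
    (hs : ∀ χ ∈ s, ∀ x : I, χ.1 x = α x) : s.card ≤ I.index := by
  have := Fintype.ofFinite I
  obtain ⟨c, h2, h3, -⟩ := (isCharacter_indFun hα.isCharacter).exists_nat_multiplicity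
  have h4 := congrFun h3 1
  rw [← Deg.cast_deg (isCharacter_indFun hα.isCharacter), Deg.deg_indFun _ hα.isCharacter, h1,
    mul_one, Finset.sum_apply] at h4
  simp only [Pi.smul_apply, smul_eq_mul, fun χ : IrrCharacter G => (Deg.cast_deg_irr χ.2).symm] at h4
  rw [show I.index = ∑ χ : IrrCharacter G, c χ * charDegree χ.1 by exact_mod_cast h4,
    Finset.card_eq_sum_ones]
  refine (Finset.sum_le_sum fun χ hχ => ?_).trans
    (Finset.sum_le_sum_of_subset (Finset.subset_univ s))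
  have h5 := h2 χ
  rw [classInner_indFun_irr_eq hα.isCharacter χ.2.isCharacter, funext (hs χ hχ),
    hα.classInner_self] at h5
  rw [show c χ = 1 by exact_mod_cast h5.symm, one_mul]
  exact Deg.deg_pos χ.2

/-- Let G be a finite group with a non-abelian minimal normal subgroup N, and let φ be an irreducible complex character of N with stabilizer I in G such that φ extends to an irreducible character of I with Frobenius–Schur indicator +1. Put d = φ(1)·[G : I]. Then the number of linear characters of G with Frobenius–Schur indicator +1 is at most [G : I] times the number of irreducible characters of G of degree d with Frobenius–Schur indicator +1. -/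
theorem result {G : Type*} [Group G] [Finite G] (N : Subgroup G) (hN : N.Normal) (hN1 : N ≠ ⊥) (hmin : ∀ M : Subgroup G, M.Normal → M ≤ N → M = ⊥ ∨ M = N) (hna : ¬ IsMulCommutative ↥N) (φ : Cfsg.IrrCharacter ↥N) (I : Subgroup G) (hI : ∀ g : G, g ∈ I ↔ ∀ n n' : ↥N, (n' : G) = g * (n : G) * g⁻¹ → (φ : ↥N → ℂ) n' = (φ : ↥N → ℂ) n) (hNI : N ≤ I) (hext : ∃ ψ : Cfsg.IrrCharacter ↥I, (Nat.card ↥I : ℂ)⁻¹ * ∑ᶠ g : ↥I, (ψ : ↥I → ℂ) (g * g) = 1 ∧ ∀ n : ↥N, (ψ : ↥I → ℂ) (Subgroup.inclusion hNI n) = (φ : ↥N → ℂ) n) : Nat.card {χ : Cfsg.IrrCharacter G // Cfsg.charDegree (χ : G → ℂ) = 1 ∧ (Nat.card G : ℂ)⁻¹ * ∑ᶠ g : G, (χ : G → ℂ) (g * g) = 1} ≤ I.index * Nat.card {χ : Cfsg.IrrCharacter G // Cfsg.charDegree (χ : G → ℂ) = Cfsg.charDegree (φ : ↥N → ℂ) * I.index ∧ (Nat.card G : ℂ)⁻¹ * ∑ᶠ g : G, (χ : G → ℂ) (g * g) = 1} := by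
  classical
  have := Fintype.ofFinite G
  have := Fintype.ofFinite I
  have := Fintype.ofFinite N
  obtain ⟨ψ, h1, h2⟩ := hext
  simp only [finsum_eq_sum_of_fintype, ← fsInd_def] at h1 ⊢
  have hNN : N ≤ commutator G := by
    rcases hmin ⁅N, N⁆ inferInstance (Subgroup.commutator_le_left N N) with h | h
    · exact absurd (Subgroup.le_centralizer_iff_isMulCommutative.1
        (Subgroup.commutator_eq_bot_iff_le_centralizer.1 h)) hna
    · exact h.ge.trans (Subgroup.commutator_mono le_top le_top)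
  have hT : inertia N φ.1 ≤ I := fun g hg => (hI g).2 fun n n' e => by
    obtain rfl : n' = ⟨g * n * g⁻¹, hN.conj_mem _ n.2 g⟩ := Subtype.ext e
    exact mem_inertia'.1 hg n
  have real : ∀ {H : Type _} [Group H] [Fintype H] {χ : H → ℂ}, IsIrrCharacter H χ → fsInd χ = 1 →
      ∀ g, (χ g).im = 0 := fun hχ h => by
    by_contra h'
    push Not at h'
    exact zero_ne_one ((hχ.fsInd_eq_zero_iff.2 h').symm.trans h)
  have hψN : IsIrrCharacter (N.subgroupOf I) fun n => ψ.1 n := by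
    have := φ.2.comp_equiv (Subgroup.subgroupOfEquivOfLe hNI)
    simp only [← h2] at this
    exact this
  have lin : ∀ χ : IrrCharacter G, charDegree χ.1 = 1 →
      IsIrrCharacter I (fun x : I => χ.1 x) ∧ N.subgroupOf I ≤ charKer fun x : I => χ.1 x :=
    fun χ h => ⟨(χ.2.isCharacter.res I).isIrrCharacter_of_apply_one
        ((Deg.deg_eq_one_iff χ.2.isCharacter).1 h), by
      rw [χ.2.isCharacter.charKer_res]
      exact fun x hx => (Deg.commutator_le_charKer_iff χ.2).2 h (hNN hx)⟩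
  have hirr : ∀ χ : IrrCharacter G, charDegree χ.1 = 1 →
      IsIrrCharacter I ((fun x : I => χ.1 x) * ψ.1) := fun χ h =>
    gallagher_irr ψ.2.isCharacter hψN (lin χ h).1 (lin χ h).2
  have hov : ∀ χ : IrrCharacter G, charDegree χ.1 = 1 →
      classInner (fun n : N => ((fun x : I => χ.1 x) * ψ.1) ⟨n, hNI n.2⟩) φ.1 ≠ 0 := fun χ h => by
    have : (fun n : N => ((fun x : I => χ.1 x) * ψ.1) ⟨n, hNI n.2⟩) = φ.1 := funext fun n => by
      have h3 := apply_of_mem_charKer ((lin χ h).2 (x := ⟨n, hNI n.2⟩) n.2)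
      simp only [OneMemClass.coe_one, (Deg.deg_eq_one_iff χ.2.isCharacter).1 h] at h3
      simp only [Pi.mul_apply, h3, one_mul]
      exact h2 n
    rw [this, φ.2.classInner_self]
    exact one_ne_zero
  let F : {χ : IrrCharacter G // charDegree χ.1 = 1 ∧ fsInd χ.1 = 1} →
      {χ : IrrCharacter G // charDegree χ.1 = charDegree φ.1 * I.index ∧ fsInd χ.1 = 1} :=
    fun χ => ⟨⟨_, (clifford_indFun_irr hNI hT φ.2 (hirr χ.1 χ.2.1) (hov χ.1 χ.2.1)).1⟩, by
      rw [Deg.deg_indFun _ (hirr χ.1 χ.2.1).isCharacter, mul_comm,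
        Deg.deg_mul (lin χ.1 χ.2.1).1.isCharacter ψ.2.isCharacter, Deg.deg_res, χ.2.1, one_mul,
        Deg.deg_congr (χ := φ.1) (φ := ψ.1) (h2 1).symm], by
      have hr := real χ.1.2 χ.2.2
      rw [fsInd_indFun (hirr χ.1 χ.2.1) (fun x => by simp [hr, real ψ.2 h1 x])
        (clifford_indFun_irr hNI hT φ.2 (hirr χ.1 χ.2.1) (hov χ.1 χ.2.1)).1]
      refine Eq.trans ?_ h1
      rw [fsInd_def, fsInd_def]
      obtain ⟨lam, hl⟩ := χ.1.2.isCharacter.exists_monoidHom_of_apply_one
        ((Deg.deg_eq_one_iff χ.1.2.isCharacter).1 χ.2.1)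
      refine congrArg _ (Finset.sum_congr rfl fun x _ => ?_)
      have h3 := χ.1.2.isCharacter.apply_inv x
      rw [Complex.conj_eq_iff_im.2 (hr x)] at h3
      simp only [hl, map_inv, Units.val_inj, inv_eq_iff_mul_eq_one] at h3
      simp [hl, ← Units.val_mul, h3]⟩
  have := Fintype.ofFinite {χ : IrrCharacter G // charDegree χ.1 = 1 ∧ fsInd χ.1 = 1}
  have := Fintype.ofFinite
    {χ : IrrCharacter G // charDegree χ.1 = charDegree φ.1 * I.index ∧ fsInd χ.1 = 1}
  rw [Nat.card_eq_fintype_card, Nat.card_eq_fintype_card, ← Finset.card_univ, ← Finset.card_univ]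
  refine Finset.card_le_mul_card_image_of_maps_to (f := F) (fun _ _ => Finset.mem_univ _) _
    fun b _ => ?_
  rcases (Finset.univ.filter fun a => F a = b).eq_empty_or_nonempty with h | ⟨a, ha⟩
  · rw [h]; exact Nat.zero_le _
  · rw [← Finset.card_map (Function.Embedding.subtype _)]
    refine card_le_index I (lin a.1 a.2.1).1 ((Deg.deg_res I a.1.1).trans a.2.1) _ fun χ hχ => ?_
    obtain ⟨c, hc, rfl⟩ := Finset.mem_map.1 hχ
    have h3 : F c = F a := (Finset.mem_filter.1 hc).2.trans (Finset.mem_filter.1 ha).2.symm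
    exact congrFun (gallagher_injective ψ.2.isCharacter hψN (lin c.1 c.2.1).1 (lin c.1 c.2.1).2
      (lin a.1 a.2.1).1 (lin a.1 a.2.1).2 (clifford_indFun_injective hNI hT φ.2 (hirr c.1 c.2.1)
        (hov c.1 c.2.1) (hirr a.1 a.2.1) (hov a.1 a.2.1) (congrArg (fun x => x.1.1) h3)))

end Cfsg.Agent.S4912
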