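import Cfsg.Statements.S4914
import Cfsg.Agent.Char.GlaubermanRel
import Cfsg.Agent.Char.DegBasic

set_option autoImplicit false
open Cfsg

namespace Cfsg.Agent.S4914

open Cfsg.Lib.Char

/-- Let P and K be subgroups of a finite group G with P a p-group normalizing K, and suppose K has a normal Sylow p-subgroup Q. Let C be the subgroup of those k ∈ K whose commutator with every element of P lies in Q (so that C/Q is the fixed-point subgroup of P on K/Q). Then there is a bijection f from the P-invariant irreducible complex characters of K onto the P-invariant irreducible complex characters of C such that, for every P-invariant irreducible character χ of K, the multiplicity of f(χ) in the restriction of χ to C is a natural number congruent to 1 or to −1 modulo p, every other P-invariant irreducible character of C occurs in that restriction with multiplicity divisible by p, and the degrees of χ and f(χ)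 are congruent modulo p up to sign. -/
theorem result {G : Type*} [Group G] [Finite G] (p : ℕ) [Fact p.Prime] (P K Q C : Subgroup G) (hP : IsPGroup p ↥P) (hPK : P ≤ Subgroup.normalizer (K : Set G)) (hQK : Q ≤ K) (hQn : ∀ k ∈ K, ∀ q ∈ Q, k * q * k⁻¹ ∈ Q) (hQp : ∃ a : ℕ, Nat.card ↥Q = p ^ a) (hQsyl : ¬ p ∣ Q.relIndex K) (hCK : C ≤ K) (hC : ∀ k : G, k ∈ C ↔ (k ∈ K ∧ ∀ x ∈ P, x * k * x⁻¹ * k⁻¹ ∈ Q)) : ∃ f : {χ : Cfsg.IrrCharacter ↥K // (∀ x ∈ P, ∀ k k' : ↥K, (k' : G) = x * (k : G) * x⁻¹ → (χ : ↥K → ℂ) k' = (χ : ↥K → ℂ) k)} → {ξ : Cfsg.IrrCharacter ↥C // (∀ x ∈ P, ∀ k k' : ↥C, (k' : G) = x * (k : G) * x⁻¹ → (ξ : ↥C → ℂ) k' = (ξ : ↥C → ℂ) k)}, Function.Bijective f ∧ ∀ χ, (∀ ξ : {ξ : Cfsg.IrrCharacter ↥C // (∀ x ∈ P, ∀ k k' : ↥C, (k' : G) = x * (k : G) * x⁻¹ → (ξ : ↥C → ℂ) k' = (ξ : ↥C → ℂ) k)}, ∃ m : ℕ, (Nat.card ↥C : ℂ)⁻¹ * ∑ᶠ c : ↥C, (χ.1 : ↥K → ℂ) (Subgroup.inclusion hCK c) * (starRingEnd ℂ) ((ξ.1 : ↥C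 → ℂ) c) = (m : ℂ) ∧ (ξ = f χ → ((m : ZMod p) = 1 ∨ (m : ZMod p) = -1)) ∧ (ξ ≠ f χ → p ∣ m)) ∧ ((Cfsg.charDegree ((f χ).1 : ↥C → ℂ) : ZMod p) = (Cfsg.charDegree (χ.1 : ↥K → ℂ) : ZMod p) ∨ (Cfsg.charDegree ((f χ).1 : ↥C → ℂ) : ZMod p) = -(Cfsg.charDegree (χ.1 : ↥K → ℂ) : ZMod p)) := by
  have hnorm : ∀ s ∈ P, ∀ g ∈ K, s * g * s⁻¹ ∈ K := Subgroup.le_normalizer_iff.1 hPK
  have : (Q.subgroupOf K).Normal := ⟨fun n hn g => hQn g g.2 n hn⟩
  obtain ⟨a, ha⟩ := hQp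
  have hQP : ∀ s ∈ P, ∀ q ∈ Q, s * q * s⁻¹ ∈ Q := by
    intro s hs q hq
    let y : K := ⟨_, hnorm s hs q (hQK hq)⟩
    have h1 : y ^ p ^ a = 1 := Subtype.ext (by
      have h2 : q ^ Nat.card Q = 1 := congrArg Subtype.val (pow_card_eq_one' (x := (⟨q, hq⟩ : Q)))
      change (s * q * s⁻¹) ^ p ^ a = 1
      rw [conj_pow, ← ha, h2, mul_one, mul_inv_cancel])
    have h2 : orderOf (QuotientGroup.mk' (Q.subgroupOf K) y) ∣ p ^ a := by
      rw [orderOf_dvd_iff_pow_eq_one, ← map_pow, h1, map_one]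
    exact (QuotientGroup.eq_one_iff y).1 (orderOf_eq_one_iff.1 (Nat.eq_one_of_dvd_coprimes
      (((Nat.Prime.coprime_iff_not_dvd Fact.out).2 hQsyl).pow_left a) h2 (orderOf_dvd_natCard _)))
  have hCP : ∀ s ∈ P, ∀ c ∈ C, s * c * s⁻¹ ∈ C := by
    intro s hs c hc
    rw [hC] at hc ⊢
    refine ⟨hnorm s hs c hc.1, fun x hx => ?_⟩
    have h1 := hQP s hs _ (hc.2 (s⁻¹ * x * s) (P.mul_mem (P.mul_mem (P.inv_mem hs) hx) hs))
    convert h1 using 1
    group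
  have := Fintype.ofFinite C
  have := Fintype.ofFinite (Q.subgroupOf K)
  have := Fintype.ofFinite ((Q.subgroupOf K).comap (Subgroup.inclusion hCK))
  have H : RelFixed p (conjHom K P hnorm) (Q.subgroupOf K) (Subgroup.inclusion hCK)
      (conjHom C P hCP) :=
    ⟨hP, IsPGroup.of_card ((Nat.card_congr (Subgroup.subgroupOfEquivOfLe hQK).toEquiv).trans ha),
      hQsyl, fun s g hg => hQP s s.2 g hg, Subgroup.inclusion_injective hCK, fun k =>
      ⟨by rintro ⟨c, rfl⟩ s; exact ((hC c).1 c.2).2 s s.2,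
        fun h => ⟨⟨k, (hC k).2 ⟨k.2, fun x hx => h ⟨x, hx⟩⟩⟩, rfl⟩⟩, fun _ _ => rfl⟩
  obtain ⟨e, he⟩ := H.exists_equiv
  let eK := Equiv.subtypeEquivRight fun χ : IrrCharacter K => isInv_conjHom_iff hnorm χ.1
  let eC := Equiv.subtypeEquivRight fun χ : IrrCharacter C => isInv_conjHom_iff hCP χ.1
  have key : ∀ χ ξ, ¬ p ∣ resMult (Subgroup.inclusion hCK) (eK.symm χ).1.1 (eC.symm ξ).1.1 →
      ((resMult (Subgroup.inclusion hCK) χ.1.1 ξ.1.1 : ZMod p) = 1 ∨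
        (resMult (Subgroup.inclusion hCK) χ.1.1 ξ.1.1 : ZMod p) = -1) := fun χ ξ h => by
    refine (H.corr_pm_one χ.1.2 (eK.symm χ).2 ξ.1.2 (eC.symm ξ).2 h).imp (fun h => ?_) fun h => ?_
    · simpa using (ZMod.intCast_eq_intCast_iff _ _ _).2 h
    · simpa using (ZMod.intCast_eq_intCast_iff _ _ _).2 h
  refine ⟨eK.symm.trans (e.trans eC), Equiv.bijective _, fun χ => ⟨fun ξ =>
    ⟨resMult (Subgroup.inclusion hCK) χ.1.1 ξ.1.1, ?_, fun h => key χ ξ ((he _ _).1 ?_),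
      fun h => ?_⟩, ?_⟩⟩
  · rw [finsum_eq_sum_of_fintype, ← resMult_eq _ χ.1.2.isCharacter ξ.1.2.isCharacter,
      ← card_mul_classInner, inv_mul_cancel_left₀ (natCard_cast_ne_zero C)]
  · rw [h]
    exact (eC.symm_apply_apply _).symm
  · by_contra h1
    apply h
    rw [← eC.apply_symm_apply ξ, ← (he (eK.symm χ) (eC.symm ξ)).2 h1]
    rfl
  · have h1 := (he (eK.symm χ) _).1 rfl
    have h2 := (ZMod.natCast_eq_natCast_iff _ _ _).2 (H.corr_degree_modEq χ.1.2 (eK.symm χ).2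
      (e (eK.symm χ)).1.2 (e (eK.symm χ)).2 h1 (Deg.apply_one_eq χ.1.2.isCharacter)
      (Deg.apply_one_eq (e (eK.symm χ)).1.2.isCharacter))
    rw [Nat.cast_mul] at h2
    rcases key χ (eC (e (eK.symm χ))) h1 with h | h
    · left
      rw [h2]
      exact (one_mul _).symm.trans (congrArg (· * _) h.symm)
    · right
      rw [h2, eq_neg_iff_add_eq_zero]
      refine (congrArg (_ + · * _) h).trans ?_
      exact (congrArg (_ + ·) (neg_one_mul _)).trans (add_neg_cancel _)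

end Cfsg.Agent.S4914
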