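import Cfsg.Statements.S4916
import Cfsg.Agent.Block.Height
import Cfsg.Agent.S0914

set_option autoImplicit false
open Cfsg

namespace Cfsg.Agent.S4916

open Cfsg.Lib.Char Cfsg.Lib.Block.Loc Cfsg.Lib.Block.Ht

/-- Let G be a finite group, p a prime and M a maximal ideal of the algebraic integers containing p. Then the principal character is the only irreducible character of degree prime to p in the principal p-block of G if and only if p does not divide the order of G. -/
theorem result {G : Type*} [Group G] [Finite G] (p : ℕ) [Fact p.Prime] (M : Ideal Cfsg.AlgInt) (hM : Cfsg.IsPModular p M) : (∀ χ : Cfsg.IrrCharacter G, χ ∈ Cfsg.principalBlock M G → ¬ p ∣ Cfsg.charDegree (χ : G → ℂ) → (χ : G → ℂ) = fun _ => (1 : ℂ)) ↔ ¬ p ∣ Nat.card G := by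
  classical
  constructor
  · intro h hp
    have := Fintype.ofFinite G
    obtain ⟨x, hx⟩ := exists_prime_orderOf_dvd_card' p hp
    have h1 := Cfsg.Agent.S0907.result p M hM _ isPBlock_principalBlock 1 x
      (by rw [orderOf_one]; exact hM.1.not_dvd_one) (hx ▸ dvd_rfl)
    let o : IrrCharacter G := ⟨fun _ => 1, isIrrCharacter_one⟩
    rw [finsum_mem_irr, ← Finset.add_sum_erase _ _ (Finset.mem_univ o),
      if_pos (one_mem_principalBlock hM)] at h1
    apply not_ideal_one hM
    have h2 : (1 : ℂ) = - ∑ χ ∈ Finset.univ.erase o,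
        if χ ∈ principalBlock M G then (χ : G → ℂ) 1 * (starRingEnd ℂ) ((χ : G → ℂ) x) else 0 := by
      rw [eq_neg_iff_add_eq_zero]
      have h3 : (o : G → ℂ) 1 * (starRingEnd ℂ) ((o : G → ℂ) x) = 1 := by simp [o]
      rwa [h3] at h1
    rw [h2]
    refine ideal_neg hM (ideal_sum hM _ fun χ hχ => ?_)
    split_ifs with hB
    · refine ideal_mul_right hM ?_ ?_
      · rw [← cast_charDegree_irr, ideal_natCast_iff hM]
        by_contra hd
        exact Finset.ne_of_mem_erase hχ (Subtype.ext (h χ hB hd))
      · rw [← χ.2.isCharacter.apply_inv]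
        exact ring_char hM χ.2.isCharacter _
    · exact ideal_zero hM
  · intro hp χ hχ _
    have h1 := (Cfsg.Agent.S0914.result p M hM ⟨fun _ : G => 1, isIrrCharacter_one⟩).1
      (by simpa [charDegree_one] using hp)
    have h2 : χ ∈ blockOf M (fun _ : G => (1 : ℂ)) := hχ
    rw [h1, Set.mem_singleton_iff] at h2
    rw [h2]

end Cfsg.Agent.S4916
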