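import Cfsg.Statements.S4923
import Cfsg.Agent.Char.Galois
import Cfsg.Agent.Char.Camina
import Cfsg.Agent.Trans.MaxClassTwo

set_option autoImplicit false
open Cfsg

namespace Cfsg.Agent.S4923

open IntermediateField Subgroup Cfsg.Lib.Char

theorem fix_adjoin {s : Set ℂ} {σ : ℂ ≃+* ℂ} (h : ∀ x ∈ s, σ x = x) {y : ℂ}
    (hy : y ∈ adjoin ℚ s) : σ y = y := by
  induction hy using adjoin_induction with
  | mem x hx => exact h x hx
  | algebraMap x => simp
  | add x y _ _ a b => rw [map_add, a, b]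
  | inv x _ a => rw [map_inv₀, a]
  | mul x y _ _ a b => rw [map_mul, a, b]

theorem adjoin_le_of_fix {s t : Set ℂ} (ht : ∀ x ∈ t, IsIntegral ℚ x)
    (h : ∀ σ : ℂ ≃+* ℂ, (∀ x ∈ s, σ x = x) → ∀ x ∈ t, σ x = x) : adjoin ℚ t ≤ adjoin ℚ s := by
  rw [adjoin_le_iff]
  intro x hx
  obtain ⟨f, hf⟩ := mem_range_algebraMap_of_forall_ringEquiv (F := adjoin ℚ s) (E := ℂ)
    (ht x hx).tower_top fun σ hσ => h σ (fun y hy => hσ ⟨y, subset_adjoin ℚ s hy⟩) x hx
  exact hf ▸ f.2

theorem adjoin_eq_iff {s t : Set ℂ} (hs : ∀ x ∈ s, IsIntegral ℚ x) (ht : ∀ x ∈ t, IsIntegral ℚ x) :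
    adjoin ℚ s = adjoin ℚ t ↔ ∀ σ : ℂ ≃+* ℂ, (∀ x ∈ s, σ x = x) ↔ ∀ x ∈ t, σ x = x :=
  ⟨fun e _ => ⟨fun h x hx => fix_adjoin h (e ▸ subset_adjoin ℚ t hx),
    fun h x hx => fix_adjoin h (e ▸ subset_adjoin ℚ s hx)⟩,
    fun h => le_antisymm (adjoin_le_of_fix hs fun σ => (h σ).2)
      (adjoin_le_of_fix ht fun σ => (h σ).1)⟩

theorem fix_root {ζ ε : ℂ} (h0 : ζ ≠ 0) (hε : ε = 1 ∨ ε = -1) {m : ℕ} {σ : ℂ ≃+* ℂ}
    (h : σ ζ = ζ ^ m) : σ (ζ + ε * ζ⁻¹) = ζ + ε * ζ⁻¹ ↔ ζ ^ m = ζ ∨ ζ ^ (m + 1) = ε := by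
  have h1 : σ ε = ε := by rcases hε with rfl | rfl <;> simp
  have h2 : ζ ^ m ≠ 0 := pow_ne_zero _ h0
  rw [map_add, map_mul, map_inv₀, h, h1, pow_succ, ← sub_eq_zero, ← sub_eq_zero (a := ζ ^ m),
    ← sub_eq_zero (b := ε), ← mul_eq_zero, ← mul_eq_zero_iff_left (mul_ne_zero h2 h0)]
  generalize ζ ^ m = y at h2
  have : y * ζ * (y + ε * y⁻¹ - (ζ + ε * ζ⁻¹)) = (y - ζ) * (y * ζ - ε) := by
    field_simp
    ring
  rw [this]

variable {G : Type*} [Group G] [Finite G]

theorem fix_val {g : G} {N m : ℕ} (hN : N ≠ 0) (hg : g ^ N = 1) {σ : ℂ ≃+* ℂ}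
    (hσ : ∀ z : ℂ, z ^ N = 1 → σ z = z ^ m) :
    (∀ x ∈ {z : ℂ | ∃ χ : IrrCharacter G, (χ : G → ℂ) g = z}, σ x = x) ↔ IsConj g (g ^ m) := by
  have key : ∀ χ : G → ℂ, IsIrrCharacter G χ → σ (χ g) = χ (g ^ m) := fun χ hχ =>
    hχ.isCharacter.isGeneralizedCharacter.ringHom_pow g hN hg σ.toRingHom hσ
  constructor
  · intro h
    exact isConj_of_forall_irr_eq_or_zero fun χ hχ =>
      .inl ((h _ ⟨⟨χ, hχ⟩, rfl⟩).symm.trans (key χ hχ))
  · rintro h _ ⟨χ, rfl⟩
    rw [key _ χ.2]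
    exact (isClassFunction_iff_isConj.1 χ.2.isCharacter.isClassFunction _ _ h).symm

theorem crit {g : G} {N : ℕ} (hN : N ≠ 0) (hg : g ^ N = 1) {ζ ε : ℂ} (hζ : IsPrimitiveRoot ζ N)
    (hε : ε = 1 ∨ ε = -1) :
    adjoin ℚ {z : ℂ | ∃ χ : IrrCharacter G, (χ : G → ℂ) g = z} = adjoin ℚ {ζ + ε * ζ⁻¹} ↔
      ∀ m : ℕ, m.Coprime N → (IsConj g (g ^ m) ↔ ζ ^ m = ζ ∨ ζ ^ (m + 1) = ε) := by
  have h0 := hζ.ne_zero hN
  rw [adjoin_eq_iff]
  · constructor
    · intro h m hm
      obtain ⟨σ, hσ⟩ := exists_ringEquiv_pow hN hm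
      rw [← fix_val hN hg hσ, h σ, ← fix_root h0 hε (hσ ζ hζ.pow_eq_one)]
      simp
    · intro h σ
      obtain ⟨m, hm, hσ⟩ := exists_pow_of_ringHom hN σ.toRingHom
      rw [fix_val hN hg hσ, h m hm, ← fix_root h0 hε (hσ ζ hζ.pow_eq_one)]
      simp
  · rintro _ ⟨χ, rfl⟩
    exact (χ.2.isCharacter.isGeneralizedCharacter.isIntegral g).tower_top
  · rintro _ rfl
    have h1 : IsIntegral ℚ ζ := (hζ.isIntegral (Nat.pos_of_ne_zero hN)).tower_top
    refine h1.add (IsIntegral.mul ?_ h1.inv)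
    rcases hε with rfl | rfl
    · exact isIntegral_one
    · exact isIntegral_one.neg

omit [Finite G] in
theorem pow_iff {g : G} {N : ℕ} (hN : N ≠ 0) (hg : orderOf g = N) {ζ : ℂ}
    (hζ : IsPrimitiveRoot ζ N) (i j : ℕ) : g ^ i = g ^ j ↔ ζ ^ i = ζ ^ j := by
  rw [pow_eq_pow_iff_modEq, (hζ.isOfFinOrder hN).pow_eq_pow_iff_modEq, hg, ← hζ.eq_orderOf]

omit [Finite G] in
theorem cent_zpowers (a : G) : centralizer (zpowers a : Set G) = centralizer {a} := by
  rw [zpowers_eq_closure, centralizer_closure]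

/-- Fusion of the generators of a cyclic 2-subgroup normalised by a Sylow 2-subgroup. -/
theorem fusion (P : Sylow 2 G) {a : G} {k : ℕ} (ha : orderOf a = 2 ^ (k + 1))
    (hP : (P : Subgroup G) ≤ normalizer (zpowers a : Set G)) :
    (∀ h ∈ normalizer (zpowers a : Set G), ∃ x ∈ (P : Subgroup G), x * a * x⁻¹ = h * a * h⁻¹) ∧
      ((∃ x ∈ (P : Subgroup G), x * a * x⁻¹ ≠ a) → 2 ∣ (centralizer ({a} : Set G)).index) := by
  let f := (zpowers a).normalizerMonoidHom
  have fa : ∀ h, (f h ⟨a, mem_zpowers a⟩ : G) = h * a * (h : G)⁻¹ := fun h => rfl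
  have h1 : IsPGroup 2 (MulAut (zpowers a)) := by
    refine IsPGroup.of_card (n := k) ?_
    rw [IsCyclic.card_mulAut, Nat.card_zpowers, ha, Nat.totient_prime_pow_succ Nat.prime_two]
    simp
  have h2 : IsPGroup 2 f.range := h1.to_subgroup _
  constructor
  · intro h hh
    have h3 : (((P.subtype hP).mapSurjective f.rangeRestrict_surjective : Sylow 2 f.range) :
        Subgroup f.range) = ⊤ :=
      (((P.subtype hP).mapSurjective f.rangeRestrict_surjective).is_maximal'
        (h2.to_subgroup ⊤) le_top).symm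
    obtain ⟨x, hx, e⟩ : f.rangeRestrict ⟨h, hh⟩ ∈ (P.subtype hP : Subgroup _).map f.rangeRestrict := by
      rw [← Sylow.coe_mapSurjective f.rangeRestrict_surjective, h3]
      trivial
    refine ⟨x, hx, ?_⟩
    have e' : f x = f ⟨h, hh⟩ := congrArg Subtype.val e
    rw [← fa, e', fa]
  · rintro ⟨x, hx, e⟩
    refine Dvd.dvd.trans ?_ (relIndex_dvd_index_of_le (centralizer_le_normalizer _) :
      (centralizer (zpowers a : Set G)).relIndex _ ∣ _) |>.trans (by rw [cent_zpowers])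
    rw [relIndex, ← normalizerMonoidHom_ker, index_ker]
    obtain ⟨n, hn⟩ := h2.exists_card_eq
    rw [hn]
    refine dvd_pow_self _ fun h0 => e ?_
    rw [h0, pow_zero, card_eq_one, MonoidHom.range_eq_bot_iff] at hn
    rw [show x * a * x⁻¹ = (f ⟨x, hP hx⟩ ⟨a, mem_zpowers a⟩ : G) from rfl, hn]
    rfl

theorem eight (hG : Nat.card G = 2 ^ 3) {a b : G} (h : a * b ≠ b * a) :
    (commutator G).index = 4 := by
  have hp : IsPGroup 2 G := IsPGroup.of_card hG
  have : Nontrivial G := Finite.one_lt_card_iff_nontrivial.1 (by omega)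
  have h1 : 1 < Nat.card (center G) := Finite.one_lt_card_iff_nontrivial.2 hp.center_nontrivial
  have h2 := (center G).index_mul_card
  have h3 : (center G).index = 4 := by
    by_contra e
    have h4 : (center G).index ∣ 2 := by
      have h5 : (center G).index ≤ 8 := Nat.le_of_dvd (by omega) ⟨_, (h2.trans hG).symm⟩
      generalize (center G).index = i at *
      interval_cases i <;> omega
    have : IsCyclic (G ⧸ center G) := isCyclic_of_card_dvd_prime (p := 2) h4
    exact h (((QuotientGroup.mk' (center G)).isMulCommutative_of_isCyclic_of_ker_le_center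
      (by rw [QuotientGroup.ker_mk'])).is_comm.comm a b)
  have h5 : commutator G ≤ center G := Subgroup.Normal.quotient_commutative_iff_commutator_le.1
    (IsPGroup.isMulCommutative_of_card_eq_prime_sq (p := 2) h3)
  have h6 : 1 < Nat.card (commutator G) := (one_lt_card_iff_ne_bot _).2 fun e =>
    h (((commutator_eq_bot_iff G).1 e).is_comm.comm a b)
  have h7 := card_le_of_le h5
  have h8 := (commutator G).index_mul_card
  rw [h3] at h2
  have h9 : Nat.card (commutator G) = 2 := by omega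
  rw [h9] at h8
  omega

theorem index_four {k m : ℕ} (hG : Nat.card G = 2 ^ (k + 2)) {a x : G} (ha : orderOf a = 2 ^ (k + 1))
    (hx : x * a * x⁻¹ = a ^ m) (hm : m % 4 = 3) : (commutator G).index = 4 := by
  have h1 : (zpowers a).index = 2 := by
    have := (zpowers a).index_mul_card
    rw [Nat.card_zpowers, ha, hG, pow_succ' 2 (k + 1)] at this
    exact Nat.eq_of_mul_eq_mul_right (by positivity) this
  have := normal_of_index_eq_two h1
  have h2 : (zpowers (a ^ 2)).index = 4 := by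
    have := (zpowers (a ^ 2)).index_mul_card
    rw [Nat.card_zpowers, orderOf_pow_of_dvd two_ne_zero (ha ▸ dvd_pow_self 2 (by omega)), ha, hG,
      pow_succ 2 k, Nat.mul_div_cancel _ two_pos, show 2 ^ (k + 2) = 4 * 2 ^ k by ring] at this
    exact Nat.eq_of_mul_eq_mul_right (by positivity) this
  have : (zpowers (a ^ 2)).Normal := ⟨fun y hy g => by
    obtain ⟨i, rfl⟩ := mem_zpowers_iff.1 hy
    obtain ⟨j, hj⟩ := mem_zpowers_iff.1 (this.conj_mem a (mem_zpowers a) g)
    rw [← conj_zpow, ← conj_pow, ← hj, show (a ^ j) ^ 2 = (a ^ 2) ^ j by group]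
    exact Subgroup.zpow_mem _ (Subgroup.zpow_mem _ (mem_zpowers (a ^ 2)) _) _⟩
  rw [← h2]
  congr 1
  refine le_antisymm (Subgroup.Normal.quotient_commutative_iff_commutator_le.1
    (IsPGroup.isMulCommutative_of_card_eq_prime_sq (p := 2) h2)) ?_
  have h3 : (a ^ 2) ^ (2 * (m / 4) + 1) ∈ commutator G := by
    have h4 : x * a * x⁻¹ * a⁻¹ ∈ commutator G :=
      commutator_mem_commutator (mem_top x) (mem_top a)
    rw [hx, show m = 2 * (2 * (m / 4) + 1) + 1 by omega, pow_succ, mul_inv_cancel_right,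
      pow_mul] at h4
    exact h4
  rw [zpowers_le]
  refine zpowers_le.2 h3 ((mem_zpowers_pow_iff).2 ?_)
  refine Nat.Coprime.coprime_dvd_right (orderOf_pow_dvd 2) ?_
  rw [ha]
  exact Nat.Coprime.pow_right _ (by simp)

/-- Let G be a finite group with Sylow 2-subgroup P of order 2^n ≥ 8, and let ζ be a primitive 2^(n−1)-th root of unity in ℂ. Then the commutator subgroup of P has index 4 in P if and only if there is an element g of P whose conjugacy class in G has even size and such that the field generated over ℚ by the values at g of all irreducible complex characters of G equals ℚ(ζ + ζ⁻¹) or ℚ(ζ − ζ⁻¹). -/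
theorem result {G : Type*} [Group G] [Finite G] (P : Sylow 2 G) (n : ℕ) (hn : 3 ≤ n) (hP : Nat.card P = 2 ^ n) (ζ : ℂ) (hζ : IsPrimitiveRoot ζ (2 ^ (n - 1))) :
    (commutator ↥P).index = 4 ↔
      ∃ g : G, g ∈ (P : Subgroup G) ∧ 2 ∣ (Subgroup.centralizer ({g} : Set G)).index ∧
        (IntermediateField.adjoin ℚ {z : ℂ | ∃ χ : Cfsg.IrrCharacter G, (χ : G → ℂ) g = z} = IntermediateField.adjoin ℚ ({ζ + ζ⁻¹} : Set ℂ) ∨
          IntermediateField.adjoin ℚ {z : ℂ | ∃ χ : Cfsg.IrrCharacter G, (χ : G → ℂ) g = z} = IntermediateField.adjoin ℚ ({ζ - ζ⁻¹} : Set ℂ)) := by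
  obtain ⟨m, rfl⟩ : ∃ m, n = m + 3 := ⟨n - 3, by omega⟩
  rw [show m + 3 - 1 = m + 2 from rfl] at hζ
  have hN : 2 ^ (m + 2) ≠ 0 := by positivity
  have hneg : ζ ^ (2 ^ (m + 1)) = -1 := by
    refine (hζ.pow (Nat.pos_of_ne_zero hN) (b := 2) (by ring)).eq_neg_one_of_two_right
  have e1 : ζ + ζ⁻¹ = ζ + 1 * ζ⁻¹ := by ring
  have e2 : ζ - ζ⁻¹ = ζ + -1 * ζ⁻¹ := by ring
  rw [e1, e2]
  constructor
  · intro h
    obtain ⟨a, b, ha, hb, hab⟩ := Lib.Trans.generators_of_commutator_index hP h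
    have ha' : orderOf a = 2 ^ (m + 2) := by rw [ha]; ring
    have h1 : (zpowers a).index = 2 := by
      have := (zpowers a).index_mul_card
      rw [Nat.card_zpowers, ha', hP, pow_succ' 2 (m + 2)] at this
      exact Nat.eq_of_mul_eq_mul_right (by positivity) this
    have hn := normal_of_index_eq_two h1
    have oa : orderOf (a : G) = 2 ^ (m + 2) := by rw [Subgroup.orderOf_coe, ha']
    have cj : ∀ h : G, ∀ i : ℕ, h * a * h⁻¹ = (a : G) ^ i → h ∈ normalizer (zpowers (a : G) : Set G) :=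
      fun h i e => by
        refine mem_normalizer_fintype fun y hy => ?_
        obtain ⟨j, rfl⟩ := mem_zpowers_iff.1 hy
        rw [← conj_zpow, e]
        exact zpow_mem (pow_mem (mem_zpowers _) _) _
    have hPN : (P : Subgroup G) ≤ normalizer (zpowers (a : G) : Set G) := fun x hx => by
      obtain ⟨i, hi⟩ := (mem_powers_iff_mem_zpowers.2 (hn.conj_mem a (mem_zpowers a) ⟨x, hx⟩))
      exact cj x i (congrArg Subtype.val hi).symm
    obtain ⟨f1, f2⟩ := fusion P oa hPN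
    have fu : ∀ k : ℕ, IsConj (a : G) (a ^ k) ↔ a ^ k = a ^ 1 ∨ a ^ k = b * a * b⁻¹ := fun k => by
      constructor
      · intro c
        obtain ⟨h, hh⟩ := isConj_iff.1 c
        obtain ⟨x, hx, e⟩ := f1 h (cj h k hh)
        have e' : (⟨x, hx⟩ : (P : Subgroup G)) * a * ⟨x, hx⟩⁻¹ = a ^ k := Subtype.ext (e.trans hh)
        generalize (⟨x, hx⟩ : (P : Subgroup G)) = y at e'
        have cm : ∀ z ∈ zpowers a, z * a * z⁻¹ = a := fun z hz => by
          obtain ⟨j, rfl⟩ := mem_zpowers_iff.1 hz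
          group
        by_cases hy : y ∈ zpowers a
        · exact .inl (by rw [← e', cm y hy, pow_one])
        · have := cm _ ((mul_mem_iff_of_index_two h1 (a := b⁻¹) (b := y)).2 (by simp [hb, hy]))
          refine .inr ?_
          rw [← e']
          conv_rhs => rw [← this]
          group
      · rintro (e | e)
        · rw [← Subgroup.coe_pow, e, pow_one]
        · exact isConj_iff.2 ⟨b, (congrArg Subtype.val e).symm⟩
    have pw := pow_iff hN ha' hζ
    have hab' : b * a * b⁻¹ * a = a ^ 0 ∨ b * a * b⁻¹ * a = a ^ (2 ^ (m + 1)) := by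
      rcases hab with ⟨-, e⟩ | ⟨-, e⟩ | ⟨-, -, e⟩
      · exact .inl (by simp [e])
      · exact .inl (by simp [e])
      · refine .inr ?_
        rw [e, ← zpow_add_one, sub_add_cancel, ← zpow_natCast]
        congr 1
        push_cast
        ring
    have fin : ∀ j : ℕ, b * a * b⁻¹ * a = a ^ j → ∀ k : ℕ,
        (IsConj (a : G) (a ^ k) ↔ ζ ^ k = ζ ∨ ζ ^ (k + 1) = ζ ^ j) := fun j e k => by
      rw [fu, pw, pow_one, ← pw, ← e, pow_succ, mul_left_inj]
    have ga : (a : G) ^ 2 ^ (m + 2) = 1 := oa ▸ pow_orderOf_eq_one _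
    refine ⟨a, a.2, f2 ⟨b, b.2, fun e => ?_⟩, ?_⟩
    · have e' : b * a * b⁻¹ = a := Subtype.ext e
      have h3 : ∀ x y : (P : Subgroup G), x * y = y * x := by
        have hc : ∀ z ∈ zpowers a, b * z = z * b := fun z hz => by
          obtain ⟨j, rfl⟩ := mem_zpowers_iff.1 hz
          rw [← mul_inv_eq_iff_eq_mul, ← conj_zpow, e']
        have hz : ∀ z ∈ zpowers a, ∀ w ∈ zpowers a, z * w = w * z := fun z hz w hw => by
          obtain ⟨j, rfl⟩ := mem_zpowers_iff.1 hz
          obtain ⟨i, rfl⟩ := mem_zpowers_iff.1 hw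
          exact zpow_mul_comm _ _ _
        have hd : ∀ x : (P : Subgroup G), ∃ z ∈ zpowers a, x = z ∨ x = b * z := fun x => by
          by_cases hx : x ∈ zpowers a
          · exact ⟨x, hx, .inl rfl⟩
          · exact ⟨b⁻¹ * x, (mul_mem_iff_of_index_two h1).2 (by simp [hb, hx]), .inr (by simp)⟩
        intro x y
        obtain ⟨z, z1, rfl | rfl⟩ := hd x <;> obtain ⟨w, w1, rfl | rfl⟩ := hd y
        · exact hz _ z1 _ w1
        · rw [← mul_assoc, ← hc _ z1, mul_assoc, hz _ z1 _ w1, mul_assoc]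
        · rw [← mul_assoc, ← hc _ w1, mul_assoc, hz _ z1 _ w1, mul_assoc]
        · rw [mul_assoc, mul_assoc, ← mul_assoc z, ← mul_assoc w, ← hc _ z1, ← hc _ w1, mul_assoc,
            mul_assoc, hz _ z1 _ w1]
      change (commutator (P : Subgroup G)).index = 4 at h
      rw [(commutator_eq_bot_iff _).2 ⟨⟨h3⟩⟩, index_bot, hP, pow_add] at h
      omega
    · rcases hab' with e | e
      · exact .inl ((crit hN ga hζ (.inl rfl)).2 fun k _ => by simpa using fin _ e k)
      · exact .inr ((crit hN ga hζ (.inr rfl)).2 fun k _ => hneg ▸ fin _ e k)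
  · rintro ⟨g, hg, h2, h⟩
    obtain ⟨x, hx⟩ : ∃ x : (P : Subgroup G), x * ⟨g, hg⟩ ≠ ⟨g, hg⟩ * x := by
      by_contra e
      push Not at e
      refine P.not_dvd_index (h2.trans (index_dvd_of_le fun x hx => ?_))
      rw [mem_centralizer_singleton_iff]
      exact congrArg Subtype.val (e ⟨x, hx⟩)
    rcases Nat.eq_zero_or_pos m with rfl | hm
    · exact eight hP hx
    obtain ⟨a, rfl⟩ : ∃ a : (P : Subgroup G), g = a := ⟨⟨g, hg⟩, rfl⟩
    change x * a ≠ a * x at hx
    obtain ⟨j, hj, oa⟩ := (Nat.dvd_prime_pow Nat.prime_two).1 (hP ▸ orderOf_dvd_natCard a)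
    have hj' : j ≠ m + 3 := by
      rintro rfl
      have h3 : zpowers a = ⊤ := eq_top_of_card_eq _ (by rw [Nat.card_zpowers, oa, hP])
      obtain ⟨i, rfl⟩ := mem_zpowers_iff.1 (h3 ▸ mem_top x)
      exact hx (by group)
    have ga : (a : G) ^ 2 ^ (m + 2) = 1 := by
      rw [← orderOf_dvd_iff_pow_eq_one, Subgroup.orderOf_coe, oa]
      exact pow_dvd_pow _ (by omega)
    have key : ∀ k : ℕ, k.Coprime (2 ^ (m + 2)) → IsConj (a : G) (a ^ k) →
        ζ ^ k = ζ ^ 1 ∨ 4 ∣ k + 1 := fun k hk c => by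
      have h4 : ζ ^ k = ζ ∨ ζ ^ ((k + 1) * 2) = 1 := by
        rcases h with h | h
        · exact (((crit hN ga hζ (.inl rfl)).1 h k hk).1 c).imp_right fun e => by
            rw [pow_mul, e, one_pow]
        · exact (((crit hN ga hζ (.inr rfl)).1 h k hk).1 c).imp_right fun e => by
            rw [pow_mul, e, neg_one_sq]
      refine h4.imp (by simp) fun e => ?_
      have h5 := (pow_dvd_pow 2 (by omega : 3 ≤ m + 2)).trans ((hζ.pow_eq_one_iff_dvd _).1 e)
      omega
    have hj'' : j = m + 2 := by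
      by_contra e
      have h3 : (a : G) ^ 2 ^ (m + 1) = 1 := by
        rw [← orderOf_dvd_iff_pow_eq_one, Subgroup.orderOf_coe, oa]
        exact pow_dvd_pow _ (by omega)
      have h4 : 4 ∣ 2 ^ (m + 1) := pow_dvd_pow 2 (by omega : 2 ≤ m + 1)
      rcases key (2 ^ (m + 1) + 1) (Nat.Coprime.pow_right _ (by
        rw [Nat.coprime_two_right, Nat.odd_iff]; omega)) (by rw [pow_succ, h3, one_mul])
        with e | e
      · rw [pow_succ, hneg, pow_one] at e
        exact hζ.ne_zero hN (by linear_combination (-1 / 2 : ℂ) * e)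
      · omega
    subst hj''
    have h1 : (zpowers a).index = 2 := by
      have := (zpowers a).index_mul_card
      rw [Nat.card_zpowers, oa, hP, pow_succ' 2 (m + 2)] at this
      exact Nat.eq_of_mul_eq_mul_right (by positivity) this
    obtain ⟨k, hk⟩ := (mem_powers_iff_mem_zpowers.2
      ((normal_of_index_eq_two h1).conj_mem a (mem_zpowers a) x))
    change a ^ k = _ at hk
    have h3 : k.Coprime (2 ^ (m + 2)) := by
      have h4 : orderOf (a ^ k) = orderOf a := by
        rw [hk]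
        exact (MulAut.conj x).orderOf_eq a
      rw [orderOf_pow, oa] at h4
      rw [Nat.coprime_comm]
      exact (Nat.div_eq_self.1 h4).resolve_left hN
    rcases key k h3 (isConj_iff.2 ⟨x, (congrArg Subtype.val hk).symm⟩) with e | e
    · rw [← pow_iff hN oa hζ, hk, pow_one, mul_inv_eq_iff_eq_mul] at e
      exact absurd e hx
    · exact index_four (k := m + 1) hP oa hk.symm (by omega)

end Cfsg.Agent.S4923
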