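import Cfsg.Statements.S4930
import Cfsg.Agent.Char.McKay
import Cfsg.Agent.Char.DegBasic
import Cfsg.Agent.Char.Glauberman
import Cfsg.Agent.Char.Extension
import Cfsg.Agent.Char.Kernel
import Cfsg.Agent.Trans.Tate
import Cfsg.Agent.Trans.NormalComplement
import Cfsg.Agent.Trans.Extraspecial

set_option autoImplicit false
open Cfsg

namespace Cfsg.Agent.S4930

open Cfsg.Lib.Char Cfsg.Lib.Char.Deg Cfsg.Lib.Trans
open scoped commutatorElement

section A
variable {N : Type*} [Group N] [Finite N] {p : ℕ} [hp : Fact p.Prime]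

/-- For a normal Sylow subgroup `Q`, the degree is prime to `p` iff `Q'` is in the kernel. -/
theorem deg_iff (Q : Subgroup N) [Q.Normal] (hQ : IsPGroup p Q) (hi : ¬ p ∣ Q.index)
    {ψ : N → ℂ} (hψ : IsIrrCharacter N ψ) :
    ⁅Q, Q⁆ ≤ charKer ψ ↔ ¬ p ∣ charDegree ψ := by
  classical
  have := Fintype.ofFinite N
  have := Fintype.ofFinite Q
  have hmap : (commutator Q).map Q.subtype = ⁅Q, Q⁆ := Subgroup.map_subtype_commutator Q
  constructor
  · intro h
    obtain ⟨θ, hθ, hin⟩ := exists_irr_under Q hψ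
    have h1 : commutator Q ≤ charKer θ := by
      refine le_trans ?_ ((hψ.isCharacter.res Q).charKer_le_of_classInner_ne_zero hθ hin)
      rw [hψ.isCharacter.charKer_res Q]
      intro x hx
      exact h (hmap ▸ Subgroup.mem_map_of_mem Q.subtype hx)
    have h2 := (commutator_le_charKer_iff hθ).1 h1
    have h3 := degree_dvd_index_mul hψ hθ hin (cast_deg_irr hψ).symm (cast_deg_irr hθ).symm
    rw [h2, mul_one] at h3
    exact fun h4 => hi (h4.trans h3)
  · intro h
    rw [← hmap, Subgroup.map_le_iff_le_comap]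
    intro x hx
    have h1 : x ∈ charKer (fun n : Q => ψ n) := by
      rw [(hψ.isCharacter.res Q).mem_charKer_iff_forall]
      intro θ hθ hin
      refine (commutator_le_charKer_iff hθ).2 ?_ hx
      have h2 := deg_dvd_of_lies_over hψ hθ hin
      have h3 := deg_dvd_card hθ
      obtain ⟨k, hk⟩ := IsPGroup.iff_card.1 hQ
      rw [hk] at h3
      obtain ⟨j, -, hj⟩ := (Nat.dvd_prime_pow hp.out).1 h3
      rcases j with _ | j
      · simpa using hj
      · exact absurd ((hj ▸ dvd_pow_self p (Nat.succ_ne_zero j)).trans h2) h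
    rw [hψ.isCharacter.charKer_res Q] at h1
    exact h1

open Classical in
theorem sum_A (Q : Subgroup N) [Q.Normal] (hQ : IsPGroup p Q) (hi : ¬ p ∣ Q.index) :
    ∑ ψ ∈ Finset.univ.filter (fun ψ : IrrCharacter N => ¬ p ∣ charDegree (ψ : N → ℂ)),
      charDegree (ψ : N → ℂ) ^ 2 = (⁅Q, Q⁆ : Subgroup N).index := by
  have h := sum_irr_ker_degree_sq (⁅Q, Q⁆ : Subgroup N)
  have h2 : Finset.univ.filter (fun ψ : IrrCharacter N => ⁅Q, Q⁆ ≤ charKer (ψ : N → ℂ)) =
      Finset.univ.filter (fun ψ : IrrCharacter N => ¬ p ∣ charDegree (ψ : N → ℂ)) :=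
    Finset.filter_congr fun ψ _ => deg_iff Q hQ hi ψ.2
  rw [← h2]
  apply Nat.cast_injective (R := ℂ)
  rw [← h]
  push_cast
  refine Finset.sum_congr (by congr) fun ψ _ => ?_
  rw [cast_deg_irr ψ.2]

end A

section B
variable {G : Type*} [Group G] [Finite G] {p : ℕ} [hp : Fact p.Prime]

theorem exists_over (H : Subgroup G) [Fintype H] (hH : ¬ p ∣ H.index) {ψ : H → ℂ}
    (hψ : IsIrrCharacter H ψ) (hd : ¬ p ∣ charDegree ψ) :
    ∃ χ : IrrCharacter G, ¬ p ∣ charDegree (χ : G → ℂ) ∧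
      classInner (fun h : H => (χ : G → ℂ) h) ψ ≠ 0 := by
  classical
  have := Fintype.ofFinite G
  by_contra hcon
  push Not at hcon
  have hc := isCharacter_indFun (G := G) hψ.isCharacter
  obtain ⟨c, hcc⟩ := hc.exists_nat_coeff
  have hdeg : charDegree (indFun H ψ) = ∑ χ : IrrCharacter G, c χ * charDegree (χ : G → ℂ) := by
    apply deg_eq
    rw [hcc]
    push_cast
    rw [Finset.sum_apply]
    refine Finset.sum_congr rfl fun χ _ => ?_
    rw [cast_deg_irr χ.2]
    simp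
  have hdvd : p ∣ charDegree (indFun H ψ) := by
    rw [hdeg]
    refine Finset.dvd_sum fun χ _ => ?_
    by_cases h : p ∣ charDegree (χ : G → ℂ)
    · exact Dvd.dvd.mul_left h _
    · have h1 := hcon χ h
      have h2 : classInner (indFun H ψ) (χ : G → ℂ) = c χ := by
        conv_lhs => rw [hcc]
        convert classInner_sum_smul_irr (fun χ => (c χ : ℂ)) χ
      rw [classInner_indFun_left H ψ χ.2.isClassFunction, classInner_eq_zero_comm.1 h1] at h2
      have h3 : c χ = 0 := by exact_mod_cast h2.symm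
      simp [h3]
  rw [deg_indFun H hψ.isCharacter] at hdvd
  rcases (Nat.Prime.dvd_mul hp.out).1 hdvd with h | h
  · exact hH h
  · exact hd h

omit hp in
theorem fiber_sum (H : Subgroup G) [Fintype H] {χ : G → ℂ} (hχ : IsIrrCharacter G χ)
    (S : Finset (IrrCharacter H))
    (hS : ∀ ψ ∈ S, classInner (fun h : H => χ h) (ψ : H → ℂ) ≠ 0) :
    ∑ ψ ∈ S, charDegree (ψ : H → ℂ) ≤ charDegree χ := by
  classical
  have hc := hχ.isCharacter.res H
  obtain ⟨c, hcc⟩ := hc.exists_nat_coeff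
  have hdeg : charDegree χ = ∑ ψ : IrrCharacter H, c ψ * charDegree (ψ : H → ℂ) := by
    rw [← deg_res H χ]
    apply deg_eq
    refine (congrFun hcc 1).trans ?_
    push_cast
    rw [Finset.sum_apply]
    refine Finset.sum_congr rfl fun ψ _ => ?_
    rw [cast_deg_irr ψ.2]
    simp
  rw [hdeg]
  refine le_trans (Finset.sum_le_sum fun ψ hψ => ?_)
    (Finset.sum_le_sum_of_subset (Finset.subset_univ S))
  have h2 : classInner (fun h : H => χ h) (ψ : H → ℂ) = c ψ := by
    conv_lhs => rw [hcc]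
    convert classInner_sum_smul_irr (fun ψ => (c ψ : ℂ)) ψ
  have h3 : c ψ ≠ 0 := by
    intro h0
    apply hS ψ hψ
    rw [h2, h0, Nat.cast_zero]
  exact Nat.le_mul_of_pos_left _ (Nat.pos_of_ne_zero h3)

theorem sq_aux {ι : Type*} (S : Finset ι) (d : ι → ℕ) (n : ℕ) (h : ∑ i ∈ S, d i ≤ n) :
    ∑ i ∈ S, d i ^ 2 ≤ n ^ 2 ∧ (∑ i ∈ S, d i ^ 2 = n ^ 2 → ∀ i ∈ S, 0 < d i → n ≤ d i) := by
  have h1 : ∀ i ∈ S, d i ≤ n := fun i hi =>
    (Finset.single_le_sum (f := d) (fun _ _ => Nat.zero_le _) hi).trans h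
  have h2 : ∑ i ∈ S, d i * n ≤ n ^ 2 := by
    rw [← Finset.sum_mul, sq]
    exact Nat.mul_le_mul_right n h
  have h3 : ∀ i ∈ S, d i ^ 2 ≤ d i * n := fun i hi => by
    rw [sq]
    exact Nat.mul_le_mul_left _ (h1 i hi)
  refine ⟨(Finset.sum_le_sum h3).trans h2, fun he i hi hpos => ?_⟩
  have h4 : ∑ i ∈ S, d i ^ 2 = ∑ i ∈ S, d i * n :=
    le_antisymm (Finset.sum_le_sum h3) (he ▸ h2)
  have h5 := (Finset.sum_eq_sum_iff_of_le h3).1 h4 i hi
  rw [sq] at h5
  exact (Nat.eq_of_mul_eq_mul_left hpos h5).ge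

open Classical in
theorem main_ineq (H : Subgroup G) (hH : ¬ p ∣ H.index) :
    ∑ ψ ∈ Finset.univ.filter (fun ψ : IrrCharacter H => ¬ p ∣ charDegree (ψ : H → ℂ)),
      charDegree (ψ : H → ℂ) ^ 2 ≤
    ∑ χ ∈ Finset.univ.filter (fun χ : IrrCharacter G => ¬ p ∣ charDegree (χ : G → ℂ)),
      charDegree (χ : G → ℂ) ^ 2 ∧
    (∑ ψ ∈ Finset.univ.filter (fun ψ : IrrCharacter H => ¬ p ∣ charDegree (ψ : H → ℂ)),
      charDegree (ψ : H → ℂ) ^ 2 =
    ∑ χ ∈ Finset.univ.filter (fun χ : IrrCharacter G => ¬ p ∣ charDegree (χ : G → ℂ)),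
      charDegree (χ : G → ℂ) ^ 2 →
      ∀ ψ : H → ℂ, IsIrrCharacter H ψ → ¬ p ∣ charDegree ψ →
        ∃ χ : G → ℂ, IsIrrCharacter G χ ∧ (fun h : H => χ h) = ψ) := by
  have := Fintype.ofFinite H
  have hex : ∀ ψ : IrrCharacter H, ∃ χ : IrrCharacter G, ¬ p ∣ charDegree (ψ : H → ℂ) →
      (¬ p ∣ charDegree (χ : G → ℂ) ∧
        classInner (fun h : H => (χ : G → ℂ) h) (ψ : H → ℂ) ≠ 0) := by
    intro ψ
    by_cases h : p ∣ charDegree (ψ : H → ℂ)
    · exact ⟨⟨fun _ => 1, isIrrCharacter_one⟩, fun h' => absurd h h'⟩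
    · obtain ⟨χ, h1, h2⟩ := exists_over H hH ψ.2 h
      exact ⟨χ, fun _ => ⟨h1, h2⟩⟩
  choose f hf using hex
  set A := Finset.univ.filter (fun ψ : IrrCharacter H => ¬ p ∣ charDegree (ψ : H → ℂ)) with hA
  set B := Finset.univ.filter (fun χ : IrrCharacter G => ¬ p ∣ charDegree (χ : G → ℂ)) with hB
  have hmaps : ∀ ψ ∈ A, f ψ ∈ B := fun ψ hψ =>
    Finset.mem_filter.2 ⟨Finset.mem_univ _, (hf ψ (Finset.mem_filter.1 hψ).2).1⟩
  have hfib := Finset.sum_fiberwise_of_maps_to hmaps (fun ψ => charDegree (ψ : H → ℂ) ^ 2)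
  have hle : ∀ χ : IrrCharacter G, ∑ ψ ∈ A.filter (fun ψ => f ψ = χ), charDegree (ψ : H → ℂ) ≤
      charDegree (χ : G → ℂ) := fun χ => by
    refine fiber_sum H χ.2 _ fun ψ hψ => ?_
    obtain ⟨h1, h2⟩ := Finset.mem_filter.1 hψ
    rw [← h2]
    exact (hf ψ (Finset.mem_filter.1 h1).2).2
  have hsq := fun χ : IrrCharacter G => sq_aux _ _ _ (hle χ)
  rw [← hfib]
  refine ⟨Finset.sum_le_sum fun χ _ => (hsq χ).1, fun he ψ hψ hd => ?_⟩
  have hψA : (⟨ψ, hψ⟩ : IrrCharacter H) ∈ A := Finset.mem_filter.2 ⟨Finset.mem_univ _, hd⟩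
  have h1 := (Finset.sum_eq_sum_iff_of_le fun χ _ => (hsq χ).1).1 he _ (hmaps _ hψA)
  have h2 := (hsq _).2 h1 ⟨ψ, hψ⟩ (Finset.mem_filter.2 ⟨hψA, rfl⟩) (deg_pos hψ)
  refine ⟨f ⟨ψ, hψ⟩, (f ⟨ψ, hψ⟩).2, ?_⟩
  refine eq_of_classInner_ne_zero_of_deg_le ((f ⟨ψ, hψ⟩).2.isCharacter.res H) hψ
    (hf ⟨ψ, hψ⟩ hd).2 ?_
  rw [deg_res]
  exact h2

end B

section C
variable {G : Type*} [Group G] [Finite G] {p : ℕ} [hp : Fact p.Prime]

theorem exists_normal_inf (H : Subgroup G) (L : Subgroup H) [L.Normal]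
    (h : ∀ ψ : H → ℂ, IsIrrCharacter H ψ → L ≤ charKer ψ →
      ∃ χ : G → ℂ, IsIrrCharacter G χ ∧ (fun h : H => χ h) = ψ) :
    ∃ K : Subgroup G, K.Normal ∧ K.subgroupOf H = L := by
  choose! f hf using h
  refine ⟨⨅ ψ : {ψ : H → ℂ // IsIrrCharacter H ψ ∧ L ≤ charKer ψ}, charKer (f ψ.1), ?_, ?_⟩
  · refine ⟨fun n hn g => ?_⟩
    rw [Subgroup.mem_iInf] at hn ⊢
    exact fun ψ => (hf ψ.1 ψ.2.1 ψ.2.2).1.charKer_normal.conj_mem n (hn ψ) g
  · ext x
    rw [Subgroup.mem_subgroupOf, Subgroup.mem_iInf, mem_normal_iff_forall_irr L]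
    have key : ∀ ψ : H → ℂ, IsIrrCharacter H ψ → L ≤ charKer ψ →
        ((x : G) ∈ charKer (f ψ) ↔ x ∈ charKer ψ) := by
      intro ψ h1 h2
      conv_rhs => rw [← (hf ψ h1 h2).2, (hf ψ h1 h2).1.isCharacter.charKer_res H]
      rfl
    exact ⟨fun hx ψ h1 h2 => (key ψ h1 h2).1 (hx ⟨ψ, h1, h2⟩),
      fun hx ψ => (key ψ.1 ψ.2.1 ψ.2.2).2 (hx ψ.1 ψ.2.1 ψ.2.2)⟩

theorem exists_of_mem_normalizer_map {H : Type*} [Group H] (f : G →* H)
    (hf : Function.Surjective f) (P : Sylow p G) {h : H}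
    (hh : h ∈ Subgroup.normalizer (((P : Subgroup G).map f : Subgroup H) : Set H)) :
    ∃ n ∈ Subgroup.normalizer ((P : Subgroup G) : Set G), f n = h := by
  obtain ⟨g, rfl⟩ := hf h
  set M := ((P : Subgroup G).map f).comap f with hM
  have hPM : (P : Subgroup G) ≤ M := Subgroup.le_comap_map f _
  have hQM : ((g • P : Sylow p G) : Subgroup G) ≤ M := by
    intro x hx
    rw [Sylow.coe_subgroup_smul, Subgroup.mem_pointwise_smul_iff_inv_smul_mem] at hx
    have h1 : f (g⁻¹ * x * g) ∈ (P : Subgroup G).map f :=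
      Subgroup.mem_map_of_mem f (by simpa using hx)
    rw [Subgroup.mem_normalizer_iff] at hh
    have h2 := (hh _).1 h1
    rw [hM, Subgroup.mem_comap]
    simpa [mul_assoc] using h2
  obtain ⟨m, hm⟩ := MulAction.exists_smul_eq M (P.subtype hPM) ((g • P).subtype hQM)
  have hm' : (m : G) • P = g • P := by
    apply Sylow.ext
    rw [Sylow.smul_subtype] at hm
    have h3 := congrArg (fun Q : Sylow p M => (Q : Subgroup M).map M.subtype) hm
    simp only [Sylow.coe_subtype] at h3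
    rw [Subgroup.subgroupOf_map_subtype, Subgroup.subgroupOf_map_subtype,
      inf_eq_left.2 hQM, inf_eq_left.2 (Sylow.smul_le hPM m)] at h3
    exact h3
  have hn : (m : G)⁻¹ * g ∈ Subgroup.normalizer ((P : Subgroup G) : Set G) := by
    refine Sylow.smul_eq_iff_mem_normalizer.1 ?_
    rw [mul_smul, ← hm', inv_smul_smul]
  obtain ⟨y, hy, hym⟩ := (Subgroup.mem_comap.1 m.2 : f m ∈ (P : Subgroup G).map f)
  refine ⟨y * ((m : G)⁻¹ * g), Subgroup.mul_mem _ (Subgroup.le_normalizer hy) hn, ?_⟩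
  rw [map_mul, map_mul, hym, map_inv, mul_inv_cancel_left]

theorem hasNPC (P : Sylow p G)
    (hN : Subgroup.normalizer ((P : Subgroup G) : Set G) ≤ P) (L : Subgroup G) [L.Normal]
    (hL : L ⊓ (P : Subgroup G) = ⁅(P : Subgroup G), (P : Subgroup G)⁆) :
    HasNormalPComplement p G := by
  refine hasNormalPComplement_of_quotient_of_inf_le_frattini P L ?_ ?_
  · rw [hL, ← Subgroup.map_subtype_commutator]
    refine Subgroup.map_mono ?_
    have := P.isPGroup'.isNilpotent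
    exact ES.commutator_le_frattini_of_nilpotent
  · have hs := QuotientGroup.mk'_surjective L
    refine hasNormalPComplement_of_abelian_sylow_of_normalizer (P.mapSurjective hs) ?_ ?_
    · refine ⟨⟨?_⟩⟩
      rintro ⟨_, a, ha, rfl⟩ ⟨_, b, hb, rfl⟩
      apply Subtype.ext
      change QuotientGroup.mk' L a * QuotientGroup.mk' L b =
        QuotientGroup.mk' L b * QuotientGroup.mk' L a
      rw [← commutatorElement_eq_one_iff_mul_comm, ← map_commutatorElement,
        QuotientGroup.mk'_apply, QuotientGroup.eq_one_iff]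
      have : ⁅a, b⁆ ∈ L ⊓ (P : Subgroup G) := hL ▸ Subgroup.commutator_mem_commutator ha hb
      exact this.1
    · refine hasNormalPComplement_of_isPGroup
        ((P.mapSurjective hs).isPGroup'.to_le fun x hx => ?_)
      obtain ⟨n, hn, rfl⟩ := exists_of_mem_normalizer_map _ hs P hx
      exact Subgroup.mem_map_of_mem _ (hN hn)

theorem exists_compl (P : Sylow p G) (K₁ K₂ : Subgroup G) [K₁.Normal] [K₂.Normal]
    (h₁ : K₁ ⊓ Subgroup.normalizer ((P : Subgroup G) : Set G) = P)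
    (h₂ : K₂ ⊓ Subgroup.normalizer ((P : Subgroup G) : Set G) =
      ⁅(P : Subgroup G), (P : Subgroup G)⁆) :
    ∃ K : Subgroup G, K.Normal ∧ K ⊓ Subgroup.normalizer ((P : Subgroup G) : Set G) = ⊥ ∧
      K ⊔ Subgroup.normalizer ((P : Subgroup G) : Set G) = ⊤ := by
  have hP : (P : Subgroup G) ≤ K₁ := h₁ ▸ inf_le_left
  have hc : HasNormalPComplement p K₁ := by
    refine hasNPC (P.subtype hP) ?_ (K₂.subgroupOf K₁) ?_
    · intro x hx
      have h3 : (x : G) ∈ Subgroup.normalizer ((P : Subgroup G) : Set G) := by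
        refine Sylow.smul_eq_iff_mem_normalizer.1 ?_
        replace hx := Sylow.smul_eq_iff_mem_normalizer.2 hx
        rw [Sylow.smul_subtype] at hx
        have h3 := congrArg (fun Q : Sylow p K₁ => (Q : Subgroup K₁).map K₁.subtype) hx
        simp only [Sylow.coe_subtype] at h3
        rw [Subgroup.subgroupOf_map_subtype, Subgroup.subgroupOf_map_subtype,
          inf_eq_left.2 hP, inf_eq_left.2 (Sylow.smul_le hP x)] at h3
        exact Sylow.ext h3
      have h4 : (x : G) ∈ K₁ ⊓ Subgroup.normalizer ((P : Subgroup G) : Set G) := ⟨x.2, h3⟩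
      rw [h₁] at h4
      exact h4
    · apply Subgroup.map_injective K₁.subtype_injective
      rw [Subgroup.map_commutator, Sylow.coe_subtype, Subgroup.subgroupOf_map_subtype,
        inf_eq_left.2 hP, ← h₂, Subgroup.subgroupOf, Subgroup.subgroupOf, ← Subgroup.comap_inf,
        Subgroup.map_comap_eq, Subgroup.range_subtype, inf_comm K₁]
      apply le_antisymm
      · exact inf_le_left.trans (inf_le_inf_left _ Subgroup.le_normalizer)
      · have h5 : K₂ ⊓ Subgroup.normalizer ((P : Subgroup G) : Set G) ≤ P := by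
          rw [h₂]
          exact Subgroup.commutator_le_self _
        exact le_inf (le_inf inf_le_left h5) (h5.trans hP)
  have hi := (hasNormalPComplement_iff_inf_eq_bot (P.subtype hP)).1 hc
  have hs := pResidual_sup_sylow (P.subtype hP)
  refine ⟨(pResidual p K₁).map K₁.subtype, inferInstance, ?_, ?_⟩
  · rw [eq_bot_iff]
    rintro _ ⟨⟨x, hx, rfl⟩, hx'⟩
    have h4 : (x : G) ∈ K₁ ⊓ Subgroup.normalizer ((P : Subgroup G) : Set G) := ⟨x.2, hx'⟩
    rw [h₁] at h4
    have h5 : x ∈ pResidual p K₁ ⊓ (P.subtype hP : Subgroup K₁) := ⟨hx, h4⟩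
    rw [hi, Subgroup.mem_bot] at h5
    rw [h5]
    exact Subgroup.one_mem _
  · rw [eq_top_iff, ← Sylow.normalizer_sup_eq_top' P hP]
    refine sup_le le_sup_right ?_
    have h6 := congrArg (Subgroup.map K₁.subtype) hs
    rw [Subgroup.map_sup, Sylow.coe_subtype, Subgroup.subgroupOf_map_subtype, inf_eq_left.2 hP,
      ← MonoidHom.range_eq_map, Subgroup.range_subtype] at h6
    exact h6.ge.trans (sup_le_sup_left Subgroup.le_normalizer _)

end C

section D
variable {G : Type*} [Group G] [Finite G] {p : ℕ} [hp : Fact p.Prime]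

theorem le_charKer (P : Sylow p G) (K : Subgroup G) [K.Normal]
    (hK : K ⊓ Subgroup.normalizer ((P : Subgroup G) : Set G) = ⊥) {χ : G → ℂ}
    (hχ : IsIrrCharacter G χ) (hd : ¬ p ∣ charDegree χ) : K ≤ charKer χ := by
  classical
  have := Fintype.ofFinite K
  have hχ' : IsIrrCharacter (⊤ : Subgroup G) (fun x => χ x) := hχ.comp_equiv Subgroup.topEquiv
  obtain ⟨θ, hθ, hi, ho⟩ := exists_sylow_inv_under P (le_top : K ≤ ⊤) le_top hχ'
    (by rwa [deg_res])
  rw [over_inclusion_iff] at ho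
  have hcop : ¬ p ∣ Nat.card K := by
    rw [← coprime_iff_not_dvd']
    refine coprime_card_of_disjoint_sylow P K ?_
    rw [eq_bot_iff, ← hK]
    exact inf_le_inf_left _ Subgroup.le_normalizer
  have hconj : ∀ s ∈ (P : Subgroup G), ∀ g ∈ K, s * g * s⁻¹ ∈ K :=
    fun s _ g hg => Subgroup.Normal.conj_mem inferInstance g hg s
  have hC : (⊥ : Subgroup G) = K ⊓ Subgroup.centralizer ((P : Subgroup G) : Set G) := by
    symm
    rw [eq_bot_iff, ← hK]
    exact inf_le_inf_left _ (Subgroup.centralizer_le_normalizer _)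
  have := Fintype.ofFinite (⊥ : Subgroup G)
  have hfe := isFixedEmb_conjHom hconj hC bot_le
  have hinv : IsInv (conjHom K P hconj) θ := by
    rw [isInv_conjHom_iff]
    intro s hs g g' hg
    exact invBy_subtype_iff.2 (hi hs) g g' hg
  have hinv1 : IsInv (conjHom K P hconj) (fun _ => 1) := fun _ _ => rfl
  obtain ⟨β, hβ, h1⟩ := glauberman_exists (Subgroup.inclusion (bot_le : (⊥ : Subgroup G) ≤ K))
    hcop hθ
  obtain ⟨β', hβ', h2⟩ := glauberman_exists (Subgroup.inclusion (bot_le : (⊥ : Subgroup G) ≤ K))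
    hcop (isIrrCharacter_one (G := K))
  have hb : ∀ γ : (⊥ : Subgroup G) → ℂ, IsIrrCharacter _ γ → γ = fun _ => 1 := fun γ hγ =>
    hγ.eq_one_of_forall_eq fun g => by rw [Subsingleton.elim g 1]
  rw [hb β' hβ', ← hb β hβ] at h2
  have h3 := glauberman_inj P.isPGroup' hfe hcop hθ isIrrCharacter_one hinv hinv1 hβ h1 h2
  rw [h3] at ho
  exact hχ.le_charKer_of_classInner_res_one_ne_zero K ho

omit hp in
theorem res_irr (H K : Subgroup G) [K.Normal] (h : K ⊔ H = ⊤) {χ : G → ℂ}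
    (hχ : IsIrrCharacter G χ) (hK : K ≤ charKer χ) : IsIrrCharacter H (fun h : H => χ h) := by
  obtain ⟨ψ, hψ, he⟩ := hχ.exists_of_surjective (QuotientGroup.mk' K)
    (QuotientGroup.mk'_surjective K) (by rwa [QuotientGroup.ker_mk'])
  have hs : Function.Surjective ((QuotientGroup.mk' K).comp H.subtype) := by
    intro q
    obtain ⟨g, rfl⟩ := QuotientGroup.mk'_surjective K q
    have hg : g ∈ ((K ⊔ H : Subgroup G) : Set G) := by rw [h]; trivial
    rw [Subgroup.normal_mul] at hg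
    obtain ⟨k, hk, x, hx, rfl⟩ := hg
    refine ⟨⟨x, hx⟩, ?_⟩
    simp [(QuotientGroup.eq_one_iff k).2 hk]
  have := hψ.comp_of_surjective _ hs
  simpa only [MonoidHom.comp_apply, he, Subgroup.coe_subtype] using this

omit [Finite G] hp in
theorem res_inj (H K : Subgroup G) [K.Normal] (h : K ⊔ H = ⊤) {χ χ' : G → ℂ}
    (hK : K ≤ charKer χ) (hK' : K ≤ charKer χ') (he : (fun h : H => χ h) = fun h : H => χ' h) :
    χ = χ' := by
  funext g
  have hg : g ∈ ((K ⊔ H : Subgroup G) : Set G) := by rw [h]; trivial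
  rw [Subgroup.normal_mul] at hg
  obtain ⟨k, hk, x, hx, rfl⟩ := hg
  simp only
  rw [apply_mul_of_mem_charKer (hK hk), apply_mul_of_mem_charKer (hK' hk)]
  exact congrFun he ⟨x, hx⟩

open Classical in
theorem rev_ineq (P : Sylow p G) (H K : Subgroup G) [K.Normal]
    (hK : K ⊓ Subgroup.normalizer ((P : Subgroup G) : Set G) = ⊥) (h : K ⊔ H = ⊤) :
    ∑ χ ∈ Finset.univ.filter (fun χ : IrrCharacter G => ¬ p ∣ charDegree (χ : G → ℂ)),
      charDegree (χ : G → ℂ) ^ 2 ≤
    ∑ ψ ∈ Finset.univ.filter (fun ψ : IrrCharacter H => ¬ p ∣ charDegree (ψ : H → ℂ)),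
      charDegree (ψ : H → ℂ) ^ 2 := by
  set B := Finset.univ.filter (fun χ : IrrCharacter G => ¬ p ∣ charDegree (χ : G → ℂ)) with hB
  have hker : ∀ χ ∈ B, K ≤ charKer (χ : G → ℂ) := fun χ hχ =>
    le_charKer P K hK χ.2 (Finset.mem_filter.1 hχ).2
  let r : IrrCharacter G → IrrCharacter H := fun χ =>
    if hχ : χ ∈ B then ⟨fun x => (χ : G → ℂ) x, res_irr H K h χ.2 (hker χ hχ)⟩
    else ⟨fun _ => 1, isIrrCharacter_one⟩
  have hr : ∀ χ ∈ B, (r χ : H → ℂ) = fun x : H => (χ : G → ℂ) x := fun χ hχ => by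
    simp only [r, dif_pos hχ]
  have hinj : Set.InjOn r B := fun χ hχ χ' hχ' he =>
    Subtype.ext (res_inj H K h (hker χ hχ) (hker χ' hχ') (by rw [← hr χ hχ, ← hr χ' hχ', he]))
  calc ∑ χ ∈ B, charDegree (χ : G → ℂ) ^ 2
      = ∑ χ ∈ B, charDegree (r χ : H → ℂ) ^ 2 :=
        Finset.sum_congr rfl fun χ hχ => by rw [hr χ hχ, deg_res]
    _ = ∑ ψ ∈ B.image r, charDegree (ψ : H → ℂ) ^ 2 :=
        (Finset.sum_image (f := fun ψ : IrrCharacter H => charDegree (ψ : H → ℂ) ^ 2) hinj).symm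
    _ ≤ _ := by
        refine Finset.sum_le_sum_of_subset fun ψ hψ => ?_
        obtain ⟨χ, hχ, rfl⟩ := Finset.mem_image.1 hψ
        refine Finset.mem_filter.2 ⟨Finset.mem_univ _, ?_⟩
        rw [hr χ hχ, deg_res]
        exact (Finset.mem_filter.1 hχ).2

open Classical in
theorem main (P : Sylow p G) :
    Nat.card (Subgroup.normalizer ((P : Subgroup G) : Set G)) ≤ Nat.card (commutator ↥P) *
      ∑ χ ∈ Finset.univ.filter (fun χ : IrrCharacter G => ¬ p ∣ charDegree (χ : G → ℂ)),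
        charDegree (χ : G → ℂ) ^ 2 ∧
    (Nat.card (Subgroup.normalizer ((P : Subgroup G) : Set G)) = Nat.card (commutator ↥P) *
      ∑ χ ∈ Finset.univ.filter (fun χ : IrrCharacter G => ¬ p ∣ charDegree (χ : G → ℂ)),
        charDegree (χ : G → ℂ) ^ 2 ↔
      ∃ K : Subgroup G, K.Normal ∧ K ⊓ Subgroup.normalizer ((P : Subgroup G) : Set G) = ⊥ ∧
        K ⊔ Subgroup.normalizer ((P : Subgroup G) : Set G) = ⊤) := by
  set N := Subgroup.normalizer ((P : Subgroup G) : Set G) with hN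
  have hPN : (P : Subgroup G) ≤ N := Subgroup.le_normalizer
  set Q : Subgroup N := (P : Subgroup G).subgroupOf N with hQ
  have : Q.Normal := Subgroup.normal_in_normalizer
  have hQp : IsPGroup p Q := P.isPGroup'.comap_subtype
  have hQi : ¬ p ∣ Q.index := (P.subtype hPN).not_dvd_index
  have hNi : ¬ p ∣ N.index := fun h => P.not_dvd_index (h.trans (Subgroup.index_dvd_of_le hPN))
  have hmapQ : Q.map N.subtype = P := by
    rw [hQ, Subgroup.subgroupOf_map_subtype, inf_eq_left.2 hPN]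
  have hmap : (⁅Q, Q⁆ : Subgroup N).map N.subtype = ⁅(P : Subgroup G), (P : Subgroup G)⁆ := by
    rw [Subgroup.map_commutator, hmapQ]
  have hcard : Nat.card (commutator ↥P) = Nat.card (⁅Q, Q⁆ : Subgroup N) := by
    rw [← Subgroup.card_map_of_injective (K := ⁅Q, Q⁆) N.subtype_injective, hmap,
      ← Subgroup.map_subtype_commutator,
      Subgroup.card_map_of_injective (P : Subgroup G).subtype_injective]
    rfl
  have hA := sum_A Q hQp hQi
  have hpos : 0 < Nat.card (⁅Q, Q⁆ : Subgroup N) := Nat.card_pos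
  obtain ⟨h1, h2⟩ := main_ineq (p := p) N hNi
  rw [hcard, ← (⁅Q, Q⁆ : Subgroup N).card_mul_index, ← hA]
  refine ⟨Nat.mul_le_mul_left _ h1, fun he => ?_, ?_⟩
  · have h3 := h2 (Nat.eq_of_mul_eq_mul_left hpos he)
    obtain ⟨K₁, hK₁, hK₁'⟩ := exists_normal_inf N Q fun ψ hψ hk =>
      h3 ψ hψ ((deg_iff Q hQp hQi hψ).1 ((Subgroup.commutator_le_self Q).trans hk))
    obtain ⟨K₂, hK₂, hK₂'⟩ := exists_normal_inf N ⁅Q, Q⁆ fun ψ hψ hk =>
      h3 ψ hψ ((deg_iff Q hQp hQi hψ).1 hk)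
    refine exists_compl P K₁ K₂ ?_ ?_
    · rw [← hN, ← Subgroup.subgroupOf_map_subtype, hK₁', hmapQ]
    · rw [← hN, ← Subgroup.subgroupOf_map_subtype, hK₂', hmap]
  · rintro ⟨K, hK, hK1, hK2⟩
    rw [le_antisymm h1 (rev_ineq P N K hK1 hK2)]

end D

/-- Let G be a finite group, P a Sylow 2-subgroup of G with normalizer N, and P′ the commutator subgroup of P. Then the sum of the squares of the degrees of the irreducible complex characters of G of odd degree is at least the index of P′ in N (the order of N divided by the order of P′), and equality holds if and only if N has a normal complement in G: a normal subgroup K of G with K ∩ N = 1 and KN = G. -/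
theorem result {G : Type*} [Group G] [Finite G] (P : Sylow 2 G) :
    Nat.card (Subgroup.normalizer ((P : Subgroup G) : Set G)) ≤ Nat.card (commutator ↥P) * (∑ᶠ χ : {χ : Cfsg.IrrCharacter G // ¬ 2 ∣ Cfsg.charDegree (χ : G → ℂ)}, Cfsg.charDegree (χ.1 : G → ℂ) ^ 2) ∧
    (Nat.card (Subgroup.normalizer ((P : Subgroup G) : Set G)) = Nat.card (commutator ↥P) * (∑ᶠ χ : {χ : Cfsg.IrrCharacter G // ¬ 2 ∣ Cfsg.charDegree (χ : G → ℂ)}, Cfsg.charDegree (χ.1 : G → ℂ) ^ 2) ↔
      ∃ K : Subgroup G, K.Normal ∧ K ⊓ Subgroup.normalizer ((P : Subgroup G) : Set G) = ⊥ ∧ K ⊔ Subgroup.normalizer ((P : Subgroup G) : Set G) = ⊤) := by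
  classical
  have h : (∑ᶠ χ : {χ : Cfsg.IrrCharacter G // ¬ 2 ∣ Cfsg.charDegree (χ : G → ℂ)},
      Cfsg.charDegree (χ.1 : G → ℂ) ^ 2) =
      ∑ χ ∈ Finset.univ.filter (fun χ : IrrCharacter G => ¬ 2 ∣ charDegree (χ : G → ℂ)),
        charDegree (χ : G → ℂ) ^ 2 := by
    rw [finsum_eq_sum_of_fintype]
    exact (Finset.sum_subtype _ (fun χ => by simp)
      (fun χ : IrrCharacter G => charDegree (χ : G → ℂ) ^ 2)).symm
  rw [h]
  convert main P

end Cfsg.Agent.S4930
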