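import Cfsg.Statements.S4931
import Cfsg.Agent.Char.DegBasic
import Cfsg.Agent.Trans.Tate
import Cfsg.Agent.Solv.Conj
import Cfsg.Agent.S0012

set_option autoImplicit false
open Cfsg

namespace Cfsg.Agent.S4931

open Cfsg.Lib.Char

open Cfsg.Lib.Trans Cfsg.Lib.Solv Subgroup

theorem ito_mod {H : Type*} [Group H] [Finite H] {θ : H → ℂ} (hθ : IsIrrCharacter H θ)
    (A : Subgroup H) [A.Normal] (h : ⁅A, A⁆ ≤ charKer θ) : charDegree θ ∣ A.index := by
  have := hθ.charKer_normal
  obtain ⟨ψ, hψ, h1⟩ := hθ.exists_quotient (charKer θ) fun n hn => apply_of_mem_charKer hn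
  have := Subgroup.Normal.map ‹A.Normal› _ (QuotientGroup.mk'_surjective (charKer θ))
  have h2 := Deg.ito hψ (A.map (QuotientGroup.mk' (charKer θ))) (by
    rintro _ ⟨a, ha, rfl⟩ _ ⟨b, hb, rfl⟩
    rw [← commutatorElement_eq_one_iff_mul_comm, ← map_commutatorElement]
    exact (QuotientGroup.eq_one_iff _).2 (h (commutator_mem_commutator ha hb)))
  rw [Deg.deg_congr (φ := ψ) (h1 1).symm]
  exact h2.trans (index_map_dvd _ (QuotientGroup.mk'_surjective _))

theorem exists_normal {G : Type*} [Group G] [Finite G] {N D : Subgroup G} (hDN : D ≤ N)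
    [(D.subgroupOf N).Normal] (h : ∀ θ, IsIrrCharacter N θ → D.subgroupOf N ≤ charKer θ →
      ∃ χ, IsIrrCharacter G χ ∧ ∀ x : N, χ x = θ x) : ∃ K : Subgroup G, K.Normal ∧ K ⊓ N = D := by
  refine ⟨⨅ χ : {χ // IsIrrCharacter G χ ∧ D ≤ charKer χ}, charKer χ.1,
    normal_iInf_normal fun χ => χ.2.1.charKer_normal, le_antisymm (fun n hn => ?_)
      (le_inf (le_iInf fun χ => χ.2.2) hDN)⟩
  refine (mem_normal_iff_forall_irr (D.subgroupOf N) (g := ⟨n, hn.2⟩)).2 fun θ hθ h1 => ?_
  obtain ⟨χ, hχ, h2⟩ := h θ hθ h1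
  have h3 := mem_iInf.1 hn.1 ⟨χ, hχ, fun d hd => hχ.mem_charKer_iff.2
    ((h2 ⟨d, hDN hd⟩).trans ((apply_of_mem_charKer (h1 hd)).trans (h2 1).symm))⟩
  rw [hθ.mem_charKer_iff, ← h2, ← h2]
  exact apply_of_mem_charKer h3

theorem pnil {G : Type*} [Group G] [Finite G] {p : ℕ} [Fact p.Prime] (P : Sylow p G)
    (hN : normalizer ((P : Subgroup G) : Set G) ≤ P) (Q : Subgroup G) [Q.Normal]
    (h : Q ⊓ P = ⁅(P : Subgroup G), (P : Subgroup G)⁆) : HasNormalPComplement p G := by
  apply hasNormalPComplement_of_quotient_of_inf_le_frattini P Q (by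
    rw [h, ← Cfsg.Lib.Solv.map_subtype_commutator]
    exact map_mono (Cfsg.Agent.S0012.result p P.isPGroup').1)
  apply hasNormalPComplement_of_abelian_sylow_of_normalizer
    (P.mapSurjective (QuotientGroup.mk'_surjective Q))
  · rw [← le_centralizer_iff_isMulCommutative, ← commutator_eq_bot_iff_le_centralizer,
      Sylow.coe_mapSurjective, ← map_commutator, Subgroup.map_eq_bot_iff, QuotientGroup.ker_mk']
    exact h.ge.trans inf_le_left
  · refine hasNormalPComplement_of_le ?_ (hasNormalPComplement_of_isPGroup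
      (P.mapSurjective (QuotientGroup.mk'_surjective Q)).isPGroup')
    intro x hx
    obtain ⟨g, rfl⟩ := QuotientGroup.mk'_surjective Q x
    have h3 := le_normalizer_comap (QuotientGroup.mk' Q) (mem_comap.mpr hx)
    rw [Sylow.coe_mapSurjective, comap_map_eq, QuotientGroup.ker_mk'] at h3
    have h4 : ((g • P : Sylow p G) : Subgroup G) ≤ (P : Subgroup G) ⊔ Q := by
      rw [coe_sylow_smul, ← conj_smul_eq_of_mem_normalizer h3]
      exact conj_smul_mono g le_sup_left
    obtain ⟨y, hy⟩ := MulAction.exists_smul_eq ((P : Subgroup G) ⊔ Q : Subgroup G)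
      ((g • P).subtype h4) (P.subtype le_sup_left)
    rw [Sylow.smul_subtype] at hy
    have h5 : (y : G) * g ∈ (P : Subgroup G) := hN (Sylow.smul_eq_iff_mem_normalizer.1 (by
      rw [mul_smul]; exact Sylow.subtype_injective hy))
    have h6 : g ∈ (P : Subgroup G) ⊔ Q :=
      (mul_mem_cancel_left y.2).1 (mem_sup_left h5)
    rw [← QuotientGroup.ker_mk' Q, ← comap_map_eq] at h6
    exact h6

/-- Let G be a finite group, p a prime and P a Sylow p-subgroup of G with normalizer N. Then every irreducible complex character of N of degree not divisible by p is the restriction of an irreducible character of G if and only if there is a normal subgroup K of G with KN = G and K ∩ N = 1. -/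
theorem result {G : Type*} [Group G] [Finite G] (p : ℕ) [Fact p.Prime] (P : Sylow p G) :
    (∀ θ : Cfsg.IrrCharacter ↥(Subgroup.normalizer ((P : Subgroup G) : Set G)), ¬ p ∣ Cfsg.charDegree (θ : ↥(Subgroup.normalizer ((P : Subgroup G) : Set G)) → ℂ) →
        ∃ χ : Cfsg.IrrCharacter G, ∀ x : ↥(Subgroup.normalizer ((P : Subgroup G) : Set G)), (χ : G → ℂ) x = (θ : ↥(Subgroup.normalizer ((P : Subgroup G) : Set G)) → ℂ) x) ↔
      ∃ K : Subgroup G, K.Normal ∧ K ⊔ Subgroup.normalizer ((P : Subgroup G) : Set G) = ⊤ ∧ K ⊓ Subgroup.normalizer ((P : Subgroup G) : Set G) = ⊥ := by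
  set N := Subgroup.normalizer ((P : Subgroup G) : Set G) with hN
  have hPN : (P : Subgroup G) ≤ N := le_normalizer
  constructor
  · intro h
    have : ((P : Subgroup G).subgroupOf N).Normal := normal_in_normalizer
    have key : ∀ θ, IsIrrCharacter N θ →
        ⁅(P : Subgroup G), (P : Subgroup G)⁆.subgroupOf N ≤ charKer θ →
        ∃ χ, IsIrrCharacter G χ ∧ ∀ x : N, χ x = θ x := fun θ hθ h1 => by
      have h2 := ito_mod hθ ((P : Subgroup G).subgroupOf N) (le_trans (by
        rw [commutator_le]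
        exact fun a ha b hb => commutator_mem_commutator (G := G) ha hb) h1)
      obtain ⟨χ, hχ⟩ := h ⟨θ, hθ⟩ fun h3 => P.not_dvd_index
        (h3.trans (h2.trans (relIndex_dvd_index_of_le hPN)))
      exact ⟨χ.1, χ.2, hχ⟩
    have hPP : ⁅(P : Subgroup G), (P : Subgroup G)⁆ ≤ P := commutator_le_left_of_le_normalizer hPN
    obtain ⟨R, hR, h1⟩ := exists_normal hPN fun θ hθ h1 => key θ hθ
      (le_trans (fun x hx => hPP hx) h1)
    have := (normal_subgroupOf_iff_le_normalizer (hPP.trans hPN)).2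
      (le_normalizer_commutator le_rfl le_rfl)
    obtain ⟨K, hK, h2⟩ := exists_normal (hPP.trans hPN) key
    have hPR : (P : Subgroup G) ≤ R := h1.ge.trans inf_le_left
    have h3 := pnil (P.subtype hPR) (by
      rw [Sylow.coe_subtype, ← subgroupOf_normalizer_eq hPR]
      exact fun x hx => h1.le ⟨x.2, hx⟩) (K.subgroupOf R) (by
      apply map_injective R.subtype_injective
      rw [map_commutator, Sylow.coe_subtype, map_inf _ _ _ R.subtype_injective,
        subgroupOf_map_subtype, subgroupOf_map_subtype, inf_eq_left.2 hPR, ← h2]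
      exact le_antisymm (inf_le_inf inf_le_left hPN) (le_inf (le_inf inf_le_left
        ((h2.le.trans hPP).trans hPR)) (h2.le.trans hPP)))
    refine ⟨(pResidual p R).map R.subtype, inferInstance, ?_, ?_⟩
    · have h4 := congrArg (map R.subtype) (pResidual_sup_sylow (P.subtype hPR))
      rw [Subgroup.map_sup, Sylow.coe_subtype, subgroupOf_map_subtype, inf_eq_left.2 hPR,
        ← MonoidHom.range_eq_map, range_subtype] at h4
      rw [eq_top_iff, ← Sylow.normalizer_sup_eq_top' P hPR, sup_le_iff]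
      exact ⟨le_sup_right, h4.ge.trans (sup_le_sup_left hPN _)⟩
    · rw [eq_bot_iff, ← inf_eq_bot_of_coprime_of_isPGroup (N := (pResidual p R).map R.subtype)
        (by rw [card_map_subtype]; exact hasNormalPComplement_iff_coprime.1 h3) P.isPGroup']
      exact fun x hx => ⟨hx.1, h1.le ⟨map_subtype_le _ hx.1, hx.2⟩⟩
  · rintro ⟨K, hK, h1, h2⟩ θ -
    have hb : Function.Bijective ((QuotientGroup.mk' K).comp N.subtype) := by
      constructor
      · rw [← MonoidHom.ker_eq_bot_iff, eq_bot_iff]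
        intro x hx
        exact Subtype.ext (h2.le ⟨(QuotientGroup.eq_one_iff _).1 hx, x.2⟩)
      · intro y
        obtain ⟨g, rfl⟩ := QuotientGroup.mk'_surjective K y
        obtain ⟨k, hk, n, hn, rfl⟩ := (mem_sup_of_le_normalizer fun x _ =>
          le_normalizer_of_normal (mem_top x)).1 (h1.ge (mem_top g))
        exact ⟨⟨n, hn⟩, by simp [(QuotientGroup.eq_one_iff _).2 hk]⟩
    let e := MulEquiv.ofBijective _ hb
    exact ⟨⟨_, (θ.2.comp_equiv e.symm).inflate⟩, fun x => congrArg θ.1 (e.symm_apply_apply x)⟩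

end Cfsg.Agent.S4931
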