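import Cfsg.Statements.S4937
import Cfsg.Agent.Block.AlperinDade

set_option autoImplicit false
open Cfsg

namespace Cfsg.Agent.S4937

open Cfsg.Lib.Block Cfsg.Lib.Char

/-- Let G be a finite group, p a prime, M a maximal ideal of the algebraic integers containing p, N a normal subgroup of G and P a Sylow p-subgroup of N such that G = N·C_G(P). Let θ be an irreducible character in the principal p-block of N that is the restriction of some irreducible character of G. Then θ is the restriction of an irreducible character χ of G lying in the principal p-block of G such that, for every subgroup J of G containing N, the restriction of χ to J is an irreducible character of J lying in the principal p-block of J. -/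
theorem result {G : Type*} [Group G] [Finite G] (p : ℕ) [Fact p.Prime] (M : Ideal Cfsg.AlgInt) (hM : Cfsg.IsPModular p M) (N : Subgroup G) [N.Normal] (P : Sylow p ↥N)
    (hcov : N ⊔ Subgroup.centralizer (((P : Subgroup ↥N).map N.subtype : Subgroup G) : Set G) = ⊤)
    (θ : Cfsg.IrrCharacter ↥N) (hθ : θ ∈ Cfsg.principalBlock M ↥N)
    (hext : ∃ ψ : Cfsg.IrrCharacter G, ∀ x : ↥N, (ψ : G → ℂ) x = (θ : ↥N → ℂ) x) :
    ∃ χ : Cfsg.IrrCharacter G, χ ∈ Cfsg.principalBlock M G ∧ (∀ x : ↥N, (χ : G → ℂ) x = (θ : ↥N → ℂ) x) ∧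
      ∀ J : Subgroup G, N ≤ J → ∃ ξ : Cfsg.IrrCharacter ↥J, ξ ∈ Cfsg.principalBlock M ↥J ∧ ∀ y : ↥J, (ξ : ↥J → ℂ) y = (χ : G → ℂ) y := by
  have hF : Ht.Full M N := Ht.full_of_sup hM (isSylowIn_map p N P).not_dvd_relIndex hcov
  obtain ⟨ψ, hψ⟩ := hext
  obtain ⟨χ, h1, h2⟩ := hF.exists_good_ext hM hθ ψ.2.isCharacter hψ
  have h' : (fun n : N => (χ : G → ℂ) n) = θ := funext h1
  exact ⟨χ, Ht.mem_principalBlock_of_good hM h2, h1, fun J hJ =>
    Ht.res_mem_principalBlock_of_good hM χ.2.isCharacter (h' ▸ θ.2) h2 hJ⟩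

end Cfsg.Agent.S4937
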