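import Cfsg.Statements.S4949
import Cfsg.Agent.Block.AltHt

set_option autoImplicit false
open Cfsg

namespace Cfsg.Agent.S4949

open Cfsg.Lib.SymChar Cfsg.Lib.Block

/-- Let n be a natural number, p a prime, M a maximal ideal of the algebraic integers containing p, B a p-block of the alternating group of degree n and D a defect group of B. Then either B contains an irreducible character of height 1 and D has an irreducible complex character of degree p, or every irreducible character of B has height zero and D is commutative (so the least positive height in B and the least positive exponent of a character degree of D are both 1 or both absent). -/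
theorem result (n : ℕ) (p : ℕ) [Fact p.Prime] (M : Ideal Cfsg.AlgInt) (hM : Cfsg.IsPModular p M) (B : Set (Cfsg.IrrCharacter ↥(alternatingGroup (Fin n)))) (hB : Cfsg.IsPBlock M B) (D : Subgroup ↥(alternatingGroup (Fin n))) (hD : Cfsg.IsDefectGroup p M B D) :
    ((∃ χ : Cfsg.IrrCharacter ↥(alternatingGroup (Fin n)), χ ∈ B ∧ Cfsg.blockHeight p B (χ : ↥(alternatingGroup (Fin n)) → ℂ) = 1) ∧ (∃ φ : Cfsg.IrrCharacter ↥D, Cfsg.charDegree (φ : ↥D → ℂ) = p)) ∨
    ((∀ χ : Cfsg.IrrCharacter ↥(alternatingGroup (Fin n)), χ ∈ B → Cfsg.blockHeight p B (χ : ↥(alternatingGroup (Fin n)) → ℂ) = 0) ∧ IsMulCommutative D) := by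
  have hp := hM.1
  by_cases hd : blockDefect p B ≤ 2
  · exact Or.inr ⟨fun χ hχ => blockHeight_eq_zero_of_defect_le_two hM hB hd hχ,
      isMulCommutative_of_card_pow hd (card_defect hM hB hD)⟩
  have hN : (p + 1) * Fintype.card (Fin n) ≤ Fintype.card (Fin ((p + 1) * n)) := by simp
  have hN' : Fintype.card (Fin n) ≤ Fintype.card (Fin ((p + 1) * n)) := by nlinarith
  obtain ⟨ψ, β, P, h, hc, hP, hPD⟩ := exists_cover_alt hM hN' hB hD
  have hD1 : D ≠ ⊥ := fun e => hd (by rw [(blockDefect_eq_zero_iff hM hB hD).2 e]; omega)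
  have hnt : Nontrivial (Fin n) := by
    by_contra hn
    rw [not_nontrivial_iff_subsingleton] at hn
    exact hD1 (Subsingleton.elim _ _)
  have h2 : (alternatingGroup (Fin n)).index = 2 := alternatingGroup.index_eq_two
  have hdef := h.blockDefect_eq hM hN'
  rw [factorization_factorial_mul' hp] at hdef
  have ht : ∀ {χ : IrrCharacter (Equiv.Perm (Fin n))} {γ : Fin ((p + 1) * n) → ℕ}, Lab χ γ →
      χ ∈ blockOf M (ψ : Equiv.Perm (Fin n) → ℂ) →
      blockHeight p (blockOf M (ψ : Equiv.Perm (Fin n) → ℂ)) (χ : Equiv.Perm (Fin n) → ℂ) =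
        (NP p γ).factorization p := fun h' hχ => by
    rw [← h'.blockHeight_eq hM hN', ← block_eq_blockOf hM (isPBlock_blockOf ψ) hχ]
  have one : p ≤ wt p β → ∃ χ ∈ blockOf M (ψ : Equiv.Perm (Fin n) → ℂ), ∃ θ ∈ B,
      Over _ (χ : Equiv.Perm (Fin n) → ℂ) (θ : alternatingGroup (Fin n) → ℂ) ∧
      blockHeight p (blockOf M (ψ : Equiv.Perm (Fin n) → ℂ)) (χ : Equiv.Perm (Fin n) → ℂ) = 1 ∧
      (p = 2 → 3 ≤ wt p β → ∃ g, g ∉ alternatingGroup (Fin n) ∧
        (χ : Equiv.Perm (Fin n) → ℂ) g ≠ 0) := fun hw => by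
    obtain ⟨χ, γ, h', h3, h4, h5⟩ := h.exists_NP hp hN hw
    have hχ : χ ∈ blockOf M (ψ : Equiv.Perm (Fin n) → ℂ) := (h.sameBlock_iff hM hN' h').2 h3
    obtain ⟨θ, hθ, ho⟩ := hc.exists_under hM (isPBlock_blockOf ψ) hB hχ
    exact ⟨χ, hχ, θ, hθ, ho, (ht h' hχ).trans h4, h5⟩
  rcases hp.eq_two_or_odd' with rfl | hodd
  · have hw : 0 < wt 2 β := h.wt_pos hM hN' hP fun e => hD1 (by
      rwa [e, bot_inf_eq, eq_comm, Subgroup.map_eq_bot_iff_of_injective _
        (Subgroup.subtype_injective _)] at hPD)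
    have h6 := blockDefect_alt_two hM hN' h hw hB hD hP hPD
    have hw3 : 3 ≤ wt 2 β := by
      by_contra h7
      rw [hdef] at h6
      rcases (by omega : wt 2 β = 1 ∨ wt 2 β = 2) with e | e
      · rw [e] at h6; simp at h6; omega
      · rw [e, Nat.factorial_two, hp.factorization_self] at h6; omega
    obtain ⟨χ, hχ, θ, hθ, ho, h3, h4⟩ := one (by omega)
    obtain ⟨g, hg, h0⟩ := h4 rfl hw3
    exact Or.inl ⟨⟨θ, hθ, (ho.blockHeight_eq_two h2 hχ hθ hg h0 h6).trans h3⟩,
      h.hasDeg_two hM hN' hB hD hP hPD hw3⟩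
  have h6 := blockDefect_alt_of_odd hM hodd hB hD hP hPD
  by_cases hw : p ≤ wt p β
  · obtain ⟨χ, hχ, θ, hθ, ho, h3, -⟩ := one hw
    exact Or.inl ⟨⟨θ, hθ, (ho.blockHeight_eq_of_odd hp hodd h2 hχ hθ h6).trans h3⟩,
      h.hasDeg_of_odd hM hodd hN' hB hD hP hPD hw⟩
  refine Or.inr ⟨fun θ hθ => ?_, ?_⟩
  · obtain ⟨χ, hχ, ho⟩ := Ht.Covers.exists_over hM hc (isPBlock_blockOf ψ) hB hθ
    obtain ⟨γ, h', -, h3⟩ := h.exists_lab_of_mem hM hN' hχ
    rw [ho.blockHeight_eq_of_odd hp hodd h2 hχ hθ h6, ht h' hχ]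
    exact Nat.factorization_eq_zero_of_not_dvd (not_dvd_NP hp h'.injective (by omega) fun j hj =>
      ((Nat.le_mul_of_pos_left _ hp.pos).trans (h'.mul_wt_le hp.pos)).trans (h'.le_cnt hN hj))
  · obtain ⟨f, h1, h3⟩ := h.exists_elementary hM hN' hP
    obtain ⟨g, hg⟩ := exists_hom_of_inf hPD f h3 fun a =>
      le_alternatingGroup_of_odd hodd (defect_isPGroup hP) (h3 a)
    rw [Nat.factorization_eq_zero_of_not_dvd (fun e => hw (hp.dvd_factorial.1 e)), add_zero] at hdef
    have h4 := (Function.Injective.bijective_of_nat_card_le (f := g)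
      (fun a b e => h1 (by rw [← hg, ← hg, e])) (by simp [card_defect hM hB hD, h6, hdef])).2
    refine ⟨⟨fun a b => ?_⟩⟩
    obtain ⟨a, rfl⟩ := h4 a
    obtain ⟨b, rfl⟩ := h4 b
    rw [← map_mul, mul_comm a, map_mul]

end Cfsg.Agent.S4949
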