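import Cfsg.Statements.S4955
import Cfsg.Agent.Char.DegBasic
import Cfsg.Agent.Char.Cyclo
import Cfsg.Agent.S4558

set_option autoImplicit false
open Cfsg

namespace Cfsg.Agent.S4955

/-- Let X be a finite group with an abelian normal Sylow p-subgroup V (a normal p-subgroup of index prime to p in which any two elements commute), and let G be a complement to V in X. Then for every v in V, writing C for the centralizer of v in G, the number k(X) of conjugacy classes of X satisfies k(X) ≤ (order of C)·(order of V) − ((order of G) − k(G)); the statement is written with the subtracted term moved to the left. In particular, if some v in V is centralized by no nonidentity element of G, then k(X) is at most the order of V. -/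
theorem result {X : Type*} [Group X] [Finite X] (p : ℕ) [Fact p.Prime] (V : Subgroup X) [V.Normal] (hVp : IsPGroup p V) (hidx : ¬ p ∣ V.index) (hab : ∀ a ∈ V, ∀ b ∈ V, a * b = b * a) (G : Subgroup X) (hGV : Subgroup.IsComplement' V G) (v : X) (hv : v ∈ V) : Nat.card (ConjClasses X) + Nat.card G ≤ Nat.card ↥(G ⊓ Subgroup.centralizer ({v} : Set X)) * Nat.card V + Nat.card (ConjClasses G) := by
  open Cfsg.Lib.Char Cfsg.Lib.Char.Deg in
  classical
  have := Fintype.ofFinite X
  set S : Finset X := Finset.univ.filter (fun w => Subgroup.zpowers w = Subgroup.zpowers v) with hS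
  have hSV : ∀ w ∈ S, w ∈ V := fun w hw => by
    have h1 : w ∈ Subgroup.zpowers v := (Finset.mem_filter.1 hw).2 ▸ Subgroup.mem_zpowers w
    exact (Subgroup.zpowers_le.2 hv) h1
  have hS0 : (0 : ℝ) < S.card := by
    have : v ∈ S := by simp [hS]
    exact_mod_cast Finset.card_pos.2 ⟨v, this⟩
  have hC : ∀ w ∈ S, Subgroup.centralizer ({w} : Set X) = Subgroup.centralizer ({v} : Set X) := by
    intro w hw
    rw [← Subgroup.centralizer_closure, ← Subgroup.zpowers_eq_closure, (Finset.mem_filter.1 hw).2,
      Subgroup.zpowers_eq_closure, Subgroup.centralizer_closure]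
  have h1 : ∀ χ : Cfsg.IrrCharacter X, (S.card : ℝ) ≤ ∑ w ∈ S, ‖(χ : X → ℂ) w‖ ^ 2 := by
    intro χ
    refine card_le_sum_norm_sq_char χ.2.isCharacter S (fun m hm g hg => ?_) fun g hg h0 => ?_
    · simp only [hS, Finset.mem_filter, Finset.mem_univ, true_and] at hg ⊢
      rw [← hg]
      refine le_antisymm (Subgroup.zpowers_le.2 (Subgroup.pow_mem _ (Subgroup.mem_zpowers g) m)) ?_
      obtain ⟨k, hk⟩ := exists_pow_eq_self_of_coprime (hm.coprime_dvd_right (orderOf_dvd_natCard g))
      rw [Subgroup.zpowers_le]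
      nth_rewrite 2 [← hk]
      exact Subgroup.pow_mem _ (Subgroup.mem_zpowers _) k
    · obtain ⟨j, hj⟩ := IsPGroup.iff_orderOf.1 hVp ⟨g, hSV g hg⟩
      exact hidx ((Cfsg.Agent.S4558.result p χ χ.2.isCharacter g
        ⟨j, by rw [← hj, ← Subgroup.orderOf_coe]⟩ h0).trans (ito χ.2 V hab))
  have h2 : ∑ χ : Cfsg.IrrCharacter X, ∑ w ∈ S, ‖(χ : X → ℂ) w‖ ^ 2 =
      S.card * (Nat.card (Subgroup.centralizer ({v} : Set X)) : ℝ) := by
    rw [Finset.sum_comm, Finset.sum_congr rfl (fun w hw => by rw [sum_irr_normSq, hC w hw]),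
      Finset.sum_const, nsmul_eq_mul]
  set K : Finset (Cfsg.IrrCharacter X) :=
    Finset.univ.filter (fun χ : Cfsg.IrrCharacter X => V ≤ charKer (χ : X → ℂ)) with hK
  have h3 : ∑ χ ∈ K, ∑ w ∈ S, ‖(χ : X → ℂ) w‖ ^ 2 = S.card * (V.index : ℝ) := by
    have h4 := sum_irr_ker_degree_sq V
    rw [Finset.sum_congr rfl (fun χ _ => by rw [apply_one_eq χ.2.isCharacter])] at h4
    have h5 : ∑ χ ∈ K, (Cfsg.charDegree (χ : X → ℂ) : ℝ) ^ 2 = V.index := by exact_mod_cast h4
    rw [← h5, Finset.mul_sum]
    refine Finset.sum_congr rfl fun χ hχ => ?_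
    rw [Finset.sum_congr rfl (fun w hw => by
      rw [apply_of_mem_charKer ((Finset.mem_filter.1 hχ).2 (hSV w hw)),
        norm_apply_one χ.2.isCharacter]), Finset.sum_const, nsmul_eq_mul]
  have h4 : (Kᶜ.card : ℝ) * S.card ≤ ∑ χ ∈ Kᶜ, ∑ w ∈ S, ‖(χ : X → ℂ) w‖ ^ 2 := by
    rw [← nsmul_eq_mul, ← Finset.sum_const]
    exact Finset.sum_le_sum fun χ _ => h1 χ
  rw [← Finset.sum_add_sum_compl K, h3] at h2
  have h5 : (V.index : ℝ) + Kᶜ.card ≤ Nat.card (Subgroup.centralizer ({v} : Set X)) := by
    refine le_of_mul_le_mul_left ?_ hS0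
    linarith
  have h6 : V.index + Kᶜ.card ≤ Nat.card (Subgroup.centralizer ({v} : Set X)) := by
    exact_mod_cast h5
  have h7 : K.card = Nat.card (ConjClasses G) := by
    rw [← card_irr_eq_card_conjClasses, hK, ← Fintype.card_subtype, ← Nat.card_eq_fintype_card,
      ← Nat.card_congr (irrQuotientEquiv V), card_irr_eq_card_conjClasses,
      card_irr_eq_card_conjClasses]
    exact Nat.card_congr
      { toFun := ConjClasses.map hGV.symm.QuotientMulEquiv.toMonoidHom
        invFun := ConjClasses.map hGV.symm.QuotientMulEquiv.symm.toMonoidHom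
        left_inv := fun c => by
          obtain ⟨a, rfl⟩ := ConjClasses.mk_surjective c
          change ConjClasses.mk _ = ConjClasses.mk _
          simp
        right_inv := fun c => by
          obtain ⟨a, rfl⟩ := ConjClasses.mk_surjective c
          change ConjClasses.mk _ = ConjClasses.mk _
          simp }
  have h8 : K.card + Kᶜ.card = Nat.card (ConjClasses X) := by
    rw [Finset.card_add_card_compl, ← card_irr_eq_card_conjClasses, Nat.card_eq_fintype_card]
  have h9 : Nat.card (Subgroup.centralizer ({v} : Set X)) ≤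
      Nat.card ↥(G ⊓ Subgroup.centralizer ({v} : Set X)) * Nat.card V := by
    rw [← Nat.card_prod]
    refine Nat.card_le_card_of_injective (fun x => (⟨(hGV.equiv x).2, (hGV.equiv x).2.2, ?_⟩,
      (hGV.equiv x).1)) ?_
    · have h10 := hGV.equiv_fst_mul_equiv_snd (x : X)
      rw [← eq_inv_mul_iff_mul_eq] at h10
      rw [h10]
      refine Subgroup.mul_mem _ (Subgroup.inv_mem _ ?_) x.2
      exact Subgroup.mem_centralizer_singleton_iff.2 (hab _ (hGV.equiv x).1.2 v hv)
    · intro a b hab
      simp only [Prod.mk.injEq] at hab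
      refine Subtype.ext ?_
      have h11 : ((hGV.equiv (a : X)).2 : X) = (hGV.equiv (b : X)).2 := by
        have := congrArg Subtype.val hab.1
        exact this
      rw [← hGV.equiv_fst_mul_equiv_snd (a : X), ← hGV.equiv_fst_mul_equiv_snd (b : X), h11, hab.2]
  rw [hGV.symm.index_eq_card] at h6
  omega

end Cfsg.Agent.S4955
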