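import Cfsg.Statements.S4959
import Cfsg.Agent.Block.KgvWeil

set_option autoImplicit false
open Cfsg

namespace Cfsg.Agent.S4959

open Cfsg.Lib.Block Cfsg.Lib.Solv Subgroup

/-- Let X be a finite group and V a normal subgroup of X in which every element has order dividing the prime p, whose index in X is prime to p and which is its own centralizer in X; so V is an elementary abelian normal Sylow p-subgroup, and any complement G to V in X is a group of order prime to p acting faithfully on the vector space V by conjugation (the coprime linear setting of the k(GV) problem). Let G be a complement to V in X, let v be in V and let H be the centralizer of v in G. Suppose there is a subgroup U of V normalized by H, on which H acts faithfully, and carrying an H-invariant bi-additive pairing β with values in the integers modulo p that is nondegenerate on U (equivalently: the restriction of the module V to H has a faithful self-dual submodule; such a v is called a real vector for G). Then the number of conjugacy classes of X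 is at most the order of V (the real-vector criterion for the k(GV) problem). The pairing is given as a function on X whose relevant values are those on pairs from U. -/
theorem result {X : Type*} [Group X] [Finite X] (p : ℕ) [Fact p.Prime] (V : Subgroup X) [V.Normal] (hVexp : ∀ v ∈ V, v ^ p = 1) (hidx : ¬ p ∣ V.index) (hself : Subgroup.centralizer (V : Set X) = V) (G : Subgroup X) (hGV : Subgroup.IsComplement' V G) (v : X) (hv : v ∈ V) (U : Subgroup X) (hUV : U ≤ V) (hUinv : ∀ h ∈ G, h * v * h⁻¹ = v → ∀ u ∈ U, h * u * h⁻¹ ∈ U) (hUfaith : ∀ h ∈ G, h * v * h⁻¹ = v → (∀ u ∈ U, h * u * h⁻¹ = u) → h = 1) (β : X → X → ZMod p) (hβl : ∀ u ∈ U, ∀ u' ∈ U, ∀ w ∈ U, β (u * u') w = β u w + β u' w) (hβr : ∀ u ∈ U, ∀ w ∈ U, ∀ w' ∈ U, β u (w * w') = β u w + β u w') (hβinv : ∀ h ∈ G, h * v * h⁻¹ = v → ∀ u ∈ U, ∀ w ∈ U, β (h * u * h⁻¹) (h * w * h⁻¹) = β u w) (hβnd : ∀ u ∈ U, (∀ w ∈ U, β u w = 0) → u = 1) : Nat.card (ConjClasses X) ≤ Nat.card V := by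
  classical
  have := Fintype.ofFinite X
  obtain ⟨M, hM⟩ := Princ.exists_isPModular (Fact.out : p.Prime)
  have hcomm : ∀ a ∈ V, ∀ b ∈ V, a * b = b * a := fun a ha b hb => (hself.ge hb) a ha
  have : ElemAb p U := ⟨fun a b => Subtype.ext (hcomm a (hUV a.2) b (hUV b.2)),
    fun a => Subtype.ext (hVexp a (hUV a.2))⟩
  have hG : ¬ p ∣ Nat.card G := hGV.symm.index_eq_card ▸ hidx
  have hH : ∀ x, x ∈ G ⊓ centralizer ({v} : Set X) ↔ x ∈ G ∧ x * v = v * x := fun x => by
    rw [mem_inf, mem_centralizer_singleton_iff]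
  have hH' : ∀ x ∈ G ⊓ centralizer ({v} : Set X), x * v * x⁻¹ = v := fun x hx =>
    mul_inv_eq_iff_eq_mul.2 ((hH x).1 hx).2
  have hN : G ⊓ centralizer ({v} : Set X) ≤ normalizer (U : Set X) := fun x hx =>
    mem_normalizer_fintype fun u hu => hUinv x hx.1 (hH' x hx) u hu
  let B : LinearMap.BilinForm (ZMod p) (Vec p U) := AddMonoidHom.toZModLinearMap p
    (AddMonoidHom.mk' (fun u => AddMonoidHom.toZModLinearMap p
      (AddMonoidHom.mk' (fun w => β (Vec.toMul u : U) (Vec.toMul w : U))
        fun a b => hβr _ (Vec.toMul u).2 _ (Vec.toMul a).2 _ (Vec.toMul b).2))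
      fun a b => LinearMap.ext fun w => hβl _ (Vec.toMul a).2 _ (Vec.toMul b).2 _ (Vec.toMul w).2)
  refine Kgv.card_conjClasses_le_of_sqM hM hcomm hGV hG hv (hVexp v hv) hH
    hM.1.ne_zero hUV hN
    (fun h hh h1 => hUfaith h hh.1 (hH' h hh) fun u hu => mul_inv_eq_iff_eq_mul.2 (h1 u hu))
    (Kgv.sqM_of_form hM (fun h => hG (h.trans (card_dvd_of_le inf_le_left))) (B := B)
      (LinearMap.BilinForm.Nondegenerate.ofSeparatingLeft fun x hx => ?_) fun g x y => ?_)
  · exact Vec.toMul_eq_one.1 (Subtype.ext (hβnd _ (Vec.toMul x).2 fun w hw =>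
      hx (Vec.ofMul p ⟨w, hw⟩)))
  · exact hβinv g g.2.1 (hH' g g.2) _ (Vec.toMul x).2 _ (Vec.toMul y).2

end Cfsg.Agent.S4959
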