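import Cfsg.Statements.S4989
import Cfsg.Agent.Char.Cyclo
import Cfsg.Agent.Char.Galois

set_option autoImplicit false
open Cfsg

namespace Cfsg.Agent.S4989

/-- Let H be a subgroup of the finite group G and χ an irreducible complex character of G. Then the inner product of the restriction of χ to H with itself, (1/#H)·Σ_{h ∈ H} |χ(h)|², is at most 1 + #(Z ∖ H)/#H, where Z is the set of zeros of χ in G. -/
theorem result {G : Type*} [Group G] [Finite G] (H : Subgroup G) (χ : Cfsg.IrrCharacter G) : (Nat.card ↥H : ℝ)⁻¹ * ∑ᶠ h : ↥H, ‖(χ : G → ℂ) h‖ ^ 2 ≤ 1 + (Set.ncard ({x : G | (χ : G → ℂ) x = 0} \ (H : Set G)) : ℝ) / (Nat.card ↥H : ℝ) := by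
  open Cfsg.Lib.Char in
  classical
  have := Fintype.ofFinite G
  have hH : (0 : ℝ) < Nat.card H := by exact_mod_cast Nat.card_pos
  rw [finsum_eq_sum_of_fintype, inv_mul_le_iff₀ hH, mul_add, mul_one, mul_div_cancel₀ _ hH.ne']
  set S : Finset G := Finset.univ.filter (fun g => g ∉ H ∧ (χ : G → ℂ) g ≠ 0) with hS
  set Z : Finset G := Finset.univ.filter (fun g => g ∉ H ∧ (χ : G → ℂ) g = 0) with hZ
  set T : Finset G := Finset.univ.filter (fun g => g ∈ H) with hT
  have h1 := card_le_sum_norm_sq_char χ.2.isCharacter S (fun m hm g hg => by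
    simp only [hS, Finset.mem_filter, Finset.mem_univ, true_and] at hg ⊢
    have hm' : m.Coprime (orderOf g) := hm.coprime_dvd_right (orderOf_dvd_natCard g)
    refine ⟨fun h => hg.1 ?_, fun h => hg.2 ?_⟩
    · obtain ⟨k, hk⟩ := exists_pow_eq_self_of_coprime hm'
      rw [← hk]
      exact H.pow_mem h k
    · exact (χ.2.isGeneralizedCharacter.apply_pow_eq_zero_iff g hm').1 h)
    (fun g hg => (Finset.mem_filter.1 hg).2.2)
  have h2 := irr_sum_norm_sq χ.2
  have h3 : ∑ h : H, ‖(χ : G → ℂ) h‖ ^ 2 = ∑ g ∈ T, ‖(χ : G → ℂ) g‖ ^ 2 :=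
    (Finset.sum_subtype T (by simp [hT]) (fun g => ‖(χ : G → ℂ) g‖ ^ 2)).symm
  have h4 : ∑ g ∈ T, ‖(χ : G → ℂ) g‖ ^ 2 + ∑ g ∈ S, ‖(χ : G → ℂ) g‖ ^ 2 ≤
      ∑ g, ‖(χ : G → ℂ) g‖ ^ 2 := by
    rw [← Finset.sum_union (by
      rw [Finset.disjoint_filter]
      exact fun g _ h1 h2 => h2.1 h1)]
    exact Finset.sum_le_sum_of_subset_of_nonneg (Finset.subset_univ _) (fun _ _ _ => by positivity)
  have h5 : Set.ncard ({x : G | (χ : G → ℂ) x = 0} \ (H : Set G)) = Z.card := by
    rw [← Set.ncard_coe_finset]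
    congr 1
    ext x
    simp [hZ, and_comm]
  have h6 : Nat.card H = T.card := by
    rw [Nat.card_eq_fintype_card, hT, Fintype.card_subtype]
  have h7 : Nat.card G ≤ T.card + S.card + Z.card := by
    rw [Nat.card_eq_fintype_card, ← Finset.card_univ]
    refine le_trans (Finset.card_le_card (t := T ∪ S ∪ Z) fun g _ => ?_)
      ((Finset.card_union_le _ _).trans (Nat.add_le_add_right (Finset.card_union_le _ _) _))
    simp only [hT, hS, hZ, Finset.mem_union, Finset.mem_filter, Finset.mem_univ, true_and]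
    tauto
  have h8 : (Nat.card G : ℝ) ≤ T.card + S.card + Z.card := by exact_mod_cast h7
  rw [h3, h5, h6]
  linarith

end Cfsg.Agent.S4989
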