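import Cfsg.Statements.S4991
import Cfsg.Agent.Block.PrimClass
import Cfsg.Agent.FT.Final

set_option autoImplicit false
open Cfsg

namespace Cfsg.Agent.S4991

open Cfsg.Lib.Block.FixAvg

/-- Let G be a group of odd order, χ an irreducible complex character of G that is primitive (not induced from a character of any proper subgroup), and p a prime dividing the order of G. Then there is an element g of G such that the p-part of χ(1) divides the p-part of the size of the conjugacy class of g. -/
theorem result {G : Type*} [Group G] [Fintype G] (hodd : Odd (Nat.card G)) (χ : Cfsg.IrrCharacter G) (hprim : ¬ ∃ (H : Subgroup G), H ≠ ⊤ ∧ ∃ θ : ↥H → ℂ, Cfsg.IsCharacter ↥H θ ∧ Cfsg.indFun H θ = (χ : G → ℂ)) (p : ℕ) [Fact p.Prime] (hp : p ∣ Nat.card G) : ∃ g : G, (Cfsg.charDegree (χ : G → ℂ)).factorization p ≤ ((Subgroup.centralizer ({g} : Set G)).index).factorization p := by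
  have := Cfsg.Lib.FT.odd_order_solvable hodd
  obtain ⟨g, hg⟩ := exists_class χ.2 (quasiPrimitive_of_not_induced χ.2 hprim) p ⊥
    (fun L _ A _ _ m hm a _ => by rw [Subgroup.mem_bot.1 hm]; simp)
  exact ⟨g * 1, hg 1 (one_mem _)⟩

end Cfsg.Agent.S4991
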