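import Cfsg.Statements.S4993
import Cfsg.Agent.Block.PrimClass
import Cfsg.Agent.FT.Final

set_option autoImplicit false
open Cfsg

namespace Cfsg.Agent.S4993

open Cfsg.Lib.Block.FixAvg Cfsg.Lib.Solv Cfsg.Lib.Char
open scoped IsMulCommutative

theorem cent {G : Type*} [Group G] [Finite G] [Group.IsSolvable G] {p : ℕ} [Fact p.Prime]
    (S : Subgroup (G ⧸ fittingSubgroup G)) [S.Normal] (hS : IsPGroup p S)
    (L : Subgroup G) [L.Normal] (A : Subgroup (G ⧸ L)) (hA : IsMinNormal A) (hAp : IsPGroup p A) :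
    ∀ m ∈ S.comap (QuotientGroup.mk' _), ∀ a ∈ A,
      a * QuotientGroup.mk' L m = QuotientGroup.mk' L m * a := by
  have := hA.normal
  have := hA.isMulCommutative
  have h1 : Nontrivial A := (Subgroup.nontrivial_iff_ne_bot A).2 hA.ne_bot
  let φ : G →* MulAut A := (MulAut.conjNormal (H := A)).comp (QuotientGroup.mk' L)
  have hφ : ∀ g, φ g = 1 ↔ ∀ a ∈ A, a * QuotientGroup.mk' L g = QuotientGroup.mk' L g * a := by
    intro g
    constructor
    · intro h a ha
      have := congrArg Subtype.val (DFunLike.congr_fun h ⟨a, ha⟩)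
      rw [MonoidHom.comp_apply, MulAut.conjNormal_apply, mul_inv_eq_iff_eq_mul] at this
      exact this.symm
    · intro h
      ext a
      rw [MonoidHom.comp_apply, MulAut.conjNormal_apply, mul_inv_eq_iff_eq_mul]
      exact (h a a.2).symm
  have hF : ∀ f ∈ fittingSubgroup G, φ f = 1 := fun f hf => (hφ f).2 fun a ha =>
    fitting_le_centralizer_of_minimal_normal hA.min
      (map_fitting_le _ (QuotientGroup.mk'_surjective L) ⟨f, hf, rfl⟩) a ha
  intro m hm
  refine (hφ m).1 (eq_one_of_isPGroup hAp φ (fun B hB => irr_conjNormal hA B fun h => ?_) _ ?_ m hm)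
  · obtain ⟨g, rfl⟩ := QuotientGroup.mk'_surjective L h
    exact hB g
  · rintro ⟨_, x, hx, rfl⟩
    obtain ⟨k, hk⟩ := hS ⟨_, hx⟩
    refine ⟨k, Subtype.ext ?_⟩
    change φ x ^ p ^ k = 1
    rw [← map_pow]
    refine hF _ ((QuotientGroup.eq_one_iff _).1 ?_)
    exact congrArg Subtype.val hk

/-- Let G be a group of odd order whose order has exactly two prime divisors and whose quotient by its Fitting subgroup is nilpotent (G is metanilpotent), and let χ be a primitive irreducible complex character of G (not induced from a character of any proper subgroup). Then χ(1) divides the size of some conjugacy class of G. -/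
theorem result {G : Type*} [Group G] [Fintype G] (hodd : Odd (Nat.card G)) (h2 : (Nat.card G).primeFactors.card = 2) [hF : (Cfsg.fittingSubgroup G).Normal] (hmeta : Group.IsNilpotent (G ⧸ Cfsg.fittingSubgroup G)) (χ : Cfsg.IrrCharacter G) (hprim : ¬ ∃ (H : Subgroup G), H ≠ ⊤ ∧ ∃ θ : ↥H → ℂ, Cfsg.IsCharacter ↥H θ ∧ Cfsg.indFun H θ = (χ : G → ℂ)) : ∃ g : G, Cfsg.charDegree (χ : G → ℂ) ∣ (Subgroup.centralizer ({g} : Set G)).index := by
  have := Cfsg.Lib.FT.odd_order_solvable hodd
  obtain ⟨p, q, hpq, h⟩ := Finset.card_eq_two.1 h2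
  have hp : Fact p.Prime := ⟨Nat.prime_of_mem_primeFactors (h ▸ by simp : p ∈ (Nat.card G).primeFactors)⟩
  have hq : Fact q.Prime := ⟨Nat.prime_of_mem_primeFactors (h ▸ by simp : q ∈ (Nat.card G).primeFactors)⟩
  have hr : ∀ r : ℕ, r.Prime → r ∣ Nat.card G → r = p ∨ r = q := fun r hr hrG => by
    have : r ∈ (Nat.card G).primeFactors := Nat.mem_primeFactors.2 ⟨hr, hrG, Nat.card_pos.ne'⟩
    rw [h] at this
    simpa using this
  obtain ⟨P⟩ := (inferInstance : Nonempty (Sylow p (G ⧸ fittingSubgroup G)))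
  obtain ⟨Q⟩ := (inferInstance : Nonempty (Sylow q (G ⧸ fittingSubgroup G)))
  have hP : (P : Subgroup (G ⧸ fittingSubgroup G)).Normal := inferInstance
  have hQ : (Q : Subgroup (G ⧸ fittingSubgroup G)).Normal := inferInstance
  have hqp := quasiPrimitive_of_not_induced χ.2 hprim
  obtain ⟨g₁, hg₁⟩ := exists_class χ.2 hqp p _ (cent (P : Subgroup _) P.isPGroup')
  obtain ⟨g₂, hg₂⟩ := exists_class χ.2 hqp q _ (cent (Q : Subgroup _) Q.isPGroup')
  have htop : (P : Subgroup (G ⧸ fittingSubgroup G)) ⊔ Q = ⊤ := by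
    rw [← Subgroup.index_eq_one]
    by_contra h1
    obtain ⟨r, hr', hrd⟩ := Nat.exists_prime_and_dvd h1
    rcases hr r hr' (hrd.trans ((Subgroup.index_dvd_card _).trans
      (Subgroup.card_quotient_dvd_card _))) with rfl | rfl
    · exact P.not_dvd_index (hrd.trans (Subgroup.index_dvd_of_le le_sup_left))
    · exact Q.not_dvd_index (hrd.trans (Subgroup.index_dvd_of_le le_sup_right))
  have hmem : QuotientGroup.mk' (fittingSubgroup G) (g₁⁻¹ * g₂) ∈
      (((P : Subgroup (G ⧸ fittingSubgroup G)) ⊔ Q : Subgroup _) : Set _) := by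
    rw [htop]; trivial
  rw [Subgroup.mul_normal] at hmem
  obtain ⟨a, ha, b, hb, hab⟩ := hmem
  obtain ⟨a, rfl⟩ := QuotientGroup.mk'_surjective _ a
  have hb' : g₂⁻¹ * (g₁ * a) ∈ (Q : Subgroup (G ⧸ fittingSubgroup G)).comap
      (QuotientGroup.mk' _) := by
    have : QuotientGroup.mk' (fittingSubgroup G) (g₂⁻¹ * (g₁ * a)) = b⁻¹ := by
      have h1 : b = (QuotientGroup.mk' _ a)⁻¹ * QuotientGroup.mk' (fittingSubgroup G) (g₁⁻¹ * g₂) :=
        eq_inv_mul_of_mul_eq hab
      rw [h1, ← map_inv, ← map_mul, ← map_inv]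
      congr 1; group
    rw [Subgroup.mem_comap, this]
    exact inv_mem hb
  refine ⟨g₁ * a, (Nat.factorization_prime_le_iff_dvd (Deg.deg_pos χ.2).ne'
    Subgroup.index_ne_zero_of_finite).1 fun r hr' => ?_⟩
  by_cases hd : r ∣ charDegree (χ : G → ℂ)
  · rcases hr r hr' (hd.trans (Deg.deg_dvd_card χ.2)) with rfl | rfl
    · exact hg₁ a ha
    · have := hg₂ _ hb'
      rwa [mul_inv_cancel_left] at this
  · rw [Nat.factorization_eq_zero_of_not_dvd hd]; exact Nat.zero_le _

end Cfsg.Agent.S4993
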