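import Cfsg.Statements.S4996
import Cfsg.Agent.Char.TripleCorr
import Cfsg.Agent.Char.Ramified
import Cfsg.Agent.Char.Cyclo
import Cfsg.Agent.Solv.SylowDirect

set_option autoImplicit false
open Cfsg

namespace Cfsg.Agent.S4996

/-- Let N be a normal subgroup of the finite group G and χ an irreducible complex character of G. Then the restriction of χ to N is not irreducible if and only if χ vanishes on some whole coset Nx of N in G. -/
theorem result {G : Type*} [Group G] [Finite G] (N : Subgroup G) [N.Normal] (χ : Cfsg.IrrCharacter G) : ¬ Cfsg.IsIrrCharacter ↥N (fun n : ↥N => (χ : G → ℂ) n) ↔ ∃ x : G, ∀ n : ↥N, (χ : G → ℂ) ((n : G) * x) = 0 := by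
  open Cfsg.Lib.Char in
  classical
  have := Fintype.ofFinite G
  have := Fintype.ofFinite N
  constructor
  · intro hred
    obtain ⟨θ, hθ, h⟩ := exists_irr_under N χ.2
    by_cases hT : inertia N θ = ⊤
    · obtain ⟨d, -, hd⟩ := hθ.exists_nat_degree_pos
      obtain ⟨K, _, _, A, lam, T, -, -, -, -⟩ := exists_cTriple N hθ (inertia_eq_top_iff.1 hT) hd
      obtain ⟨β, hβ, hc⟩ := T.exists_corr_of_irr χ.2 h
      have h1 : β 1 ≠ 1 := fun e => hred (by
        have : (fun n : N => (χ : G → ℂ) n) = θ := funext fun n => by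
          have := hc.apply_i n
          rwa [e, mul_one] at this
        rw [this]; exact hθ)
      obtain ⟨k, hk⟩ := irr_exists_eq_zero hβ h1
      obtain ⟨γ, rfl⟩ := T.q_surj k
      refine ⟨T.π γ, fun n => ?_⟩
      have h2 := hc (T.j n * γ)
      rwa [map_mul, map_mul, T.π_j, T.q_j, one_mul, hk, mul_zero] at h2
    · obtain ⟨ψ, -, h2, -⟩ :=
        clifford_exists_indFun_eq (le_inertia hθ.isClassFunction) le_rfl hθ χ.2 h
      obtain ⟨x, hx⟩ : ∃ x : G, ∀ g, g * x * g⁻¹ ∉ inertia N θ := by
        by_contra h3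
        push Not at h3
        exact hT (Cfsg.Lib.Solv.eq_top_of_forall_exists_conj_mem h3)
      refine ⟨x, fun n => ?_⟩
      rw [← h2]
      refine indFun_eq_zero_of_not_conj _ _ fun g hg => hx g ?_
      have h3 : g * n * g⁻¹ ∈ inertia N θ :=
        le_inertia hθ.isClassFunction (Subgroup.Normal.conj_mem inferInstance _ n.2 g)
      have h4 := (inertia N θ).mul_mem ((inertia N θ).inv_mem h3) hg
      simpa [mul_assoc] using h4
  · rintro ⟨x, hx⟩ hirr
    obtain ⟨n, hn, h⟩ := exists_apply_coset_ne_zero_of_res_irr χ.2.isCharacter hirr x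
    exact h (hx ⟨n, hn⟩)

end Cfsg.Agent.S4996
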