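import Cfsg.Statements.S5001
import Cfsg.Agent.Block.DefectNum
import Cfsg.Agent.Char.CharCenter

set_option autoImplicit false
open Cfsg

namespace Cfsg.Agent.S5001

open Cfsg.Lib.Block Cfsg.Lib.Char Subgroup
open scoped ComplexConjugate

theorem scalar_eq {H : Type*} [Group H] [Fintype H] {φ μ : H → ℂ} {z : H} {c c' : ℂ}
    (hφ : ∀ x, φ (z * x) = c * φ x) (hμ : ∀ x, μ (z * x) = c' * μ x) (hc' : ‖c'‖ = 1)
    (h : classInner φ μ ≠ 0) : c = c' := by
  have h1 : classInner φ μ = c * conj c' * classInner φ μ := by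
    unfold classInner
    rw [mul_left_comm (c * conj c')]
    congr 1
    rw [Finset.mul_sum, ← Equiv.sum_comp (Equiv.mulLeft z) (fun g => φ g * conj (μ g))]
    refine Finset.sum_congr rfl fun x _ => ?_
    simp only [Equiv.coe_mulLeft, hφ, hμ, map_mul]
    ring
  have h2 : c * conj c' = 1 := by
    have := mul_right_cancel₀ h (h1.symm.trans (one_mul _).symm)
    exact this
  have h3 : c' * conj c' = 1 := by
    rw [Complex.mul_conj, Complex.normSq_eq_norm_sq, hc']; simp
  have h4 : conj c' ≠ 0 := fun h0 => by rw [h0, mul_zero] at h3; exact zero_ne_one h3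
  exact mul_right_cancel₀ h4 (h2.trans h3.symm)

theorem exists_constituent {H : Type*} [Group H] [Fintype H] {M : Ideal Cfsg.AlgInt}
    {φ : H → ℂ} (hφ : IsCharacter H φ) {x : H} (hx : x ∈ center H) (h : vM M (φ x) = 1) :
    ∃ ψ : H → ℂ, IsIrrCharacter H ψ ∧ classInner φ ψ ≠ 0 ∧ vM M (ψ 1) = 1 := by
  by_contra hcon
  push Not at hcon
  rw [hφ.isClassFunction.apply_eq_sum_irr] at h
  refine (ne_of_lt (vM_sum_lt_one fun ψ _ => ?_)) h
  by_cases h0 : classInner φ (ψ : H → ℂ) = 0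
  · rw [h0, zero_mul, map_zero]; exact zero_lt_one
  · obtain ⟨n, hn⟩ := hφ.exists_nat_classInner ψ.2.isCharacter
    have h1 : vM M ((ψ : H → ℂ) 1) < 1 :=
      lt_of_le_of_ne (vM_char_le_one ψ.2.isCharacter 1) (hcon _ ψ.2 h0)
    have h2 : (ψ : H → ℂ) x = (ψ : H → ℂ) x / (ψ : H → ℂ) 1 * (ψ : H → ℂ) 1 :=
      (div_mul_cancel₀ _ ψ.2.apply_one_ne_zero).symm
    rw [hn, h2]
    exact vM_mul_lt_one_right (vM_natCast_le_one n)
      (vM_mul_lt_one_right (vM_le_one_of_isIntegral (isIntegral_irr_center_div ψ.2 hx)) h1)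

theorem over_of_constituent {H : Type*} [Group H] [Fintype H] {φ ψ : H → ℂ}
    (hψ : IsIrrCharacter H ψ) (h : classInner φ ψ ≠ 0) {z : H} (hz : z ∈ center H) {c : ℂ}
    (hφ : ∀ x, φ (z * x) = c * φ x) : ∀ x, ψ (z * x) = c * ψ x := by
  obtain ⟨lam, -, h2, -⟩ := hψ.exists_monoidHom_of_le_center (Z := center H) le_rfl
  have := scalar_eq hφ (h2 ⟨z, hz⟩) (norm_monoidHom_apply lam _) h
  rw [this]
  exact h2 ⟨z, hz⟩

/-- Let p be a prime, G a finite group and B a p-block of G (relative to a maximal ideal M of the algebraic integers containing p) with defect group D. Let Z be a central p-subgroup of G contained in D and λ a linear character of Z (a homomorphism to the nonzero complex numbers). Say an irreducible character χ of G lies over λ when χ(z) = χ(1)λ(z) for all z ∈ Z. If some irreducible character in B lying over λ has height zero, then λ extends to a linear character of D. -/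
theorem result {G : Type*} [Group G] [Finite G] (p : ℕ) [Fact p.Prime] (M : Ideal Cfsg.AlgInt) (hM : Cfsg.IsPModular p M) (B : Set (Cfsg.IrrCharacter G)) (hB : Cfsg.IsPBlock M B) (D : Subgroup G) (hD : Cfsg.IsDefectGroup p M B D) (Z : Subgroup G) (hZc : Z ≤ Subgroup.center G) (hZp : IsPGroup p ↥Z) (hZD : Z ≤ D) (lam : ↥Z →* ℂˣ) (χ : Cfsg.IrrCharacter G) (hχ : χ ∈ B) (hover : (∀ z : ↥Z, (χ : G → ℂ) z = (χ : G → ℂ) 1 * (lam z : ℂ))) (h0 : Cfsg.blockHeight p B (χ : G → ℂ) = 0) : (∃ μ : ↥D →* ℂˣ, ∀ z : ↥Z, μ ⟨(z : G), hZD z.2⟩ = lam z) := by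
  classical
  have hDp := defect_isPGroup hD
  obtain ⟨y, hy, P, hP⟩ := hD
  have hDC : D ≤ centralizer ({y} : Set G) := hP ▸ map_subtype_le _
  have hy1 := vM_char_eq_one_of_isDefectClass hM hB hχ h0 hy
  have := Fintype.ofFinite (centralizer ({y} : Set G))
  have := Fintype.ofFinite D
  obtain ⟨ψ, hψ, hψ1, hψ2⟩ := exists_constituent (M := M)
    (χ.2.isCharacter.res (centralizer ({y} : Set G))) (self_mem_center_centralizer y) hy1
  obtain ⟨μ, hμ, hμ1, hμ2⟩ := exists_constituent (M := M) (hψ.isCharacter.comp (inclusion hDC))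
    (one_mem _) (by simpa using hψ2)
  have hdeg : μ 1 = 1 := by
    obtain ⟨k, hk⟩ := hDp.exists_card_eq
    have h1 := Ht.charDegree_dvd_card hμ
    obtain ⟨n, hn⟩ := hμ.isCharacter.exists_nat_degree
    have h2 : charDegree μ = n := by simp [charDegree, hn]
    rw [hk, h2, Nat.dvd_prime_pow hM.1] at h1
    obtain ⟨j, -, rfl⟩ := h1
    rw [hn, vM_natCast_eq_one_iff hM] at hμ2
    rcases j with _ | j
    · simpa using hn
    · exact absurd (dvd_pow_self p j.succ_ne_zero) hμ2
  obtain ⟨ν, hν⟩ := hμ.isCharacter.exists_monoidHom_of_apply_one hdeg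
  refine ⟨ν, fun z => ?_⟩
  obtain ⟨lam', h1, h2, -⟩ := χ.2.exists_monoidHom_of_le_center hZc
  have hl : (lam' z : ℂ) = lam z :=
    mul_left_cancel₀ χ.2.apply_one_ne_zero ((h1 z).symm.trans (hover z))
  have hzC : (⟨z, hDC (hZD z.2)⟩ : centralizer ({y} : Set G)) ∈
      center (centralizer ({y} : Set G)) :=
    mem_center_iff.mpr fun g => Subtype.ext (mem_center_iff.mp (hZc z.2) g)
  have hzD : (⟨z, hZD z.2⟩ : D) ∈ center D :=
    mem_center_iff.mpr fun g => Subtype.ext (mem_center_iff.mp (hZc z.2) g)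
  have h3 := over_of_constituent hψ hψ1 hzC (c := lam z) (fun x => by rw [← hl]; exact h2 z x)
  have h4 := over_of_constituent hμ hμ1 hzD (c := lam z) (fun x => h3 (inclusion hDC x)) 1
  rw [mul_one, hdeg, mul_one, hν] at h4
  exact Units.ext h4

end Cfsg.Agent.S5001
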