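import Cfsg.Statements.S5011

set_option autoImplicit false

namespace Cfsg.Agent.S5011

/-- Let G be a finite non-abelian simple group and ρ an irreducible complex representation of G on a space of dimension greater than one (irreducible in the sense that the only subspaces invariant under every ρ(x) are 0 and the whole space). Then for every non-identity element g of G, the centralizer of g does not act irreducibly: there is a non-zero proper subspace invariant under ρ(c) for every c commuting with g. -/
theorem result {G : Type*} [Group G] [Finite G] [IsSimpleGroup G]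
    (hG : ¬ IsMulCommutative G) {V : Type*} [AddCommGroup V] [Module ℂ V] [FiniteDimensional ℂ V]
    (ρ : Representation ℂ G V)
    (hirr : ∀ W : Submodule ℂ V, (∀ x : G, ∀ v ∈ W, ρ x v ∈ W) → W = ⊥ ∨ W = ⊤)
    (hdim : 1 < Module.finrank ℂ V) (g : G) (hg : g ≠ 1) :
    ∃ W : Submodule ℂ V, W ≠ ⊥ ∧ W ≠ ⊤ ∧ ∀ c ∈ Subgroup.centralizer ({g} : Set G), ∀ v ∈ W, ρ c v ∈ W := by
  have hnt : Nontrivial V := Module.nontrivial_of_finrank_pos (R := ℂ) (by omega)
  have hinv : ∀ (a c : G) (μ : ℂ), ρ a * ρ c = ρ c * ρ a →
      ∀ v ∈ Module.End.eigenspace (ρ a) μ, ρ c v ∈ Module.End.eigenspace (ρ a) μ := by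
    intro a c μ h v hv
    rw [Module.End.mem_eigenspace_iff] at hv ⊢
    have := congrArg (fun f : Module.End ℂ V => f v) h
    simp only [Module.End.mul_apply] at this
    rw [this, hv, map_smul]
  obtain ⟨μ, hμ⟩ := Module.End.exists_eigenvalue (ρ g)
  refine ⟨Module.End.eigenspace (ρ g) μ, hμ, ?_, ?_⟩
  · intro htop
    let N : Subgroup G :=
      { carrier := {x | ∀ y : G, ρ x * ρ y = ρ y * ρ x}
        mul_mem' := by
          intro a b ha hb y
          rw [map_mul, mul_assoc, hb y, ← mul_assoc, ha y, mul_assoc]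
        one_mem' := by intro y; simp
        inv_mem' := by
          intro a ha y
          have h1 : ρ a⁻¹ * ρ a = 1 := by rw [← map_mul]; simp
          have h2 : ρ a * ρ a⁻¹ = 1 := by rw [← map_mul]; simp
          calc ρ a⁻¹ * ρ y = ρ a⁻¹ * ρ y * (ρ a * ρ a⁻¹) := by rw [h2, mul_one]
            _ = ρ a⁻¹ * (ρ y * ρ a) * ρ a⁻¹ := by simp only [mul_assoc]
            _ = ρ a⁻¹ * (ρ a * ρ y) * ρ a⁻¹ := by rw [ha y]
            _ = (ρ a⁻¹ * ρ a) * ρ y * ρ a⁻¹ := by simp only [mul_assoc]
            _ = ρ y * ρ a⁻¹ := by rw [h1, one_mul] }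
    have hN : N.Normal := by
      constructor
      intro a ha x y
      have h2 : ρ x * ρ x⁻¹ = 1 := by rw [← map_mul]; simp
      have : ρ (x * a * x⁻¹) = ρ a := by
        rw [map_mul, map_mul, ← ha x, mul_assoc, h2, mul_one]
      rw [this]; exact ha y
    have hgN : g ∈ N := by
      intro y
      ext v
      have h1 : v ∈ Module.End.eigenspace (ρ g) μ := htop ▸ Submodule.mem_top
      have h2 : ρ y v ∈ Module.End.eigenspace (ρ g) μ := htop ▸ Submodule.mem_top
      rw [Module.End.mem_eigenspace_iff] at h1 h2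
      simp only [Module.End.mul_apply]
      rw [h2, h1, map_smul]
    have hNtop : N = ⊤ := by
      rcases hN.eq_bot_or_eq_top with h | h
      · exact absurd (by simpa [h] using hgN) hg
      · exact h
    have hall : ∀ x : G, ∃ ν : ℂ, ∀ v, ρ x v = ν • v := by
      intro x
      obtain ⟨ν, hν⟩ := Module.End.exists_eigenvalue (ρ x)
      have hx : x ∈ N := hNtop ▸ Subgroup.mem_top x
      rcases hirr (Module.End.eigenspace (ρ x) ν) (fun y => hinv x y ν (hx y)) with h | h
      · exact absurd h hν
      · exact ⟨ν, fun v => Module.End.mem_eigenspace_iff.1 (h ▸ Submodule.mem_top)⟩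
    obtain ⟨v, hv⟩ := exists_ne (0 : V)
    rcases hirr (Submodule.span ℂ {v}) (fun x w hw => by
      obtain ⟨ν, hν⟩ := hall x
      rw [hν]; exact Submodule.smul_mem _ _ hw) with h | h
    · exact hv (by simpa using h)
    · have := finrank_span_singleton (K := ℂ) hv
      rw [h, finrank_top] at this
      omega
  · intro c hc
    apply hinv
    rw [Subgroup.mem_centralizer_singleton_iff] at hc
    rw [← map_mul, ← map_mul, hc]

end Cfsg.Agent.S5011
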