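import Cfsg.Statements.S5075
import Mathlib
import Cfsg.Agent.Class.McLaughlin

set_option autoImplicit false
open Cfsg

namespace Cfsg.Agent.S5075

/-- Let p be an odd prime, V a finite-dimensional vector space over the field with p elements, and H a group of linear automorphisms of V generated by transvections (elements of order p fixing a hyperplane pointwise) and having no nontrivial normal p-subgroup. Then for some n ≥ 1 there are a decomposition V = V₀ ⊕ V₁ ⊕ ⋯ ⊕ Vₙ into H-invariant subspaces and a decomposition of H as the internal direct product of normal subgroups H₁, …, Hₙ such that Hⱼ acts trivially on every Vᵢ with i ≠ j, and Hⱼ induces on Vⱼ exactly the special linear group of Vⱼ or exactly the isometry group of a non-degenerate alternating form on Vⱼ. -/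
theorem result {p : ℕ} [Fact p.Prime] (hp : Odd p) {V : Type*} [AddCommGroup V] [Module (ZMod p) V] [Finite V]
    (H : Subgroup (V ≃ₗ[ZMod p] V)) (T : Set (V ≃ₗ[ZMod p] V)) (hHT : H = Subgroup.closure T)
    (hT : ∀ t ∈ T, orderOf t = p ∧
      Module.finrank (ZMod p) ↥(LinearMap.ker ((t : V →ₗ[ZMod p] V) - LinearMap.id)) + 1 =
        Module.finrank (ZMod p) V)
    (hOp : Cfsg.pCore p ↥H = ⊥) :
    ∃ (n : ℕ) (W : Fin (n + 1) → Submodule (ZMod p) V) (K : Fin n → Subgroup (V ≃ₗ[ZMod p] V)),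
      1 ≤ n ∧ DirectSum.IsInternal W ∧
      (∀ h ∈ H, ∀ i, (W i).map (h : V →ₗ[ZMod p] V) = W i) ∧
      (∀ j, K j ≤ H ∧ ((K j).subgroupOf H).Normal) ∧ ⨆ j, K j = H ∧
      (∀ j, K j ⊓ (⨆ j' ∈ {j' : Fin n | j' ≠ j}, K j') = ⊥) ∧
      (∀ j j', j ≠ j' → ∀ a ∈ K j, ∀ b ∈ K j', a * b = b * a) ∧
      (∀ j, ∀ h ∈ K j, ∀ i : Fin (n + 1), i ≠ j.succ → ∀ v ∈ W i, h v = v) ∧
      (∀ j, ∃ ρ : ↥(K j) →* (↥(W j.succ) ≃ₗ[ZMod p] ↥(W j.succ)),
        (∀ (h : ↥(K j)) (v : ↥(W j.succ)), ((ρ h v : ↥(W j.succ)) : V) = (h : V ≃ₗ[ZMod p] V) (v : V)) ∧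
        ((ρ.range : Set (↥(W j.succ) ≃ₗ[ZMod p] ↥(W j.succ))) =
            {f : ↥(W j.succ) ≃ₗ[ZMod p] ↥(W j.succ) | LinearMap.det (f : ↥(W j.succ) →ₗ[ZMod p] ↥(W j.succ)) = 1} ∨
          ∃ B : LinearMap.BilinForm (ZMod p) ↥(W j.succ), B.IsAlt ∧ B.Nondegenerate ∧
            (ρ.range : Set (↥(W j.succ) ≃ₗ[ZMod p] ↥(W j.succ))) = {f : ↥(W j.succ) ≃ₗ[ZMod p] ↥(W j.succ) | ∀ x y, B (f x) (f y) = B x y})) := by
  classical
  have hM := Lib.Class.mcL_of_pCore hp H T hHT hT hOp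
  let X := {q : V × Module.Dual (ZMod p) V // Lib.Class.NTv H q.1 q.2}
  haveI : Finite (Module.Dual (ZMod p) V) := Finite.of_injective _ DFunLike.coe_injective
  let s : Setoid X := ⟨fun q r => Lib.Class.TvRel H q.1.2 r.1.1, fun q => hM.exists_opp q.2,
    fun {q r} h => hM.rel_symm q.2 r.2 h, fun {q r _} h h' => h.trans r.2.tv h'⟩
  by_cases hX : IsEmpty X
  · have hH : H = ⊥ := eq_bot_iff.2 (hM.gen ⊥ fun g hg a φ h0 e => LinearEquiv.ext fun x => by
      by_contra hne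
      refine hX.false ⟨(a, φ), ⟨h0, g, hg, e⟩, fun e' => hne ?_, fun e' => hne ?_⟩
      · rw [e, show a = 0 from e', smul_zero, add_zero]; rfl
      · rw [e, show φ = 0 from e', LinearMap.zero_apply, zero_smul, add_zero]; rfl)
    subst hH
    refine ⟨1, ![⊤, ⊥], fun _ => ⊥, le_rfl, ?_, ?_, fun _ => ⟨le_rfl, inferInstance⟩, by simp, fun _ => bot_inf_eq _,
      fun _ _ _ a ha b _ => by rw [show a = 1 from ha, one_mul, mul_one],
      fun _ h hh _ _ v _ => by rw [show h = 1 from hh]; rfl, fun j => ⟨1, fun h v => ?_, Or.inl ?_⟩⟩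
    · rw [DirectSum.isInternal_submodule_iff_isCompl _ (i := 0) (j := 1) (by decide) (by ext i; fin_cases i <;> simp)]
      exact isCompl_top_bot
    · intro h hh i
      rw [show h = 1 from hh]
      exact Submodule.map_id _
    · rw [show h.1 = 1 from h.2]; rfl
    · rw [Subsingleton.elim j 0]
      haveI : Subsingleton ((![⊤, ⊥] : Fin 2 → Submodule (ZMod p) V) (Fin.succ 0)) :=
        ⟨fun x y => Subtype.ext ((show x.1 = 0 from x.2).trans (show y.1 = 0 from y.2).symm)⟩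
      ext f
      simp only [Set.mem_setOf_eq, LinearMap.det_eq_one_of_subsingleton, iff_true]
      exact ⟨1, LinearEquiv.ext fun x => Subsingleton.elim _ _⟩
  rw [not_isEmpty_iff] at hX
  haveI : Nonempty (Quotient s) := hX.map (Quotient.mk s)
  let e := (Finite.equivFin (Quotient s)).symm
  let r : Fin (Nat.card (Quotient s)) → X := fun j => (e j).out
  have hr : ∀ j j', j ≠ j' → ∀ x ∈ Lib.Class.tvW H (r j).1.2, ∀ φ ∈ Lib.Class.tvPhi H (r j').1.2, φ x = 0 :=
    fun j j' hne => hM.apply_eq_zero_of_not_rel (r j).2 fun h => hne (e.injective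
      (Quotient.out_equiv_out.1 (show s.r (r j') (r j) from h)).symm)
  have hr' : ∀ q : X, ∃ j, Lib.Class.TvRel H (r j).1.2 q.1.1 := fun q =>
    ⟨e.symm (Quotient.mk s q), by
      have : Lib.Class.TvRel H (Quotient.mk s q).out.1.2 q.1.1 := Quotient.mk_out (s := s) q
      simpa only [r, Equiv.apply_symm_apply] using this⟩
  let Z := fun j => (Lib.Class.tvPhi H (r j).1.2).dualCoannihilator
  have mZ : ∀ {j x}, x ∈ Z j ↔ ∀ φ ∈ Lib.Class.tvPhi H (r j).1.2, φ x = 0 := Submodule.mem_dualCoannihilator _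
  have hdec : ∀ j x, ∃ w ∈ Lib.Class.tvW H (r j).1.2, x - w ∈ Z j := fun j x => by
    obtain ⟨w, hw, h⟩ := (Lib.Class.pairing_perfect _ _ (hM.sep (r j).2).1 (hM.sep (r j).2).2).1 x
    exact ⟨w, hw, mZ.2 fun φ hφ => by rw [map_sub, h φ hφ, sub_self]⟩
  have hext : ∀ j (g g' : V ≃ₗ[ZMod p] V), (∀ x ∈ Lib.Class.tvW H (r j).1.2, g x = g' x) → (∀ x ∈ Z j, g x = g' x) →
      g = g' := fun j g g' h1 h2 => LinearEquiv.ext fun x => by
    obtain ⟨w, hw, h⟩ := hdec j x
    rw [← add_sub_cancel w x, map_add, map_add, h1 w hw, h2 _ h]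
  have hcomm : ∀ j j', j ≠ j' → ∀ a ∈ Lib.Class.tvK H (r j).1.2, ∀ b ∈ Lib.Class.tvK H (r j').1.2,
      a * b = b * a := fun j j' hne a ha b hb => hext j _ _
    (fun x hx => by
      rw [LinearEquiv.mul_apply, LinearEquiv.mul_apply, Lib.Class.McL.tvK_fix hb (hr j j' hne x hx),
        Lib.Class.McL.tvK_fix hb (hr j j' hne _ (hM.tvW_invariant _ a (Lib.Class.McL.tvK_le ha) x hx))])
    fun x hx => by
      rw [LinearEquiv.mul_apply, LinearEquiv.mul_apply, Lib.Class.McL.tvK_fix ha (mZ.1 hx),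
        Lib.Class.McL.tvK_fix ha (mZ.1 (hM.coann_invariant _ b (Lib.Class.McL.tvK_le hb) x hx))]
  have hsup : ⨆ j, Lib.Class.tvK H (r j).1.2 = H := le_antisymm (iSup_le fun _ => Lib.Class.McL.tvK_le)
    (hM.gen _ fun g hg a φ h0 e => by
      by_cases h1 : a = 0
      · rw [show g = 1 from LinearEquiv.ext fun x => by rw [e, h1, smul_zero, add_zero]; rfl]
        exact Subgroup.one_mem _
      by_cases h2 : φ = 0
      · rw [show g = 1 from LinearEquiv.ext fun x => by rw [e, h2, LinearMap.zero_apply, zero_smul, add_zero]; rfl]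
        exact Subgroup.one_mem _
      obtain ⟨j, hj⟩ := hr' ⟨(a, φ), ⟨h0, g, hg, e⟩, h1, h2⟩
      exact Subgroup.mem_iSup_of_mem j (Subgroup.subset_closure ⟨a, φ, ⟨⟨h0, g, hg, e⟩, h1, h2⟩, hj, e⟩))
  let W : Fin (Nat.card (Quotient s) + 1) → Submodule (ZMod p) V :=
    Fin.cons (⨅ j, Z j) fun j => Lib.Class.tvW H (r j).1.2
  have hWZ : ∀ j i, i ≠ Fin.succ j → W i ≤ Z j := fun j i => Fin.cases (fun _ => iInf_le Z j)
    (fun j' hne x hx => mZ.2 (hr j' j (fun e => hne (by rw [e])) x hx)) i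
  refine ⟨_, W, fun j => Lib.Class.tvK H (r j).1.2, Nat.card_pos, ?_, ?_, fun j => ⟨Lib.Class.McL.tvK_le, ?_⟩, hsup,
    fun j => ?_, hcomm, fun j h hh i hi v hv => Lib.Class.McL.tvK_fix hh (mZ.1 (hWZ j i hi hv)),
    fun j => hM.exists_restr (r j).2⟩
  · have hsum : ∀ (f : Fin (Nat.card (Quotient s)) → V), (∀ j, f j ∈ Lib.Class.tvW H (r j).1.2) → ∀ j,
        ∑ i, f i - f j ∈ Z j := fun f hf j => by
      rw [← Finset.add_sum_erase _ _ (Finset.mem_univ j), add_sub_cancel_left]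
      exact Submodule.sum_mem _ fun i hi => mZ.2 (hr i j (Finset.ne_of_mem_erase hi) _ (hf i))
    refine DirectSum.isInternal_submodule_of_iSupIndep_of_iSup_eq_top ?_ (eq_top_iff.2 fun x _ => ?_)
    · rw [iSupIndep_iff_finsetSum_eq_zero_imp_eq_zero]
      intro t v hv h0
      have h1 : ∀ j, Fin.succ j ∈ t → v j.succ = 0 := fun j hj => (hM.sep (r j).2).1 _ (hv _ hj) (mZ.1 (by
        rw [← Finset.add_sum_erase _ _ hj, add_eq_zero_iff_eq_neg] at h0
        rw [h0]
        exact (Z j).neg_mem (Submodule.sum_mem _ fun i hi =>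
          hWZ j i (Finset.ne_of_mem_erase hi) (hv i (Finset.mem_of_mem_erase hi)))))
      refine Fin.cases (fun hi => ?_) h1
      rwa [Finset.sum_eq_single_of_mem 0 hi fun i hi hne => by
        obtain ⟨j, rfl⟩ := Fin.exists_succ_eq.2 hne
        exact h1 j hi] at h0
    · choose w hw h using fun j => hdec j x
      rw [← sub_add_cancel x (∑ j, w j)]
      refine Submodule.add_mem _ (Submodule.mem_iSup_of_mem 0 (Submodule.mem_iInf _ |>.2 fun j => ?_))
        (Submodule.sum_mem _ fun j _ => Submodule.mem_iSup_of_mem j.succ (hw j))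
      convert (Z j).sub_mem (h j) (hsum w hw j) using 1
      abel
  · have key : ∀ g ∈ H, ∀ i, ∀ x ∈ W i, g x ∈ W i := fun g hg i => Fin.cases
      (fun x hx => (Submodule.mem_iInf _).2 fun j => hM.coann_invariant _ g hg x ((Submodule.mem_iInf _).1 hx j))
      (fun j => hM.tvW_invariant _ g hg) i
    intro g hg i
    refine le_antisymm (Submodule.map_le_iff_le_comap.2 (key g hg i)) fun x hx => ⟨g⁻¹ x, key _ (H.inv_mem hg) i x hx, ?_⟩
    simp
  · refine Subgroup.normal_subgroupOf_of_le_normalizer (hsup.ge.trans (iSup_le fun j' => ?_))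
    by_cases e : j' = j
    · rw [e]; exact Subgroup.le_normalizer
    · exact fun b hb => Subgroup.centralizer_le_normalizer _ fun a ha => hcomm j j' (Ne.symm e) a ha b hb
  · refine (Subgroup.eq_bot_iff_forall _).2 fun g hg => hext j g 1 (fun x hx => ?_)
      fun x hx => Lib.Class.McL.tvK_fix hg.1 (mZ.1 hx)
    have : (⨆ j' ∈ {j' | j' ≠ j}, Lib.Class.tvK H (r j').1.2) ≤ MulAction.stabilizer _ x :=
      iSup₂_le fun j' hj' b hb => Lib.Class.McL.tvK_fix hb (hr j j' (Ne.symm hj') x hx)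
    exact this hg.2

end Cfsg.Agent.S5075
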