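import Cfsg.Statements.S5125
import Cfsg.Agent.Fus.Normal

set_option autoImplicit false
open Cfsg

namespace Cfsg.Agent.S5125

open Cfsg.Lib.Fus Cfsg.FusionSystem


/-- Let F be a saturated fusion system over a finite p-group S and Q a subgroup strongly closed in F. If Q has a subgroup Q₁ that is normal in F, with Q/Q₁ abelian and Aut_F(Q₁) a p-group, then Q is normal in F. -/
theorem result {Ω : Type*} [Group Ω] {S : Subgroup Ω} [Finite S] (p : ℕ) [Fact p.Prime] (hS : IsPGroup p S) (F : Cfsg.FusionSystem S) (hF : F.IsSaturated p) (Q Q₁ : Subgroup Ω) (hQ : F.StronglyClosed Q) (hQ₁Q : Q₁ ≤ Q) (hQ₁ : F.IsNormal Q₁) (hab : ⁅Q, Q⁆ ≤ Q₁) (hAut : IsPGroup p ↥(F.autGroup Q₁)) : F.IsNormal Q := by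
  refine isNormal_of_weaklyClosed_of_le_cr hS hF (weaklyClosed_of_stronglyClosed hQ) fun P _ h1 h2 => ?_
  have hP := h1.1
  have := finite_of_le hP
  have hQ₁P := IsNormal.le_of_radical hS hQ₁ (isCentric_self h1) h2
  have hw := weaklyClosed_of_stronglyClosed (stronglyClosed_of_isNormal hQ₁)
  have hinv : ∀ a ∈ F.autGroup P, ∀ x ∈ Q₁, pext P a x ∈ Q₁ :=
    fun a ha x hx => (piso_pext_of_mem hP ha).mor.mem_of_weaklyClosed hw hQ₁P hx
  refine le_of_radical hS (isCentric_self h1) h2 hQ.1 (hP.trans (le_normalizer_of_stronglyClosed hQ))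
    fun x hx hxN => POn.mem_pCoreIn_of_stronglyClosed hS hP hQ hx hxN ?_
  refine POn.step (D := Q₁) (hS.to_le hP) (pOn_of_forall (conjAut_mem_autGroup F hP (hQ.1 hx) hxN) ?_)
    (le_inf hQ₁P hQ₁Q) inf_le_left hinv (pext_mem_inf_of_stronglyClosed hP hQ) fun y hy => ?_
  · intro β hβ
    have h3 : PIso F (pext P β) Q₁ Q₁ :=
      ((piso_pext_of_mem hP hβ).mor.restrict hQ₁P).piso_of_maps (hinv β hβ)
    obtain ⟨k, hk⟩ := hAut ⟨h3.aut, h3.aut_mem⟩
    refine ⟨k, fun y hy => ?_⟩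
    have h4 : h3.aut ^ p ^ k = 1 := congrArg Subtype.val hk
    rw [map_pow, ← h3.pext_aut_pow _ hy, h4, pext_one]
  · rw [pext_conjAut hxN hy.1]
    have := hab (Subgroup.commutator_mem_commutator (Q.inv_mem hy.2) hx)
    simpa [commutatorElement_def, mul_assoc] using this

end Cfsg.Agent.S5125
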