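import Cfsg.Statements.S5135
import Cfsg.Agent.Fus.QuotLift

set_option autoImplicit false
open Cfsg

namespace Cfsg.Agent.S5135

/-- Let G be a finite group, S a Sylow p-subgroup and H a normal subgroup of G. Then the fusion system of G/H on the image SH/H of S is the factor system of the fusion system of G on S modulo S ∩ H, read through the quotient map restricted to S: for each subgroup P' of SH/H, the conjugation maps by elements of G/H defined on P' with values in SH/H are exactly the homomorphisms induced by the conjugation maps by elements of G defined on the full preimage of P' in S with values in S. -/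
theorem result {G : Type*} [Group G] [Finite G] (p : ℕ) [Fact p.Prime] (S : Sylow p G) (H : Subgroup G) [H.Normal] : (Cfsg.groupFusionSystem (S : Subgroup G)).IsFactorSystem ((S : Subgroup G) ⊓ H) ((QuotientGroup.mk' H).comp (S : Subgroup G).subtype) (Cfsg.groupFusionSystem ((S : Subgroup G).map (QuotientGroup.mk' H))) := by
  refine ⟨inf_le_left, fun s => ?_, ?_, fun P' φ' => ⟨?_, ?_⟩⟩
  · simp [QuotientGroup.eq_one_iff]
  · rw [MonoidHom.range_comp, Subgroup.range_subtype]
  · rintro ⟨hP', hφ', γ, hγ⟩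
    refine ⟨hP', ?_⟩
    set θ := (QuotientGroup.mk' H).comp (S : Subgroup G).subtype with hθ
    have hPS : FusionSystem.preimageAlong θ P' ≤ (S : Subgroup G) := by
      rintro _ ⟨x, -, rfl⟩
      exact x.2
    have hmem : ∀ x ∈ FusionSystem.preimageAlong θ P', (QuotientGroup.mk x : G ⧸ H) ∈ P' := by
      rintro _ ⟨x, hx, rfl⟩
      exact hx
    obtain ⟨g, rfl, hg⟩ := Cfsg.Lib.Fus.exists_lift_conj_quotient S H
      (FusionSystem.preimageAlong θ P') (S.2.to_le hPS) γ (fun x hx => by
        have := hφ' ⟨_, hmem x hx⟩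
        rwa [hγ] at this)
    refine ⟨conjHom _ g, ⟨hPS, fun x => hg x x.2, g, fun x => rfl⟩, hPS, fun x => hg x x.2,
      fun x => hmem x x.2, fun x => ?_⟩
    rw [hγ]
    rfl
  · rintro ⟨hP', φ, ⟨hPS, hφ, g, hg⟩, h1, h2, h3, h4⟩
    have key : ∀ y : P', φ' y = (QuotientGroup.mk g : G ⧸ H) * y * (QuotientGroup.mk g : G ⧸ H)⁻¹ ∧
        φ' y ∈ (S : Subgroup G).map (QuotientGroup.mk' H) := by
      rintro ⟨y, hy⟩
      obtain ⟨s, hs, rfl⟩ := hP' hy
      have hs' : s ∈ FusionSystem.preimageAlong
          ((QuotientGroup.mk' H).comp (S : Subgroup G).subtype) P' := ⟨⟨s, hs⟩, hy, rfl⟩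
      have := h4 ⟨s, hs'⟩
      refine ⟨this.trans ?_, this ▸ ⟨_, h2 ⟨s, hs'⟩, rfl⟩⟩
      change QuotientGroup.mk (φ ⟨s, hs'⟩) = _
      rw [hg]
      rfl
    exact ⟨hP', fun y => (key y).2, _, fun y => (key y).1⟩

end Cfsg.Agent.S5135
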