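import Cfsg.Statements.S5152
import Cfsg.Agent.Fus.Layer

set_option autoImplicit false
open Cfsg

namespace Cfsg.Agent.S5152

open Cfsg.Lib.Fus Cfsg.FusionSystem


/-- Dichotomy for saturated fusion systems: a saturated fusion system over a finite p-group is of characteristic p-type (the normalizer system of every nontrivial fully normalized subgroup is constrained) or of component type (the centralizer system of some fully normalized subgroup of order p has a component). -/
theorem result {Ω : Type*} [Group Ω] {S : Subgroup Ω} [Finite S] (p : ℕ) [Fact p.Prime] (hS : IsPGroup p S) (F : Cfsg.FusionSystem S) (hF : F.IsSaturated p) : F.IsOfCharacteristicPType p ∨ F.IsOfComponentType p := by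
  refine or_iff_not_imp_right.2 fun h U h1 hU E hE => ?_
  rw [eq_normSys hE hU.1]
  exact constrained_normSys_of_forall hS hF (fun X hX hX' => constrained_of_no_component
    (hS.to_le centralizerIn_le) (centSys_saturated hS hF (sat_centralized hS hF hX')) fun T D hD =>
      h ⟨X, hX, hX', _, isCentralizerSystem_centSys F X hX'.1, T, D, hD⟩) h1 hU

end Cfsg.Agent.S5152
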