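import Cfsg.Statements.S5153
import Cfsg.Agent.Fus.Invariant

set_option autoImplicit false
open Cfsg

namespace Cfsg.Agent.S5153

open Cfsg.Lib.Fus Cfsg.FusionSystem

/-- Let F be a saturated fusion system over a finite p-group S and E a subnormal subsystem of F over T. Then every subgroup of T that is fully normalized in F is fully normalized in E. -/
theorem result {Ω : Type*} [Group Ω] {S : Subgroup Ω} [Finite S] (p : ℕ) [Fact p.Prime] (hS : IsPGroup p S) (F : Cfsg.FusionSystem S) (hF : F.IsSaturated p) {T : Subgroup Ω} (E : Cfsg.FusionSystem T) (hE : E.IsSubnormalIn F p) (P : Subgroup Ω) (hPT : P ≤ T) (hP : F.IsFullyNormalized P) : E.IsFullyNormalized P := by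
  suffices h : ∀ {T : Subgroup Ω} (E : FusionSystem T) {S : Subgroup Ω} (F : FusionSystem S)
      (q : ℕ), E.IsSubnormalIn F q → q = p → T ≤ S ∧ (Finite S → IsPGroup p S → F.IsSaturated p →
        P ≤ T → F.IsFullyNormalized P → E.IsFullyNormalized P) from
    (h E F p hE rfl).2 inferInstance hS hF hPT hP
  intro T E S F q h
  induction h with
  | refl => exact fun _ => ⟨le_rfl, fun _ _ _ _ h => h⟩
  | step h1 h2 ih =>
    rintro rfl
    obtain ⟨ih1, ih2⟩ := ih rfl
    have hsc := h2.1.2.2.2.1
    refine ⟨ih1.trans hsc.1, fun hfin hS hF hPT hP => ?_⟩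
    exact ih2 (finite_of_le hsc.1) (hS.to_le hsc.1) h2.1.1 hPT
      (fullyNormalized_of_stronglyClosed hS hF hsc h2.1.2.2.1 (hPT.trans ih1) hP)

end Cfsg.Agent.S5153
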