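import Cfsg.Statements.S5165
import Cfsg.Agent.DC.AnAut

set_option autoImplicit false
open Cfsg

namespace Cfsg.Agent.S5165

open Equiv Subgroup Cfsg.Lib.DC Cfsg.Lib.DC.Wr in
theorem aux {I J α : Type*} {p : ℕ} [hp : Fact p.Prime] [Fintype I] [Fintype J] [DecidableEq I]
    [DecidableEq J] [Fintype α] [DecidableEq α] (e : α ≃ Om I p J) (hI : 3 ≤ Fintype.card I)
    (hJ : Fintype.card J < p)
    (aut : ∀ (Q : Subgroup (Perm I)) (P : Sylow p (Perm (Om I p J))), (P : Subgroup _) = T p J Q →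
      ∀ N, Fam p (alternatingGroup (Om I p J)) N → ∀ g ∈ alternatingGroup (Om I p J),
      g ∈ normalizer ((T p J Q ⊓ alternatingGroup _ : Subgroup (Perm (Om I p J))) :
        Set (Perm (Om I p J))) → g ∈ N (T p J Q ⊓ alternatingGroup _))
    (S : Sylow p (alternatingGroup α)) :
    (Cfsg.groupFusionSystem (S : Subgroup (alternatingGroup α))).IsSimple p := by
  obtain ⟨Q⟩ : Nonempty (Sylow p (Perm I)) := inferInstance
  obtain ⟨P, hP⟩ := exists_sylow_T hJ Q
  have hT : IsPGroup p (T p J (Q : Subgroup (Perm I))) := hP ▸ P.isPGroup'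
  let f : alternatingGroup α →* Perm (Om I p J) :=
    (alternatingGroup _).subtype.comp e.altCongrHom.toMonoidHom
  have hf : f.range = alternatingGroup _ := by
    rw [MonoidHom.range_comp, MonoidHom.range_eq_top.2 e.altCongrHom.surjective,
      ← MonoidHom.range_eq_map, range_subtype]
  refine isSimple_of_fam f (Subtype.val_injective.comp e.altCongrHom.injective)
    (T := T p J (Q : Subgroup (Perm I)) ⊓ alternatingGroup _) ?_ ?_ ?_ ?_ S
  · rw [hf, ← hP]
    exact (Lib.Fus.isSylowIn_top P).inf_of_normal le_top fun g _ x hx =>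
      Subgroup.Normal.conj_mem inferInstance x hx g
  · obtain ⟨i, j, hij⟩ := Fintype.exists_pair_of_one_lt_card (α := I) (by omega)
    intro hb
    have h1 : tr J (Pi.single i (1 : ZMod p)) * tr J (Pi.single j 1) ∈
        T p J (Q : Subgroup (Perm I)) ⊓ alternatingGroup _ := by
      refine ⟨mul_mem (tr_mem_T _) (tr_mem_T _), Perm.mem_alternatingGroup.2 ?_⟩
      rw [map_mul, isConj_iff_eq.1 (Perm.sign.map_isConj (isConj_of_supp
        (tr_pow_p (Pi.single i 1)) (tr_pow_p (Pi.single j 1)) ?_)), Int.units_mul_self]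
      rw [card_supp_tr _ {i} fun k => by by_cases hk : k = i <;> simp [hk],
        card_supp_tr _ {j} fun k => by by_cases hk : k = j <;> simp [hk]]
      simp
    rw [hb, mem_bot] at h1
    simpa [hij] using DFunLike.congr_fun h1 (Sum.inl (i, 0))
  · rw [hf]
    exact fun U h1 h2 h3 => SC.top_le ⟨hI, hJ, h1, h3⟩ hT h2
  · rw [hf]
    exact aut Q P hP

/-- For n ≥ 6, a prime p with p² ≤ n, and n congruent to 0 or 1 modulo p, the p-fusion system of the alternating group of degree n on a Sylow p-subgroup is simple. -/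
theorem result (n p : ℕ) (hn : 6 ≤ n) [Fact p.Prime] (hnp : p ^ 2 ≤ n) (hb : n % p ≤ 1) (S : Sylow p (alternatingGroup (Fin n))) : (Cfsg.groupFusionSystem (S : Subgroup (alternatingGroup (Fin n)))).IsSimple p := by
  have hp : p.Prime := Fact.out
  by_cases h2 : p = 2
  · subst h2
    obtain ⟨e⟩ := Lib.DC.Wr.nonempty_equiv_Om (p := 2) (Fin n)
    rw [Fintype.card_fin] at e
    refine aux e.symm (by simp; omega) (by simp; omega) (fun Q P hP N hN g hg hgN => ?_) S
    have h1 := Lib.Perm.SymSyl.normalizer_inf_le (by simp; omega) P (hP.symm ▸ hgN)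
    obtain ⟨k, hk⟩ := P.isPGroup' ⟨g, h1⟩
    exact hN.pel _ inf_le_right ((hP ▸ P.isPGroup').to_le inf_le_left) g hg hgN k
      (congrArg Subtype.val hk)
  · have h3 : 3 ≤ p := by have := hp.two_le; omega
    have h4 : p ≤ n / p := (Nat.le_div_iff_mul_le hp.pos).2 (by rwa [← pow_two])
    obtain ⟨e⟩ : Nonempty (Fin n ≃ Lib.DC.Wr.Om (ZMod p ⊕ Fin (n / p - p)) p (Fin (n % p))) :=
      Fintype.card_eq.1 (by simp [Nat.add_sub_cancel' h4, Nat.div_add_mod'])
    have : Subsingleton (Fin (n % p)) := Fin.subsingleton_iff_le_one.2 hb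
    refine aux e (by simp; omega) (by simp; omega) (fun Q P hP N hN g hg hgN => ?_) S
    have h5 : IsPGroup p (Lib.DC.Wr.T p (Fin (n % p)) Q) := hP ▸ P.isPGroup'
    rw [inf_eq_left.2 (Lib.DC.Wr.le_alt_of_isPGroup h2 h5)] at hgN ⊢
    exact Lib.DC.Wr.aut_odd h2 hN h5 hg hgN

end Cfsg.Agent.S5165
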