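import Cfsg.Statements.S5166
import Cfsg.Agent.Fus.MathieuKit

set_option autoImplicit false
open Cfsg

namespace Cfsg.Agent.S5166

open Cfsg.Lib.Fus.Grp Cfsg.Lib.Spor.MP

/-- A polycyclic presentation of a Sylow `2`-subgroup with fusion data. -/
def cert : PcCert where
  cs := [970499966350631336865513127433832480, 796144965749214984471225420657985664,
    887182170655104026338884013334497472, 610933098178650810155900481226967136]
  pc := [(0, [7, 6, 4]), (3, [1, 2]), (1, [1]), (0, [])]
  r := 2
  sq := [(0, 14), (0, 15)]
  z := 610933098178650810155900481226967136
  steps := [(0, 99, 648699442692471300625278464218669152, 13), (0, 99,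
    609744425604512129277147896769742880, 9), (0, 1, 444892399570208560302058113611281696, 3),
    (2, 0, 984818244535754528103549039458486304, 6)]
  fin := [(2, 2), (0, 3)]

/-- The flag of characteristic subgroups. -/
def flags : ℕ → Bool → Bool → Bool → ℕ → ℕ → Bool :=
  fun _ _ _ e4 _ _ => !e4

theorem chk : mChk isM11 cert flags = true := by decide +kernel


/-- The 2-fusion system of the Mathieu group M₁₁ (as the explicit permutation group carved out of the automorphism group of the binary Golay code) on a Sylow 2-subgroup is simple: saturated, over a nontrivial 2-group, with no normal subsystem other than the trivial one and itself. -/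
theorem result (S : Sylow 2 Cfsg.Spor.M11) : (Cfsg.groupFusionSystem (S : Subgroup Cfsg.Spor.M11)).IsSimple 2 := by
  obtain ⟨S₀, h⟩ := exists_simpleData_of_mChk (H := Cfsg.Spor.M11) (fun _ h => inSub_of_isM11 h) cert (m := 495)
    (by rw [card_M11]; rfl) (by norm_num) (List.cons_ne_nil _ _) flags chk
  exact h.isSimple S

end Cfsg.Agent.S5166
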