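import Cfsg.Statements.S5167
import Cfsg.Agent.Fus.MathieuKit

set_option autoImplicit false
open Cfsg

namespace Cfsg.Agent.S5167

open Cfsg.Lib.Fus.Grp Cfsg.Lib.Spor.MP

/-- A polycyclic presentation of a Sylow `2`-subgroup with fusion data. -/
def cert : PcCert where
  cs := [632760020969491264755735667665183936, 735500604421669808992593446508235808,
    882182812394984529279323745946798128, 796435380274642972136551754376513572,
    879585418612209331070761631836669024, 818496306144062415656110241739771264]
  pc := [(16, [9, 10, 20, 24, 16]), (0, [3, 2, 12, 8]), (1, [1, 2, 4]), (0, [1, 2]), (1, [1]),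
    (0, [])]
  r := 3
  sq := [(0, 4), (0, 3), (0, 48)]
  z := 818496306144062415656110241739771264
  steps := [(0, 99, 645441359841370436361846995309039654, 58), (1, 99,
    607115080261225578406184834289518689, 14), (0, 1, 234563825554999746762122253181193484, 49),
    (2, 1, 984818244535754528103549039458486304, 20)]
  fin := [(1, 2), (3, 3), (0, 6)]

/-- The flag of characteristic subgroups. -/
def flags : ℕ → Bool → Bool → Bool → ℕ → ℕ → Bool :=
  fun i e2 ez e4 a _ => (e4 && !e2 && !ez) || (Nat.beq i 1 && e2 && !Nat.beq a 0)

theorem chk : mChk (isStab 340831) cert flags = true := by decide +kernel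


/-- The 2-fusion system of the Mathieu group M₁₂ (as the explicit permutation group carved out of the automorphism group of the binary Golay code) on a Sylow 2-subgroup is simple: saturated, over a nontrivial 2-group, with no normal subsystem other than the trivial one and itself. -/
theorem result (S : Sylow 2 Cfsg.Spor.M12) : (Cfsg.groupFusionSystem (S : Subgroup Cfsg.Spor.M12)).IsSimple 2 := by
  obtain ⟨S₀, h⟩ := exists_simpleData_of_mChk (H := Cfsg.Spor.M12) (fun _ h => M12_eq ▸ inSub_of_isStab h) cert (m := 1485)
    (by rw [card_M12]; rfl) (by norm_num) (List.cons_ne_nil _ _) flags chk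
  exact h.isSimple S

end Cfsg.Agent.S5167
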