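import Cfsg.Statements.S5170
import Cfsg.Agent.Fus.MathieuKit

set_option autoImplicit false
open Cfsg

namespace Cfsg.Agent.S5170

open Cfsg.Lib.Fus.Grp Cfsg.Lib.Spor.MP

/-- A polycyclic presentation of a Sylow `2`-subgroup with fusion data. -/
def cert : PcCert where
  cs := [974422238081544939122441376219924512, 963617898132403689957684739679095242,
    812163111404194402935089252591049760, 805670896677793873327890427554143392,
    386970097828194315507848084873454084, 972445495582756216308708262548605091,
    392073659224503668475422341303803910, 349207920303004467423744706011604021,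
    972273574066544790252296956592392405, 400078738642328430392660662597197825]
  pc := [(0, [265, 2, 292, 368, 144, 344, 312, 128, 248]), (132, [89, 18, 184, 144, 116, 220,
    64, 60]), (0, [89, 124, 122, 86, 78, 32, 64]), (44, [62, 61, 13, 39, 16, 22]), (0, [1, 10,
    4, 8, 24]), (0, [5, 2, 4, 12]), (2, [3, 2, 6]), (0, [1, 3]), (0, [1]), (0, [])]
  r := 4
  sq := [(0, 553), (0, 93), (589, 215), (0, 601), (0, 113), (0, 215)]
  z := 972273574066544790252296956592392405
  steps := [(0, 99, 61546187269824541320774705413931274, 604), (1, 99,
    389038770426787126108576592086177006, 753), (1, 99, 873826597479632167714485560160925284,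
    879), (0, 2, 817963575539803618149711877383497377, 42), (3, 2,
    984818244535754528103549039458486304, 29), (2, 0, 984818244535754528103549039458486304,
    546), (5, 3, 984818244535754528103549039458486304, 595), (6, 3,
    984818244535754528103549039458486304, 1014), (2, 0, 984818244535754528103549039458486304,
    596), (8, 0, 984818244535754528103549039458486304, 712)]
  fin := [(8, 47), (4, 50), (1, 37), (0, 44)]

/-- The flag of characteristic subgroups. -/
def flags : ℕ → Bool → Bool → Bool → ℕ → ℕ → Bool :=
  fun i e2 _ e4 a b => (!Nat.beq a b && (!Nat.beq i 3 || !e2)) || (Nat.beq i 1 && !e4)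

theorem chk : mChk isM24 cert flags = true := by decide +kernel


/-- The 2-fusion system of the Mathieu group M₂₄ (as the explicit permutation group of the 24 points preserving the binary Golay code) on a Sylow 2-subgroup is simple: saturated, over a nontrivial 2-group, with no normal subsystem other than the trivial one and itself. -/
theorem result (S : Sylow 2 Cfsg.M24) : (Cfsg.groupFusionSystem (S : Subgroup Cfsg.M24)).IsSimple 2 := by
  obtain ⟨S₀, h⟩ := exists_simpleData_of_mChk (H := Cfsg.M24) (fun _ h => inSub_M24 h) cert (m := 239085)
    (by rw [card_M24]; rfl) (by norm_num) (List.cons_ne_nil _ _) flags chk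
  exact h.isSimple S

end Cfsg.Agent.S5170
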