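import Cfsg.Statements.S5196
import Cfsg.Agent.Fus.WeakCtl

set_option autoImplicit false
universe u
open Cfsg

namespace Cfsg.Agent.S5196

open Cfsg.Lib.Fus

/-- Let p be an odd prime and W a positive characteristic p-functor: W assigns to every finite p-group Q (in a fixed universe) a subgroup W(Q), nontrivial when Q is, carried to W(R) by every isomorphism Q ≅ R; assume also Z(Q) ≤ W(Q) for every finite p-group Q. Suppose W satisfies the local condition: for every finite group G with Sylow p-subgroup P, O_p(G) ∩ Z(G) = O_p(G) ∩ Z(N_G(W(P))). Then W controls weak closure of elements in every saturated fusion system F over a finite p-group S: the centre of the normalizer fusion system of W(S) in F equals the centre of F. (For p = 2 no functor satisfies the local condition, so p is taken odd.) -/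
theorem result {p : ℕ} [Fact p.Prime] (hp : p ≠ 2) (W : ∀ (Q : Type u) [Group Q], Subgroup Q) (hW1 : ∀ (Q : Type u) [Group Q] [Finite Q], IsPGroup p Q → Nontrivial Q → W Q ≠ ⊥) (hW2 : ∀ (Q R : Type u) [Group Q] [Group R] [Finite Q], IsPGroup p Q → ∀ φ : Q ≃* R, (W Q).map φ.toMonoidHom = W R) (hWZ : ∀ (Q : Type u) [Group Q] [Finite Q], IsPGroup p Q → Subgroup.center Q ≤ W Q) (hC : ∀ (G : Type u) [Group G] [Finite G] (P : Sylow p G), Cfsg.pCore p G ⊓ Subgroup.center G = Cfsg.pCore p G ⊓ (Subgroup.center ↥(Subgroup.normalizer (((W ↥(P : Subgroup G)).map (P : Subgroup G).subtype : Subgroup G) : Set G))).map (Subgroup.normalizer (((W ↥(P : Subgroup G)).map (P : Subgroup G).subtype : Subgroup G) : Set G)).subtype) {Ω : Type u} [Group Ω] {S : Subgroup Ω} [Finite S] (hS : IsPGroup p S) (F : Cfsg.FusionSystem S) (hF : F.IsSaturated p) (N : Cfsg.FusionSystem (Cfsg.FusionSystem.normalizerIn S ((W ↥S).map S.subtype))) (hN : F.IsNormalizerSystem ((W ↥S).map S.subtype) N) : N.center = F.center := by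
  have hWS : inducedFunctor W S ≤ S := inducedFunctor_le' S
  obtain rfl := eq_normSys hN hWS
  have hn : S ≤ Subgroup.normalizer (inducedFunctor W S : Set Ω) := WNat.le_normalizer hW2 hS
  have he := normalizerIn_eq_of_le hn
  have hX : (normSys F _ hWS).center ≤ FusionSystem.centralizerIn S S :=
    (isCentral_le_centralizerIn (isCentral_center (normSys F _ hWS))).trans (by rw [he])
  refine le_antisymm (le_center (isCentral_of_models hS hF hW2 hWZ hX (fun f hf x hx =>
    hf.apply_of_isCentral_normSys (isCentral_center _) hx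
      (centralizerIn_le_inducedFunctor hWZ hS (hX hx))) ?_))
    (le_center (isCentral_of_sub hS normSys_sub (normSys_saturated hS hF
      (isFullyNormalized_of_le_normalizer hWS hn)) (isCentral_center F) (center_le.trans he.ge)))
  intro T D hD hc hZ G _ _ ι hM P hP x hx hO h g
  have hxP : extFun ι x ∈ (P : Subgroup G) := hP ▸ extFun_mem_range' ι (hZ (hX hx))
  have : extFun ι x ∈ pCore p G ⊓ Subgroup.center G := by
    rw [hC G P]
    exact ⟨hO, ⟨_, WNat.le_normalizer hW2 P.isPGroup' hxP⟩, Subgroup.mem_center_iff.2 fun y =>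
      Subtype.ext (mul_inv_eq_iff_eq_mul.1 (h y y.2)), rfl⟩
  exact mul_inv_eq_iff_eq_mul.2 (Subgroup.mem_center_iff.1 this.2 g)

end Cfsg.Agent.S5196
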