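import Cfsg.Statements.S5201
import Cfsg.Agent.Fus.ResLim

set_option autoImplicit false
open Cfsg

namespace Cfsg.Agent.S5201

open Cfsg.Lib.Fus Cfsg.FusionSystem


/-- A reduction to normal subsystems. Let F be a saturated fusion system over a finite p-group S and E a normal subsystem of F over T whose centralizer in S lies in T (every subgroup Y of C_S(T) with E contained in the centralizer fusion system of Y in F satisfies Y ≤ T), and suppose Aut_F(T)/Aut_E(T) is p-solvable. Then F and E have the same residual limit: if F∞ is the residual limit of F (reached by alternately passing to the p-residual and the p'-residual subsystem until nothing changes) and E∞ that of E, then F∞ and E∞ have the same maps. -/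
theorem result {Ω : Type*} [Group Ω] {S : Subgroup Ω} [Finite S] (p : ℕ) [Fact p.Prime] (hS : IsPGroup p S) (F : Cfsg.FusionSystem S) (hF : F.IsSaturated p) {T : Subgroup Ω} (E : Cfsg.FusionSystem T) (hE : E.IsNormalIn F p) (hCE : ∀ Y : Subgroup Ω, Y ≤ Cfsg.FusionSystem.centralizerIn S T → (∀ C : Cfsg.FusionSystem (Cfsg.FusionSystem.centralizerIn S Y), F.IsCentralizerSystem Y C → E.IsSubsystemOf C) → Y ≤ T) [hn : ((E.autGroup T).subgroupOf (F.autGroup T)).Normal] (hsolv : Cfsg.IsPSolvable p (↥(F.autGroup T) ⧸ (E.autGroup T).subgroupOf (F.autGroup T))) {U V : Subgroup Ω} (Finf : Cfsg.FusionSystem U) (hFinf : Finf.IsResidualLimitOf F p) (Einf : Cfsg.FusionSystem V) (hEinf : Einf.IsResidualLimitOf E p) : ∀ P : Subgroup Ω, Finf.Hom P = Einf.Hom P := by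
  obtain ⟨G, h1, h2, h3, h4⟩ := exists_envelope hS hE hsolv
  have hT := hE.1.2.2.2.1
  have h5 := h4 Finf (residualLimit_resStable hFinf) (residualLimit_normal hFinf hS hF).1
  have h6 : centE p F E ≤ T := hCE _ centE_le fun C hC => by
    rw [eq_centSys hC (le_of_isCentralizerSystem hC)]
    exact (centE_iff_sub_centSys hT.1).1 (centE_centE hS hE)
  have h7 := focal_le_of_centE_le hS hE h6 h1.1.1 h1.1.2.2.1 le_sup_left le_rfl h3.le
  exact fun P => (residualLimit_eq_of_normal hS hE hFinf hEinf ((residualLimit_resStable hFinf).sub_of_normal hS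
    (residualLimit_normal hFinf hS hF).1 hE ((residualLimit_resStable hFinf).1.ge.trans
      ((hyperfocal_mono h5).trans (hyperfocal_le_focal.trans h7)))) P).symm

end Cfsg.Agent.S5201
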