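import Cfsg.Statements.S5214
import Cfsg.Agent.Fus.EssHType
import Cfsg.Agent.S1137
import Cfsg.Agent.S1138

set_option autoImplicit false
open Cfsg

namespace Cfsg.Agent.S5214

open Cfsg.Lib.Fus Cfsg.Lib.Fus.Ess Cfsg.FusionSystem Cfsg.Lib.Solv
open Subgroup hiding upperCentralSeries
open scoped commutatorElement

/-- Let S be a Suzuki 2-group (a finite nonabelian 2-group with more than one involution admitting a cyclic group of automorphisms permuting its involutions regularly). Then S is normal in every saturated fusion system over S (such a group is resistant). -/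
theorem result {Ω : Type*} [Group Ω] {S : Subgroup Ω} [Finite S] (hS : IsPGroup 2 S) (F : Cfsg.FusionSystem S) (hF : F.IsSaturated 2) (hsz : Cfsg.IsSuzukiTwoGroup ↥S) : F.IsNormal S := by
  have : Fact (Nat.Prime 2) := ⟨Nat.prime_two⟩
  obtain ⟨h1, h2⟩ := S1137.result hsz
  obtain ⟨-, h3, -⟩ := S1138.result hsz
  have hZ : ∀ x : S, x ∈ Subgroup.center S ↔ (x : Ω) ∈ centralizerIn S S := fun x =>
    ⟨fun h => ⟨x.2, fun s hs => congrArg Subtype.val (mem_center_iff.1 h ⟨s, hs⟩)⟩,
      fun h => mem_center_iff.2 fun s => Subtype.ext (h.2 s s.2)⟩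
  refine isNormal_top_of_no_essential hS hF fun E hE => ?_
  have hES := hE.1.1
  have := finite_of_le hES
  obtain ⟨x, hx, hxN, -, -, ht⟩ := (radIn_of_essential hS hE).exists_rad hS le_rfl
    (lt_of_isEssential hS hF hE)
  refine ht.not_triv_triv (aInv_of_piso hES (X := centralizerIn S S) fun f hf y hy hyZ => ?_)
    (triv_conjAut_top_iff.2 fun y hy => ?_)
    (triv_conjAut_bot_iff.2 fun y _ hy => mul_inv_eq_iff_eq_mul.2 (hy.2 x hx))
  · by_cases h4 : f y = 1
    · exact h4 ▸ one_mem _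
    refine (hZ ⟨_, hES (hf.maps hy)⟩).1 ((h1 _).1 ⟨fun e => h4 (congrArg Subtype.val e),
      Subtype.ext ?_⟩).1
    have h5 : y * y = 1 := congrArg Subtype.val (h2 ⟨y, hES hy⟩ ((hZ _).2 hyZ))
    exact (hf.map_mul hy hy).symm.trans (h5 ▸ hf.mor.map_one)
  · have := (hZ _).1 (h3 ⟨y, hES hy⟩ ⟨x, hx⟩⁻¹)
    simpa [mul_assoc] using this

end Cfsg.Agent.S5214
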