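import Cfsg.Statements.S5223
import Cfsg.Agent.Fus.TateCore

set_option autoImplicit false
open Cfsg

namespace Cfsg.Agent.S5223

open Cfsg.Lib.Fus Cfsg.FusionSystem

/-- Let F be a saturated fusion system over a finite p-group S. Suppose there are subgroups Q₀ = S, Q₁, …, Qₙ = 1 (not required to be nested) such that for each i < n the focal subgroup of Qᵢ (generated by the elements x⁻¹φ(x), x ∈ Qᵢ, φ a map of F defined on the cyclic group generated by x) lies in Qᵢ₊₁. Then F is the inner fusion system of S. -/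
theorem result {Ω : Type*} [Group Ω] {S : Subgroup Ω} [Finite S] (p : ℕ) [Fact p.Prime] (hS : IsPGroup p S) (F : Cfsg.FusionSystem S) (hF : F.IsSaturated p) (n : ℕ) (Q : Fin (n + 1) → Subgroup Ω) (hQ0 : Q 0 = S) (hQn : Q (Fin.last n) = ⊥) (hstep : ∀ i : Fin n, Subgroup.closure {y : Ω | ∃ x ∈ Q i.castSucc, ∃ φ ∈ F.Hom (Subgroup.zpowers x), y = x⁻¹ * φ ⟨x, Subgroup.mem_zpowers x⟩} ≤ Q i.succ) : ∀ P : Subgroup Ω, F.Hom P = (Cfsg.innerFusionSystem S).Hom P := by
  refine (hyperfocal_eq_bot_iff.1 (eq_bot_iff.2 (hyperfocal_le_iff_pprime.2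
    fun P f hf ⟨m, hm, e⟩ x hx => ?_))).hom_eq hS hF
  suffices h : ∀ i, ∀ x ∈ P, x ∈ Q i → f x = x by
    rw [h 0 x hx (hQ0 ▸ hf.le_left hx), inv_mul_cancel]; exact one_mem _
  intro i
  induction i using Fin.reverseInduction with
  | last => intro x _ h; rw [hQn] at h; rw [Subgroup.mem_bot.1 h, hf.mor.map_one]
  | cast i ih =>
    intro x hx hQ
    have hy := P.mul_mem (P.inv_mem hx) (hf.maps hx)
    have h1 := ih _ hy (hstep i (Subgroup.subset_closure ⟨x, hQ, _,
      (hf.mor.restrict (Subgroup.zpowers_le.2 hx)).toHom_mem, rfl⟩))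
    have h2 : ∀ k : ℕ, (f ^ k) x = x * (x⁻¹ * f x) ^ k := fun k => by
      induction k with
      | zero => simp
      | succ k ih =>
        rw [pow_succ', Equiv.Perm.mul_apply, ih, hf.map_mul hx (P.pow_mem hy k),
          hf.mor.map_pow hy, h1, pow_succ', mul_assoc x⁻¹, mul_inv_cancel_left]
    obtain ⟨j, hj⟩ := hS ⟨_, hf.le_left hy⟩
    have h3 := mem_of_pow_mem_coprime (H := ⊥) (congrArg Subtype.val hj) hm
      (left_eq_mul.1 ((e x hx).symm.trans (h2 m)))
    exact (inv_mul_eq_one.1 h3).symm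

end Cfsg.Agent.S5223
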