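import Cfsg.Statements.S5236
import Cfsg.Agent.Fus.EssBridge

set_option autoImplicit false
open Cfsg

namespace Cfsg.Agent.S5236

open Cfsg.Lib.Fus Cfsg.Lib.Fus.Ess Cfsg.FusionSystem Subgroup Cfsg.Lib.Solv
open scoped commutatorElement

/-- Let p be an odd prime, F a saturated fusion system over a finite p-group S and P a subgroup of S strongly closed in F. Then P is normal in F if and only if Ω₁(P) (the subgroup generated by the elements of order p of P) has a chain of subgroups 1 = Q₀ ≤ Q₁ ≤ ⋯ ≤ Qₙ = Ω₁(P), each strongly closed in F, with [Qᵢ₊₁, P] ≤ Qᵢ for all i. -/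
theorem result {Ω : Type*} [Group Ω] {S : Subgroup Ω} [Finite S] (p : ℕ) [Fact p.Prime] (hS : IsPGroup p S) (F : Cfsg.FusionSystem S) (hF : F.IsSaturated p) (hp : p ≠ 2) (P : Subgroup Ω) (hP : F.StronglyClosed P) : F.IsNormal P ↔ ∃ (n : ℕ) (Q : Fin (n + 1) → Subgroup Ω), Q 0 = ⊥ ∧ Q (Fin.last n) = Cfsg.omegaOne p P ∧ Monotone Q ∧ (∀ i : Fin (n + 1), F.StronglyClosed (Q i)) ∧ ∀ i : Fin n, ⁅Q i.succ, P⁆ ≤ Q i.castSucc := by
  have := finite_of_le hP.1
  constructor
  · intro hn
    obtain ⟨n, hn'⟩ := exists_zIn_eq (hS.to_le hP.1)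
    have hO : F.StronglyClosed (omegaOne p P) := by
      refine stronglyClosed_of_isNormal (isNormal_of_characteristic hn (PG.omegaOne_le P) ?_)
      rw [← PG.omegaOne_subgroupOf le_rfl, subgroupOf_self]
      infer_instance
    refine ⟨n, fun i => zIn P i ⊓ omegaOne p P, ?_, ?_, ?_, ?_, ?_⟩
    · simp [zIn_zero]
    · simp only [Fin.val_last, hn']
      exact inf_eq_right.2 (PG.omegaOne_le P)
    · exact fun i j h => inf_le_inf_right _ (zIn_mono P h)
    · exact fun i => stronglyClosed_inf (stronglyClosed_of_isNormal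
        (isNormal_of_characteristic hn (zIn_le P i) (zIn_characteristic P i))) hO
    · refine fun i => le_inf ((commutator_mono inf_le_left le_rfl).trans (commutator_zIn_le P i))
        ((commutator_mono inf_le_right le_rfl).trans ?_)
      refine commutator_le.2 fun x hx y hy => ?_
      have := Lib.Fus.conj_mem_of_mem_normalizer (PG.le_normalizer_omegaOne (p := p) le_normalizer hy)
        ((omegaOne p P).inv_mem hx)
      simpa [commutatorElement_def, mul_assoc] using (omegaOne p P).mul_mem hx this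
  · rintro ⟨n, Q, h0, hl, -, hsc, hc⟩
    by_contra hn
    obtain ⟨R, hR, hfn, hrad⟩ := exists_radIn hS hF hP hn
    obtain ⟨x, hx, hxN, hxR, -⟩ := exists_step hS hP.1 hR
    have := finite_of_le hfn.1
    have h := hrad.rad hS hP.1 hfn.1 hx hxN hxR
    have h1 := ptr_chain_fin h.pg h.mem (fun i => (Q i).subgroupOf R)
      (fun i => aInv_of_stronglyClosed hfn.1 (hsc i)) fun i =>
        h.ptr (aInv_of_stronglyClosed hfn.1 (hsc _)) (aInv_of_stronglyClosed hfn.1 (hsc _))
          (triv_conjAut_of_commutator hx (hc i))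
    simp only [h0, hl, bot_subgroupOf] at h1
    refine h.not_ptr (PTr.of_omega hp h.pg aInv_top (fun y _ hy => ?_) h1)
    exact mem_subgroupOf.2 (PG.mem_omegaOne (hR.le y.2) (congrArg Subtype.val hy))

end Cfsg.Agent.S5236
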