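import Cfsg.Statements.S5243
import Cfsg.Agent.Fus.PPrimeNormal

set_option autoImplicit false
open Cfsg

namespace Cfsg.Agent.S5243

open Cfsg.Lib.Fus Cfsg.FusionSystem

/-- Let F be a saturated fusion system over a finite p-group S, E a normal subsystem of F over T ≤ S, and χ a surjective homomorphism from Aut_F(T) onto a nontrivial finite group Δ of order prime to p whose kernel contains Aut_E(T). Then there is a proper normal subsystem F₀ of F over S containing E such that Aut_{F₀}(S) consists of those α ∈ Aut_F(S) whose restriction to T is an element of Aut_F(T) in the kernel of χ; moreover every p'-residual subsystem O^{p'}(F) of F is contained in F₀. -/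
theorem result {Ω : Type*} [Group Ω] {S : Subgroup Ω} [Finite S] (p : ℕ) [Fact p.Prime] (hS : IsPGroup p S) (F : Cfsg.FusionSystem S) (hF : F.IsSaturated p) {T : Subgroup Ω} (hTS : T ≤ S) (E : Cfsg.FusionSystem T) (hE : E.IsNormalIn F p) {Δ : Type*} [Group Δ] [Finite Δ] [Nontrivial Δ] (hΔ : (Nat.card Δ).Coprime p) (χ : ↥(F.autGroup T) →* Δ) (hχ : Function.Surjective χ) (hker : (E.autGroup T).subgroupOf (F.autGroup T) ≤ χ.ker) : ∃ F₀ : Cfsg.FusionSystem S, F₀.IsNormalIn F p ∧ ¬ (∀ P : Subgroup Ω, F₀.Hom P = F.Hom P) ∧ E.IsSubsystemOf F₀ ∧ (∀ α : MulAut ↥S, α ∈ F₀.autGroup S ↔ α ∈ F.autGroup S ∧ ∃ β : ↥(F.autGroup T), χ β = 1 ∧ ∀ t : ↥T, (((β : MulAut ↥T) t : ↥T) : Ω) = ((α ⟨(t : Ω), hTS t.2⟩ : ↥S) : Ω)) ∧ ∀ R : Cfsg.FusionSystem S, F.IsPPrimeResidual p R → R.IsSubsystemOf F₀ := by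
  have hmem : ∀ (γ : MulAut T) (hγ : γ ∈ F.autGroup T),
      γ ∈ χ.ker.map (F.autGroup T).subtype ↔ χ ⟨γ, hγ⟩ = 1 := fun γ hγ =>
    ⟨by rintro ⟨β, hβ, rfl⟩; exact hβ, fun h => ⟨⟨γ, hγ⟩, h, rfl⟩⟩
  obtain ⟨F₀, h1, h2, h3, h4⟩ := exists_normal_of_pprime_quotient hS hF hE.1
    (K := χ.ker.map (F.autGroup T).subtype)
    (fun α hα => (hmem α (autGroup_mono hE.1.2.2.1 hα)).2 (hker (Subgroup.mem_subgroupOf.2 hα)))
    (fun γ hγ k hk => by
      rw [hmem _ (Subgroup.pow_mem _ hγ _)] at hk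
      rw [hmem _ hγ]
      have e : χ ⟨γ, hγ⟩ ^ p ^ k = 1 := by rw [← map_pow]; exact hk
      obtain ⟨m, hm⟩ := exists_pow_eq_self_of_coprime (x := χ ⟨γ, hγ⟩) (n := p ^ k)
        ((Nat.Coprime.coprime_dvd_left (orderOf_dvd_natCard _) hΔ).symm.pow_left k)
      rw [← hm, e, one_pow])
    (Subgroup.map_subtype_le _) (fun γ hγ => by
      rintro _ ⟨β, hβ, rfl⟩
      exact ⟨_, χ.normal_ker.conj_mem β hβ ⟨γ, hγ⟩, rfl⟩)
  refine ⟨F₀, h1, fun h => ?_, h2, fun α => ?_, fun R hR =>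
    pPrimeResidual_sub_of_weaklyNormal hS hF hR h1.1⟩
  · obtain rfl := fus_ext h
    obtain ⟨d, hd⟩ := exists_ne (1 : Δ)
    obtain ⟨γ, rfl⟩ := hχ d
    exact hd ((hmem γ γ.2).1 (h3 ▸ γ.2))
  · rw [h4]
    refine and_congr_right fun _ => ⟨?_, ?_⟩
    · rintro ⟨_, ⟨β, hβ, rfl⟩, e⟩
      refine ⟨β, hβ, fun t => ?_⟩
      have := e t t.2
      rwa [pext_coe, pext_of_mem _ (hTS t.2)] at this
    · rintro ⟨β, hβ, e⟩
      exact ⟨β, ⟨β, hβ, rfl⟩, fun x hx => by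
        rw [pext_of_mem _ hx, pext_of_mem _ (hTS hx)]; exact e ⟨x, hx⟩⟩

end Cfsg.Agent.S5243
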