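import Cfsg.Statements.S5244
import Cfsg.Agent.Fus.EssAbP

set_option autoImplicit false
open Cfsg

namespace Cfsg.Agent.S5244

open Cfsg.Lib.Fus Cfsg.Lib.Fus.Ess Cfsg.FusionSystem Cfsg.Lib.Solv
open Subgroup hiding upperCentralSeries
open scoped commutatorElement

/-- Let p be an odd prime, S a finite nonabelian p-group with a unique abelian subgroup A of index p, and F a saturated fusion system over S with no nontrivial normal subgroup (O_p(F) = 1) in which A is not F-essential. Then some subgroup Z(S)⟨x⟩ with x ∈ S outside A is F-essential, the centre Z(S) is contained in the commutator subgroup of S, and S has maximal nilpotency class (if S has order pⁿ with n ≥ 3, the term of index n − 2 of its lower central series, counting S itself as the term of index 0, is nontrivial). -/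
theorem result {Ω : Type*} [Group Ω] {S : Subgroup Ω} [Finite S] (p : ℕ) [Fact p.Prime] (hS : IsPGroup p S) (F : Cfsg.FusionSystem S) (hF : F.IsSaturated p) (hp : p ≠ 2) (hna : ¬ IsMulCommutative ↥S) (A : Subgroup Ω) (hA : A ≤ S ∧ IsMulCommutative ↥A ∧ (A.subgroupOf S).index = p) (huniq : ∀ B : Subgroup Ω, B ≤ S → IsMulCommutative ↥B → (B.subgroupOf S).index = p → B = A) (hcore : F.core = ⊥) (hAe : ¬ F.IsEssential p A) : (∃ x ∈ S, x ∉ A ∧ F.IsEssential p ((S ⊓ Subgroup.centralizer (S : Set Ω)) ⊔ Subgroup.zpowers x)) ∧ (S ⊓ Subgroup.centralizer (S : Set Ω)) ≤ (commutator ↥S).map S.subtype ∧ ∀ n : ℕ, Nat.card S = p ^ n → 3 ≤ n → Subgroup.lowerCentralSeries S (n - 2) ≠ ⊥ := by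
  have h : AbP p S A := ⟨hS, hna, hA.1, hA.2.1, card_eq_of_index hA.1 hA.2.2⟩
  have hp0 := (Fact.out : p.Prime)
  have hne : ∀ {E}, F.IsEssential p E → E ≠ A := fun hE e => hAe (e ▸ hE)
  have key : ∀ E, E = S ∨ F.IsEssential p E → (F.IsEssential p E ∧ IsMulCommutative E) ∨
      centralizerIn S S ≤ E ∧ ∀ f : Equiv.Perm Ω, PIso F f E E →
        (∀ x ∈ centralizerIn S S, f x ∈ centralizerIn S S) ∧
        ∀ x ∈ centralizerIn S S ⊓ ⁅S, S⁆, f x ∈ centralizerIn S S ⊓ ⁅S, S⁆ := by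
    rintro E (rfl | hE)
    · exact .inr ⟨centralizerIn_le, fun f hf => ⟨fun _ => PIso.map_cent_self hf, fun _ hx =>
        ⟨PIso.map_cent_self hf hx.1, PIso.map_commutator_self hf hx.2⟩⟩⟩
    by_cases hc : IsMulCommutative E
    · exact .inl ⟨hE, hc⟩
    obtain ⟨x, hx, hxA⟩ := h.exists_mem_of_ne hE (hne hE)
    obtain ⟨-, h1, h2, -⟩ := h.of_not_comm hF hE hx hxA hc
    refine .inr ⟨cent_le_of_isCentric hE.1, fun f hf => ?_⟩
    rw [← h2, ← h1]
    exact ⟨fun _ => PIso.map_cent_self hf, fun _ => PIso.map_commutator_self hf⟩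
  have hZ0 : centralizerIn S S ⊓ ⁅S, S⁆ ≠ ⊥ := fun e => by
    have := h.prime_le_card
    rw [e, card_bot] at this
    exact hp0.one_lt.not_ge this
  obtain ⟨P, hP, hc⟩ : ∃ P, F.IsEssential p P ∧ IsMulCommutative P := by
    by_contra hn
    refine hZ0 (eq_bot_iff.2 (inf_le_left.trans (hcore ▸ le_core
      (isNormal_of_essential hS hF fun E hE => ?_))))
    have := (key E hE).resolve_left fun h => hn ⟨E, h⟩
    exact ⟨this.1, fun f hf => (this.2 f hf).1⟩
  have h1 := h.card_eq_prime hF hP (hne hP)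
  obtain ⟨z, hz, hz1⟩ := (bot_or_exists_ne_one _).resolve_left hZ0
  have h2 := zpowers_eq_of_card_prime' h1 hz hz1
  have h3 := cent_eq_of_hTy hp hS hF hcore (h.hTy hF hP (hne hP) hc h2) fun E hE =>
    (key E hE).imp (fun hE => h.hTy hF hE.1 (hne hE.1) hE.2 h2) fun h f hf =>
      ⟨(h.2 f hf).1, h2.ge ((h.2 f hf).2 z hz)⟩
  obtain ⟨x, hx, hxA⟩ := h.exists_mem_of_ne hP (hne hP)
  have h4 := h.inf_sup hP.1.1 hx hxA
  rw [(h.card_le_of_comm hF hP hx hxA hc).1] at h4
  refine ⟨⟨x, hP.1.1 hx, hxA, h4.symm ▸ hP⟩, ?_, fun n hn h5 h6 => ?_⟩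
  · rw [Subgroup.map_subtype_commutator]
    exact (h3.trans h2).le.trans inf_le_right
  · obtain ⟨k, rfl⟩ := Nat.exists_eq_add_of_le' h5
    have h7 := h.card_lcs h1.le k
    rw [show S.lowerCentralSeries (k + 1) = ⊥ from h6, card_bot, mul_one, h3, h2, h1, hn,
      ← pow_succ, Nat.pow_le_pow_iff_right hp0.one_lt] at h7
    omega

end Cfsg.Agent.S5244
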