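import Cfsg.Statements.S5245
import Cfsg.Agent.Fus.PRes
import Cfsg.Agent.Fus.FusInd

set_option autoImplicit false
open Cfsg

namespace Cfsg.Agent.S5245

open Cfsg.Lib.Fus Cfsg.FusionSystem

/-- Let F be an extremely sparse fusion system over a finite p-group S (saturated, not the inner system, and every saturated fusion system over any subgroup T of S contained in F is F itself or the inner system of T). Then S is normal in F, the focal and hyperfocal subgroups of F are both S, and Aut_F(S) is generated by the inner automorphisms of S together with a single automorphism of prime order q ≠ p (F is the fusion system of the semidirect product of S by a cyclic group of prime order). -/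
theorem result {Ω : Type*} [Group Ω] {S : Subgroup Ω} [Finite S] (p : ℕ) [Fact p.Prime] (hS : IsPGroup p S) (F : Cfsg.FusionSystem S) (hF : F.IsSaturated p) (hxs : ¬ (∀ P : Subgroup Ω, F.Hom P = (Cfsg.innerFusionSystem S).Hom P) ∧ ∀ (T : Subgroup Ω) (E : Cfsg.FusionSystem T), E.IsSaturated p → E.IsSubsystemOf F → (T = S ∧ ∀ P : Subgroup Ω, E.Hom P = F.Hom P) ∨ (∀ P : Subgroup Ω, E.Hom P = (Cfsg.innerFusionSystem T).Hom P)) : F.IsNormal S ∧ F.focalSubgroup = S ∧ F.hyperfocalSubgroup p = S ∧ ∃ (q : ℕ) (β : MulAut ↥S), q.Prime ∧ q ≠ p ∧ β ∈ F.autGroup S ∧ orderOf β = q ∧ (F.autGroup S : Subgroup (MulAut ↥S)) = Cfsg.Inn ↥S ⊔ Subgroup.zpowers β := by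
  have key : ∀ P, P ≤ S → ∀ α ∈ F.autGroup P, α ≠ 1 → (orderOf α).Coprime p → P = S ∧
      ∀ Q f, Mor F Q f → ∃ γ ∈ Subgroup.zpowers α, ∃ s ∈ P, ∀ x ∈ Q,
        f x = pext P γ (s * x * s⁻¹) := by
    intro P hP α hα h1 hc
    have := finite_of_le hP
    have hi : (Cfsg.innerFusionSystem P).autGroup P = Cfsg.Inn P := by
      rw [Grp.innerFusionSystem_eq, Grp.autGroup_eq _ le_rfl, autInducedBy_self]
    have hH : ∀ γ ∈ Subgroup.zpowers α, ConjInv (Cfsg.innerFusionSystem P) (pext P γ) :=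
      fun γ _ => conjInv_inner (mulOn_pext γ) fun _ => pext_mem γ
    have hI := isPGroup_autInducedBy (hS.to_le hP) P
    rw [autInducedBy_self] at hI
    rcases hxs.2 P _ (extSys_saturated (hS.to_le hP) (inner_saturated (hS.to_le hP)) hH (by
      rw [hi]
      refine sylIn_of_not_dvd le_sup_right hI fun h => ?_
      rw [Subgroup.relIndex_sup_right] at h
      exact (Fact.out : p.Prime).coprime_iff_not_dvd.1 hc.symm
        (Nat.card_zpowers α ▸ h.trans (Subgroup.relIndex_dvd_card _ _))))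
      (extSys_sub hH (inner_sub F hP) (Subgroup.zpowers_le.2 hα)) with ⟨h2, h3⟩ | h2
    · refine ⟨h2, fun Q f hf => ?_⟩
      obtain ⟨γ, hγ, f₀, h4, e⟩ := mor_extSys.1 ((hom_eq_iff.1 h3 Q f).2 hf)
      obtain ⟨-, s, hs, e'⟩ := mor_inner.1 h4
      exact ⟨γ, hγ, s, hs, fun x hx => by rw [e x hx, e' x hx]⟩
    · obtain ⟨k, hk⟩ := hI ⟨α, mem_inn_pext.2 (mor_inner.1 ((hom_eq_iff.1 h2 _ _).1
        (mor_extSys_pext hH (Subgroup.mem_zpowers α)))).2⟩
      exact absurd (mem_of_pow_mem_coprime (H := ⊥) (congrArg Subtype.val hk) hc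
        (pow_orderOf_eq_one α)) h1
  have h0 : ∃ P, P ≤ S ∧ ∃ α ∈ F.autGroup P, α ≠ 1 ∧ (orderOf α).Coprime p := by
    by_contra h
    refine hxs.1 (IsNil.hom_eq hS hF fun P f hf => ?_)
    have := finite_autGroup F hf.le_left
    exact (pNil_iff hf.le_left).2 (isPGroup_iff_resIn_eq_bot.2 (eq_bot_iff.2 (resIn_le_iff.2
      fun α hα hc => by_contra fun h1 => h ⟨P, hf.le_left, α, hα, h1, hc⟩))) f hf
  obtain ⟨P, hP, α, hα, h1, hc⟩ := h0
  obtain rfl := (key P hP α hα h1 hc).1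
  obtain ⟨q, hq, hqd⟩ := Nat.exists_prime_and_dvd (mt orderOf_eq_one_iff.1 h1)
  have ho := orderOf_pow_orderOf_div (orderOf_pos α).ne' hqd
  have hβ := pow_mem hα (orderOf α / q)
  generalize α ^ (orderOf α / q) = β at ho hβ
  have hb1 : β ≠ 1 := fun h => hq.ne_one (by rw [← ho, h, orderOf_one])
  have hbc : (orderOf β).Coprime p := ho ▸ hc.coprime_dvd_left hqd
  have h2 := (key P le_rfl β hβ hb1 hbc).2
  have hH := stronglyClosed_hyperfocal hS hF
  have hb := piso_pext_of_mem le_rfl hβ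
  have hb' := (hb.mor.restrict hH.1).piso_of_maps fun x hx =>
    hb.mor.mem_of_stronglyClosed hH (hH.1 hx) hx
  have h3 := (key _ hH.1 _ hb'.aut_mem (fun h => hb1 (aut_ext_pext fun x hx =>
    (TrivMod.fix_of_coprime (hS.to_le hH.1) hb.mor.mulOn hH.1 (pPrimeOn_pext.2 hbc)
      (hb.trivMod_hyperfocal (pPrimeOn_pext.2 hbc)) (fun y hy => by
        rw [← hb'.pext_aut hy, h, pext_one]) x hx).trans (pext_one x).symm))
    (hb'.pPrimeOn_iff.1 ((pPrimeOn_pext.2 hbc).mono hH.1))).1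
  refine ⟨isNormal_of_ext hS hF le_rfl fun Q f _ hf => ?_, le_antisymm focalSubgroup_le ?_, h3,
    q, β, hq, fun h => hq.ne_one ((ho ▸ hbc : q.Coprime p).eq_one_of_dvd (h ▸ dvd_rfl)), hβ, ho,
    le_antisymm (fun γ hγ => ?_) (sup_le (inn_le_autGroup F le_rfl) (Subgroup.zpowers_le.2 hβ))⟩
  · obtain ⟨γ, hγ, s, hs, e⟩ := h2 Q f hf
    exact ⟨_, (PIso.cj F le_rfl ((normalizerIn_self P).symm ▸ hs)).trans
      (piso_pext_of_mem le_rfl (Subgroup.zpowers_le.2 hβ hγ)), fun x hx => (e x hx).symm⟩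
  · rw [focal_eq_hyperfocal_sup hS hF, h3]; exact le_sup_left
  · obtain ⟨δ, hδ, s, hs, e⟩ := h2 P _ (piso_pext_of_mem le_rfl hγ).mor
    rw [← mul_inv_cancel_left δ γ]
    exact mul_mem (Subgroup.mem_sup_right hδ) (Subgroup.mem_sup_left (mem_inn_pext.2
      ⟨s, hs, fun x hx => by rw [pext_mul, e x hx, pext_inv_pext]⟩))

end Cfsg.Agent.S5245
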