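import Cfsg.Statements.S5253
import Cfsg.Agent.Fus.WeakCtl

set_option autoImplicit false
universe u
open Cfsg

namespace Cfsg.Agent.S5253

open Cfsg.Lib.Fus

/-- Let p be a prime and W a positive characteristic p-functor with Z(Q) ≤ W(Q): W assigns to every finite p-group Q (in a fixed universe) a subgroup W(Q), nontrivial when Q is, carried to W(R) by every isomorphism Q ≅ R, and containing the centre of Q. Suppose that for every finite group G with Sylow p-subgroup P in which W(P) is not normal there is g ∈ P outside O_p(G) with [Z(O_p(G)), g, g] = 1. Then for every saturated fusion system F over a finite p-group S and every normalizer fusion system N of W(S) in F, every p-th power of an element of Z(S) that lies in the centre of N lies in the centre of F. -/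
theorem result {p : ℕ} [Fact p.Prime] (W : ∀ (Q : Type u) [Group Q], Subgroup Q) (hW1 : ∀ (Q : Type u) [Group Q] [Finite Q], IsPGroup p Q → Nontrivial Q → W Q ≠ ⊥) (hW2 : ∀ (Q R : Type u) [Group Q] [Group R] [Finite Q], IsPGroup p Q → ∀ φ : Q ≃* R, (W Q).map φ.toMonoidHom = W R) (hWZ : ∀ (Q : Type u) [Group Q] [Finite Q], IsPGroup p Q → Subgroup.center Q ≤ W Q) (hq : ∀ (G : Type u) [Group G] [Finite G] (P : Sylow p G), ¬ (((W ↥(P : Subgroup G)).map (P : Subgroup G).subtype : Subgroup G)).Normal → ∃ g : G, g ∈ (P : Subgroup G) ∧ g ∉ Cfsg.pCore p G ∧ ⁅⁅Subgroup.center ↥(Cfsg.pCore p G) |>.map (Cfsg.pCore p G).subtype, Subgroup.zpowers g⁆, Subgroup.zpowers g⁆ = ⊥) {Ω : Type u} [Group Ω] {S : Subgroup Ω} [Finite S] (hS : IsPGroup p S) (F : Cfsg.FusionSystem S) (hF : F.IsSaturated p) (N : Cfsg.FusionSystem (Cfsg.FusionSystem.normalizerIn S ((W ↥S).map S.subtype))) (hN : F.IsNormalizerSystem ((W ↥S).map S.subtype) N) : Subgroup.closure ((fun z => z ^ p) '' ((S ⊓ Subgroup.centralizer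 (S : Set Ω) : Subgroup Ω) : Set Ω)) ⊓ N.center ≤ F.center := by
  have hWS : inducedFunctor W S ≤ S := inducedFunctor_le' S
  obtain rfl := eq_normSys hN hWS
  have hn : S ≤ Subgroup.normalizer (inducedFunctor W S : Set Ω) := WNat.le_normalizer hW2 hS
  have he := normalizerIn_eq_of_le hn
  have hX : (normSys F _ hWS).center ≤ FusionSystem.centralizerIn S S :=
    (isCentral_le_centralizerIn (isCentral_center (normSys F _ hWS))).trans (by rw [he])
  refine le_center (isCentral_of_models hS hF hW2 hWZ (inf_le_right.trans hX) (fun f hf x hx =>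
    hf.apply_of_isCentral_normSys (isCentral_center _) hx.2
      (centralizerIn_le_inducedFunctor hWZ hS (hX hx.2))) ?_)
  intro T D hD hc hZ G _ _ ι hM P hP x hx hO h g
  obtain ⟨z, hz, rfl⟩ : ∃ z ∈ FusionSystem.centralizerIn S S, z ^ p = x := by
    refine Subgroup.closure_induction (p := fun x _ => ∃ z ∈ FusionSystem.centralizerIn S S, z ^ p = x)
      (fun x hx => hx) ⟨1, one_mem _, one_pow _⟩ ?_ ?_ hx.1
    · rintro _ _ - - ⟨a, ha, rfl⟩ ⟨b, hb, rfl⟩
      exact ⟨a * b, mul_mem ha hb, Commute.mul_pow (hb.2 a ha.1) p⟩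
    · rintro _ - ⟨a, ha, rfl⟩
      exact ⟨a⁻¹, inv_mem ha, inv_pow _ _⟩
  have hT := le_of_isSubsystemOf hD
  rw [(mulOn_extFun ι).map_pow (hZ hz)] at h ⊢
  have hzc : extFun ι z ∈ Subgroup.centralizer ((P : Subgroup G) : Set G) := by
    intro y hy
    obtain ⟨a, ha, rfl⟩ := mem_range_iff_extFun.1 (hP ▸ hy : y ∈ ι.range)
    rw [← (mulOn_extFun ι).map_mul ha (hZ hz), ← (mulOn_extFun ι).map_mul (hZ hz) ha,
      hz.2 a (hT ha)]
  refine mul_inv_eq_iff_eq_mul.2 (pow_central_of_quadratic hW2 hq _ G P _ rfl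
    (hM.2.2.2 (Subgroup.centralizer_le (fun y hy => ?_) hzc)) hzc (fun y hy => ?_) g)
  · exact hP ▸ model_pCore_le_range hM hy
  · exact Subgroup.mem_centralizer_singleton_iff.2 (mul_inv_eq_iff_eq_mul.1 (h y hy))

end Cfsg.Agent.S5253
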