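import Cfsg.Statements.S5254
import Cfsg.Agent.Fus.EssAbP

set_option autoImplicit false
open Cfsg

namespace Cfsg.Agent.S5254

open Cfsg.Lib.Fus Cfsg.Lib.Fus.Ess Cfsg.FusionSystem Cfsg.Lib.Solv
open Subgroup hiding upperCentralSeries
open scoped commutatorElement

/-- Let p be an odd prime, S a finite nonabelian p-group with a unique abelian subgroup A of index p, and F a saturated fusion system over S. Then every F-essential subgroup P is A, or Z(S)⟨x⟩ for some x ∈ S outside A, or (when the second centre Z₂(S) lies in A) Z₂(S)⟨x⟩ for some x ∈ S outside A; and P has index p in its normalizer in S. -/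
theorem result {Ω : Type*} [Group Ω] {S : Subgroup Ω} [Finite S] (p : ℕ) [Fact p.Prime] (hS : IsPGroup p S) (F : Cfsg.FusionSystem S) (hF : F.IsSaturated p) (hp : p ≠ 2) (hna : ¬ IsMulCommutative ↥S) (A : Subgroup Ω) (hA : A ≤ S ∧ IsMulCommutative ↥A ∧ (A.subgroupOf S).index = p) (huniq : ∀ B : Subgroup Ω, B ≤ S → IsMulCommutative ↥B → (B.subgroupOf S).index = p → B = A) (P : Subgroup Ω) (hP : F.IsEssential p P) : (P = A ∨ (∃ x ∈ S, x ∉ A ∧ P = (S ⊓ Subgroup.centralizer (S : Set Ω)) ⊔ Subgroup.zpowers x) ∨ (((upperCentralSeries ↥S 2).map S.subtype) ≤ A ∧ ∃ x ∈ S, x ∉ A ∧ P = ((upperCentralSeries ↥S 2).map S.subtype) ⊔ Subgroup.zpowers x)) ∧ (P.subgroupOf (S ⊓ Subgroup.normalizer (P : Set Ω))).index = p := by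
  have h : AbP p S A := ⟨hS, hna, hA.1, hA.2.1, card_eq_of_index hA.1 hA.2.2⟩
  by_cases hPA : P = A
  · subst hPA
    exact ⟨.inl rfl, by rw [inf_eq_left.2 h.norm]; exact hA.2.2⟩
  refine ⟨.inr ?_, index_eq_of_card (K := normalizerIn S P) (le_inf hP.1.1 le_normalizer)
    (h.card_normalizerIn hF hP hPA)⟩
  obtain ⟨x, hx, hxA⟩ := h.exists_mem_of_ne hP hPA
  have h1 := (h.inf_sup hP.1.1 hx hxA).symm
  by_cases hc : IsMulCommutative P
  · rw [(h.card_le_of_comm hF hP hx hxA hc).1] at h1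
    exact .inl ⟨x, hP.1.1 hx, hxA, h1⟩
  · have h2 := h.zIn_two_le huniq (h.card_eq_prime hF hP hPA)
    rw [(h.of_not_comm hF hP hx hxA hc).1, inf_eq_right.2 h2] at h1
    exact .inr ⟨h2, x, hP.1.1 hx, hxA, h1⟩

end Cfsg.Agent.S5254
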