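import Cfsg.Statements.S5257
import Cfsg.Agent.Fus.EssAbP

set_option autoImplicit false
open Cfsg

namespace Cfsg.Agent.S5257

open Cfsg.Lib.Fus Cfsg.Lib.Fus.Ess Cfsg.FusionSystem Cfsg.Lib.Solv
open Subgroup hiding upperCentralSeries
open scoped commutatorElement

/-- Let p be an odd prime, S a finite nonabelian p-group with a unique abelian subgroup A of index p, and F a saturated fusion system over S having an F-essential subgroup other than A. Then the second centre Z₂(S) lies in A; Z(S) ∩ [S, S] has order p; Z(S)[S, S] has index p in A; Z(S) has index p in Z₂(S); and S/Z(S) has maximal nilpotency class (if S/Z(S) has order pᵐ with m ≥ 3 then the term of index m − 2 of the lower central series of S, counting S as index 0, is not contained in Z(S)). -/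
theorem result {Ω : Type*} [Group Ω] {S : Subgroup Ω} [Finite S] (p : ℕ) [Fact p.Prime] (hS : IsPGroup p S) (F : Cfsg.FusionSystem S) (hF : F.IsSaturated p) (hp : p ≠ 2) (hna : ¬ IsMulCommutative ↥S) (A : Subgroup Ω) (hA : A ≤ S ∧ IsMulCommutative ↥A ∧ (A.subgroupOf S).index = p) (huniq : ∀ B : Subgroup Ω, B ≤ S → IsMulCommutative ↥B → (B.subgroupOf S).index = p → B = A) (P : Subgroup Ω) (hP : F.IsEssential p P) (hPA : P ≠ A) : ((upperCentralSeries ↥S 2).map S.subtype) ≤ A ∧ Nat.card ↥((S ⊓ Subgroup.centralizer (S : Set Ω)) ⊓ ((commutator ↥S).map S.subtype)) = p ∧ (((S ⊓ Subgroup.centralizer (S : Set Ω)) ⊔ ((commutator ↥S).map S.subtype)).subgroupOf A).index = p ∧ (((S ⊓ Subgroup.centralizer (S : Set Ω))).subgroupOf ((upperCentralSeries ↥S 2).map S.subtype)).index = p ∧ ∀ m : ℕ, ((S ⊓ Subgroup.centralizer (S : Set Ω)).subgroupOf S).index = p ^ m → 3 ≤ m → ¬ Subgroup.lowerCentralSeries S (m - 2) ≤ (S ⊓ Subgroup.centralizer (S : Set Ω)) := by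
  have h : AbP p S A := ⟨hS, hna, hA.1, hA.2.1, card_eq_of_index hA.1 hA.2.2⟩
  have hp0 := (Fact.out : p.Prime)
  have h1 := h.card_eq_prime hF hP hPA
  have h2 := h.zIn_two_le huniq h1
  have := finite_of_le hA.1
  have := finite_of_le (zIn_le S 2)
  obtain ⟨x, hx, hxA⟩ := h.exists_not_mem
  rw [Subgroup.map_subtype_commutator]
  refine ⟨h2, h1, index_eq_of_card (sup_le h.cent_le h.commutator_le) ?_,
    index_eq_of_card (K := zIn S 2) (fun a ha => zIn_mono S one_le_two (mem_zIn_one.2 ha)) ?_,
    fun m hm h3 h4 => ?_⟩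
  · have h3 := PG.card_sup_mul_card_inf (K := centralizerIn S S) (H := ⁅S, S⁆)
      fun a ha => centralizer_le_normalizer _ fun b hb => (hb.2 a (commutator_le_self S ha)).symm
    rw [← h.card_commutator, mul_comm, ← h3, h1, mul_comm]; rfl
  · have h4 : centralizerIn S S ≤ zIn S 2 := fun a ha => zIn_mono S one_le_two (mem_zIn_one.2 ha)
    have h5 : ⁅zpowers x, zIn S 2⁆ ≤ centralizerIn S S := (commutator_comm _ _).trans_le
      ((commutator_mono le_rfl (zpowers_le_of_mem hx)).trans
        ((commutator_zIn_le S 1).trans fun _ => mem_zIn_one.1))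
    have h3 := h.card_mul hx hxA h2 (le_normalizer_iff_commutator_le_right.2 (h5.trans h4)
      (mem_zpowers x))
    rw [inf_eq_right.2 h4, (le_inf h5 (commutator_mono (zpowers_le_of_mem hx)
      (zIn_le S 2))).antisymm fun c hc => by
        obtain ⟨a, ha, rfl⟩ := h.exists_comm hx hxA hc.2
        exact commutator_mem_commutator (mem_zpowers x) (h.mem_zIn_two hx hxA ha hc.1), h1] at h3
    exact h3.symm
  · obtain ⟨k, rfl⟩ := Nat.exists_eq_add_of_le' h3
    have h5 := h.card_lcs h1.le k
    have := finite_of_le (inf_le_left.trans centralizerIn_le : centralizerIn S S ⊓ ⁅S, S⁆ ≤ S)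
    have h6 := (card_le_of_le (K := centralizerIn S S ⊓ ⁅S, S⁆) (le_inf h4
      (commutator_mono (lowerCentralSeries_le_self S k) le_rfl))).trans_eq h1
    rw [card_eq_of_index (M := centralizerIn S S) inf_le_left hm] at h5
    have h7 := (Nat.le_of_mul_le_mul_right h5 Nat.card_pos).trans (Nat.mul_le_mul_left _ h6)
    rw [← pow_succ, Nat.pow_le_pow_iff_right hp0.one_lt] at h7
    omega

end Cfsg.Agent.S5257
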