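import Cfsg.Statements.S5271
import Cfsg.Agent.Fus.WeakEmb

set_option autoImplicit false
open Cfsg

namespace Cfsg.Agent.S5271

open Cfsg.Lib.Fus Cfsg.FusionSystem

/-- A nilpotency criterion for fusion systems. Let F be a saturated fusion system over a finite p-group S of order at least p². Call a subgroup Q of S weakly embedded in F when there is a subgroup P of S strongly closed in F such that both the product QP and the intersection Q ∩ P are strongly closed in F. Then F is the inner fusion system of S if and only if there is a subgroup D of S with 1 < D < S such that every subgroup of S of the same order as D is weakly embedded in F and, for every fully normalized subgroup H of S of that order, the normalizer fusion system of H in F is the inner fusion system of N_S(H). -/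
theorem result {Ω : Type*} [Group Ω] {S : Subgroup Ω} [Finite S] (p : ℕ) [Fact p.Prime] (hS : IsPGroup p ↥S) (F : Cfsg.FusionSystem S) (hF : F.IsSaturated p) (hcard : p ^ 2 ≤ Nat.card S) : (∀ P : Subgroup Ω, F.Hom P = (Cfsg.innerFusionSystem S).Hom P) ↔ ∃ D : Subgroup Ω, ⊥ < D ∧ D < S ∧ (∀ Q : Subgroup Ω, Q ≤ S → Nat.card ↥Q = Nat.card ↥D → ∃ P : Subgroup Ω, F.StronglyClosed P ∧ F.StronglyClosed (Q ⊔ P) ∧ F.StronglyClosed (Q ⊓ P)) ∧ (∀ H : Subgroup Ω, F.IsFullyNormalized H → Nat.card ↥H = Nat.card ↥D → ∀ N : Cfsg.FusionSystem (Cfsg.FusionSystem.normalizerIn S H), F.IsNormalizerSystem H N → ∀ P : Subgroup Ω, N.Hom P = (Cfsg.innerFusionSystem (Cfsg.FusionSystem.normalizerIn S H)).Hom P) := by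
  have hp : p.Prime := Fact.out
  rw [← isNil_iff_hom_eq hS hF]
  obtain ⟨n, hn⟩ := IsPGroup.iff_card.1 hS
  constructor
  · intro h
    obtain ⟨m, rfl⟩ : ∃ m, n = m + 2 := Nat.exists_eq_add_of_le'
      ((Nat.pow_le_pow_iff_right hp.one_lt).1 (hn ▸ hcard))
    have hlt : p ^ (m + 1) < p ^ (m + 2) := Nat.pow_lt_pow_right hp.one_lt (Nat.lt_succ_self _)
    obtain ⟨D, -, h1, h2⟩ := exists_card_between (A := ⊥) (k := m + 1) hS bot_le
      (by rw [Subgroup.card_bot]; exact Nat.one_le_pow _ _ hp.pos) (hn ▸ hlt.le)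
    have hne : ∀ Q : Subgroup Ω, Q ≤ S → Nat.card Q = p ^ (m + 1) → Q < S := fun Q h3 h4 =>
      lt_of_le_of_ne h3 fun e => hlt.ne (by rw [← h4, e, hn])
    refine ⟨D, bot_lt_iff_ne_bot.2 fun e => ?_, hne D h1 h2, fun Q h3 h4 => ?_,
      fun H hH _ => (isNil_normSys_iff hS hF hH).1 (h.of_sub normSys_sub)⟩
    · rw [e, Subgroup.card_bot] at h2
      exact (Nat.one_lt_pow (Nat.succ_ne_zero m) hp.one_lt).ne h2
    · have h5 : normalizerIn S Q = S := by_contra fun e =>
        (lt_normalizerIn hS (hne Q h3 (h4.trans h2))).ne (Subgroup.eq_of_le_of_card_ge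
          (le_normalizerIn h3) (by rw [h4, h2]; exact card_le_pow_of_lt hS normalizerIn_le e hn))
      have h6 := stronglyClosed_of_hyperfocal_le hS hF h3 (fun s hs => (h5.ge hs).2)
        (hyperfocal_eq_bot_iff.2 h ▸ bot_le)
      exact ⟨⊥, stronglyClosed_bot F, by rwa [sup_bot_eq],
        by rw [inf_bot_eq]; exact stronglyClosed_bot F⟩
  · rintro ⟨D, h1, h2, h3, h4⟩
    have := finite_of_le h2.le
    obtain ⟨k, hk⟩ := IsPGroup.iff_card.1 (hS.to_le h2.le)
    refine isNil_of_wkEmb F hS hF k (fun e => h1.ne' (Subgroup.card_eq_one.1 (by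
      rw [hk, e, pow_zero]))) (hk ▸ lt_of_not_ge fun h => h2.ne
        (Subgroup.eq_of_le_of_card_ge h2.le h)) (fun Q h5 h6 => h3 Q h5 (h6.trans hk.symm))
      fun H hH h5 => (isNil_normSys_iff hS hF hH).2 (h4 H hH (h5.trans hk.symm))

end Cfsg.Agent.S5271
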