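import Cfsg.Statements.S5284
import Cfsg.Agent.Fus.EssAbInv

set_option autoImplicit false
open Cfsg

namespace Cfsg.Agent.S5284

open Cfsg.Lib.Fus Cfsg.Lib.Fus.Ess Cfsg.FusionSystem Cfsg.Lib.Solv
open Subgroup hiding upperCentralSeries
open scoped commutatorElement

/-- Let S be a finite abelian p-group. Every saturated fusion system over S is supersoluble (S has a chain of F-strongly closed subgroups from 1 to S with cyclic steps) if and only if the invariants of S are pairwise distinct, that is, S is not isomorphic to a direct product (Z/p^n × Z/p^n) × H with n ≥ 1. -/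
theorem result {Ω : Type*} [Group Ω] {S : Subgroup Ω} [Finite S] (p : ℕ) [Fact p.Prime] (hS : IsPGroup p ↥S) (hab : IsMulCommutative ↥S) : (∀ F : Cfsg.FusionSystem S, F.IsSaturated p → (∃ (m : ℕ) (c : Fin (m + 1) → Subgroup Ω), c 0 = ⊥ ∧ c (Fin.last m) = S ∧ (∀ i : Fin (m + 1), F.StronglyClosed (c i)) ∧ ∀ i : Fin m, c i.castSucc ≤ c i.succ ∧ ∃ x ∈ S, c i.succ = c i.castSucc ⊔ Subgroup.zpowers x)) ↔ ¬ ∃ (n : ℕ) (H : Type) (_ : CommGroup H), 0 < n ∧ Nonempty (↥S ≃* (Multiplicative (ZMod (p ^ n)) × Multiplicative (ZMod (p ^ n))) × H) := by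
  classical
  refine (forall_sSol_iff hS).trans ⟨fun h ⟨n, H, _, hn, ⟨e⟩⟩ => ?_, fun h => ⟨fun F hF =>
    isNormal_top_of_comm hS hF fun x hx y hy =>
      congrArg Subtype.val (hab.1.1 ⟨x, hx⟩ ⟨y, hy⟩), ?_⟩⟩
  · have : Fact (1 < p ^ n) := ⟨Nat.one_lt_pow hn.ne' (Fact.out : p.Prime).one_lt⟩
    exact not_autTor_sq (IsPGroup.of_card (n := n) (by simp)) (AutTor.of_equiv h.2 e.symm).of_prod
  let : CommGroup S := IsMulCommutative.instCommGroup
  obtain ⟨ι, _, n, hn, ⟨e⟩⟩ := CommGroup.equiv_prod_multiplicative_zmod_of_finite S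
  obtain ⟨k, hk⟩ := IsPGroup.iff_card.1 hS
  have : ∀ i, ∃ a, n i = p ^ a := fun i => by
    have h1 : n i ∣ p ^ k := by
      rw [← hk, Nat.card_congr e.toEquiv, Nat.card_pi]
      refine Dvd.dvd.trans ?_ (Finset.dvd_prod_of_mem _ (Finset.mem_univ i))
      rw [Nat.card_congr Multiplicative.toAdd, Nat.card_zmod]
    obtain ⟨a, -, ha⟩ := (Nat.dvd_prime_pow Fact.out).1 h1
    exact ⟨a, ha⟩
  choose a ha using this
  obtain rfl : n = fun i => p ^ a i := funext ha
  refine (autTor_pi fun i j hij => by_contra fun hne => h ⟨a i,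
    (l : {l // l ≠ i ∧ l ≠ j}) → Multiplicative (ZMod (p ^ a l)), inferInstance,
    Nat.pos_of_ne_zero fun h0 => by simpa [h0] using hn i, ⟨e.trans ?_⟩⟩).of_equiv e
  let c : Multiplicative (ZMod (p ^ a j)) ≃* Multiplicative (ZMod (p ^ a i)) :=
    AddEquiv.toMultiplicative (ZMod.ringEquivCongr (by rw [hij])).toAddEquiv
  refine MulEquiv.ofBijective (MonoidHom.mk' (fun x => ((x i, c (x j)), fun l => x l.1))
    fun x y => by simp only [Pi.mul_apply, map_mul]; rfl) ⟨fun x y hxy => funext fun l => ?_, ?_⟩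
  · by_cases h1 : l = i
    · exact h1 ▸ congrArg (·.1.1) hxy
    by_cases h2 : l = j
    · exact h2 ▸ c.injective (congrArg (·.1.2) hxy)
    · exact congrFun (congrArg (·.2) hxy) ⟨l, h1, h2⟩
  · rintro ⟨⟨x, y⟩, z⟩
    refine ⟨Function.update (Function.update
      (fun l => if h : l ≠ i ∧ l ≠ j then z ⟨l, h⟩ else 1) j (c.symm y)) i x, ?_⟩
    refine Prod.ext (Prod.ext (by simp) ?_) (funext fun l => ?_)
    · simp [Function.update_of_ne (Ne.symm hne)]
    · simp [l.2]

end Cfsg.Agent.S5284
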