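import Cfsg.Statements.S5286
import Cfsg.Agent.Fus.VirtFree

set_option autoImplicit false
universe u
open Cfsg

namespace Cfsg.Agent.S5286

open Cfsg.Lib.Fus Cfsg.FusionSystem

/-- Every fusion system F over a finite p-group S, saturated or not, is realized by a possibly infinite group: there are a group G and an injective homomorphism ι of S into G such that the maps of F are exactly the conjugations by elements of G between subgroups of ι(S), every finite subgroup of G is conjugate to a subgroup of ι(S), and G has a free normal subgroup whose index divides (#S)!. -/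
theorem result {Ω : Type u} [Group Ω] {S : Subgroup Ω} [Finite S] (p : ℕ) [Fact p.Prime] (hS : IsPGroup p ↥S) (F : Cfsg.FusionSystem S) : ∃ (G : Type u) (_ : Group G) (ι : ↥S →* G), F.IsRealizedBy ι ∧ (∀ H : Subgroup G, Finite ↥H → ∃ g : G, ∀ h ∈ H, g * h * g⁻¹ ∈ ι.range) ∧ ∃ N : Subgroup G, N.Normal ∧ IsFreeGroup ↥N ∧ N.index ∣ (Nat.card ↥S).factorial := by
  obtain ⟨G, _, κ, ρ, h1, h2, h3⟩ := exists_realizing_cover (F := F)
    (ι := MulAction.toPermHom S S) MulAction.toPerm_injective fun P f hf => hf.exists_perm_conj
  refine ⟨G, inferInstance, κ, h1, h2, ρ.ker, inferInstance, h3, ?_⟩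
  rw [Subgroup.index_ker, ← Nat.card_perm]
  exact Subgroup.card_subgroup_dvd_card _

end Cfsg.Agent.S5286
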