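import Cfsg.Statements.S5291
import Cfsg.Agent.Fus.Hyper

set_option autoImplicit false
open Cfsg

namespace Cfsg.Agent.S5291

open Cfsg.Lib.Fus Cfsg.FusionSystem


/-- Let F be a saturated fusion system over a finite p-group S and E a weakly normal subsystem of F over a subgroup T. Suppose a subgroup R of T is normal in E (E = N_E(R)), and let R* be the subgroup of T generated by the images of R under all maps of F with source R. Then R* is normal in F (F = N_F(R*)). -/
theorem result {Ω : Type*} [Group Ω] {S : Subgroup Ω} [Finite S] (p : ℕ) [Fact p.Prime] (hS : IsPGroup p S)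
    (F : Cfsg.FusionSystem S) (hF : F.IsSaturated p)
    {T : Subgroup Ω} (E : Cfsg.FusionSystem T) (hE : E.IsWeaklyNormalIn F p)
    (R : Subgroup Ω) (hR : E.IsNormal R) :
    F.IsNormal (Subgroup.closure {x : Ω | ∃ φ ∈ F.Hom R, ∃ r : R, x = φ r}) := by
  have hI := hE.2.2
  have hT := hI.2.1.1
  have := finite_of_le hT
  have e : Subgroup.closure {x : Ω | ∃ φ ∈ F.Hom R, ∃ r : R, x = φ r} =
      sSup {Q | ∃ α ∈ F.autGroup T, Q = img R (pext T α)} := by
    apply le_antisymm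
    · rw [Subgroup.closure_le]
      rintro _ ⟨φ, hφ, r, rfl⟩
      obtain ⟨α, hα, f₀, hf₀, e⟩ := fratt_of_invariant hI R _ hR.1 (mor_of_mem hφ)
      refine le_sSup (s := {Q | ∃ α ∈ F.autGroup T, Q = img R (pext T α)}) ⟨α, hα, rfl⟩ ?_
      rw [← extFun_coe φ r, e r r.2]
      exact mem_img_of_mem _ (hf₀.mem_of_stronglyClosed (stronglyClosed_of_isNormal hR) r.2 r.2)
    · refine sSup_le ?_
      rintro _ ⟨α, hα, rfl⟩
      refine img_le_iff.2 fun x hx => Subgroup.subset_closure ?_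
      exact ⟨_, ((piso_pext_of_mem hT hα).mor.restrict hR.1).toHom_mem, ⟨x, hx⟩, rfl⟩
  have hn : E.IsNormal (sSup {Q | ∃ α ∈ F.autGroup T, Q = img R (pext T α)}) := by
    have h1 := sSup_mem_of_sup_closed (S := T)
      {Q | E.IsNormal Q ∧ Q ≤ sSup {Q | ∃ α ∈ F.autGroup T, Q = img R (pext T α)}}
      (fun Q hQ => hQ.1.1) ⟨isNormal_bot E, bot_le⟩
      fun Q hQ Q' hQ' => ⟨isNormal_sup hQ.1 hQ'.1, sup_le hQ.2 hQ'.2⟩
    convert h1.1 using 1
    refine le_antisymm (sSup_le ?_) h1.2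
    rintro _ ⟨α, hα, rfl⟩
    exact le_sSup ⟨isNormal_img_of_invariant hI hR hα, le_sSup ⟨α, hα, rfl⟩⟩
  rw [e]
  refine isNormal_of_isNormal_invariant hS hF hI hn fun α hα => ?_
  rw [← img_le_iff]
  have h2 : sSup {Q | ∃ α ∈ F.autGroup T, Q = img R (pext T α)} ≤
      ((sSup {Q | ∃ α ∈ F.autGroup T, Q = img R (pext T α)}).comap (mulOn_pext α).toHom).map
        T.subtype := by
    refine sSup_le ?_
    rintro _ ⟨β, hβ, rfl⟩
    refine img_le_iff.2 fun x hx => ⟨⟨_, pext_mem β (hR.1 hx)⟩, ?_, rfl⟩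
    refine le_sSup (s := {Q | ∃ α ∈ F.autGroup T, Q = img R (pext T α)})
      ⟨α * β, mul_mem hα hβ, rfl⟩ ?_
    show pext T α (pext T β x) ∈ img R (pext T (α * β))
    rw [← pext_mul]
    exact mem_img_of_mem _ hx
  refine img_le_iff.2 fun x hx => ?_
  obtain ⟨y, hy, rfl⟩ := h2 hx
  exact hy

end Cfsg.Agent.S5291
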