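import Cfsg.Statements.S5292
import Cfsg.Agent.Fus.PSolvSys

set_option autoImplicit false
universe u
open Cfsg

namespace Cfsg.Agent.S5292

open Cfsg.Lib.Fus Cfsg.FusionSystem

/-- Let F be a saturated fusion system over a finite p-group S. Then F is the fusion system of some finite p-solvable group on a Sylow p-subgroup if and only if F is constrained (some subgroup normal in F is centric in F) and the group of automorphisms that F induces on its largest normal subgroup O_p(F) is p-solvable. -/
theorem result {Ω : Type u} [Group Ω] {S : Subgroup Ω} [Finite S] (p : ℕ) [Fact p.Prime] (hS : IsPGroup p S)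
    (F : Cfsg.FusionSystem S) (hF : F.IsSaturated p) :
    (∃ (G : Type u) (_ : Group G) (_ : Finite G) (ι : S →* G), Cfsg.IsPSolvable p G ∧ F.IsRealizedBy ι ∧
        ∃ T : Sylow p G, (T : Subgroup G) = ι.range) ↔
      (F.IsConstrained p ∧ Cfsg.IsPSolvable p ↥(F.autGroup F.core)) := by
  refine ⟨fun ⟨G, _, _, ι, h1, h2, T, hT⟩ => ?_, fun ⟨h1, h2⟩ => ?_⟩
  · have h3 := QuotientGroup.mk'_surjective (pPrimeCore p G)
    have h4 : SylIn p ι.range ⊤ := hT ▸ sylIn_top T
    have hG : F.IsModel p _ ((QuotientGroup.mk' (pPrimeCore p G)).comp ι) :=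
      ⟨inferInstance, isRealizedBy_comp h2 h4 _ h3 (injective_comp_of_coprime hS h2.1 _ (by
        rw [QuotientGroup.ker_mk']; exact Lib.Solv.coprime_card_pPrimeCore p G)),
        ⟨T.mapSurjective h3, by rw [Sylow.coe_mapSurjective, hT, MonoidHom.range_comp]⟩,
        (h1.quotient _).centralizer_pCore_le (Lib.Solv.pPrimeCore_quotient_pPrimeCore p G)⟩
    exact ⟨isConstrained_of_isNormal hF (isNormal_core F) (model_centralizerIn_core_le hG),
      (model_isPSolvable_iff hG).1 (h1.quotient _)⟩
  · obtain ⟨G, _, ι, hG⟩ := exists_model hS h1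
    exact ⟨G, _, hG.1, ι, (model_isPSolvable_iff hG).2 h2, hG.2.1, hG.2.2.1⟩

end Cfsg.Agent.S5292
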