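import Cfsg.Statements.S5297
import Cfsg.Agent.Fus.SmallCtl

set_option autoImplicit false
universe u
open Cfsg

namespace Cfsg.Agent.S5297

open Cfsg.Lib.Fus Cfsg.FusionSystem

/-- Let F be a saturated fusion system over a finite p-group S. If every map of F between cyclic subgroups of the hyperfocal subgroup of F of order p or 4 is a map of the normalizer system of S (it extends to a map of F defined on all of S), then S is normal in F. -/
theorem result {Ω : Type u} [Group Ω] {S : Subgroup Ω} [Finite S] (p : ℕ) [Fact p.Prime] (hS : IsPGroup p S)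
    (F : Cfsg.FusionSystem S) (hF : F.IsSaturated p)
    (h : ∀ A B : Subgroup Ω, A ≤ (F.hyperfocalSubgroup p) → B ≤ (F.hyperfocalSubgroup p) → IsCyclic ↥A → (Nat.card ↥A = p ∨ Nat.card ↥A = 4) → IsCyclic ↥B → (Nat.card ↥B = p ∨ Nat.card ↥B = 4) →
      F.homSet A B ⊆ F.normalizerHom S A) :
    F.IsNormal S := by
  refine isNormal_top_of_small hS hF fun x hx he f hf => ?_
  by_cases h1 : x = 1
  · exact ⟨1, PIso.refl F le_rfl, by rw [h1, hf.map_one]; rfl⟩
  obtain ⟨-, g, hg, e, -⟩ := kMor_iff_perm.1 ((mem_normalizerHom' fun _ => rfl).1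
    (small_cyclic_hyp hS hF (X := F.normalizerHom S) h hx he h1 hf))
  exact ⟨g, (hg.restrict le_sup_right).piso_top, (e x (Subgroup.mem_zpowers x)).symm⟩

end Cfsg.Agent.S5297
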