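import Cfsg.Statements.S5301
import Cfsg.Agent.Fus.SmallCtl

set_option autoImplicit false
universe u
open Cfsg

namespace Cfsg.Agent.S5301

open Cfsg.Lib.Fus Cfsg.FusionSystem

/-- Let F be a saturated fusion system over a finite p-group S. If for every subgroup P of S that is fully normalized, centric and radical in F the automorphism group that F induces on P has a normal Sylow p-subgroup, then S is normal in F. -/
theorem result {Ω : Type u} [Group Ω] {S : Subgroup Ω} [Finite S] (p : ℕ) [Fact p.Prime] (hS : IsPGroup p S)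
    (F : Cfsg.FusionSystem S) (hF : F.IsSaturated p)
    (hcl : ∀ P : Subgroup Ω, F.IsFullyNormalized P → F.IsCentric P → F.IsRadical p P →
      ∃ R : Sylow p ↥(F.autGroup P), (R : Subgroup ↥(F.autGroup P)).Normal) :
    F.IsNormal S := by
  refine isNormal_top_of_cr hS hF fun P h1 h2 h3 s hs hn => ?_
  obtain ⟨R, hR⟩ := hcl P h1 h2 h3
  have := finite_autGroup F h1.1
  obtain ⟨R', hR'⟩ := (sat_sylIn hS hF h1).exists_sylow
  have := R.unique_of_normal hR
  refine ⟨⟨_, conjAut_mem_autGroup F h1.1 hs hn⟩, le_pCore' hR R.isPGroup' ?_, rfl⟩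
  rw [Subsingleton.elim R R', hR']
  exact conjAut_mem_autInducedBy hs hn

end Cfsg.Agent.S5301
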