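import Cfsg.Statements.S5310
import Cfsg.Agent.Fus.Layer

set_option autoImplicit false
open Cfsg

namespace Cfsg.Agent.S5310

open Cfsg.Lib.Fus Cfsg.FusionSystem


/-- A saturated fusion system F over a finite p-group S is constrained (its largest normal subgroup O_p(F) is centric) if and only if the inner fusion system of O_p(F) is itself a generalized Fitting subsystem of F (that is, F*(F) = O_p(F)). -/
theorem result {Ω : Type*} [Group Ω] {S : Subgroup Ω} [Finite S] (p : ℕ) [Fact p.Prime] (hS : IsPGroup p S) (F : Cfsg.FusionSystem S) (hF : F.IsSaturated p) :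
    F.IsConstrained p ↔ (Cfsg.innerFusionSystem F.core).IsGeneralizedFittingOf F p := by
  have hQ := isNormal_core F
  have := finite_of_le hQ.1
  refine ⟨fun h => ?_, fun h => constrained_of_no_component hS hF fun T C hC => ?_⟩
  · obtain ⟨U, D, hD⟩ := exists_fitting hS hF
    obtain ⟨T, E, hE, h1⟩ := isGeneralizedFittingOf_iff.1 hD
    have h2 := le_of_isSubsystemOf (hE.2.2 _ _ (inner_isNormalIn_of_isNormal hS hF (isNormal_bot F))
      fun _ _ hC => absurd hC (IsConstrained.not_component hS h))
    obtain rfl : U = F.core := by rw [← h1.sup_eq, sup_eq_left.2 (h2.trans bot_le)]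
    rwa [eq_of_sub (isSubsystemOf_iff.2 fun P k hk => h1.mor₁ hk hk.le) h1.sub₁] at hD
  · obtain ⟨T', E, hE, h1⟩ := isGeneralizedFittingOf_iff.1 h
    have := finite_of_le (IsComponentIn.le hC)
    exact Quasisimple.not_isNil (hS.to_le (IsComponentIn.le hC)) hC.2
      (isNil_of_sub_inner (hS.to_le hQ.1) (sub_trans (hE.2.1 T C hC) h1.sub₂))

end Cfsg.Agent.S5310
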