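import Cfsg.Statements.S5315
import Cfsg.Agent.Fus.FImg
import Cfsg.Agent.Fus.Transfer
import Cfsg.Agent.Fus.WeakCtl

set_option autoImplicit false
open Cfsg

namespace Cfsg.Agent.S5315

open Cfsg.Lib.Fus Cfsg.FusionSystem

/-- An analogue of Grün's lemma for fusion systems. Let F be a saturated fusion system over a finite p-group S that is perfect in the sense that its hyperfocal subgroup is all of S (F coincides with its p-residual subsystem). Then the second centre of F equals its centre: every fusion system over S/(Z(F) ∩ S) that is the factor system of F modulo its centre Z(F), read through the quotient map, has trivial centre. -/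
theorem result {Ω : Type*} [Group Ω] {S : Subgroup Ω} [Finite S] (p : ℕ) [Fact p.Prime] (hS : IsPGroup p S) (F : Cfsg.FusionSystem S) (hF : F.IsSaturated p)
    (hperf : F.hyperfocalSubgroup p = S)
    (E : Cfsg.FusionSystem (⊤ : Subgroup (↥S ⧸ (F.center).subgroupOf S)))
    (hE : F.IsFactorSystem F.center (QuotientGroup.mk' ((F.center).subgroupOf S)) E) : E.center = ⊥ := by
  have hZ := isCentral_center F
  have hc := isCentral_le_centralizerIn hZ
  have hD := fImg_of_factor_normal (isNormal_of_isCentral hZ) hE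
  have hk := pre_bot_of_factor hE
  have hn := isNormal_preimageAlong hS hF (isNormal_of_isCentral hZ) (fun f hf => ⟨0, fun x hx => by
    simpa using hf.mor.apply_of_isCentral hZ hx hx⟩) hE (isNormal_of_isCentral (isCentral_center E))
  rw [← pre_extFun] at hn
  set t := extFun (QuotientGroup.mk' ((F.center).subgroupOf S))
  set Y := pre S t E.center
  have h1 : ∀ P f, Mor F P f → ∀ x ∈ P, x ∈ Y → x⁻¹ * f x ∈ F.center := fun P f hf x hx hY => by
    obtain ⟨f', hf', e⟩ := hD.mor P f hf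
    rw [← hk, ← hD.mulOn.eq_iff (hf.le hx) (hf.maps hx), ← e x hx]
    exact (hf'.apply_of_isCentral (isCentral_center E) (mem_img_of_mem t hx)
      (hD.mulOn.mem_pre.1 hY).2).symm
  have h2 : Y ≤ centralizerIn S S := fun z hz => by
    have h3 : ∀ s ∈ S, z⁻¹ * (s * z * s⁻¹) ∈ F.center := fun s hs =>
      h1 S _ (Mor.conj F le_rfl hs) z (pre_le hz) hz
    have h4 : MulOn S fun s => z⁻¹ * (s * z * s⁻¹) := fun a ha b hb => by
      have := (mem_centralizerIn'.1 (hc (inv_mem (h3 b hb)))).2 _ (mul_mem (inv_mem ha) (pre_le hz))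
      calc z⁻¹ * (a * b * z * (a * b)⁻¹)
          = z⁻¹ * a * z * (z⁻¹ * (b * z * b⁻¹)) * (a⁻¹ * z) * z⁻¹ := by group
        _ = z⁻¹ * a * z * (z⁻¹ * (b * z * b⁻¹)) * ((z⁻¹ * (b * z * b⁻¹))⁻¹ * (a⁻¹ * z) *
          (z⁻¹ * (b * z * b⁻¹))⁻¹⁻¹) * z⁻¹ := by rw [this]
        _ = z⁻¹ * a * z * a⁻¹ * (z * (z⁻¹ * (b * z * b⁻¹)) * z⁻¹) := by group
        _ = _ := by
          rw [(mem_centralizerIn.1 (hc (h3 b hb))).2 z (pre_le hz)]; group
    refine mem_centralizerIn.2 ⟨pre_le hz, fun s hs => ?_⟩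
    have h5 := map_focal_eq_one (F := F) h4.toHom (fun P f hf x y hx e => by
      obtain ⟨g, hg, e', -⟩ := (isNormal_iff.1 hn).2 P f hf
      have hx' := Subgroup.mem_sup_left (T := Y) hx
      have hz' := Subgroup.mem_sup_right (S := P) hz
      have hm := mul_mem (mul_mem hx' hz') (inv_mem hx')
      have h6 := hg.apply_of_isCentral hZ (mul_mem (inv_mem hz') hm) (h3 x x.2)
      have h7 := mem_centralizerIn.1 (hc (h1 _ g hg z hz' hz))
      rw [hg.map_mul (inv_mem hz') hm, hg.map_inv hz', hg.map_conj hx' hz', e' x hx, e,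
        ← mul_inv_cancel_left z (g z)] at h6
      rw [MulOn.toHom_apply, MulOn.toHom_apply, ← h6]
      generalize z⁻¹ * g z = c at h7
      rw [← mul_assoc (y : Ω) z, mul_assoc _ c, ← h7.2 _ (inv_mem y.2), mul_inv_rev z,
        mul_assoc c⁻¹, ← mul_assoc _ _ c, ← mul_assoc _ _ c, h7.2 _ (mul_mem (inv_mem (pre_le hz))
          (mul_mem (mul_mem y.2 (pre_le hz)) (inv_mem y.2))), inv_mul_cancel_left]) (x := ⟨s, hs⟩)
      (focal_eq_hyperfocal_sup hS hF ▸ Subgroup.mem_sup_left (hperf.symm ▸ hs))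
    exact mul_inv_eq_iff_eq_mul.1 (inv_mul_eq_one.1 h5).symm
  have hZY : F.center ≤ Y := hk ▸ pre_mono bot_le
  have h3 : F.IsCentral Y := isCentral_of_fixed hS hF pre_le fun P k hk x hx hY => by
    obtain ⟨f, hf, e⟩ := hk.exists_perm
    rw [← e x hx]
    refine alperin_pprime hS hF (Φ := fun P f => ∀ x ∈ P, x ∈ Y → f x = x)
      (fun P f g _ h e x hx hY => e x hx ▸ h x hx hY) (fun P Q f _ h hQ x hx => h x (hQ hx))
      (fun P Q R f g hf _ h h' x hx hY => by
        rw [Equiv.Perm.mul_apply, h x hx hY, h' x (h x hx hY ▸ hf.maps hx) hY])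
      (fun s hs x _ hY => by
        rw [cj_apply, (mem_centralizerIn.1 (h2 hY)).2 s hs, mul_inv_cancel_right])
      (fun Q hQ hC _ _ f hf hp x hx hY => ?_) P f hf x hx hY
    have hZQ := hc.trans ((centralizerIn_anti hQ.1).trans (isCentric_self hC))
    exact TrivMod.fix_of_coprime (W := Q ⊓ Y) (hS.to_le hZ.1) (hf.mor.mulOn.mono inf_le_left)
      (le_inf hZQ hZY) (hp.mono inf_le_left) (fun y hy => h1 Q f hf.mor y hy.1 hy.2)
      (fun y hy => hf.mor.apply_of_isCentral hZ (hZQ hy) hy) x ⟨hx, hY⟩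
  rw [← hD.img_pre center_le, eq_bot_iff, img_le_iff]
  exact fun x hx => (hD.mulOn.mem_ker_iff.1 (hk.ge (le_center h3 hx))).2

end Cfsg.Agent.S5315
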