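import Cfsg.Statements.S5328
import Cfsg.Agent.Fus.Biset

set_option autoImplicit false
universe u
open Cfsg

namespace Cfsg.Agent.S5328

open Cfsg.Lib.Fus Cfsg.FusionSystem

/-- Every fusion system over a finite p-group S, saturated or not, is realized inside some finite group: there is a finite group G and an injective homomorphism ι of S into G such that the maps of the system are exactly the homomorphisms between subgroups of S that become conjugations by elements of G (the image of S need not be a Sylow p-subgroup of G). -/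
theorem result {Ω : Type u} [Group Ω] {S : Subgroup Ω} [Finite S] (p : ℕ) [Fact p.Prime] (hS : IsPGroup p S) (F : Cfsg.FusionSystem S) : ∃ (G : Type u) (_ : Group G) (_ : Finite G) (ι : ↥S →* G), F.IsRealizedBy ι := by
  obtain ⟨D⟩ := nonempty_trData F
  refine ⟨D.G, D.grp, D.fin, D.ι, fun a b e => ?_, fun P hP φ hφ => ⟨fun h => ?_, fun ⟨g, hg⟩ => ?_⟩⟩
  · rw [← D.ρ_ι a, ← D.ρ_ι b]
    exact congrArg D.ρ (Subtype.ext e)
  · obtain ⟨g, hg⟩ := D.stab P _ (mor_of_mem h)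
    exact ⟨g, fun x => hg ⟨x, hP x.2⟩ _ x.2 (extFun_coe φ x)⟩
  · obtain ⟨Q, f, hf, e⟩ := D.gen g⁻¹
    have k : ∀ x : P, (x : Ω) ∈ Q ∧ f x = φ x := fun x => by
      have h1 : g⁻¹⁻¹ * D.ι ⟨x, hP x.2⟩ * g⁻¹ = D.ι ⟨φ x, hφ x⟩ := by rw [inv_inv, hg]
      obtain ⟨h2, h3⟩ := e ⟨x, hP x.2⟩ (h1 ▸ D.mem _)
      refine ⟨h2, h3.trans ?_⟩
      rw [show (⟨_, h1 ▸ D.mem _⟩ : D.H) = ⟨D.ι ⟨φ x, hφ x⟩, D.mem _⟩ from Subtype.ext h1, D.ρ_ι]
    exact (hf.restrict fun x hx => (k ⟨x, hx⟩).1).mem_hom fun x => (k x).2.symm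

end Cfsg.Agent.S5328
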