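import Cfsg.Statements.S5330
import Cfsg.Agent.Fus.Transfer

set_option autoImplicit false
open Cfsg

namespace Cfsg.Agent.S5330

open Cfsg.Lib.Fus Cfsg.FusionSystem

/-- Let F be a saturated fusion system over a finite abelian p-group S. Then S is the internal direct product of the centre of the system and the focal subgroup: Z(F) ∩ foc(F) = 1 and Z(F)·foc(F) = S. -/
theorem result {Ω : Type*} [Group Ω] {S : Subgroup Ω} [Finite S] (p : ℕ) [Fact p.Prime] (hS : IsPGroup p S) (F : Cfsg.FusionSystem S) (hF : F.IsSaturated p) (hab : ∀ x ∈ S, ∀ y ∈ S, x * y = y * x) : F.center ⊓ F.focalSubgroup = ⊥ ∧ F.center ⊔ F.focalSubgroup = S := by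
  have hc : ⁅S, S⁆ = ⊥ := Subgroup.commutator_eq_bot_iff_le_centralizer.2 fun x hx y hy =>
    hab y hy x hx
  refine ⟨eq_bot_iff.2 (by
    rw [inf_comm, ← hc]; exact focal_inf_le_commutator hS hF (isCentral_center F)),
    le_antisymm (sup_le center_le focalSubgroup_le) fun x hx => ?_⟩
  let _ : CommGroup S := { (inferInstance : Group S) with
    mul_comm := fun a b => Subtype.ext (hab a a.2 b b.2) }
  have := finite_autGroup F le_rfl
  have := Fintype.ofFinite (F.autGroup S)
  let y : S := ∏ α : F.autGroup S, α.1 ⟨x, hx⟩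
  have h1 : ∀ β ∈ F.autGroup S, β y = y := fun β hβ => by
    rw [map_prod]
    exact Fintype.prod_equiv (Equiv.mulLeft ⟨β, hβ⟩) _ _ fun _ => rfl
  have h2 : (y : Ω) ∈ F.center := by
    refine le_center (isCentral_of_fixed hS hF (Subgroup.zpowers_le.2 y.2) ?_)
      (Subgroup.mem_zpowers _)
    rintro P k hk _ hP ⟨n, rfl⟩
    obtain ⟨g, hg, e, -⟩ := (isNormal_iff.1 (isNormal_of_stronglyClosed_of_comm hS hF
      (stronglyClosed_top F) hab)).2 P k hk
    have hg' := hg.restrict le_sup_right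
    obtain ⟨α, hα, e'⟩ := hg'.exists_aut hg'.img_top
    rw [← e _ hP, hg'.map_zpow y.2, ← e' _ y.2, autFun_coe, h1 α hα]
  have h3 : ((⟨x, hx⟩ : S) ^ Nat.card (F.autGroup S))⁻¹ * y ∈ F.focalSubgroup.subgroupOf S := by
    rw [Nat.card_eq_fintype_card, ← Finset.card_univ, ← Finset.prod_const,
      ← Finset.prod_inv_distrib, ← Finset.prod_mul_distrib]
    refine Subgroup.prod_mem _ fun α _ => ?_
    have := (mor_of_mem_autGroup le_rfl α.2).mem_focal hx
    rwa [autFun_of_mem _ hx] at this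
  have h4 : x ^ Nat.card (F.autGroup S) ∈ F.center ⊔ F.focalSubgroup := by
    have := Subgroup.mul_mem _ (Subgroup.mem_sup_left (T := F.focalSubgroup) h2)
      (Subgroup.mem_sup_right (Subgroup.inv_mem _ h3))
    simpa using this
  have h5 : Inn S = ⊥ := eq_bot_iff.2 fun α hα => by
    obtain ⟨s, hs, e⟩ := mem_inn_iff.1 hα
    exact MulEquiv.ext fun z => Subtype.ext (by rw [e, hab s hs z z.2]; simp)
  have h6 := (sat_aut_top hS hF).not_dvd_relIndex
  rw [h5, Subgroup.relIndex_bot_left] at h6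
  obtain ⟨k, hk⟩ := hS ⟨x, hx⟩
  have h7 : (Nat.card (F.autGroup S)).Coprime (orderOf x) := Nat.Coprime.of_dvd_right
    (orderOf_dvd_of_pow_eq_one (congrArg Subtype.val hk))
    (((Nat.Prime.coprime_iff_not_dvd Fact.out).2 h6).symm.pow_right k)
  obtain ⟨m, hm⟩ := exists_pow_eq_self_of_coprime h7
  exact hm ▸ Subgroup.pow_mem _ h4 m

end Cfsg.Agent.S5330
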