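import Cfsg.Statements.S5331
import Cfsg.Agent.Fus.EssAbInv

set_option autoImplicit false
open Cfsg

namespace Cfsg.Agent.S5331

open Cfsg.Lib.Fus Cfsg.Lib.Fus.Ess Cfsg.FusionSystem Cfsg.Lib.Solv
open Subgroup hiding upperCentralSeries
open scoped commutatorElement

/-- Let S be a finite abelian 2-group that is a direct product of cyclic groups of pairwise distinct orders 2^{a_1} < 2^{a_2} < ⋯ < 2^{a_n} (all a_i ≥ 1). Then every saturated fusion system over S is the inner one: its maps are exactly the conjugations by elements of S. -/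
theorem result {Ω : Type*} [Group Ω] {S : Subgroup Ω} [Finite S] (n : ℕ) (a : Fin n → ℕ) (ha : StrictMono a) (ha1 : ∀ i, 1 ≤ a i) (e : ↥S ≃* Multiplicative ((i : Fin n) → ZMod (2 ^ a i))) (F : Cfsg.FusionSystem S) (hF : F.IsSaturated 2) (P : Subgroup Ω) : F.Hom P = (Cfsg.innerFusionSystem S).Hom P := by
  have : Fact (Nat.Prime 2) := ⟨Nat.prime_two⟩
  have h := (autTor_pi (p := 2) ha.injective).of_equiv (e.trans (MulEquiv.piMultiplicative _))
  have hS : IsPGroup 2 S := fun x => ⟨Finset.univ.sup a, e.injective (by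
    rw [map_pow, map_one]
    refine Multiplicative.toAdd.injective (funext fun i => ?_)
    obtain ⟨r, hr⟩ := pow_dvd_pow 2 (Finset.le_sup (f := a) (Finset.mem_univ i))
    rw [toAdd_pow, hr, Pi.smul_apply, nsmul_eq_mul, Nat.cast_mul, ZMod.natCast_self]
    simp)⟩
  exact hom_eq_inner hS hF (isNormal_top_of_comm hS hF fun x hx y hy => congrArg Subtype.val
    (e.injective (a₁ := ⟨x, hx⟩ * ⟨y, hy⟩) (a₂ := ⟨y, hy⟩ * ⟨x, hx⟩)
      (by rw [map_mul, map_mul, mul_comm]))) (h.isPGroup _) P

end Cfsg.Agent.S5331
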