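import Cfsg.Statements.S5362
import Cfsg.Agent.Spor.ThmA2

set_option autoImplicit false
open scoped MatrixGroups
open Cfsg

namespace Cfsg.Agent.S5362

/-- Let D be a conjugacy class of 3-transpositions generating the finite group G, with trivial centre and trivial largest normal 2- and 3-subgroups, and suppose the commuting graph of D is not connected. Let F be the generalized Fitting subgroup of G. Then G/F is isomorphic to the symmetric group of degree 3, and F is isomorphic either to the commutator subgroup of the isometry group of the hyperbolic quadratic form in dimension 8 over the field with two elements, or to the commutator subgroup of the isometry group of the hyperbolic quadratic form in dimension 8 over the field with three elements modulo its centre. -/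
theorem result {G : Type*} [Group G] [Finite G] {D : Set G} (hD : Cfsg.IsThreeTranspositionClass D) (hZ : Subgroup.center G = ⊥) (h2 : Cfsg.pCore 2 G = ⊥) (h3 : Cfsg.pCore 3 G = ⊥) (hdisc : ¬ (Cfsg.commutingGraph D).Connected) (F : Subgroup G) [F.Normal] (hF : F = Cfsg.generalizedFittingSubgroup G) : Nonempty (G ⧸ F ≃* Equiv.Perm (Fin 3)) ∧ (Nonempty (F ≃* Cfsg.Omega (ZMod 2) (Cfsg.quadFormPlus 4 (ZMod 2))) ∨ Nonempty (F ≃* Cfsg.POmega (ZMod 3) (Cfsg.quadFormPlus 4 (ZMod 3)))) := by
  open Cfsg.Lib.Spor Cfsg.Lib.Spor.TQ in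
  have := IsTT.of_class hD
  have hG := IsTT.group_of_class hD
  have hX := conn_of_class hD
  obtain ⟨d, hd, -⟩ := hD.2.1
  have : Nonempty D := ⟨⟨d, hd⟩⟩
  rw [← comConn_iff] at hdisc
  have : Nontrivial D := by
    by_contra hn
    rw [not_nontrivial_iff_subsingleton] at hn
    exact hdisc fun x y => hn.elim x y ▸ Relation.ReflTransGen.refl
  have hV := (vTriv_iff hG.2.2 hX).2 (h2 ▸ bot_le)
  have hW := (wTriv_iff hG.2.2 hX).2 (h3 ▸ bot_le)
  have h := disH_layer hG.2.2 hX hV hW hZ hdisc
  rw [genFitting_eq_layer_sup hG.2.2 hX hV hW, hZ, sup_bot_eq] at hF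
  subst hF
  obtain ⟨h6, h4, hq⟩ := h.quot
  have e := h.equiv ⟨d, hd⟩
  have := h.simple
  have hO := index_dvd_card_out _ h.cent
  obtain ⟨k1, k2⟩ := (h.prim_blk ⟨d, hd⟩).out_three (closure_subSet _) (h.wide_blk _) (h.center_eq _)
    (h.commutator_ne _) e.isSimpleGroup
    (card_out_congr e ▸ ((by norm_num : 3 ∣ 6).trans h6).trans hO) (h.sq_dvd _)
  refine ⟨hq ?_, k1.imp (fun ⟨f⟩ => ⟨e.symm.trans f⟩) fun ⟨f⟩ => ⟨e.symm.trans f⟩⟩
  have := hO.trans (card_out_congr e ▸ k2)
  have := Nat.le_of_dvd (by norm_num) this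
  generalize (Cfsg.layer G).index = n at *
  interval_cases n <;> omega

end Cfsg.Agent.S5362
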