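import Cfsg.Statements.S5388
import Cfsg.Agent.SporChar.Co1Cent
import Cfsg.Agent.Trans.GenFitting

set_option autoImplicit false
open Cfsg

namespace Cfsg.Agent.S5388

open Cfsg.Lib Cfsg.Lib.Spor Cfsg.Lib.Spor.CK Cfsg.Lib.SporChar Cfsg.Lib.SporChar.Co Subgroup

/-- The first Conway group, the automorphism group of the Leech lattice modulo its centre, satisfies the large extraspecial hypothesis of plus type in dimension 8: it has an involution z whose centralizer C has generalized Fitting subgroup Q extraspecial of order 2^9, with C/Q isomorphic to the commutator subgroup of the isometry group of the hyperbolic quadratic form in dimension 8 over the field with two elements, and some conjugate of z other than z lies in Q. -/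
theorem result : ∃ z : Cfsg.Spor.Co1, orderOf z = 2 ∧ ∃ (Q : Subgroup (Subgroup.centralizer ({z} : Set Cfsg.Spor.Co1))) (_ : Q.Normal), Cfsg.generalizedFittingSubgroup (Subgroup.centralizer ({z} : Set Cfsg.Spor.Co1)) = Q ∧ Cfsg.IsExtraspecial 2 Q ∧ Nat.card Q = 2 ^ 9 ∧ Nonempty ((Subgroup.centralizer ({z} : Set Cfsg.Spor.Co1)) ⧸ Q ≃* Cfsg.Omega (ZMod 2) (Cfsg.quadFormPlus 4 (ZMod 2))) ∧ ∃ g : Cfsg.Spor.Co1, (∃ hq : g * z * g⁻¹ ∈ Subgroup.centralizer ({z} : Set Cfsg.Spor.Co1), (⟨g * z * g⁻¹, hq⟩ : Subgroup.centralizer ({z} : Set Cfsg.Spor.Co1)) ∈ Q) ∧ g * z * g⁻¹ ≠ z := by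
  have h := typ_F1
  have hn := h.lx.normalizer_eq
  let φ : centralizer {F1.z} →* Om8 := (F1.orth.comp (inclusion hn.ge)).codRestrict _
    fun c => h.range ▸ ⟨_, rfl⟩
  have hφ : Function.Surjective φ := fun ⟨y, hy⟩ => by
    obtain ⟨c, rfl⟩ : y ∈ F1.orth.range := h.range ▸ hy
    exact ⟨inclusion hn.le c, rfl⟩
  have hk : φ.ker = F1.sub.subgroupOf _ := Subgroup.ext fun c =>
    Subtype.ext_iff.trans (h.orth_eq_one (c := inclusion hn.ge c))
  have hp := Frame.pCore_eq φ hφ hk pCore_Om8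
  have hz : toCo1 d0 * F1.z * (toCo1 d0)⁻¹ = F1.fr 1 := by
    rw [F1_z, ← map_inv, ← map_mul, ← map_mul, d0_z0, map_mul, toCo1_neg, one_mul, F1_fr]
  refine ⟨F1.z, F1.orderOf_z, φ.ker, inferInstance, ?_, ?_, ?_,
    ⟨QuotientGroup.quotientKerEquivOfSurjective φ hφ⟩, toCo1 d0, ?_, ?_⟩
  · rw [hk, ← hp, Trans.genFitting_eq_pCore_iff, hp]
    intro c hc
    exact (zpowers_le.2 h.lx.mem) (h.lx.cent fun q hq =>
      congrArg Subtype.val (hc ⟨q, F1.sub_le_cent hq⟩ hq))
  · rw [hk, ← F1.sub_res _ F1.sub_le_cent]; exact Frame.isExtraspecial _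
  · rw [hk, ← F1.sub_res _ F1.sub_le_cent]; exact Frame.card_sub _
  · have : F1.fr 1 ∈ F1.sub := F1.fr_mem (by norm_num)
    rw [hz, hk]
    exact ⟨F1.sub_le_cent this, this⟩
  · rw [hz, ← F1.fr_256, Ne, F1.fr_eq_iff (by norm_num) (by norm_num)]; norm_num

end Cfsg.Agent.S5388
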