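import Cfsg.Statements.S5521
import Cfsg.Agent.Spor.M24Six

set_option autoImplicit false
open Cfsg

namespace Cfsg.Agent.S5521

open Cfsg.Lib.Spor Cfsg.Lib.Spor.MP
open scoped Pointwise

/-- The Mathieu group M₂₄ in its natural action on the 24 coordinate positions of the binary Golay code has minimal base size exactly 7: every set of at most 6 positions is fixed pointwise by some non-identity element of M₂₄, while some set of 7 positions is fixed pointwise only by the identity. -/
theorem result :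
    (∀ B : Finset Cfsg.GolayPt, B.card ≤ 6 → ∃ g ∈ Cfsg.M24, g ≠ 1 ∧ ∀ b ∈ B, g b = b) ∧
    (∃ B : Finset Cfsg.GolayPt, B.card = 7 ∧ ∀ g ∈ Cfsg.M24, (∀ b ∈ B, g b = b) → g = 1) := by
  refine ⟨fun B hB => ?_, maskSet 8388671, by rw [card_maskSet]; decide +kernel,
    fun g hg h => eq_one_of_fix_base hg h⟩
  obtain ⟨E, hBE, -, hE⟩ := Finset.exists_subsuperset_card_eq (Finset.subset_univ B) hB
    (by decide : 6 ≤ (Finset.univ : Finset GolayPt).card)
  have h1 : 1 < Nat.card {x : Equiv.Perm GolayPt // x ∈ M24 ∧ ∀ p ∈ E, x p = p} := by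
    by_cases h : ∃ o ∈ octads, E ⊆ o
    · obtain ⟨o, ho, h⟩ := h
      obtain ⟨g, hg, e⟩ := M24_hexad_special hE ho h
      rw [card_fixing_conj hg e, card_fix6]; norm_num
    · obtain ⟨g, hg, e⟩ := M24_hexad_umbral hE h
      rw [card_fixing_conj hg e, card_fix6']; norm_num
  have := Finite.one_lt_card_iff_nontrivial.1 h1
  obtain ⟨x, hx⟩ := exists_ne (⟨1, M24.one_mem, fun _ _ => rfl⟩ :
    {x : Equiv.Perm GolayPt // x ∈ M24 ∧ ∀ p ∈ E, x p = p})
  exact ⟨x.1, x.2.1, fun e => hx (Subtype.ext e), fun b hb => x.2.2 b (hBE hb)⟩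

end Cfsg.Agent.S5521
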