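import Cfsg.Statements.S5524
import Cfsg.Agent.Spor.BmL2

set_option autoImplicit false
open Cfsg

namespace Cfsg.Agent.S5524

/-- In the Baby Monster B (the finitely presented group of the definitions), with F a field of 23 elements: B has a subgroup isomorphic to PSL₂(F); any two such subgroups are conjugate in B; each is self-normalizing; and each lies in a maximal subgroup of B isomorphic to the Fischer group Fi₂₃. -/
theorem result {F : Type*} [Field F] [Fintype F] (hF : Fintype.card F = 23) :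
    (∃ H : Subgroup Cfsg.Spor.BabyMonster, Nonempty (↥H ≃* Matrix.ProjectiveSpecialLinearGroup (Fin 2) F)) ∧
    (∀ H₁ H₂ : Subgroup Cfsg.Spor.BabyMonster, Nonempty (↥H₁ ≃* Matrix.ProjectiveSpecialLinearGroup (Fin 2) F) →
      Nonempty (↥H₂ ≃* Matrix.ProjectiveSpecialLinearGroup (Fin 2) F) → ∃ g : Cfsg.Spor.BabyMonster, H₂ = H₁.map (MulAut.conj g).toMonoidHom) ∧
    (∀ H : Subgroup Cfsg.Spor.BabyMonster, Nonempty (↥H ≃* Matrix.ProjectiveSpecialLinearGroup (Fin 2) F) →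
      Subgroup.normalizer (H : Set Cfsg.Spor.BabyMonster) = H ∧ ∃ M : Subgroup Cfsg.Spor.BabyMonster, IsCoatom M ∧ Cfsg.Spor.IsoFi23 ↥M ∧ H ≤ M) := by
  open Cfsg.Lib Cfsg.Lib.Spor.Bm Cfsg.Lib.Spor.Bm.L2 in
  obtain ⟨r⟩ := Class.nonempty_ringEquiv_zmod (by norm_num) hF
  have e := Class.pslEquiv (Fin 2) r
  have key : ∀ H : Subgroup BB, Nonempty (H ≃* Matrix.ProjectiveSpecialLinearGroup (Fin 2) F) → ∃ g : BB,
      H = (Subgroup.closure {evN tb [4], evN tb [6]}).map (MulAut.conj g).toMonoidHom := fun H ⟨i⟩ => by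
    obtain ⟨x, hx⟩ := ctx.conj (i.trans e)
    refine ⟨x⁻¹, ?_⟩
    rw [← hx, Subgroup.map_map]
    ext; simp [mul_assoc]
  refine ⟨⟨_, ctx.equiv.map fun i => i.trans e.symm⟩, fun H₁ H₂ ⟨i⟩ h2 => ?_, fun H h => ?_⟩
  · obtain ⟨x, hx⟩ := ctx.conj (i.trans e)
    obtain ⟨g, rfl⟩ := key H₂ h2
    refine ⟨g * x, ?_⟩
    rw [← hx, Subgroup.map_map, map_mul]
    rfl
  obtain ⟨g, rfl⟩ := key H h
  have := Fintype.ofFinite HH
  refine ⟨?_, φB.range.map (MulAut.conj g).toMonoidHom, ?_, ?_, Subgroup.map_mono ctx.le_H⟩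
  · rw [← Subgroup.map_equiv_normalizer_eq, ctx.normalizer_eq]
  · exact ((MulAut.conj g).mapSubgroup.isCoatom_iff _).2 (dataB.isCoatom arithG)
  · exact ⟨((MulAut.conj g).subgroupMap _).symm.trans (φB.ofInjective φB_injective).symm⟩

end Cfsg.Agent.S5524
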