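import Cfsg.Statements.S5540
import Cfsg.Agent.Inst.MonAm
import Cfsg.Agent.Cond.S5540

set_option autoImplicit false
open Cfsg

namespace Cfsg.Agent.S5540

/-- The Monster (realised inside the presented Bimonster) has a faithful irreducible real representation ρ of degree 196883 forming a Norton pair with it: there is a non-zero ρ-invariant symmetric bilinear form; there is a non-zero ρ-equivariant commutative bilinear product; and every ρ-equivariant bilinear product is a scalar multiple of that one (so the representation occurs exactly once in its tensor square, inside the symmetric square). Irreducibility is stated as: the only ρ-invariant subspaces are the zero subspace and the whole space. -/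
theorem result : ∃ ρ : Representation ℝ Cfsg.Spor.Monster (Fin 196883 → ℝ), Function.Injective ρ ∧ (∀ W : Submodule ℝ (Fin 196883 → ℝ), (∀ g : Cfsg.Spor.Monster, W.map (ρ g) ≤ W) → W = ⊥ ∨ W = ⊤) ∧ (∃ B : LinearMap.BilinForm ℝ (Fin 196883 → ℝ), B ≠ 0 ∧ (∀ u v, B u v = B v u) ∧ ∀ (g : Cfsg.Spor.Monster) (u v : (Fin 196883 → ℝ)), B (ρ g u) (ρ g v) = B u v) ∧ ∃ m : (Fin 196883 → ℝ) →ₗ[ℝ] (Fin 196883 → ℝ) →ₗ[ℝ] (Fin 196883 → ℝ), m ≠ 0 ∧ (∀ u v, m u v = m v u) ∧ (∀ (g : Cfsg.Spor.Monster) (u v : (Fin 196883 → ℝ)), m (ρ g u) (ρ g v) = ρ g (m u v)) ∧ ∀ m' : (Fin 196883 → ℝ) →ₗ[ℝ] (Fin 196883 → ℝ) →ₗ[ℝ] (Fin 196883 → ℝ), (∀ (g : Cfsg.Spor.Monster) (u v : (Fin 196883 → ℝ)), m' (ρ g u) (ρ g v) = ρ g (m' u v)) → ∃ c : ℝ, m' = c • m := by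
  exact @Cfsg.Agent.Gate.S5540.out Cfsg.Agent.Cond.S5540

end Cfsg.Agent.S5540
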