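import Cfsg.Statements.S5587
import Cfsg.Agent.Mon.BBaby
import Cfsg.Agent.Mon.BabyIso

set_option autoImplicit false
open Cfsg

namespace Cfsg.Agent.S5587

/-- Over any field F whose characteristic is not 2, the Baby Monster (the finitely presented group of the definitions) has a faithful linear representation of degree 4371; every such representation is irreducible over F, and any two are equivalent. -/
theorem result (F : Type*) [Field F] (hF : ringChar F ≠ 2) :
    (∃ ρ : Cfsg.Spor.BabyMonster →* GL (Fin 4371) F, Function.Injective ρ) ∧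
    ∀ ρ : Cfsg.Spor.BabyMonster →* GL (Fin 4371) F, Function.Injective ρ →
      (∀ W : Submodule F (Fin 4371 → F), (∀ g : Cfsg.Spor.BabyMonster, ∀ v ∈ W, (ρ g : Matrix (Fin 4371) (Fin 4371) F).mulVec v ∈ W) → W = ⊥ ∨ W = ⊤) ∧
      ∀ ρ' : Cfsg.Spor.BabyMonster →* GL (Fin 4371) F, Function.Injective ρ' →
        ∃ P : GL (Fin 4371) F, ∀ g : Cfsg.Spor.BabyMonster, ρ' g = P * ρ g * P⁻¹ := by
  obtain ⟨e⟩ := Lib.Mon.enumM.nonempty_babyEquiv
  have h2 : (2 : F) ≠ 0 := Ring.two_ne_zero hF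
  exact ⟨(Lib.Mon.B4.exists_faithful hF).elim fun ρ h => ⟨ρ.comp e.toMonoidHom, h.comp e.injective⟩,
    fun ρ hρ => ⟨Lib.Mon.B4.gl_irr e h2 (Fintype.card_fin _).le hρ,
      fun ρ' hρ' => Lib.Mon.B4.gl_equiv e h2 (Fintype.card_fin _).le hρ hρ'⟩⟩

end Cfsg.Agent.S5587
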