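import Cfsg.Statements.S5590
import Cfsg.Agent.Mon.XSp
import Cfsg.Agent.Mon.BabyIso

set_option autoImplicit false
open Cfsg

namespace Cfsg.Agent.S5590

/-- Let F be a field of characteristic neither 2 nor 3 and ρ a faithful linear representation of the Baby Monster of degree 4371 over F. Then every extension of the Baby Monster by the corresponding module splits: if E is a group with an abelian normal subgroup A, an identification of E/A with the Baby Monster, and an additive identification of A with F^4371 under which conjugation by g ∈ E acts as ρ of the image of g, then A has a complement in E. -/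
theorem result (F : Type*) [Field F] (hF2 : ringChar F ≠ 2) (hF3 : ringChar F ≠ 3) (ρ : Cfsg.Spor.BabyMonster →* GL (Fin 4371) F) (hρ : Function.Injective ρ)
    (E : Type*) [Group E] (A : Subgroup E) [A.Normal] (e : E ⧸ A ≃* Cfsg.Spor.BabyMonster)
    (φ : Additive ↥A ≃+ (Fin 4371 → F))
    (hφ : ∀ (g : E) (a b : ↥A), (b : E) = g * a * g⁻¹ → φ (Additive.ofMul b) =
      (ρ (e (QuotientGroup.mk g)) : Matrix (Fin 4371) (Fin 4371) F).mulVec (φ (Additive.ofMul a))) :
    ∃ K : Subgroup E, A.IsComplement' K := by
  obtain ⟨f⟩ := Lib.Mon.enumM.nonempty_babyEquiv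
  exact Lib.Mon.XH.exists_complement f hF2 hF3 hρ A e φ hφ

end Cfsg.Agent.S5590
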