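import Cfsg.Statements.S5712
import Cfsg.Agent.Class.Ev.Core
import Cfsg.Agent.S0247
import Cfsg.Prelude.Def_CaseTheorems

set_option autoImplicit false
open Cfsg

namespace Cfsg.Agent.S5712

open Cfsg.Lib.Class

/-- Let F be a finite field of characteristic two, n ≥ 2, V = F^{2n} with the non-degenerate alternating form f(u, v) = Σ (u_i v_{n+i} + u_{n+i} v_i), and G the group of invertible matrices preserving f. Let a ≠ 0 be a vector, H its stabilizer in G, and X a subgroup of O₂(H) of order |F|^{2n−2} no element of which is a transvection (no element g has g − 1 of rank one). If L is a subgroup of G containing X that acts irreducibly on V (no proper non-zero L-invariant subspace), then L = G, or, for some quadratic form Q on V whose polar form is f, L is the isometry group of Q or its subgroup of the isometries g for which g − 1 has even rank, or |F| = 2, n = 2 and L is isomorphic to the alternating group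 of degree 6 or to the symmetric group of degree 5. -/
theorem result {F : Type*} [Field F] [Fintype F] [CharP F 2] {n : ℕ} (hn : 2 ≤ n) (a : (Fin n ⊕ Fin n → F)) (ha : a ≠ 0)
    (X : Subgroup (GL (Fin n ⊕ Fin n) F)) (hXG : X ≤ Cfsg.preserving (Units.coeHom (Matrix (Fin n ⊕ Fin n) (Fin n ⊕ Fin n) F)) (fun u v : (Fin n ⊕ Fin n → F) => ∑ i : Fin n, (u (Sum.inl i) * v (Sum.inr i) + u (Sum.inr i) * v (Sum.inl i))))
    (hXO : ∀ H : Subgroup (GL (Fin n ⊕ Fin n) F),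
      (∀ g : GL (Fin n ⊕ Fin n) F, g ∈ H ↔ (g ∈ Cfsg.preserving (Units.coeHom (Matrix (Fin n ⊕ Fin n) (Fin n ⊕ Fin n) F)) (fun u v : (Fin n ⊕ Fin n → F) => ∑ i : Fin n, (u (Sum.inl i) * v (Sum.inr i) + u (Sum.inr i) * v (Sum.inl i))) ∧ Matrix.mulVec (g : Matrix (Fin n ⊕ Fin n) (Fin n ⊕ Fin n) F) a = a)) →
      X ≤ (Cfsg.pCore 2 ↥H).map H.subtype)
    (hcard : Nat.card ↥X = Fintype.card F ^ (2 * n - 2))
    (hntv : ∀ x ∈ X, ((x : Matrix (Fin n ⊕ Fin n) (Fin n ⊕ Fin n) F) - 1).rank ≠ 1)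
    (L : Subgroup (GL (Fin n ⊕ Fin n) F)) (hXL : X ≤ L) (hLG : L ≤ Cfsg.preserving (Units.coeHom (Matrix (Fin n ⊕ Fin n) (Fin n ⊕ Fin n) F)) (fun u v : (Fin n ⊕ Fin n → F) => ∑ i : Fin n, (u (Sum.inl i) * v (Sum.inr i) + u (Sum.inr i) * v (Sum.inl i))))
    (hirr : ∀ W : Submodule F (Fin n ⊕ Fin n → F), (∀ g ∈ L, ∀ w ∈ W, Matrix.mulVec (g : Matrix (Fin n ⊕ Fin n) (Fin n ⊕ Fin n) F) w ∈ W) → W = ⊥ ∨ W = ⊤) :
    L = Cfsg.preserving (Units.coeHom (Matrix (Fin n ⊕ Fin n) (Fin n ⊕ Fin n) F)) (fun u v : (Fin n ⊕ Fin n → F) => ∑ i : Fin n, (u (Sum.inl i) * v (Sum.inr i) + u (Sum.inr i) * v (Sum.inl i))) ∨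
    (∃ Q : QuadraticForm F (Fin n ⊕ Fin n → F), (∀ u v, QuadraticMap.polar ⇑Q u v = (fun u v : (Fin n ⊕ Fin n → F) => ∑ i : Fin n, (u (Sum.inl i) * v (Sum.inr i) + u (Sum.inr i) * v (Sum.inl i))) u v) ∧
      (L = Cfsg.isometryGroup F ⇑Q ∨
        ∀ g : GL (Fin n ⊕ Fin n) F, g ∈ L ↔ (g ∈ Cfsg.isometryGroup F ⇑Q ∧ Even ((g : Matrix (Fin n ⊕ Fin n) (Fin n ⊕ Fin n) F) - 1).rank))) ∨
    (Fintype.card F = 2 ∧ n = 2 ∧ (Nonempty (↥L ≃* ↥(alternatingGroup (Fin 6))) ∨ Nonempty (↥L ≃* Equiv.Perm (Fin 5)))) := by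
  have hf : (fun u v : (Fin n ⊕ Fin n → F) => ∑ i : Fin n, (u (Sum.inl i) * v (Sum.inr i) +
      u (Sum.inr i) * v (Sum.inl i))) = sympForm n F := by
    funext u v
    rw [sympForm_eq]
    exact Finset.sum_congr rfl fun i _ => by rw [CharTwo.sub_eq_add, add_comm]
  rw [hf] at hXG hXO hLG ⊢
  change L ≤ spGL n F at hLG
  change L = spGL n F ∨ _
  set φ := glLin (Fin n ⊕ Fin n) F
  have hm : ∀ (K : Subgroup (GL (Fin n ⊕ Fin n) F)) g, φ g ∈ K.map φ.toMonoidHom ↔ g ∈ K :=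
    fun K g => Subgroup.mem_map_iff_mem (f := φ.toMonoidHom) φ.injective
  have C : Ev.Ctx (sympBilin n F) (L.map φ.toMonoidHom) :=
    ⟨sympBilin_nondegenerate n, sympBilin_isAlt n, by
      rintro _ ⟨g, hg, rfl⟩; exact (glLin_mem_SpB_iff n g).2 (hLG hg),
      fun W hW => hirr W fun g hg w hw => hW _ ((hm L g).2 hg) w hw⟩
  have hd := finrank_symp_space (F := F) n
  have hrk : ∀ g : GL (Fin n ⊕ Fin n) F, ((g : Matrix (Fin n ⊕ Fin n) (Fin n ⊕ Fin n) F) - 1).rank =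
      Module.finrank F (LinearMap.range ((φ g).toLinearMap - LinearMap.id)) := fun g => by
    rw [Matrix.rank, show ((g : Matrix (Fin n ⊕ Fin n) (Fin n ⊕ Fin n) F) - 1).mulVecLin =
      (φ g).toLinearMap - LinearMap.id from LinearMap.ext fun z => by simp [φ, Matrix.sub_mulVec]]
  obtain ⟨b, hb⟩ : ∃ b, sympBilin n F b a = 1 :=
    (exists_alt_eq_one C.nd ha).imp fun b h => by rw [C.sym, h]
  let H : Subgroup (GL (Fin n ⊕ Fin n) F) :=
    spGL n F ⊓ (MulAction.stabilizer _ a).comap φ.toMonoidHom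
  have hX := hXO H fun g => Iff.rfl
  have hfull : Ev.Full (sympBilin n F) (L.map φ.toMonoidHom) a := by
    refine C.full (X := X.map φ.toMonoidHom) hb (Subgroup.map_mono hXL) (fun x hx =>
      C.exists_param (N := ((pCore 2 H).map H.subtype).map φ.toMonoidHom) hb ?_ ?_ ?_ ?_
        (Subgroup.map_mono hX hx)) ?_ ?_
    · rintro _ ⟨_, ⟨g, -, rfl⟩, rfl⟩
      exact (glLin_mem_SpB_iff n _).2 g.2.1
    · rintro _ ⟨_, ⟨g, -, rfl⟩, rfl⟩
      exact g.2.2
    · rintro _ ⟨_, ⟨g, hg, rfl⟩, rfl⟩ u hu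
      obtain ⟨t, ht⟩ := φ.surjective (altTEquiv C.alt u 1)
      have h1 : t ∈ H := ⟨(glLin_mem_SpB_iff n t).1 (ht ▸ altTEquiv_mem_SpB _ _ _),
        show φ t a = a by rw [ht, altTEquiv_of_orth _ _ (by rw [C.sym, hu])]⟩
      exact ⟨_, ⟨_, (pCore_normal 2 H).conj_mem g hg ⟨t, h1⟩, rfl⟩, by simp [← ht]⟩
    · rintro _ ⟨_, ⟨g, hg, rfl⟩, rfl⟩
      obtain ⟨k, hk⟩ := (Sylow.sSup_of_normal _ (fun _ h => h.2) (fun _ h => h.1) :
        IsPGroup 2 (pCore 2 H)) ⟨g, hg⟩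
      exact ⟨k, by rw [← map_pow, ← map_pow, show g ^ 2 ^ k = 1 from congrArg Subtype.val hk,
        map_one, map_one]⟩
    · rw [Subgroup.card_map_of_injective φ.injective, hcard, hd, Nat.card_eq_fintype_card]
    · rintro _ ⟨x, hx, rfl⟩ c hc
      by_contra hc0
      refine hntv x hx ?_
      rw [hrk, ← finrank_span_singleton (K := F) ha]
      refine congrArg (fun W : Submodule F _ => Module.finrank F W) (le_antisymm ?_ ((Submodule.span_singleton_le_iff_mem _ _).2 ⟨c⁻¹ • b, ?_⟩))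
      · rintro _ ⟨z, rfl⟩
        exact Submodule.mem_span_singleton.2 ⟨_, eq_sub_of_add_eq' (hc z).symm⟩
      · refine sub_eq_of_eq_add' ((hc _).trans ?_)
        rw [map_smul, LinearMap.smul_apply, hb, smul_eq_mul, mul_one, mul_inv_cancel₀ hc0, one_smul]
        rfl
  have top : SpB (sympBilin n F) ≤ L.map φ.toMonoidHom → L = spGL n F := fun h =>
    le_antisymm hLG fun g hg => (hm L g).1 (h ((glLin_mem_SpB_iff n g).2 hg))
  rcases hfull.cases C (fun c => (frobeniusEquiv F 2).surjective c) (by omega) with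
    h | ⟨Q, hp, hL, h⟩ | ⟨hF, h4, x, x', h⟩
  · exact Or.inl (top h)
  · refine Or.inr (Or.inl ⟨Q, fun u v => (hp u v).trans (sympBilin_apply n u v), ?_⟩)
    have hO : ∀ g, g ∈ isometryGroup F Q ↔ φ g ∈ Orth.O Q := fun g => Iff.rfl
    refine h.imp (fun h => le_antisymm (fun g hg => (hO g).2 (hL ((hm L g).2 hg)))
      fun g hg => (hm L g).1 (h ((hO g).1 hg))) fun h g => ⟨fun hg => ?_, fun hg => ?_⟩
    · have h1 := hL ((hm L g).2 hg)
      exact ⟨h1, hrk g ▸ (Ev.dick_eq_one_iff ⟨_, h1⟩).1 ((h _).1 ((hm L g).2 hg))⟩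
    · exact (hm L g).1 ((h ⟨_, (hO g).1 hg.1⟩).2 ((Ev.dick_eq_one_iff _).2 (hrk g ▸ hg.2)))
  · obtain rfl : n = 2 := by omega
    have hc : Fintype.card F = 2 := by
      classical
      rw [← Finset.card_univ, Finset.card_eq_two]
      exact ⟨0, 1, zero_ne_one, by ext x; simpa using hF x⟩
    have h1 := h.dvd_card C hF (by simp [hc])
    obtain ⟨e⟩ := S0247.result hc
    let ψ := (spEquivSpGL 2 F).symm.trans e
    let θ : L ≃* (L.subgroupOf (spGL 2 F)).map ψ.toMonoidHom :=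
      (Subgroup.subgroupOfEquivOfLe hLG).symm.trans (Subgroup.equivMapOfInjective _ _ ψ.injective)
    rw [Subgroup.card_map_of_injective φ.injective, Nat.card_congr θ.toEquiv] at h1
    rcases Ev.six_cases h1 with h2 | h2 | ⟨⟨h2⟩⟩
    · refine Or.inl (le_antisymm hLG fun g hg => ?_)
      exact (Subgroup.mem_map_iff_mem (f := ψ.toMonoidHom) (x := ⟨g, hg⟩) ψ.injective).1
        (h2 ▸ Subgroup.mem_top _)
    · exact Or.inr (Or.inr ⟨hc, rfl, Or.inl ⟨θ.trans (MulEquiv.subgroupCongr h2)⟩⟩)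
    · exact Or.inr (Or.inr ⟨hc, rfl, Or.inr ⟨θ.trans h2⟩⟩)

end Cfsg.Agent.S5712
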