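import Cfsg.Statements.S5713
import Cfsg.Agent.Perm.CycleLemmas

set_option autoImplicit false
open Cfsg

namespace Cfsg.Agent.S5713

open MulAction Finset

section
variable {G Ω : Type*} [Group G] [MulAction G Ω]

theorem triv [Finite G] (hp : IsPreprimitive G Ω) (T : Ω → Ω → Prop)
    (hi : ∀ (g : G) x y, T x y → T (g • x) (g • y)) (hr : ∀ x, T x x)
    (ht : ∀ x y z, T x y → T y z → T x z) : (∀ x y, T x y → x = y) ∨ ∀ x y, T x y := by
  have hs : ∀ x y, T x y → T y x := fun x y h => by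
    obtain ⟨g, rfl⟩ := exists_smul_eq G x y
    have h1 : ∀ k : ℕ, T (g • x) (g ^ (k + 1) • x) := fun k => by
      induction k with
      | zero => simpa using hr _
      | succ k ih => exact ht _ _ _ (hi g _ _ h) (by simpa [← mul_smul, ← pow_succ'] using hi g _ _ ih)
    simpa [Nat.sub_add_cancel (orderOf_pos g)] using h1 (orderOf g - 1)
  by_cases h : ∀ x y, T x y → x = y
  · exact .inl h
  push Not at h
  obtain ⟨x, y, h1, h2⟩ := h
  have hB : IsBlock G {y | T x y} := isBlock_iff_smul_eq_of_mem.2 fun g a ha hga => by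
    have h3 := ht _ _ _ hga (hs _ _ (hi g _ _ ha))
    ext z
    rw [Set.mem_smul_set_iff_inv_smul_mem]
    exact ⟨fun h => ht _ _ _ h3 (by simpa using hi g _ _ h),
      fun h => by simpa using hi g⁻¹ _ _ (ht _ _ _ (hs _ _ h3) h)⟩
  rcases hp.isTrivialBlock_of_isBlock hB with h | h
  · exact absurd (h (hr x) h1) h2
  · exact .inr fun a b => ht _ _ _ (hs _ _ (Set.eq_univ_iff_forall.1 h a))
      (Set.eq_univ_iff_forall.1 h b)

variable (G) in
def A (a b x y : Ω) : Prop := x = y ∨ ∃ g : G, (x = g • a ∧ y = g • b) ∨ (x = g • b ∧ y = g • a)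

variable (G) in
def R (a b : Ω) : ℕ → Ω → Ω → Prop
  | 0, x, y => x = y
  | t + 1, x, y => ∃ z, R a b t x z ∧ A G a b z y

variable {a b : Ω}

theorem A_symm {x y : Ω} (h : A G a b x y) : A G a b y x := by
  rcases h with h | ⟨g, h | h⟩
  exacts [.inl h.symm, .inr ⟨g, .inr h.symm⟩, .inr ⟨g, .inl h.symm⟩]

theorem R_add {s t : ℕ} {x y : Ω} : R G a b (s + t) x y ↔ ∃ z, R G a b s x z ∧ R G a b t z y := by
  induction t generalizing y with
  | zero => simp [R]
  | succ t ih =>
    rw [← add_assoc]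
    simp only [R, ih]
    exact ⟨fun ⟨w, ⟨z, h1, h2⟩, h3⟩ => ⟨z, h1, w, h2, h3⟩,
      fun ⟨z, h1, w, h2, h3⟩ => ⟨w, ⟨z, h1, h2⟩, h3⟩⟩

theorem R_refl (t : ℕ) (x : Ω) : R G a b t x x := by
  induction t with
  | zero => rfl
  | succ t ih => exact ⟨x, ih, .inl rfl⟩

theorem R_mono {s t : ℕ} {x y : Ω} (h : s ≤ t) (hr : R G a b s x y) : R G a b t x y := by
  obtain ⟨k, rfl⟩ := Nat.exists_eq_add_of_le h
  exact R_add.2 ⟨y, hr, R_refl _ _⟩

theorem R_symm {t : ℕ} {x y : Ω} (h : R G a b t x y) : R G a b t y x := by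
  induction t generalizing y with
  | zero => exact h.symm
  | succ t ih =>
    obtain ⟨z, h1, h2⟩ := h
    rw [add_comm]
    exact R_add.2 ⟨z, ⟨y, rfl, A_symm h2⟩, ih h1⟩

theorem R_smul (g : G) {t : ℕ} {x y : Ω} (h : R G a b t x y) : R G a b t (g • x) (g • y) := by
  induction t generalizing y with
  | zero => exact congrArg _ h
  | succ t ih =>
    obtain ⟨z, h1, h2⟩ := h
    refine ⟨g • z, ih h1, ?_⟩
    rcases h2 with h | ⟨k, ⟨rfl, rfl⟩ | ⟨rfl, rfl⟩⟩
    exacts [.inl (congrArg _ h), .inr ⟨g * k, .inl ⟨(mul_smul ..).symm, (mul_smul ..).symm⟩⟩,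
      .inr ⟨g * k, .inr ⟨(mul_smul ..).symm, (mul_smul ..).symm⟩⟩]

theorem R_iff (g : G) {t : ℕ} {x y : Ω} : R G a b t (g • x) (g • y) ↔ R G a b t x y :=
  ⟨fun h => by simpa using R_smul g⁻¹ h, R_smul g⟩

theorem R_metric (ρ : Ω → Ω → ℕ) (h0 : ∀ x, ρ x x = 0) (hs : ρ b a = ρ a b)
    (ht : ∀ x y z, ρ x z ≤ ρ x y + ρ y z) (hi : ∀ (g : G) x y, ρ (g • x) (g • y) = ρ x y)
    {t : ℕ} {x y : Ω} (h : R G a b t x y) : ρ x y ≤ t * ρ a b := by
  induction t generalizing y with
  | zero => obtain rfl := h; simp [h0]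
  | succ t ih =>
    obtain ⟨z, h1, h2⟩ := h
    have : ρ z y ≤ ρ a b := by
      rcases h2 with rfl | ⟨k, ⟨rfl, rfl⟩ | ⟨rfl, rfl⟩⟩ <;> simp [h0, hi, hs]
    have := ih h1
    have := ht x z y
    linarith

variable [Fintype Ω]

open Classical in
noncomputable def cnt (p : Ω → Prop) : ℕ := #(univ.filter p)

theorem cnt_smul (g : G) {p q : Ω → Prop} (h : ∀ z, p z ↔ q (g • z)) : cnt p = cnt q :=
  card_equiv (toPerm g) (by simp [h])

theorem cnt_le {p q r : Ω → Prop} (h : ∀ z, p z → q z ∨ r z) : cnt p ≤ cnt q + cnt r := by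
  classical
  exact (card_le_card fun z hz => by simpa using h z (by simpa using hz)).trans (card_union_le _ _)

theorem cnt_mono {p q : Ω → Prop} (h : ∀ z, p z → q z) : cnt p ≤ cnt q :=
  card_le_card fun z hz => by simpa using h z (by simpa using hz)

theorem cnt_split (p q : Ω → Prop) : cnt (fun z => p z ∧ q z) + cnt (fun z => p z ∧ ¬ q z) = cnt p := by
  classical
  unfold cnt
  rw [← card_filter_add_card_filter_not (s := univ.filter p) q, filter_filter, filter_filter]
  congr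

theorem cnt_compl (q : Ω → Prop) : cnt q + cnt (fun z => ¬ q z) = Fintype.card Ω := by
  classical
  unfold cnt
  convert card_filter_add_card_filter_not (s := univ) q
  rfl

theorem cnt_zero {p : Ω → Prop} : cnt p = 0 ↔ ∀ z, ¬ p z := by simp [cnt]

theorem cnt_swap (P : Ω → Ω → Prop) : ∑ y, cnt (P y) = ∑ z, cnt fun y => P y z := by
  simp only [cnt, card_filter]
  exact sum_comm

open Classical in
theorem cnt_sum (p : Ω → Prop) (k : ℕ) : ∑ z, (if p z then k else 0) = cnt p * k := by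
  rw [← sum_filter]; simp [cnt]

theorem cnt_comp {p : Ω → Prop} {P : Ω → Ω → Prop} {k : ℕ} (h : ∀ z, cnt (P z) = k) :
    cnt (fun y => ∃ z, p z ∧ P z y) ≤ cnt p * k := by
  classical
  refine (card_le_card fun y hy => ?_).trans (card_biUnion_le_card_mul (univ.filter p)
    (fun z => univ.filter (P z)) k fun z _ => (h z).le)
  simpa using hy

variable (G) in
def O (x y x' y' : Ω) : Prop := ∃ g : G, g • x = x' ∧ g • y = y'

omit [Fintype Ω] in
theorem O_iff (g : G) {x y x' y' : Ω} : O G x y (g • x') (g • y') ↔ O G x y x' y' :=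
  ⟨fun ⟨k, h1, h2⟩ => ⟨g⁻¹ * k, by simp [mul_smul, h1], by simp [mul_smul, h2]⟩,
    fun ⟨k, h1, h2⟩ => ⟨g * k, by simp [mul_smul, h1], by simp [mul_smul, h2]⟩⟩

theorem babai [Finite G] (hp : IsPreprimitive G Ω) (hab : a ≠ b)
    (h2 : ¬ ∀ x y, x ≠ y → O G a b x y) :
    Fintype.card Ω ≤ (2 * cnt (fun z => ¬ O G z a z b) + 1) ^ 2 := by
  classical
  have : Nonempty Ω := ⟨a⟩
  obtain ⟨n, hn⟩ : ∃ n, n = Fintype.card Ω := ⟨_, rfl⟩
  have hn2 : 1 < n := hn ▸ Fintype.one_lt_card_iff.2 ⟨a, b, hab⟩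
  obtain ⟨d, hd⟩ : ∃ d, d = cnt (fun z => ¬ O G z a z b) := ⟨_, rfl⟩
  rw [← hd, ← hn]
  obtain ⟨⟨x0, y0⟩, hmax⟩ := Finite.exists_max fun p : Ω × Ω => cnt (O G p.1 p.2 p.1)
  obtain ⟨N, hN⟩ : ∃ N, N = cnt (O G x0 y0 x0) := ⟨_, rfl⟩
  have hN' : ∀ x, cnt (O G x0 y0 x) = N := fun x => by
    obtain ⟨g, rfl⟩ := exists_smul_eq G x0 x
    exact (hN.trans (cnt_smul g fun z => (O_iff g).symm)).symm
  have conn : ∀ x y, ∃ t, R G a b t x y := (triv hp (fun x y => ∃ t, R G a b t x y)
    (fun g x y ⟨t, h⟩ => ⟨t, R_smul g h⟩) (fun x => ⟨0, rfl⟩)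
    fun x y z ⟨s, h⟩ ⟨t, h'⟩ => ⟨s + t, R_add.2 ⟨y, h, h'⟩⟩).resolve_left fun h =>
      hab (h a b ⟨1, a, rfl, .inr ⟨1, by simp⟩⟩)
  have F1 : ∀ t, (∀ y, R G a b t a y) → n ≤ N + t * d := fun t ht => by
    have sy : ∀ z x y : Ω, O G z x z y → O G z y z x := fun z x y ⟨g, h, h'⟩ =>
      ⟨g⁻¹, inv_smul_eq_iff.2 h.symm, inv_smul_eq_iff.2 h'.symm⟩
    have tr : ∀ z x y w : Ω, O G z x z y → O G z y z w → O G z x z w :=
      fun z x y w ⟨g, e1, e2⟩ ⟨k, e3, e4⟩ =>
        ⟨k * g, by rw [mul_smul, e1, e3], by rw [mul_smul, e2, e4]⟩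
    have iv : ∀ (g : G) (z x y : Ω), O G z x z y → O G (g • z) (g • x) (g • z) (g • y) :=
      fun g z x y ⟨k, h, h'⟩ => ⟨g * k * g⁻¹, by simp [mul_smul, h], by simp [mul_smul, h']⟩
    have h1 : ∀ y, cnt (fun z => ¬ O G z a z y) ≤ t * d := fun y => by
      rw [hd]
      exact R_metric (a := a) (b := b) (fun x y => cnt fun z => ¬ O G z x z y)
        (fun x => cnt_zero.2 fun z h => h ⟨1, by simp⟩)
        (congrArg cnt (funext fun z => propext (not_congr ⟨sy _ _ _, sy _ _ _⟩)))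
        (fun x y w => cnt_le fun z h => by
          by_contra! h'
          exact h (tr _ _ _ _ h'.1 h'.2))
        (fun g x y => (cnt_smul g (p := fun z => ¬ O G z x z y)
          (q := fun z => ¬ O G z (g • x) z (g • y)) fun z => not_congr
          ⟨iv g _ _ _, fun h => by simpa using iv g⁻¹ _ _ _ h⟩).symm) (ht y)
    have h3 := sum_le_sum fun y (_ : y ∈ univ) => h1 y
    rw [cnt_swap] at h3
    have h4 : ∑ z : Ω, (n - N) ≤ _ := le_trans (sum_le_sum fun z _ => ?_) h3
    · simp only [sum_const, card_univ, smul_eq_mul, ← hn] at h4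
      have := Nat.le_of_mul_le_mul_left h4 (by omega)
      omega
    · have := cnt_compl (O G z a z)
      have := hmax (z, a)
      simp only at this
      omega
  obtain ⟨B, hB⟩ : ∃ B : ℕ → ℕ, ∀ t x, cnt (R G a b t x) = B t := ⟨fun t => cnt (R G a b t a),
    fun t x => by
      obtain ⟨g, rfl⟩ := exists_smul_eq G a x
      exact (cnt_smul g fun z => (R_iff g).symm).symm⟩
  obtain ⟨e, he⟩ : ∃ e : ℕ → ℕ, ∀ t, e t = cnt fun z => R G a b t a z ∧ ¬ R G a b t b z :=
    ⟨_, fun _ => rfl⟩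
  have he' : ∀ t, cnt (fun z => R G a b t b z ∧ ¬ R G a b t a z) = e t := fun t => by
    have h1 := cnt_split (R G a b t a) (R G a b t b)
    have h3 := cnt_split (R G a b t b) (R G a b t a)
    simp only [and_comm (a := R G a b t b _) (b := R G a b t a _)] at h3
    rw [hB] at h1 h3
    rw [he]; omega
  have F2 : ∀ {s x y} t, R G a b s x y →
      cnt (fun z => R G a b t x z ∧ ¬ R G a b t y z) ≤ s * e t := fun t h => he t ▸
    R_metric (fun x y => cnt fun z => R G a b t x z ∧ ¬ R G a b t y z)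
      (fun x => cnt_zero.2 fun z h => h.2 h.1) ((he' t).trans (he t))
      (fun x y w => cnt_le fun z h => by tauto)
      (fun g x y => (cnt_smul g fun z => by rw [R_iff, R_iff]).symm) h
  have F3 : ∀ T, 2 * ∑ t ∈ range T, e t ≤ d := fun T => by
    have hA : R G a b 1 a b := ⟨a, rfl, .inr ⟨1, by simp⟩⟩
    have key : ∀ s t z, s < t → ¬ (R G a b s a z ↔ R G a b s b z) →
        (R G a b t a z ↔ R G a b t b z) := fun s t z hst h => by
      by_cases h1 : R G a b s a z
      · exact iff_of_true (R_mono hst.le h1) (R_mono (by omega) (R_add.2 ⟨a, R_symm hA, h1⟩))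
      · have h3 : R G a b s b z := by tauto
        exact iff_of_true (R_mono (by omega) (R_add.2 ⟨b, hA, h3⟩)) (R_mono hst.le h3)
    have h1 := card_biUnion (s := range T)
      (t := fun t => univ.filter fun z => ¬ (R G a b t a z ↔ R G a b t b z))
      fun s _ t _ hst => disjoint_left.2 fun z h h' => by
        rcases Nat.lt_or_gt_of_ne hst with h3 | h3
        exacts [(mem_filter.1 h').2 (key _ _ _ h3 (mem_filter.1 h).2),
          (mem_filter.1 h).2 (key _ _ _ h3 (mem_filter.1 h').2)]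
    rw [mul_sum, hd]
    refine le_trans (sum_le_sum fun t _ => ?_) (h1.ge.trans (card_le_card fun z hz => ?_))
    · have h3 := cnt_split (fun z => ¬ (R G a b t a z ↔ R G a b t b z)) (R G a b t a)
      have h4 := cnt_mono (p := fun z => R G a b t a z ∧ ¬ R G a b t b z)
        (q := fun z => ¬ (R G a b t a z ↔ R G a b t b z) ∧ R G a b t a z) fun z => by tauto
      have h5 := cnt_mono (p := fun z => R G a b t b z ∧ ¬ R G a b t a z)
        (q := fun z => ¬ (R G a b t a z ↔ R G a b t b z) ∧ ¬ R G a b t a z) fun z => by tauto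
      rw [he'] at h5
      rw [← he] at h4
      refine (show 2 * e t ≤ cnt fun z => ¬ (R G a b t a z ↔ R G a b t b z) by omega).trans_eq ?_
      unfold cnt; congr
    · simp only [mem_biUnion, mem_filter, mem_univ, true_and] at hz ⊢
      obtain ⟨t, -, hz⟩ := hz
      rintro ⟨g, h3, h4⟩
      exact hz (by rw [← R_iff g, h3, h4])
  by_cases hc : 4 * N ≤ 3 * n
  · have hex : ∃ t, ∀ y, R G a b t a y := by
      choose f hf using conn a
      exact ⟨univ.sup f, fun y => R_mono (le_sup (mem_univ y)) (hf y)⟩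
    have h1 := F1 _ (Nat.find_spec hex)
    have h3 := F3 (Nat.find hex)
    have h4 : ∑ t ∈ range (Nat.find hex), 1 ≤ ∑ t ∈ range (Nat.find hex), e t :=
      sum_le_sum fun t ht => Nat.pos_of_ne_zero fun h0 => Nat.find_min hex (mem_range.1 ht) fun y => by
        obtain ⟨s, hs⟩ := conn y a
        have := F2 t hs
        rw [h0, mul_zero, Nat.le_zero, cnt_zero] at this
        by_contra h
        exact this y ⟨R_refl _ _, h⟩
    simp only [sum_const, card_range, smul_eq_mul, mul_one] at h4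
    nlinarith
  have hxy : x0 ≠ y0 := by
    rintro rfl
    have : N ≤ 1 := hN ▸ card_le_one.2 fun u hu v hv => by
      obtain ⟨g, h1, h3⟩ := (mem_filter.1 hu).2
      obtain ⟨k, h4, h5⟩ := (mem_filter.1 hv).2
      rw [← h3, ← h5, h1, h4]
    omega
  obtain ⟨u, hu, hmin⟩ : ∃ u, R G a b u x0 y0 ∧ ∀ t < u, ¬ R G a b t x0 y0 :=
    ⟨_, Nat.find_spec (conn x0 y0), fun t => Nat.find_min _⟩
  have hO : ∀ t x y, O G x0 y0 x y → (R G a b t x y ↔ R G a b t x0 y0) := by
    rintro t _ _ ⟨g, rfl, rfl⟩; exact R_iff g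
  obtain rfl | rfl | hu2 : u = 0 ∨ u = 1 ∨ 2 ≤ u := by omega
  · exact absurd hu hxy
  · have h1 := F1 2 fun y => by
      by_contra h
      have := cnt_mono (p := O G x0 y0 a) (q := fun z => ¬ O G x0 y0 y z) fun z h1 h3 =>
        h (R_add.2 ⟨z, (hO 1 _ _ h1).2 hu, R_symm ((hO 1 _ _ h3).2 hu)⟩)
      have := cnt_compl (O G x0 y0 y)
      simp only [hN'] at *
      omega
    have h3 : ∃ x y z, ¬ O G x0 y0 x y ∧ ¬ O G x0 y0 y z ∧ O G x0 y0 x z := by
      by_contra! h
      rcases triv hp (fun x y => ¬ O G x0 y0 x y) (fun g x y => (not_congr (O_iff g)).2)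
        (fun x ⟨g, h1, h3⟩ => hxy (smul_left_cancel g (h1.trans h3.symm))) h with h | h
      · obtain ⟨g, h1, h3⟩ : O G x0 y0 a b := not_not.1 fun h' => hab (h _ _ h')
        refine h2 fun x y hxy => ?_
        obtain ⟨k, h4, h5⟩ : O G x0 y0 x y := not_not.1 fun h' => hxy (h _ _ h')
        exact ⟨k * g⁻¹, by simp [mul_smul, ← h1, h4], by simp [mul_smul, ← h3, h5]⟩
      · exact h x0 y0 ⟨1, by simp⟩
    obtain ⟨x, y, z, e1, e2, g, e3, e4⟩ := h3
    have h4 : ∀ w, cnt (fun v => ¬ O G x0 y0 w v) = n - N := fun w => by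
      have := cnt_compl (O G x0 y0 w)
      rw [hN'] at this; omega
    have h5 := cnt_comp (p := fun v => ¬ O G x0 y0 x v) h4
    have h6 : cnt (fun w => ¬ ∃ v, ¬ O G x0 y0 x v ∧ ¬ O G x0 y0 v w) = 0 := cnt_zero.2 fun w hw => by
      by_cases h : O G x0 y0 x w
      · obtain ⟨k, e5, e6⟩ := h
        have e7 : (k * g⁻¹) • x = x := by simp [mul_smul, ← e3, e5.trans e3.symm]
        have e8 : (k * g⁻¹) • z = w := by simp [mul_smul, ← e4, e6]
        exact hw ⟨(k * g⁻¹) • y, by rwa [← e7, O_iff], by rwa [← e8, O_iff]⟩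
      · exact hw ⟨w, h, fun ⟨g, h1, h3⟩ => hxy (smul_left_cancel g (h1.trans h3.symm))⟩
    have h7 := cnt_compl fun w => ∃ v, ¬ O G x0 y0 x v ∧ ¬ O G x0 y0 v w
    rw [h4] at h5
    have h8 : n - N ≤ 2 * d := by omega
    nlinarith [Nat.mul_le_mul h8 h8]
  have G1 : ∀ t < u, 2 * B t ≤ 3 * (u * e t) := fun t ht => by
    have h1 := cnt_mono (p := R G a b t x0) (q := fun z => ¬ O G x0 y0 x0 z) fun z h h' =>
      hmin t ht ((hO _ _ _ h').1 h)
    have h3 := cnt_compl (O G x0 y0 x0)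
    rw [hB] at h1
    have h4 := cnt_swap fun y z => R G a b t x0 z ∧ R G a b t y z
    have h5 : ∑ z, cnt (fun y => R G a b t x0 z ∧ R G a b t y z) ≤ B t * B t := by
      rw [← hB t x0, ← cnt_sum, hB]
      refine sum_le_sum fun z _ => ?_
      split_ifs with h
      · exact hB t z ▸ cnt_mono fun y hy => R_symm hy.2
      · exact (cnt_zero.2 fun y hy => h hy.1).le
    have h6 : N * (B t - u * e t) ≤ ∑ y, cnt (fun z => R G a b t x0 z ∧ R G a b t y z) := by
      rw [hN, ← cnt_sum]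
      refine sum_le_sum fun y _ => ?_
      split_ifs with h
      · have := F2 t ((hO u _ _ h).2 hu)
        have := cnt_split (R G a b t x0) (R G a b t y)
        rw [hB] at this; omega
      · omega
    have h7 : 3 * B t ≤ N := by omega
    by_contra h8
    obtain ⟨k, hk⟩ : ∃ k, k = B t - u * e t := ⟨_, rfl⟩
    rw [← hk] at h6
    have h9 : B t < 3 * k := by omega
    nlinarith
  by_contra! hlt
  have G2 : ∀ i ∈ range (u - 1), 2 * d + 1 ≤ u * (e (i + 1) + e (u - 1 - 1 - i + 1)) := fun i hi => by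
    have hi := mem_range.1 hi
    have h1 := G1 (i + 1) (by omega)
    have h3 := G1 (u - 1 - 1 - i + 1) (by omega)
    have h4 := cnt_comp (p := R G a b (i + 1) x0) (hB (u - 1 - 1 - i + 1))
    have h5 := (cnt_mono (p := O G x0 y0 x0) fun z hz => R_add.1
      (R_mono (by omega) ((hO u _ _ hz).2 hu))).trans h4
    rw [hB, ← hN] at h5
    have h6 : 3 * (2 * d + 1) ≤ 2 * (B (i + 1) + B (u - 1 - 1 - i + 1)) := by
      refine Nat.le_of_not_lt fun h => ?_
      have := Nat.mul_self_lt_mul_self h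
      zify at *
      nlinarith [sq_nonneg ((B (i + 1) : ℤ) - B (u - 1 - 1 - i + 1))]
    rw [mul_add]; omega
  have h1 := sum_le_sum G2
  rw [← mul_sum, sum_add_distrib (f := fun i => e (i + 1)), sum_range_reflect (fun i => e (i + 1))] at h1
  have h3 := F3 u
  obtain ⟨v, rfl⟩ : ∃ v, u = v + 1 := ⟨u - 1, by omega⟩
  rw [sum_range_succ'] at h3
  simp only [sum_const, card_range, smul_eq_mul, Nat.add_sub_cancel] at h1
  nlinarith

theorem two_trans [Finite G] [DecidableEq Ω] (h2 : ∀ x y, x ≠ y → O G a b x y)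
    (S : Finset Ω) (hS : a ∉ S) (hc : #S ^ 2 + 1 < Fintype.card Ω) :
    ∃ h : G, h • a = a ∧ ∀ x ∈ S, h • x ∉ S := by
  classical
  have := Fintype.ofFinite G
  let c : Ω → Ω → ℕ := fun x y => #{h : G | h • a = a ∧ h • x = y}
  have h1 : ∀ x y y', a ≠ y → a ≠ y' → c x y = c x y' := fun x y y' hy hy' => by
    obtain ⟨g, e1, e2⟩ := h2 a y hy
    obtain ⟨k, e3, e4⟩ := h2 a y' hy'
    have e5 : (k * g⁻¹) • a = a := by rw [mul_smul, inv_smul_eq_iff.2 e1.symm, e3]
    have e6 : (k * g⁻¹) • y = y' := by rw [mul_smul, inv_smul_eq_iff.2 e2.symm, e4]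
    refine card_equiv (Equiv.mulLeft (k * g⁻¹)) fun h => ?_
    simp only [mem_filter, mem_univ, true_and, Equiv.coe_mulLeft]
    rw [mul_smul _ h, mul_smul _ h, ← e6, smul_left_cancel_iff]
    nth_rw 4 [← e5]
    rw [smul_left_cancel_iff]
  have h3 : ∀ x y, a ≠ y → (Fintype.card Ω - 1) * c x y ≤ #{h : G | h • a = a} := fun x y hy => by
    rw [card_eq_sum_card_fiberwise (f := fun h : G => h • x) (t := univ) fun _ _ => mem_univ _,
      ← card_univ, ← card_erase_of_mem (mem_univ a), ← smul_eq_mul, ← sum_const]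
    refine le_trans (sum_le_sum fun z hz => ?_) (sum_le_sum_of_subset (erase_subset a _))
    rw [h1 x y z hy (ne_of_mem_erase hz).symm, filter_filter]
  by_contra! h
  have h4 : #{h : G | h • a = a} ≤ ∑ p ∈ S ×ˢ S, c p.1 p.2 := by
    refine (card_le_card fun k hk => ?_).trans card_biUnion_le
    obtain ⟨x, e1, e2⟩ := h k (mem_filter.1 hk).2
    exact mem_biUnion.2 ⟨(x, k • x), mem_product.2 ⟨e1, e2⟩, by simpa using hk⟩
  have h5 := Nat.mul_le_mul_left (Fintype.card Ω - 1) h4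
  rw [mul_sum] at h5
  have h6 := h5.trans (sum_le_card_nsmul _ _ _ fun p hp =>
    h3 p.1 p.2 fun e => hS (e ▸ (mem_product.1 hp).2))
  rw [card_product, smul_eq_mul] at h6
  have := Nat.le_of_mul_le_mul_right h6 (card_pos.2 ⟨1, by simp⟩)
  rw [sq] at hc
  omega

end

/-- A classification-free minimal-degree bound. Let G be a finite group acting faithfully and primitively on a finite set Ω with n elements, and suppose that the image of G in the symmetric group on Ω does not contain the alternating group on Ω. Then every non-identity element of G moves at least (√n − 1)/2 points of Ω, that is, it fixes at most n − (√n − 1)/2 points. -/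
theorem result {G Ω : Type*} [Group G] [Finite G] [MulAction G Ω] [FaithfulSMul G Ω] [Fintype Ω] [DecidableEq Ω]
    (hprim : MulAction.IsPreprimitive G Ω)
    (hA : ¬ alternatingGroup Ω ≤ (MulAction.toPermHom G Ω).range)
    (g : G) (hg : g ≠ 1) :
    (Real.sqrt (Fintype.card Ω) - 1) / 2 ≤ (Fintype.card Ω : ℝ) - Nat.card (MulAction.fixedBy Ω g) := by
  obtain ⟨a, ha⟩ : ∃ a : Ω, a ≠ g • a := by
    by_contra! h
    exact hg (eq_of_smul_eq_smul fun a : Ω => by rw [← h, one_smul])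
  obtain ⟨m, hm⟩ : ∃ m, m = #(toPerm g : Equiv.Perm Ω).support := ⟨_, rfl⟩
  have h1 : Nat.card (fixedBy Ω g) + m = Fintype.card Ω := by
    rw [hm, Nat.card_eq_fintype_card, ← card_add_card_compl (toPerm g : Equiv.Perm Ω).support,
      add_comm, Fintype.card_subtype]
    congr 2
    ext; simp
  suffices h : Fintype.card Ω ≤ (2 * m + 1) ^ 2 by
    have h2 : √(Fintype.card Ω) ≤ 2 * m + 1 := Real.sqrt_le_iff.2 ⟨by positivity, by exact_mod_cast h⟩
    rw [← h1] at h2 ⊢
    push_cast at h2 ⊢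
    linarith
  by_cases h2 : ∀ x y, x ≠ y → O G a (g • a) x y
  · by_contra! h
    have ha' : a ∈ (toPerm g : Equiv.Perm Ω).support := by simpa using ha.symm
    obtain ⟨k, e1, e2⟩ := two_trans h2 _ (notMem_erase a (toPerm g : Equiv.Perm Ω).support) (by
      have := card_erase_le (s := (toPerm g : Equiv.Perm Ω).support) (a := a)
      have := card_pos.2 ⟨a, ha'⟩
      nlinarith)
    have h3 : IsPreprimitive (toPermHom G Ω).range Ω :=
      (isPreprimitive_congr (φ := (toPermHom G Ω).rangeRestrict)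
        (toPermHom G Ω).rangeRestrict_surjective (f := ⟨id, fun _ _ => rfl⟩)
        Function.bijective_id).1 hprim
    refine hA (Equiv.Perm.alternatingGroup_le_of_isPreprimitive_of_isThreeCycle_mem h3
      (Lib.Perm.isThreeCycle_commutator_of_support_inter (g := toPermHom G Ω (k⁻¹ * g * k)) ha' ?_
        fun y h4 h5 => ?_) ⟨g * (k⁻¹ * g * k) * g⁻¹ * (k⁻¹ * g * k)⁻¹, by
          simp only [map_mul _ _ (_⁻¹), map_mul _ g, map_inv]; rfl⟩)
    · simpa [mul_smul, e1, inv_smul_eq_iff] using ha.symm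
    · by_contra e
      refine e2 y (mem_erase.2 ⟨e, h4⟩) (mem_erase.2 ⟨fun e' => e ?_, ?_⟩)
      · exact smul_left_cancel k (e'.trans e1.symm)
      · simpa [mul_smul, inv_smul_eq_iff] using h5
  · refine (babai hprim ha h2).trans (Nat.pow_le_pow_left ?_ 2)
    have : cnt (fun z => ¬ O G z a z (g • a)) ≤ m := hm ▸ card_le_card fun z hz => by
      simp only [mem_filter, mem_univ, true_and] at hz
      simpa using fun e => hz ⟨g, e, rfl⟩
    omega

end Cfsg.Agent.S5713
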