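import Cfsg.Statements.S5729
import Cfsg.Agent.Perm.Derange2

set_option autoImplicit false
open Cfsg

namespace Cfsg.Agent.S5729

open Cfsg.Lib.Perm.Derange MulAction Finset

theorem sharp {G Ω : Type*} [Group G] [Finite G] [MulAction G Ω] [Fintype Ω]
    [IsPretransitive G Ω] (hn : 3 ≤ Fintype.card Ω) (h2 : IsMultiplyPretransitive G Ω 2)
    (h : ∀ g : G, g ≠ 1 → Nat.card (fixedBy Ω g) ≤ 1) :
    (∃ g : G, g ≠ 1 ∧ ∃ ω : Ω, g • ω = ω) ∧
      Nat.card G = Fintype.card Ω * (Fintype.card Ω - 1) ∧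
      Fintype.card Ω * Nat.card {g : G // ∀ ω : Ω, g • ω ≠ ω} = Nat.card G := by
  classical
  have := Fintype.ofFinite G
  obtain ⟨a, b, c, hab, hac, hbc⟩ := Fintype.two_lt_card_iff.mp hn
  have : Nontrivial Ω := ⟨a, b, hab⟩
  refine ⟨?_, ?_, ?_⟩
  · obtain ⟨g, h3, h4⟩ := is_two_pretransitive_iff.mp h2 hab hac
    refine ⟨g, ?_, a, h3⟩
    rintro rfl
    exact hbc (by simpa using h4)
  · have h3 := card_eq_of_two_transitive h2 hab
    rw [show (univ.filter fun g : G => g • a = a ∧ g • b = b) = {1} from ?_] at h3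
    · obtain ⟨n, hn⟩ := Nat.exists_eq_succ_of_ne_zero (n := Fintype.card Ω) (by omega)
      rw [card_singleton, Nat.cast_one, mul_one, hn, Nat.cast_succ, add_sub_cancel_right] at h3
      rw [hn]
      exact_mod_cast h3
    · refine eq_singleton_iff_unique_mem.mpr ⟨by simp, fun g hg => ?_⟩
      by_contra hg1
      exact (h g hg1).not_gt (Finite.one_lt_card_iff_nontrivial.mpr
        ⟨⟨a, (mem_filter.mp hg).2.1⟩, ⟨b, (mem_filter.mp hg).2.2⟩,
          fun h => hab (congrArg Subtype.val h)⟩)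
  · have h3 := rank_mul_card_eq h
    rw [rank_eq_two h2, Nat.card_eq_fintype_card (α := Ω)] at h3
    omega


/-- Let a finite group G act faithfully and transitively on a set with n ≥ 3 points. Then either G is a Frobenius permutation group (Frobenius as a permutation group: transitive, some non-identity element fixes a point, and no non-identity element fixes two points) of order n(n − 1) and exactly |G|/n of its elements are derangements (fix no point), or the number of derangements is greater than |G|/n. -/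
theorem result {G Ω : Type*} [Group G] [Finite G] [MulAction G Ω] [FaithfulSMul G Ω] [Fintype Ω] (htr : MulAction.IsPretransitive G Ω) (hn : 3 ≤ Fintype.card Ω) :
    ((MulAction.IsPretransitive G Ω ∧ (∃ g : G, g ≠ 1 ∧ ∃ ω : Ω, g • ω = ω) ∧ ∀ g : G, g ≠ 1 → Nat.card (MulAction.fixedBy Ω g) ≤ 1) ∧ Nat.card G = Fintype.card Ω * (Fintype.card Ω - 1) ∧ Fintype.card Ω * Nat.card {g : G // ∀ ω : Ω, g • ω ≠ ω} = Nat.card G) ∨
    Nat.card G < Fintype.card Ω * Nat.card {g : G // ∀ ω : Ω, g • ω ≠ ω} := by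
  have : Nontrivial Ω := Fintype.one_lt_card_iff_nontrivial.mp (by omega)
  have h0 : 0 < Nat.card G := Nat.card_pos
  by_cases h2 : IsMultiplyPretransitive G Ω 2
  · by_cases h : ∀ g : G, g ≠ 1 → Nat.card (fixedBy Ω g) ≤ 1
    · obtain ⟨h3, h4, h5⟩ := sharp hn h2 h
      exact Or.inl ⟨⟨htr, h3, h⟩, h4, h5⟩
    · push Not at h
      obtain ⟨g, hg, h⟩ := h
      have h3 := rank_mul_card_lt hg h
      rw [rank_eq_two h2, Nat.card_eq_fintype_card (α := Ω)] at h3
      omega
  · have h3 := (Nat.mul_le_mul_right _ (three_le_rank h2)).trans rank_mul_card_le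
    rw [Nat.card_eq_fintype_card (α := Ω)] at h3
    omega

end Cfsg.Agent.S5729
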