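import Cfsg.Statements.S5730
import Cfsg.Agent.Perm.Derange3
import Cfsg.Agent.Perm.PrimeDeg2
import Cfsg.Agent.Perm.CycleLemmas
import Cfsg.Agent.S5729

set_option autoImplicit false
open Cfsg

namespace Cfsg.Agent.S5730

open Cfsg.Lib.Perm Cfsg.Lib.Perm.Derange MulAction Finset
open scoped Pointwise

section
variable {G Ω : Type*} [Group G] [MulAction G Ω] [Fintype G] [Fintype Ω] [DecidableEq Ω]

omit [Fintype Ω] in
theorem card_filter_st (a b : Ω) :
    (univ.filter fun g : G => g • a = a ∧ g • b = b).card = Nat.card (st G a b) := by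
  classical
  rw [← card_filter_mem]
  congr

theorem est_sum (a b : Ω) (φ : ℕ → ℚ)
    (hφ : ∀ g ∈ st G a b, g ≠ 1 → φ (Nat.card (fixedBy Ω g)) ≤ (Nat.card (fixedBy Ω g) : ℚ)⁻¹) :
    ∑ g ∈ univ.filter fun g : G => g • a = a ∧ g • b = b, φ (Nat.card (fixedBy Ω g)) +
      ((Fintype.card Ω : ℚ)⁻¹ - φ (Fintype.card Ω)) ≤
    ∑ g ∈ univ.filter fun g : G => g • a = a ∧ g • b = b, (Nat.card (fixedBy Ω g) : ℚ)⁻¹ := by
  classical
  have h1 : (1 : G) ∈ univ.filter fun g : G => g • a = a ∧ g • b = b := by simp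
  rw [← add_sum_erase _ _ h1, ← add_sum_erase _ _ h1, fixedBy_one_eq_univ, Nat.card_univ,
    Nat.card_eq_fintype_card]
  have h2 := sum_le_sum fun g (hg : g ∈ (univ.filter fun g : G => g • a = a ∧ g • b = b).erase 1) =>
    hφ g (mem_filter.mp (mem_of_mem_erase hg)).2 (ne_of_mem_erase hg)
  linarith

omit [Fintype G] [DecidableEq Ω] in
theorem fix_pos {a b : Ω} {g : G} (hg : g ∈ st G a b) : (0 : ℚ) < Nat.card (fixedBy Ω g) := by
  have : Nonempty (fixedBy Ω g) := ⟨⟨a, hg.1⟩⟩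
  exact Nat.cast_pos.mpr Nat.card_pos

theorem est_one (a b : Ω) (μ : ℚ) (hμ : 0 < μ)
    (h : ∀ g ∈ st G a b, g ≠ 1 → (Nat.card (fixedBy Ω g) : ℚ) ≤ μ)
    (h' : (2 * Nat.card (st G a b) - 1) * μ ≤ (Nat.card (st G a b) - 1) * Fintype.card Ω) :
    2 * (Nat.card (st G a b) : ℚ) ≤ Fintype.card Ω *
      ∑ g ∈ univ.filter fun g : G => g • a = a ∧ g • b = b, (Nat.card (fixedBy Ω g) : ℚ)⁻¹ := by
  have h1 := est_sum (G := G) a b (fun _ => μ⁻¹) fun g hg hg1 =>
    inv_anti₀ (fix_pos hg) (h g hg hg1)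
  have hn : (0 : ℚ) < Fintype.card Ω := Nat.cast_pos.mpr (Fintype.card_pos_iff.mpr ⟨a⟩)
  rw [sum_const, card_filter_st, nsmul_eq_mul] at h1
  refine le_trans ?_ (mul_le_mul_of_nonneg_left h1 hn.le)
  field_simp
  linarith

theorem est_two (a b : Ω)
    (h' : 4 * (Nat.card (orbitRel.Quotient (st G a b) Ω) * Nat.card (st G a b)) ≤
      2 * (Fintype.card Ω * Nat.card (st G a b)) + Fintype.card Ω) :
    2 * (Nat.card (st G a b) : ℚ) ≤ Fintype.card Ω *
      ∑ g ∈ univ.filter fun g : G => g • a = a ∧ g • b = b, (Nat.card (fixedBy Ω g) : ℚ)⁻¹ := by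
  classical
  have hn : (0 : ℚ) < Fintype.card Ω := Nat.cast_pos.mpr (Fintype.card_pos_iff.mpr ⟨a⟩)
  have h1 := est_sum (G := G) a b (fun f => 4 * (Fintype.card Ω - f) / (Fintype.card Ω) ^ 2)
    fun g hg _ => by
      have := fix_pos hg
      rw [div_le_iff₀ (by positivity)]
      field_simp
      nlinarith [sq_nonneg ((Fintype.card Ω : ℚ) - 2 * Nat.card (fixedBy Ω g))]
  have h2 : ∑ g ∈ univ.filter fun g : G => g • a = a ∧ g • b = b, Nat.card (fixedBy Ω g) =
      Nat.card (orbitRel.Quotient (st G a b) Ω) * Nat.card (st G a b) := by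
    rw [← burnside_sub]
    congr
  simp only [← sum_div, ← mul_sum, sum_sub_distrib, sum_const, card_filter_st, nsmul_eq_mul,
    ← Nat.cast_sum, h2, sub_self, mul_zero, zero_div, sub_zero] at h1
  refine le_trans ?_ (mul_le_mul_of_nonneg_left h1 hn.le)
  have h3 : (4 * (Nat.card (orbitRel.Quotient (st G a b) Ω) * Nat.card (st G a b)) : ℚ) ≤
      2 * (Fintype.card Ω * Nat.card (st G a b)) + Fintype.card Ω := by exact_mod_cast h'
  push_cast
  field_simp
  linarith

omit [Fintype G] [DecidableEq Ω] in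
theorem mem_big {x y z : Ω} {g : G} (hg : g ∈ st G x y) (h3 : g ^ 3 = 1) (hz : g • z ≠ z) :
    z ∈ big G x y := by
  have h1 : g • g • z ≠ z := fun h => hz (by
    conv_lhs => rw [← h, ← mul_smul, ← mul_smul, ← pow_three', h3, one_smul])
  refine (Set.two_lt_ncard_iff).mpr ⟨z, g • z, g • g • z, mem_orbit_self z, ⟨⟨g, hg⟩, rfl⟩,
    ⟨⟨g * g, mul_mem hg hg⟩, mul_smul _ _ _⟩, hz.symm, h1.symm, ?_⟩
  exact fun h => hz (smul_left_cancel g h).symm

omit [DecidableEq Ω] in
theorem exists_big [FaithfulSMul G Ω] (h2 : IsMultiplyPretransitive G Ω 2)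
    (hn : 7 ≤ Fintype.card Ω) {a b z : Ω} (hz : z ∈ big G a b) :
    (big G a b).ncard > 3 ∨ ∃ x y : Ω, x ≠ y ∧ 3 < (big G x y).ncard := by
  classical
  by_contra! h
  obtain ⟨hab, h⟩ := h
  have h1 : orbit (st G a b) z ⊆ big G a b := fun w hw => by
    change 3 ≤ _
    rw [orbit_eq_iff.mpr hw]
    exact hz
  have h3 : (orbit (st G a b) z).ncard = 3 := le_antisymm ((Set.ncard_le_ncard h1).trans hab) hz
  have := Fact.mk Nat.prime_three
  obtain ⟨⟨g, hg⟩, hg3⟩ := exists_prime_orderOf_dvd_card' (G := st G a b) 3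
    (Dvd.intro_left _ (h3 ▸ card_inf_mul (st G a b) z))
  rw [← Subgroup.orderOf_coe] at hg3
  change orderOf g = 3 at hg3
  have hg4 : g ^ 3 = 1 := hg3 ▸ pow_orderOf_eq_one g
  let S : Set Ω := {w | g • w ≠ w}
  have hS : S.ncard ≤ 3 := (Set.ncard_le_ncard fun w hw => mem_big hg hg4 hw).trans hab
  obtain ⟨x, hx⟩ : ∃ x, g • x ≠ x := by
    by_contra! h'
    rw [show g = 1 from eq_of_smul_eq_smul (α := Ω) fun x => by rw [h', one_smul]] at hg3
    simp at hg3
  have hcompl : ∀ T : Set Ω, T.ncard ≤ 5 → ∃ u v, u ∉ T ∧ v ∉ T ∧ u ≠ v := by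
    intro T hT
    refine (Set.one_lt_ncard_iff (s := Tᶜ)).mp ?_
    rw [Set.ncard_compl, Nat.card_eq_fintype_card]
    omega
  obtain ⟨w, -, hw, -⟩ := hcompl S (by omega)
  have hxw : x ≠ w := by
    rintro rfl
    exact hw hx
  obtain ⟨k, hk1, hk2⟩ := is_two_pretransitive_iff.mp h2 hx.symm hxw
  have h4 : ∀ u, (k * g * k⁻¹) • u ≠ u ↔ u ∈ k • S := by
    intro u
    rw [Set.mem_smul_set_iff_inv_smul_mem, mul_smul, mul_smul, ne_eq, smul_eq_iff_eq_inv_smul]
    rfl
  have h5 : (S ∪ k • S).ncard ≤ 5 := by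
    have h6 := Set.ncard_union_add_ncard_inter S (k • S)
    have h7 : 0 < (S ∩ k • S).ncard := (Set.ncard_pos).mpr ⟨x, hx, x, hx, hk1⟩
    rw [Set.ncard_smul_set] at h6
    omega
  obtain ⟨u, v, hu, hv, huv⟩ := hcompl _ h5
  rw [Set.mem_union, not_or, ← h4] at hu hv
  have h6 : g ∈ st G u v := ⟨not_not.mp hu.1, not_not.mp hv.1⟩
  have h7 : k * g * k⁻¹ ∈ st G u v := ⟨not_not.mp hu.2, not_not.mp hv.2⟩
  have hx' : g • g • x ≠ g • x := fun h => hx (smul_left_cancel g h)
  have hx'' : g • g • g • x ≠ g • g • x := fun h => hx' (smul_left_cancel g h)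
  have h8 : g • g • x ≠ x := fun h => hx (by
    conv_lhs => rw [← h, ← mul_smul, ← mul_smul, ← pow_three', hg4, one_smul])
  refine (h u v huv).not_gt ((Set.three_lt_ncard_iff).mpr ⟨x, g • x, g • g • x, w,
    mem_big h6 hg4 hx, mem_big h6 hg4 hx', mem_big h6 hg4 hx'', mem_big h7 ?_ ?_, hx.symm, h8.symm,
    hxw, hx'.symm, ?_, ?_⟩)
  · rw [conj_pow, hg4]
    simp
  · exact (h4 w).mpr ⟨_, hx', hk2⟩
  · rintro rfl
    exact hw hx'
  · rintro rfl
    exact hw hx''

omit [DecidableEq Ω] in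
theorem card_ne [FaithfulSMul G Ω] [IsPretransitive G Ω] (hn : Fintype.card Ω = 7) :
    Nat.card G ≠ 84 := by
  intro h
  have := Fact.mk (by norm_num : Nat.Prime 7)
  let G' := (toPermHom G Ω).range
  have : IsPretransitive G' Ω := ⟨fun x y => by
    obtain ⟨g, hg⟩ := exists_smul_eq G x y
    exact ⟨⟨_, g, rfl⟩, hg⟩⟩
  have h1 : Nat.card G' = 84 :=
    (Nat.card_congr (MonoidHom.ofInjective toPerm_injective).toEquiv).symm.trans h
  obtain ⟨P⟩ : Nonempty (Sylow 7 G') := inferInstance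
  obtain ⟨d, hd, h2⟩ := card_normalizer_sylow_prime_degree hn G' P
  have h3 := card_sylow_modEq_one 7 G'
  have h3' : (Subgroup.normalizer ((P : Subgroup G') : Set G')).index % 7 = 1 := by
    rwa [P.card_eq_index_normalizer] at h3
  have h4 := (Subgroup.normalizer ((P : Subgroup G') : Set G')).card_mul_index
  rw [h1, h2] at h4
  have h5 := Nat.le_of_dvd (by norm_num) hd
  interval_cases d <;> omega

theorem main [FaithfulSMul G Ω] [IsPretransitive G Ω] (h2 : IsMultiplyPretransitive G Ω 2)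
    (hn : 7 ≤ Fintype.card Ω) {a b : Ω} (hab : a ≠ b) (hH : 2 ≤ Nat.card (st G a b)) :
    ∃ x y : Ω, x ≠ y ∧ 2 * (Nat.card (st G x y) : ℚ) ≤ Fintype.card Ω *
      ∑ g ∈ univ.filter fun g : G => g • x = x ∧ g • y = y, (Nat.card (fixedBy Ω g) : ℚ)⁻¹ := by
  have hφ : 2 ≤ (line G a b).ncard :=
    (Set.one_lt_ncard_iff).mpr ⟨a, b, left_mem_line a b, right_mem_line a b, hab⟩
  have hf : ∀ g : G, g ≠ 1 →
      Nat.card (fixedBy Ω g) * ((line G a b).ncard - 1) + 1 ≤ Fintype.card Ω := by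
    intro g hg
    obtain ⟨y, hy⟩ : ∃ y : Ω, g • y ≠ y := by
      by_contra! h'
      exact hg (eq_of_smul_eq_smul (α := Ω) fun x => by rw [h', one_smul])
    obtain ⟨N, h3, h4⟩ := exists_num_lines h2 hab y
    have := Nat.mul_le_mul_right ((line G a b).ncard - 1) (h4 g hy)
    omega
  have hH' : (2 : ℚ) ≤ Nat.card (st G a b) := by exact_mod_cast hH
  have hn' : (7 : ℚ) ≤ Fintype.card Ω := by exact_mod_cast hn
  -- the case without long suborbits
  have hsmall : (∀ x y z : Ω, x ≠ y → z ∉ big G x y) → 3 * (line G a b).ncard ≤ Fintype.card Ω →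
      2 * (Nat.card (st G a b) : ℚ) ≤ Fintype.card Ω *
      ∑ g ∈ univ.filter fun g : G => g • a = a ∧ g • b = b, (Nat.card (fixedBy Ω g) : ℚ)⁻¹ := by
    intro hB h3
    have h4 := le_antisymm (card_st_le_two h2 (fun x y z hxy => Nat.lt_succ_iff.mp
      (not_le.mp (hB x y z hxy))) hab) hH
    refine est_one a b (line G a b).ncard (by positivity) (fun g hg hg1 => ?_) ?_
    · rw [Nat.cast_le, Nat.card_coe_set_eq]
      refine Set.ncard_le_ncard fun x hx k hk => ?_
      obtain ⟨u, -, hu⟩ := (Nat.card_eq_two_iff' (1 : st G a b)).mp h4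
      by_cases hk1 : k = 1
      · rw [hk1, one_smul]
      · have h5 := (hu ⟨k, hk⟩ fun h => hk1 (congrArg Subtype.val h)).trans
          (hu ⟨g, hg⟩ fun h => hg1 (congrArg Subtype.val h)).symm
        rw [show k = g from congrArg Subtype.val h5]
        exact hx
    · rw [h4]
      have : (3 * (line G a b).ncard : ℚ) ≤ Fintype.card Ω := by exact_mod_cast h3
      push_cast
      linarith
  rcases lt_trichotomy (line G a b).ncard 3 with h3 | h3 | h3
  · have h4 : (line G a b).ncard = 2 := by omega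
    by_cases hB : ∀ x y z : Ω, x ≠ y → z ∉ big G x y
    · exact ⟨a, b, hab, hsmall hB (by omega)⟩
    push Not at hB
    obtain ⟨x, y, z, hxy, hz⟩ := hB
    obtain ⟨u, v, huv, h5⟩ : ∃ x y : Ω, x ≠ y ∧ 3 < (big G x y).ncard :=
      (exists_big h2 hn hz).elim (fun h => ⟨x, y, hxy, h⟩) id
    have h6 := six_mul_le (G := G) u v
    rw [ncard_line h2 hab huv, h4] at h6
    have h7 : 2 * Nat.card (orbitRel.Quotient (st G u v) Ω) ≤ Fintype.card Ω := by omega
    exact ⟨u, v, huv, est_two u v (by nlinarith)⟩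
  · rw [h3] at hf
    by_cases h4 : Fintype.card Ω + 1 ≤ 2 * Nat.card (st G a b)
    · refine ⟨a, b, hab, est_one a b ((Fintype.card Ω - 1) / 2) (by linarith)
        (fun g _ hg => ?_) ?_⟩
      · have : (Nat.card (fixedBy Ω g) * 2 + 1 : ℚ) ≤ Fintype.card Ω := by exact_mod_cast hf g hg
        linarith
      · have : (Fintype.card Ω + 1 : ℚ) ≤ 2 * Nat.card (st G a b) := by exact_mod_cast h4
        nlinarith
    obtain ⟨N, h5, -⟩ := exists_num_lines h2 hab a
    rw [h3] at h5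
    by_cases hB : ∀ x y z : Ω, x ≠ y → z ∉ big G x y
    · refine ⟨a, b, hab, hsmall hB ?_⟩
      by_contra h6
      have h7 : Fintype.card Ω = 7 := by omega
      have h8 := le_antisymm (card_st_le_two h2 (fun x y z hxy => Nat.lt_succ_iff.mp
        (not_le.mp (hB x y z hxy))) hab) hH
      have h9 := card_eq_of_two_transitive h2 hab
      rw [card_filter_st, h8, h7] at h9
      refine card_ne (G := G) h7 (Nat.cast_injective (R := ℚ) (h9.trans ?_))
      norm_num
    push Not at hB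
    obtain ⟨x, y, z, hxy, hz⟩ := hB
    have h6 := six_mul_le (G := G) x y
    have h7 : 0 < (big G x y).ncard := (Set.ncard_pos).mpr ⟨z, hz⟩
    rw [ncard_line h2 hab hxy, h3] at h6
    have h8 : 2 * Nat.card (orbitRel.Quotient (st G x y) Ω) ≤ Fintype.card Ω + 1 := by omega
    rw [← card_st h2 hab hxy] at h4
    exact ⟨x, y, hxy, est_two x y (by nlinarith)⟩
  · refine ⟨a, b, hab, est_one a b ((Fintype.card Ω - 1) / 3) (by linarith)
      (fun g _ hg => ?_) ?_⟩
    · have h4 : Nat.card (fixedBy Ω g) * 3 + 1 ≤ Fintype.card Ω :=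
        le_trans (Nat.succ_le_succ (Nat.mul_le_mul_left _ (by omega))) (hf g hg)
      have : (Nat.card (fixedBy Ω g) * 3 + 1 : ℚ) ≤ Fintype.card Ω := by exact_mod_cast h4
      linarith
    · nlinarith

end


/-- Let a finite group G act faithfully and transitively on a set with n ≥ 7 points. Then either G is a Frobenius permutation group (Frobenius as a permutation group: transitive, some non-identity element fixes a point, and no non-identity element fixes two points) of order n(n − 1)/a with a ∈ {1, 2}, in which case exactly a|G|/n of its elements are derangements, or the number of derangements is at least 2|G|/n. (Equality does occur: PSL₃(2) acting on the 7 points of the Fano plane has exactly 2|G|/7 derangements.) -/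
theorem result {G Ω : Type*} [Group G] [Finite G] [MulAction G Ω] [FaithfulSMul G Ω] [Fintype Ω] (htr : MulAction.IsPretransitive G Ω) (hn : 7 ≤ Fintype.card Ω) :
    (∃ a : ℕ, (a = 1 ∨ a = 2) ∧ (MulAction.IsPretransitive G Ω ∧ (∃ g : G, g ≠ 1 ∧ ∃ ω : Ω, g • ω = ω) ∧ ∀ g : G, g ≠ 1 → Nat.card (MulAction.fixedBy Ω g) ≤ 1) ∧ a * Nat.card G = Fintype.card Ω * (Fintype.card Ω - 1) ∧ Fintype.card Ω * Nat.card {g : G // ∀ ω : Ω, g • ω ≠ ω} = a * Nat.card G) ∨
    2 * Nat.card G ≤ Fintype.card Ω * Nat.card {g : G // ∀ ω : Ω, g • ω ≠ ω} := by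
  classical
  have := Fintype.ofFinite G
  by_cases h2 : IsMultiplyPretransitive G Ω 2
  · by_cases h : ∀ g : G, g ≠ 1 → Nat.card (fixedBy Ω g) ≤ 1
    · obtain ⟨h3, h4, h5⟩ := S5729.sharp (by omega) h2 h
      exact Or.inl ⟨1, Or.inl rfl, ⟨htr, h3, h⟩, by rw [one_mul, h4], by rw [one_mul, h5]⟩
    right
    push Not at h
    obtain ⟨g, hg, h⟩ := h
    obtain ⟨⟨a, ha⟩, ⟨b, hb⟩, hab⟩ := Finite.one_lt_card_iff_nontrivial.mp h
    obtain ⟨x, y, hxy, h3⟩ := main h2 hn (fun h => hab (Subtype.ext h))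
      (Finite.one_lt_card_iff_nontrivial.mpr ⟨⟨g, ha, hb⟩, 1, fun h => hg (congrArg Subtype.val h)⟩)
    have h4 := card_eq_of_two_transitive h2 hxy
    have h5 := card_der_of_two_transitive h2 hxy
    rw [card_filter_st] at h4
    have hn' : (7 : ℚ) ≤ Fintype.card Ω := by exact_mod_cast hn
    have h6 := mul_le_mul_of_nonneg_left h3
      (mul_nonneg (by linarith) (by linarith) : (0 : ℚ) ≤ Fintype.card Ω * (Fintype.card Ω - 1))
    have h7 : (2 * Nat.card G : ℚ) ≤ Fintype.card Ω * Nat.card {g : G // ∀ ω : Ω, g • ω ≠ ω} := by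
      rw [h4, h5]
      linarith
    exact_mod_cast h7
  · have : Nonempty Ω := Fintype.card_pos_iff.mp (by omega)
    have h3 := (Nat.mul_le_mul_right _ (three_le_rank h2)).trans rank_mul_card_le
    rw [Nat.card_eq_fintype_card (α := Ω)] at h3
    omega

end Cfsg.Agent.S5730
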