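import Cfsg.Statements.S5737
import Cfsg.Agent.Chev.SuzukiBinary

set_option autoImplicit false
open Cfsg

namespace Cfsg.Agent.S5737

open Cfsg.Lib.Chev

theorem center_Pat {F : Type*} [Field F] {τ : Tw F} {G : Type*} [Group G] (M : SzModel τ G) (p : M.Pt)
    {S : Subgroup G} (hS : S = M.Pat p) : (Subgroup.center S).map S.subtype = M.Zat p := by
  subst hS
  obtain ⟨k, rfl⟩ := M.exists_smul_inf p
  rw [← M.conjModel_P, ← M.conjModel_Z, SzModel.center_P, Subgroup.subgroupOf_map_subtype,
    inf_eq_left.mpr (SzModel.Z_le_P _)]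

theorem main {F : Type*} [Field F] [Fintype F] {τ : Tw F} {G : Type*} [Group G] (M : SzModel τ G)
    (H : Subgroup G) (hH : H ≠ ⊤) : IsBinary G (G ⧸ H) ↔
      (H = ⊥ ∨ ∃ P : Sylow 2 G, H = (Subgroup.center (P : Subgroup G)).map (P : Subgroup G).subtype) := by
  have := M.finite
  have key : ∀ α : G ⧸ H, ∃ g : G, MulAction.stabilizer G α = H.map (MulAut.conj g).toMonoidHom := by
    intro α
    obtain ⟨g, rfl⟩ := QuotientGroup.mk_surjective α
    refine ⟨g, ?_⟩
    rw [show ((g : G) : G ⧸ H) = g • ((1 : G) : G ⧸ H) by simp, MulAction.stabilizer_smul_eq_stabilizer_map_conj,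
      MulAction.stabilizer_quotient]
  constructor
  · intro hb
    have h := M.stabilizer_of_isBinary hb ((1 : G) : G ⧸ H) (by rwa [MulAction.stabilizer_quotient])
    rw [MulAction.stabilizer_quotient] at h
    rcases h with h | ⟨p, h⟩
    · exact Or.inl h
    · exact Or.inr ⟨M.sylowAt p, h.trans (center_Pat M p rfl).symm⟩
  · rintro (h | ⟨P, h⟩)
    · refine isBinary_of_stabilizer_eq_bot fun α => ?_
      obtain ⟨g, hg⟩ := key α
      rw [hg, h, Subgroup.map_bot]
    · obtain ⟨p, hp⟩ := M.exists_sylow_eq P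
      refine M.isBinary_of_stabilizer fun α => ?_
      obtain ⟨g, hg⟩ := key α
      exact ⟨g • p, by rw [hg, h, center_Pat M p hp, M.Zat_smul]⟩

/-- Let G = Sz(q) be a Suzuki group, q = 2^(2a+1) with a ≥ 1 (realised inside Sp₄ over the field with q elements), and let H be a proper subgroup of G. Then the action of G on the cosets of H is binary if and only if H is trivial or H is the centre of a Sylow 2-subgroup of G. Here an action is binary (relational complexity 2) when, for every n ≥ 2 and all n-tuples I, J of points, if for every pair of positions some group element carries the corresponding pair of entries of I to those of J, then a single group element carries I to J. -/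
theorem result {F : Type*} [Field F] [Fintype F] (a : ℕ) (ha : 1 ≤ a) (hF : Fintype.card F = 2 ^ (2 * a + 1))
    (H : Subgroup (Cfsg.Lie.Sz F (2 ^ (a + 1)))) (hH : H ≠ ⊤) :
    (∀ (n : ℕ) (I J : Fin n → (Cfsg.Lie.Sz F (2 ^ (a + 1))) ⧸ H), 2 ≤ n →
        (∀ i j : Fin n, i ≠ j → ∃ g : (Cfsg.Lie.Sz F (2 ^ (a + 1))), g • I i = J i ∧ g • I j = J j) → ∃ g : (Cfsg.Lie.Sz F (2 ^ (a + 1))), ∀ i, g • I i = J i) ↔
      (H = ⊥ ∨ ∃ P : Sylow 2 (Cfsg.Lie.Sz F (2 ^ (a + 1))), H = (Subgroup.center (P : Subgroup (Cfsg.Lie.Sz F (2 ^ (a + 1))))).map (P : Subgroup (Cfsg.Lie.Sz F (2 ^ (a + 1)))).subtype) := by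
  exact main (lieSzModel ha hF) H hH

end Cfsg.Agent.S5737
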