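import Cfsg.Statements.S5736
import Cfsg.Agent.Chev.BinaryL2

set_option autoImplicit false
open Cfsg

namespace Cfsg.Agent.S5736

open Cfsg.Lib.Chev Cfsg.Lib.Known.GL2

/-- Let F be a finite field with q ≥ 4 elements, q ≠ 5, let G = PSL₂(F) and let H be a proper subgroup of G. Then the action of G on the cosets of H is binary if and only if H is trivial, or q is a power of 2 and H is a Sylow 2-subgroup, or q = 2^a with a odd and H has order 3. Here an action is binary (relational complexity 2) when, for every n ≥ 2 and all n-tuples I, J of points, if for every pair of positions some group element carries the corresponding pair of entries of I to those of J, then a single group element carries I to J. -/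
theorem result {F : Type*} [Field F] [Fintype F] (h4 : 4 ≤ Fintype.card F) (h5 : Fintype.card F ≠ 5)
    (H : Subgroup (Matrix.ProjectiveSpecialLinearGroup (Fin 2) F)) (hH : H ≠ ⊤) :
    (∀ (n : ℕ) (I J : Fin n → Matrix.ProjectiveSpecialLinearGroup (Fin 2) F ⧸ H), 2 ≤ n →
        (∀ i j : Fin n, i ≠ j → ∃ g : Matrix.ProjectiveSpecialLinearGroup (Fin 2) F, g • I i = J i ∧ g • I j = J j) → ∃ g : Matrix.ProjectiveSpecialLinearGroup (Fin 2) F, ∀ i, g • I i = J i) ↔
      (H = ⊥ ∨ ((∃ a : ℕ, Fintype.card F = 2 ^ a) ∧ ∃ P : Sylow 2 (Matrix.ProjectiveSpecialLinearGroup (Fin 2) F), H = P) ∨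
        ((∃ a : ℕ, Odd a ∧ Fintype.card F = 2 ^ a) ∧ Nat.card H = 3)) := by
  have := finite_PSL2 (F := F)
  have := Matrix.ProjectiveSpecialLinearGroup.rank_two_simple (F := F) (by rwa [Nat.card_eq_fintype_card])
  have hpow : (2 : F) = 0 → ∃ a : ℕ, Fintype.card F = 2 ^ a := fun h2 => by
    have := CharTwo.of_one_ne_zero_of_two_eq_zero one_ne_zero h2
    obtain ⟨n, -, hn⟩ := FiniteField.card F 2
    exact ⟨n, hn⟩
  have htwo : ∀ a : ℕ, Fintype.card F = 2 ^ a → (2 : F) = 0 := fun a ha =>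
    two_eq_zero_of_even_card (ha ▸ Nat.even_pow.2 ⟨even_two, by rintro rfl; omega⟩)
  have hC : (2 : F) = 0 → InvCent (PSL2 F) := fun h2 => (invCent_SL2 h2).of_equiv (equivPSL h2).symm
  refine ⟨fun hb : IsBinary _ (PSL2 F ⧸ H) => or_iff_not_imp_left.2 fun hne => ?_,
    fun h => show IsBinary _ (PSL2 F ⧸ H) from ?_⟩
  · rcases Nat.even_or_odd (Nat.card H) with he | ho
    · obtain ⟨-, -, M, t, Q, hS, hQ⟩ := hb.exists_setup (fun _ _ => isConj_of_orderOf_two_PSL) hH he
      have h2 := two_eq_zero_of_setup h4 h5 hS hQ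
      exact Or.inl ⟨hpow h2, hb.exists_sylow (hC h2) (fun _ _ => isConj_of_orderOf_two_PSL) hH he⟩
    · obtain ⟨h2, hω, h3⟩ := hb.card_eq_three hne ho
      obtain ⟨a, ha⟩ := hpow h2
      exact Or.inr ⟨⟨a, (no_root_iff ha).1 hω, ha⟩, h3⟩
  · rcases h with rfl | ⟨⟨a, ha⟩, P, rfl⟩ | ⟨⟨a, ho, ha⟩, h3⟩
    · exact isBinary_quotient_of_no_triangle fun a b c x y _ _ _ _ _ => by simp [cj]
    · exact (hC (htwo a ha)).isBinary P
    · exact isBinary_of_card_three (htwo a ha) ((no_root_iff ha).2 ho) h3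

end Cfsg.Agent.S5736
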