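import Cfsg.Statements.S5739
import Cfsg.Agent.Class.Singer

set_option autoImplicit false
open Cfsg

namespace Cfsg.Agent.S5739

open Cfsg.Lib.Class

/-- Let F ⊆ K be finite fields with |F| = q and [K : F] = n ≥ 2, and let M ≤ GL_F(K) be the Singer group of multiplications by non-zero elements of K. If g ∈ GL_F(K) does not normalise M, then the order of M ∩ gMg⁻¹ divides q^r − 1 for some proper divisor r of n. In particular, when n is prime, that order divides q − 1. -/
theorem result {F K : Type*} [Field F] [Fintype F] [Field K] [Fintype K] [Algebra F K] (n : ℕ) (hn : 2 ≤ n) (hdim : Module.finrank F K = n)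
    (g : (Module.End F K)ˣ) (hg : ((Units.map ((Algebra.lmul F K : K →ₐ[F] Module.End F K) : K →* Module.End F K)).range).map (MulAut.conj g).toMonoidHom ≠ (Units.map ((Algebra.lmul F K : K →ₐ[F] Module.End F K) : K →* Module.End F K)).range) :
    ∃ r : ℕ, 1 ≤ r ∧ r ∣ n ∧ r < n ∧ Nat.card ↥(((Units.map ((Algebra.lmul F K : K →ₐ[F] Module.End F K) : K →* Module.End F K)).range).map (MulAut.conj g).toMonoidHom ⊓ (Units.map ((Algebra.lmul F K : K →ₐ[F] Module.End F K) : K →* Module.End F K)).range) ∣ Fintype.card F ^ r - 1 := by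
  have : Finite (Module.End F K) := Finite.of_injective _ DFunLike.coe_injective
  let c : Module.End F K →ₐ[F] Module.End F K :=
    AlgHom.ofLinearMap
      ((LinearMap.mulLeft F (g : Module.End F K)) ∘ₗ (LinearMap.mulRight F ((g⁻¹ : (Module.End F K)ˣ) : Module.End F K)))
      (by simp) (fun x y ↦ by simp [mul_assoc])
  have hc : ∀ x, c x = g * (x * (g⁻¹ : (Module.End F K)ˣ)) := fun x ↦ rfl
  let L₀ : Subalgebra F K := ((c.comp (Algebra.lmul F K)).range).comap (Algebra.lmul F K)
  let L : IntermediateField F K := L₀.toIntermediateField' L₀.isField_of_algebraic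
  have hL : ∀ k : K, k ∈ L ↔ ∃ k', c (Algebra.lmul F K k') = Algebra.lmul F K k := fun k ↦ Iff.rfl
  have hdvd : Module.finrank F L ∣ n := hdim ▸ Dvd.intro _ (Module.finrank_mul_finrank F L K)
  refine ⟨Module.finrank F L, Module.finrank_pos, hdvd, ?_, ?_⟩
  · refine lt_of_le_of_ne (Nat.le_of_dvd (by omega) hdvd) fun h ↦ hg ?_
    have htop : L = ⊤ := by
      apply IntermediateField.eq_of_le_of_finrank_eq le_top
      rw [h, IntermediateField.finrank_top', hdim]
    symm
    apply Subgroup.eq_of_le_of_card_ge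
    · intro x hx
      obtain ⟨k, hk⟩ := (mem_singer_iff x).1 hx
      obtain ⟨k', hk'⟩ := (hL k).1 (htop ▸ IntermediateField.mem_top)
      refine ⟨g⁻¹ * x * g, (mem_singer_iff _).2 ⟨k', ?_⟩, by simp [mul_assoc]⟩
      rw [Units.val_mul, Units.val_mul, hk, ← hk', hc]
      simp [mul_assoc]
    · exact (Subgroup.card_map_of_injective (MulAut.conj g).injective).le
  · let φ : Lˣ →* (Module.End F K)ˣ :=
      Units.map (((Algebra.lmul F K).comp L.val : L →ₐ[F] Module.End F K) : L →* Module.End F K)
    have h1 : Nat.card Lˣ = Fintype.card F ^ Module.finrank F L - 1 := by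
      rw [Nat.card_units, Module.natCard_eq_pow_finrank (K := F), Nat.card_eq_fintype_card]
    rw [← h1]
    refine (Subgroup.card_dvd_of_le (K := φ.range) ?_).trans (Subgroup.card_range_dvd φ)
    rintro x ⟨⟨y, hy, hyx⟩, hx⟩
    obtain ⟨k, hk⟩ := (mem_singer_iff x).1 hx
    obtain ⟨k', hk'⟩ := (mem_singer_iff y).1 hy
    have hkL : k ∈ L := (hL k).2 ⟨k', by
      rw [← hk', ← hk, hc, ← hyx]; simp [mul_assoc]⟩
    have h0 : (⟨k, hkL⟩ : L) ≠ 0 := by
      intro h
      have : k = 0 := congrArg Subtype.val h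
      exact x.ne_zero (by rw [hk, this, map_zero])
    exact ⟨Units.mk0 _ h0, Units.ext hk.symm⟩

end Cfsg.Agent.S5739
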