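import Cfsg.Statements.S5747
import Mathlib.GroupTheory.Perm.Fin
import Mathlib.GroupTheory.Index
import Mathlib.Tactic

set_option autoImplicit false
open Cfsg

namespace Cfsg.Agent.S5747

section
variable {G Ω : Type*} [Group G] [MulAction G Ω]

/-- base -/
def Base (H : Subgroup G) {t : ℕ} (f : Fin t → Ω) : Prop :=
  ∀ g ∈ H, (∀ i, g • f i = f i) → g = 1

/-- irredundant base -/
def Irr (H : Subgroup G) {t : ℕ} (f : Fin t → Ω) : Prop :=
  Base H f ∧ ∀ i, ∃ g ∈ H, (∀ j, j < i → g • f j = f j) ∧ g • f i ≠ f i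

theorem base_cons {H : Subgroup G} {t : ℕ} {a : Ω} {f : Fin t → Ω} :
    Base H (Fin.cons a f : Fin (t + 1) → Ω) ↔ Base (H ⊓ MulAction.stabilizer G a) f := by
  simp only [Base, Fin.forall_fin_succ, Fin.cons_zero, Fin.cons_succ, Subgroup.mem_inf,
    MulAction.mem_stabilizer_iff]
  exact forall_congr' fun g => by tauto

theorem irr_cons {H : Subgroup G} {t : ℕ} {a : Ω} {f : Fin t → Ω} :
    Irr H (Fin.cons a f : Fin (t + 1) → Ω) ↔
      (∃ g ∈ H, g • a ≠ a) ∧ Irr (H ⊓ MulAction.stabilizer G a) f := by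
  simp only [Irr, base_cons, Fin.forall_fin_succ, Fin.cons_zero, Fin.cons_succ, Subgroup.mem_inf,
    MulAction.mem_stabilizer_iff, Fin.succ_lt_succ_iff, Fin.succ_pos, Fin.not_lt_zero,
    forall_const, IsEmpty.forall_iff, true_and, and_assoc, implies_true]
  tauto

theorem exists_irr {t : ℕ} : ∀ {H : Subgroup G} {f : Fin t → Ω}, Base H f →
    Irr H f ∨ ∃ s < t, ∃ m : Fin s → Ω, Irr H m := by
  induction t with
  | zero => exact fun h => .inl ⟨h, fun i => i.elim0⟩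
  | succ t ih =>
    intro H f h
    rw [← Fin.cons_self_tail f] at h ⊢
    by_cases ha : ∃ g ∈ H, g • f 0 ≠ f 0
    · rcases ih (base_cons.1 h) with h1 | ⟨s, hs, m, h1⟩
      · exact .inl (irr_cons.2 ⟨ha, h1⟩)
      · exact .inr ⟨s + 1, by omega, _, irr_cons.2 ⟨ha, h1⟩⟩
    · push Not at ha
      have h1 := base_cons.1 h
      rw [inf_eq_left.2 ha] at h1
      rcases ih h1 with h1 | ⟨s, hs, m, h1⟩
      · exact .inr ⟨t, by omega, _, h1⟩
      · exact .inr ⟨s, by omega, m, h1⟩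

theorem exists_irr' {t : ℕ} {H K : Subgroup G} {f : Fin t → Ω} (h : Base H f) (hK : K ≤ H) :
    ∃ s, ∃ m : Fin s → Ω, Irr K m := by
  rcases exists_irr (H := K) (f := f) (fun g hg => h g (hK hg)) with h1 | ⟨s, -, h1⟩
  · exact ⟨t, f, h1⟩
  · exact ⟨s, h1⟩

/-- reordering property -/
def Reord (H : Subgroup G) (Ω : Type*) [MulAction G Ω] : Prop :=
  ∀ (t : ℕ) (f : Fin t → Ω) (σ : Equiv.Perm (Fin t)), Irr H f → Irr H (f ∘ σ)

theorem Reord.stab {H : Subgroup G} (h : Reord H Ω) {a : Ω} (ha : ∃ g ∈ H, g • a ≠ a) :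
    Reord (H ⊓ MulAction.stabilizer G a) Ω := fun t f σ hf => by
  have := h _ _ (Equiv.Perm.decomposeFin.symm (0, σ)) (irr_cons.2 ⟨ha, hf⟩)
  have e : (Fin.cons a f : Fin (t + 1) → Ω) ∘ (Equiv.Perm.decomposeFin.symm (0, σ)) =
      Fin.cons a (f ∘ σ) := by
    funext i
    refine Fin.cases ?_ (fun i => ?_) i <;> simp
  rw [e] at this
  exact (irr_cons.1 this).2

theorem Reord.swap {H : Subgroup G} (h : Reord H Ω) {a b : Ω} {t : ℕ} {f : Fin t → Ω}
    (hf : Irr H (Fin.cons a (Fin.cons b f) : Fin (t + 2) → Ω)) :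
    Irr H (Fin.cons b (Fin.cons a f) : Fin (t + 2) → Ω) := by
  have := h _ _ (Equiv.swap 0 1) hf
  have e : (Fin.cons a (Fin.cons b f) : Fin (t + 2) → Ω) ∘ (Equiv.swap 0 1) =
      Fin.cons b (Fin.cons a f) := by
    funext i
    refine Fin.cases ?_ (fun i => Fin.cases ?_ (fun i => ?_) i) i
    · simp
    · simp
    · rw [Function.comp, Equiv.swap_apply_of_ne_of_ne (Fin.succ_ne_zero _)
        (Fin.succ_succ_ne_one _)]
      simp
  rwa [e] at this

theorem len_eq {t : ℕ} : ∀ {H : Subgroup G} {s : ℕ} {f : Fin t → Ω} {m : Fin s → Ω},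
    Reord H Ω → Irr H f → Irr H m → t = s := by
  induction t using Nat.strong_induction_on with
  | _ t ih =>
  intro H s f m hR hf hm
  have zero : ∀ {t s : ℕ} {f : Fin t → Ω} {m : Fin s → Ω}, Irr H f → Irr H m → t = 0 → s = 0 := by
    rintro _ s f m hf hm rfl
    by_contra hs
    obtain ⟨g, hg, -, h1⟩ := hm.2 ⟨0, by omega⟩
    exact h1 (by rw [hf.1 g hg fun i => i.elim0, one_smul])
  rcases t with _ | t
  · exact (zero hf hm rfl).symm
  rcases s with _ | s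
  · exact zero hm hf rfl
  rw [← Fin.cons_self_tail f] at hf
  rw [← Fin.cons_self_tail m] at hm
  obtain ⟨ha, hf'⟩ := irr_cons.1 hf
  obtain ⟨hb, hm'⟩ := irr_cons.1 hm
  have key : ∀ {a b : Ω}, (∃ g ∈ H, g • a ≠ a) → (∃ g ∈ H ⊓ MulAction.stabilizer G a, g • b ≠ b) →
      ∃ r, ∃ n : Fin r → Ω, Irr (H ⊓ MulAction.stabilizer G a) (Fin.cons b n : Fin (r + 1) → Ω) ∧
        Irr (H ⊓ MulAction.stabilizer G b) (Fin.cons a n : Fin (r + 1) → Ω) := fun {a b} h1 h2 => by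
    obtain ⟨r, n, hn⟩ := exists_irr' (K := H ⊓ MulAction.stabilizer G a ⊓ MulAction.stabilizer G b)
      hf.1 (inf_le_left.trans inf_le_left)
    have h3 := irr_cons.2 ⟨h2, hn⟩
    exact ⟨r, n, h3, (irr_cons.1 (hR.swap (irr_cons.2 ⟨h1, h3⟩))).2⟩
  have fin : ∀ {r} {n n' : Fin (r + 1) → Ω}, Irr (H ⊓ MulAction.stabilizer G (f 0)) n →
      Irr (H ⊓ MulAction.stabilizer G (m 0)) n' → t + 1 = s + 1 := fun {r n n'} h1 h2 => by
    have e1 := ih t (by omega) (hR.stab ha) hf' h1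
    have e2 := ih (r + 1) (by omega) (hR.stab hb) h2 hm'
    omega
  by_cases h1 : ∃ g ∈ H ⊓ MulAction.stabilizer G (f 0), g • m 0 ≠ m 0
  · obtain ⟨r, n, h2, h3⟩ := key ha h1
    exact fin h2 h3
  by_cases h2 : ∃ g ∈ H ⊓ MulAction.stabilizer G (m 0), g • f 0 ≠ f 0
  · obtain ⟨r, n, h2, h3⟩ := key hb h2
    exact fin h3 h2
  push Not at h1 h2
  have e : H ⊓ MulAction.stabilizer G (m 0) = H ⊓ MulAction.stabilizer G (f 0) :=
    le_antisymm (le_inf inf_le_left h2) (le_inf inf_le_left h1)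
  rw [e] at hm'
  rw [ih t (by omega) (hR.stab ha) hf' hm']

end

/-- Let a finite group G act on a finite set Ω. An irredundant base is a sequence of points ω₁, …, ω_t whose pointwise stabiliser is trivial and in which each ω_i is moved by some element fixing ω₁, …, ω_{i−1}. Then all irredundant bases have the same length if and only if every reordering of an irredundant base is again an irredundant base. -/
theorem result {G Ω : Type*} [Group G] [Finite G] [MulAction G Ω] [Fintype Ω] :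
    (∀ (t t' : ℕ) (f : Fin t → Ω) (f' : Fin t' → Ω), ((∀ g : G, (∀ i : Fin t, g • f i = f i) → g = 1) ∧ ∀ i : Fin t, ∃ g : G, (∀ j : Fin t, j < i → g • f j = f j) ∧ g • f i ≠ f i) → ((∀ g : G, (∀ i : Fin t', g • f' i = f' i) → g = 1) ∧ ∀ i : Fin t', ∃ g : G, (∀ j : Fin t', j < i → g • f' j = f' j) ∧ g • f' i ≠ f' i) → t = t') ↔
    (∀ (t : ℕ) (f : Fin t → Ω) (σ : Equiv.Perm (Fin t)), ((∀ g : G, (∀ i : Fin t, g • f i = f i) → g = 1) ∧ ∀ i : Fin t, ∃ g : G, (∀ j : Fin t, j < i → g • f j = f j) ∧ g • f i ≠ f i) → ((∀ g : G, (∀ i : Fin t, g • (f ∘ σ) i = (f ∘ σ) i) → g = 1) ∧ ∀ i : Fin t, ∃ g : G, (∀ j : Fin t, j < i → g • (f ∘ σ) j = (f ∘ σ) j) ∧ g • (f ∘ σ) i ≠ (f ∘ σ) i)) := by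
  have conv : ∀ (t : ℕ) (f : Fin t → Ω), ((∀ g : G, (∀ i : Fin t, g • f i = f i) → g = 1) ∧
      ∀ i : Fin t, ∃ g : G, (∀ j : Fin t, j < i → g • f j = f j) ∧ g • f i ≠ f i) ↔
      Irr (⊤ : Subgroup G) f := fun t f => by simp [Irr, Base]
  simp only [conv]
  refine ⟨fun h t f σ hf => ?_, fun h t t' f f' hf hf' => len_eq h hf hf'⟩
  have hb : Base (⊤ : Subgroup G) (f ∘ σ) := fun g hg h1 => hf.1 g hg fun i => by
    simpa using h1 (σ.symm i)
  rcases exists_irr hb with h1 | ⟨s, hs, m, h1⟩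
  · exact h1
  · exact absurd (h _ _ _ _ hf h1) hs.ne'

end Cfsg.Agent.S5747
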