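import Cfsg.Statements.S5751
import Mathlib
import Cfsg.Agent.Known.CoreChain
import Cfsg.Agent.Chev.StructMat
import Cfsg.Agent.Chev.CoreAll

set_option autoImplicit false
open Cfsg

namespace Cfsg.Agent.S5751

open Cfsg.Lie Cfsg.Lib.Chev Cfsg.Lib.Chev.Core Cfsg.Lib.Known

theorem chk : ∀ r < 240, Cfsg.Lib.Chev.certE8.rcN chevE8 r 3 ≤ 6 ∧
    (2 ≤ Cfsg.Lib.Chev.certE8.rcN chevE8 r 3 → chevE8.cartan 3 r ≤ 1) := by decide +kernel

/-- An extremal example for iterated cores of conjugate maximal subgroups: there exist a finite group G and two distinct conjugate maximal subgroups M₁, M₂ of G, with M₁ having trivial core in G, such that, if we define two descending sequences of subgroups by A₀ = M₁, B₀ = M₂ and, for every i, A_{i+1} = the core in M₁ of A_i ∩ B_i and B_{i+1} = the core in M₂ of A_i ∩ B_i (the core in M of a subgroup Y ≤ M is the largest normal subgroup of M contained in Y), the subgroup A₆ is trivial while A₅ is not (so the index 6 cannot be lowered to 5). (One example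 is a maximal parabolic subgroup of the Chevalley group of type E₈ over a finite field and a suitable conjugate of it.) -/
theorem result :
    ∃ (G : Type) (_ : Group G) (_ : Finite G) (M₁ M₂ : Subgroup G) (g : G) (A B : ℕ → Subgroup G),
      IsCoatom M₁ ∧ M₂ = M₁.map (MulAut.conj g).toMonoidHom ∧ M₁ ≠ M₂ ∧ M₁.normalCore = ⊥ ∧ A 0 = M₁ ∧ B 0 = M₂ ∧
      (∀ i, A (i + 1) = ((A i ⊓ B i).subgroupOf M₁).normalCore.map M₁.subtype) ∧
      (∀ i, B (i + 1) = ((A i ⊓ B i).subgroupOf M₂).normalCore.map M₂.subtype) ∧ A 6 = ⊥ ∧ A 5 ≠ ⊥ := by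
  let c : Fin chevE8.rank := ⟨3, by decide⟩
  obtain ⟨M₁, M₂, g, A, B, h⟩ := CChain.main (n := 4) (c := c)
    (Core.certE8.faithful (ZMod 2) rootE8) (eq_bot_iff.2 fun g hg => by
      obtain ⟨c, rfl⟩ := Core.certE8.hSub_le_range rootE8 hg
      rw [Subsingleton.elim c 1, map_one]
      exact one_mem _) rootE8.weyl_connected (by decide +kernel)
    (fun r hr h => (rootE8.weyl_a c (rootE8.weyl_mem.1 hr)).trans_le ((chk r (rootE8.weyl_mem.1 hr)).2 h))
    (fun r hr => (chk r (rootE8.weyl_mem.1 hr)).1)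
    ⟨239, rootE8.weyl_mem.2 (by decide), show Cfsg.Lib.Chev.certE8.rcN chevE8 239 3 = 6 by decide +kernel⟩
  exact ⟨_, inferInstance, inferInstance, M₁, M₂, g, A, B, h⟩

end Cfsg.Agent.S5751
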