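import Cfsg.Statements.S5752
import Cfsg.Agent.Perm.TW

set_option autoImplicit false
open Cfsg

namespace Cfsg.Agent.S5752

open Subgroup Cfsg.Lib.Perm Cfsg.Lib.Solv Cfsg.Lib.Trans Cfsg.Lib.Local MulAction


/-- A form of the Thompson–Wielandt Theorem on primitive permutation groups. Let G be a finite group and M₁, M₂ two distinct conjugate maximal subgroups of G with trivial core in G; define two descending sequences of subgroups by A₀ = M₁, B₀ = M₂ and, for every i, A_{i+1} = the core in M₁ of A_i ∩ B_i and B_{i+1} = the core in M₂ of A_i ∩ B_i (the core in M of a subgroup Y ≤ M is the largest normal subgroup of M contained in Y). If A₂ and B₂ are both non-trivial, then for some prime p the subgroup generated by A₂ and B₂ is a p-group, and for each j the generalized Fitting subgroups of M_j and of its first core (A₁, resp. B₁) are their largest normal p-subgroups. -/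
theorem result {G : Type*} [Group G] [Finite G] (M₁ M₂ : Subgroup G) (hmax : IsCoatom M₁) (g : G)
    (hconj : M₂ = M₁.map (MulAut.conj g).toMonoidHom) (hne : M₁ ≠ M₂) (hcore : M₁.normalCore = ⊥)
    (A B : ℕ → Subgroup G) (hA0 : A 0 = M₁) (hB0 : B 0 = M₂)
    (hA : ∀ i, A (i + 1) = ((A i ⊓ B i).subgroupOf M₁).normalCore.map M₁.subtype)
    (hB : ∀ i, B (i + 1) = ((A i ⊓ B i).subgroupOf M₂).normalCore.map M₂.subtype) (hA2 : A 2 ≠ ⊥) (hB2 : B 2 ≠ ⊥) :
    ∃ p : ℕ, p.Prime ∧ IsPGroup p ↥(A 2 ⊔ B 2) ∧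
      Cfsg.generalizedFittingSubgroup ↥M₁ = Cfsg.pCore p ↥M₁ ∧ Cfsg.generalizedFittingSubgroup ↥(A 1) = Cfsg.pCore p ↥(A 1) ∧
      Cfsg.generalizedFittingSubgroup ↥M₂ = Cfsg.pCore p ↥M₂ ∧ Cfsg.generalizedFittingSubgroup ↥(B 1) = Cfsg.pCore p ↥(B 1) := by
  have h : PrimPair M₁ M₂ := ⟨hne, normalizer_le_of_isCoatom hmax hcore, g, hconj⟩
  have a1 : A 1 = coreIn M₁ M₂ := by rw [hA, hA0, hB0]; exact coreIn_inf_self M₁ M₂
  have b1 : B 1 = coreIn M₂ M₁ := by rw [hB, hA0, hB0]; exact coreIn_inf_self' M₂ M₁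
  have key : ∀ H K : Subgroup G, coreIn H (coreIn H K ⊓ coreIn K H) = coreIn H (coreIn K H) :=
    fun H K => le_antisymm (coreIn_mono H inf_le_right) (le_coreIn (coreIn_le_left _ _)
      (le_inf (coreIn_mono H (coreIn_le_left _ _)) (coreIn_le_right _ _)) (le_normalizer_coreIn _ _))
  have a2 : A 2 = coreIn M₁ (coreIn M₂ M₁) := by rw [hA, a1, b1]; exact key M₁ M₂
  have b2 : B 2 = coreIn M₂ (coreIn M₁ M₂) := by rw [hB, a1, b1, inf_comm]; exact key M₂ M₁
  rw [a2] at hA2
  rw [b2] at hB2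
  obtain ⟨p, hp, h1, h2, h3, h4⟩ := h.thompson_wielandt hA2 hB2
  have := Fact.mk hp
  have sub : ∀ H K : Subgroup G, generalizedFittingSubgroup H = pCore p H →
      generalizedFittingSubgroup (coreIn H K) = pCore p (coreIn H K) := fun H K e =>
    (genFitting_eq_pCore_congr (subgroupOfEquivOfLe (coreIn_le_left H K))).1
      (genFitting_eq_pCore_of_isSubnormal e
        (isSubnormal_subgroupOf_of_le_normalizer (le_normalizer_coreIn H K)))
  rw [a2, b2, a1, b1]
  refine ⟨p, hp, isPGroup_sup h1 h2 ?_, h3, sub _ _ h3, h4, sub _ _ h4⟩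
  exact ((coreIn_le_right _ _).trans (coreIn_le_left _ _)).trans (le_normalizer_coreIn _ _)

end Cfsg.Agent.S5752
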