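import Cfsg.Statements.S5753
import Cfsg.Agent.Class.Bin.D
import Mathlib.GroupTheory.GroupAction.Primitive

set_option autoImplicit false
open Cfsg

namespace Cfsg.Agent.S5753

open Cfsg.Lib.Class.Bin in
theorem trans_of_normal {G Ω : Type*} [Group G] [MulAction G Ω] [FaithfulSMul G Ω]
    [MulAction.IsPreprimitive G Ω] (M : Subgroup G) [M.Normal] (hM : M ≠ ⊥) (x y : Ω) :
    ∃ m ∈ M, m • x = y := by
  have : MulAction.IsPretransitive M Ω :=
    MulAction.IsQuasiPreprimitive.isPretransitive_of_normal fun h => hM (by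
      rw [Subgroup.eq_bot_iff_forall]
      intro m hm
      exact eq_of_smul_eq_smul (α := Ω) fun ω => by
        rw [one_smul]
        exact (h ▸ Set.mem_univ ω : ω ∈ MulAction.fixedPoints M Ω) ⟨m, hm⟩)
  obtain ⟨m, hm⟩ := MulAction.exists_smul_eq M x y
  exact ⟨m, m.2, hm⟩

theorem bin_all {G Ω : Type*} [Group G] [MulAction G Ω]
    (hbin : ∀ (n : ℕ) (I J : Fin n → Ω), 2 ≤ n →
      (∀ i j : Fin n, i ≠ j → ∃ g : G, g • I i = J i ∧ g • I j = J j) → ∃ g : G, ∀ i, g • I i = J i)
    {ι : Type*} [Finite ι] (I J : ι → Ω) (h : ∀ i j, ∃ g : G, g • I i = J i ∧ g • I j = J j) :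
    ∃ g : G, ∀ i, g • I i = J i := by
  rcases isEmpty_or_nonempty ι with h0 | h0
  · exact ⟨1, fun i => h0.elim i⟩
  let e := (Finite.equivFin (ι × Bool)).symm
  obtain ⟨g, hg⟩ := hbin _ (fun i => I (e i).1) (fun i => J (e i).1) (by
    have : 0 < Nat.card ι := Nat.card_pos
    rw [Nat.card_prod, Nat.card_eq_fintype_card (α := Bool), Fintype.card_bool]
    omega) fun i j _ => h _ _
  exact ⟨g, fun i => by simpa using hg (e.symm (i, true))⟩

/-- Conjugation action of a subgroup on a normal subgroup, written additively. -/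
@[reducible] def conjAct {G : Type*} [Group G] (N H : Subgroup G) [N.Normal] :
    DistribMulAction H (Additive N) where
  smul h v := Additive.ofMul (MulAut.conjNormal (h : G) v.toMul)
  one_smul v := by
    show Additive.ofMul (MulAut.conjNormal ((1 : H) : G) v.toMul) = v
    simp
  mul_smul h k v := by
    show Additive.ofMul (MulAut.conjNormal ((h * k : H) : G) v.toMul) =
      Additive.ofMul (MulAut.conjNormal (h : G) (MulAut.conjNormal (k : G) v.toMul))
    simp
  smul_zero h := by
    show Additive.ofMul (MulAut.conjNormal (h : G) 1) = 0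
    simp
  smul_add h v w := by
    show Additive.ofMul (MulAut.conjNormal (h : G) (v.toMul * w.toMul)) =
      Additive.ofMul (MulAut.conjNormal (h : G) v.toMul) +
        Additive.ofMul (MulAut.conjNormal (h : G) w.toMul)
    simp

open Cfsg.Lib.Class.Bin
open scoped IsMulCommutative

/-- The binary primitive permutation groups of affine type (the known proof uses the classification of the finite simple groups). Let a finite group G act faithfully and primitively on a finite set Ω, with a non-trivial abelian normal subgroup, and suppose the action is binary: for every n ≥ 2 and all n-tuples I, J of points, if for every pair of positions some element of G carries the corresponding pair of entries of I to those of J, then a single element carries I to J. Then either Ω has a prime number of points and every point stabilizer has order at most 2, or Ω can be identified with a field E that is a quadratic extension of a subfield F in such a way that the permutations induced by G are exactly the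 maps x ↦ a·φ(x) + b with a ∈ E of norm 1 over F, φ an automorphism of E over F and b ∈ E (the affine group of the anisotropic plane orthogonal group). -/
theorem result {G Ω : Type*} [Group G] [Finite G] [MulAction G Ω] [FaithfulSMul G Ω] [Fintype Ω]
    (hprim : MulAction.IsPreprimitive G Ω)
    (haff : ∃ N : Subgroup G, N.Normal ∧ N ≠ ⊥ ∧ IsMulCommutative ↥N)
    (hbin : ∀ (n : ℕ) (I J : Fin n → Ω), 2 ≤ n →
      (∀ i j : Fin n, i ≠ j → ∃ g : G, g • I i = J i ∧ g • I j = J j) → ∃ g : G, ∀ i, g • I i = J i) :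
    ((Fintype.card Ω).Prime ∧ ∀ ω : Ω, Nat.card ↥(MulAction.stabilizer G ω) ≤ 2) ∨
    (∃ (F E : Type) (_ : Field F) (_ : Fintype F) (_ : Field E) (_ : Fintype E) (_ : Algebra F E) (e : Ω ≃ E),
        Module.finrank F E = 2 ∧
        ∀ σ : Equiv.Perm Ω, σ ∈ (MulAction.toPermHom G Ω).range ↔
          ∃ (a b : E) (φ : E ≃ₐ[F] E), Algebra.norm F a = 1 ∧ ∀ ω : Ω, e (σ ω) = a * φ (e ω) + b) := by
  obtain ⟨N, hN, hN0, hNc⟩ := haff
  obtain ⟨⟨n0, hn0⟩, hn1⟩ := Subgroup.ne_bot_iff_exists_ne_one.1 hN0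
  obtain ⟨ω0⟩ : Nonempty Ω := by
    by_contra h
    exact hn1 (Subtype.ext (eq_of_smul_eq_smul (α := Ω) fun ω => (h ⟨ω⟩).elim))
  let H := MulAction.stabilizer G ω0
  let _ := conjAct N H
  have : Nontrivial (Additive N) := ⟨Additive.ofMul ⟨n0, hn0⟩, 0, hn1⟩
  let o : Additive N → Ω := fun v => (v.toMul : G) • ω0
  have o1 : ∀ (h : H) (v : Additive N), o (h • v) = (h : G) • o v := fun h v => by
    show ((h : G) * v.toMul * (h : G)⁻¹) • ω0 = (h : G) • (v.toMul : G) • ω0
    rw [mul_smul, mul_smul, show (h : G)⁻¹ • ω0 = ω0 from h⁻¹.2]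
  have o2 : ∀ v w : Additive N, o (v + w) = (w.toMul : G) • o v := fun v w => by
    rw [add_comm]; exact mul_smul _ _ _
  have osurj : Function.Surjective o := fun ω => by
    obtain ⟨m, hm, h⟩ := trans_of_normal N hN0 ω0 ω
    exact ⟨Additive.ofMul ⟨m, hm⟩, h⟩
  have oinj : Function.Injective o := fun v w h => by
    refine Additive.toMul.injective (Subtype.ext (eq_of_smul_eq_smul (α := Ω) fun ω => ?_))
    obtain ⟨x, rfl⟩ := osurj ω
    rw [← o2, ← o2, add_comm, o2, h, ← o2, add_comm]
  have dec : ∀ g : G, ∃ (h : H) (b : Additive N), g = (b.toMul : G) * h := fun g => by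
    obtain ⟨b, hb⟩ := osurj (g • ω0)
    exact ⟨⟨(b.toMul : G)⁻¹ * g, by
      rw [MulAction.mem_stabilizer_iff, mul_smul, ← hb, inv_smul_smul]⟩, b, by simp⟩
  have o3 : ∀ (h : H) (b v : Additive N), ((b.toMul : G) * h) • o v = o (h • v + b) :=
    fun h b v => by rw [o2, o1, mul_smul]
  have hom : Hom H (Additive N) := fun S φ hS => by
    obtain ⟨g, hg⟩ := bin_all hbin (fun x : S => o x) (fun x : S => o (φ x)) fun x y => by
      obtain ⟨h, hh⟩ := hS x x.2 y y.2
      refine ⟨((φ y - h • y.1).toMul : G) * h, ?_, ?_⟩ <;> rw [o3] <;> congr 1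
      · rw [smul_sub] at hh
        calc _ = (h • x.1 - h • y.1) + φ y := by abel
          _ = _ := by rw [hh]; abel
      · abel
    obtain ⟨h, b, rfl⟩ := dec g
    exact ⟨h, b, fun x hx => oinj ((hg ⟨x, hx⟩).symm.trans (o3 _ _ _))⟩
  have irr : Irr H (Additive N) := fun W hW => by
    let M : Subgroup G := (AddSubgroup.toSubgroup' W).map N.subtype
    have : M.Normal := ⟨by
      rintro _ ⟨m, hm, rfl⟩ g
      obtain ⟨h, b, rfl⟩ := dec g
      refine ⟨(h • Additive.ofMul m).toMul, hW h _ hm, ?_⟩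
      have := congrArg Subtype.val (mul_comm b.toMul (h • Additive.ofMul m).toMul)
      change (b.toMul : G) * ((h : G) * m * (h : G)⁻¹) = (h : G) * m * (h : G)⁻¹ * b.toMul at this
      change (h : G) * m * (h : G)⁻¹ = (b.toMul : G) * h * m * ((b.toMul : G) * h)⁻¹
      calc _ = (h : G) * m * (h : G)⁻¹ * b.toMul * (b.toMul : G)⁻¹ := by group
        _ = _ := by rw [← this]; group⟩
    refine or_iff_not_imp_left.2 fun h0 => eq_top_iff.2 fun v _ => ?_
    obtain ⟨_, ⟨m, hm, rfl⟩, h⟩ := trans_of_normal M (fun h => h0 (by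
      rw [AddSubgroup.eq_bot_iff_forall]
      intro w hw
      exact Subtype.ext (Subgroup.mem_bot.1 (h ▸ (⟨w.toMul, hw, rfl⟩ : (w.toMul : G) ∈ M))))) ω0 (o v)
    exact oinj (h : o (Additive.ofMul m) = o v) ▸ hm
  have faith : ∀ h : H, (∀ v : Additive N, h • v = v) → h = 1 := fun h hh =>
    Subtype.ext (eq_of_smul_eq_smul (α := Ω) fun ω => by
      obtain ⟨v, rfl⟩ := osurj ω
      rw [← o1, hh, OneMemClass.coe_one, one_smul])
  let oe : Additive N ≃ Ω := Equiv.ofBijective o ⟨oinj, osurj⟩
  rcases main hom irr faith with ⟨h1, h2⟩ | ⟨E, _, _, e, φ, M⟩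
  · refine Or.inl ⟨by rwa [← Nat.card_eq_fintype_card, ← Nat.card_congr oe], fun ω => ?_⟩
    have e1 := (MulAction.stabilizer G ω).card_mul_index
    rw [← H.card_mul_index, MulAction.index_stabilizer_of_transitive,
      MulAction.index_stabilizer_of_transitive] at e1
    have : Nonempty Ω := ⟨ω⟩
    rwa [Nat.eq_of_mul_eq_mul_right Nat.card_pos e1]
  obtain ⟨F, _, _, _, hr, hn, hall, ψ0, hψ0⟩ := exists_quadratic φ M.inv M.ne
  refine Or.inr ⟨F, E, inferInstance, inferInstance, inferInstance, Fintype.ofFinite E,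
    inferInstance, oe.symm.trans e.toEquiv, hr, fun σ => ⟨?_, ?_⟩⟩
  · rintro ⟨g, rfl⟩
    obtain ⟨h, b, rfl⟩ := dec g
    have key : ∀ v, (oe.symm.trans e.toEquiv) (MulAction.toPermHom G Ω ((b.toMul : G) * h) (oe v)) =
        e (h • v) + e b := fun v => by
      show e (oe.symm (((b.toMul : G) * h) • o v)) = _
      rw [o3, ← map_add]
      exact congrArg e (oe.symm_apply_apply _)
    obtain ⟨a, ha, hh | hh⟩ := M.act h
    · refine ⟨a, e b, 1, (hn a).2 ha, fun ω => ?_⟩
      obtain ⟨v, rfl⟩ := oe.surjective ω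
      rw [key, hh]; simp
    · refine ⟨a, e b, ψ0, (hn a).2 ha, fun ω => ?_⟩
      obtain ⟨v, rfl⟩ := oe.surjective ω
      rw [key, hh, hψ0]; simp
  · rintro ⟨a, b, ψ, ha, hσ⟩
    obtain ⟨k, hk⟩ := M.mul a ((hn a).1 ha)
    obtain ⟨z, hz⟩ := M.frob
    obtain ⟨h, hh⟩ : ∃ h : H, ∀ v, e (h • v) = a * ψ (e v) := by
      rcases hall ψ with h | h
      · exact ⟨k, fun v => by rw [hk, h]⟩
      · exact ⟨k * z, fun v => by rw [mul_smul, hk, hz, h]⟩
    refine ⟨((e.symm b).toMul : G) * h, Equiv.ext fun ω => ?_⟩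
    obtain ⟨v, rfl⟩ := oe.surjective ω
    refine (oe.symm.trans e.toEquiv).injective ?_
    rw [hσ]
    show e (oe.symm ((((e.symm b).toMul : G) * h) • o v)) = a * ψ (e (oe.symm (oe v))) + b
    rw [o3, oe.symm_apply_apply, ← hh]
    exact (congrArg e (oe.symm_apply_apply _)).trans (by rw [map_add, e.apply_symm_apply])

end Cfsg.Agent.S5753
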