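import Cfsg.Statements.S5754
import Cfsg.Agent.Class.Witt
import Cfsg.Agent.Known.QuadHyp

set_option autoImplicit false
open Cfsg

namespace Cfsg.Agent.S5754

open QuadraticMap Cfsg.Lib.Class in
theorem witt_aniso {F V : Type*} [Field F] [AddCommGroup V] [Module F V] [Module.Finite F V]
    (Q : QuadraticForm F V) (hQ : Q.Anisotropic) (X : Submodule F V) (φ : X →ₗ[F] V)
    (hφ : ∀ x : X, Q (φ x) = Q x) :
    ∃ g : V ≃ₗ[F] V, (∀ v, Q (g v) = Q v) ∧ ∀ x : X, g x = φ x := by
  have hinj : Function.Injective φ := by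
    rw [← LinearMap.ker_eq_bot, eq_bot_iff]
    intro x hx
    have h1 : φ x = 0 := hx
    have h2 := hφ x
    rw [h1, map_zero] at h2
    exact Subtype.ext (hQ _ h2.symm)
  obtain ⟨g, hg, h⟩ := witt_induction (QIsom Q).toSubmonoid X φ hinj (by
    intro g hg Z x hZ _ _
    have hg' := mem_QIsom.1 hg
    by_cases hd : Q (φ x - g x) = 0
    · exact ⟨1, Submonoid.one_mem _, fun _ _ => rfl, (sub_eq_zero.1 (hQ _ hd)).symm⟩
    · refine ⟨qRefl Q hd, qRefl_mem_QIsom Q hd, ?_,
        qRefl_sub_apply Q (by rw [hg', hφ]) hd⟩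
      rintro _ ⟨z, hz, rfl⟩
      apply qRefl_of_orth
      have e1 : polar Q (φ z) (φ x) = polar Q (z : V) x := by
        simp only [polar, ← map_add, hφ, Submodule.coe_add]
      rw [polar_sub_right, e1, ← hZ z hz]
      exact sub_eq_zero.2 (polar_map_of_isometry Q Q g.toLinearMap hg' z x).symm)
  exact ⟨g, mem_QIsom.1 hg, h⟩

open QuadraticMap Cfsg.Lib.Class Cfsg.Lib.Known in
theorem quad_sum_eq {F V : Type*} [Field F] [AddCommGroup V] [Module F V]
    (Q : QuadraticForm F V) {ι : Type*} (d d' : ι → V) (h1 : ∀ i, Q (d i) = Q (d' i))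
    (h2 : ∀ i j, polar Q (d i) (d j) = polar Q (d' i) (d' j)) (c : ι → F) (s : Finset ι) :
    Q (∑ i ∈ s, c i • d i) = Q (∑ i ∈ s, c i • d' i) := by
  classical
  induction s using Finset.induction_on with
  | empty => simp
  | insert a s ha ih =>
    rw [Finset.sum_insert ha, Finset.sum_insert ha, quad_add, quad_add, ih, quad_smul, quad_smul,
      h1, polar_sum_right, polar_sum_right]
    simp [h2]

/-- Let V be a finite-dimensional vector space over a finite field F carrying an anisotropic quadratic form Q (Q(v) = 0 only for v = 0). Then the group of all maps v ↦ φ(v) + c, with φ an isometry of Q and c ∈ V, acts on V as a binary permutation group: given n ≥ 2 and two n-tuples u, u' of vectors such that every pair of corresponding entries of u is carried to that of u' by such a map, one such map carries u to u'. -/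
theorem result {F V : Type*} [Field F] [Finite F] [AddCommGroup V] [Module F V] [Module.Finite F V]
    (Q : QuadraticForm F V) (hQ : Q.Anisotropic) (n : ℕ) (hn : 2 ≤ n) (u u' : Fin n → V)
    (h2 : ∀ i j : Fin n, i ≠ j → ∃ (φ : Q.IsometryEquiv Q) (c : V), φ (u i) + c = u' i ∧ φ (u j) + c = u' j) :
    ∃ (φ : Q.IsometryEquiv Q) (c : V), ∀ i, φ (u i) + c = u' i := by
  have i₀ : Fin n := ⟨0, by omega⟩
  have hd : ∀ i j, Q (u' i - u' j) = Q (u i - u j) := by
    intro i j
    by_cases hij : i = j
    · simp [hij]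
    · obtain ⟨φ, c, h3, h4⟩ := h2 i j hij
      rw [← h3, ← h4, add_sub_add_right_eq_sub, ← map_sub, φ.map_app]
  let L := Fintype.linearCombination F (fun i => u i - u i₀)
  let L' := Fintype.linearCombination F (fun i => u' i - u' i₀)
  have hL : ∀ c, Q (L' c) = Q (L c) := fun c => by
    simp only [L, L', Fintype.linearCombination_apply]
    refine quad_sum_eq Q _ _ (fun i => hd i i₀) (fun i j => ?_) c _
    have e1 := Cfsg.Lib.Class.quad_sub Q (u' i - u' i₀) (u' j - u' i₀)
    have e2 := Cfsg.Lib.Class.quad_sub Q (u i - u i₀) (u j - u i₀)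
    rw [sub_sub_sub_cancel_right] at e1 e2
    rw [hd, hd, hd] at e1
    linear_combination e1 - e2
  have hker : LinearMap.ker L ≤ LinearMap.ker L' := by
    intro c hc
    have h3 : L c = 0 := hc
    exact hQ _ (by rw [hL, h3, map_zero])
  let φ : LinearMap.range L →ₗ[F] V :=
    ((LinearMap.ker L).liftQ L' hker).comp L.quotKerEquivRange.symm.toLinearMap
  have hφ : ∀ c, φ ⟨L c, c, rfl⟩ = L' c := fun c => by
    have := LinearMap.quotKerEquivRange_symm_apply_image L c ⟨c, rfl⟩
    simp only [φ, LinearMap.comp_apply, LinearEquiv.coe_coe]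
    rw [this]
    rfl
  obtain ⟨g, hg, h⟩ := witt_aniso Q hQ _ φ (by
    rintro ⟨_, c, rfl⟩
    rw [hφ, hL])
  refine ⟨⟨g, hg⟩, u' i₀ - g (u i₀), fun i => ?_⟩
  have h3 := h ⟨L (Pi.single i 1), _, rfl⟩
  rw [hφ] at h3
  simp only [L, L', Fintype.linearCombination_apply_single, one_smul, map_sub] at h3
  change g (u i) + _ = _
  rw [← sub_eq_zero, ← sub_eq_zero.2 h3]
  abel

end Cfsg.Agent.S5754
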