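import Cfsg.Statements.S5763
import Cfsg.Agent.Char.Wreath

set_option autoImplicit false
open Cfsg

namespace Cfsg.Agent.S5763

open Cfsg.Lib.Char

open Equiv Equiv.Perm Wreath

/-- automorphisms of the binary tree -/
def P0 : Subgroup (Perm (Fin 8)) :=
  partStab (fun x : Fin 8 => x.1 / 2) ⊓ partStab (fun x : Fin 8 => x.1 / 4)

theorem sq_aux {Ω ι κ : Type*} {f : Ω → ι} {c : Ω → κ} {h : Perm Ω} (hh : h ∈ partStab f)
    (hc : ∀ x, c (h x) = c x)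
    (h3 : ∀ x y z, c y = c x → c z = c x → f x = f y ∨ f y = f z ∨ f z = f x) (x : Ω) :
    f ((h ^ 2) x) = f x := by
  rw [pow_two, Perm.mul_apply]
  rcases h3 x (h x) (h (h x)) (hc x) ((hc _).trans (hc x)) with e | e | e
  · exact ((hh _ _).1 e).symm.trans e.symm
  · exact e.symm.trans ((hh _ _).2 e).symm
  · exact e

theorem isPGroup_P0 : IsPGroup 2 P0 := fun g => by
  have h1 := sq_aux (c := fun _ => ()) g.2.2 (fun _ => rfl) (by decide +kernel)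
  have h2 := sq_aux (c := fun x : Fin 8 => x.1 / 4) (pow_mem g.2.1 2) h1 (by decide +kernel)
  have h3 := sq_aux (f := id) (c := fun x : Fin 8 => x.1 / 2) (h := (g.1 ^ 2) ^ 2) (fun x y => by simp) h2 (by decide +kernel)
  refine ⟨3, Subtype.ext (Equiv.ext fun x => ?_)⟩
  have := h3 x
  rw [← pow_mul, ← pow_mul] at this
  exact this

/-- decoding -/
def pf (n : ℕ) (i : Fin 8) : Fin 8 := ⟨n / 8 ^ i.1 % 8, Nat.mod_lt _ (by norm_num)⟩

/-- pairs of involutions -/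
def L : List (ℕ × ℕ) := [(14599816, 14599816), (16434817, 16434817), (14570689, 11788826), (14570689, 6852524), (16406152, 14599816), (11788826, 11788826), (9924691, 11788826), (16434376, 16434817), (9925825, 11788826), (14569555, 11788826), (371511, 342391), (2177406, 342391), (9924691, 11789505), (9924691, 14570010), (11788826, 14570010), (16406152, 16434376), (16434376, 16406152), (11788826, 11789505), (342391, 342391), (14570010, 11788826), (6852524, 2177406), (5017068, 2177406), (11789505, 11788826), (2206526, 342391), (4988389, 2177406), (6823845, 2177406), (16406152, 16406152), (16434376, 16434376), (9925146, 14570010), (371511, 14569555), (2177406, 14569555), (11788371, 14570010), (6823845, 14569555), (5017068, 14570010), (2206526, 4988389), (371511, 4988389), (6823845, 14570010), (5017068, 14569555)]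

/-- a nontrivial involution in `P0` -/
def Good (n : ℕ) : Prop := (∀ i, pf n (pf n i) = i) ∧ (∃ i, pf n i ≠ i) ∧
  (∀ x y : Fin 8, x.1 / 2 = y.1 / 2 ↔ (pf n x).1 / 2 = (pf n y).1 / 2) ∧
  (∀ x y : Fin 8, x.1 / 4 = y.1 / 4 ↔ (pf n x).1 / 4 = (pf n y).1 / 4)

instance (n : ℕ) : Decidable (Good n) := by unfold Good; infer_instance

theorem good : ∀ p ∈ L, Good p.1 ∧ Good p.2 := by decide +kernel

/-- covering condition -/
def Cov (x : Fin 8 → Fin 8) : Prop := ∃ p ∈ L, ∀ i, pf p.1 (x i) = x (pf p.2 i)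

instance (x : Fin 8 → Fin 8) : Decidable (Cov x) := by unfold Cov; infer_instance

set_option synthInstance.maxSize 4000 in
theorem cover : ∀ a b : Fin 8, a < b → ∀ c d : Fin 8, c < d → a.1 + b.1 ≤ c.1 + d.1 →
    (c ≠ a ∧ c ≠ b ∧ d ≠ a ∧ d ≠ b) → ∀ e : Fin 8, (e ≠ a ∧ e ≠ b ∧ e ≠ c ∧ e ≠ d) →
    ∀ f : Fin 8, e < f → (f ≠ a ∧ f ≠ b ∧ f ≠ c ∧ f ≠ d) →
    ∀ g : Fin 8, (g ≠ a ∧ g ≠ b ∧ g ≠ c ∧ g ≠ d ∧ g ≠ e ∧ g ≠ f) →
    ∀ h : Fin 8, g < h → (h ≠ a ∧ h ≠ b ∧ h ≠ c ∧ h ≠ d ∧ h ≠ e ∧ h ≠ f) →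
    e.1 + f.1 ≤ g.1 + h.1 → a.1 + b.1 + c.1 + d.1 ≤ e.1 + f.1 + g.1 + h.1 →
    Cov ![a, b, c, d, e, f, g, h] := by decide +kernel

theorem exists_perm {n : ℕ} (h : Good n) : ∃ a ∈ P0, a ≠ 1 ∧ ∀ i, a i = pf n i := by
  refine ⟨Function.Involutive.toPerm (pf n) h.1, ⟨h.2.2.1, h.2.2.2⟩, fun e => ?_, fun i => rfl⟩
  obtain ⟨i, hi⟩ := h.2.1
  exact hi (DFunLike.congr_fun e i)

/-- potential -/
def Φ (x : Perm (Fin 8)) : ℕ := (x 1).1 + 2 * (x 2).1 + 3 * (x 3).1 + 4 * (x 4).1 + 5 * (x 5).1 +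
  6 * (x 6).1 + 7 * (x 7).1

theorem key (y : Perm (Fin 8)) : ∃ a ∈ P0, ∃ b ∈ P0, a ≠ 1 ∧ a = y * b * y⁻¹ := by
  obtain ⟨q, hq⟩ := Finite.exists_max fun q : P0 => Φ (y * q.1)
  set x := y * q.1 with hx
  have step : ∀ n, Good n → (x (pf n 1)).1 + 2 * (x (pf n 2)).1 + 3 * (x (pf n 3)).1 +
      4 * (x (pf n 4)).1 + 5 * (x (pf n 5)).1 + 6 * (x (pf n 6)).1 + 7 * (x (pf n 7)).1 ≤ Φ x :=
    fun n hn => by
      obtain ⟨s, hs, -, e⟩ := exists_perm hn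
      have := hq (q * ⟨s, hs⟩)
      simp only [← e]
      exact this
  have h1 : (x 0).1 + 2 * (x 2).1 + 3 * (x 3).1 + 4 * (x 4).1 + 5 * (x 5).1 + 6 * (x 6).1 +
    7 * (x 7).1 ≤ Φ x := step 16434817 (by decide +kernel)
  have h2 : (x 1).1 + 2 * (x 3).1 + 3 * (x 2).1 + 4 * (x 4).1 + 5 * (x 5).1 + 6 * (x 6).1 +
    7 * (x 7).1 ≤ Φ x := step 16434376 (by decide +kernel)
  have h3 : (x 1).1 + 2 * (x 2).1 + 3 * (x 3).1 + 4 * (x 5).1 + 5 * (x 4).1 + 6 * (x 6).1 +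
    7 * (x 7).1 ≤ Φ x := step 16406152 (by decide +kernel)
  have h4 : (x 1).1 + 2 * (x 2).1 + 3 * (x 3).1 + 4 * (x 4).1 + 5 * (x 5).1 + 6 * (x 7).1 +
    7 * (x 6).1 ≤ Φ x := step 14599816 (by decide +kernel)
  have h5 : (x 3).1 + 2 * (x 0).1 + 3 * (x 1).1 + 4 * (x 4).1 + 5 * (x 5).1 + 6 * (x 6).1 +
    7 * (x 7).1 ≤ Φ x := step 16433690 (by decide +kernel)
  have h6 : (x 1).1 + 2 * (x 2).1 + 3 * (x 3).1 + 4 * (x 6).1 + 5 * (x 7).1 + 6 * (x 4).1 +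
    7 * (x 5).1 ≤ Φ x := step 11789960 (by decide +kernel)
  have h7 : (x 5).1 + 2 * (x 6).1 + 3 * (x 7).1 + 4 * (x 0).1 + 5 * (x 1).1 + 6 * (x 2).1 +
    7 * (x 3).1 ≤ Φ x := step 6852524 (by decide +kernel)
  unfold Φ at h1 h2 h3 h4 h5 h6 h7
  have lt : ∀ i j : Fin 8, i ≠ j → (x i).1 ≤ (x j).1 → x i < x j := fun i j h h' =>
    lt_of_le_of_ne h' (x.injective.ne h)
  obtain ⟨p, hp, hc⟩ := cover (x 0) (x 1) (lt _ _ (by decide) (by omega)) (x 2) (x 3)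
    (lt _ _ (by decide) (by omega)) (by omega) (by simp) (x 4) (by simp) (x 5)
    (lt _ _ (by decide) (by omega)) (by simp) (x 6) (by simp) (x 7)
    (lt _ _ (by decide) (by omega)) (by simp) (by omega) (by omega)
  have e : ![x 0, x 1, x 2, x 3, x 4, x 5, x 6, x 7] = x := by
    funext i; fin_cases i <;> rfl
  rw [e] at hc
  obtain ⟨a, ha, ha1, ea⟩ := exists_perm (good p hp).1
  obtain ⟨b, hb, -, eb⟩ := exists_perm (good p hp).2
  refine ⟨a, ha, q.1 * b * q.1⁻¹, mul_mem (mul_mem q.2 hb) (inv_mem q.2), ha1, ?_⟩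
  have : a * x = x * b := Equiv.ext fun i => by
    rw [Perm.mul_apply a x, Perm.mul_apply x b, ea, eb, hc]
  rw [← mul_inv_eq_iff_eq_mul.2 this.symm, hx]; group

/-- In the symmetric group on 8 letters any two Sylow 2-subgroups have non-trivial intersection: for a Sylow 2-subgroup H and every element x, H ∩ xHx⁻¹ ≠ 1. -/
theorem result (H : Sylow 2 (Equiv.Perm (Fin 8))) (x : Equiv.Perm (Fin 8)) :
    (H : Subgroup (Equiv.Perm (Fin 8))) ⊓ (H : Subgroup (Equiv.Perm (Fin 8))).map (MulAut.conj x).toMonoidHom ≠ ⊥ := by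
  obtain ⟨S, hS⟩ := isPGroup_P0.exists_le_sylow
  obtain ⟨g, rfl⟩ := MulAction.exists_smul_eq (Equiv.Perm (Fin 8)) S H
  obtain ⟨a, ha, b, hb, ha1, e⟩ := key (g⁻¹ * x * g)
  have hm : ∀ c ∈ P0, g * c * g⁻¹ ∈ ((g • S : Sylow 2 _) : Subgroup (Equiv.Perm (Fin 8))) :=
    fun c hc => Subgroup.smul_mem_pointwise_smul c (MulAut.conj g) _ (hS hc)
  intro h
  have h1 : g * a * g⁻¹ ∈ (⊥ : Subgroup (Equiv.Perm (Fin 8))) :=
    h ▸ ⟨hm a ha, g * b * g⁻¹, hm b hb, by rw [e]; simp [mul_assoc]⟩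
  exact ha1 (by simpa [mul_inv_eq_one] using h1)

end Cfsg.Agent.S5763
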