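import Cfsg.Statements.S5767
import Cfsg.Agent.Prod.E

set_option autoImplicit false
open Cfsg

namespace Cfsg.Agent.S5767

open Equiv Equiv.Perm Cfsg.Lib.PAct

section

variable {ι A : Type*} [Fintype ι] [DecidableEq ι] [Fintype A] [DecidableEq A]

omit [Fintype ι] [DecidableEq ι] [Fintype A] [DecidableEq A] in
theorem mem_WW {σ : Perm (ι → A)} :
    σ ∈ WW ι A ↔ ∃ (π : Perm ι) (τ : ι → Perm A), ∀ f i, σ f i = τ i (f (π.symm i)) :=
  ⟨fun ⟨π, τ, h⟩ => ⟨π, τ, fun _ _ => h ▸ rfl⟩,
    fun ⟨π, τ, h⟩ => ⟨π, τ, Equiv.ext fun f => funext (h f)⟩⟩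

theorem not_alt_le (h5 : 5 ≤ Fintype.card A) [Nontrivial ι] :
    ¬ alternatingGroup (ι → A) ≤ WW ι A := by
  intro h
  obtain ⟨i, j, ij⟩ := exists_pair_ne ι
  obtain ⟨a⟩ : Nonempty A := Fintype.card_pos_iff.1 (by omega)
  obtain ⟨b, ba, -⟩ := fresh h5 a a a a
  have hc : 5 ≤ Fintype.card (ι → A) := by
    rw [Fintype.card_fun]
    exact h5.trans (Nat.le_self_pow Fintype.card_ne_zero _)
  have h1 := adjAt_update (fun _ : ι => a) i ba.symm
  obtain ⟨σ, hσ, e1, e2⟩ := two_trans hc (a := fun _ : ι => a)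
    (b := Function.update (fun _ : ι => a) i b) (c := fun _ => a) (d := fun _ => b)
    (fun hh => h1.1 (congrFun hh i)) (fun hh => ba (congrFun hh i).symm)
  obtain ⟨l, hl⟩ := (adj_iff_of_mem (h hσ) _ _).2 ⟨i, h1⟩
  rw [e1, e2] at hl
  exact ij ((hl.uniq ba.symm).trans (hl.uniq ba.symm).symm)

theorem WW_even (h2 : Even (Fintype.card A ^ (Fintype.card ι - 1)))
    (h4 : 4 ∣ Fintype.card A ^ (Fintype.card ι - 1)) : WW ι A ≤ alternatingGroup (ι → A) := by
  rintro _ ⟨π, τ, rfl⟩
  have e : wr π τ = wr 1 τ * wr π 1 := Equiv.ext fun _ => rfl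
  rw [e]
  refine mul_mem (base_mem _ τ fun i => ?_) ?_
  · rw [mem_alternatingGroup, sign_co, Int.units_pow_eq_pow_mod_two, Nat.even_iff.1 h2, pow_zero]
  clear e
  induction π using swap_induction_on with
  | one => rw [wr_one]; exact one_mem _
  | swap_mul f x y xy ih =>
    have e : wr (swap x y * f) (1 : ι → Perm A) = wr (swap x y) 1 * wr f 1 :=
      Equiv.ext fun _ => rfl
    rw [e]
    refine mul_mem ?_ ih
    have hsq : wr (swap x y) (1 : ι → Perm A) ^ 2 = 1 := by
      ext f i
      simp [pow_two, wr_apply]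
    have hc : Fintype.card (Function.fixedPoints (wr (swap x y) (1 : ι → Perm A))) =
        Fintype.card A ^ (Fintype.card ι - 1) := by
      let e1 : Function.fixedPoints (wr (swap x y) (1 : ι → Perm A)) ≃ ({j // j ≠ x} → A) :=
        { toFun := fun f j => f.1 j
          invFun := fun b => ⟨fun j => if h : j = x then b ⟨y, xy.symm⟩ else b ⟨j, h⟩, by
            ext j
            by_cases jx : j = x
            · simp [wr_apply, jx, xy.symm]
            by_cases jy : j = y
            · simp [wr_apply, jy, xy.symm]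
            simp [wr_apply, swap_apply_of_ne_of_ne jx jy]⟩
          left_inv := fun f => by
            ext j
            by_cases jx : j = x
            · have := congrFun f.2 x
              simpa [wr_apply, jx] using this
            · simp [jx]
          right_inv := fun b => by
            ext j
            simp [j.2] }
      rw [Fintype.card_congr e1]
      simp
    rw [mem_alternatingGroup, sign_of_pow_two_eq_one hsq, hc, Fintype.card_fun]
    obtain ⟨n, hn⟩ : ∃ n, Fintype.card ι = n + 1 :=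
      Nat.exists_eq_succ_of_ne_zero (Fintype.card_pos_iff.2 ⟨x⟩).ne'
    rw [hn, Nat.add_sub_cancel] at h4 ⊢
    obtain ⟨r, hr⟩ := h4
    rw [pow_succ, hr, ← Nat.mul_sub_one,
      show 4 * r * (Fintype.card A - 1) = 2 * (2 * (r * (Fintype.card A - 1))) by ring,
      Nat.mul_div_cancel_left _ two_pos, pow_mul]
    simp

end

/-- Maximality of product-action wreath products. Let m ≥ 5 and k ≥ 2 and let W be the wreath product S_m ≀ S_k acting on the m^k functions f : {1..k} → {1..m} by (f ↦ (i ↦ τ_i(f(π⁻¹ i)))) for π ∈ S_k and τ_1, …, τ_k ∈ S_m. If W contains an odd permutation of these m^k points, then W is a maximal subgroup of the symmetric group on them. Unless k = 2 and m ≡ 2 (mod 4) (in which case the even permutations in W form the base group S_m × S_m, which is imprimitive), the even permutations in W form a maximal subgroup of the alternating group on these points. (The known proof uses the classification of the finite simple groups.) -/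
theorem result (m k : ℕ) (hm : 5 ≤ m) (hk : 2 ≤ k) :
    (¬ (k = 2 ∧ m % 4 = 2) → ∃ M : Subgroup ↥(alternatingGroup (Fin k → Fin m)), IsCoatom M ∧ ∀ σ : ↥(alternatingGroup (Fin k → Fin m)), σ ∈ M ↔ ∃ (π : Equiv.Perm (Fin k)) (τ : Fin k → Equiv.Perm (Fin m)), ∀ (f : Fin k → Fin m) (i : Fin k), (σ : Equiv.Perm (Fin k → Fin m)) f i = τ i (f (π.symm i))) ∧
    ((∃ σ : Equiv.Perm (Fin k → Fin m), Equiv.Perm.sign σ = -1 ∧ ∃ (π : Equiv.Perm (Fin k)) (τ : Fin k → Equiv.Perm (Fin m)), ∀ (f : Fin k → Fin m) (i : Fin k), σ f i = τ i (f (π.symm i))) →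
      ∃ M : Subgroup (Equiv.Perm (Fin k → Fin m)), IsCoatom M ∧ ∀ σ, σ ∈ M ↔ ∃ (π : Equiv.Perm (Fin k)) (τ : Fin k → Equiv.Perm (Fin m)), ∀ (f : Fin k → Fin m) (i : Fin k), σ f i = τ i (f (π.symm i))) := by
  have h5 : 5 ≤ Fintype.card (Fin m) := by simpa using hm
  have hD : Dich (Fin k) (Fin m) := dich h5 (k - 1) (Fin k) (by simp; omega)
  have : Nontrivial (Fin k) := Fin.nontrivial_iff_two_le.2 hk
  have hn := not_alt_le (ι := Fin k) h5
  refine ⟨fun hkm => ⟨(WW (Fin k) (Fin m)).subgroupOf _, ⟨?_, fun H hH => ?_⟩,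
    fun σ => mem_WW⟩, fun ⟨s, hs, hsW⟩ => ⟨WW (Fin k) (Fin m), ⟨?_, fun H hH => ?_⟩,
    fun σ => mem_WW⟩⟩
  · exact fun h => hn (Subgroup.subgroupOf_eq_top.1 h)
  · have hm' : ∀ w ∈ WW (Fin k) (Fin m), w ∈ alternatingGroup (Fin k → Fin m) →
        w ∈ H.map (alternatingGroup (Fin k → Fin m)).subtype :=
      fun w hw ha => ⟨⟨w, ha⟩, hH.le hw, rfl⟩
    have hB : Big (H.map (alternatingGroup (Fin k → Fin m)).subtype) := by
      refine ⟨fun i σ hσ => hm' _ (co_mem i σ) (co_alt i hσ), fun w hw i => ?_⟩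
      rcases Int.units_eq_one_or (sign w) with h | h
      · exact ⟨1, by rw [map_one, one_mul]; exact hm' w hw (mem_alternatingGroup.2 h)⟩
      rcases Nat.even_or_odd m with he | ho
      · exfalso
        have h4 : 4 ∣ m ^ (k - 1) := by
          obtain ⟨r, rfl⟩ := he
          by_cases k2 : k = 2
          · subst k2
            simp only [true_and] at hkm
            simp only [Nat.add_one_sub_one, pow_one]
            omega
          · obtain ⟨n, hn⟩ : ∃ n, k - 1 = n + 2 := ⟨k - 3, by omega⟩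
            exact ⟨(r + r) ^ n * r ^ 2, by rw [hn]; ring⟩
        have := WW_even (ι := Fin k) (A := Fin m)
          (by simpa only [Fintype.card_fin] using even_iff_two_dvd.2 (dvd_trans ⟨2, rfl⟩ h4))
          (by simpa only [Fintype.card_fin] using h4) hw
        rw [mem_alternatingGroup, h] at this
        exact absurd this (by decide)
      · obtain ⟨a⟩ : Nonempty (Fin m) := Fintype.card_pos_iff.1 (by omega)
        obtain ⟨b, ba, -⟩ := fresh h5 a a a a
        refine ⟨swap a b, hm' _ (mul_mem (co_mem ..) hw) ?_⟩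
        rw [mem_alternatingGroup, map_mul, h, sign_co, sign_swap ba.symm, Fintype.card_fin,
          (ho.pow).neg_one_pow]
        simp
    rcases hD _ hB with h | h
    · exact absurd (fun x hx => h ⟨x, hx, rfl⟩) hH.not_ge
    · refine eq_top_iff.2 fun x _ => ?_
      obtain ⟨y, hy, e⟩ := h x.2
      exact (Subtype.ext e : y = x) ▸ hy
  · exact fun h => hn (h ▸ le_top)
  · rcases hD _ (Big.of_le hH.le) with h | h
    · exact absurd h hH.not_ge
    · refine eq_top_iff.2 fun x _ => ?_
      rcases Int.units_eq_one_or (sign x) with hx | hx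
      · exact h (mem_alternatingGroup.2 hx)
      · have := mul_mem (h (mem_alternatingGroup.2 (by rw [map_mul, map_inv, hx, hs]; simp) :
          x * s⁻¹ ∈ _)) (hH.le (mem_WW.2 hsW))
        simpa using this

end Cfsg.Agent.S5767
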