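import Cfsg.Statements.S5769
import Mathlib
import Cfsg.Agent.Known.E7Lat
import Cfsg.Agent.Known.WeylEnum
import Cfsg.Agent.Known.ChevSpec
import Cfsg.Agent.Chev.CoreAll
import Cfsg.Agent.Chev.WeylTypes
import Cfsg.Agent.Known.SylHomo
import Cfsg.Agent.Known.CrossChar
import Cfsg.Agent.Known.SpecU
import Cfsg.Agent.S0246

set_option autoImplicit false
open Cfsg

namespace Cfsg.Agent.S5769

open Cfsg.Lib.Known Cfsg.Lib.Known.WE Cfsg.Lib.Known.SylH Cfsg.Lib.Chev Cfsg.Lib.Chev.Core Cfsg.Lib.Class Cfsg.Lie Matrix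

/-- The Weyl data of type `E₇` indexed by `Fin 7`. -/
noncomputable def wE7 : WeylData (Fin 7) ℕ := rootE7.weyl

theorem wE7_eq_1' : type_of% @wE7.eq_1 := @wE7.eq_1

theorem form_eq (x y : Fin 7 → ℤ) : wE7.form x y = E7L.B x y := by
  have h1 : ∀ i : Fin 7, wE7.d i = 1 := by decide +kernel
  have h2 : ∀ i j : Fin 7, wE7.C i j = (cartanE7.getD i []).getD j 0 := by decide +kernel
  simp only [WeylData.form, WeylData.a_apply, h1, h2, E7L.B, Fin.sum_univ_succ, cartanE7]
  simp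
  ring

theorem mat_mulVec {l : ℕ} (R : WeylData (Fin l) ℕ) (v : R.W) (x : Fin l → ℤ) :
    (R.mat v)ᵀ *ᵥ x = R.lin v x := by
  funext i
  rw [WeylData.lin_apply, Finset.sum_apply]
  simp [mulVec, dotProduct, WeylData.mat, mul_comm]

theorem not_dvd_tor {k : Type*} [Field k] [IsAlgClosed k] (hk : ((2 : ℕ) : k) = 0) {w : wE7.W}
    {c : Fin 7 → kˣ} (hw : wE7.tor kˣ w c = c ^ 2) : ¬ 65 ∣ orderOf c := fun h1 => by
  have h2 := wE7.card_tor_eq _ one_lt_two hk w
  have : Finite (torW wE7 kˣ w 2) := wE7.finite_tor_eq _ one_lt_two hk w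
  have h3 : 65 ∣ Nat.card (torW wE7 kˣ w 2) :=
    h1.trans ((Subgroup.orderOf_mk c hw).symm.dvd.trans (orderOf_dvd_natCard _))
  refine E7L.not_dvd_charpoly (A := (wE7.mat w⁻¹)ᵀ) (fun x y => by
    rw [mat_mulVec, mat_mulVec, ← form_eq, ← form_eq, wE7.form_lin]) (orderOf_pos w⁻¹) (by
    rw [← transpose_pow, ← wE7.mat_pow, pow_orderOf_eq_one, wE7.mat_one, transpose_one]) ?_
  rw [charpoly_transpose, eval_charpoly, show Matrix.scalar (Fin 7) (2 : ℤ) =
    ((2 : ℕ) : ℤ) • (1 : Matrix (Fin 7) (Fin 7) ℤ) by rw [smul_one_eq_diagonal]; rfl, ← h2]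
  exact Int.natCast_dvd_natCast.2 h3

theorem orderOf_ne (g : chevE7.group (ZMod 2)) : orderOf g ≠ 65 := fun hg => by
  obtain ⟨c, u, -, ⟨w, hw⟩, -, ⟨j, hj⟩, ho⟩ :=
    exists_jordan certE7 rootE7 (ZMod 2) 2 (snf_of_mem (by simp)) g
  have h1 : 65 ∣ orderOf c := (Nat.Coprime.coprime_dvd_right (orderOf_dvd_of_pow_eq_one hj)
    (Nat.Coprime.pow_right _ (by norm_num))).dvd_of_dvd_mul_right (hg.symm.trans ho).dvd
  rw [ZMod.card] at hw
  exact not_dvd_tor (CharP.cast_eq_zero _ 2) hw h1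

theorem exists_quot {G : Type*} [Group G] (h : Emb (Multiplicative (ZMod 65)) G)
    (hz : ∀ z ∈ Subgroup.center G, z ^ 4 = 1) :
    ∃ x : G ⧸ Subgroup.center G, orderOf x = 65 := by
  obtain ⟨φ, hφ⟩ := h
  refine ⟨_, (orderOf_injective ((QuotientGroup.mk' _).comp φ) ((injective_iff_map_eq_one _).2
    fun a ha => ?_) (Multiplicative.ofAdd 1)).trans (by simp)⟩
  have h1 := hz _ ((QuotientGroup.eq_one_iff _).1 ha)
  rw [← map_pow, map_eq_one_iff φ hφ] at h1
  have h2 := orderOf_dvd_natCard a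
  rw [show Nat.card (Multiplicative (ZMod 65)) = 65 from Nat.card_zmod 65] at h2
  exact orderOf_eq_one_iff.1 (Nat.eq_one_of_dvd_coprimes (by norm_num)
    (orderOf_dvd_of_pow_eq_one h1) h2)

theorem emb_sl {F : Type*} [Field F] [Fintype F] {n : ℕ} (hn : 0 < n)
    (h : 65 ∣ Fintype.card F ^ n - 1) (h' : Nat.Coprime 65 (Fintype.card F - 1)) :
    Emb (Multiplicative (ZMod 65)) (Matrix.SpecialLinearGroup (Fin n) F) := by
  have h1 := emb_pi_gl hn h n
  rw [Nat.div_self hn] at h1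
  exact ((Emb.of_equiv (MulEquiv.funUnique _ _).symm).trans h1).sl_of_gl
    (by rwa [show Nat.card (Multiplicative (ZMod 65)) = 65 from Nat.card_zmod 65])

theorem center_sl {F : Type*} [Field F] {n : ℕ} (hn : n ∣ 4) :
    ∀ z ∈ Subgroup.center (Matrix.SpecialLinearGroup (Fin n) F), z ^ 4 = 1 := fun z hz => by
  obtain ⟨r, h1, h2⟩ := Matrix.SpecialLinearGroup.mem_center_iff.1 hz
  obtain ⟨k, hk⟩ := hn
  rw [Fintype.card_fin] at h1
  refine Subtype.ext ?_
  rw [Matrix.SpecialLinearGroup.coe_pow, ← h2, ← map_pow, hk, pow_mul, h1, one_pow, map_one]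
  rfl

theorem center_sp {F : Type*} [Field F] {n : ℕ} :
    ∀ z ∈ Subgroup.center (symplecticGroup (Fin n) F), z ^ 4 = 1 := fun z hz => by
  refine Subtype.ext ?_
  rcases (Cfsg.Agent.S0246.mem_center_iff z).1 hz with h | h
  · simp [h]
  · rw [SubmonoidClass.coe_pow, h]; exact Even.neg_one_pow (by decide)

theorem emb_sp {F : Type*} [Field F] [Fintype F] (h : Fintype.card F = 8) :
    Emb (Multiplicative (ZMod 65)) (symplecticGroup (Fin 2) F) := by
  have hp : Fact (ringChar F).Prime := ⟨CharP.char_is_prime F _⟩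
  let K := FiniteField.Extension F (ringChar F) 2
  have hK : Nat.card K = 64 := by
    rw [FiniteField.natCard_extension, Nat.card_eq_fintype_card, h]; rfl
  have hr : Module.finrank F K = 2 := FiniteField.finrank_extension _ _ _
  have : Finite K := Nat.finite_of_card_ne_zero (by rw [hK]; decide)
  have : Fintype K := Fintype.ofFinite K
  rw [Nat.card_eq_fintype_card] at hK
  let B : LinearMap.BilinForm K (Fin 2 → K) := LinearMap.mk₂ K (fun x y => x 0 * y 1 - x 1 * y 0)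
    (fun _ _ _ => by simp; ring) (fun _ _ _ => by simp; ring) (fun _ _ _ => by simp; ring)
    (fun _ _ _ => by simp; ring)
  have hB : ∀ x y, B x y = x 0 * y 1 - x 1 * y 0 := fun _ _ => rfl
  have hA : B.IsAlt := fun x => by rw [hB]; ring
  have hsep : ∀ x, (∀ y, B x y = 0) → x = 0 := fun x hx => by
    have h0 := hx ![0, 1]
    have h1 := hx ![1, 0]
    simp [hB] at h0 h1
    funext i; fin_cases i <;> simp [h0, h1]
  have hN : B.Nondegenerate := ⟨hsep, fun y hy => hsep y fun x => by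
    rw [← hA.neg_eq, hy, neg_zero]⟩
  refine (emb_sl (F := K) (n := 2) two_pos (by rw [hK]; norm_num) (by rw [hK]; norm_num)).trans
    (Emb.trans ?_ (exists_spB_embed (F := F) hN hA (m := 2) (by
      rw [← Module.finrank_mul_finrank F K, hr, Module.finrank_fin_fun])))
  refine ⟨(Matrix.SpecialLinearGroup.toLin' (n := Fin 2) (R := K)).codRestrict _ fun g u v => ?_,
    fun g g' e => Matrix.SpecialLinearGroup.toLin'_injective (congrArg Subtype.val e)⟩
  have h1 := g.det_coe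
  rw [det_fin_two] at h1
  change B (g.1 *ᵥ u) (g.1 *ᵥ v) = B u v
  simp only [hB, mulVec, dotProduct, Fin.sum_univ_two]
  linear_combination (u 0 * v 1 - u 1 * v 0) * h1

theorem isEmpty_of {G : Type*} [Group G] (H : Subgroup ↥(chevE7.group (ZMod 2)))
    (h : ∃ x : G, orderOf x = 65) : IsEmpty (H ≃* G) := ⟨fun e => by
  obtain ⟨x, hx⟩ := h
  exact orderOf_ne (e.symm x) (by rw [Subgroup.orderOf_coe, MulEquiv.orderOf_eq, hx])⟩

/-- The Chevalley group of type E₇ over the field with two elements (generated by its root elements in the adjoint representation) has no subgroup isomorphic to any of PSL₂(64), PSp₄(8), PSL₄(8), PSU₄(8) or PSp₆(8). Here F₈ and F₆₄ denote fields with 8 and 64 elements. -/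
theorem result {F₈ F₆₄ : Type*} [Field F₈] [Fintype F₈] (h8 : Fintype.card F₈ = 8) [Field F₆₄] [Fintype F₆₄] (h64 : Fintype.card F₆₄ = 64)
    (H : Subgroup ↥(Cfsg.Lie.chevE7.group (ZMod 2))) :
    IsEmpty (↥H ≃* Matrix.ProjectiveSpecialLinearGroup (Fin 2) F₆₄) ∧ IsEmpty (↥H ≃* Cfsg.PSp 2 F₈) ∧
    IsEmpty (↥H ≃* Matrix.ProjectiveSpecialLinearGroup (Fin 4) F₈) ∧ IsEmpty (↥H ≃* Cfsg.PSU 4 F₆₄ 8) ∧ IsEmpty (↥H ≃* Cfsg.PSp 3 F₈) := by
  refine ⟨isEmpty_of H (exists_quot (emb_sl two_pos (by rw [h64]; norm_num) (by rw [h64]; norm_num))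
    (center_sl (by norm_num))), isEmpty_of H (exists_quot (emb_sp h8) center_sp),
    isEmpty_of H (exists_quot (emb_sl four_pos (by rw [h8]; norm_num) (by rw [h8]; norm_num))
    (center_sl dvd_rfl)), isEmpty_of H ?_, isEmpty_of H (exists_quot ((emb_sp h8).trans
      (Emb.trans ⟨MonoidHom.inl _ _, fun x y e => congrArg Prod.fst e⟩ (emb_sp_prod 2 1))) center_sp)⟩
  obtain ⟨x, hx⟩ := coxU_div_mem_spec (K := F₆₄) (q := 8) (n := 4) h64 (by norm_num)
  have h1 : coxU 8 4 / (coxU 8 4).gcd (8 + 1) = 455 := by decide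
  rw [h1] at hx
  exact ⟨x ^ 7, by rw [orderOf_pow_of_dvd (by norm_num) (by rw [hx]; norm_num), hx]⟩

end Cfsg.Agent.S5769
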