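import Cfsg.Statements.S5883
import Mathlib
import Cfsg.Agent.Known.F23Max
import Cfsg.Agent.Char.Burnside
import Cfsg.Agent.Spor.Fi23Simple

set_option autoImplicit false
open Cfsg

namespace Cfsg.Agent.S5883

/-- The constant 10 in the statement that H⁽¹⁰⁾ is perfect for every maximal subgroup H of a finite almost simple group cannot be lowered to 9: there exist a finite almost simple group G (with a non-abelian simple normal subgroup of trivial centralizer) and a maximal subgroup H of G whose ninth derived subgroup H⁽⁹⁾ is not perfect, i.e. H⁽¹⁰⁾ ≠ H⁽⁹⁾. (A solvable maximal subgroup of derived length 10 in the Fischer group Fi₂₃ is such an example.) -/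
theorem result :
    ∃ (G : Type) (_ : Group G) (_ : Finite G) (S H : Subgroup G), S.Normal ∧ IsSimpleGroup S ∧ ¬ IsMulCommutative S ∧
      Subgroup.centralizer (S : Set G) = ⊥ ∧ IsCoatom H ∧ derivedSeries H 10 ≠ derivedSeries H 9 := by
  obtain ⟨M, -⟩ := Cfsg.Lib.Spor.F23.exists_mdl0
  haveI := M.fin
  haveI hs := Cfsg.Lib.Spor.Fi23P.simple
  have hc := Cfsg.Lib.Spor.F23.cardG M
  have hna : ¬ IsMulCommutative Cfsg.Spor.Fi23 := fun h => by
    letI : CommGroup Cfsg.Spor.Fi23 := { (inferInstance : Group Cfsg.Spor.Fi23) with mul_comm := h.1.1 }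
    have := IsSimpleGroup.prime_card (α := Cfsg.Spor.Fi23)
    rw [hc] at this
    exact absurd this (by norm_num)
  refine ⟨Cfsg.Spor.Fi23, inferInstance, inferInstance, ⊤, M.grp Cfsg.Lib.Spor.F23.mxHσ, inferInstance,
    Subgroup.topEquiv.isSimpleGroup, fun h => hna ⟨⟨fun a b => ?_⟩⟩, ?_, Cfsg.Lib.Spor.F23.mx_coatom M, ?_⟩
  · exact congrArg Subtype.val (h.1.1 ⟨a, trivial⟩ ⟨b, trivial⟩)
  · rw [Subgroup.coe_top, Subgroup.centralizer_univ]
    refine (IsSimpleGroup.eq_bot_or_eq_top_of_normal _ inferInstance).resolve_right fun e => hna ⟨⟨fun a b => ?_⟩⟩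
    have : b ∈ Subgroup.center Cfsg.Spor.Fi23 := e ▸ Subgroup.mem_top b
    exact Subgroup.mem_center_iff.1 this a
  · haveI : Group.IsSolvable (M.grp Cfsg.Lib.Spor.F23.mxHσ) :=
      Cfsg.Lib.Char.isSolvable_of_card_dvd (p := 2) (q := 3) (a := 11) (b := 13) Nat.prime_two Nat.prime_three _
        (by rw [(Cfsg.Lib.Spor.F23.mxH M).1]; norm_num)
    exact Cfsg.Lib.Known.fm_der_ne (Cfsg.Lib.Spor.F23.mx_der M)

end Cfsg.Agent.S5883
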