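import Cfsg.Statements.S5885


set_option autoImplicit false
open Cfsg

namespace Cfsg.Agent.S5885

open MulAction Pointwise

theorem three_cycles {G Ω : Type*} [Group G] [MulAction G Ω] [IsPreprimitive G Ω] {n : ℕ}
    (e : Ω ≃ Fin n)
    (hA : ∀ P : Subgroup (Equiv.Perm (Fin n)), IsPreprimitive P (Fin n) → alternatingGroup (Fin n) ≤ P)
    {x y z : Ω} (hxy : x ≠ y) (hxz : x ≠ z) (hyz : y ≠ z) :
    ∃ g : G, g • x = y ∧ g • y = z ∧ ∀ t, t ≠ x → t ≠ y → t ≠ z → g • t = t := by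
  classical
  let ψ : G →* Equiv.Perm (Fin n) := (e.permCongrHom : Equiv.Perm Ω →* Equiv.Perm (Fin n)).comp (toPermHom G Ω)
  have hψ : ∀ g t, ψ g (e t) = e (g • t) := fun g t => by simp [ψ]
  let f : Ω →ₑ[ψ.rangeRestrict] Fin n :=
    { toFun := e, map_smul' := fun g t => (hψ g t).symm }
  have hP : IsPreprimitive ψ.range (Fin n) := IsPreprimitive.of_surjective (f := f) e.surjective
  have hmem : Equiv.swap (e x) (e z) * Equiv.swap (e x) (e y) ∈ alternatingGroup (Fin n) := by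
    rw [Equiv.Perm.mem_alternatingGroup, map_mul, Equiv.Perm.sign_swap (e.injective.ne hxz),
      Equiv.Perm.sign_swap (e.injective.ne hxy)]
    simp
  obtain ⟨g, hg⟩ := hA _ hP hmem
  refine ⟨g, e.injective ?_, e.injective ?_, fun t h1 h2 h3 => e.injective ?_⟩
  · rw [← hψ, hg, Equiv.Perm.mul_apply, Equiv.swap_apply_left,
      Equiv.swap_apply_of_ne_of_ne (e.injective.ne hxy.symm) (e.injective.ne hyz)]
  · rw [← hψ, hg, Equiv.Perm.mul_apply, Equiv.swap_apply_right, Equiv.swap_apply_left]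
  · rw [← hψ, hg, Equiv.Perm.mul_apply,
      Equiv.swap_apply_of_ne_of_ne (e.injective.ne h1) (e.injective.ne h2),
      Equiv.swap_apply_of_ne_of_ne (e.injective.ne h1) (e.injective.ne h3)]

theorem core_step {G Ω : Type*} [Group G] [MulAction G Ω] [Finite Ω] (hodd : Odd (Nat.card Ω))
    (h3 : ∀ {x y z : Ω}, x ≠ y → x ≠ z → y ≠ z →
      ∃ g : G, g • x = y ∧ g • y = z ∧ ∀ t, t ≠ x → t ≠ y → t ≠ z → g • t = t)
    (a : Ω) (H L K : Subgroup G)
    (hmax : ∀ T : Subgroup G, H ≤ T → T ≤ stabilizer G a → T = H ∨ T = stabilizer G a)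
    (hHa : H ≤ stabilizer G a) (hHL : H ≤ L) (hLK : L ≤ K) (hKa : K ⊓ stabilizer G a ≤ H)
    (hLH : ¬ L ≤ H) : K ≤ L := by
  classical
  intro k hk
  by_contra hkL
  obtain ⟨l, hl, hlH⟩ : ∃ l ∈ L, l ∉ H := by
    by_contra h
    push Not at h
    exact hLH h
  -- the key block property
  have key : ∀ {g l1 l2 : G}, g ∈ K → l1 ∈ L → l2 ∈ L → (g * l1) • a = l2 • a → g ∈ L := by
    intro g l1 l2 hg h1 h2 h
    have : l2⁻¹ * (g * l1) ∈ H := hKa ⟨K.mul_mem (K.inv_mem (hLK h2)) (K.mul_mem hg (hLK h1)), by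
      show _ ∈ stabilizer G a
      rw [mem_stabilizer_iff, mul_smul, h, inv_smul_smul]⟩
    have h' := L.mul_mem (L.mul_mem h2 (hHL this)) (L.inv_mem h1)
    simpa [mul_assoc] using h'
  set Γ : Set Ω := orbit L a with hΓ
  have hmemΓ : ∀ {t}, t ∈ Γ ↔ ∃ l ∈ L, l • a = t := fun {t} =>
    ⟨fun ⟨⟨l, hl⟩, h⟩ => ⟨l, hl, h⟩, fun ⟨l, hl, h⟩ => ⟨⟨l, hl⟩, h⟩⟩
  have hdisj : ∀ {l1}, l1 ∈ L → (k * l1) • a ∉ Γ := fun {l1} h1 h => by
    obtain ⟨l2, h2, h⟩ := hmemΓ.1 h
    exact hkL (key hk h1 h2 h.symm)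
  have hla : l • a ≠ a := fun h => hlH (hKa ⟨hLK hl, h⟩)
  have hxw : (k * 1) • a ≠ (k * l) • a := fun h => by
    rw [mul_one, mul_smul] at h
    exact hla (MulAction.injective k h).symm
  have haΓ : a ∈ Γ := hmemΓ.2 ⟨1, L.one_mem, one_smul _ _⟩
  have hlΓ : l • a ∈ Γ := hmemΓ.2 ⟨l, hl, rfl⟩
  -- the stabiliser of `Γ` in the point stabiliser is `H`
  have hT : stabilizer G a ⊓ stabilizer G Γ = H := by
    refine (hmax _ (le_inf hHa fun h hh => ?_) inf_le_left).resolve_right fun hT => ?_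
    · rw [mem_stabilizer_iff]
      exact smul_orbit (⟨h, hHL hh⟩ : L) a
    · have hne1 : l • a ≠ (k * 1) • a := fun h => hdisj L.one_mem (h ▸ hlΓ)
      have hne2 : l • a ≠ (k * l) • a := fun h => hdisj hl (h ▸ hlΓ)
      obtain ⟨g, hg1, -, hg3⟩ := h3 hne1 hne2 hxw
      have hga : g ∈ stabilizer G a := hg3 a hla.symm (fun h => hdisj L.one_mem (h ▸ haΓ))
        (fun h => hdisj hl (h ▸ haΓ))
      rw [← hT] at hga
      have : g • Γ = Γ := hga.2
      apply hdisj L.one_mem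
      rw [← hg1, ← this]
      exact Set.smul_mem_smul_set hlΓ
  -- a point outside `Γ ∪ k Γ`
  obtain ⟨z, hz1, hz2⟩ : ∃ z, z ∉ Γ ∧ z ∉ k • Γ := by
    by_contra hz
    push Not at hz
    have hu : Γ ∪ k • Γ = Set.univ := Set.eq_univ_of_forall fun t => by
      by_cases ht : t ∈ Γ
      · exact Or.inl ht
      · exact Or.inr (hz t ht)
    have hd : Disjoint Γ (k • Γ) := by
      rw [Set.disjoint_right]
      rintro _ ⟨t, ht, rfl⟩
      obtain ⟨l1, h1, rfl⟩ := hmemΓ.1 ht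
      simpa [mul_smul] using hdisj h1
    have hc := Set.ncard_union_eq hd
    rw [hu, Set.ncard_univ, Set.ncard_smul_set] at hc
    rw [hc] at hodd
    exact (Nat.not_even_iff_odd.2 hodd) ⟨_, rfl⟩
  have hxz : (k * 1) • a ≠ z := fun h => hz2 ⟨a, haΓ, by simpa using h⟩
  have hwz : (k * l) • a ≠ z := fun h => hz2 ⟨l • a, hlΓ, by simpa [mul_smul] using h⟩
  obtain ⟨g, hg1, hg2, hg3⟩ := h3 hxw hxz hwz
  have hfix : ∀ t ∈ Γ, g • t = t := fun t ht => hg3 t (fun h => hdisj L.one_mem (h ▸ ht))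
    (fun h => hdisj hl (h ▸ ht)) (fun h => hz1 (h ▸ ht))
  have hgH : g ∈ H := by
    rw [← hT]
    refine ⟨hfix a haΓ, ?_⟩
    show g ∈ stabilizer G Γ
    rw [mem_stabilizer_iff]
    ext t
    constructor
    · rintro ⟨s, hs, rfl⟩
      show g • s ∈ Γ
      rwa [hfix s hs]
    · intro ht
      exact ⟨t, ht, hfix t ht⟩
  have hgK : g ∈ K := hLK (hHL hgH)
  have hc : k⁻¹ * g * k ∈ L := by
    refine key (K.mul_mem (K.mul_mem (K.inv_mem hk) hgK) hk) L.one_mem hl ?_
    have : (k⁻¹ * g * k * 1) • a = k⁻¹ • g • (k * 1) • a := by simp [mul_smul]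
    rw [this, hg1, mul_smul, inv_smul_smul]
  apply hz2
  refine ⟨(k⁻¹ * g * k * l) • a, hmemΓ.2 ⟨_, L.mul_mem hc hl, rfl⟩, ?_⟩
  rw [← hg2]
  simp [mul_smul]


/-- Let n be an odd positive integer such that every primitive permutation group of degree n contains the alternating group (so the symmetric and alternating groups are the only primitive groups of degree n). Let G be a finite group, M a maximal subgroup of G of index n, and H a maximal subgroup of M. Then H is a second maximal subgroup of G: H is maximal in every maximal subgroup K of G containing H. -/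
theorem result {G : Type*} [Group G]
    [Finite G] (n : ℕ) (hodd : Odd n)
    (hA : ∀ P : Subgroup (Equiv.Perm (Fin n)), MulAction.IsPreprimitive P (Fin n) → alternatingGroup (Fin n) ≤ P)
    (M : Subgroup G) (hM : IsCoatom M) (hn : M.index = n) (H : Subgroup G) (hHM : H ≤ M)
    (hmax : IsCoatom (H.subgroupOf M)) (K : Subgroup G) (hK : IsCoatom K) (hHK : H ≤ K) :
    IsCoatom (H.subgroupOf K) := by
  classical
  by_cases hKM : K = M
  · subst hKM; exact hmax
  have hmax' : ∀ T : Subgroup G, H ≤ T → T ≤ M → T = H ∨ T = M := by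
    intro T h1 h2
    by_cases hT : T.subgroupOf M = H.subgroupOf M
    · left
      have := congrArg (Subgroup.map M.subtype) hT
      rwa [Subgroup.subgroupOf_map_subtype, Subgroup.subgroupOf_map_subtype, inf_eq_left.2 h2,
        inf_eq_left.2 hHM] at this
    · right
      have := hmax.2 (T.subgroupOf M) (lt_of_le_of_ne (Subgroup.comap_mono h1) (Ne.symm hT))
      exact le_antisymm h2 (Subgroup.subgroupOf_eq_top.1 this)
  have hKa : K ⊓ M ≤ H := by
    rcases hmax' (K ⊓ M) (le_inf hHK hHM) inf_le_right with h | h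
    · exact h.le
    · exact absurd ((hM.le_iff_eq hK.1).1 (inf_eq_right.1 h)) hKM
  have hst : stabilizer G ((1 : G) : G ⧸ M) = M := stabilizer_quotient M
  have hnt : Nontrivial (G ⧸ M) := by
    rw [← not_subsingleton_iff_nontrivial, QuotientGroup.subsingleton_iff]
    exact hM.1
  have hprim : IsPreprimitive G (G ⧸ M) :=
    (isCoatom_stabilizer_iff_preprimitive G ((1 : G) : G ⧸ M)).1 (hst.symm ▸ hM)
  have hcard : Nat.card (G ⧸ M) = n := hn
  let e : (G ⧸ M) ≃ Fin n := Finite.equivFinOfCardEq hcard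
  refine ⟨fun h => ?_, fun L' hL' => ?_⟩
  · have h1 : K ≤ M := (Subgroup.subgroupOf_eq_top.1 h).trans hHM
    exact hKM ((hK.le_iff_eq hM.1).1 h1).symm
  · have := core_step (Ω := G ⧸ M) (hcard ▸ hodd) (fun h1 h2 h3 => three_cycles e hA h1 h2 h3)
      ((1 : G) : G ⧸ M) H (L'.map K.subtype) K (by rw [hst]; exact hmax') (by rw [hst]; exact hHM)
      (fun h hh => ⟨⟨h, hHK hh⟩, hL'.le hh, rfl⟩) (Subgroup.map_subtype_le _)
      (by rw [hst]; exact hKa)
      (fun h => hL'.not_ge fun x hx => h ⟨x, hx, rfl⟩)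
    rw [eq_top_iff]
    rintro ⟨x, hx⟩ -
    obtain ⟨y, hy, rfl⟩ := this hx
    exact hy

end Cfsg.Agent.S5885
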