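import Cfsg.Statements.S5887
import Cfsg.Agent.Class.FieldExtMat

set_option autoImplicit false
open Cfsg

namespace Cfsg.Agent.S5887

open Cfsg.Lib.Class Cfsg.Lib.Class.Asch Cfsg.Geo

/-- Let F be a finite field, n a positive integer and r a composite number (r > 1, not prime) that divides n with r < n. Let K be a subalgebra of the algebra of n × n matrices over F which is a field of degree r over F (commutative, every non-zero element invertible, of dimension r over F). Then the normaliser N of K in GL_n(F) (a group of type ΓL_{n/r}(F_{q^r})) is not a maximal subgroup of GL_n(F), and N ∩ SL_n(F) is not a maximal subgroup of SL_n(F): both lie properly inside the normaliser of an intermediate subfield of prime degree over F. -/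
theorem result {F : Type*} [Field F]
    [Fintype F] (n r : ℕ) (hr1 : 1 < r) (hrp : ¬ r.Prime) (hrn : r ∣ n) (hlt : r < n)
    (K : Subalgebra F (Matrix (Fin n) (Fin n) F)) (hK : Cfsg.Geo.IsFieldSubalgebra r K) :
    ¬ IsCoatom (Cfsg.Geo.subalgebraNormalizer K) ∧
      ¬ Cfsg.Geo.IsMaximalIn (Cfsg.Geo.specialLinear (Fin n) F)
        (Cfsg.Geo.subalgebraNormalizer K ⊓ Cfsg.Geo.specialLinear (Fin n) F) := by
  have : Nonempty (Fin n) := ⟨⟨0, by omega⟩⟩
  have hs := Nat.minFac_prime hr1.ne'
  have hsr : r.minFac < r := (Nat.not_prime_iff_minFac_lt hr1).1 hrp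
  obtain ⟨K₀, hle, hK₀⟩ := IsFieldSubalgebra.exists_le hK (Nat.minFac_dvd r)
  have hN : subalgebraNormalizer K ≤ subalgebraNormalizer K₀ :=
    (IsFieldSubalgebra.nrm_of_le hK hle (nrm_of_le_subalgebraNormalizer le_rfl)).le_subalgebraNormalizer
  obtain ⟨g, hg, hd⟩ := exists_mem_normalizer_finrank_fixed hK₀ (by simp; omega)
  rw [Fintype.card_fin] at hd
  have hgK : g ∉ subalgebraNormalizer K := fun h ↦ by
    rcases finrank_fixed_of_mem_normalizer hK h with h1 | h1
    · rw [← hd] at hrn
      have := Nat.le_of_dvd hs.pos ((Nat.dvd_add_right h1).1 hrn)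
      omega
    · rw [Fintype.card_fin] at h1
      obtain ⟨m, rfl⟩ := hrn
      have : r * 2 ≤ r * m := Nat.mul_le_mul_left _ (by
        by_contra h
        have : r * m ≤ r * 1 := Nat.mul_le_mul_left _ (by omega)
        omega)
      omega
  have hSL := not_SL_le_subalgebraNormalizer hK₀ hs.two_le (by simp; omega)
  refine ⟨fun h ↦ hSL ((h.2 _ (lt_of_le_of_ne hN fun e ↦ hgK (e ▸ hg.1))).symm ▸ le_top),
    fun h ↦ ?_⟩
  rcases h.2 (subalgebraNormalizer K₀ ⊓ specialLinear (Fin n) F) (inf_le_inf_right _ hN)
    inf_le_right with h1 | h1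
  · exact hgK (h1.le hg).1
  · exact hSL (h1.ge.trans inf_le_left)

end Cfsg.Agent.S5887
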