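import Cfsg.Statements.S5890
import Cfsg.Agent.Class.PSL2MaxList

set_option autoImplicit false
open Cfsg

namespace Cfsg.Agent.S5890

open Cfsg.Lib.Class

/-- Let F be a finite field with q ≥ 4 elements, let L ≤ PGL₂(F) be the image of SL₂(F) (a copy of PSL₂(F), of index gcd(2, q − 1)), and let M be a maximal subgroup of PGL₂(F) that does not contain L. Suppose q ∉ {7, 9, 11} and that q is not a prime congruent to ±11 or ±19 modulo 40. Then M ∩ L is a maximal subgroup of L. (For the excluded q there are maximal subgroups of PGL₂(q) — dihedral groups of order 12 and 16 at q = 7, of order 20 and 16 at q = 9, of order 20 at q = 11, and S₄ at the excluded primes — whose intersection with L is not maximal in L.) -/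
theorem result {F : Type*} [Field F]
    [Fintype F] (h4 : 4 ≤ Fintype.card F) (h7 : Fintype.card F ≠ 7) (h9 : Fintype.card F ≠ 9) (h11 : Fintype.card F ≠ 11)
    (h40 : (Fintype.card F).Prime → Fintype.card F % 40 ∉ ({11, 19, 21, 29} : Finset ℕ))
    (M : Subgroup (Matrix.ProjGenLinGroup (Fin 2) F)) (hM : IsCoatom M)
    (hML : ¬ (Matrix.ProjGenLinGroup.mk.comp Matrix.SpecialLinearGroup.toGL).range ≤ M) :
    IsCoatom ((M ⊓ (Matrix.ProjGenLinGroup.mk.comp Matrix.SpecialLinearGroup.toGL).range).subgroupOf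
      (Matrix.ProjGenLinGroup.mk.comp Matrix.SpecialLinearGroup.toGL).range) := by
  rw [← Nat.card_eq_fintype_card] at h4 h7 h9 h11 h40
  change ¬ psl2 F ≤ M at hML
  change IsCoatom ((M ⊓ psl2 F).comap (psl2 F).subtype)
  rw [isCoatom_comap_iff_covBy _ (psl2 F).subtype_injective
    (by rw [Subgroup.range_subtype]; exact inf_le_right), Subgroup.range_subtype, inf_comm]
  by_cases h2 : (2 : F) ≠ 0
  swap
  · rw [two_ne_zero_iff_ringChar, not_not] at h2
    rw [psl2_eq_top h2, top_inf_eq]
    exact hM.covBy_top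
  have key : ∀ N, N ⋖ psl2 F → N ≤ M → psl2 F ⊓ M ⋖ psl2 F := fun N h1 h3 => by
    rcases h1.eq_or_eq (le_inf h1.le h3) inf_le_left with h | h
    · rwa [h]
    · exact absurd (h.ge.trans inf_le_right) hML
  have hodd := Nat.odd_iff.1 (two_ne_zero_iff_odd.1 h2)
  rcases isCoatom_pgl2_cases h2 (by omega) hM hML with ⟨x, rfl⟩ |
    ⟨x, y, hT, rfl, h | ⟨h, h5⟩⟩ | ⟨hp, h8, e⟩ | ⟨F₀, c, r, hr, hr2, hq, h3, rfl⟩
  · obtain ⟨p, _, _⟩ := exists_char F
    exact inf_stabilizer_covBy p x
  · exact hT.inf_stabPair_covBy_nonsplit h (by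
      simp only [Finset.mem_insert, Finset.mem_singleton]; omega)
  · exact hT.inf_stabPair_covBy_split h (by
      simp only [Finset.mem_insert, Finset.mem_singleton]; omega)
  · obtain ⟨A, hA, e'⟩ := exists_A4_le_of_S4 e
    have h5 := h40 hp
    simp only [Finset.mem_insert, Finset.mem_singleton] at h5
    exact key A (covBy_psl2_of_A4 hp (by omega) h8 (by omega) e') hA
  · exact key _ (pslSub_conj_covBy_psl2 hr hq h3 (fun _ => hr2) c)
      (Subgroup.map_mono (pslSub_le_pglSub F₀))

end Cfsg.Agent.S5890
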