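import Cfsg.Statements.S5893
import Cfsg.Agent.Class.PSL2Subfield

set_option autoImplicit false
open Cfsg

namespace Cfsg.Agent.S5893

open Cfsg.Lib.Class

/-- Let F be a finite field of even order q ≥ 4 and let M be a maximal subgroup of PSL₂(F) (= SL₂(F) = PGL₂(F)). Then one of the following holds: |M| = q(q − 1) (the stabiliser of a point of the projective line, elementary abelian of order q extended by a cyclic group of order q − 1); M is dihedral of order 2(q − 1); M is dihedral of order 2(q + 1); or q = q₀^r for a prime r with q₀ ≠ 2 and M ≅ PSL₂(F₀) with |F₀| = q₀. -/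
theorem result {F : Type*} [Field F] [Fintype F]
    (heven : Even (Fintype.card F)) (h4 : 4 ≤ Fintype.card F) (M : Subgroup (Matrix.ProjectiveSpecialLinearGroup (Fin 2) F)) (hM : IsCoatom M) :
    Nat.card M = Fintype.card F * (Fintype.card F - 1) ∨
    Nonempty (M ≃* DihedralGroup (Fintype.card F - 1)) ∨
    Nonempty (M ≃* DihedralGroup (Fintype.card F + 1)) ∨
    (∃ (F₀ : Type) (_ : Field F₀) (_ : Fintype F₀) (r : ℕ), r.Prime ∧ Fintype.card F₀ ≠ 2 ∧
        Fintype.card F = Fintype.card F₀ ^ r ∧ Nonempty (M ≃* Matrix.ProjectiveSpecialLinearGroup (Fin 2) F₀)) := by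
  rw [← Nat.card_eq_fintype_card] at heven h4 ⊢
  have h2 : ¬ (2 : F) ≠ 0 := by rwa [two_ne_zero_iff_odd, Nat.not_odd_iff_even]
  have hc : ringChar F = 2 := by rwa [two_ne_zero_iff_ringChar, not_not] at h2
  have : CharP F 2 := hc ▸ ringChar.charP F
  have e := mapPslιEquiv M
  rw [isCoatom_iff_covBy_psl2] at hM
  have hmax : ∀ N, M.map pslι ≤ N → ¬ psl2 F ≤ N → M.map pslι = N := fun N h1 h3 =>
    ((hM.eq_or_eq h1 (psl2_eq_top hc ▸ le_top)).resolve_right fun h => h3 h.ge).symm
  rcases dickson_of_not_le 2 hM.lt.not_ge with ⟨x, hx⟩ | ⟨x, y, hT, _, hxy⟩ | ⟨h, h'⟩ | ⟨h, _⟩ |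
    ⟨F₀, c, hF₀, h3, h⟩
  · left
    rw [← card_map_pslι, hmax _ hx (not_psl2_le_stabilizer x), card_stabilizer_pgl2]
  · have h1 := hT.stabPair_dihedral
    rw [← hmax _ hxy (not_psl2_le_stabPair (by omega) hT.ne)] at h1
    rcases hT.card_fixPair with h | h <;> rw [h] at h1
    · exact Or.inr (Or.inl (h1.map fun e' => e.trans e'))
    · exact Or.inr (Or.inr (Or.inl (h1.map fun e' => e.trans e')))
  · exact absurd (by rcases h'.card with h | h | h <;> rw [h] <;> norm_num) h
  · omega
  · have h5 : M.map pslι = (pslSub F₀).map (MulAut.conj c).toMonoidHom := by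
      rcases h with h | h
      · rw [h, pslSub_eq_pglSub_of_char_two h2]
      · exact h
    obtain ⟨r, hr, hq⟩ := exists_prime_of_forall_eq hF₀ fun F₁ h6 h7 h8 => by
      have h9 := hmax _ (h5.le.trans (Subgroup.map_mono (pslSub_mono h6)))
        (IsSubfieldType.not_psl2_le (Or.inr rfl) h7)
      have h10 := card_pglSub_lt_pslSub h8
      rw [← pslSub_eq_pglSub_of_char_two h2, ← card_map_conj _ c, ← card_map_conj (pslSub F₁) c,
        ← h5, h9] at h10
      exact h10.ne rfl
    obtain ⟨K, _, _, hK, ⟨φ⟩⟩ := exists_small_field F₀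
    exact Or.inr (Or.inr (Or.inr ⟨K, inferInstance, inferInstance, r, hr, by omega, by rw [hK, hq],
      ⟨e.trans ((MulEquiv.subgroupCongr h5).trans ((conjEquiv _ c).symm.trans
        ((pslSubEquiv F₀).symm.trans (pslEquiv (Fin 2) φ))))⟩⟩))

end Cfsg.Agent.S5893
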