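import Cfsg.Statements.S5894
import Cfsg.Agent.Char.Wreath

set_option autoImplicit false
open Cfsg

namespace Cfsg.Agent.S5894

open Cfsg.Lib.Char

open Equiv Equiv.Perm

theorem mem_of_swaps {Ω : Type*} [Fintype Ω] [DecidableEq Ω] (a : Ω) (N : Subgroup (Perm Ω))
    (h : ∀ x y, x ≠ a → y ≠ a → swap x y ∈ N) (g : Perm Ω) (hg : g a = a) : g ∈ N := by
  induction' hn : g.support.card using Nat.strong_induction_on with n ih generalizing g
  by_cases h1 : g = 1
  · rw [h1]; exact one_mem _
  obtain ⟨x, hx⟩ : ∃ x, g x ≠ x := by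
    by_contra! hc
    exact h1 (Equiv.ext hc)
  have hxa : x ≠ a := fun e => hx (by rw [e, hg])
  have hga : g x ≠ a := fun e => hxa (g.injective (e.trans hg.symm))
  have := ih _ (hn ▸ card_support_swap_mul hx) (swap x (g x) * g)
    (by simp [hg, swap_apply_of_ne_of_ne hxa.symm hga.symm]) rfl
  exact (mul_mem_cancel_left (h _ _ hxa hga)).1 this

theorem aux {Ω : Type*} [Fintype Ω] [DecidableEq Ω] {m : ℕ} (hm : 2 ≤ m) {f : Ω → Fin 2}
    (hf : ∀ i, Nat.card {x : Ω // f x = i} = m) :
    ∃ M H K : Subgroup (Perm Ω), IsCoatom M ∧ M.index = Nat.card Ω ∧ H ≤ M ∧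
      IsCoatom (H.subgroupOf M) ∧ IsCoatom K ∧ H ≤ K ∧ ¬ IsCoatom (H.subgroupOf K) := by
  obtain ⟨a, a', haa, ha, ha'⟩ := Wreath.exists_two hm hf 1
  obtain ⟨b, b', hbb, hb, hb'⟩ := Wreath.exists_two hm hf 0
  have two : ∀ i j k : Fin 2, i ≠ k → j ≠ k → i = j := by decide
  have hne : ∀ {x y}, f x = 0 → f y = 1 → x ≠ y := fun h1 h2 e => by
    rw [e, h2] at h1; simp at h1
  haveI : Nontrivial Ω := ⟨a, a', haa⟩
  refine ⟨MulAction.stabilizer _ a, MulAction.stabilizer _ a ⊓ Wreath.partStab f, Wreath.partStab f,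
    ?_, MulAction.index_stabilizer_of_transitive _ a, inf_le_left, ⟨fun h => ?_, fun N hN => ?_⟩,
    Wreath.isCoatom_partStab hm le_rfl hf, inf_le_right, fun h => ?_⟩
  · exact MulAction.IsPreprimitive.isCoatom_stabilizer_of_isPreprimitive _ a
  · have h0 : swap b a' ∈ MulAction.stabilizer (Perm Ω) a :=
      swap_apply_of_ne_of_ne (hne hb ha).symm haa
    have h1 : (⟨_, h0⟩ : MulAction.stabilizer (Perm Ω) a) ∈ (MulAction.stabilizer _ a ⊓
      Wreath.partStab f).subgroupOf (MulAction.stabilizer _ a) := h ▸ Subgroup.mem_top _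
    have h2 := (h1.2 b b').1 (hb.trans hb'.symm)
    simp [swap_apply_of_ne_of_ne hbb.symm (hne hb' ha'), ha', hb'] at h2
  · obtain ⟨h, hh, hh'⟩ := SetLike.not_le_iff_exists.1 hN.not_ge
    have hha : h.1 a = a := h.2
    set N' := N.map (MulAction.stabilizer (Perm Ω) a).subtype
    have same : ∀ x y, x ≠ a → y ≠ a → f x = f y → swap x y ∈ N' := fun x y hx hy e =>
      ⟨⟨_, swap_apply_of_ne_of_ne hx.symm hy.symm⟩,
        hN.le ⟨swap_apply_of_ne_of_ne hx.symm hy.symm, Wreath.swap_mem e⟩, rfl⟩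
    obtain ⟨x, y, hx, hy, e, e'⟩ : ∃ x y, x ≠ a ∧ y ≠ a ∧ f x = f y ∧ f (h.1 x) ≠ f (h.1 y) := by
      by_contra! hc
      have h0 : ∀ x, f x = 0 → f (h.1 x) = f (h.1 b) := fun x hx =>
        hc x b (hne hx ha) (hne hb ha) (hx.trans hb.symm)
      have hs := Finite.injective_iff_surjective_of_equiv (α := {x // f x = 0})
        (β := {x // f x = f (h.1 b)}) (f := fun x => ⟨h.1 x.1, h0 x.1 x.2⟩)
        ((Finite.equivFinOfCardEq (hf 0)).trans (Finite.equivFinOfCardEq (hf _)).symm)
      have hs' := hs.1 fun x y hxy => Subtype.ext (h.1.injective (congrArg Subtype.val hxy))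
      have h1 : ∀ x, f (h.1 x) = f (h.1 b) → f x = 0 := fun x hx => by
        obtain ⟨z, hz⟩ := hs' ⟨_, hx⟩
        rw [← h.1.injective (congrArg Subtype.val hz)]; exact z.2
      have h2 : f (h.1 b) = 0 := two _ _ 1 (fun e => hne (h1 a (by rw [hha, ha, e])) ha rfl) (by simp)
      refine hh' ⟨h.2, Wreath.mem_of_lift 1 fun z => ?_⟩
      by_cases hz : f z = 0
      · exact (h0 z hz).trans (h2.trans hz.symm)
      · exact two _ _ 0 (fun e => hz (h1 z (e.trans h2.symm))) hz
    have hx' : h.1 x ≠ a := fun e => hx (h.1.injective (e.trans hha.symm))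
    have hy' : h.1 y ≠ a := fun e => hy (h.1.injective (e.trans hha.symm))
    have hs : swap (h.1 x) (h.1 y) ∈ N' := by
      rw [swap_apply_apply]
      have : h.1 ∈ N' := ⟨h, hh, rfl⟩
      exact mul_mem (mul_mem this (same x y hx hy e)) (inv_mem this)
    have all : ∀ u, u ≠ a → swap (h.1 x) u ∈ N' := fun u hu => by
      by_cases e1 : f (h.1 x) = f u
      · exact same _ _ hx' hu e1
      · exact SubmonoidClass.swap_mem_trans _ hs (same _ _ hy' hu (two _ _ _ e'.symm (Ne.symm e1)))
    refine top_le_iff.1 fun g _ => ?_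
    obtain ⟨k, hk, e⟩ := mem_of_swaps a N' (fun u v hu hv => SubmonoidClass.swap_mem_trans _
      (swap_comm u _ ▸ all u hu) (all v hv)) g.1 g.2
    rwa [← Subtype.ext e]
  · let L : Subgroup (Wreath.partStab f) :=
      { carrier := {g | ∀ x, f (g.1 x) = f x}
        one_mem' := fun _ => rfl
        mul_mem' := fun {g h} hg hh x => (hg _).trans (hh x)
        inv_mem' := fun {g} hg x => by simpa using (hg (g.1⁻¹ x)).symm }
    have h1 : (MulAction.stabilizer _ a ⊓ Wreath.partStab f).subgroupOf (Wreath.partStab f) ≤ L := by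
      intro g hg x
      have h2 : g.1 a = a := hg.1
      have h3 := g.2 x a
      rw [h2] at h3
      by_cases e : f x = f a
      · rw [e]; exact h3.1 e
      · exact two _ _ _ (fun e' => e (h3.2 e')) e
    have h2 := h.2 L (h1.lt_of_ne fun h3 => by
      have h4 : (⟨_, Wreath.swap_mem (ha.trans ha'.symm)⟩ : Wreath.partStab f) ∈ L :=
        Wreath.apply_swap (ha.trans ha'.symm)
      rw [← h3] at h4
      have h5 : swap a a' a = a := h4.1
      exact haa (by simpa using h5.symm))
    obtain ⟨g, hg⟩ := Wreath.exists_lift hf (swap 0 1)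
    have h3 : (⟨g, Wreath.mem_of_lift _ hg⟩ : Wreath.partStab f) ∈ L := h2 ▸ Subgroup.mem_top _
    have h4 := (hg a).symm.trans (h3 a)
    simp [ha] at h4

/-- For every m ≥ 2 the symmetric group on 2m letters has a maximal subgroup M of index 2m together with a maximal subgroup H of M that is not second maximal: some maximal subgroup K of the symmetric group contains H without H being maximal in K. (One may take M the stabiliser of a letter, H ≅ S_m × S_{m−1} inside it, and K ≅ S_m ≀ S₂ the stabiliser of a partition into two m-sets, with H < S_m × S_m < K.) So the prime-index hypothesis in the second-maximality criterion cannot be relaxed to any even index ≥ 4. -/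
theorem result (m : ℕ) (hm : 2 ≤ m) :
    ∃ M H K : Subgroup (Equiv.Perm (Fin (2 * m))), IsCoatom M ∧ M.index = 2 * m ∧ H ≤ M ∧ IsCoatom (H.subgroupOf M) ∧
      IsCoatom K ∧ H ≤ K ∧ ¬ IsCoatom (H.subgroupOf K) := by
  let e : Fin (2 * m) ≃ Fin 2 × Fin m := finProdFinEquiv.symm
  have := aux (Ω := Fin (2 * m)) hm (f := fun x => (e x).1) fun i => by
    have : {x // (e x).1 = i} ≃ Fin m :=
      ⟨fun x => (e x.1).2, fun j => ⟨e.symm (i, j), by simp⟩, fun x => by
        obtain ⟨x, rfl⟩ := x; simp, fun j => by simp⟩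
    rw [Nat.card_congr this]; simp
  simpa using this

end Cfsg.Agent.S5894
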