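import Cfsg.Statements.S5895
import Mathlib.LinearAlgebra.Projectivization.Action
import Mathlib.GroupTheory.SemidirectProduct
import Mathlib.Algebra.Field.ZMod
import Mathlib.Tactic

set_option autoImplicit false
open Cfsg

namespace Cfsg.Agent.S5895

section
variable (k V : Type) [Field k] [AddCommGroup V] [Module k V]

/-- the action of the linear group on the translations -/
def φ : (V ≃ₗ[k] V) →* MulAut (Multiplicative V) where
  toFun A := AddEquiv.toMultiplicative A.toAddEquiv
  map_one' := rfl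
  map_mul' _ _ := rfl

theorem exists_smul_eq_of_ne_zero {V : Type} [AddCommGroup V] [Module k V] {v w : V} (hv : v ≠ 0)
    (hw : w ≠ 0) : ∃ A : V ≃ₗ[k] V, A v = w := by
  have : MulAction.IsPreprimitive (V ≃ₗ[k] V) (Projectivization k V) :=
    MulAction.isPreprimitive_of_is_two_pretransitive inferInstance
  obtain ⟨A, hA⟩ := MulAction.exists_smul_eq (V ≃ₗ[k] V) (Projectivization.mk k v hv) (.mk k w hw)
  have h1 : Projectivization.mk k (A v) (by simpa using hv) = .mk k w hw := hA
  obtain ⟨a, ha⟩ := (Projectivization.mk_eq_mk_iff _ _ _ _ _).1 h1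
  refine ⟨A.trans (LinearEquiv.smulOfUnit a⁻¹), ?_⟩
  show a⁻¹ • A v = w
  rw [← ha, inv_smul_smul]

theorem aux [Finite V] {e e' : V} (he : e ≠ 0) (he' : e' ∉ Submodule.span k {e}) :
    ∃ (M H K : Subgroup (Multiplicative V ⋊[φ k V] (V ≃ₗ[k] V))), IsCoatom M ∧
      M.index = Nat.card V ∧ H ≤ M ∧
      IsCoatom (H.subgroupOf M) ∧ IsCoatom K ∧ H ≤ K ∧ ¬ IsCoatom (H.subgroupOf K) := by
  open SemidirectProduct in
  have he0 : e' ≠ 0 := fun h => he' (h ▸ zero_mem _)
  have : Nontrivial (Projectivization k V) := ⟨.mk k e' he0, .mk k e he, fun h => by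
    obtain ⟨a, ha⟩ := (Projectivization.mk_eq_mk_iff' _ _ _ _ _).1 h
    exact he' (Submodule.mem_span_singleton.2 ⟨a, ha⟩)⟩
  have : MulAction.IsPreprimitive (V ≃ₗ[k] V) (Projectivization k V) :=
    MulAction.isPreprimitive_of_is_two_pretransitive inferInstance
  have : Finite (V ≃ₗ[k] V) := Finite.of_injective _ DFunLike.coe_injective
  set S := MulAction.stabilizer (V ≃ₗ[k] V) (Projectivization.mk k e he)
  have hS : IsCoatom S := MulAction.IsPreprimitive.isCoatom_stabilizer_of_isPreprimitive _ _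
  have hSW : ∀ A ∈ S, ∀ w ∈ Submodule.span k {e}, A w ∈ Submodule.span k {e} := fun A hA w hw => by
    obtain ⟨a, rfl⟩ := Submodule.mem_span_singleton.1 hw
    have h1 : Projectivization.mk k (A e) (by simpa using he) = .mk k e he := hA
    obtain ⟨b, hb⟩ := (Projectivization.mk_eq_mk_iff' _ _ _ _ _).1 h1
    rw [map_smul, ← hb]
    exact Submodule.smul_mem _ _ (Submodule.smul_mem _ _ (Submodule.mem_span_singleton_self e))
  set M : Subgroup (Multiplicative V ⋊[φ k V] (V ≃ₗ[k] V)) := (inr (φ := φ k V)).range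
  have hM : ∀ g, g ∈ M ↔ g.left = 1 := fun g =>
    ⟨fun ⟨A, h⟩ => h ▸ rfl, fun h => ⟨g.right, by ext <;> simp [h]⟩⟩
  refine ⟨M, M ⊓ S.comap rightHom, S.comap rightHom, ⟨fun h => ?_, fun X hX => ?_⟩, ?_, inf_le_left,
    ?_, (Subgroup.isCoatom_comap_of_surjective rightHom_surjective hS), inf_le_right, fun h => ?_⟩
  · exact he ((hM (inl (.ofAdd e))).1 (h ▸ Subgroup.mem_top _))
  · obtain ⟨g, hg, hg'⟩ := SetLike.exists_of_lt hX
    have h1 : inl g.left ∈ X := by
      rw [← mul_mem_cancel_right (hX.le ⟨g.right, rfl⟩), inl_left_mul_inr_right]; exact hg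
    refine top_le_iff.1 fun x _ => ?_
    rw [← inl_left_mul_inr_right x]
    refine mul_mem ?_ (hX.le ⟨_, rfl⟩)
    by_cases hx : x.left = 1
    · rw [hx, map_one]; exact one_mem _
    obtain ⟨A, hA⟩ := exists_smul_eq_of_ne_zero k (V := V) (v := g.left.toAdd) (w := x.left.toAdd)
      (fun h => hg' ((hM g).2 h)) hx
    have h2 : x.left = φ k V A g.left := hA.symm
    rw [h2, inl_aut, map_inv]
    exact mul_mem (mul_mem (hX.le ⟨_, rfl⟩) h1) (inv_mem (hX.le ⟨_, rfl⟩))
  · have h1 := M.index_mul_card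
    rw [SemidirectProduct.card, ← Nat.card_congr (MonoidHom.ofInjective inr_injective).toEquiv] at h1
    exact Nat.eq_of_mul_eq_mul_right Nat.card_pos h1
  · have : (M ⊓ S.comap rightHom).subgroupOf M = S.comap (rightHom.comp M.subtype) := by
      ext g; simp [Subgroup.mem_subgroupOf]
    rw [this]
    exact Subgroup.isCoatom_comap_of_surjective (fun A => ⟨⟨inr A, A, rfl⟩, rfl⟩) hS
  · let L : Subgroup (S.comap (rightHom : Multiplicative V ⋊[φ k V] (V ≃ₗ[k] V) →* _)) :=
      { carrier := {g | g.1.left.toAdd ∈ Submodule.span k {e}}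
        one_mem' := (Submodule.span k {e}).zero_mem
        mul_mem' := fun {a b} ha hb => add_mem ha (hSW _ a.2 _ hb)
        inv_mem' := fun {a} ha => hSW _ (inv_mem a.2) _ (neg_mem ha) }
    have hl : ∀ v, inl (φ := φ k V) v ∈ S.comap rightHom := fun v => by simp
    have h2 := h.2 L (lt_of_le_of_ne (fun g hg => by
      have : g.1.left = 1 := (hM _).1 hg.1
      show g.1.left.toAdd ∈ Submodule.span k {e}
      rw [this]; exact zero_mem _) fun h3 => by
        have h4 : (⟨_, hl (.ofAdd e)⟩ : S.comap rightHom) ∈ L := Submodule.mem_span_singleton_self e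
        rw [← h3] at h4
        exact he ((hM _).1 h4.1))
    have h4 : (⟨_, hl (.ofAdd e')⟩ : S.comap rightHom) ∈ L := h2 ▸ Subgroup.mem_top _
    exact he' h4

end

/-- For every prime p and every d ≥ 2 there is a finite group G with a maximal subgroup M of index p^d and a maximal subgroup H of M that is not second maximal in G: some maximal subgroup K of G contains H without H being maximal in K. (One may take G the affine group V ⋊ GL(V) of V = 𝔽_p^d, M = GL(V), H the stabiliser in M of a line W of V, and K = V ⋊ H, with H < W ⋊ H < K.) So the prime-index hypothesis in the second-maximality criterion cannot be relaxed to prime-power index. -/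
theorem result (p d : ℕ) (hp : p.Prime)
    (hd : 2 ≤ d) :
    ∃ (G : Type) (_ : Group G) (_ : Finite G) (M H K : Subgroup G), IsCoatom M ∧ M.index = p ^ d ∧ H ≤ M ∧
      IsCoatom (H.subgroupOf M) ∧ IsCoatom K ∧ H ≤ K ∧ ¬ IsCoatom (H.subgroupOf K) := by
  haveI := Fact.mk hp
  have : Finite ((Fin d → ZMod p) ≃ₗ[ZMod p] (Fin d → ZMod p)) :=
    Finite.of_injective _ DFunLike.coe_injective
  obtain ⟨M, H, K, h1, h2, h3⟩ := aux (ZMod p) (Fin d → ZMod p) (e := Pi.single ⟨0, by omega⟩ 1)
    (e' := Pi.single ⟨1, by omega⟩ 1) (by simp) (fun h => by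
      obtain ⟨a, ha⟩ := Submodule.mem_span_singleton.1 h
      simpa [Pi.single_apply, Fin.ext_iff] using congrFun ha ⟨1, by omega⟩)
  exact ⟨_, inferInstance, Finite.of_equiv _ SemidirectProduct.equivProd.symm, M, H, K, h1,
    by simpa using h2, h3⟩

end Cfsg.Agent.S5895
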