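import Cfsg.Statements.S5902
import Cfsg.Agent.Char.ComplLat

set_option autoImplicit false
open Cfsg

namespace Cfsg.Agent.S5902

open Cfsg.Lib.Char

/-- Let G be a finite group, X a subgroup whose own subgroup lattice is complemented, and suppose X lies in exactly one maximal subgroup M of G. Then every subgroup H of G not contained in the normal core of M has a complement in the subgroup lattice of G (some C with H ⊔ C = G and H ⊓ C = 1); in particular the subgroup lattice of G modulo the normal core of M is complemented. -/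
theorem result {G : Type*} [Group G] [Finite G] (X M : Subgroup G)
    (hK : ComplementedLattice (Subgroup X))
    (hM : IsCoatom M) (hXM : X ≤ M) (huniq : ∀ M' : Subgroup G, IsCoatom M' → X ≤ M' → M' = M) :
    (∀ H : Subgroup G, ¬ H ≤ M.normalCore → ∃ C : Subgroup G, H ⊔ C = ⊤ ∧ H ⊓ C = ⊥) ∧
    ComplementedLattice (Subgroup (G ⧸ M.normalCore)) := by
  refine ⟨fun H hH => ?_, ⟨fun K => ?_⟩⟩
  · obtain ⟨C, -, h1, h2⟩ := exists_compl_of_not_le_normalCore (T := ⊥) (X := X ⊔ ⊥) bot_le
      (interval_compl_sup_normal hK ⊥) (by simpa using huniq) hH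
    exact ⟨C, h1, eq_bot_iff.2 h2⟩
  · by_cases h : K = ⊥
    · exact ⟨⊤, h ▸ isCompl_bot_top⟩
    obtain ⟨C, h0, h1, h2⟩ := exists_compl_of_not_le_normalCore le_sup_right
      (interval_compl_sup_normal hK M.normalCore)
      (fun M' h1 h2 => huniq M' h1 (le_sup_left.trans h2))
      (H := K.comap (QuotientGroup.mk' M.normalCore)) fun h' => h (eq_bot_iff.2 fun x hx => by
        obtain ⟨y, rfl⟩ := QuotientGroup.mk_surjective x
        exact (QuotientGroup.eq_one_iff y).2 (h' hx))
    refine ⟨C.map (QuotientGroup.mk' _), disjoint_iff_inf_le.2 ?_, codisjoint_iff.2 ?_⟩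
    · rintro _ ⟨h3, y, hy, rfl⟩
      exact (QuotientGroup.eq_one_iff y).2 (h2 ⟨h3, hy⟩)
    · rw [← Subgroup.map_comap_eq_self_of_surjective (QuotientGroup.mk'_surjective _) K,
        ← Subgroup.map_sup, h1, Subgroup.map_top_of_surjective _ (QuotientGroup.mk'_surjective _)]

end Cfsg.Agent.S5902
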