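import Cfsg.Statements.S5903
import Cfsg.Agent.Char.ComplLat

set_option autoImplicit false
open Cfsg

namespace Cfsg.Agent.S5903

open Cfsg.Lib.Char

/-- Let G be a finite simple group, X a subgroup lying in exactly one maximal subgroup M of G, and N a subgroup of prime order with N ≤ X that is central in M. If the subgroup lattice of X/N is complemented, then the subgroup lattice of G is complemented. -/
theorem result {G : Type*} [Group G] [Finite G] [IsSimpleGroup G] (X M N : Subgroup G)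
    (hM : IsCoatom M) (hXM : X ≤ M) (huniq : ∀ M' : Subgroup G, IsCoatom M' → X ≤ M' → M' = M)
    (hNX : N ≤ X) (hN : (Nat.card N).Prime) (hcen : ∀ n ∈ N, ∀ m ∈ M, m * n = n * m)
    [(N.subgroupOf X).Normal] (hK : ComplementedLattice (Subgroup (X ⧸ N.subgroupOf X))) :
    ComplementedLattice (Subgroup G) := by
  have hN0 : N ≠ ⊥ := by
    rintro rfl
    simp [Nat.not_prime_one] at hN
  have hint : ∀ Y : Subgroup G, N ≤ Y → Y ≤ X →
      ∃ C : Subgroup G, N ≤ C ∧ C ≤ X ∧ Y ⊔ C = X ∧ Y ⊓ C = N := fun Y h1 h2 => by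
    obtain ⟨D, hD⟩ := exists_isCompl ((Y.subgroupOf X).map (QuotientGroup.mk' (N.subgroupOf X)))
    have h3 : ((Y.subgroupOf X).map (QuotientGroup.mk' (N.subgroupOf X))).comap
        (QuotientGroup.mk' _) = Y.subgroupOf X := Subgroup.comap_map_eq_self (by
      rw [QuotientGroup.ker_mk']; exact Subgroup.subgroupOf_mono X h1)
    have h4 : Y = (Y.subgroupOf X).map X.subtype := by
      rw [Subgroup.subgroupOf_map_subtype, inf_eq_left.2 h2]
    refine ⟨(D.comap (QuotientGroup.mk' _)).map X.subtype, fun n hn => ⟨⟨n, hNX hn⟩, ?_, rfl⟩,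
      Subgroup.map_subtype_le _, ?_, ?_⟩
    · change QuotientGroup.mk' _ _ ∈ D
      rw [QuotientGroup.mk'_apply, (QuotientGroup.eq_one_iff _).2 (by exact hn)]
      exact one_mem _
    · rw [h4, ← Subgroup.map_sup, ← h3,
        Subgroup.comap_sup_eq _ _ _ (QuotientGroup.mk'_surjective _), hD.sup_eq_top,
        Subgroup.comap_top, ← MonoidHom.range_eq_map, X.range_subtype]
    · rw [h4, ← Subgroup.map_inf _ _ _ X.subtype_injective, ← h3, ← Subgroup.comap_inf,
        hD.inf_eq_bot, MonoidHom.comap_bot, QuotientGroup.ker_mk', Subgroup.subgroupOf_map_subtype,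
        inf_eq_left.2 hNX]
  refine ⟨fun H => ?_⟩
  by_cases h : ∀ g : G, ∀ n ∈ N, g⁻¹ * n * g ∈ Subgroup.normalizer (H : Set G)
  · have h1 : Subgroup.normalClosure (N : Set G) ≤ Subgroup.normalizer (H : Set G) :=
      (Subgroup.closure_le _).2 fun x hx => by
        obtain ⟨n, hn, h1⟩ := Group.mem_conjugatesOfSet_iff.1 hx
        obtain ⟨c, rfl⟩ := isConj_iff.1 h1
        simpa using h c⁻¹ n hn
    rcases (Subgroup.normalClosure_normal (s := (N : Set G))).eq_bot_or_eq_top with h2 | h2
    · exact absurd (eq_bot_iff.2 (h2 ▸ Subgroup.le_normalClosure)) hN0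
    · rcases (Subgroup.normalizer_eq_top_iff.1 (eq_top_iff.2 (h2 ▸ h1))).eq_bot_or_eq_top with
        rfl | rfl
      · exact ⟨⊤, isCompl_bot_top⟩
      · exact ⟨⊥, isCompl_top_bot⟩
  push Not at h
  obtain ⟨g, n, hn, h⟩ := h
  obtain ⟨C, -, h2, h3⟩ := exists_compl_of_interval hNX hint huniq
    (H := H.map (MulAut.conj g).toMonoidHom) fun h' => h (Subgroup.centralizer_le_normalizer _
      fun x hx => by
        have := hcen n hn _ (h' ⟨x, hx, rfl⟩)
        simp only [MulEquiv.coe_toMonoidHom, MulAut.conj_apply] at this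
        calc x * (g⁻¹ * n * g) = g⁻¹ * (g * x * g⁻¹ * n) * g := by group
          _ = _ := by rw [this]; group)
  have h4 : H.map (MulAut.conj g).toMonoidHom ⊓ C = ⊥ := by
    have := Fact.mk hN
    rcases (Subgroup.eq_bot_or_eq_top_of_prime_card
      ((H.map (MulAut.conj g).toMonoidHom ⊓ C).subgroupOf N)) with h5 | h5
    · rwa [Subgroup.subgroupOf_eq_bot, disjoint_iff, inf_eq_left.2 h3] at h5
    · obtain ⟨x, hx, h6⟩ := (Subgroup.subgroupOf_eq_top.1 h5 hn).1
      refine (h (Subgroup.le_normalizer ?_)).elim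
      simpa [← h6, mul_assoc] using hx
  exact ⟨_, (MulAut.conj g).mapSubgroup.isCompl_iff.2 (by
    rw [OrderIso.apply_symm_apply]
    exact ⟨disjoint_iff.2 h4, codisjoint_iff.2 h2⟩ :
      IsCompl ((MulAut.conj g).mapSubgroup H) ((MulAut.conj g).mapSubgroup
        ((MulAut.conj g).mapSubgroup.symm C)))⟩

end Cfsg.Agent.S5903
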