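import Cfsg.Statements.S5904
import Mathlib

set_option autoImplicit false
open scoped Pointwise
open Cfsg

namespace Cfsg.Agent.S5904

/-- Let Ω be a finite set with more than two elements and O ⊆ Ω a subset with exactly as many elements as its complement. Then the setwise stabilizer of O in the symmetric group on Ω is not a maximal subgroup (it is properly contained in the stabilizer of the partition {O, Ω ∖ O}, which is proper). -/
theorem result {Ω : Type*} [Fintype Ω] [DecidableEq Ω] (hΩ : 2 < Fintype.card Ω)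
    (O : Set Ω) (hO : Nat.card O = Nat.card ↥Oᶜ) :
    ¬ IsCoatom (MulAction.stabilizer (Equiv.Perm Ω) O) := by
  classical
  let K : Subgroup (Equiv.Perm Ω) :=
    { carrier := {g | (∀ x, g x ∈ O ↔ x ∈ O) ∨ ∀ x, g x ∈ O ↔ x ∉ O}
      one_mem' := Or.inl fun _ => Iff.rfl
      mul_mem' := by
        rintro a b (ha | ha) (hb | hb)
        · exact Or.inl fun x => (ha _).trans (hb x)
        · exact Or.inr fun x => (ha _).trans (hb x)
        · exact Or.inr fun x => (ha _).trans (hb x).not
        · exact Or.inl fun x => (ha _).trans ((hb x).not.trans not_not)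
      inv_mem' := by
        rintro a (ha | ha)
        · exact Or.inl fun x => by rw [← ha]; simp
        · exact Or.inr fun x => by rw [← not_iff_not, ← ha]; simp }
  have hs : ∀ g : Equiv.Perm Ω, g ∈ MulAction.stabilizer (Equiv.Perm Ω) O ↔
      ∀ x, g x ∈ O ↔ x ∈ O := fun g => MulAction.mem_stabilizer_set
  have h1 : O.ncard + Oᶜ.ncard = Nat.card Ω := Set.ncard_add_ncard_compl O
  rw [Nat.card_coe_set_eq, Nat.card_coe_set_eq] at hO
  rw [Nat.card_eq_fintype_card] at h1
  obtain ⟨x, hx, z, hz, hxz⟩ := (Set.one_lt_ncard (s := O) (Set.toFinite _)).1 (by omega)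
  obtain ⟨y, hy⟩ := (Set.ncard_pos (s := Oᶜ) (Set.toFinite _)).1 (by omega)
  intro h
  have h2 : K = ⊤ := by
    refine h.2 K (lt_of_le_of_ne (fun g hg => Or.inl ((hs g).1 hg)) fun e => ?_)
    obtain ⟨f⟩ : Nonempty (O ≃ ↥Oᶜ) := Finite.card_eq.1 hO
    let g : Equiv.Perm Ω := ((Equiv.Set.sumCompl O).symm.trans
      ((f.sumCongr f.symm).trans (Equiv.sumComm _ _))).trans (Equiv.Set.sumCompl O)
    have hg : ∀ x, g x ∈ O ↔ x ∉ O := by
      intro x
      obtain ⟨x | x, rfl⟩ := (Equiv.Set.sumCompl O).surjective x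
      · have h1 : (f x : Ω) ∉ O := (f x).2
        simp [g, h1]
      · have h1 : (x : Ω) ∉ O := x.2
        simp [g, h1]
    have : g ∈ MulAction.stabilizer (Equiv.Perm Ω) O := by rw [e]; exact Or.inr hg
    exact (hg x).1 (((hs g).1 this x).2 hx) hx
  have h3 : Equiv.swap x y ∈ K := h2 ▸ Subgroup.mem_top _
  rcases h3 with h3 | h3
  · exact hy (by simpa [hx] using h3 x)
  · have h4 := h3 z
    rw [Equiv.swap_apply_of_ne_of_ne hxz.symm (by rintro rfl; exact hy hz)] at h4
    exact h4.1 hz hz

end Cfsg.Agent.S5904
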