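import Cfsg.Statements.S5908
import Cfsg.Agent.S0827

set_option autoImplicit false
open Cfsg

namespace Cfsg.Agent.S5908

/-- The subgroup lattice of PSU₃(2) (the solvable group of order 72, realised over the field with 4 elements) is not complemented: some subgroup H has no subgroup X with H ⊔ X = ⊤ and H ⊓ X = ⊥. -/
theorem result {F : Type*} [Field F] [Fintype F] (hF : Fintype.card F = 4) :
    ¬ ComplementedLattice (Subgroup (Cfsg.PSU 3 F 2)) := by
  intro hL
  obtain ⟨N, _, -, -, ⟨e⟩⟩ := S0827.result hF
  let π := e.toMonoidHom.comp (QuotientGroup.mk' N)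
  have hπ : Function.Surjective π := e.surjective.comp (QuotientGroup.mk'_surjective N)
  obtain ⟨X, h1, h2⟩ := exists_isCompl ((Subgroup.center _).comap π)
  have k : ∀ a : QuaternionGroup 2, a * a ∈ Subgroup.center _ ∧
      (a * a = 1 → a ∈ Subgroup.center _) := by
    simp only [Subgroup.mem_center_iff]; decide
  have : X ≤ (Subgroup.center _).comap π := fun x hx => (k _).2 (by
    rw [← map_mul, Subgroup.disjoint_def.1 h1 (by simpa using (k (π x)).1) (mul_mem hx hx), map_one])
  have := Subgroup.comap_injective hπ (a₂ := ⊤) ((sup_eq_left.2 this).symm.trans (codisjoint_iff.1 h2))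
  exact absurd (fun a => Subgroup.mem_center_iff.1 (this.ge (Subgroup.mem_top a))) (by decide)

end Cfsg.Agent.S5908
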