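import Cfsg.Statements.S5910
import Cfsg.Agent.Char.Wreath

set_option autoImplicit false
open Cfsg

namespace Cfsg.Agent.S5910

open Cfsg.Lib.Char

open Equiv Equiv.Perm

/-- first coordinates of an affine plane -/
def Q (i j k l : Fin 4) : Prop :=
  (i = j ∧ k = l) ∨ (i = k ∧ j = l) ∨ (i = l ∧ j = k) ∨
    (i ≠ j ∧ i ≠ k ∧ i ≠ l ∧ j ≠ k ∧ j ≠ l ∧ k ≠ l)

instance (i j k l : Fin 4) : Decidable (Q i j k l) := by unfold Q; infer_instance

/-- affine planes -/
def P (x y z w : Fin 4 × Fin 2) : Prop := Q x.1 y.1 z.1 w.1 ∧ x.2 + y.2 + z.2 + w.2 = 0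

instance (x y z w : Fin 4 × Fin 2) : Decidable (P x y z w) := by unfold P; infer_instance

theorem Q_perm (σ : Fin 4 → Fin 4) (h : Function.Injective σ) (i j k l : Fin 4) :
    Q (σ i) (σ j) (σ k) (σ l) ↔ Q i j k l := by
  simp only [Q, ne_eq, h.eq_iff]

theorem sum_eq : ∀ (ε : Fin 4 → Fin 2), ε 0 + ε 1 + ε 2 + ε 3 = 0 → ∀ i j k l, Q i j k l →
    ε i + ε j + ε k + ε l = 0 := by decide +kernel

theorem perm_two : ∀ (τ : Perm (Fin 2)) (x : Fin 2), τ x = x + τ 0 := by decide +kernel

theorem sign_two : ∀ (a b c d : Perm (Fin 2)), sign a * sign b * sign c * sign d = 1 →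
    a 0 + b 0 + c 0 + d 0 = 0 := by decide +kernel

theorem add_aux : ∀ a b c d e f g h : Fin 2, e + f + g + h = 0 →
    ((a + e) + (b + f) + (c + g) + (d + h) = 0 ↔ a + b + c + d = 0) := by decide +kernel

theorem pres (g : Perm (Fin 4 × Fin 2)) (hg : g ∈ Wreath.partStab Prod.fst) (hs : sign g = 1)
    (x y z w : Fin 4 × Fin 2) : P (g x) (g y) (g z) (g w) ↔ P x y z w := by
  have h1 : ∀ x : Fin 4 × Fin 2, (g x).1 = (g (x.1, 0)).1 := fun x => (hg _ _).1 rfl
  have hi : Function.Injective fun i : Fin 4 => (g (i, 0)).1 := fun i j h => (hg (i, 0) (j, 0)).2 h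
  let σ : Perm (Fin 4) := Equiv.ofBijective _ (Finite.injective_iff_bijective.1 hi)
  have hj : ∀ i : Fin 4, Function.Injective fun a : Fin 2 => (g (i, a)).2 := fun i a b h =>
    congrArg Prod.snd (g.injective (Prod.ext ((hg (i, a) (i, b)).1 rfl) h))
  let τ : Fin 4 → Perm (Fin 2) := fun i => Equiv.ofBijective _ (Finite.injective_iff_bijective.1 (hj i))
  have e : g = prodCongrLeft (fun _ => σ) * prodCongrRight τ := by
    ext x : 1
    exact Prod.ext (h1 x) rfl
  have hs' : sign (τ 0) * sign (τ 1) * sign (τ 2) * sign (τ 3) = 1 := by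
    rw [e, map_mul, sign_prodCongrLeft, sign_prodCongrRight, Fin.prod_univ_two, Int.units_mul_self,
      one_mul, Fin.prod_univ_four] at hs
    exact hs
  have h2 : ∀ x : Fin 4 × Fin 2, (g x).2 = x.2 + τ x.1 0 := fun x => perm_two (τ x.1) x.2
  have h3 : ∀ x : Fin 4 × Fin 2, (g x).1 = σ x.1 := h1
  simp only [P, h2, h3, Q_perm σ σ.injective]
  exact and_congr_right fun hQ => add_aux _ _ _ _ _ _ _ _
    (sum_eq (fun i => τ i 0) (sign_two _ _ _ _ hs') _ _ _ _ hQ)

/-- a transvection -/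
def t : Perm (Fin 4 × Fin 2) := swap (0, 1) (1, 0) * swap (2, 1) (3, 0)

/-- a three cycle -/
def c : Perm (Fin 4 × Fin 2) := swap (0, 0) (0, 1) * swap (0, 0) (1, 0)

theorem t_pres : ∀ x y z w, P (t x) (t y) (t z) (t w) ↔ P x y z w := by decide +kernel

theorem t_sign : sign t = 1 := by decide +kernel

theorem c_sign : sign c = 1 := by decide +kernel

theorem c_not : ¬ (P (c (0, 0)) (c (0, 1)) (c (2, 0)) (c (2, 1)) ↔ P (0, 0) (0, 1) (2, 0) (2, 1)) := by
  decide +kernel

theorem t_not : ¬ (t (0, 0)).1 = (t (0, 1)).1 := by decide +kernel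

/-- Let Ω be a set with 8 elements and f : Ω → Fin 4 a labelling whose four fibres all have size 2 (a partition of the 8 points into 4 pairs). Then the group of even permutations preserving this partition, (S₂ ≀ S₄) ∩ A₈, is not a maximal subgroup of the alternating group A₈ (it lies in a subgroup isomorphic to the affine group AGL₃(2)). -/
theorem result {Ω : Type*} [Fintype Ω] [DecidableEq Ω] (h8 : Fintype.card Ω = 8)
    (f : Ω → Fin 4) (hf : ∀ i : Fin 4, Nat.card {x : Ω // f x = i} = 2) :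
    ¬ IsCoatom ((Subgroup.closure {g : Equiv.Perm Ω | ∀ x y : Ω, f x = f y ↔ f (g x) = f (g y)} ⊓ alternatingGroup Ω).subgroupOf (alternatingGroup Ω)) := by
  rw [Wreath.closure_eq]
  obtain ⟨e, he⟩ := Wreath.exists_equiv hf
  let H : Subgroup (alternatingGroup Ω) :=
    { carrier := {g | ∀ x y z w, P (e (g.1 x)) (e (g.1 y)) (e (g.1 z)) (e (g.1 w)) ↔
        P (e x) (e y) (e z) (e w)}
      one_mem' := fun _ _ _ _ => Iff.rfl
      mul_mem' := fun {g h} hg hh x y z w => (hg _ _ _ _).trans (hh x y z w)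
      inv_mem' := fun {g} hg x y z w => by
        have := hg (g.1⁻¹ x) (g.1⁻¹ y) (g.1⁻¹ z) (g.1⁻¹ w)
        simpa using this.symm }
  intro h
  have h1 : (Wreath.partStab f ⊓ alternatingGroup Ω).subgroupOf (alternatingGroup Ω) ≤ H := by
    intro g hg x y z w
    have := pres (e.permCongr g.1) (fun x y => by
      have := hg.1 (e.symm x) (e.symm y)
      simpa [← he] using this) (by simpa using mem_alternatingGroup.1 g.2) (e x) (e y) (e z) (e w)
    simpa using this
  have ht : e.symm.permCongr t ∈ alternatingGroup Ω := by simpa using t_sign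
  have hc : e.symm.permCongr c ∈ alternatingGroup Ω := by simpa using c_sign
  have h2 := h.2 H (h1.lt_of_ne fun h3 => by
    have h4 : (⟨_, ht⟩ : alternatingGroup Ω) ∈ H := fun x y z w => by
      simpa using t_pres (e x) (e y) (e z) (e w)
    rw [← h3] at h4
    have := (h4.1 (e.symm (0, 0)) (e.symm (0, 1))).1 (by simp [← he])
    exact t_not (by simpa [← he] using this))
  have h5 : (⟨_, hc⟩ : alternatingGroup Ω) ∈ H := h2 ▸ Subgroup.mem_top _
  exact c_not (by simpa using h5 (e.symm (0, 0)) (e.symm (0, 1)) (e.symm (2, 0)) (e.symm (2, 1)))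

end Cfsg.Agent.S5910
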