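import Cfsg.Statements.S5912
import Cfsg.Agent.Char.SixIndex

set_option autoImplicit false
open Cfsg

namespace Cfsg.Agent.S5912

open Cfsg.Lib.Char

theorem map_conj_equiv {G G' : Type*} [Group G] [Group G'] (e : G ≃* G') (H : Subgroup G) (g : G) :
    (H.map e.toMonoidHom).map (MulAut.conj (e g)).toMonoidHom =
      (H.map (MulAut.conj g).toMonoidHom).map e.toMonoidHom := by
  rw [Subgroup.map_map, Subgroup.map_map]; congr 1; ext x; simp

/-- The symmetric group on a 6-element set Ω has exactly two conjugacy classes of subgroups of index 6: there are two non-conjugate subgroups of index 6 (a point stabilizer and a transitive subgroup isomorphic to S₅), and every subgroup of index 6 is conjugate to one of them. -/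
theorem result {Ω : Type*} [Fintype Ω] [DecidableEq Ω] (h6 : Fintype.card Ω = 6) :
    ∃ H₁ H₂ : Subgroup (Equiv.Perm Ω), H₁.index = 6 ∧ H₂.index = 6 ∧
      (¬ ∃ g : Equiv.Perm Ω, Subgroup.map (MulAut.conj g).toMonoidHom H₁ = H₂) ∧
      ∀ H : Subgroup (Equiv.Perm Ω), H.index = 6 →
        ∃ g : Equiv.Perm Ω, Subgroup.map (MulAut.conj g).toMonoidHom H₁ = H ∨ Subgroup.map (MulAut.conj g).toMonoidHom H₂ = H := by
  let e : Equiv.Perm (Fin 6) ≃* Equiv.Perm Ω := (Fintype.equivFinOfCardEq h6).symm.permCongrHom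
  refine ⟨(MulAction.stabilizer (Equiv.Perm (Fin 6)) (0 : Fin 6)).map e.toMonoidHom,
    Six.K0.map e.toMonoidHom, (Subgroup.index_map_equiv _ e).trans (Six.index_stab 0),
    (Subgroup.index_map_equiv _ e).trans Six.index_K0, ?_, fun H hH => ?_⟩
  · rintro ⟨g, hg⟩
    obtain ⟨g, rfl⟩ := e.surjective g
    rw [map_conj_equiv, Six.map_stab] at hg
    refine Six.K0_ne 1 (g 0) ?_
    rw [Subgroup.map_injective e.injective hg]; ext x; simp
  · obtain ⟨g, hg⟩ := Six.classify (H := H.map e.symm.toMonoidHom)
      ((Subgroup.index_map_equiv _ e.symm).trans hH)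
    have h1 : (H.map e.symm.toMonoidHom).map e.toMonoidHom = H := by ext x; simp
    refine ⟨e g, ?_⟩
    rw [map_conj_equiv, map_conj_equiv]
    exact hg.imp (fun h => by rw [h, h1]) (fun h => by rw [h, h1])

end Cfsg.Agent.S5912
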