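import Cfsg.Statements.S5914
import Cfsg.Agent.Perm.DirectPower

set_option autoImplicit false
open Cfsg

namespace Cfsg.Agent.S5914

theorem pow_charSimple {S : Type*} [Group S] [IsSimpleGroup S] (n : ℕ)
    (H : Subgroup (Fin n → S)) (hH : H.Characteristic) : H = ⊥ ∨ H = ⊤ := by
  by_cases hb : H = ⊥
  · exact Or.inl hb
  right
  obtain ⟨⟨x, hx⟩, hx1⟩ := Subgroup.ne_bot_iff_exists_ne_one.1 hb
  obtain ⟨i, hi⟩ : ∃ i, x i ≠ 1 := by
    by_contra hcon
    push Not at hcon
    exact hx1 (Subtype.ext (funext hcon))
  have hmap : ∀ (φ : (Fin n → S) ≃* (Fin n → S)), ∀ y ∈ H, φ y ∈ H := fun φ y hy =>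
    (Subgroup.characteristic_iff_map_le.1 hH φ) ⟨y, hy, rfl⟩
  have hex : ∃ j t, t ≠ 1 ∧ Pi.mulSingle j t ∈ H := by
    by_cases hS : IsMulCommutative S
    · by_cases hj : ∃ j, j ≠ i
      · obtain ⟨j, hj⟩ := hj
        have hc : ∀ a b : S, a * b = b * a := hS.is_comm.comm
        let φ : (Fin n → S) ≃* (Fin n → S) :=
          { toFun := fun y => y * Pi.mulSingle j (y i)
            invFun := fun y => y * Pi.mulSingle j (y i)⁻¹
            left_inv := fun y => by
              funext k
              by_cases hk : k = j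
              · subst hk; simp [Pi.mulSingle_eq_of_ne hj.symm]
              · simp [Pi.mulSingle_eq_of_ne hk]
            right_inv := fun y => by
              funext k
              by_cases hk : k = j
              · subst hk; simp [Pi.mulSingle_eq_of_ne hj.symm]
              · simp [Pi.mulSingle_eq_of_ne hk]
            map_mul' := fun y z => by
              funext k
              by_cases hk : k = j
              · subst hk
                simp only [Pi.mul_apply, Pi.mulSingle_eq_same, mul_assoc]
                rw [← mul_assoc (z k), hc (z k), mul_assoc]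
              · simp [Pi.mulSingle_eq_of_ne hk] }
        refine ⟨j, x i, hi, ?_⟩
        have := H.mul_mem (H.inv_mem hx) (hmap φ x hx)
        simpa [φ] using this
      · push Not at hj
        refine ⟨i, x i, hi, ?_⟩
        convert hx using 1
        funext k
        rw [hj k, Pi.mulSingle_eq_same]
    · obtain ⟨t, ht⟩ := exists_ne (1 : S)
      exact ⟨i, t, ht, Cfsg.Lib.Perm.mulSingle_mem_of_normal hS H hx hi t⟩
  obtain ⟨j, t, ht, hjt⟩ := hex
  rw [eq_top_iff]
  intro y _
  apply Subgroup.pi_mem_of_mulSingle_mem
  intro k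
  have h1 := Cfsg.Lib.Perm.mulSingle_mem_of_mulSingle_mem H j
    (fun s y hy => Subgroup.Normal.conj_mem inferInstance y hy _) ht hjt (y k)
  have h2 := hmap (MulEquiv.arrowCongr (Equiv.swap j k) (MulEquiv.refl S)) _ h1
  convert h2 using 1
  funext l
  simp only [MulEquiv.arrowCongr_apply, MulEquiv.refl_apply, Equiv.symm_swap]
  by_cases hl : l = k
  · subst hl; simp
  · rw [Pi.mulSingle_eq_of_ne hl, Pi.mulSingle_eq_of_ne]
    intro e
    apply hl
    rw [Equiv.swap_apply_eq_iff, Equiv.swap_apply_left] at e
    exact e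

/-- A non-trivial finite group G is characteristically simple (its only characteristic subgroups are 1 and G) if and only if G is isomorphic to a direct power S^n (n ≥ 1) of some simple group S (possibly cyclic of prime order). -/
theorem result {G : Type*} [Group G] [Finite G] [Nontrivial G] :
    (∀ H : Subgroup G, H.Characteristic → H = ⊥ ∨ H = ⊤) ↔
    ∃ (S : Type) (_ : Group S) (_ : IsSimpleGroup S) (n : ℕ), 1 ≤ n ∧ Nonempty (G ≃* (Fin n → S)) := by
  constructor
  · intro h
    obtain ⟨T, _, m, h1, h2, h3⟩ := Cfsg.Lib.Perm.exists_mulEquiv_pi_of_charSimple h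
    exact ⟨T, inferInstance, h1, m, h2, h3⟩
  · rintro ⟨S, _, _, n, -, ⟨e⟩⟩ H hH
    have : (H.map e.toMonoidHom).Characteristic := by
      rw [Subgroup.characteristic_iff_map_le]
      rintro φ _ ⟨_, ⟨x, hx, rfl⟩, rfl⟩
      refine ⟨_, (Subgroup.characteristic_iff_map_le.1 hH ((e.trans φ).trans e.symm)) ⟨x, hx, rfl⟩, ?_⟩
      simp
    rcases pow_charSimple n _ this with h | h
    · left
      exact (Subgroup.map_eq_bot_iff_of_injective H e.injective).1 h
    · right
      apply Subgroup.map_injective (f := e.toMonoidHom) e.injective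
      rw [h, Subgroup.map_top_of_surjective _ e.surjective]

end Cfsg.Agent.S5914
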