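import Cfsg.Statements.S5918
import Cfsg.Agent.Chev.E8SU4

set_option autoImplicit false
open Cfsg

namespace Cfsg.Agent.S5918

/-- Let G be the Chevalley group of type E₈ over the field with three elements (generated by its root elements in the 248-dimensional adjoint representation; it is the simple group E₈(3)). Then G has no subgroup isomorphic to any of PSL₂(41), PSL₂(32), PSU₄(3) or PSp₆(3). Here F₄₁, F₃₂, F₉ denote fields with 41, 32 and 9 elements (PSU₄(3) is realised over F₉), and PSp₆(3) is the quotient of the symplectic group of 6 × 6 matrices over the field with three elements by its centre. -/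
theorem result
    {F₄₁ F₃₂ F₉ : Type*} [Field F₄₁] [Fintype F₄₁] (h41 : Fintype.card F₄₁ = 41) [Field F₃₂] [Fintype F₃₂] (h32 : Fintype.card F₃₂ = 32)
    [Field F₉] [Fintype F₉] (h9 : Fintype.card F₉ = 9) (H : Subgroup ↥(Cfsg.Lie.chevE8.group (ZMod 3))) :
    IsEmpty (↥H ≃* Matrix.ProjectiveSpecialLinearGroup (Fin 2) F₄₁) ∧ IsEmpty (↥H ≃* Matrix.ProjectiveSpecialLinearGroup (Fin 2) F₃₂) ∧
    IsEmpty (↥H ≃* Cfsg.PSU 4 F₉ 3) ∧ IsEmpty (↥H ≃* Cfsg.PSp 3 (ZMod 3)) := by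
  refine ⟨⟨fun e => ?_⟩, ⟨fun e => ?_⟩, ⟨fun e => ?_⟩, ⟨fun e => ?_⟩⟩
  · obtain ⟨f, hf⟩ := Lib.Chev.E8S.exists_hom H e
    exact Lib.Chev.E8S.no41 hf h41
  · obtain ⟨f, hf⟩ := Lib.Chev.E8S.exists_hom H e
    exact Lib.Chev.E8S.no32 hf h32
  · obtain ⟨e'⟩ := Cfsg.Agent.S0303.result (F := ZMod 3) (K := F₉) (q := 3) rfl h9 0 1 (by decide)
    obtain ⟨f, hf⟩ := Lib.Chev.M6.exists_hom_center H (e.trans e'.symm)
    exact Lib.Chev.M6.U4.no_u4 h9 hf
  · obtain ⟨f, hf⟩ := Lib.Chev.M6.exists_hom_center H e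
    exact Lib.Chev.M6.Sp.no_sp hf

end Cfsg.Agent.S5918
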