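import Cfsg.Statements.S5922
import Cfsg.Agent.Chev.E8SL2
import Cfsg.Agent.Chev.E8SCls

set_option autoImplicit false
open Cfsg

namespace Cfsg.Agent.S5922

open Cfsg.Lib.Chev Cfsg.Lib.Chev.E8S Cfsg.Lib.Chev.L2F Cfsg.Lib.Known.GL2

theorem no243 {F : Type*} [Field F] [Fintype F] (h : Fintype.card F = 243) {f : SL2 F →* G8}
    (hf : ∀ g, f g = 1 ↔ g = 1 ∨ g = -1) : False := by
  have : Fact (Nat.Prime 3) := ⟨by norm_num⟩
  have : CharP F 3 := charP_of_card_eq_prime_pow (f := 5) h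
  have h2 : (2 : F) ≠ 0 := two_ne_zero_of_charP 3 (by norm_num)
  obtain ⟨γ, s, hγ, hs, H⟩ := exists_tori F 3
  obtain ⟨m, h3, h4, h5⟩ := H (ad8.comp f)
  rw [h] at hγ hs h4 h5
  rw [finrank_ad] at h4 h5
  obtain ⟨μ, a1, a2, -⟩ := exists_cw (f (dSL γ)) (n := 121) (by norm_num)
    (pow_eq_one_of hf h2 ((orderOf_dSL γ).trans hγ))
  obtain ⟨ν, b1, b2, -⟩ := exists_cw (f s) (n := 122) (by norm_num) (pow_eq_one_of hf h2 hs)
  have a3 := a2 1 121 rfl
  have b3 := b2 1 122 rfl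
  have b4 := b2 61 2 rfl
  have b5 : fx ad8 (f s ^ 61) ≠ 248 := fun e =>
    absurd (hs ▸ dvd_of_pow_eq_one hf (eq_one_of_fx e)) (by norm_num)
  rw [pow_one] at a3 b3
  have := mod121 a1
  have := mod122 b1
  have := two_cases ν
  change fx ad8 (f _) = fx ad8 (f _) + _ at h3
  change fx ad8 (f _) + _ ≤ _ at h5
  omega

theorem no729' {F : Type*} [Field F] [Fintype F] (h : Fintype.card F = 729) {f : SL2 F →* G8}
    (hf : ∀ g, f g = 1 ↔ g = 1 ∨ g = -1) : False := by
  have : Fact (Nat.Prime 3) := ⟨by norm_num⟩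
  have : CharP F 3 := charP_of_card_eq_prime_pow (f := 6) h
  have h2 : (2 : F) ≠ 0 := two_ne_zero_of_charP 3 (by norm_num)
  obtain ⟨l, -, hl, -, -⟩ := exists_tori.{_, 0} F 3
  rw [h] at hl
  have ho : ∀ a d, a * d = 728 → orderOf (l ^ a) = d := fun a d e => by
    have ha : 0 < a := Nat.pos_of_mul_pos_right (e ▸ by norm_num : 0 < a * d)
    rw [orderOf_pow_of_dvd ha.ne' (hl ▸ Dvd.intro _ e), hl]
    exact Nat.div_eq_of_eq_mul_right ha e.symm
  obtain ⟨μ, a1, a2, -⟩ := exists_cw (f (dSL (l ^ 2))) (n := 182) (by norm_num)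
    (pow_eq_one_of hf h2 ((orderOf_dSL _).trans (ho 2 _ rfl)))
  have a3 : ∀ a d, a * d = 182 → fx (ad8.comp f) (dSL (l ^ (2 * a))) = 8 + nz d μ := fun a d e => by
    rw [← a2 a d e, ← map_pow, dSL_pow, ← pow_mul]; rfl
  have a4 : ∀ a d, a * d = 182 → d ≠ 1 → nz d μ ≠ 240 := fun a d e hd e' => by
    have h3 := dvd_of_pow_eq_one hf (eq_one_of_fx ((a2 a d e).trans (by rw [e'])))
    rw [orderOf_dSL, ho 2 (182 * 2) rfl, ← e] at h3
    have ha : 0 < a := Nat.pos_of_mul_pos_right (e ▸ by norm_num : 0 < a * d)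
    exact hd (Nat.dvd_one.1 (Nat.dvd_of_mul_dvd_mul_left ha
      ((mul_one a).symm ▸ Nat.dvd_of_mul_dvd_mul_right two_pos h3)))
  let _ := ZMod.algebra F 3
  let E := GaloisField 3 3
  let _ := Fintype.ofFinite E
  have hE : Fintype.card E = 27 := by
    rw [← Nat.card_eq_fintype_card]; exact GaloisField.card 3 3 (by norm_num)
  have hr : Module.finrank (ZMod 3) F = 6 := Nat.pow_right_injective (show 2 ≤ 3 by norm_num) (by
    have := Module.card_eq_pow_finrank (K := ZMod 3) (V := F)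
    rw [ZMod.card, h] at this
    exact this.symm)
  obtain ⟨ι⟩ := (FiniteField.nonempty_algHom_iff_finrank_dvd (F := ZMod 3) (K := E) (L := F)).2 (by
    rw [hr, GaloisField.finrank 3 (by norm_num)]; norm_num)
  let j : SL2 E →* SL2 F := Matrix.SpecialLinearGroup.map ι.toRingHom
  have hj : Function.Injective j := fun a b e =>
    Subtype.ext (Matrix.map_injective ι.toRingHom.injective (congrArg Subtype.val e))
  obtain ⟨γ, s, hγ, hs, H⟩ := exists_tori E 3
  obtain ⟨m, h3, h4, -⟩ := H (ad8.comp (f.comp j))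
  rw [hE] at hγ hs h4
  rw [finrank_ad] at h4
  change fx (ad8.comp f) (j _) = fx (ad8.comp f) (j _) + _ at h3
  have h5 : orderOf (j (dSL γ)) = 26 := by rw [orderOf_injective j hj, orderOf_dSL, hγ]
  have h6 : orderOf (j s) = 28 := by rw [orderOf_injective j hj, hs]
  rw [fx_split _ 3 (h5.trans (ho (2 * 14) 26 rfl).symm) (by rw [h5]; norm_num) (by rw [h5]; norm_num)
      (by rw [h5, h]; norm_num),
    fx_split _ 3 (h6.trans (ho (2 * 13) 28 rfl).symm) (by rw [h6]; norm_num) (by rw [h6]; norm_num)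
      (by rw [h6, h]; norm_num), a3 14 13 rfl, a3 13 14 rfl] at h3
  have h7 := fun a => fx_dihedral (ad8.comp f) h2 (z := dSL (l ^ (2 * 91)))
    (eq_neg_one_of_orderOf_SL h2 (by
      rw [← pow_two, dSL_pow, ← pow_mul, orderOf_dSL]; exact ho _ _ rfl)) a
  have h8 := h7 (l ^ (2 * 13))
  have h9 := h7 (l ^ (2 * 2))
  rw [finrank_ad, a3 91 2 rfl] at h8 h9
  rw [a3 13 14 rfl] at h8
  rw [a3 2 91 rfl] at h9
  exact no729 a1 (a4 91 2 rfl (by norm_num)) (a4 26 7 rfl (by norm_num)) (m := m) (by omega)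
    (by omega) fun _ => by omega

/-- Let G be the Chevalley group of type E₈ over the field with three elements (generated by its root elements in the 248-dimensional adjoint representation; it is the simple group E₈(3)). Then G has no subgroup isomorphic to PSL₂(243) and no subgroup isomorphic to PSL₂(729). Here F₂₄₃ and F₇₂₉ denote fields with 243 and 729 elements. -/
theorem result
    {F₂₄₃ F₇₂₉ : Type*} [Field F₂₄₃] [Fintype F₂₄₃] (h243 : Fintype.card F₂₄₃ = 243) [Field F₇₂₉] [Fintype F₇₂₉] (h729 : Fintype.card F₇₂₉ = 729)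
    (H : Subgroup ↥(Cfsg.Lie.chevE8.group (ZMod 3))) :
    IsEmpty (↥H ≃* Matrix.ProjectiveSpecialLinearGroup (Fin 2) F₂₄₃) ∧ IsEmpty (↥H ≃* Matrix.ProjectiveSpecialLinearGroup (Fin 2) F₇₂₉) := by
  refine ⟨⟨fun e => ?_⟩, ⟨fun e => ?_⟩⟩
  · obtain ⟨f, hf⟩ := exists_hom H e
    exact no243 h243 hf
  · obtain ⟨f, hf⟩ := exists_hom H e
    exact no729' h729 hf

end Cfsg.Agent.S5922
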