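import Cfsg.Statements.S5939
import Cfsg.Agent.Class.PSL2Subfield

set_option autoImplicit false
open Cfsg

namespace Cfsg.Agent.S5939

open Cfsg.Lib.Class

/-- Let p be a prime and F a finite field of characteristic p such that either F has p elements and p ≡ ±1 (mod 10), or F has p² elements and p ≡ ±3 (mod 10). Then PSL_2(F) has a maximal subgroup isomorphic to the alternating group A_5. -/
theorem result {F : Type*} [Field F] [Fintype F] (p : ℕ) [Fact p.Prime] [CharP F p] (h : (Fintype.card F = p ∧ (p % 10 = 1 ∨ p % 10 = 9)) ∨ (Fintype.card F = p ^ 2 ∧ (p % 10 = 3 ∨ p % 10 = 7))) : ∃ H : Subgroup (Matrix.ProjectiveSpecialLinearGroup (Fin 2) F), IsCoatom H ∧ Nonempty (H ≃* alternatingGroup (Fin 5)) := by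
  rw [← Nat.card_eq_fintype_card] at h
  have hp : p.Prime := Fact.out
  have hp2 : p ≠ 2 := by omega
  have h2 : (2 : F) ≠ 0 := (two_ne_zero_iff_char p).2 hp2
  have h5 : 5 ∣ Nat.card F * (Nat.card F - 1) * (Nat.card F + 1) := by
    rw [Nat.prime_five.dvd_mul, Nat.prime_five.dvd_mul]
    rcases h with ⟨h, h'⟩ | ⟨h, h'⟩
    · omega
    · have : p ^ 2 % 10 = 9 := by rcases h' with h' | h' <;> simp [Nat.pow_mod, h']
      omega
  obtain ⟨H, e⟩ := exists_A5 h5
  refine exists_isCoatom_of_covBy (covBy_psl2_of_A5 h2 ?_ (fun F₁ hF₁ => ?_) e) e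
  · rcases h with ⟨h, h'⟩ | ⟨h, h'⟩
    · have := hp.two_le
      omega
    · have : 3 ^ 2 ≤ p ^ 2 := Nat.pow_le_pow_left (by omega) 2
      omega
  · rcases h with ⟨h, h'⟩ | ⟨h, h'⟩
    · exact absurd (subfield_eq_top_of_prime (h ▸ hp) F₁) hF₁
    · have hb : Nat.card (⊥ : Subfield F) = p := Subfield.card_bot F p
      rw [subfield_eq_of_prime (F₀ := ⊥) Nat.prime_two (by rw [hb, h]) bot_le hF₁, hb,
        Nat.prime_five.dvd_mul, Nat.prime_five.dvd_mul]
      omega

end Cfsg.Agent.S5939
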