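import Cfsg.Statements.S5947
import Cfsg.Agent.Class.Singer
import Cfsg.Agent.Class.Zsigmondy
import Cfsg.Agent.Known.GLOrder
import Cfsg.Agent.Solv.PowSucc

set_option autoImplicit false
open Cfsg

namespace Cfsg.Agent.S5947

open Cfsg.Lib.Class Polynomial

/-- Let F ⊆ K be finite fields with |F| = q and [K : F] = n ≥ 2, regard K as an n-dimensional F-vector space, and let M ≤ GL_F(K) be the Singer group of multiplications by non-zero elements of K (cyclic of order q^n − 1). Assume (n, q) ≠ (6, 2), and that it is not the case that n = 2 with q a prime such that q + 1 is a power of 2. Then every abelian subgroup of GL_F(K) of order q^n − 1 is conjugate to M. -/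
theorem result {F K : Type*} [Field F] [Fintype F] [Field K] [Fintype K] [Algebra F K] (n : ℕ) (hn : 2 ≤ n) (hdim : Module.finrank F K = n)
    (hex1 : ¬ (n = 6 ∧ Fintype.card F = 2))
    (hex2 : ¬ (n = 2 ∧ (Fintype.card F).Prime ∧ ∃ a : ℕ, Fintype.card F + 1 = 2 ^ a))
    (U : Subgroup (Module.End F K)ˣ) (hU : IsMulCommutative U) (hcard : Nat.card U = Fintype.card K - 1) :
    ∃ g : (Module.End F K)ˣ, U.map (MulAut.conj g).toMonoidHom = (Units.map ((Algebra.lmul F K : K →ₐ[F] Module.End F K) : K →* Module.End F K)).range := by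
  classical
  have : Finite (Module.End F K) := Finite.of_injective _ DFunLike.coe_injective
  obtain ⟨p, hp⟩ := CharP.exists F
  have hpp : p.Prime := CharP.char_is_prime F p
  have : Fact p.Prime := ⟨hpp⟩
  obtain ⟨m, -, hm⟩ := FiniteField.card F p
  have hq : 1 < Fintype.card F := Fintype.one_lt_card
  have hK : Fintype.card K = Fintype.card F ^ n := by rw [Module.card_eq_pow_finrank (K := F), hdim]
  obtain ⟨r, hr, hord⟩ := zsigmondy hq (show 1 < n by omega) (fun h ↦ hex1 ⟨h.2, h.1⟩) (by
    rintro ⟨h2, a, ha⟩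
    refine hex2 ⟨h2, ?_, a, ha⟩
    have ha1 : 1 ≤ a := by
      rcases a with _ | a
      · omega
      · omega
    rcases Cfsg.Lib.Solv.prime_pow_eq_prime_pow_add_one Nat.prime_two hpp ha1 m.2
      (by rw [← ha, hm]; rfl) with h | h | h
    · have : (m : ℕ) = 1 := h.2.1
      rw [hm, this, pow_one]; exact hpp
    · have h3 := h.2.1
      subst h3
      omega
    · have : 2 ∣ 9 := h.1 ▸ dvd_pow_self 2 (by omega)
      omega)
  have : Fact r.Prime := ⟨hr⟩
  have hrd : r ∣ Fintype.card F ^ n - 1 := (dvd_pow_sub_one_iff_orderOf_dvd hq.le n).2 (hord ▸ dvd_rfl)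
  have hcop : p.Coprime r := by
    rw [Nat.coprime_primes hpp hr]
    rintro rfl
    have h1 : p ∣ Fintype.card F ^ n := by
      rw [hm]; exact (dvd_pow_self p m.ne_zero).trans (dvd_pow_self _ (by omega))
    have h2 : 1 ≤ Fintype.card F ^ n := Nat.one_le_pow _ _ (by omega)
    have := (Nat.dvd_sub_iff_right h2 h1).1 hrd
    exact hpp.one_lt.ne' (Nat.dvd_one.1 this)
  obtain ⟨x, hx⟩ := exists_prime_orderOf_dvd_card' (G := U) r (by rw [hcard, hK]; exact hrd)
  set X₀ : Module.End F K := ((x : (Module.End F K)ˣ) : Module.End F K) with hX₀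
  have hint : IsIntegral F X₀ := Algebra.IsIntegral.isIntegral X₀
  have hxr : X₀ ^ r = 1 := by
    have := congrArg (fun y : U ↦ ((y : (Module.End F K)ˣ) : Module.End F K)) (pow_orderOf_eq_one x)
    simpa [hx] using this
  have hx1 : X₀ ≠ 1 := fun h ↦ by
    have : x = 1 := Subtype.ext (Units.ext h)
    rw [this, orderOf_one] at hx
    exact hr.one_lt.ne hx
  have hmin : minpoly F X₀ ∣ cyclotomic r F * (X - 1) := by
    rw [cyclotomic_prime_mul_X_sub_one]
    exact minpoly.dvd F X₀ (by simp [hxr])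
  have hncop : ¬ IsCoprime (minpoly F X₀) (cyclotomic r F) := fun h ↦ by
    have := aeval_eq_zero_of_dvd_aeval_eq_zero (h.dvd_of_dvd_mul_left hmin) (minpoly.aeval F X₀)
    exact hx1 (by simpa [sub_eq_zero] using this)
  obtain ⟨f, hf, hf1, hf2⟩ : ∃ f : F[X], Irreducible f ∧ f ∣ minpoly F X₀ ∧ f ∣ cyclotomic r F := by
    by_contra! h
    exact hncop (isCoprime_of_irreducible_dvd (fun h' ↦ minpoly.ne_zero hint h'.1) h)
  have hfd : f.natDegree = n := by
    rw [Cfsg.Lib.Known.natDegree_of_dvd_cyclotomic p hcop hf hf2, hord]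
  have hmd : (minpoly F X₀).natDegree ≤ n := by
    rw [← hdim, ← X₀.charpoly_natDegree]
    exact natDegree_le_of_dvd X₀.minpoly_dvd_charpoly X₀.charpoly_monic.ne_zero
  have hassoc : Associated f (minpoly F X₀) :=
    associated_of_dvd_of_natDegree_le hf1 (minpoly.ne_zero hint) (by omega)
  have hirr : Irreducible (minpoly F X₀) := hassoc.irreducible hf
  have hmd' : (minpoly F X₀).natDegree = n := by
    rw [← hfd]; exact natDegree_eq_of_degree_eq (degree_eq_degree_of_associated hassoc).symm
  have : Fact (Irreducible (minpoly F X₀)) := ⟨hirr⟩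
  obtain ⟨φ⟩ := FiniteField.nonempty_algHom_of_finrank_dvd (F := F)
    (K := AdjoinRoot (minpoly F X₀)) (L := K) (by
      rw [(AdjoinRoot.powerBasis hirr.ne_zero).finrank, AdjoinRoot.powerBasis_dim, hmd', hdim])
  set α := φ (AdjoinRoot.root (minpoly F X₀)) with hα
  have hroot : aeval α (minpoly F X₀) = 0 := by
    rw [hα, aeval_algHom_apply, AdjoinRoot.aeval_eq, AdjoinRoot.mk_self, map_zero]
  have hmα : minpoly F X₀ = minpoly F α :=
    minpoly.eq_of_irreducible_of_monic hirr hroot (minpoly.monic hint)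
  have htop : Algebra.adjoin F {α} = ⊤ := by
    rw [← IntermediateField.adjoin_simple_toSubalgebra_of_isAlgebraic
      (Algebra.IsAlgebraic.isAlgebraic α),
      (Field.primitive_element_iff_minpoly_natDegree_eq F α).2 (by rw [← hmα, hmd', hdim]),
      IntermediateField.top_toSubalgebra]
  obtain ⟨h, -, hh⟩ := exists_conj_of_minpoly htop (x := X₀) (hmα ▸ minpoly.aeval F X₀)
  refine ⟨h⁻¹, Subgroup.eq_of_le_of_card_ge ?_ ?_⟩
  · rintro _ ⟨u, hu, rfl⟩
    have := hh u (congrArg (fun y : U ↦ ((y : (Module.End F K)ˣ) : Module.End F K))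
      (hU.is_comm.comm (⟨u, hu⟩ : U) x))
    simpa using this
  · rw [Subgroup.card_map_of_injective (MulAut.conj h⁻¹).injective, card_singer, hcard,
      Nat.card_eq_fintype_card]

end Cfsg.Agent.S5947
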